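/-
Local subsystems of constrained systems are constrained; the dichotomy theorem.
-/
import Cfsg.Agent.Fus.MinQS
import Cfsg.Agent.Grp.NilpSub
import Cfsg.Agent.Fus.Product

set_option autoImplicit false

namespace CL.Fus

open Cfsg Cfsg.FusionSystem CL.Grp CL.Loc

universe u

variable {Ω : Type u} [Group Ω] {S T P Q R U V X : Subgroup Ω} {F : FusionSystem S} {E : FusionSystem T} {p : ℕ}
  {f g k : Ω → Ω}

theorem Mor.nMor_top_conj (hg : Mor F R g) (hU : normalizerIn S U ≤ R) (hk : ∀ x ∈ R, k (g x) = x)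
    (hf : NMor F U ⊤ P f) : NMor F (img g U) ⊤ (img g P) fun y => g (f (k y)) := by
  obtain ⟨hP, a, ha, e1, e2⟩ := nMor_top_iff.1 hf
  have hUS : U ≤ S := le_sup_right.trans ha.le
  have h1 : P ⊔ U ≤ R := sup_le (hP.trans hU) ((le_normalizerIn hUS).trans hU)
  obtain ⟨b, hb, eb⟩ := hg.exists_conj h1 ha fun x hx => hU (e2 ▸ ha.map_mem_normalizerIn le_sup_right hx
    (sup_le_normalizer (hP.trans (normalizerIn_le_normalizer S U)) hx))
  rw [(hg.homOn.mono h1).img_sup] at hb
  refine nMor_top_iff.2 ⟨img_le_iff.2 fun x hx => hg.map_mem_normalizerIn (le_sup_right.trans h1)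
    (h1 (Subgroup.mem_sup_left hx)) (hP hx).2, b, hb, fun y hy => ?_, ?_⟩
  · obtain ⟨x, hx, rfl⟩ := (hg.mem_img' (le_sup_left.trans h1)).1 hy
    rw [eb x (Subgroup.mem_sup_left hx), hk x (h1 (Subgroup.mem_sup_left hx)), e1 x hx]
  · rw [← (hg.mono (le_sup_right.trans h1)).img_comp, img_congr fun x hx => eb x (Subgroup.mem_sup_right hx),
      (ha.mono le_sup_right).img_comp, e2]

variable [Finite S]

/-- A map defined on the normalizer of a fully normalized subgroup induces an isomorphism of normalizer systems. -/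
theorem Mor.exists_fIso_normalizer (hg : Mor F (normalizerIn S U) g) (hU : F.IsFullyNormalized U) (e : img g U = V)
    {N : FusionSystem (normalizerIn S U)} (hN : F.IsNormalizerSystem U N) {N' : FusionSystem (normalizerIn S V)}
    (hN' : F.IsNormalizerSystem V N') : ∃ k, Mor F (normalizerIn S V) k ∧ FIso N N' g k := by
  subst e
  obtain ⟨k, hk, hiso⟩ := hg.exists_gIso
  rw [hg.img_normalizerIn hU] at hk hiso
  refine ⟨k, hk, hiso, fun P f hf => (isNormalizerSystem_iff.1 hN' _ _).2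
    (hg.nMor_top_conj le_rfl hiso.left ((isNormalizerSystem_iff.1 hN _ _).1 hf)), fun P f hf =>
      (isNormalizerSystem_iff.1 hN _ _).2 ?_⟩
  have := hk.nMor_top_conj le_rfl hiso.right ((isNormalizerSystem_iff.1 hN' _ _).1 hf)
  rwa [hiso.img_img (le_normalizerIn hU.1)] at this

variable [Fact p.Prime]

/-- The `A × B` lemma. -/
theorem fix_of_fix_centralizerIn (hS : IsPGroup p S) (hQ : F.StronglyClosed Q) (hP : P ≤ S) (hQP : Q ≤ P)
    (hU : U ≤ P) {β : MulAut P} (hβ : β ∈ F.autGroup P) (hc : (orderOf β).Coprime p) (h1 : ∀ x ∈ U, autFun β x = x)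
    (h2 : ∀ x ∈ centralizerIn Q U, autFun β x = x) : ∀ x ∈ Q, autFun β x = x := by
  have hm := mor_autFun hP hβ
  have hR : Q ⊔ U ≤ P := sup_le hQP hU
  have := finite_of_le (hR.trans hP)
  have h3 : ∀ x ∈ Q ⊔ U, x⁻¹ * autFun β x ∈ Q := inv_mul_mem_sup (hm.homOn.mono hR)
    ((hR.trans hP).trans (StronglyClosed.le_normalizer hQ)) le_sup_left le_sup_right
    (fun x hx => Q.mul_mem (Q.inv_mem hx) (hm.mem_of_stronglyClosed hQ (hQP hx) hx))
    fun x hx => by rw [h1 x hx, inv_mul_cancel]; exact Q.one_mem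
  obtain ⟨ρ, -, e⟩ := hm.exists_aut' hR fun x hx => by
    simpa using Subgroup.mul_mem _ hx (Subgroup.mem_sup_left (h3 x hx))
  have h4 := eq_one_of_coprime_of_fix (B := Q) (U := U ⊔ centralizerIn Q U) (hS.to_le (hR.trans hP))
    (orderOf_res_coprime hR (fun x hx => (e x hx).symm) hc) (fun x hx => e x hx ▸ h3 x hx)
    (sup_le le_sup_right ((centralizerIn_le Q U).trans le_sup_left))
    (fun x hx => Subgroup.mem_sup_right ⟨hx.1.2, fun y hy => hx.2 y (Subgroup.mem_sup_left hy)⟩)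
    fun x hx hx' => (e x hx).trans (fix_sup hm.homOn hU ((centralizerIn_le Q U).trans hQP) h1 h2 x hx')
  exact fun x hx => by rw [← e x (Subgroup.mem_sup_left hx), h4, autFun_one (Subgroup.mem_sup_left hx)]

theorem IsConstrained.eq_one_of_fix (hS : IsPGroup p S) (h : F.IsConstrained p) (hP : P ≤ S) (hU : U ≤ P)
    {α : MulAut P} (hα : α ∈ F.autGroup P) (hc : (orderOf α).Coprime p) (h1 : ∀ x ∈ U, autFun α x = x)
    (hC : centralizerIn F.core U ≤ P) (h2 : ∀ x ∈ centralizerIn F.core U, autFun α x = x) : α = 1 := by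
  have hQ := isNormal_core F
  obtain ⟨g, hg, e, e'⟩ := IsNormal.extend hQ (mor_autFun hP hα)
  have := finite_of_le hg.le
  obtain ⟨γ, hγ, eγ⟩ := hg.exists_aut (by rw [hg.homOn.img_sup, img_congr e, img_autFun, e'])
  obtain ⟨β, hβ, hβc, eβ⟩ := exists_coprime_ext le_sup_left hc
    ⟨γ, hγ, fun x hx => by rw [eγ x (Subgroup.mem_sup_left hx), e x hx]⟩
  have h3 := fix_of_fix_centralizerIn hS (IsNormal.stronglyClosed hQ) hg.le le_sup_right (hU.trans le_sup_left) hβ hβc
    (fun x hx => (eβ x (hU hx)).trans (h1 x hx)) fun x hx => (eβ x (hC hx)).trans (h2 x hx)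
  have h4 := eq_one_of_coprime_of_fix (B := P ⊔ F.core) (hS.to_le hg.le) hβc
    (by rw [autModT_of_le le_rfl]; trivial) le_sup_right (fun x hx => centralizerIn_le_of_centric
      (IsConstrained.isCentric_core h) ⟨hg.le hx.1.1, hx.2⟩) fun x _ hx => h3 x hx
  exact aut_ext fun x hx => by rw [← eβ x hx, h4, autFun_one hx, autFun_one (Subgroup.mem_sup_left hx)]

/-- The centralizer systems of a constrained system are constrained (when saturated). -/
theorem IsConstrained.centralizer (hS : IsPGroup p S) (h : F.IsConstrained p) (hE : E.IsSaturated p)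
    (hT : centralizerIn S U = T) (hEU : ∀ P f, Mor E P f ↔ NMor F U ⊥ P f) : E.IsConstrained p := by
  have hTS : T ≤ S := hT ▸ centralizerIn_le S U
  have := finite_of_le hTS
  have hTp := hS.to_le hTS
  refine (isConstrained_iff_no_component hTp hE).2 fun ⟨V, C, hC⟩ => ?_
  have h1 := IsComponentIn.cenBy_of_isNormal hTp hE hC (IsNormal.inf_normK (isNormal_core F) hEU (by
    rw [normK_bot, hT]))
  have := finite_of_le (IsComponentIn.le hC)
  refine Quasisimple.ne_bot hC.2 (le_bot_iff.1 (hC.2.2.1.ge.trans (hyperfocal_le_iff.2 fun P hP α hα hc x hx => ?_)))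
  obtain ⟨g, hg, e1, e2⟩ := h1.exists_ext (mor_autFun hP hα)
  obtain ⟨-, b, hb, e3, e4⟩ := nMor_bot_iff.1 ((hEU _ _).1 hg)
  rw [normK_bot] at hb e2 e3
  have := finite_of_le hb.le
  have h2 : P ≤ P ⊔ F.core ⊓ centralizerIn S U ⊔ U := le_sup_left.trans le_sup_left
  have e5 : ∀ y ∈ F.core ⊓ centralizerIn S U ⊔ U, b y = y := fix_sup hb.homOn (le_sup_right.trans le_sup_left)
    le_sup_right (fun y hy => (e3 y (Subgroup.mem_sup_right hy)).trans (e2 y hy)) e4
  have e6 : ∀ y ∈ P, b y = autFun α y := fun y hy => (e3 y (Subgroup.mem_sup_left hy)).trans (e1 y hy)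
  obtain ⟨γ, hγ, eγ⟩ := hb.exists_aut (by
    rw [sup_assoc] at hb ⊢
    rw [hb.homOn.img_sup, img_congr e6, img_autFun, img_eq_self_of_fix e5])
  obtain ⟨β, hβ, hβc, eβ⟩ := exists_coprime_ext (Γ := F.autGroup _ ⊓ fixAut _ (F.core ⊓ centralizerIn S U ⊔ U)) h2 hc
    ⟨γ, ⟨hγ, fun y hy hy' => (eγ y hy).trans (e5 y hy')⟩, fun y hy => (eγ y (h2 hy)).trans (e6 y hy)⟩
  have h3 : centralizerIn F.core U ≤ F.core ⊓ centralizerIn S U := fun y hy => ⟨hy.1, core_le F hy.1, hy.2⟩
  have h4 := h3.trans (le_sup_right.trans (le_sup_left (a := P ⊔ F.core ⊓ centralizerIn S U) (b := U)))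
  rw [← eβ x hx, IsConstrained.eq_one_of_fix hS h hb.le le_sup_right hβ.1 hβc
    (fun y hy => hβ.2 y (Subgroup.mem_sup_right hy) (Subgroup.mem_sup_right hy)) h4
    fun y hy => hβ.2 y (h4 hy) (Subgroup.mem_sup_left (h3 hy)), autFun_one (h2 hx), inv_mul_cancel]
  exact Subgroup.one_mem _

/-- `N_F(U)` is constrained as soon as `C_F(U)` is. -/
theorem IsNormalizerSystem.isConstrained_of (hS : IsPGroup p S) (hF : F.IsSaturated p) (hU : F.IsFullyNormalized U)
    {N : FusionSystem (normalizerIn S U)} (hN : F.IsNormalizerSystem U N) {C : FusionSystem (centralizerIn S U)}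
    (hC : F.IsCentralizerSystem U C) (h : C.IsConstrained p) : N.IsConstrained p := by
  have hNp := hS.to_le (normalizerIn_le S U)
  have hNs := IsNormalizerSystem.isSaturated hS hF hU hN
  refine (isConstrained_iff_no_component hNp hNs).2 fun ⟨V, K, hK⟩ => ?_
  have hUN := IsNormalizerSystem.isNormal hN hU.1
  have e : centralizerIn (normalizerIn S U) U = centralizerIn S U :=
    le_antisymm (centralizerIn_mono (normalizerIn_le S U) U) fun x hx => ⟨centralizerIn_le_normalizerIn S U hx, hx.2⟩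
  have h1 : (castFS e.symm C).IsWeaklyNormalIn N p := IsNormal.isWeaklyNormalIn_centralizer hNp hNs hUN
    (isCentralizerSystem_iff.2 fun P f => by
      rw [mor_castFS, IsCentralizerSystem.mor_iff hC, nMor_bot_iff, e]
      refine and_congr_right fun hP => ⟨fun ⟨g, hg, e1, e2⟩ => ⟨g, IsNormalizerSystem.mor_of_le hN hg le_sup_right
        (sup_le (hP.trans (centralizerIn_le_normalizerIn S U)) (le_normalizerIn hU.1)) (img_eq_self_of_fix e2),
        e1, e2⟩, fun ⟨g, hg, e'⟩ => ⟨g, hg.of_subsystem (IsNormalizerSystem.isSubsystemOf hN), e'⟩⟩)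
  have h2 := IsComponentIn.of_le hNp hK h1 (IsComponentIn.cenBy_of_isNormal hNp hNs hK hUN).le
  generalize centralizerIn (normalizerIn S U) U = Y at e h2
  subst e
  exact IsConstrained.not_isComponentIn (hS.to_le (centralizerIn_le S U)) h h2

theorem IsConstrained.normalizer (hS : IsPGroup p S) (h : F.IsConstrained p) (hU : F.IsFullyNormalized U)
    {N : FusionSystem (normalizerIn S U)} (hN : F.IsNormalizerSystem U N) : N.IsConstrained p := by
  have hC := isCentralizerSystem_centralizerSystem F hU.1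
  exact IsNormalizerSystem.isConstrained_of hS h.1 hU hN hC (IsConstrained.centralizer hS h
    (IsCentralizerSystem.isSaturated hS h.1 (fullyCentralized_of_fullyNormalized hS h.1 hU) hC) rfl
    (isCentralizerSystem_iff.1 hC))

theorem exists_card_eq_prime_central (hS : IsPGroup p S) (hU : U ≤ S) (hn : S ≤ Subgroup.normalizer (U : Set Ω))
    (h : U ≠ ⊥) : ∃ X : Subgroup Ω, Nat.card X = p ∧ X ≤ U ∧ S ≤ Subgroup.centralizer (X : Set Ω) := by
  obtain ⟨z, hz, hz1, hc⟩ := exists_central_of_isNilpotent hS.isNilpotent hU hn h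
  have := finite_of_le ((Subgroup.zpowers_le.2 hz).trans hU)
  obtain ⟨x, hx⟩ := exists_prime_orderOf_dvd_card' (G := Subgroup.zpowers z) p (by
    obtain ⟨n, hn⟩ := (hS.to_le ((Subgroup.zpowers_le.2 hz).trans hU)).exists_card_eq
    rcases n with _ | n
    · exact absurd (Subgroup.zpowers_eq_bot.1 (Subgroup.card_eq_one.1 hn)) hz1
    · exact hn ▸ dvd_pow_self p n.succ_ne_zero)
  obtain ⟨x, n, rfl⟩ := x
  refine ⟨Subgroup.zpowers (z ^ n), by rw [Nat.card_zpowers, ← hx]; exact (Subgroup.orderOf_mk _ _).symm,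
    Subgroup.zpowers_le.2 (U.zpow_mem hz n), fun s hs y hy => ?_⟩
  obtain ⟨m, rfl⟩ := hy
  exact (((Commute.symm (Subgroup.mem_centralizer_singleton_iff.1 (hc hs))).zpow_left n).zpow_left m).eq

theorem isOfCharacteristicPType_or (hS : IsPGroup p S) (hF : F.IsSaturated p) :
    F.IsOfCharacteristicPType p ∨ F.IsOfComponentType p := by
  refine or_iff_not_imp_right.2 fun h U hU1 hU N hN => ?_
  obtain ⟨X, hX, hXU, hXc⟩ := exists_card_eq_prime_central (hS.to_le (normalizerIn_le S U)) (le_normalizerIn hU.1)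
    (normalizerIn_le_normalizer S U) hU1
  obtain ⟨g, hg, hn⟩ := exists_mor_normalizerIn_fullyNormalized hS hF (hXU.trans hU.1)
  have h1 : normalizerIn S U ≤ normalizerIn S X := fun x hx => ⟨hx.1, Subgroup.centralizer_le_normalizer _ (hXc hx)⟩
  have hg' := hg.mono h1
  have hU' := hg'.fullyNormalized_img hU
  have hN' := isNormalizerSystem_normalizerSystem F hU'.1
  obtain ⟨k, -, hiso⟩ := hg'.exists_fIso_normalizer hU rfl hN hN'
  have hG := isCentralizerSystem_centralizerSystem F hn.1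
  have hGs := IsCentralizerSystem.isSaturated hS hF (fullyCentralized_of_fullyNormalized hS hF hn) hG
  have hGp := hS.to_le (centralizerIn_le S (img g X))
  have hC := isCentralizerSystem_centralizerSystem F hU'.1
  have h2 : img g X ≤ img g U := img_mono g hXU
  have h3 : img g U ≤ centralizerIn S (img g X) := img_le_iff.2 fun x hx => hg'.map_mem_centralizerIn
    (hXU.trans (le_normalizerIn hU.1)) (le_normalizerIn hU.1 hx) (hXc (le_normalizerIn hU.1 hx))
  have e : centralizerIn (centralizerIn S (img g X)) (img g U) = centralizerIn S (img g U) :=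
    le_antisymm (centralizerIn_mono (centralizerIn_le S _) _) fun x hx => ⟨centralizerIn_anti S h2 hx, hx.2⟩
  refine hiso.isConstrained_iff.1 (IsNormalizerSystem.isConstrained_of hS hF hU' hN' hC (IsConstrained.centralizer hGp
    ((isConstrained_iff_no_component hGp hGs).2 fun hc => h ⟨_, by
      rw [hg.card_img' (le_normalizerIn (hXU.trans hU.1)), hX], hn, _, hG, hc⟩)
    (IsCentralizerSystem.isSaturated hS hF (fullyCentralized_of_fullyNormalized hS hF hU') hC) e fun P f => ?_))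
  rw [mor_centralizerSystem, nMor_bot_iff, e]
  refine and_congr_right fun hP => ⟨fun ⟨b, hb, e1, e2⟩ => ⟨b, mor_centralizerSystem.2 ⟨sup_le
    (hP.trans (centralizerIn_anti S h2)) h3, b, hb.mono (sup_le le_rfl (h2.trans le_sup_right)), fun _ _ => rfl,
    fun x hx => e2 x (h2 hx)⟩, e1, e2⟩, fun ⟨b, hb, e'⟩ => ⟨b, hb.of_subsystem (IsCentralizerSystem.isSubsystemOf hG), e'⟩⟩

omit [Finite S] [Fact p.Prime] in
theorem isCentralProductOf_bot (F : FusionSystem S) (E : FusionSystem (⊥ : Subgroup Ω)) : IsCentralProductOf F E F := by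
  let θ : ↥(S.prod (⊥ : Subgroup Ω)) →* Ω := (MonoidHom.fst Ω Ω).comp (Subgroup.subtype _)
  have e : ∀ x ∈ S.prod (⊥ : Subgroup Ω), ext θ x = x.1 := fun x hx => ext_apply θ hx
  have e1 : θ.range = S := le_antisymm (by rintro _ ⟨x, rfl⟩; exact x.2.1) fun x hx => ⟨⟨(x, 1), hx, rfl⟩, rfl⟩
  have e2 : ∀ P, P ≤ S → preimageAlong θ P = P.prod ⊥ := fun P hP => by
    ext x
    rw [mem_preimageAlong]
    exact ⟨fun h => ⟨e x h.1 ▸ h.2, h.1.2⟩, fun h => ⟨⟨hP h.1, h.2⟩, (e x ⟨hP h.1, h.2⟩).symm ▸ h.1⟩⟩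
  refine ⟨prodSystem F E, isProductSystem_prodSystem F E, ⊥, θ, bot_le, bot_inf_eq _, bot_inf_eq _, fun _ _ => rfl,
    fun y hy => (Subgroup.mem_bot.1 hy.2).symm, isFactorSystem_iff.2 ⟨le_bot_iff.1 fun x hx => ?_, e1, fun P f =>
      ⟨fun hf => ⟨e1.symm ▸ hf.le, fun x => (f x.1, x.2), ?_, fun x hx => ?_⟩, fun ⟨hP, g, hg, eg⟩ => ?_⟩⟩⟩
  · obtain ⟨h1, h2⟩ := mem_kerAlong.1 hx
    exact Prod.ext ((e x h1).symm.trans h2) h1.2
  · rw [e2 P hf.le]
    exact IsProductSystem.mor (isProductSystem_prodSystem F E) hf (mor_id E le_rfl)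
  · rw [e2 P hf.le] at hx
    rw [e x ⟨hf.le hx.1, hx.2⟩]
    exact (e (f x.1, x.2) ⟨hf.mem hx.1, hx.2⟩).symm
  · rw [e1] at hP
    rw [e2 P hP] at hg eg
    obtain ⟨f₁, f₂, h1, -, e3⟩ := mor_prodSystem.1 hg
    rw [map_fst_prod] at h1
    refine h1.congr fun x hx => ?_
    have h2 : ((x, 1) : Ω × Ω) ∈ P.prod ⊥ := ⟨hx, rfl⟩
    have := eg _ h2
    rwa [e _ (hg.le h2), e _ (hg.mem h2), e3 _ h2, eq_comm] at this

omit [Finite S] [Fact p.Prime] in
theorem IsCentralProductOf.le_right' {T₁ T₂ : Subgroup Ω} {E₁ : FusionSystem T₁} {E₂ : FusionSystem T₂}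
    (h : IsCentralProductOf E₁ E₂ E) : T₂ ≤ T := by
  obtain ⟨_, -, _, θ, -, -, -, -, h1, h2⟩ := h
  exact fun y hy => IsFactorSystem.range_eq h2 ▸ ⟨⟨(1, y), T₁.one_mem, hy⟩, h1 y _⟩

theorem isConstrained_iff_isGeneralizedFittingOf (hS : IsPGroup p S) (hF : F.IsSaturated p) :
    F.IsConstrained p ↔ (innerFusionSystem F.core).IsGeneralizedFittingOf F p := by
  refine ⟨fun h => ⟨⊥, innerFusionSystem ⊥, ⟨IsNormal.isNormalIn_inner hS hF (isNormal_bot F),
    fun U C hC => absurd hC (IsConstrained.not_isComponentIn hS h), fun R D _ _ => isSubsystemOf_iff.2 fun P f hf => ?_⟩,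
    isCentralProductOf_bot _ _⟩, fun ⟨T, E, hE, h⟩ => (isConstrained_iff_no_component hS hF).2 fun ⟨U, C, hC⟩ => ?_⟩
  · obtain rfl := le_bot_iff.1 hf.le
    exact mor_bot D hf.homOn.map_one
  · have := finite_of_le (IsComponentIn.le hC)
    exact Quasisimple.not_cenBy hC.2 ((IsLayerOf.component_le hE hC).trans (IsCentralProductOf.le_right' h))
      (IsComponentIn.cenBy_of_isNormal hS hF hC (isNormal_core F))

end CL.Fus
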