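/-
The subsystem `N_E(X)` of the normalizer of an arbitrary fully normalized subgroup, and `E`-balance.
-/
import Cfsg.Agent.Fus.ProdSat
import Cfsg.Agent.Fus.CompFit
import Cfsg.Agent.Fus.LocCon

set_option autoImplicit false

namespace CL.Fus

open Cfsg Cfsg.FusionSystem CL.Grp CL.Loc

universe u

variable {Ω : Type u} [Group Ω] {S T P Q R U V W X : Subgroup Ω} {F : FusionSystem S} {E : FusionSystem T} {p : ℕ}
  {f g : Ω → Ω}

/-- The maps between subgroups of `N_T(X)` that extend to members of `NGen` normalizing `X`. -/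
def nGenNorm (F : FusionSystem S) (E : FusionSystem T) (p : ℕ) (hT : F.StronglyClosed T) (X : Subgroup Ω)
    (hX : X ≤ S) : FusionSystem (normalizerIn T X) :=
  SubData.toFS (F := F)
    { M := fun P f => P ≤ normalizerIn T X ∧ ∃ g, NGen F E p (P ⊔ X) g ∧ (∀ x ∈ P, g x = f x) ∧ img g X = X
      sub := fun ⟨_, _, hg, e, _⟩ => ((hg.mor hT).mono le_sup_left).congr e
      congr := fun ⟨hP, g, hg, e, e'⟩ h => ⟨hP, g, hg, fun x hx => (e x hx).trans (h x hx), e'⟩
      le := fun h => h.1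
      mem := fun ⟨hP, _, hg, e, e'⟩ x hx => e x hx ▸ ⟨(hg.mor hT).mem_of_stronglyClosed hT (Subgroup.mem_sup_left hx)
        (hP hx).1, e' ▸ ((hg.mor hT).map_mem_normalizerIn le_sup_right (Subgroup.mem_sup_left hx) (hP hx).2).2⟩
      conj := fun hP ha => ⟨hP, _, nGen_conj (sup_le (hP.trans ((normalizerIn_le T X).trans hT.1)) hX) ha.1,
        fun _ _ => rfl, img_eq_self_of_eq_autFun (α := conjAut X ha.2) fun _ hx => (autFun_conjAut _ hx).symm⟩
      comp := fun ⟨hP, g, hg, e, e'⟩ ⟨_, k, hk, d, d'⟩ h => ⟨hP, _, hg.comp hk (img_le_iff.1 (by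
          rw [(hg.mor hT).homOn.img_sup, e']
          exact sup_le_sup_right (img_le_iff.2 fun x hx => e x hx ▸ h x hx) _)),
        fun x hx => by rw [e x hx, d _ (h x hx)], by rw [((hg.mor hT).mono le_sup_right).img_comp, e', d']⟩
      inv := fun {P f k} ⟨hP, g, hg, e, e'⟩ hk => by
        have hm := hg.mor hT
        obtain ⟨d, -, e1, -, -⟩ := hm.exists_inv
        have h1 := hg.inv hT e1
        rw [hm.homOn.img_sup, e', img_congr e] at h1
        refine ⟨img_le_iff.2 fun x hx => e x hx ▸ ⟨hm.mem_of_stronglyClosed hT (Subgroup.mem_sup_left hx) (hP hx).1,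
          e' ▸ (hm.map_mem_normalizerIn le_sup_right (Subgroup.mem_sup_left hx) (hP hx).2).2⟩, d, h1, fun y hy => ?_, ?_⟩
        · obtain ⟨x, hx, rfl⟩ := ((hm.mono le_sup_left).congr e).mem_img.1 hy
          rw [hk x hx, ← e x hx, e1 x (Subgroup.mem_sup_left hx)]
        · conv_lhs => rw [← e', ← (hm.mono le_sup_right).img_comp]
          exact img_eq_self_of_fix fun x hx => e1 x (Subgroup.mem_sup_right hx) }

theorem mor_nGenNorm {hT : F.StronglyClosed T} {hX : X ≤ S} : Mor (nGenNorm F E p hT X hX) P f ↔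
    P ≤ normalizerIn T X ∧ ∃ g, NGen F E p (P ⊔ X) g ∧ (∀ x ∈ P, g x = f x) ∧ img g X = X := SubData.mor_toFS _

theorem IsCP.hyperfocal_le_of_inner [Finite U] {D : FusionSystem U} (h : IsCP (innerFusionSystem Q) E D)
    (hU : IsPGroup p U) : D.hyperfocalSubgroup p ≤ T := hyperfocal_le_iff.2 fun P hP α hα hc x hx => by
  obtain ⟨f₁, f₂, h1, h2, e⟩ := h.exists_mor (mor_autFun hP hα)
  obtain ⟨-, q, hq, eq⟩ := mor_inner_iff.1 h1
  have hqU := U.le_normalizer (h.le₁ hq)
  have hT := h.symm.stronglyClosed₁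
  obtain ⟨k, hk⟩ := isPGroup_autInducedBy hU U ⟨_, conjAut_mem_autInducedBy hqU (h.le₁ hq)⟩
  obtain ⟨n, h3, m, rfl⟩ := exists_pow_crt (hc.pow_right k)
  have := inv_mul_pow_mem (T := T) hP (α := α) (β := conjAut U hqU) (fun y hy hyT => by
    rw [autFun_conjAut _ hy]; exact StronglyClosed.conj_mem hT (h.le₁ hq) hyT) (fun y hy => by
      obtain ⟨a, ha, b, hb, rfl⟩ := h.exists_mul (hP hy)
      rw [autFun_conjAut _ (hP hy), e a ha b hb hy, eq a (mem_proj_left ha hb hy), show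
        (q * (a * b) * q⁻¹)⁻¹ * (q * a * q⁻¹ * f₂ b) = q * b⁻¹ * q⁻¹ * f₂ b by group]
      exact T.mul_mem (StronglyClosed.conj_mem hT (h.le₁ hq) (T.inv_mem hb)) (h2.mem (mem_proj_right ha hb hy)))
    (p ^ k * m) x hx
  rwa [pow_mul, show conjAut U hqU ^ p ^ k = 1 from congrArg Subtype.val hk, one_pow, autFun_one (hP hx),
    pow_eq_pow_iff_modEq.2 h3, pow_one] at this

variable [Fact p.Prime] [Finite S]

/-- The subsystem `N_E(X)`, for `E` normal and `X` fully normalized in `F`. -/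
theorem IsNormalIn.exists_weaklyNormal_normalizer (hS : IsPGroup p S) (hE : E.IsNormalIn F p)
    (hX : F.IsFullyNormalized X) {N : FusionSystem (normalizerIn S X)} (hN : F.IsNormalizerSystem X N) :
    ∃ D : FusionSystem (normalizerIn T X), D.IsWeaklyNormalIn N p ∧ D.IsSubsystemOf E ∧
      D.IsSubsystemOf (nGenNorm F E p hE.1.2.2.2.1 X hX.1) ∧ ∀ U, TCentric N (normalizerIn T X) U →
        ∀ α ∈ (nGenNorm F E p hE.1.2.2.2.1 X hX.1).autGroup U, (orderOf α).Coprime p → α ∈ D.autGroup U := by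
  have hF := hE.1.2.1
  have hT := hE.1.2.2.2.1
  have hI := IsInvariantIn.strongInv hE.1.2.2
  have hS' := hS.to_le (normalizerIn_le S X)
  have hN' := IsNormalizerSystem.isSaturated hS hF hX hN
  have hNF := IsNormalizerSystem.isSubsystemOf hN
  have hTS : normalizerIn T X ≤ normalizerIn S X := normalizerIn_mono hT.1 X
  have hTX : N.StronglyClosed (normalizerIn T X) := by
    have := StronglyClosed.of_subsystem hT hNF
    rwa [show T ⊓ normalizerIn S X = normalizerIn T X from le_antisymm (fun x hx => ⟨hx.1, hx.2.2⟩)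
      fun x hx => ⟨hx.1, hTS hx⟩] at this
  set G := prodSys F E p hT hI
  have hGF : G.IsSubsystemOf F := prodSys_isSubsystemOf
  have hXG : G.IsFullyNormalized X := ⟨hX.1, fun Y h => hX.2 Y (isConj_of_subsystem hGF h)⟩
  obtain ⟨E₀, hE₀, h₀⟩ := exists_hasPPowerIndexIn hS' (isSaturated_normalizerSystem hS
    (IsNormalIn.isSaturated_prodSys hS hE) hXG) hTS (le_inf ((hyperfocal_mono normKSystem_isSubsystemOf p).trans
      (hyperfocal_prodSys_le hS)) (((hyperfocal_le_focal _ p).trans (focal_le_S _)).trans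
        (normalizerIn_le_normalizer S X)))
  have hE₀N : E₀.IsSubsystemOf N := isSubsystemOf_iff.2 fun P f hf => by
    obtain ⟨h1, g, hg, h2⟩ := mor_normalizerSystem.1 (hf.of_subsystem (HasPPowerIndexIn.isSubsystemOf h₀))
    exact (IsNormalizerSystem.mor_iff hN).2 ⟨h1, g, hg.of_subsystem hGF, h2⟩
  set Ê := nGenNorm F E p hT X hX.1
  have h1 : ∀ U, U ≤ normalizerIn T X → ∀ α ∈ Ê.autGroup U, (orderOf α).Coprime p → α ∈ E₀.autGroup U :=
    fun U hU α hα hc => by
      obtain ⟨-, g, hg, h2⟩ := mor_nGenNorm.1 (mor_autFun hU hα)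
      exact HasPPowerIndexIn.mem_autGroup h₀ hU ((mem_autGroup_iff (hU.trans hTS)).2
        (mor_normalizerSystem.2 ⟨hU.trans hTS, g, hg.mor_prodSys, h2⟩)) hc
  have := finite_of_le hTS
  obtain ⟨D, hD, hDE, hD', -⟩ := StrongInv.exists_weaklyNormal (E := Ê) (fun P Q f g hPQ hQ hf hfQ hg => by
      obtain ⟨hP, f', hf', e, e'⟩ := mor_nGenNorm.1 hf
      obtain ⟨-, g', hg', d, d'⟩ := (IsNormalizerSystem.mor_iff hN).1 hg
      obtain ⟨k, hk, ek⟩ := hf'.conj hS hF hT hI hg' (sup_le_sup_right hPQ X) (img_le_iff.1 (by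
        rw [(hf'.mor hT).homOn.img_sup, e']
        exact sup_le_sup_right (img_le_iff.2 fun x hx => e x hx ▸ hfQ x hx) _))
      rw [(hg'.homOn.mono (sup_le_sup_right hPQ X)).img_sup, d', img_congr fun x hx => d x (hPQ hx)] at hk
      refine ⟨k, mor_nGenNorm.2 ⟨img_le_iff.2 fun x hx => hg.mem_of_stronglyClosed hTX (hPQ hx) (hP hx), k, hk,
        fun _ _ => rfl, ?_⟩, fun x hx => by
          rw [← d x (hPQ hx), ek x (Subgroup.mem_sup_left hx), e x hx, d _ (hfQ x hx)]⟩
      conv_lhs => rw [← d', ← (hg'.mono le_sup_right).img_comp,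
        img_congr fun x hx => ek x (Subgroup.mem_sup_right hx), ((hf'.mor hT).mono le_sup_right).img_comp, e', d'])
    hS' hN' hTX (isSubsystemOf_iff.2 fun P f hf => by
      obtain ⟨hP, g, hg, h2⟩ := mor_nGenNorm.1 hf
      exact (IsNormalizerSystem.mor_iff hN).2 ⟨hP.trans hTS, g, hg.mor hT, h2⟩) (goodFam_tCentric hS' hN' hTX)
    (fun U hU hn => (sylIn_of_fullyNormalized (hS'.to_le hTS) hE₀ (fullyNormalized_of_stronglyClosed hS' hN' hTX hE₀N
      hU.1 hn)).mono autInducedBy_le_hatK (hatK_le_of (h1 U hU.1) (autInducedBy_le_autGroup E₀ hU.1)))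
    fun U Q hU hn hUQ hQ α hα hc hαn => by
      have hQT := hQ.trans (normalizerIn_le _ U)
      have := finite_of_le hQT
      obtain ⟨β, hβ, hβc, eβ⟩ := exists_coprime_ext hUQ hc (exists_aut_ext_of_normalizes (stronglyClosed_self E₀)
        (receptive_of_fullyNormalized (hS'.to_le hTS) hE₀ (fullyNormalized_of_stronglyClosed hS' hN' hTX hE₀N hU.1 hn))
        (hU.centralizerIn_le hTS) hUQ hQ (h1 U hU.1 α hα hc) hαn)
      obtain ⟨-, g, hg, e, e'⟩ := mor_normalizerSystem.1 ((mor_autFun hQT hβ).of_subsystem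
        (HasPPowerIndexIn.isSubsystemOf h₀))
      have := finite_of_le hg.le
      obtain ⟨γ, hγ, eγ⟩ := hg.exists_aut (by rw [hg.homOn.img_sup, img_congr e, img_autFun, e'])
      obtain ⟨δ, hδ, hδc, eδ⟩ := exists_coprime_ext (Γ := pairAut G (Q ⊔ X) X) le_sup_left hβc ⟨γ, ⟨hγ,
        (mem_stabAut_iff_img le_sup_right).2 ((img_congr fun x hx => eγ x (Subgroup.mem_sup_right hx)).trans e')⟩,
        fun x hx => by rw [eγ x (Subgroup.mem_sup_left hx), e x hx]⟩
      exact ⟨β, (mem_autGroup_iff hQT).2 (mor_nGenNorm.2 ⟨hQT, _, nGen_of_coprime hS hg.le hδ.1 hδc, eδ,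
        (mem_stabAut_iff_img le_sup_right).1 hδ.2⟩), eβ⟩
  refine ⟨D, hD, isSubsystemOf_iff.2 fun P f hf => ?_, hDE, hD'⟩
  obtain ⟨hP, g, hg, e, -⟩ := mor_nGenNorm.1 (hf.of_subsystem hDE)
  exact ((hg.spec hT).2.2.mono (le_inf le_sup_left (hP.trans (normalizerIn_le T X)))).congr e

theorem centralizerIn_img_le_of_fullyCentralized (hS : IsPGroup p S) (hF : F.IsSaturated p) (hT : F.StronglyClosed T)
    (hX : F.IsFullyCentralized X) (hg : Mor F V g) (hXV : X ≤ V) (hC : centralizerIn T X ≤ V) :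
    centralizerIn T (img g X) ≤ img g V := by
  obtain ⟨d, hd, -, -, e⟩ := (hg.mono hXV).exists_inv
  obtain ⟨k, hk, ek⟩ := hd.extend_centralizerIn (e.symm ▸ receptive_of_fullyCentralized hS hF hX)
  have := finite_of_le hT.1
  have h1 : img g (centralizerIn T X) ≤ centralizerIn T (img g X) := img_le_iff.2 fun x hx =>
    ⟨hg.mem_of_stronglyClosed hT (hC hx) hx.1, (hg.map_mem_centralizerIn hXV (hC hx) hx.2).2⟩
  have h2 := (centralizerIn_mono hT.1 _).trans (le_sup_right : _ ≤ img g X ⊔ centralizerIn S (img g X))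
  refine (Subgroup.eq_of_le_of_card_ge h1 ?_).ge.trans (img_mono g hC)
  rw [(hg.mono hC).card_img]
  refine (hk.mono h2).card_le fun x hx => ⟨hk.mem_of_stronglyClosed hT (h2 hx) hx.1, ?_⟩
  have := (hk.map_mem_centralizerIn le_sup_left (h2 hx) hx.2).2
  rwa [img_congr ek, e] at this

/-- A `p'`-automorphism fixing `X` and `C_T(X)` is trivial modulo `C_S(E)`. -/
theorem IsNormalIn.inv_mul_mem_centE (hS : IsPGroup p S) (hE : E.IsNormalIn F p) (hV : V ≤ S) :
    ∀ X, X ≤ V → (∀ g, Mor F V g → centralizerIn T (img g X) ≤ img g V) → ∀ δ ∈ F.autGroup V, (orderOf δ).Coprime p →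
      (∀ x ∈ X, autFun δ x = x) → (∀ x ∈ centralizerIn T X, autFun δ x = x) →
        ∀ x ∈ V, x⁻¹ * autFun δ x ∈ centE F E := by
  have hF := hE.1.2.1
  have hT := hE.1.2.2.2.1
  have hC := stronglyClosed_centE hS hE
  refine induction_card_down (S := S) (fun V => ∀ X, X ≤ V → (∀ g, Mor F V g → centralizerIn T (img g X) ≤ img g V) →
    ∀ δ ∈ F.autGroup V, (orderOf δ).Coprime p → (∀ x ∈ X, autFun δ x = x) →
      (∀ x ∈ centralizerIn T X, autFun δ x = x) → ∀ x ∈ V, x⁻¹ * autFun δ x ∈ centE F E) (fun V hV ih => ?_) hV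
  intro X hX h δ hδ hc h1 h2
  have hm := mor_autFun hV hδ
  have := finite_of_le hV
  have h3 : ∀ x ∈ V, x ∈ T → autFun δ x = x := fun x hx hxT => fix_of_fix_centralizerIn (hS.to_le hV)
    (StronglyClosed.of_subsystem hT (fullSub_isSubsystemOf F V hV)) le_rfl inf_le_right hX
    ((mem_autGroup_iff le_rfl).2 (mor_fullSub.2 ⟨hm, le_rfl, fun y hy => autFun_mem δ hy⟩)) hc h1
    (fun y hy => h2 y ⟨hy.1.1, hy.2⟩) x ⟨hxT, hx⟩
  by_cases hTV : T ≤ V
  · intro x hx
    refine inv_mul_mem_of_coprime (hS.to_le hV) hc (hV.trans (StronglyClosed.le_normalizer hC))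
      (fun y hy hyC => hm.mem_of_stronglyClosed hC hy hyC) hx ?_
    have h4 := V.mul_mem (V.inv_mem hx) (autFun_mem δ hx)
    have h5 : Subgroup.zpowers (x⁻¹ * autFun δ x) ≤ centralizerIn S T := Subgroup.zpowers_le.2 ⟨hV h4,
      hm.homOn.inv_mul_mem_centralizer hTV (fun y hy => h3 y (hTV hy) hy) hx (StronglyClosed.le_normalizer hT (hV hx))⟩
    exact focal_le_centE hS hE (isCentralizerSystem_centralizerSystem F hT.1) (Mor.inv_mul_mem_focal
      (mor_centralizerSystem.2 ⟨h5, _, hm.mono (sup_le (Subgroup.zpowers_le.2 h4) hTV), fun _ _ => rfl,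
        fun y hy => h3 y (hTV hy) hy⟩) (Subgroup.mem_zpowers _))
  obtain ⟨k, hk, hn⟩ := exists_mor_normalizerIn_fullyNormalized hS hF hV
  replace hk := hk.mono (le_normalizerIn hV)
  have hlt := lt_sup_normalizerIn hS hT hn.1 fun h4 => hTV (by
    have := finite_of_le hT.1
    have h5 := (hk.mono (inf_le_left : V ⊓ T ≤ V)).card_img
    rw [StronglyClosed.img_inf hT hk, inf_eq_right.2 h4] at h5
    exact (Subgroup.eq_of_le_of_card_ge (inf_le_right : V ⊓ T ≤ T) h5.le).ge.trans inf_le_left)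
  have hδ' := congr_mem_autGroup hk rfl hδ
  have e' := fun x hx => autFun_congr hk rfl δ (x := x) hx
  have hc' : (orderOf (MulAut.congr (hk.equiv rfl) δ)).Coprime p := by rwa [orderOf_congr]
  generalize MulAut.congr (hk.equiv rfl) δ = γ at hδ' e' hc'
  have h4 : ∀ y ∈ img k V, y ∈ T → autFun γ y = y := fun y hy hyT => by
    obtain ⟨x, hx, rfl⟩ := hk.mem_img.1 hy
    rw [e' x hx, h3 x hx ((StronglyClosed.mem_iff hT hk hx).1 hyT)]
  have hRn := StronglyClosed.le_normalizer hT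
  obtain ⟨g, hg, eg⟩ := (mor_autFun hn.1 hδ').extend' (receptive_of_fullyNormalized hS hF hn) (img_autFun γ)
    (R := normalizerIn T (img k V)) fun t ht => by
      have hct := conjAut_mem_autGroup F hn.1 ht.2 (hT.1 ht.1)
      obtain ⟨b, hb, eb⟩ := mem_autInducedBy.1 ((sylIn_of_fullyNormalized hS hF hn).pCoreOf_le_sylow
        (mem_pCoreOf_of_fix_inf hS hT hn.1 (Subgroup.mul_mem _ (Subgroup.mul_mem _ (Subgroup.mul_mem _ hδ' hct)
          (Subgroup.inv_mem _ hδ')) (Subgroup.inv_mem _ hct)) (fun x hx hxT => by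
            have h1 := autFun_mem (conjAut _ ht.2)⁻¹ hx
            have h2 := (mor_autFun hn.1 (Subgroup.inv_mem _ hct)).mem_of_stronglyClosed hT hx hxT
            have h3 : autFun γ⁻¹ (autFun (conjAut _ ht.2)⁻¹ x) = autFun (conjAut _ ht.2)⁻¹ x := by
              conv_lhs => rw [← h4 _ h1 h2, autFun_inv_apply γ h1]
            rw [autFun_mul _ _ hx, autFun_mul _ _ h1, h3, autFun_mul _ _ h1, autFun_apply_inv _ hx, h4 x hx hxT])
          (Subgroup.mul_mem _ (conj_mem_autModT (fun x hx hxT => (mor_autFun hn.1 hδ').mem_of_stronglyClosed hT hx hxT)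
            (conjAut_mem_autModT hRn hn.1 ht.1 ht.2)) (Subgroup.inv_mem _ (conjAut_mem_autModT hRn hn.1 ht.1 ht.2)))))
      refine mem_extenderF.2 ⟨hT.1 ht.1, ht.2, b * t, S.mul_mem hb (hT.1 ht.1), fun x hx => ?_⟩
      have h5 := autFun_mem γ hx
      rw [show b * t * autFun γ x * (b * t)⁻¹ = b * (t * autFun γ x * t⁻¹) * b⁻¹ by group, ← autFun_conjAut ht.2 hx,
        ← autFun_conjAut ht.2 h5, ← eb _ (autFun_mem _ h5), ← autFun_mul _ _ h5, ← autFun_mul _ _ hx,
        ← autFun_mul _ _ hx]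
      congr 1; group
  have := finite_of_le hg.le
  have eV : img g (img k V) = img k V := (img_congr eg).trans (img_autFun γ)
  obtain ⟨β₀, hβ₀, e₀⟩ := hg.exists_aut' le_rfl (img_le_iff.1 (by
    rw [hg.homOn.img_sup, eV]
    refine sup_le_sup_left (img_le_iff.2 fun t ht => ?_) _
    exact ⟨hg.mem_of_stronglyClosed hT (Subgroup.mem_sup_right ht) ht.1,
      eV ▸ (hg.map_mem_normalizerIn le_sup_left (Subgroup.mem_sup_right ht) ht.2).2⟩))
  obtain ⟨β, hβ, hβc, eβ⟩ := exists_coprime_ext le_sup_left hc'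
    ⟨β₀, hβ₀, fun x hx => by rw [e₀ x (Subgroup.mem_sup_left hx), eg x hx]⟩
  have h5 := img_mono k hX
  intro x hx
  have h6 := ih _ hg.le (hk.card_img ▸ card_lt_of_lt hlt) _ (h5.trans le_sup_left) (fun j hj => by
      have := h _ (hk.comp_img hj le_sup_left)
      rw [(hk.mono hX).img_comp, hk.img_comp] at this
      exact this.trans (img_mono j le_sup_left)) β hβ hβc (fun y hy => by
        obtain ⟨z, hz, rfl⟩ := (hk.mem_img' hX).1 hy
        rw [eβ _ (h5 hy), e' z (hX hz), h1 z hz])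
    (fun y hy => by rw [eβ _ (h k hk hy), h4 y (h k hk hy) hy.1]) _ (Subgroup.mem_sup_left (mem_img_of_mem k hx))
  rwa [eβ _ (mem_img_of_mem k hx), e' x hx, ← hk.homOn.map_inv hx, ← hk.homOn.map_mul (V.inv_mem hx) (autFun_mem δ hx),
    StronglyClosed.mem_iff hC hk (V.mul_mem (V.inv_mem hx) (autFun_mem δ hx))] at h6

/-- A component of `N_F(X)` lies in `E` or over a subgroup of `C_S(E)`. -/
theorem IsComponentIn.normalizer_or_le_centE (hS : IsPGroup p S) (hE : E.IsNormalIn F p) (hX : F.IsFullyNormalized X)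
    {N : FusionSystem (normalizerIn S X)} (hN : F.IsNormalizerSystem X N) {K : FusionSystem R}
    (hK : K.IsComponentIn N p) : K.IsSubsystemOf E ∨ R ≤ centE F E := by
  have hF := hE.1.2.1
  have hS' := hS.to_le (normalizerIn_le S X)
  have hN' := IsNormalizerSystem.isSaturated hS hF hX hN
  have hXN := IsNormalizerSystem.isNormal hN hX.1
  obtain ⟨D, hD, hDE, -⟩ := IsNormalIn.exists_weaklyNormal_normalizer hS hE hX hN
  have hC := IsNormal.isWeaklyNormalIn_centralizer hS' hN' hXN (isCentralizerSystem_centralizerSystem N hXN.1)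
  obtain ⟨D', ⟨-, h1, h2⟩, -⟩ := exists_meet hS' hD hC
  have := finite_of_le (IsWeaklyNormalIn.le hC)
  have hKC := IsComponentIn.of_le hS' hK hC (IsComponentIn.cenBy_of_isNormal hS' hN' hK hXN).le
  refine (IsComponentIn.or_cenBy (hS'.to_le (IsWeaklyNormalIn.le hC)) hKC h2.1).imp (fun h => IsSubsystemOf.trans'
    (IsComponentIn.isSubsystemOf h) (IsSubsystemOf.trans' (IsNormalIn.isSubsystemOf h1) hDE)) fun h => ?_
  rw [← hK.2.2.1]
  refine hyperfocal_le_iff.2 fun P hP α hα hc x hx => ?_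
  obtain ⟨g, hg, e, e'⟩ := h.exists_ext (mor_autFun hP hα)
  obtain ⟨-, g', hg', d, d'⟩ := mor_centralizerSystem.1 hg
  replace hg' := hg'.of_subsystem (IsNormalizerSystem.isSubsystemOf hN)
  have h3 : centralizerIn T X ≤ normalizerIn T X ⊓ centralizerIn (normalizerIn S X) X := fun y hy =>
    ⟨centralizerIn_le_normalizerIn T X hy, centralizerIn_le_normalizerIn S X ⟨IsNormalIn.le hE hy.1, hy.2⟩, hy.2⟩
  set Y := normalizerIn T X ⊓ centralizerIn (normalizerIn S X) X
  have := finite_of_le hg'.le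
  have h4 : ∀ y ∈ Y ⊔ X, g' y = y := fix_sup hg'.homOn (le_sup_right.trans le_sup_left) le_sup_right
    (fun y hy => by rw [d y (Subgroup.mem_sup_right hy), e' y hy]) d'
  have h5 : ∀ y ∈ P, g' y = autFun α y := fun y hy => by rw [d y (Subgroup.mem_sup_left hy), e y hy]
  obtain ⟨γ, hγ, eγ⟩ := hg'.exists_aut (by
    rw [sup_assoc, (hg'.homOn.mono (sup_assoc P Y X).ge).img_sup, img_congr h5, img_autFun, img_eq_self_of_fix h4])
  have h6 : Y ⊔ X ≤ P ⊔ Y ⊔ X := sup_le_sup_right le_sup_right X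
  obtain ⟨δ, hδ, hδc, eδ⟩ := exists_coprime_ext (Γ := F.autGroup _ ⊓ fixAut _ (Y ⊔ X)) (le_sup_left.trans le_sup_left)
    hc ⟨γ, ⟨hγ, fun y hy hy' => by rw [eγ y hy, h4 y hy']⟩,
      fun y hy => by rw [eγ y (Subgroup.mem_sup_left (Subgroup.mem_sup_left hy)), h5 y hy]⟩
  rw [← eδ x hx]
  exact IsNormalIn.inv_mul_mem_centE hS hE hg'.le X le_sup_right (fun j hj => centralizerIn_img_le_of_fullyCentralized hS hF
    hE.1.2.2.2.1 (fullyCentralized_of_fullyNormalized hS hF hX) hj le_sup_right (h3.trans (le_sup_left.trans h6)))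
    δ hδ.1 hδc (fun y hy => hδ.2 y (Subgroup.mem_sup_right hy) (Subgroup.mem_sup_right hy))
    (fun y hy => hδ.2 y (h6 (Subgroup.mem_sup_left (h3 hy))) (Subgroup.mem_sup_left (h3 hy))) x
    (Subgroup.mem_sup_left (Subgroup.mem_sup_left hx))

/-- `E`-balance. -/
theorem IsLayerOf.balance (hS : IsPGroup p S) (hF : F.IsSaturated p) (hX : F.IsFullyNormalized X)
    {N : FusionSystem (normalizerIn S X)} (hN : F.IsNormalizerSystem X N) {L : FusionSystem U} (hL : L.IsLayerOf N p)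
    (hE : E.IsLayerOf F p) : L.IsSubsystemOf E := by
  have hS' := hS.to_le (normalizerIn_le S X)
  obtain ⟨D, hD, hDE, -⟩ := IsNormalIn.exists_weaklyNormal_normalizer hS hE.1 hX hN
  refine IsSubsystemOf.trans' (IsLayerOf.isSubsystemOf_of_le hS' hL hD fun R K hK =>
    le_inf ?_ ((IsComponentIn.le hK).trans (normalizerIn_le_normalizer S X))) hDE
  obtain ⟨V, G, hG⟩ := CL.Fus.exists_isGeneralizedFittingOf hS hF
  have hGn := IsGeneralizedFittingOf.isNormalIn hS hF hG
  have := finite_of_le (IsNormalIn.le hGn)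
  rcases IsComponentIn.normalizer_or_le_centE hS hGn hX hN hK with h | h
  · obtain ⟨T', E', hE', h'⟩ := IsGeneralizedFittingOf.exists_isCP hG
    rw [← hK.2.2.1, IsLayerOf.eq hE hE']
    exact (hyperfocal_mono h p).trans (h'.hyperfocal_le_of_inner (hS.to_le (IsNormalIn.le hGn)))
  · have h1 := (h.trans (IsGeneralizedFittingOf.le_center_of_cenBy hS hF hG (cenBy_centE hS hGn))).trans
      ((center_le_core G).trans (core_le_core_of_invariant hS hF hGn.1.2.2))
    have := finite_of_le (IsComponentIn.le hK)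
    exact absurd (IsComponentIn.cenBy_of_isNormal hS' (IsNormalizerSystem.isSaturated hS hF hX hN) hK
      (IsNormal.inf_normK (isNormal_core F) (isNormalizerSystem_iff.1 hN) normK_top.le))
      (Quasisimple.not_cenBy hK.2 (le_inf h1 ((IsComponentIn.le hK).trans normK_top.ge)))

end CL.Fus
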