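/-
The commutator subgroup `[G, α]` of an automorphism of order three of a finite 2-group.
-/
import Cfsg.Agent.Fus.BiP
import Cfsg.Agent.Grp.Comm1

set_option autoImplicit false

namespace CL.Fus.Bi

open Cfsg Subgroup CL.Grp CL.Fgs CL.Inv
open scoped commutatorElement

variable {G : Type*} [Group G] {α τ : MulAut G}

/-- The subgroup `[G, α]`. -/
def Hc (α : MulAut G) : Subgroup G := closure (Set.range fun x => x⁻¹ * α x)

theorem mem_Hc (α : MulAut G) (x : G) : x⁻¹ * α x ∈ Hc α := subset_closure ⟨x, rfl⟩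

instance normal_Hc (α : MulAut G) : (Hc α).Normal :=
  ⟨fun n hn g => (closure_le ((Hc α).comap (MulAut.conj g).toMonoidHom)).2 (by
    rintro _ ⟨x, rfl⟩
    have := mul_mem (mem_Hc α (x * g⁻¹)) (inv_mem (mem_Hc α g⁻¹))
    change g * (x⁻¹ * α x) * g⁻¹ ∈ Hc α
    convert this using 1
    simp [mul_assoc]) hn⟩

theorem map_Hc {x : G} (hx : x ∈ Hc α) : α x ∈ Hc α := by
  simpa using mul_mem hx (mem_Hc α x)

theorem cube (h3 : α ^ 3 = 1) (x : G) : α (α (α x)) = x := by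
  have := congrArg (fun β : MulAut G => β x) h3
  simpa [pow_succ] using this

theorem coprime_of_cube (h3 : α ^ 3 = 1) : (orderOf α).Coprime 2 :=
  Nat.Coprime.coprime_dvd_left (orderOf_dvd_of_pow_eq_one h3) (by norm_num)

variable [Finite G]

theorem tau_Hc (hG : IsPGroup 2 G) (h3 : α ^ 3 = 1) {q : G} (hτ : ∀ x, τ (α (τ⁻¹ (α x))) = q * x * q⁻¹) {x : G}
    (hx : x ∈ Hc α) : τ x ∈ Hc α := by
  let π := QuotientGroup.mk' (Hc α)
  have h1 : ∀ y, π (α y) = π y := fun y => (QuotientGroup.eq.2 (mem_Hc α y)).symm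
  have h2 : ∀ y, π (τ (α (τ⁻¹ y))) = π q * π y * (π q)⁻¹ := fun y => by
    obtain ⟨y, rfl⟩ := α.surjective y
    rw [hτ, h1, map_mul, map_mul, map_inv]
  have h4 : π q ∈ center _ := mem_of_zpow_odd (hG.to_quotient _) (j := 3) (by decide)
    (Subgroup.mem_center_iff.2 fun y => by
      obtain ⟨y, rfl⟩ := QuotientGroup.mk'_surjective _ y
      have e : π y = π (τ (α (τ⁻¹ (τ (α (τ⁻¹ (τ (α (τ⁻¹ y))))))))) := by simp [cube h3]
      rw [h2, h2, h2] at e
      change π y * _ = _ * π y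
      conv_lhs => rw [e]
      rw [zpow_ofNat, pow_three]
      group)
  refine (closure_le ((Hc α).comap τ.toMonoidHom)).2 ?_ hx
  rintro _ ⟨y, rfl⟩
  change τ (y⁻¹ * α y) ∈ Hc α
  have e := h2 (τ y)
  rw [← Subgroup.mem_center_iff.1 h4, mul_inv_cancel_right, MulAut.inv_apply_self] at e
  rw [map_mul, map_inv]
  exact QuotientGroup.eq.1 e.symm

theorem exists_fix (hG : IsPGroup 2 G) (h3 : α ^ 3 = 1) (x : G) : ∃ c, α c = c ∧ x⁻¹ * c ∈ Hc α :=
  mulAut_exists_fix_mem_coset hG (coprime_of_cube h3) (fun _ => map_Hc) (mem_Hc α x)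

theorem Hc_le (hG : IsPGroup 2 G) (h3 : α ^ 3 = 1) {K : Subgroup G} (h : ∀ x ∈ Hc α, x⁻¹ * α x ∈ K) : Hc α ≤ K := by
  refine (closure_le _).2 ?_
  rintro _ ⟨x, rfl⟩
  obtain ⟨c, hc, h1⟩ := exists_fix hG h3 x
  have := h _ (inv_mem h1)
  convert this using 1
  simp [hc, mul_assoc]

theorem fix_of_fix (hG : IsPGroup 2 G) (h3 : α ^ 3 = 1) {x : G} (h : α (x⁻¹ * α x) = x⁻¹ * α x) : α x = x := by
  have e : ∀ y, y = x⁻¹ * α x → y ^ (3 : ℤ) = 1 := fun y hy => by
    have h1 : α x = x * y := by rw [hy, mul_inv_cancel_left]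
    have h2 := cube h3 x
    rw [← hy] at h
    simp only [h1, map_mul, h] at h2
    calc y ^ (3 : ℤ) = x⁻¹ * (x * y * y * y) := by rw [zpow_ofNat, pow_three]; group
      _ = 1 := by rw [h2, inv_mul_cancel]
  exact (inv_mul_eq_one.1 (mem_bot.1 (mem_of_zpow_odd hG (j := 3) (by decide) (mem_bot.2 (e _ rfl))))).symm

theorem norm_mem (hG : IsPGroup 2 G) (h3 : α ^ 3 = 1) {x : G} (hx : x ∈ Hc α) :
    x * α x * α (α x) ∈ ⁅Hc α, Hc α⁆ := by
  let β : Hc α →* Hc α := (α.toMonoidHom.comp (Hc α).subtype).codRestrict _ fun y => map_Hc y.2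
  let ν : Hc α →* Abelianization (Hc α) :=
    Abelianization.of * Abelianization.of.comp β * Abelianization.of.comp (β.comp β)
  have hν : ∀ y, ν y = Abelianization.of (y * β y * β (β y)) := fun y => by simp [ν]
  have h1 : Hc α ≤ ν.ker.map (Hc α).subtype := Hc_le hG h3 fun y hy => ⟨(⟨y, hy⟩ : Hc α)⁻¹ * β ⟨y, hy⟩, by
    have e : β (β (β ⟨y, hy⟩)) = ⟨y, hy⟩ := Subtype.ext (cube h3 y)
    rw [SetLike.mem_coe, MonoidHom.mem_ker, map_mul, map_inv, inv_mul_eq_one, hν, hν, e]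
    simp only [map_mul, mul_comm, mul_left_comm], rfl⟩
  obtain ⟨y, hy, rfl⟩ := h1 hx
  rw [← commutator_self_eq_map]
  exact ⟨y * β y * β (β y), mem_comm_iff.2 ((hν y).symm.trans hy), rfl⟩

theorem Hc_eq (hG : IsPGroup 2 G) (h3 : α ^ 3 = 1) (h8 : (frattini (Hc α)).index ≤ 8) {p : G} (hp : p ∈ Hc α)
    (h1 : p ∉ frattini G) (h2 : p⁻¹ * α p ∉ frattini G) : Hc α = closure {p, α p} := by
  have hH := hG.to_subgroup (Hc α)
  have hF : frat (Hc α) ≤ frattini G := map_subtype_frattini_le_pGroup hG _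
  have hq := map_Hc hp
  have hc : closure {p, α p} ≤ Hc α := (closure_le _).2 (by rintro _ (rfl | rfl) <;> assumption)
  set B := frat (Hc α) with hB
  have hBH : B ≤ Hc α := frat_le _
  have hn : Hc α ≤ normalizer (B : Set G) := le_normalizer.trans (le_normalizer_frat hH)
  set K := closure {p, α p} ⊔ B with hK
  have hKH : K ≤ Hc α := sup_le hc hBH
  have hpK : p ∈ K := mem_sup_left (subset_closure (Or.inl rfl))
  have hqK : α p ∈ K := mem_sup_left (subset_closure (Or.inr rfl))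
  have hαB : ∀ x ∈ B, α x ∈ B := by
    rintro _ ⟨x, hx, rfl⟩
    exact ⟨_, (aut_mem_frattini (α.subgroupMap (Hc α) |>.trans (MulEquiv.subgroupCongr
      (eq_of_le_of_card_ge (by rintro _ ⟨y, hy, rfl⟩; exact map_Hc hy) (card_map_of_injective α.injective).ge)))).2
      hx, rfl⟩
  have hαK : ∀ x ∈ K, α x ∈ K := fun x hx => (sup_le ((closure_le (K.comap α.toMonoidHom)).2 (by
    rintro _ (rfl | rfl)
    · exact hqK
    · exact (mul_mem_cancel_left (mul_mem hpK hqK)).1 (mem_sup_right (commutator_le_frat hH (norm_mem hG h3 hp)))))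
    (fun y hy => mem_sup_right (hαB y hy)) : K ≤ K.comap α.toMonoidHom) hx
  have two : ∀ A C : Subgroup G, ¬ C ≤ A → 2 ≤ A.relIndex C := fun A C h => by
    have h4 : A.relIndex C ≠ 0 := index_ne_zero_of_finite
    have h5 : A.relIndex C ≠ 1 := fun e => h (relIndex_eq_one.1 e)
    omega
  have i1 := two B (B ⊔ zpowers p) fun h => h1 (hF (h (mem_sup_right (mem_zpowers p))))
  have i2 := two (B ⊔ zpowers p) K fun h => by
    obtain ⟨m, hm⟩ := (mem_sup_zpowers_iff (hn hp)).1 (h hqK)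
    rcases Int.even_or_odd' m with ⟨r, rfl | rfl⟩
    · exact h1 ((aut_mem_frattini α).1 ((mul_mem_cancel_left
        (inv_mem (zpow_mem_frattini_of_even hG p (even_two_mul r)))).1 (hF hm)))
    · refine h2 ((mul_mem_cancel_left (inv_mem (zpow_mem_frattini_of_even hG p (even_two_mul r)))).1 ?_)
      convert hF hm using 1
      group
  have hBK : B ⊔ zpowers p ≤ K := sup_le le_sup_right (zpowers_le.2 hpK)
  have i3 := relIndex_mul_relIndex B (B ⊔ zpowers p) K le_sup_left hBK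
  have i4 := relIndex_mul_relIndex B K (Hc α) le_sup_right hKH
  have i5 : B.relIndex (Hc α) ≤ 8 := by rwa [relIndex, hB, frat_subgroupOf]
  have i6 : K.relIndex (Hc α) ≤ 2 := by nlinarith
  refine (eq_of_sup_frat hc (Hc_le hG h3 fun x hx => ?_)).symm
  by_cases h : Hc α ≤ K
  · exact h (mem_Hc α x)
  have i7 : (K.subgroupOf (Hc α)).index = 2 := le_antisymm i6 (two _ _ h)
  have := (mul_mem_iff_of_index_two i7 (a := ⟨x, hx⟩⁻¹) (b := ⟨α x, map_Hc hx⟩)).2 (by
    rw [Subgroup.inv_mem_iff]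
    exact ⟨hαK x, fun h => by simpa [cube h3, mem_subgroupOf] using hαK _ (hαK _ h)⟩)
  exact this

/-- The data of a generator `p` of `[G, α]` that centralises the derived group. -/
structure Gn (α : MulAut G) (p : G) : Prop where
  pg : IsPGroup 2 G
  h3 : α ^ 3 = 1
  gen : Hc α = closure {p, α p}
  cm : ∀ u v : G, Commute p ⁅u, v⁆
  nF : p ∉ frattini G
  nF' : p⁻¹ * α p ∉ frattini G

namespace Gn

variable {p : G} (h : Gn α p)
include h

omit [Finite G] in
theorem pH : p ∈ Hc α := h.gen ▸ subset_closure (Or.inl rfl)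

omit [Finite G] in
theorem cm' (u v : G) : Commute (α p) ⁅u, v⁆ := by
  simpa [map_commutatorElement] using (h.cm (α⁻¹ u) (α⁻¹ v)).map α

omit [Finite G] in
theorem le {K : Subgroup G} (h1 : p ∈ K) (h2 : α p ∈ K) : Hc α ≤ K :=
  h.gen ▸ (closure_le _).2 (by rintro _ (rfl | rfl) <;> assumption)

theorem norm : ∃ i : ℤ, p * α p * α (α p) = ⁅p, α p⁆ ^ i := by
  have h1 := norm_mem h.pg h.h3 h.pH
  rw [h.gen] at h1
  obtain ⟨i, hi⟩ := commutator_closure_pair_le (N := zpowers ⁅p, α p⁆)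
    (mem_norm_zpowers (by rw [(h.cm _ _).eq, mul_inv_cancel_right]; exact mem_zpowers _))
    (mem_norm_zpowers (by rw [(h.cm' _ _).eq, mul_inv_cancel_right]; exact mem_zpowers _)) (mem_zpowers _) h1
  exact ⟨i, hi.symm⟩

theorem fixk : α ⁅p, α p⁆ = ⁅p, α p⁆ := by
  obtain ⟨i, hi⟩ := h.norm
  have e : α (α p) = (p * α p)⁻¹ * ⁅p, α p⁆ ^ i := by rw [← hi, inv_mul_cancel_left]
  have h1 := ((h.cm' p (α p)).zpow_right i).eq
  have h2 := ((h.cm p (α p)).mul_left (h.cm' p (α p))).inv_left.eq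
  rw [map_commutatorElement, e]
  set k := ⁅p, α p⁆
  calc ⁅α p, (p * α p)⁻¹ * k ^ i⁆ = p⁻¹ * k ^ i * (α p)⁻¹ * (k ^ i)⁻¹ * p * α p := by group
    _ = p⁻¹ * (α p)⁻¹ * p * α p := by
      rw [mul_assoc p⁻¹, ((h.cm' p (α p)).zpow_right i).inv_left.symm.eq, mul_assoc p⁻¹, mul_inv_cancel_right]
    _ = (α p * p)⁻¹ * ⁅p, α p⁆ * (α p * p) := by group
    _ = k := by rw [((h.cm' p (α p)).mul_left (h.cm p (α p))).inv_left.eq, inv_mul_cancel_right]

section NC

variable (hn : ∀ v ∈ frattini G, v ^ 2 = 1 → α v = v)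
include hn

theorem sq : α p ^ 2 = p ^ 2 := by
  have step : ∀ r : ℕ, α (p ^ (2 * (2 * r))) = p ^ (2 * (2 * r)) → α (p ^ (2 * r)) = p ^ (2 * r) := fun r hr => by
    have hF : p ^ (2 * r) ∈ frattini G := by rw [mul_comm, pow_mul]; exact pow_mem_frattini h.pg _
    refine fix_of_fix h.pg h.h3 (hn _ (mul_mem (inv_mem hF) ((aut_mem_frattini α).2 hF)) ?_)
    have e1 : ⁅p, α p⁆ ^ (2 * (2 * r)) = 1 := by
      rw [← comm_pow_left (h.cm _ _), ← hr, map_pow]
      exact commutatorElement_eq_one_iff_commute.2 ((Commute.refl _).pow_left _)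
    have e2 : Commute (p ^ (2 * r)) (α (p ^ (2 * r))) := commutatorElement_eq_one_iff_commute.1 (by
      rw [map_pow, comm_pow_left (h.cm _ _), comm_pow_right (h.cm' _ _), ← pow_mul,
        show 2 * r * (2 * r) = 2 * (2 * r) * r by ring, pow_mul, e1, one_pow])
    rw [e2.inv_left.mul_pow, ← map_pow, inv_pow, ← pow_mul, mul_comm _ 2, hr, inv_mul_cancel]
  have key : ∀ n : ℕ, α (p ^ (2 * 2 ^ n)) = p ^ (2 * 2 ^ n) → α (p ^ 2) = p ^ 2 := fun n => by
    induction n with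
    | zero => simp
    | succ n ih => exact fun e => ih (step _ (by rwa [pow_succ' 2 n] at e))
  obtain ⟨n, e⟩ := h.pg p
  rw [← map_pow]
  exact key n (by rw [mul_comm, pow_mul, e, one_pow, map_one])

theorem kw : ⁅p, α p⁆ = p ^ 2 ∧ (p ^ 2) ^ 2 = 1 := by
  obtain ⟨i, hi⟩ := h.norm
  have e : α (α p) = (p * α p)⁻¹ * ⁅p, α p⁆ ^ i := by rw [← hi, inv_mul_cancel_left]
  have h1 := h.sq hn
  have h2 : α (α p) ^ 2 = p ^ 2 := by rw [← map_pow, h1, map_pow, h1]
  have h4 : ⁅p, α p⁆ ^ 2 = 1 := by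
    rw [← comm_pow_left (h.cm _ _), ← h1]
    exact commutatorElement_eq_one_iff_commute.2 ((Commute.refl _).pow_left _)
  have h5 : (p * α p) ^ 2 = (p ^ 2) ^ 2 * ⁅p, α p⁆⁻¹ := by
    calc (p * α p) ^ 2 = p * ⁅p, α p⁆⁻¹ * (p * α p ^ 2) := by simp only [pow_two]; group
      _ = _ := by
        rw [h1, (h.cm p (α p)).inv_right.eq, mul_assoc, ← ((h.cm p (α p)).inv_right.mul_left
          ((h.cm p (α p)).inv_right.mul_left ((h.cm p (α p)).inv_right.pow_left 2))).eq]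
        group
  rw [e, (((h.cm p (α p)).mul_left (h.cm' p (α p))).inv_left.zpow_right i).mul_pow, ← zpow_natCast (_ ^ i),
    ← zpow_mul, mul_comm i, zpow_mul, zpow_natCast, h4, one_zpow, mul_one, inv_pow, h5] at h2
  have h6 : ⁅p, α p⁆ = (p ^ 2) ^ 3 := by
    rw [mul_inv_rev, inv_inv, mul_inv_eq_iff_eq_mul] at h2
    rw [h2]; group
  have h7 : (p ^ 2) ^ 2 = 1 := mem_bot.1 (mem_of_zpow_odd h.pg (j := 3) (by decide) (mem_bot.2 (by
    rw [h6] at h4
    rw [← h4]; group)))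
  exact ⟨by rw [h6, pow_succ, h7, one_mul], h7⟩

theorem memH {x : G} (hx : x ∈ Hc α) : x ∈ zpowers p ∨ (α p)⁻¹ * x ∈ zpowers p := by
  have hq : α p ∈ normalizer (zpowers p : Set G) := mem_norm_zpowers (by
    rw [show α p * p * (α p)⁻¹ = ⁅p, α p⁆⁻¹ * p by group, (h.kw hn).1]
    exact mul_mem (inv_mem (pow_mem (mem_zpowers p) 2)) (mem_zpowers p))
  obtain ⟨m, hm⟩ := (mem_sup_zpowers_iff hq).1
    (h.le (mem_sup_left (mem_zpowers p)) (mem_sup_right (mem_zpowers _)) hx)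
  have h2 : ∀ r : ℤ, α p ^ (2 * r) ∈ zpowers p := fun r => by
    rw [zpow_mul, zpow_ofNat, h.sq hn]
    exact zpow_mem (pow_mem (mem_zpowers p) 2) r
  rcases Int.even_or_odd' m with ⟨r, rfl | rfl⟩
  · exact Or.inl ((mul_mem_cancel_left (inv_mem (h2 r))).1 hm)
  · refine Or.inr ((mul_mem_cancel_left (inv_mem (h2 r))).1 ?_)
    convert hm using 1
    group

theorem fixc {c : G} (hc : α c = c) (h1 : c * p * c⁻¹ ∈ zpowers p) : Commute c p ∧ Commute c (α p) := by
  obtain ⟨i, hi⟩ := h1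
  obtain ⟨hk, hw⟩ := h.kw hn
  have hw' : α (p ^ 2) = p ^ 2 := by rw [map_pow, h.sq hn]
  suffices e : c * p * c⁻¹ = p by
    have e' := congrArg α e
    rw [map_mul, map_mul, map_inv, hc] at e'
    exact ⟨mul_inv_eq_iff_eq_mul.1 e, mul_inv_eq_iff_eq_mul.1 e'⟩
  rcases Int.even_or_odd' i with ⟨r, rfl | rfl⟩
  · refine absurd ?_ h.nF
    have := (inferInstance : (frattini G).Normal).conj_mem _ (zpow_mem_frattini_of_even h.pg p (even_two_mul r)) c⁻¹
    rw [show p ^ (2 * r) = c * p * c⁻¹ from hi] at this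
    simpa [mul_assoc] using this
  obtain ⟨y, hy, e⟩ : ∃ y ∈ zpowers (p ^ 2), c * p * c⁻¹ = y * p :=
    ⟨_, ⟨r, rfl⟩, by rw [← hi]; simp only [zpow_add_one, zpow_mul, zpow_ofNat]⟩
  rcases eq_or_of_mem_zpowers hw hy with rfl | rfl
  · rwa [one_mul] at e
  set w := p ^ 2 with hwd
  have e1 : c * α p * c⁻¹ = w * α p := by simpa [hc, hw'] using congrArg α e
  have e2 : c * α (α p) * c⁻¹ = w * α (α p) := by simpa [hc, hw'] using congrArg α e1
  have c1 : Commute p w := hk ▸ h.cm _ _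
  have c2 : Commute (α p) w := hk ▸ h.cm' _ _
  have e3 : c * w * c⁻¹ = w := by
    conv_lhs => rw [hwd, ← conj_pow, e, c1.symm.mul_pow, hw, one_mul]
  obtain ⟨j, hj⟩ := h.norm
  have e4 : c * (p * α p * α (α p)) * c⁻¹ = p * α p * α (α p) := by rw [hj, hk, ← conj_zpow, e3]
  rw [← conj_mul, ← conj_mul, e, e1, e2] at e4
  have e5 : w * p * (w * α p) * (w * α (α p)) = w ^ 2 * w * (p * α p * α (α p)) := by
    calc w * p * (w * α p) * (w * α (α p)) = w * (p * w) * (α p * w) * α (α p) := by group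
      _ = w * w * (p * w) * α p * α (α p) := by rw [c2.eq]; nth_rw 1 [c1.eq]; group
      _ = _ := by rw [c1.eq, pow_two]; group
  rw [e5, hw, one_mul, mul_eq_right] at e4
  rw [e, e4, one_mul]

end NC

end Gn

end CL.Fus.Bi
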