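/-
A non-metacyclic bicyclic 2-group with non-cyclic derived group carries no essential subgroup.
-/
import Cfsg.Agent.Fus.BiH
import Cfsg.Agent.Fus.NormalCrit

set_option autoImplicit false

namespace CL.Fus.Bi

open Cfsg Subgroup CL.Grp CL.Fgs CL.Inv
open scoped commutatorElement

variable {X : Type*} [Group X] [Finite X] {a : X}

theorem St.gen' (h : St a) {c g : X} (hc : c ∈ Lx a) (hF : c ∉ frattini X) (hg : g ∉ Lx a) (K : Subgroup X)
    (hcK : c ∈ K) (hK : g ∈ K) : K = ⊤ := by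
  obtain ⟨i, hi⟩ := memL.1 hc
  have hi' := commutator_le_frattini h.pg hi
  refine frattini_nongenerating (h.gen hg _ (mem_of_zpow_odd h.pg (j := i) ?_ ?_) (mem_sup_left hK))
  · exact Int.not_even_iff_odd.1 fun e =>
      hF ((mul_mem_cancel_left (inv_mem (zpow_mem_frattini_of_even h.pg a e))).1 hi')
  · simpa using mul_mem (mem_sup_left hcK : c ∈ K ⊔ frattini X) (inv_mem (mem_sup_right hi'))

theorem St.memZ (h : St a) {B : Subgroup X} [B.Normal] {g x : X} (hg : g ∉ Lx a) (h1 : ⁅a, x⁆ ∈ B)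
    (h2 : ⁅g, x⁆ ∈ B) : x ∈ (center (X ⧸ B)).comap (QuotientGroup.mk' B) := by
  have key : ∀ y, ⁅y, x⁆ ∈ B → y ∈ (centralizer {QuotientGroup.mk' B x}).comap (QuotientGroup.mk' B) := fun y hy =>
    mem_centralizer_singleton_iff.2 (commutatorElement_eq_one_iff_mul_comm.1
      ((map_commutatorElement _ y x).symm.trans ((QuotientGroup.eq_one_iff _).2 hy)))
  refine Subgroup.mem_center_iff.2 fun y => ?_
  obtain ⟨y, rfl⟩ := QuotientGroup.mk'_surjective B y
  exact mem_centralizer_singleton_iff.1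
    (show y ∈ (centralizer {QuotientGroup.mk' B x}).comap (QuotientGroup.mk' B) from
      h.gen hg _ (key a h1) (key g h2) ▸ mem_top y)

/-- The data of an essential subgroup `Q` with outer automizer `S₃`. -/
structure Es (a : X) (Q : Subgroup X) (s : X) (α : MulAut Q) (p y : Q) : Prop where
  st : St a
  hn : ¬ IsCyclic (commutator X)
  gn : Gn α p
  cent : centralizer (Q : Set X) ≤ Q
  sN : s ∈ normalizer (Q : Set X)
  sQ : s ∉ Q
  two : ∀ g ∈ normalizer (Q : Set X), g ∈ Q ∨ g * s ∈ Q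
  inv : ∃ q : Q, ∀ x, conjAut Q sN (α ((conjAut Q sN)⁻¹ (α x))) = q * x * q⁻¹
  yH : y ∈ Hc α
  py : (p : X) = ⁅(y : X)⁻¹, s⁆

namespace Es

variable {Q : Subgroup X} {s : X} {α : MulAut Q} {p y : Q} (e : Es a Q s α p y)
include e

omit [Finite X] in
theorem pA : (p : X) ∈ commutator X := e.py ▸ comm_mem _ _

theorem nH : normalizer (Q : Set X) ≤ normalizer (((Hc α).map Q.subtype : Subgroup X) : Set X) := fun g hg => by
  have h1 : ∀ g ∈ Q, g ∈ normalizer (((Hc α).map Q.subtype : Subgroup X) : Set X) := fun g hg =>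
    mem_normalizer_of_finite (by
      rintro _ ⟨x, hx, rfl⟩
      exact ⟨_, (normal_Hc α).conj_mem x hx ⟨g, hg⟩, rfl⟩)
  have h2 : s ∈ normalizer (((Hc α).map Q.subtype : Subgroup X) : Set X) := mem_normalizer_of_finite (by
    rintro _ ⟨x, hx, rfl⟩
    obtain ⟨q, hq⟩ := e.inv
    exact ⟨_, tau_Hc e.gn.pg e.gn.h3 hq hx, rfl⟩)
  rcases e.two g hg with h | h
  · exact h1 g h
  · exact (mul_mem_cancel_right h2).1 (h1 _ h)

theorem case1 {u : Q} (h1 : (u : X) ∈ e.st.U) (h2 : (α u : X) ∈ e.st.U) (h3 : (α (α u) : X) ∈ e.st.U)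
    (h4 : α u ≠ u) : False := by
  have h := e.st
  haveI := h.normal_U
  have four : ∀ u : Q, (u : X) ∈ h.U → (α u : X) ∈ h.U → α u ≠ u → ∀ v ∈ h.U,
      v = 1 ∨ v = u ∨ v = α u ∨ v = u * α u := fun u h1 h2 h4 v hv => by
    have u1 : u ≠ 1 := fun e => h4 (by rw [e, map_one])
    exact mem_four h.cardU h1 h2 (fun e => u1 (Subtype.ext e)) (fun e => u1 (α.map_eq_one_iff.1 (Subtype.ext e)))
      (fun e => h4 (Subtype.ext e)) h1.2 hv
  have four' : ∀ v : Q, (v : X) ∈ h.U → v = 1 ∨ v = u ∨ v = α u ∨ v = u * α u := fun v hv => by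
    simpa only [Subtype.ext_iff, coe_one, coe_mul] using four u h1 h2 h4 v hv
  have hUQ : h.U ≤ Q := fun v hv => by
    rcases four u h1 h2 h4 v hv with rfl | rfl | rfl | rfl
    exacts [one_mem _, u.2, (α u).2, mul_mem u.2 (α u).2]
  have hαU : ∀ v : Q, (v : X) ∈ h.U → (α v : X) ∈ h.U := fun v hv => by
    rcases four' v hv with rfl | rfl | rfl | rfl
    · rw [map_one]; exact one_mem _
    exacts [h2, h3, by rw [map_mul]; exact mul_mem h2 h3]
  have nofix : ∀ v : Q, (v : X) ∈ h.U → α v = v → v = 1 := fun v hv hf => by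
    rcases four' v hv with rfl | rfl | rfl | rfl
    · rfl
    · exact absurd hf h4
    · exact absurd (α.injective hf) h4
    · have h5 : u * α u = α u * u := Subtype.ext (h.ab _ h1.1 _ h2.1).eq
      rw [map_mul, h5, mul_right_inj] at hf
      exact absurd ((congrArg α hf).symm.trans (cube e.gn.h3 u)) h4
  obtain ⟨z, hz, z1, hzc, -⟩ := h.exists_z0 e.hn
  have hz4 : α ⟨z, hUQ hz⟩ ≠ ⟨z, hUQ hz⟩ := fun e1 => z1 (congrArg Subtype.val (nofix _ hz e1))
  have hzc' : ∀ x : Q, Commute x ⟨z, hUQ hz⟩ := fun x => Subtype.ext (Subgroup.mem_center_iff.1 hzc x)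
  have hQC : Q ≤ centralizer (h.U : Set X) := fun x hx v hv => by
    have h5 : Commute x z := Subgroup.mem_center_iff.1 hzc x
    have h6 : Commute x (α ⟨z, hUQ hz⟩ : X) := by simpa using ((hzc' (α⁻¹ ⟨x, hx⟩)).map α).map Q.subtype
    rcases four ⟨z, hUQ hz⟩ hz (hαU _ hz) hz4 v hv with rfl | rfl | rfl | rfl
    exacts [by simp, h5.symm, h6.symm, (h5.mul_right h6).symm]
  have hsC : s ∉ centralizer (h.U : Set X) := fun hs => by
    obtain ⟨q, hq⟩ := e.inv
    have h5 : ∀ v : Q, (v : X) ∈ h.U → conjAut Q e.sN v = v := fun v hv =>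
      Subtype.ext (mul_inv_eq_iff_eq_mul.2 (hs v hv).symm)
    have h6 := hq ⟨z, hUQ hz⟩
    rw [MulAut.inv_apply, (MulEquiv.symm_apply_eq _).2 (h5 _ (hαU _ hz)).symm, h5 _ (hαU _ (hαU _ hz)),
      (hzc' q).eq, mul_inv_cancel_right] at h6
    exact hz4 ((congrArg α h6).symm.trans (cube e.gn.h3 _))
  have hQ : Q = centralizer (h.U : Set X) := by_contra fun hne => by
    obtain ⟨g, ⟨hg1, hg2⟩, hg3⟩ := SetLike.exists_of_lt
      (lt_inf_normalizer_pGroup (h.pg.to_subgroup _) (lt_of_le_of_ne hQC hne))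
    exact hsC ((Subgroup.mul_mem_cancel_left _ hg1).1 (hQC ((e.two g hg2).resolve_left hg3)))
  have hFQ : frattini X ≤ Q := (h.FU e.hn).trans hQ.ge
  have hAF := commutator_le_frattini h.pg
  have hAL : commutator X ≤ Lx a := le_sup_right
  haveI : Q.Normal := hQ ▸ inferInstance
  have hidx : ∀ u v : X, u ∉ Q → v ∉ Q → u * v ∈ Q := fun u v hu hv =>
    hQ.ge (h.idxU e.hn (fun h5 => hu (hQ.ge h5)) fun h5 => hv (hQ.ge h5))
  have fx : ∀ c : Q, α c = c → (c : X) ∈ frattini X → c = 1 := fun c hc hF => by_contra fun c1 => by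
    have h5 := orderOf_pow_orderOf_div (orderOf_pos c).ne' (e.gn.pg.dvd_orderOf c1)
    have h6 := nofix (c ^ (orderOf c / 2)) (h.invU e.hn (h.FL (pow_mem hF _))
      (congrArg Subtype.val (h5 ▸ pow_orderOf_eq_one (c ^ (orderOf c / 2))))) (by rw [map_pow, hc])
    rw [h6, orderOf_one] at h5
    omega
  have hpq : Commute p (α p) := commutatorElement_eq_one_iff_commute.1 (fx _ e.gn.fixk (hAF (comm_mem _ _)))
  have haQ : ∀ g ∈ Q, g ∉ Lx a → a ∉ Q := fun g h5 h6 h7 => e.sQ (h.gen h6 Q h7 h5 ▸ mem_top s)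
  by_cases hf : ∀ c : Q, α c = c → c = 1
  · have h5 : ∀ x : Q, x ∈ Hc α := fun x => by
      obtain ⟨c, hc, h5⟩ := exists_fix e.gn.pg e.gn.h3 x
      simpa [hf c hc] using h5
    have h6 : ∀ x : Q, Commute p x → Commute (α p) x → ∀ w : Q, Commute w x := fun x h6 h7 w =>
      mem_centralizer_singleton_iff.1 (e.gn.le (K := centralizer {x}) (mem_centralizer_singleton_iff.2 h6)
        (mem_centralizer_singleton_iff.2 h7) (h5 w))
    have h7 : ∀ x ∈ Q, ∀ w ∈ Q, Commute x w := fun x hx w hw =>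
      (h6 ⟨w, hw⟩ (h6 p rfl hpq.symm _).symm (h6 _ hpq rfl _).symm ⟨x, hx⟩).map Q.subtype
    have h8 : ∀ r g : X, r ∈ Q → (∀ K : Subgroup X, r ∈ K → g ∈ K → K = ⊤) → False := fun r g hr hg =>
      e.hn (cyc_of_gen hg (h7 _ hr _ (Normal.conj_mem inferInstance _ hr g))
        (h7 _ hr _ (hFQ (pow_mem_frattini h.pg g))))
    obtain ⟨t, ht, -⟩ := h.ex
    by_cases ha : a ∈ Q
    · exact h8 a t ha (h.gen ht)
    by_cases htQ : t ∈ Q
    · exact h8 t a htQ fun K h9 h10 => h.gen ht K h10 h9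
    · exact h8 (a * t) a (hidx _ _ ha htQ) fun K h9 h10 => h.gen ht K h10 ((mul_mem_cancel_left h10).1 h9)
  push Not at hf
  obtain ⟨c, hc, c1⟩ := hf
  have c2 : (c : X) ^ 2 = 1 := congrArg Subtype.val (fx (c ^ 2) (by rw [map_pow, hc]) (pow_mem_frattini h.pg _))
  have cL : (c : X) ∉ Lx a := fun h5 => c1 (nofix c (h.invU e.hn h5 c2) hc)
  have cp : c * p * c⁻¹ = p⁻¹ := Subtype.ext (h.inverts cL (c2 ▸ one_mem _) e.pA)
  have cq : c * α p * c⁻¹ = (α p)⁻¹ := by simpa [hc] using congrArg α cp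
  have qL : (α p : X) ∈ Lx a := by_contra fun h5 => by
    have h6 : ((c * α p : Q) : X) ∈ h.U := h.invU e.hn (h.mul_memL cL h5) (by
      have := congrArg Subtype.val cq
      simp only [coe_mul, coe_inv] at this ⊢
      calc ((c : X) * α p) ^ 2 = c * α p * (c : X)⁻¹ * (c : X) ^ 2 * α p := by simp only [pow_two]; group
        _ = 1 := by rw [this, c2]; group)
    have h7 := hαU _ (hαU _ h6)
    rw [map_mul, map_mul, hc, hc, cube e.gn.h3] at h7
    exact cL (hAL ((mul_mem_cancel_right e.pA).1 h7.1))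
  have ha := haQ c c.2 cL
  have qF : (α p : X) ∈ frattini X := by_contra fun h5 => e.sQ (h.gen' qL h5 cL Q (α p).2 c.2 ▸ mem_top s)
  have yF : (y : X) ∈ frattini X := e.gn.le (K := (frattini X).subgroupOf Q) (hAF e.pA) qF e.yH
  haveI : (frat Q).Normal := normalizer_eq_top_iff.1 (eq_top_iff.2 (by
    rw [← normalizer_eq_top (H := Q)]; exact le_normalizer_frat e.gn.pg))
  have hB : ∀ u ∈ Q, ∀ v ∈ Q, ⁅u, v⁆ ∈ frat Q := fun u hu v hv =>
    commutator_le_frat e.gn.pg (commutator_mem_commutator hu hv)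
  have a2 : a ^ 2 ∈ Q := hFQ (pow_mem_frattini h.pg a)
  have hc0 : ⁅a, (c : X)⁆ ∈ Q := hFQ (hAF (comm_mem _ _))
  have h5 := h.cle cL _ (h.memZ (B := frat Q) cL (x := ⁅a, (c : X)⁆) (by
    have := mul_mem (hB _ a2 _ c.2) (inv_mem (pow_mem_frat e.gn.pg hc0))
    convert this using 1
    simp only [pow_two]
    group) (hB _ c.2 _ hc0))
  have h6 := h.memZ (B := frat Q) cL (x := a ^ 2)
    (by rw [commutatorElement_eq_one_iff_commute.2 ((Commute.refl a).pow_right 2)]; exact one_mem _) (hB _ c.2 _ a2)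
  obtain ⟨i, hi⟩ := h.memF.1 yF
  have h7 := (mul_mem_cancel_left (inv_mem (by rw [zpow_mul, zpow_ofNat]; exact zpow_mem h6 i))).1 (h5 hi)
  refine e.gn.nF ((mem_frat_iff p.2).1 ((QuotientGroup.eq_one_iff _).1 ?_))
  rw [e.py]
  exact (map_commutatorElement (QuotientGroup.mk' (frat Q)) _ _).trans
    (commutatorElement_eq_one_iff_mul_comm.2 (Subgroup.mem_center_iff.1 (inv_mem h7) _).symm)

theorem case2 (hn : ∀ u : Q, (u : X) ∈ e.st.U → (α u : X) ∈ e.st.U → (α (α u) : X) ∈ e.st.U → α u = u) : False := by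
  have h := e.st
  haveI := h.normal_U
  have hAL : commutator X ≤ Lx a := le_sup_right
  have hn' : ∀ v ∈ frattini Q, v ^ 2 = 1 → α v = v := fun v hv h2 => by
    have key : ∀ v ∈ frattini Q, v ^ 2 = 1 → (v : X) ∈ h.U := fun v hv h2 =>
      h.invU e.hn (h.FL (map_subtype_frattini_le_pGroup h.pg Q ⟨v, hv, rfl⟩)) (congrArg Subtype.val h2)
    have h3 : α v ^ 2 = 1 := by rw [← map_pow, h2, map_one]
    exact hn v (key v hv h2) (key _ ((aut_mem_frattini α).2 hv) h3)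
      (key _ ((aut_mem_frattini α).2 ((aut_mem_frattini α).2 hv)) (by rw [← map_pow, h3, map_one]))
  obtain ⟨w, hw⟩ : ∃ w, w = (p : X) ^ 2 := ⟨_, rfl⟩
  obtain ⟨q, hq⟩ : ∃ q, q = (α p : X) := ⟨_, rfl⟩
  have hk : ⁅(p : X), q⁆ = w := hw ▸ hq ▸ congrArg Subtype.val (e.gn.kw hn').1
  have w2 : w ^ 2 = 1 := hw ▸ congrArg Subtype.val (e.gn.kw hn').2
  have q2 : q ^ 2 = w := hw ▸ hq ▸ congrArg Subtype.val (e.gn.sq hn')
  have wU : w ∈ h.U := ⟨hk ▸ comm_mem _ _, w2⟩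
  have pA := e.pA
  have qL : q ∉ Lx a := fun qL => by
    by_cases w1 : w = 1
    · have h1 : (p : X) ∈ h.U := ⟨pA, hw ▸ w1⟩
      have h2 : (α p : X) ∈ h.U := hq ▸ h.invU e.hn qL (q2.trans w1)
      refine e.gn.nF' ?_
      rw [hn p h1 h2 (e.gn.le (K := h.U.subgroupOf Q) h1 h2 (map_Hc (map_Hc e.gn.pH))), inv_mul_cancel]
      exact one_mem _
    obtain ⟨i, hi⟩ := h.memF.1 (h.sqF qL (q2 ▸ wU.1))
    have hb : a ^ i ∈ Lx a := mem_sup_left ⟨i, rfl⟩
    set b := a ^ i with hbd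
    have hD : IsCyclic ↥⁅Lx a, Lx a⁆ := by
      rw [← commutator_self_eq_map]
      exact isCyclic_of_surjective ((Lx a).subtype.subgroupMap _) (MonoidHom.subgroupMap_surjective _ _)
        (hH := mc_isCyclic_commutator h.mc)
    have hwD : w ∈ ⁅Lx a, Lx a⁆ := hk ▸ commutator_mem_commutator (hAL pA) qL
    have hcD : ∀ x ∈ ⁅Lx a, Lx a⁆, x ^ 2 = 1 → b * x * b⁻¹ = x := fun x hx x2 => by
      by_cases x1 : x = 1
      · simp [x1]
      exact (uniq_inv hD (conj_mem_of_mem_normalizer (normalizer_commutator_ge_left _ _ hb) hx) hx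
        (by rw [conj_pow, x2]; simp) x2 x1).resolve_left (by simpa [mul_inv_eq_one] using x1)
    have y2 : ⁅(p : X), b⁆ ^ 2 = 1 := by
      have h1 := h.ab _ pA _ (Normal.conj_mem inferInstance _ (inv_mem pA) b)
      rw [show ⁅(p : X), b⁆ = p * (b * (p : X)⁻¹ * b⁻¹) by group, h1.mul_pow, conj_pow, inv_pow, ← hw, ← conj_inv,
        hcD w hwD w2, mul_inv_cancel]
    refine w1 ?_
    have h1 := (h.ab _ hi _ (inv_mem pA)).eq
    calc w = p * a ^ (2 * i) * ((a ^ (2 * i))⁻¹ * q * (p : X)⁻¹) * q⁻¹ := by rw [← hk]; group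
      _ = ⁅(p : X), b⁆ * (b * ⁅(p : X), b⁆ * b⁻¹) := by rw [h1, hbd, two_mul, zpow_add]; group
      _ = 1 := by rw [hcD _ (commutator_mem_commutator (hAL pA) hb) y2, ← pow_two, y2]
  have HL : ∀ x ∈ Hc α, (x : X) ∈ Lx a → x ∈ zpowers p := fun x hx xL => (e.gn.memH hn' hx).resolve_right fun h1 => by
    have h2 : (((α p)⁻¹ * x : Q) : X) ∈ Lx a := (zpowers_le (H := (Lx a).subgroupOf Q)).2 (hAL pA) h1
    exact qL (hq ▸ (Subgroup.inv_mem_iff _).1 ((mul_mem_cancel_right xL).1 h2))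
  have fc : ∀ c : Q, α c = c → Commute (c : X) p ∧ Commute (c : X) q := fun c hc => by
    have := e.gn.fixc hn' hc (HL _ ((normal_Hc α).conj_mem _ e.gn.pH c) (hAL (Normal.conj_mem inferInstance _ pA _)))
    exact ⟨this.1.map Q.subtype, hq ▸ this.2.map Q.subtype⟩
  obtain ⟨z, hz, z1, hzc, -⟩ := h.exists_z0 e.hn
  have qC : q ∈ centralizer (h.U : Set X) := fun v hv => by
    by_cases wc : w ∈ center X
    · rw [eq_comm, ← mul_inv_eq_iff_eq_mul, h.inverts qL (q2 ▸ wc) hv.1]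
      exact inv_eq_of_mul_eq_one_right (by rw [← pow_two, hv.2])
    have h1 : Commute q z := Subgroup.mem_center_iff.1 hzc q
    have h2 : Commute q w := q2 ▸ (Commute.refl q).pow_right 2
    rcases mem_four h.cardU hz wU z1 (fun e => wc (e ▸ one_mem _)) (fun e => wc (e ▸ hzc)) hz.2 hv with
      rfl | rfl | rfl | rfl
    exacts [by simp, h1.symm, h2.symm, (h1.mul_right h2).symm]
  have cC : ∀ c : X, Commute c q → c ∈ centralizer (h.U : Set X) := by
    have key : ∀ c ∈ Lx a, Commute c q → c ∈ centralizer (h.U : Set X) := fun c cL hc => by_contra fun h1 => by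
      have h2 := h.gen' cL (fun h2 => h1 (h.FU e.hn h2)) qL (centralizer {q}) (mem_centralizer_singleton_iff.2 hc)
        (mem_centralizer_singleton_iff.2 rfl)
      exact e.hn (Subgroup.isCyclic_of_le (h.cle qL ⊥ (commutatorElement_eq_one_iff_mul_comm.2
        (mem_centralizer_singleton_iff.1 (h2 ▸ mem_top a)))))
    intro c hc
    by_cases cL : c ∈ Lx a
    · exact key c cL hc
    · exact (mul_mem_cancel_right qC).1 (key _ (h.mul_memL cL qL) (hc.mul_left rfl))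
  have all : ∀ K : Subgroup X, (p : X) ∈ K → q ∈ K → (∀ c : Q, α c = c → (c : X) ∈ K) → Q ≤ K :=
    fun K h1 h2 h3 x hx => by
      obtain ⟨c, hc, h4⟩ := exists_fix e.gn.pg e.gn.h3 ⟨x, hx⟩
      have h5 : x⁻¹ * c ∈ K := e.gn.le (K := K.subgroupOf Q) h1 (hq ▸ h2 :) h4
      exact (Subgroup.inv_mem_iff _).1 ((mul_mem_cancel_right (h3 c hc)).1 h5)
  have hQC := all (centralizer (h.U : Set X)) (fun v hv => (h.ab _ hv.1 _ pA).eq) qC fun c hc => cC c (fc c hc).2
  have hUQ : h.U ≤ Q := fun v hv => e.cent fun x hx => (hQC hx v hv).symm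
  have fin : ∀ g : X, ⁅g, q⁆ ∈ h.U → ⁅g, (p : X)⁆ ∈ h.U → (∀ c : Q, α c = c → ⁅g, (c : X)⁆ ∈ h.U) →
      ⁅g, q⁆ ∈ zpowers (p : X) := fun g h1 h2 h3 => by
    have key : ∀ x ∈ Q, ⁅g, x⁆ ∈ h.U → x ∈ Q.comap (MulAut.conj g).toMonoidHom := fun x hx h4 => by
      simpa [commutatorElement_def] using mul_mem (hUQ h4) hx
    have hqQ : q ∈ Q := hq ▸ (α p).2
    have hg : g ∈ normalizer (Q : Set X) := mem_normalizer_of_finite fun x hx =>
      all _ (key _ p.2 h2) (key _ hqQ h1) (fun c hc => key _ c.2 (h3 c hc)) hx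
    have hqH : q ∈ (Hc α).map Q.subtype := ⟨_, map_Hc e.gn.pH, hq.symm⟩
    obtain ⟨x, hx, h4⟩ := mul_mem (conj_mem_of_mem_normalizer (e.nH hg) hqH) (inv_mem hqH)
    replace h4 : (x : X) = ⁅g, q⁆ := h4
    obtain ⟨i, hi⟩ := HL x hx (h4 ▸ hAL h1.1)
    exact ⟨i, h4 ▸ congrArg Subtype.val hi⟩
  by_cases wc : w ∈ center X
  · have hi := fun v hv => h.inverts qL (q2 ▸ wc) (w := v) hv
    have key : ∀ u ∈ h.U, u ∈ zpowers (p : X) := fun u hu => by
      obtain ⟨g, rfl⟩ := h.cls e.hn qL hi hu.1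
      refine fin g hu ⟨comm_mem _ _, ?_⟩ fun c hc => ⟨comm_mem _ _, ?_⟩
      · rw [commutatorElement_def, (h.ab _ (Normal.conj_mem inferInstance _ pA g) _ (inv_mem pA)).mul_pow, conj_pow,
          inv_pow, ← hw, Subgroup.mem_center_iff.1 wc g, mul_inv_cancel_right, mul_inv_cancel]
      · have h1 := (fc c hc).2
        have h2 : Commute ⁅g, q⁆ c := hQC c.2 _ hu
        have h3 := hi _ (comm_mem g c)
        have h4 := h.ab _ (comm_mem g c) _ hu.1
        set u := ⁅g, q⁆ with hud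
        set v := ⁅g, (c : X)⁆ with hvd
        have h5 : v * c * (u * q) = u * q * (v * c) := by
          calc v * c * (u * q) = g * (c * q) * g⁻¹ := by rw [hud, hvd]; group
            _ = _ := by rw [h1.eq, hud, hvd]; group
        calc v ^ 2 = v * u⁻¹ * (v * c * (u * q)) * q⁻¹ * (u⁻¹ * (c : X)⁻¹) * u := by
              rw [h4.inv_right.eq, h2.inv_inv.eq, pow_two]
              calc v * v = u⁻¹ * (u * v) * v := by group
                _ = u⁻¹ * v * v * (u * c) * (c : X)⁻¹ * u⁻¹ * u := by rw [← h4.eq, mul_assoc u⁻¹, mul_assoc v, ← h4.eq]; group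
                _ = _ := by rw [h2.eq]; group
          _ = v * (q * v * q⁻¹) * (q * c * q⁻¹ * (u⁻¹ * (c : X)⁻¹) * u) := by rw [h5]; group
          _ = 1 := by rw [h3, ← h1.eq, h2.inv_inv.eq]; group
    obtain ⟨u, hu, u1, uz⟩ := h.exists_U e.hn z
    exact uz ((uniq_inv inferInstance (key u hu) (key z hz) hu.2 hz.2 z1).resolve_left u1)
  obtain ⟨b, hb⟩ := not_forall.1 (mt Subgroup.mem_center_iff.2 wc)
  have gA := Normal.conj_mem inferInstance _ pA b
  have h1 : ∀ x : X, ⁅b * p * b⁻¹, x⁆ = b * ⁅(p : X), x⁆ * b⁻¹ := fun x => by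
    have h2 := (h.ab _ (comm_mem x b) _ (inv_mem gA)).eq
    calc ⁅b * p * b⁻¹, x⁆ = b * p * b⁻¹ * (x * (b * p * b⁻¹)⁻¹ * x⁻¹) := by group
      _ = b * p * b⁻¹ * (⁅x, b⁆ * (b * (x * (p : X)⁻¹ * x⁻¹) * b⁻¹) * ⁅x, b⁆⁻¹) := by group
      _ = _ := by
        rw [(h.ab _ (comm_mem x b) _ (Normal.conj_mem inferInstance _
          (Normal.conj_mem inferInstance _ (inv_mem pA) x) b)).eq]
        group
  have h2 := fin (b * p * b⁻¹) (by rw [h1, hk]; exact Normal.conj_mem inferInstance _ wU b)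
    (by rw [commutatorElement_eq_one_iff_commute.2 (h.ab _ gA _ pA)]; exact one_mem _) fun c hc => by
      rw [h1, commutatorElement_eq_one_iff_commute.2 (fc c hc).1.symm]; simp
  rw [h1, hk] at h2
  have w1 : w ≠ 1 := fun e => wc (e ▸ one_mem _)
  rcases uniq_inv inferInstance h2 (hw ▸ pow_mem (mem_zpowers _) 2) (by rw [conj_pow, w2]; simp) w2 w1 with h3 | h3
  · exact w1 (by simpa [mul_inv_eq_one] using h3)
  · exact hb (mul_inv_eq_iff_eq_mul.1 h3)

theorem false : False := by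
  by_cases hn : ∀ u : Q, (u : X) ∈ e.st.U → (α u : X) ∈ e.st.U → (α (α u) : X) ∈ e.st.U → α u = u
  · exact e.case2 hn
  · push Not at hn
    obtain ⟨u, h1, h2, h3, h4⟩ := hn
    exact e.case1 h1 h2 h3 h4

end Es

theorem St.eq_inner (h : St a) (hn : ¬ IsCyclic (commutator X)) {F : FusionSystem (⊤ : Subgroup X)}
    (hF : F.IsSaturated 2) : F = innerFusionSystem ⊤ := by
  have hS : IsPGroup 2 (⊤ : Subgroup X) := h.pg.to_subgroup _
  refine eq_inner_of_isPGroup hS hF ?_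
  rintro Q (rfl | hQ)
  · exact (h.aut.of_equiv (MulAut.congr topEquiv.symm)).to_subgroup _
  obtain ⟨s, hs, -, hsQ, two, α, h3, hi, x, hx, hy⟩ := ess_data hS hF hQ (h.rank Q)
  obtain ⟨h1, h2⟩ := hy _ rfl
  obtain ⟨q, hq, hi⟩ := mem_Inn_iff.1 hi
  have hτ : ∀ x, conjAut Q hs (α ((conjAut Q hs)⁻¹ (α x))) = ⟨q, hq⟩ * x * ⟨q, hq⟩⁻¹ := fun x =>
    Subtype.ext ((autFun_apply _ x.2).symm.trans (hi x x.2))
  set y : Q := ⟨x, hx⟩⁻¹ * α ⟨x, hx⟩ with hy
  have e : x⁻¹ * autFun α x = y := by rw [autFun_apply _ hx]; rfl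
  have e1 : (y : X)⁻¹ * (s * y * s⁻¹) = (y⁻¹ * conjAut Q hs y : Q) := rfl
  rw [e, e1] at h1 h2
  rw [autFun_apply _ (y⁻¹ * conjAut Q hs y).2, ← coe_inv, ← coe_mul] at h2
  have hQp := h.pg.to_subgroup Q
  have hyH : y ∈ Hc α := mem_Hc α _
  have py : ((y⁻¹ * conjAut Q hs y : Q) : X) = ⁅(y : X)⁻¹, s⁆ := by rw [← e1]; group
  replace h1 : y⁻¹ * conjAut Q hs y ∉ frattini Q := fun h => h1 ⟨_, h, rfl⟩
  replace h2 : (y⁻¹ * conjAut Q hs y)⁻¹ * α (y⁻¹ * conjAut Q hs y) ∉ frattini Q := fun h => h2 ⟨_, h, rfl⟩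
  exact (Es.false (p := y⁻¹ * conjAut Q hs y) (y := y) ⟨h, hn, ⟨hQp, h3, Hc_eq hQp h3
    (by
      rw [← index_map_equiv _ ((Hc α).equivMapOfInjective _ Q.subtype_injective),
        map_frattini_of_surjective_pGroup (hQp.to_subgroup _) _ (MulEquiv.surjective _)]
      exact h.rank _) (mul_mem (inv_mem hyH) (tau_Hc hQp h3 hτ hyH)) h1 h2,
    fun u v => Subtype.ext (h.ab _ (py ▸ comm_mem _ _) _ (comm_mem _ _)).eq, h1, h2⟩,
    fun g hg => IsCentric.centralizerIn_le hQ.1 ⟨trivial, hg⟩, hs, hsQ, fun g hg => two g trivial hg, ⟨_, hτ⟩, hyH,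
    py⟩).elim

end CL.Fus.Bi
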