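/-
A saturation criterion of Broto-Levi-Oliver: the fusion system generated by the inner maps and a group of
automorphisms of one subgroup `Q` that is minimal among the centric subgroups.
-/
import Cfsg.Agent.Fus.SatFamily
import Cfsg.Agent.Fus.CopAut

set_option autoImplicit false

namespace CL.Fus.Bi

open Cfsg Cfsg.FusionSystem Subgroup

variable {Ω : Type*} [Group Ω] {S Q P : Subgroup Ω} {p : ℕ}

/-- The generators: conjugations by elements of `S`, and the members of `Γ` on `Q`. -/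
def Fam (S Q : Subgroup Ω) (Γ : Subgroup (MulAut Q)) (A : Subgroup Ω) (a : Ω → Ω) : Prop :=
  (A = S ∧ ∃ g ∈ S, ∀ x ∈ S, a x = g * x * g⁻¹) ∨ (A = Q ∧ ∃ γ ∈ Γ, ∀ x ∈ Q, a x = autFun γ x)

theorem genFamily_fam (hQ : Q ≤ S) (Γ : Subgroup (MulAut Q)) : GenFamily S (Fam S Q Γ) where
  le := by rintro A a (⟨rfl, -⟩ | ⟨rfl, -⟩); exacts [le_rfl, hQ]
  mem := by
    rintro A a (⟨rfl, g, hg, e⟩ | ⟨rfl, γ, -, e⟩) x hx
    · rw [e x hx]; exact A.mul_mem (A.mul_mem hg hx) (A.inv_mem hg)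
    · rw [e x hx]; exact hQ (autFun_mem γ hx)
  homOn := by
    rintro A a (⟨rfl, g, -, e⟩ | ⟨rfl, γ, -, e⟩)
    · exact (homOn_conj A g).congr fun x hx => (e x hx).symm
    · exact (homOn_autFun γ).congr fun x hx => (e x hx).symm
  injOn := by
    rintro A a (⟨rfl, g, -, e⟩ | ⟨rfl, γ, -, e⟩) x hx y hy h
    · rw [e x hx, e y hy] at h
      simpa using h
    · rw [e x hx, e y hy] at h
      exact autFun_injOn γ hx hy h
  conj t ht := ⟨_, Or.inl ⟨rfl, t, ht, fun _ _ => rfl⟩, fun _ _ => rfl⟩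
  inv := by
    rintro A a (⟨rfl, g, hg, e⟩ | ⟨rfl, γ, hγ, e⟩)
    · refine ⟨A, fun x => g⁻¹ * x * g⁻¹⁻¹, Or.inl ⟨rfl, g⁻¹, A.inv_mem hg, fun _ _ => rfl⟩, fun x hx => ?_,
        fun x hx => ?_⟩
      · rw [e x hx]; exact A.mul_mem (A.mul_mem hg hx) (A.inv_mem hg)
      · rw [e x hx]; group
    · refine ⟨A, autFun γ⁻¹, Or.inr ⟨rfl, γ⁻¹, Γ.inv_mem hγ, fun _ _ => rfl⟩, fun x hx => ?_, fun x hx => ?_⟩
      · rw [e x hx]; exact autFun_mem γ hx
      · rw [e x hx, autFun_inv_apply γ hx]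

/-- The maps of the generated system on a subgroup that is not conjugate to a proper subgroup of `Q`. -/
theorem shape (hQ : Q ≤ S) {Γ : Subgroup (MulAut Q)} (hT : autInducedBy S Q ≤ Γ)
    (hP : ∀ f, Mor (genSystem (genFamily_fam hQ Γ)) P f → ¬ img f P < Q) {f : Ω → Ω}
    (hf : Mor (genSystem (genFamily_fam hQ Γ)) P f) : (∃ g ∈ S, ∀ x ∈ P, f x = g * x * g⁻¹) ∨
      ∃ g ∈ S, ∃ k ∈ S, ∃ γ ∈ Γ, img (fun x => g * x * g⁻¹) P = Q ∧
        ∀ x ∈ P, f x = k * autFun γ (g * x * g⁻¹) * k⁻¹ := by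
  rw [mor_genSystem_iff] at hf
  induction hf with
  | id _ e => exact Or.inl ⟨1, S.one_mem, fun x hx => by simp [e x hx]⟩
  | @step f f' a A hf hX hA e ih =>
    rcases hX with ⟨rfl, t, ht, e1⟩ | ⟨rfl, δ, hδ, e1⟩
    · rcases ih with ⟨g, hg, e2⟩ | ⟨g, hg, k, hk, γ, hγ, e2, e3⟩
      · refine Or.inl ⟨t * g, A.mul_mem ht hg, fun x hx => ?_⟩
        rw [e x hx, e1 _ (hA x hx), e2 x hx]; group
      · refine Or.inr ⟨g, hg, t * k, A.mul_mem ht hk, γ, hγ, e2, fun x hx => ?_⟩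
        rw [e x hx, e1 _ (hA x hx), e3 x hx]; group
    · have h1 : img f P = A := ((img_le_iff.2 hA).lt_or_eq).resolve_left
        (hP f ((mor_genSystem_iff _).2 hf))
      rcases ih with ⟨g, hg, e2⟩ | ⟨g, hg, k, hk, γ, hγ, e2, e3⟩
      · refine Or.inr ⟨g, hg, 1, S.one_mem, δ, hδ, (img_congr e2).symm.trans h1, fun x hx => ?_⟩
        rw [e x hx, e1 _ (hA x hx), e2 x hx]; group
      · have hx' : ∀ x ∈ P, g * x * g⁻¹ ∈ A := fun x hx => e2 ▸ mem_img_of_mem (fun x => g * x * g⁻¹) hx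
        have hkn : k ∈ normalizer (A : Set Ω) := by
          refine mem_normalizer_of_img_conj ?_
          have h2 : img (fun x => k * autFun γ (g * x * g⁻¹) * k⁻¹) P =
              img (fun x => k * x * k⁻¹) (img (fun x => autFun γ (g * x * g⁻¹)) P) :=
            ((homOn_conj P g).comp (homOn_autFun γ) hx').img_comp (k := fun x => k * x * k⁻¹)
          rw [(homOn_conj P g).img_comp (k := autFun γ), e2, img_autFun, ← img_congr e3, h1] at h2
          exact h2.symm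
        refine Or.inr ⟨g, hg, 1, S.one_mem, δ * (conjAut A hkn * γ), Γ.mul_mem hδ (Γ.mul_mem
          (hT (conjAut_mem_autInducedBy hkn hk)) hγ), e2, fun x hx => ?_⟩
        rw [e x hx, e1 _ (hA x hx), e3 x hx, autFun_mul _ _ (hx' x hx), autFun_mul _ _ (hx' x hx),
          autFun_conjAut hkn (autFun_mem γ (hx' x hx))]
        group

variable [Finite S] [Fact p.Prime]

theorem isSaturated_gen (hS : IsPGroup p S) (hQ : Q < S) {Γ : Subgroup (MulAut Q)}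
    (hT : SylIn p (autInducedBy S Q) Γ)
    (h4 : ∀ γ ∈ Γ, γ ∉ autInducedBy S Q → extenderF S Q (autFun γ) ≤ Q)
    (h5 : ∀ X < Q, ∃ γ ∈ Γ, ¬ centralizerIn S (img (autFun γ) X) ≤ img (autFun γ) X) :
    (genSystem (genFamily_fam hQ.le Γ)).IsSaturated p := by
  set F := genSystem (genFamily_fam hQ.le Γ) with hF
  have := finite_of_le hQ.le
  have hγF : ∀ γ ∈ Γ, Mor F Q (autFun γ) := fun γ hγ =>
    mor_genSystem_of_mem _ (Or.inr ⟨rfl, γ, hγ, fun _ _ => rfl⟩)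
  have big' : ∀ P : Subgroup Ω, Nat.card Q ≤ Nat.card P → ∀ f, Mor F P f → ¬ img f P < Q := fun P h f hf hlt => by
    have := card_lt_of_lt hlt
    rw [hf.card_img] at this
    omega
  have hcj : ∀ g ∈ S, ∀ P ≤ S, Nat.card (img (fun x => g * x * g⁻¹) P) = Nat.card P := fun g hg P hP =>
    (mor_conj F hP hg).card_img
  have hAQ : F.autGroup Q = Γ := by
    refine le_antisymm (fun α hα => ?_) fun γ hγ => (mem_autGroup_iff hQ.le).2 (hγF γ hγ)
    rcases shape hQ.le hT.le (big' Q le_rfl) (mor_autFun hQ.le hα) with ⟨g, hg, e⟩ | ⟨g, hg, k, hk, γ, hγ, e1, e2⟩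
    · exact hT.le (mem_autInducedBy.2 ⟨g, hg, e⟩)
    · have hgn := mem_normalizer_of_img_conj e1
      have h1 : α * (γ * conjAut Q hgn)⁻¹ ∈ autInducedBy S Q := mem_autInducedBy.2 ⟨k, hk, fun x hx => by
        rw [autFun_mul _ _ hx, e2 _ (autFun_mem _ hx), ← autFun_conjAut hgn (autFun_mem _ hx),
          ← autFun_mul _ _ (autFun_mem _ hx), autFun_apply_inv _ hx]⟩
      have := Γ.mul_mem (hT.le h1) (Γ.mul_mem hγ (hT.le (conjAut_mem_autInducedBy hgn hg)))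
      rwa [inv_mul_cancel_right] at this
  have ext1 : ∀ (P : Subgroup Ω) f, (∃ g ∈ S, ∀ x ∈ P, f x = g * x * g⁻¹) →
      ∃ g, Mor F (extenderF S P f) g ∧ ∀ x ∈ P, g x = f x := fun P f ⟨g, hg, e⟩ =>
    ⟨_, mor_conj F ((extenderF_le_normalizerIn S P f).trans (normalizerIn_le S P)) hg, fun x hx => (e x hx).symm⟩
  have satQ : F.IsFullyAutomized p Q ∧ F.IsReceptive Q := by
    refine ⟨isFullyAutomized_iff.2 ⟨hQ.le, hAQ ▸ hT⟩, isReceptive_iff.2 ⟨hQ.le, fun P f hf e => ?_⟩⟩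
    rcases shape hQ.le hT.le (big' P (by rw [← e, hf.card_img])) hf with h | ⟨g, hg, k, hk, γ, hγ, e1, e2⟩
    · exact ext1 P f h
    have hx' : ∀ x ∈ P, g * x * g⁻¹ ∈ Q := fun x hx => e1 ▸ mem_img_of_mem (fun x => g * x * g⁻¹) hx
    by_cases hγT : γ ∈ autInducedBy S Q
    · obtain ⟨a, ha, e3⟩ := mem_autInducedBy.1 hγT
      exact ext1 P f ⟨k * a * g, S.mul_mem (S.mul_mem hk ha) hg, fun x hx => by
        rw [e2 x hx, e3 _ (hx' x hx)]; group⟩
    refine ⟨f, hf.mono fun a ⟨ha, han, b, hb, e3⟩ => ?_, fun _ _ => rfl⟩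
    have hy : ∀ y ∈ Q, ∃ x ∈ P, g * x * g⁻¹ = y := fun y hy => (homOn_conj P g).mem_img.1 (e1 ▸ hy)
    have h1 : g * a * g⁻¹ ∈ Q := by
      refine h4 γ hγ hγT ⟨S.mul_mem (S.mul_mem hg ha) (S.inv_mem hg), mem_normalizer_of_finite fun y hy' => ?_,
        k⁻¹ * b * k, S.mul_mem (S.mul_mem (S.inv_mem hk) hb) hk, fun y hy' => ?_⟩
      · obtain ⟨x, hx, rfl⟩ := hy y hy'
        convert hx' _ (conj_mem_of_mem_normalizer han hx) using 1
        group
      · obtain ⟨x, hx, rfl⟩ := hy y hy'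
        have h2 := e3 x hx
        rw [e2 _ (conj_mem_of_mem_normalizer han hx), e2 x hx] at h2
        rw [show g * a * g⁻¹ * (g * x * g⁻¹) * (g * a * g⁻¹)⁻¹ = g * (a * x * a⁻¹) * g⁻¹ by group]
        calc _ = k⁻¹ * (k * autFun γ (g * (a * x * a⁻¹) * g⁻¹) * k⁻¹) * k := by group
          _ = _ := by rw [h2]; group
    obtain ⟨x, hx, e4⟩ := hy _ h1
    rwa [← (mul_left_cancel (mul_right_cancel e4) : x = a)]
  have topS : ∀ f, Mor F S f → ∃ g ∈ S, ∀ x ∈ S, f x = g * x * g⁻¹ := fun f hf => by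
    rcases shape hQ.le hT.le (big' S (card_lt_of_lt hQ).le) hf with h | ⟨g, hg, k, hk, γ, hγ, e1, e2⟩
    · exact h
    · have h1 := hcj g hg S le_rfl
      have h2 := card_lt_of_lt hQ
      rw [e1] at h1
      omega
  have satS : F.IsFullyAutomized p S ∧ F.IsReceptive S := by
    refine ⟨isFullyAutomized_iff.2 ⟨le_rfl, ?_⟩, isReceptive_iff.2 ⟨le_rfl, fun P f hf e => ?_⟩⟩
    · rw [show F.autGroup S = autInducedBy S S from le_antisymm
        (fun α hα => mem_autInducedBy.2 (topS _ (mor_autFun le_rfl hα))) (autInducedBy_le_autGroup F le_rfl)]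
      exact sylIn_self (isPGroup_autInducedBy hS S)
    · obtain rfl : P = S := eq_of_le_of_card_ge hf.le (by rw [← hf.card_img, e])
      exact ext1 P f (topS f hf)
  refine isSaturated_of_family hS (fun P => P = S ∨ F.IsConj P Q) ?_ ?_ ?_ ?_
  · rintro P R (rfl | h) h'
    · exact Or.inl (eq_of_le_of_card_ge (isConj_le_right h') (isConj_card h').le)
    · exact Or.inr (isConj_trans (isConj_symm h') h)
  · rintro P (rfl | h) -
    · exact ⟨P, isConj_refl F le_rfl, satS⟩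
    · exact ⟨Q, h, satQ⟩
  · intro P f hf
    refine ((mor_genSystem_iff _).1 hf).of_family fun A a hA => ?_
    have h1 := mor_genSystem_of_mem (genFamily_fam hQ.le Γ) hA
    refine GenMor.of_mem (Or.inl ⟨?_, h1⟩) le_rfl h1.le
    rcases hA with ⟨rfl, -⟩ | ⟨rfl, -⟩
    exacts [Or.inl rfl, Or.inr (isConj_refl F hQ.le)]
  · intro P hP hn
    push Not at hn
    have h1 : ∀ f, Mor F P f → ¬ img f P < Q := fun f hf hlt => by
      obtain ⟨γ, hγ, h⟩ := h5 _ hlt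
      exact h (hP.2 _ (isConj_trans hf.isConj ((hγF γ hγ).isConj' hlt.le)))
    have h2 : F.autGroup P ≤ autInducedBy S P := fun α hα => by
      rcases shape hQ.le hT.le h1 (mor_autFun hP.1 hα) with h | ⟨g, hg, k, hk, γ, hγ, e1, e2⟩
      · exact mem_autInducedBy.2 h
      · exact absurd (e1 ▸ (mor_conj F hP.1 hg).isConj) hn.2
    refine ⟨P, isConj_refl F hP.1, fun h => (lt_normalizerIn hS (lt_of_le_of_ne hP.1 hn.1)).not_ge fun a ha => h ?_⟩
    rw [CL.Grp.pCoreOf_eq_self_iff.2 ((isPGroup_autInducedBy hS P).to_le h2)]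
    exact ⟨ha.1, conjAut P ha.2, conjAut_mem_autGroup F hP.1 ha.2 ha.1, fun x hx => (autFun_conjAut ha.2 hx).symm⟩

/-- The case `p = 2` with an automorphism of order three that is inverted, modulo inner automorphisms, by the
elements of `N_S(Q) ∖ Q`. -/
theorem exists_sat_of_aut (hS : IsPGroup 2 S) (hQ : Q < S) (hC : centralizerIn S Q ≤ Q) {α : MulAut Q} (h3 : α ^ 3 = 1) (h1 : α ≠ 1)
    (hinv : ∀ g (hg : g ∈ normalizer (Q : Set Ω)), g ∈ S → g ∉ Q →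
      conjAut Q hg * α * (conjAut Q hg)⁻¹ * α ∈ Inn Q)
    (h5 : ∀ X < Q, ∃ i : ℕ, ¬ centralizerIn S (img (autFun (α ^ i)) X) ≤ img (autFun (α ^ i)) X) :
    ∃ F : FusionSystem S, F.IsSaturated 2 ∧ ¬ ∀ P : Subgroup Ω, F.Hom P = (innerFusionSystem S).Hom P := by
  set T := autInducedBy S Q with hTd
  have hTp : IsPGroup 2 T := isPGroup_autInducedBy hS Q
  have hI : Inn Q ≤ T := Inn_le_autInducedBy hQ.le
  have odd3 : ∀ {Z : Subgroup (MulAut Q)}, IsPGroup 2 Z → ∀ i : ℤ, α ^ i ∈ Z → α ^ i = 1 := fun hZ i hi => by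
    obtain ⟨k, hk⟩ := hZ ⟨_, hi⟩
    have h2 : (α ^ i) ^ 3 = 1 := by rw [← zpow_natCast, ← zpow_mul, mul_comm, zpow_mul, zpow_natCast, h3, one_zpow]
    have h4 := pow_gcd_eq_one.2 ⟨(congrArg Subtype.val hk : (α ^ i) ^ 2 ^ k = 1), h2⟩
    rwa [(Nat.Coprime.pow_left k (by norm_num : Nat.Coprime 2 3)).gcd_eq_one, pow_one] at h4
  have act : ∀ τ ∈ T, ∃ ε : ℤ, (τ ∉ Inn Q → ε = -1) ∧ ∀ j : ℤ, (α ^ (ε * j))⁻¹ * (τ * α ^ j * τ⁻¹) ∈ Inn Q := by
    intro τ hτ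
    have key : ∀ ε : ℤ, (α ^ ε)⁻¹ * (τ * α * τ⁻¹) ∈ Inn Q →
        ∀ j : ℤ, (α ^ (ε * j))⁻¹ * (τ * α ^ j * τ⁻¹) ∈ Inn Q := fun ε h j => by
      rw [← QuotientGroup.eq] at h ⊢
      rw [zpow_mul, ← conj_zpow, QuotientGroup.mk_zpow, h, QuotientGroup.mk_zpow]
    by_cases hτI : τ ∈ Inn Q
    · refine ⟨1, fun h => absurd hτI h, key 1 ?_⟩
      have := mul_mem ((innNormal Q).conj_mem τ hτI α⁻¹) (inv_mem hτI)
      simpa [mul_assoc] using this
    · obtain ⟨g, hg, e⟩ := mem_autInducedBy'.1 hτ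
      have e1 : τ = conjAut Q hg.2 := aut_ext fun x hx => by rw [e x hx, autFun_conjAut hg.2 hx]
      refine ⟨-1, fun _ => rfl, key (-1) ?_⟩
      have := (innNormal Q).conj_mem _ (hinv g hg.2 hg.1 fun h => hτI (mem_Inn_iff.2 ⟨g, h, e⟩)) α
      rw [← e1] at this
      simpa [mul_assoc] using this
  have swap : ∀ τ ∈ T, ∀ j : ℤ, ∃ k : ℤ, ∃ τ' ∈ T, τ * α ^ j = α ^ k * τ' := fun τ hτ j => by
    obtain ⟨ε, -, h⟩ := act τ hτ
    exact ⟨ε * j, _, T.mul_mem (hI (h j)) hτ, by group⟩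
  let Γ : Subgroup (MulAut Q) :=
    { carrier := {γ | ∃ i : ℤ, ∃ τ ∈ T, γ = α ^ i * τ}
      one_mem' := ⟨0, 1, T.one_mem, by simp⟩
      mul_mem' := by
        rintro _ _ ⟨i, τ, hτ, rfl⟩ ⟨j, σ, hσ, rfl⟩
        obtain ⟨k, τ', hτ', e⟩ := swap τ hτ j
        exact ⟨i + k, τ' * σ, T.mul_mem hτ' hσ, by rw [mul_assoc, ← mul_assoc τ, e]; group⟩
      inv_mem' := by
        rintro _ ⟨i, τ, hτ, rfl⟩
        obtain ⟨k, τ', hτ', e⟩ := swap τ⁻¹ (T.inv_mem hτ) (-i)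
        exact ⟨k, τ', hτ', by rw [← e]; group⟩ }
  have hαΓ : ∀ i : ℤ, α ^ i ∈ Γ := fun i => ⟨i, 1, T.one_mem, by simp⟩
  have hsyl : SylIn 2 T Γ := ⟨fun τ hτ => ⟨0, τ, hτ, by simp⟩, hTp, fun Z hZ hTZ hZΓ γ hγ => by
    obtain ⟨i, τ, hτ, rfl⟩ := hZΓ hγ
    rw [odd3 hZ i ((Z.mul_mem_cancel_right (hTZ hτ)).1 hγ), one_mul]
    exact hτ⟩
  refine ⟨genSystem (genFamily_fam hQ.le Γ), isSaturated_gen hS hQ hsyl ?_ fun X hX => ?_, fun h => ?_⟩
  · rintro _ ⟨i, τ, hτ, rfl⟩ hγ a ⟨ha, han, b, hb, e⟩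
    by_contra haQ
    have hc := conjAut_mem_autInducedBy han ha
    have h2 : α ^ i * τ * conjAut Q han * (α ^ i * τ)⁻¹ ∈ T := mem_autInducedBy.2 ⟨b, hb, fun x hx => by
      rw [autFun_mul _ _ hx, autFun_mul _ _ (autFun_mem _ hx), autFun_conjAut han (autFun_mem _ hx),
        e _ (autFun_mem _ hx), autFun_apply_inv _ hx]⟩
    have h4 : τ * conjAut Q han * τ⁻¹ ∈ T := T.mul_mem (T.mul_mem hτ hc) (T.inv_mem hτ)
    obtain ⟨ε, hε, h7⟩ := act _ h4
    have h8 : τ * conjAut Q han * τ⁻¹ ∉ Inn Q := fun h => by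
      have h9 : conjAut Q han ∈ Inn Q := by simpa [mul_assoc] using (innNormal Q).conj_mem _ h τ⁻¹
      obtain ⟨q, hq, e1⟩ := mem_Inn_iff.1 h9
      refine haQ ((Q.mul_mem_cancel_left (Q.inv_mem hq)).1 (hC ⟨S.mul_mem (S.inv_mem (hQ.le hq)) ha,
        mem_centralizer_of_conj_eq fun x hx => ?_⟩))
      have h10 := e1 x hx
      rw [autFun_conjAut han hx] at h10
      calc q⁻¹ * a * x * (q⁻¹ * a)⁻¹ = q⁻¹ * (a * x * a⁻¹) * q := by group
        _ = x := by rw [h10]; group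
    have h9 := T.mul_mem (T.mul_mem (hI (h7 (-i))) h4) (T.inv_mem h2)
    rw [hε h8] at h9
    have h10 := odd3 hTp (-(2 * i)) (by convert h9 using 1; group)
    refine hγ ?_
    rw [show α ^ i = (α ^ 3) ^ i * α ^ (-(2 * i)) by group, h3, h10]
    simpa using hτ
  · obtain ⟨i, hi⟩ := h5 X hX
    exact ⟨α ^ i, by simpa using hαΓ i, hi⟩
  · have h2 : Mor (genSystem (genFamily_fam hQ.le Γ)) Q (autFun α) :=
      mor_genSystem_of_mem _ (Or.inr ⟨rfl, α, by simpa using hαΓ 1, fun _ _ => rfl⟩)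
    rw [fusionSystem_ext h, mor_inner_iff] at h2
    exact h1 (by simpa using odd3 hTp 1 (by simpa using mem_autInducedBy.2 h2.2))

end CL.Fus.Bi
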