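/-
Saturated fusion systems from a subgroup `Q = H C` with `H` quaternion of order eight or a four-group.
-/
import Cfsg.Agent.Fus.BiGen
import Cfsg.Agent.Fus.BiH
import Cfsg.Agent.Cls.SL2Dihedral

set_option autoImplicit false

namespace CL.Fus.Bi

open Cfsg Subgroup CL.Grp CL.Fgs CL.Inv
open scoped commutatorElement

variable {G : Type*} [Group G]

/-- Two elements with the relations of `Q₈` and a subgroup centralised by them. -/
structure Qd (i j : G) (C : Subgroup G) : Prop where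
  ji : j * i * j⁻¹ = i⁻¹
  j2 : j * j = i ^ 2
  ci : ∀ c ∈ C, Commute i c
  cj : ∀ c ∈ C, Commute j c
  w : i ^ 2 ∈ C
  ni : i ∉ C
  nj : j ∉ C
  nij : i * j ∉ C

theorem par {i : G} {Y : Subgroup G} (hw : i ^ 2 ∈ Y) (k : ℤ) : (Even k ∧ i ^ k ∈ Y) ∨ i⁻¹ * i ^ k ∈ Y := by
  have h : ∀ r : ℤ, i ^ (2 * r) ∈ Y := fun r => by rw [zpow_mul, zpow_ofNat]; exact zpow_mem hw r
  rcases Int.even_or_odd' k with ⟨r, rfl | rfl⟩
  · exact Or.inl ⟨even_two_mul r, h r⟩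
  · exact Or.inr (by convert h r using 1; group)

namespace Qd

variable {i j : G} {C : Subgroup G} (h : Qd i j C)
include h

theorem i4 : i ^ (2 * 2) = 1 := by
  have h1 : j * i ^ 2 * j⁻¹ = i ^ 2 := by rw [(h.cj _ h.w).eq, mul_inv_cancel_right]
  rw [← conj_pow, h.ji, inv_pow, inv_eq_iff_mul_eq_one] at h1
  rw [pow_mul, pow_two, h1]

theorem ij : i * j * i = j := by
  calc i * j * i = i * (j * i * j⁻¹) * j := by group
    _ = j := by rw [h.ji]; group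

theorem le_of {Y : Subgroup G} (hC : C ≤ Y) (h1 : j ∉ Y) (h2 : i * j ∉ Y) (k : ℤ) : j * i ^ k ∉ Y := fun h3 => by
  rcases par (hC h.w) k with ⟨-, h4⟩ | h4
  · exact h1 ((mul_mem_cancel_right h4).1 h3)
  · refine h2 ?_
    have := mul_mem (hC h.w) (mul_mem h3 (inv_mem h4))
    convert this using 1
    calc i * j = i ^ 2 * (i⁻¹ * j) := by group
      _ = i ^ 2 * (j * i * j⁻¹ * j) := by rw [h.ji]
      _ = _ := by group

theorem exists_alpha (gen : ∀ K : Subgroup G, i ∈ K → j ∈ K → C ≤ K → K = ⊤) :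
    (∀ x, ∃ k : ℤ, ∃ c ∈ C, x = i ^ k * c ∨ x = j * i ^ k * c) ∧
      ∃ α : MulAut G, α ^ 3 = 1 ∧ α i = j ∧ α j = i * j ∧ ∀ c ∈ C, α c = c := by
  have e1 : j ^ 2 = i ^ 2 := (pow_two j).trans h.j2
  have e2 : j ^ (2 * 2) = 1 := by rw [pow_mul, e1, ← pow_mul, h.i4]
  have e3 : i * j * (i * j) = j ^ 2 := by rw [← mul_assoc, h.ij, pow_two]
  have e4 : i * j * j * (i * j)⁻¹ = j⁻¹ := by
    calc i * j * j * (i * j)⁻¹ = i * (j * i⁻¹ * j⁻¹) * j ^ (2 * 2) * j⁻¹ * (j ^ 2)⁻¹ := by group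
      _ = j⁻¹ := by rw [← conj_inv, h.ji, e2, e1, mul_assoc _ j⁻¹, (h.cj _ h.w).inv_inv.eq]; group
  have cm : ∀ (u v : G) h1 h2 h3, (∀ c ∈ C, Commute u c) → (∀ c ∈ C, Commute v c) → ∀ m (c : C),
      Commute (CL.SL2.quaternionHom (n := 2) u v h1 h2 h3 m) (C.subtype c) := by
    rintro u v h1 h2 h3 hu hv (k | k) c
    exacts [(hu c c.2).pow_left _, (hv c c.2).mul_left ((hu c c.2).pow_left _)]
  let φ := (CL.SL2.quaternionHom (n := 2) i j h.i4 h.j2 h.ji).noncommCoprod C.subtype (cm _ _ _ _ _ h.ci h.cj)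
  let ψ := (CL.SL2.quaternionHom (n := 2) j (i * j) e2 e3 e4).noncommCoprod C.subtype
    (cm _ _ _ _ _ h.cj fun c hc => (h.ci c hc).mul_left (h.cj c hc))
  have p1 : φ (.a 1, 1) = i := (mul_one _).trans (pow_one i)
  have p2 : φ (.xa 0, 1) = j := (mul_one _).trans ((congrArg (j * ·) (pow_zero i)).trans (mul_one j))
  have p3 : ∀ c : C, φ (.a 0, c) = c := fun c => (congrArg (· * (c : G)) (pow_zero i)).trans (one_mul _)
  have q1 : ψ (.a 1, 1) = j := (mul_one _).trans (pow_one j)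
  have q2 : ψ (.xa 0, 1) = i * j := (mul_one _).trans ((congrArg (i * j * ·) (pow_zero j)).trans (mul_one _))
  have q3 : ∀ c : C, ψ (.a 0, c) = c := fun c => (congrArg (· * (c : G)) (pow_zero j)).trans (one_mul _)
  have hs : Function.Surjective φ := MonoidHom.range_eq_top.1
    (gen _ ⟨_, p1⟩ ⟨_, p2⟩ fun c hc => ⟨_, p3 ⟨c, hc⟩⟩)
  have hk : φ.ker ≤ ψ.ker := by
    rintro ⟨k | k, c⟩ hc
    · replace hc : i ^ k.val * c = 1 := hc
      change j ^ k.val * c = 1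
      have h1 : i ^ (k.val : ℤ) ∈ C := by
        rw [zpow_natCast, eq_inv_of_mul_eq_one_left hc]; exact inv_mem c.2
      rcases par h.w k.val with ⟨h2, -⟩ | h2
      · obtain ⟨r, hr⟩ := (Int.even_coe_nat _).1 h2
        rwa [hr, ← two_mul, pow_mul, e1, ← pow_mul, two_mul, ← hr]
      · exact absurd ((Subgroup.inv_mem_iff _).1 ((mul_mem_cancel_right h1).1 h2)) h.ni
    · replace hc : j * i ^ k.val * c = 1 := hc
      refine absurd ?_ (h.le_of le_rfl h.nj h.nij k.val)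
      rw [zpow_natCast, eq_inv_of_mul_eq_one_left hc]; exact inv_mem c.2
  refine ⟨fun x => ?_, ?_⟩
  · obtain ⟨⟨k | k, c⟩, rfl⟩ := hs x
    · exact ⟨k.val, c, c.2, Or.inl (by rw [zpow_natCast]; rfl)⟩
    · exact ⟨k.val, c, c.2, Or.inr (by rw [zpow_natCast]; rfl)⟩
  let β : G →* G := φ.liftOfSurjective hs ⟨ψ, hk⟩
  have hβ : ∀ x, β (φ x) = ψ x := fun x => φ.liftOfRightInverse_comp_apply _ _ _ x
  have b1 : β i = j := by rw [← p1, hβ, q1]
  have b2 : β j = i * j := (congrArg β p2.symm).trans ((hβ _).trans q2)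
  have b3 : ∀ c ∈ C, β c = c := fun c hc => by
    have := hβ (.a 0, ⟨c, hc⟩)
    rwa [p3, q3] at this
  have b4 : β (i * j) = i := by
    rw [map_mul, b1, b2]
    calc j * (i * j) = j * i * j⁻¹ * (j * j) := by group
      _ = i := by rw [h.ji, h.j2]; group
  have b5 : ∀ x, β (β (β x)) = x := fun x => by
    have := gen ((β.comp (β.comp β)).eqLocus (MonoidHom.id G)) (show β (β (β i)) = i by rw [b1, b2, b4])
      (show β (β (β j)) = j by rw [b2, b4, b1]) fun c hc => show β (β (β c)) = c by rw [b3 c hc, b3 c hc, b3 c hc]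
    exact (show x ∈ (β.comp (β.comp β)).eqLocus (MonoidHom.id G) from this ▸ mem_top x)
  exact ⟨β.toMulEquiv (β.comp β) (MonoidHom.ext b5) (MonoidHom.ext b5), MulEquiv.ext b5, b1, b2, b3⟩

theorem exists_conj {u v : G} (hu : i⁻¹ * u ∈ zpowers (i ^ 2)) (hv : v * j⁻¹ ∈ zpowers (i ^ 2)) :
    ∃ g ∈ closure ({i, j} : Set G), g * i * g⁻¹ = u ∧ g * j * g⁻¹ = v := by
  have hw : (i ^ 2) ^ 2 = 1 := by rw [← pow_mul, h.i4]
  have hi : i ∈ closure ({i, j} : Set G) := subset_closure (Or.inl rfl)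
  have hj : j ∈ closure ({i, j} : Set G) := subset_closure (Or.inr rfl)
  have e1 : i * j * i⁻¹ = i ^ 2 * j := by
    calc i * j * i⁻¹ = i * (j * i * j⁻¹)⁻¹ * j := by group
      _ = _ := by rw [h.ji, pow_two]; group
  have e2 : i⁻¹ = i * i ^ 2 := by rw [inv_eq_iff_mul_eq_one, ← h.i4]; group
  rcases eq_or_of_mem_zpowers hw hu with h1 | h1 <;> rcases eq_or_of_mem_zpowers hw hv with h2 | h2
  · exact ⟨1, one_mem _, by simpa [inv_mul_eq_one] using h1, by simpa [mul_inv_eq_one, eq_comm] using h2⟩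
  · exact ⟨i, hi, by simpa [inv_mul_eq_one] using h1, by rw [e1, ← h2, inv_mul_cancel_right]⟩
  · exact ⟨j, hj, by rw [h.ji, e2, ← h1, mul_inv_cancel_left], by simpa [mul_inv_eq_one, eq_comm] using h2⟩
  · refine ⟨i * j, mul_mem hi hj, ?_, ?_⟩
    · calc i * j * i * (i * j)⁻¹ = i * (j * i * j⁻¹) * i⁻¹ := by group
        _ = u := by rw [h.ji, mul_inv_cancel, one_mul, e2, ← h1, mul_inv_cancel_left]
    · calc i * j * j * (i * j)⁻¹ = i * j * i⁻¹ := by group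
        _ = v := by rw [e1, ← h2, inv_mul_cancel_right]

theorem exists_sat [Finite G] (hG : IsPGroup 2 G) (hc : ∀ c ∈ C, ∀ d ∈ C, Commute c d)
    (cent : ∀ g, Commute g i → Commute g j → g ∈ closure ({i, j} : Set G) ⊔ C)
    (hi : ∀ g, g * i * g⁻¹ ∈ zpowers i) (hA : ∀ g : G, ⁅⁅g, j⁆, j⁆ ∈ zpowers (i ^ 2) → ⁅g, j⁆ ∈ zpowers i)
    {s : G} (s1 : ⁅s, j⁆ = i) (s2 : Commute s i) (s3 : ∀ c ∈ C, Commute s c) :
    ∃ F : FusionSystem (⊤ : Subgroup G), F.IsSaturated 2 ∧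
      ¬ ∀ P : Subgroup G, F.Hom P = (innerFusionSystem ⊤).Hom P := by
  set Q := closure ({i, j} : Set G) ⊔ C with hQ
  have iQ : i ∈ Q := mem_sup_left (subset_closure (Or.inl rfl))
  have jQ : j ∈ Q := mem_sup_left (subset_closure (Or.inr rfl))
  have CQ : C ≤ Q := le_sup_right
  have gen : ∀ K : Subgroup G, i ∈ K → j ∈ K → C ≤ K → Q ≤ K := fun K h1 h2 h3 =>
    sup_le ((closure_le _).2 (by rintro _ (rfl | rfl) <;> assumption)) h3
  have h' : Qd (⟨i, iQ⟩ : Q) ⟨j, jQ⟩ (C.subgroupOf Q) :=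
    ⟨Subtype.ext h.ji, Subtype.ext h.j2, fun c hc => Subtype.ext (h.ci c hc), fun c hc => Subtype.ext (h.cj c hc),
      h.w, h.ni, h.nj, h.nij⟩
  have gen' : ∀ K : Subgroup Q, ⟨i, iQ⟩ ∈ K → ⟨j, jQ⟩ ∈ K → C.subgroupOf Q ≤ K → K = ⊤ := fun K h1 h2 h3 =>
    eq_top_iff.2 fun x _ => by
      obtain ⟨y, hy, e⟩ := gen (K.map Q.subtype) ⟨_, h1, rfl⟩ ⟨_, h2, rfl⟩
        (fun c hc => ⟨⟨c, CQ hc⟩, h3 hc, rfl⟩) x.2
      exact (Subtype.ext e : y = x) ▸ hy
  obtain ⟨dec, α, h3, a1, a2, a3⟩ := h'.exists_alpha gen'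
  replace dec : ∀ x ∈ Q, ∃ k : ℤ, ∃ c ∈ C, x = i ^ k * c ∨ x = j * i ^ k * c := fun x hx => by
    obtain ⟨k, c, hc, e⟩ := dec ⟨x, hx⟩
    exact ⟨k, c, hc, e.imp (congrArg Subtype.val) (congrArg Subtype.val)⟩
  have nw : i ∉ zpowers (i ^ 2) := fun e => h.ni (zpowers_le.2 h.w e)
  have sj : s * j * s⁻¹ = i * j := by rw [← s1]; group
  have cQ : ∀ x ∈ Q, ⁅x, j⁆ ∈ zpowers (i ^ 2) := fun x hx => by
    have key : ∀ k : ℤ, ⁅i ^ k, j⁆ ∈ zpowers (i ^ 2) := fun k => ⟨k, by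
      calc (i ^ 2) ^ k = i ^ k * ((i⁻¹) ^ k)⁻¹ := by group
        _ = _ := by rw [← h.ji, conj_zpow]; group⟩
    obtain ⟨k, c, hc, rfl | rfl⟩ := dec x hx
    · rw [commutatorElement_mul_left_eq_conj_mul, commutatorElement_eq_one_iff_commute.2 (h.cj c hc).symm]
      simpa using key k
    · obtain ⟨m, hm⟩ := key k
      rw [commutatorElement_mul_left_eq_conj_mul, commutatorElement_eq_one_iff_commute.2 (h.cj c hc).symm,
        commutatorElement_mul_left_eq_conj_mul, ← hm, ((h.cj _ h.w).zpow_right m).eq]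
      simp
  have sQ : s ∉ Q := fun e => nw (s1 ▸ cQ s e)
  have sN : s ∈ normalizer (Q : Set G) := mem_normalizer_of_finite fun x hx =>
    gen (Q.comap (MulAut.conj s).toMonoidHom) (show s * i * s⁻¹ ∈ Q by rwa [s2.eq, mul_inv_cancel_right])
      (show s * j * s⁻¹ ∈ Q from sj ▸ mul_mem iQ jQ)
      (fun c hc => show s * c * s⁻¹ ∈ Q by rw [(s3 c hc).eq, mul_inv_cancel_right]; exact CQ hc) hx
  have hi' : ∀ g, i⁻¹ * (g * i * g⁻¹) ∈ zpowers (i ^ 2) := fun g => by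
    obtain ⟨k, hk⟩ := hi g
    replace hk : i ^ k = g * i * g⁻¹ := hk
    rw [← hk]
    refine (par (mem_zpowers _) k).resolve_left fun ⟨_, h1⟩ => ?_
    have h2 : (g * i * g⁻¹) ^ 2 = 1 := by
      rcases eq_or_of_mem_zpowers (by rw [← pow_mul, h.i4]) h1 with e | e
      · rw [← hk, e, one_pow]
      · rw [← hk, e, ← pow_mul, h.i4]
    have h4 : i ^ 2 = 1 := by simpa [conj_pow, mul_inv_eq_one] using h2
    rw [hk, h4, zpowers_one_eq_bot, mem_bot] at h1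
    exact h.ni (by rw [show i = 1 by simpa [mul_inv_eq_one] using h1]; exact one_mem _)
  have key : ∀ g : G, ⁅g, j⁆ ∈ zpowers (i ^ 2) → g ∈ Q := fun g hg => by
    obtain ⟨x, hx, e1, e2⟩ := h.exists_conj (hi' g) hg
    refine (mul_mem_cancel_left (inv_mem (mem_sup_left hx))).1 (cent _ ?_ ?_)
    · calc x⁻¹ * g * i = x⁻¹ * (g * i * g⁻¹) * g := by group
        _ = _ := by rw [← e1]; group
    · calc x⁻¹ * g * j = x⁻¹ * (g * j * g⁻¹) * g := by group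
        _ = _ := by rw [← e2]; group
  have two : ∀ g ∈ normalizer (Q : Set G), g ∉ Q → g * s⁻¹ ∈ Q := fun g hg hgQ => by
    obtain ⟨k, hk⟩ := hA g (cQ _ (mul_mem (conj_mem_of_mem_normalizer hg jQ) (inv_mem jQ)))
    replace hk : i ^ k = ⁅g, j⁆ := hk
    have h1 := (par (mem_zpowers (i ^ 2)) k).resolve_left fun ⟨_, h1⟩ => hgQ (key g (hk ▸ h1))
    refine key _ ?_
    have := mul_mem (inv_mem (hi' g)) h1
    convert this using 1
    have e : s⁻¹ * j * s = i⁻¹ * j := by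
      calc s⁻¹ * j * s = s⁻¹ * i⁻¹ * (i * j) * s := by group
        _ = _ := by rw [← sj, s2.inv_inv.eq]; group
    calc ⁅g * s⁻¹, j⁆ = g * (s⁻¹ * j * s) * g⁻¹ * j⁻¹ := by group
      _ = _ := by rw [e, hk]; group
  have a4 : α (⟨i, iQ⟩ * ⟨j, jQ⟩) = ⟨i, iQ⟩ := by rw [← a2, ← a1, cube h3]
  refine exists_sat_of_aut (hG.to_subgroup _) (Q := Q) (lt_top_iff_ne_top.2 fun e => sQ (e ▸ mem_top s))
    (fun g hg => cent g (hg.2 i iQ).symm (hg.2 j jQ).symm) h3 (fun e => ?_) (fun g hg _ hgQ => ?_) fun Y hY => ?_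
  · rw [e] at a1
    have e1 : i = j := congrArg Subtype.val a1
    exact h.nij (e1 ▸ (pow_two i ▸ h.w))
  · set σ := conjAut Q sN with hσ
    have t1 : σ ⟨i, iQ⟩ = ⟨i, iQ⟩ := Subtype.ext (mul_inv_eq_iff_eq_mul.2 s2.eq)
    have t2 : σ ⟨j, jQ⟩ = ⟨i, iQ⟩ * ⟨j, jQ⟩ := Subtype.ext sj
    have t3 : ∀ c ∈ C.subgroupOf Q, σ c = c := fun c hc => Subtype.ext (mul_inv_eq_iff_eq_mul.2 (s3 c hc).eq)
    have u : ∀ x y, σ x = y → σ⁻¹ y = x := fun x y e => by rw [← e, MulAut.inv_apply_self]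
    have h4 : σ * α * σ⁻¹ * α = MulAut.conj (⟨i, iQ⟩ * ⟨j, jQ⟩) := by
      have := gen' ((σ * α * σ⁻¹ * α).toMonoidHom.eqLocus (MulAut.conj (⟨i, iQ⟩ * ⟨j, jQ⟩ : Q)).toMonoidHom)
        (show σ (α (σ⁻¹ (α _))) = _ * _ * _ by
          rw [a1, u (⟨i, iQ⟩⁻¹ * ⟨j, jQ⟩) _ (by rw [map_mul, map_inv, t1, t2, inv_mul_cancel_left]), map_mul, map_inv,
            a1, a2, map_mul, map_inv, map_mul, t1, t2, h'.ij]
          refine Subtype.ext ?_
          calc (i * j)⁻¹ * (i * (i * j)) = (i * j)⁻¹ * i * (i * j * i) * i⁻¹ := by group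
            _ = (i * j * i) * j⁻¹ * i⁻¹ := by rw [h.ij, ← h.ji]; group
            _ = j * (i * j)⁻¹ := by rw [h.ij]; group)
        (show σ (α (σ⁻¹ (α _))) = _ * _ * _ by
          rw [a2, u _ _ t2, a2, map_mul, t1, t2]
          refine Subtype.ext ?_
          calc i * (i * j) = i * (j * i * j⁻¹)⁻¹ * j := by rw [h.ji]; group
            _ = i * j * j * (i * j)⁻¹ := by group)
        fun c hc => show σ (α (σ⁻¹ (α c))) = _ * _ * _ by
          rw [a3 c hc, u _ _ (t3 c hc), a3 c hc, t3 c hc, ((h'.ci c hc).mul_left (h'.cj c hc)).eq, mul_inv_cancel_right]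
      exact MulEquiv.ext fun x => this.ge (mem_top x)
    have h5 : conjAut Q hg = MulAut.conj ⟨_, two g hg hgQ⟩ * σ := MulEquiv.ext fun x => Subtype.ext (by
      change g * x * g⁻¹ = g * s⁻¹ * (s * x * s⁻¹) * (g * s⁻¹)⁻¹
      group)
    have h6 : (MulAut.conj ⟨_, two g hg hgQ⟩ : MulAut Q) ∈ Inn Q := ⟨_, rfl⟩
    have := mul_mem (mul_mem h6 (show σ * α * σ⁻¹ * α ∈ Inn Q from ⟨_, h4.symm⟩))
      ((innNormal Q).conj_mem _ (inv_mem h6) α⁻¹)
    rw [h5]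
    convert this using 1
    group
  · by_contra! hn
    have hom : ∀ n : ℕ, HomOn Y (autFun (α ^ n)) := fun n => (homOn_autFun _).mono hY.le
    have hCY : C ≤ Y := fun c hcC => by
      have := hn 0 (show c ∈ FusionSystem.centralizerIn ⊤ _ from ⟨trivial, fun y hy => ?_⟩)
      · rwa [pow_zero, img_eq_self_of_fix fun x hx => autFun_one (hY.le hx)] at this
      · exact (gen (centralizer {c}) (mem_centralizer_singleton_iff.2 (h.ci c hcC))
          (mem_centralizer_singleton_iff.2 (h.cj c hcC))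
          (fun d hd => mem_centralizer_singleton_iff.2 (hc d hd c hcC))
          (img_le_iff.2 (fun x hx => autFun_mem _ (hY.le hx)) hy) c rfl).symm
    have fin : ∀ (n : ℕ) (u v : Q), (α ^ n) u = ⟨j, jQ⟩ → (α ^ n) v = ⟨i, iQ⟩ * ⟨j, jQ⟩ → (u : G) ∈ Y ∨ (v : G) ∈ Y := by
      intro n u v hu hv
      by_contra! h4
      have h5 : ∀ u : Q, (u : G) ∉ Y → ((α ^ n) u : G) ∉ img (autFun (α ^ n)) Y := fun u h5 h6 => by
        obtain ⟨x, hx, e⟩ := (hom n).mem_img.1 h6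
        rw [autFun_apply _ (hY.le hx)] at e
        exact h5 ((α ^ n).injective (Subtype.ext e) ▸ hx)
      have h6 : C ≤ img (autFun (α ^ n)) Y := fun c hc => (hom n).mem_img.2 ⟨c, hCY hc, by
        rw [autFun_apply _ (CQ hc)]
        exact congrArg Subtype.val (pow_mem (show α ∈ MulAction.stabilizer (MulAut Q) (⟨c, CQ hc⟩ : Q) from
          a3 ⟨c, CQ hc⟩ hc) n)⟩
      have h7 : img (autFun (α ^ n)) Y ≤ Q := img_le_iff.2 fun x hx => autFun_mem _ (hY.le hx)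
      refine sQ (h7 (hn n ⟨trivial, fun x hx => ?_⟩))
      obtain ⟨k, c, hc, rfl | rfl⟩ := dec x (h7 hx)
      · exact ((s2.zpow_right k).mul_right (s3 c hc)).symm
      · exact absurd ((mul_mem_cancel_right (h6 hc)).1 hx)
          (h.le_of h6 (by simpa [hu] using h5 u h4.1) (by simpa [hv] using h5 v h4.2) k)
    have no : ¬ (i ∈ Y ∧ j ∈ Y) := fun e => hY.not_ge (gen Y e.1 e.2 hCY)
    have f0 : j ∈ Y ∨ i * j ∈ Y := fin 0 _ _ rfl rfl
    have f1 : i ∈ Y ∨ j ∈ Y := fin 1 _ _ a1 a2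
    have f2 : i * j ∈ Y ∨ i ∈ Y := fin 2 (⟨i, iQ⟩ * ⟨j, jQ⟩) ⟨i, iQ⟩ (by rw [pow_two, MulAut.mul_apply, a4, a1])
      (by rw [pow_two, MulAut.mul_apply, a1, a2])
    rcases f1 with h4 | h4
    · exact no ⟨h4, f0.elim id (mul_mem_cancel_left h4).1⟩
    · exact no ⟨f2.elim (mul_mem_cancel_right h4).1 id, h4⟩

end Qd

end CL.Fus.Bi
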