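/-
A non-metacyclic bicyclic 2-group with cyclic derived group carries a non-inner saturated fusion system.
-/
import Cfsg.Agent.Fus.BiN
import Cfsg.Agent.Fus.BiU

set_option autoImplicit false

namespace CL.Fus.Bi

open Cfsg Subgroup CL.Grp CL.Fgs CL.Inv
open scoped commutatorElement

variable {X : Type*} [Group X] [Finite X] {a t : X}

omit [Finite X] in
theorem conj_mem_of_cyc (hc : IsCyclic (commutator X)) {v : X} (hv : v ∈ commutator X) (g : X) :
    g * v * g⁻¹ ∈ zpowers v := by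
  obtain ⟨u, hu⟩ := (Subgroup.isCyclic_iff_exists_zpowers_eq_top _).1 hc
  exact conj_mem_zpowers_of_mem (hu ▸ Normal.conj_mem inferInstance _ (hu ▸ mem_zpowers u) g) (hu ▸ hv)

omit [Finite X] in
theorem central_of_cyc (hc : IsCyclic (commutator X)) {v : X} (hv : v ∈ commutator X) (h2 : v ^ 2 = 1) :
    v ∈ center X := Subgroup.mem_center_iff.2 fun g => by
  rcases eq_or_of_mem_zpowers h2 (conj_mem_of_cyc hc hv g) with e | e
  · rw [show v = 1 by simpa [mul_inv_eq_one] using e]; simp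
  · exact mul_inv_eq_iff_eq_mul.1 e

namespace St

variable (h : St a) (hc : IsCyclic (commutator X))
include h hc

omit [Finite X] in
theorem conj_odd {v : X} (hv : v ∈ commutator X) (g : X) : ∃ k : ℤ, g * v * g⁻¹ = v ^ (1 + 2 * k) :=
  exists_conj_eq_zpow_one_add (S := ⊤) (h.pg.to_subgroup _) trivial trivial (conj_mem_of_cyc hc hv g)

theorem root {v i : X} (hv : v ∈ commutator X) (hi : i ∈ commutator X) (i1 : i ≠ 1) (h2 : v ^ 2 ∈ zpowers (i ^ 2)) :
    v ∈ zpowers i := by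
  obtain ⟨m, hm⟩ := h.pg.dvd_orderOf i1
  obtain ⟨k, hk⟩ := mem_zpowers_of_orderOf_dvd_of_isCyclic (G := commutator X) (x := ⟨v, hv⟩) (z := ⟨i, hi⟩) (by
    rw [← Subgroup.orderOf_coe, ← Subgroup.orderOf_coe, orderOf_dvd_iff_pow_eq_one]
    obtain ⟨k, hk⟩ := h2
    change v ^ orderOf i = 1
    rw [hm, pow_mul, ← hk, ← zpow_natCast, ← zpow_mul, mul_comm k, zpow_mul, zpow_natCast, ← pow_mul, ← hm,
      pow_orderOf_eq_one, one_zpow])
  exact ⟨k, congrArg Subtype.val hk⟩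

theorem cent8 {v : X} (hv : v ∈ commutator X) (h8 : v ^ 8 = 1) : frattini X ≤ centralizer {v} :=
  (frattini_le_iff_pGroup h.pg).2 ⟨fun w hw => mem_centralizer_singleton_iff.2 (h.ab w hw v hv), fun x => by
    obtain ⟨k, hk⟩ := h.conj_odd hc hv x
    obtain ⟨r, hr⟩ := Int.even_mul_succ_self k
    rw [mem_centralizer_singleton_iff, ← mul_inv_eq_iff_eq_mul]
    calc x ^ 2 * v * (x ^ 2)⁻¹ = x * (x * v * x⁻¹) * x⁻¹ := by simp only [pow_two]; group
      _ = v ^ (1 + 8 * r) := by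
        rw [hk, ← conj_zpow, hk, ← zpow_mul]
        congr 1
        linear_combination 4 * hr
      _ = v := by rw [zpow_add, zpow_mul, zpow_ofNat v 8, h8]; simp⟩

variable (ht : t ∉ Lx a)
include ht

theorem genA : commutator X = zpowers ⁅a, t⁆ := by
  haveI : (zpowers ⁅a, t⁆).Normal :=
    ⟨fun n hn g => zpowers_le.2 hn (conj_mem_of_cyc hc (zpowers_le.2 (comm_mem a t) hn) g)⟩
  exact le_antisymm (h.cle ht _ (mem_zpowers _)) (zpowers_le.2 (comm_mem a t))

theorem c_ne : ⁅a, t⁆ ≠ 1 := fun e => by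
  haveI : (zpowers a).Normal := Normal.of_commutator_le X (by rw [h.genA hc ht, e]; simp)
  exact h.nm (mc_of_gen (h.gen ht _ (mem_sup_left (mem_zpowers a)) (mem_sup_right (mem_zpowers t))))

variable (ht2 : t ^ 2 ∈ commutator X)
include ht2

theorem sq_mem : ∃ k : ℤ, t ^ 2 = (⁅a, t⁆ ^ k) ^ 2 := by
  obtain ⟨m, hm⟩ := (h.genA hc ht).le ht2
  replace hm : ⁅a, t⁆ ^ m = t ^ 2 := hm
  rcases Int.even_or_odd m with ⟨k, rfl⟩ | hm2
  · exact ⟨k, by rw [← hm, zpow_add, pow_two]⟩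
  haveI : (zpowers t).Normal := Normal.of_commutator_le X (by
    rw [h.genA hc ht, zpowers_le]
    exact mem_of_zpow_odd h.pg hm2 (hm ▸ pow_mem (mem_zpowers t) 2))
  exact absurd (mc_of_gen (h.gen ht _ (mem_sup_right (mem_zpowers a)) (mem_sup_left (mem_zpowers t)))) h.nm

theorem t4 : (t ^ 2) ^ 2 = 1 := by
  obtain ⟨k, hk⟩ := h.sq_mem hc ht ht2
  obtain ⟨m, hm⟩ := h.conj_odd hc ht2 a
  set c := ⁅a, t⁆ with hcd
  have e1 : t * c * t⁻¹ = c ^ (4 * k * m - 1) := by
    calc t * c * t⁻¹ = c⁻¹ * (a * t ^ 2 * a⁻¹) * (t ^ 2)⁻¹ := by rw [hcd]; simp only [pow_two]; group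
      _ = _ := by rw [hm, hk]; group
  have e2 : t * t ^ 2 * t⁻¹ = t ^ 2 := by group
  rw [hk, ← conj_pow, ← conj_zpow, e1] at e2
  refine mem_bot.1 (mem_of_zpow_odd h.pg (j := 2 * (k * m - 1) + 1) (odd_two_mul_add_one _) (mem_bot.2 ?_))
  rw [hk]
  calc _ = ((c ^ (4 * k * m - 1)) ^ k) ^ 2 * ((c ^ k) ^ 2)⁻¹ := by group
    _ = 1 := by rw [e2, mul_inv_cancel]

theorem inv' {v : X} (hv : v ∈ commutator X) : t * v * t⁻¹ = v⁻¹ :=
  h.inverts ht (central_of_cyc hc ht2 (h.t4 hc ht ht2)) hv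

theorem comm_t {v : X} (hv : v ∈ commutator X) : ⁅v, t⁆ = v ^ 2 := by
  calc ⁅v, t⁆ = v * (t * v * t⁻¹)⁻¹ := by group
    _ = _ := by rw [h.inv' hc ht ht2 hv, inv_inv, pow_two]

theorem sq_one {v : X} (hv : v ∈ commutator X) (h1 : Commute v t) : v ^ 2 = 1 :=
  (h.comm_t hc ht ht2 hv).symm.trans (commutatorElement_eq_one_iff_commute.2 h1)

theorem cls' {v : X} (hv : v ∈ commutator X) : ∃ s : X, ⁅s, t⁆ = v := by
  obtain ⟨m, rfl⟩ := (h.genA hc ht).le hv
  have key : ∀ l : ℤ, ⁅⁅a, t⁆ ^ l, t⁆ = ⁅a, t⁆ ^ (2 * l) := fun l => by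
    rw [h.comm_t hc ht ht2 (zpow_mem (comm_mem a t) l), mul_comm, zpow_mul, zpow_ofNat]
  rcases Int.even_or_odd' m with ⟨l, rfl | rfl⟩
  · exact ⟨_, key l⟩
  · refine ⟨⁅a, t⁆ ^ l * a, ?_⟩
    rw [commutatorElement_mul_left_eq_conj_mul, key]
    generalize ⁅a, t⁆ = c
    group

omit hc in
theorem gen_mod (C : Subgroup X) : ∃ g ∈ C, ∀ x ∈ C, ∃ m : ℤ,
    (g ^ m)⁻¹ * x ∈ commutator X ∨ t⁻¹ * ((g ^ m)⁻¹ * x) ∈ commutator X := by
  haveI : (commutator X ⊔ zpowers t).Normal := Normal.of_commutator_le X le_sup_left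
  let π := QuotientGroup.mk' (commutator X ⊔ zpowers t)
  haveI : IsCyclic (X ⧸ (commutator X ⊔ zpowers t)) := isCyclic_iff_exists_zpowers_eq_top.2 ⟨π a, eq_top_iff.2
    fun y _ => by
      obtain ⟨y, rfl⟩ := QuotientGroup.mk'_surjective _ y
      exact (h.gen ht ((zpowers (π a)).comap π) (mem_zpowers _) (by
        rw [mem_comap, show π t = 1 from (QuotientGroup.eq_one_iff t).2 (mem_sup_right (mem_zpowers t))]
        exact one_mem _)).ge (mem_top y)⟩
  obtain ⟨y, hy⟩ := (Subgroup.isCyclic_iff_exists_zpowers_eq_top (C.map π)).1 inferInstance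
  obtain ⟨g, hg, rfl⟩ := hy.le (mem_zpowers y)
  refine ⟨g, hg, fun x hx => ?_⟩
  obtain ⟨m, hm⟩ := hy.ge (mem_map_of_mem π hx)
  obtain ⟨k, hk⟩ := (mem_sup_zpowers_iff (A := commutator X) (by rw [normalizer_eq_top]; trivial)).1
    (QuotientGroup.eq.1 (show π (g ^ m) = π x from (map_zpow π g m).trans hm))
  refine ⟨m, (par ht2 k).imp (fun h1 => (mul_mem_cancel_left (inv_mem h1.2)).1 hk) fun h1 => ?_⟩
  convert mul_mem h1 hk using 1
  group

theorem sat_Q (t1 : t ^ 2 ≠ 1) : ∃ F : FusionSystem (⊤ : Subgroup X), F.IsSaturated 2 ∧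
    ¬ ∀ P : Subgroup X, F.Hom P = (innerFusionSystem ⊤).Hom P := by
  have main : ∀ i ∈ commutator X, t ^ 2 = i ^ 2 → ∀ s, ⁅s, t⁆ = i → Commute s i → (∀ g ∈ frattini X, Commute s g) →
      ∃ F : FusionSystem (⊤ : Subgroup X), F.IsSaturated 2 ∧
        ¬ ∀ P : Subgroup X, F.Hom P = (innerFusionSystem ⊤).Hom P := by
    intro i hi i2 s s1 s2 s3
    have nc : ¬ Commute i t := fun e => t1 (i2.trans (h.sq_one hc ht ht2 hi e))
    have mem : ∀ g, g ∈ centralizer ({i, t} : Set X) ↔ Commute i g ∧ Commute t g := fun g => by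
      simp [mem_centralizer_iff, commute_iff_eq]
    have i8 : i ^ 8 = 1 := by rw [show 8 = 2 * 2 * 2 from rfl, pow_mul, pow_mul, ← i2, h.t4 hc ht ht2, one_pow]
    have CF : centralizer ({i, t} : Set X) ≤ frattini X := fun g hg => by
      obtain ⟨h1, h2⟩ := (mem g).1 hg
      have key : ∀ g ∈ Lx a, Commute t g → g ∈ frattini X := fun g gL h2 => by_contra fun h3 =>
        nc (mem_centralizer_singleton_iff.1 ((h.gen' gL h3 ht (centralizer {t})
          (mem_centralizer_singleton_iff.2 h2.symm) (mem_centralizer_singleton_iff.2 rfl)).ge (mem_top i)))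
      by_cases gL : g ∈ Lx a
      · exact key g gL h2
      have h3 : Commute (g * t) i :=
        mem_centralizer_singleton_iff.1 (h.cent8 hc hi i8 (key _ (h.mul_memL gL ht) (h2.mul_right rfl)))
      exact absurd (by simpa using (h1.symm.inv_left.mul_left h3).symm) nc
    have hw := central_of_cyc hc ht2 (h.t4 hc ht ht2)
    refine Qd.exists_sat (i := i) (j := t) (C := centralizer {i, t}) ⟨h.inv' hc ht ht2 hi, (pow_two t).symm.trans i2,
      fun c hc => ((mem c).1 hc).1, fun c hc => ((mem c).1 hc).2,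
      (mem _).2 ⟨(Commute.refl i).pow_right 2, i2 ▸ (Commute.refl t).pow_right 2⟩, fun e => nc ((mem _).1 e).2.symm,
      fun e => nc ((mem _).1 e).1, fun e => nc (by simpa using (Commute.refl i).inv_right.mul_right ((mem _).1 e).1)⟩
      h.pg ?_ (fun g h1 h2 => mem_sup_right ((mem g).2 ⟨h1.symm, h2.symm⟩)) (conj_mem_of_cyc hc hi)
      (fun g hg => h.root hc (comm_mem g t) hi (fun e => nc (e ▸ Commute.one_left t))
        (h.comm_t hc ht ht2 (comm_mem g t) ▸ hg)) s1 s2 fun c hc => s3 c (CF hc)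
    obtain ⟨g, hg, hgen⟩ := h.gen_mod ht ht2 (centralizer {i, t})
    have key : ∀ x ∈ centralizer ({i, t} : Set X), ∃ m : ℤ, (g ^ m)⁻¹ * x ∈ center X := fun x hx => by
      obtain ⟨m, hm⟩ := hgen x hx
      obtain ⟨h1, h2⟩ := (mem _).1 (mul_mem (inv_mem (zpow_mem hg m)) hx)
      refine ⟨m, central_of_cyc hc (hm.resolve_right fun h3 => nc ?_) (h.sq_one hc ht ht2
        (hm.resolve_right fun h3 => nc ?_) h2.symm)⟩ <;>
      simpa [mul_assoc] using h1.mul_right (h.ab _ hi _ h3).inv_right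
    intro x hx y hy
    obtain ⟨m, hm⟩ := key x hx
    obtain ⟨n, hn⟩ := key y hy
    rw [← mul_inv_cancel_left (g ^ m) x, ← mul_inv_cancel_left (g ^ n) y]
    exact (((Commute.refl g).zpow_zpow m n).mul_right (commute_of_mem_center hn _)).mul_left
      (commute_of_mem_center hm _).symm
  obtain ⟨k, hk⟩ := h.sq_mem hc ht ht2
  have t4 := h.t4 hc ht ht2
  have cA := comm_mem a t
  have hA := h.genA hc ht
  set c := ⁅a, t⁆ with hcd
  rcases Int.even_or_odd' k with ⟨l, rfl | rfl⟩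
  · refine main _ (zpow_mem cA _) hk (c ^ l)
      (by rw [h.comm_t hc ht ht2 (zpow_mem cA l), mul_comm, zpow_mul, zpow_ofNat])
      ((Commute.refl c).zpow_zpow _ _) fun g hg =>
        (mem_centralizer_singleton_iff.1 (h.cent8 hc (zpow_mem cA l) ?_ hg)).symm
    rw [← t4, hk]
    group
  have c4 : (c ^ 2) ^ 2 = 1 := mem_bot.1 (mem_of_zpow_odd h.pg (odd_two_mul_add_one l) (mem_bot.2 (by
    rw [← t4, hk]; group)))
  have c2 : t ^ 2 = c ^ 2 := by
    calc t ^ 2 = ((c ^ 2) ^ 2) ^ l * c ^ 2 := by rw [hk]; group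
      _ = _ := by rw [c4, one_zpow, one_mul]
  have fin : ∀ s, ⁅s, t⁆ = c → Commute s c → Abelianization.of s ^ 2 = Abelianization.of a ^ 2 → _ :=
    fun s s1 s2 s3 => main c cA c2 s s1 s2 fun g hg => by
      obtain ⟨m, hm⟩ := h.memF.1 hg
      have h1 : (s ^ (2 * m))⁻¹ * g ∈ commutator X := by
        rw [mem_comm_iff] at hm ⊢
        simp only [map_mul, map_inv, map_zpow, zpow_mul, zpow_ofNat] at hm ⊢
        rwa [map_pow, s3, ← map_pow]
      obtain ⟨n, hn⟩ := hA.le h1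
      rw [← mul_inv_cancel_left (s ^ (2 * m)) g, ← hn]
      exact ((Commute.refl s).zpow_right _).mul_right (s2.zpow_right n)
  obtain ⟨m, hm⟩ := h.conj_odd hc cA a
  rw [zpow_add, zpow_one, zpow_mul, zpow_ofNat] at hm
  rcases eq_or_of_mem_zpowers c4 ⟨m, rfl⟩ with e | e
  · exact fin a rfl (mul_inv_eq_iff_eq_mul.1 (by rw [hm, show (c ^ 2) ^ m = 1 from e, mul_one])) rfl
  · refine fin (a * t) (by rw [hcd]; group) (mul_inv_eq_iff_eq_mul.1 ?_) ?_
    · calc a * t * c * (a * t)⁻¹ = (a * (t * c * t⁻¹)⁻¹ * a⁻¹)⁻¹ := by group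
        _ = c * ((c ^ 2) ^ 2)⁻¹ := by rw [h.inv' hc ht ht2 cA, inv_inv, hm, show (c ^ 2) ^ m = c ^ 2 from e]; group
        _ = c := by rw [c4, inv_one, mul_one]
    · rw [map_mul, mul_pow, ← map_pow _ t, mem_comm_iff.1 ht2, mul_one]

theorem sat_D (hD : ∀ t, t ∉ Lx a → t ^ 2 ∈ commutator X → t ^ 2 = 1) : ∃ F : FusionSystem (⊤ : Subgroup X),
    F.IsSaturated 2 ∧ ¬ ∀ P : Subgroup X, F.Hom P = (innerFusionSystem ⊤).Hom P := by
  have t2 := hD t ht ht2
  obtain ⟨z, zA, z1, z2⟩ : ∃ z ∈ commutator X, z ≠ 1 ∧ z ^ 2 = 1 := by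
    have h1 := orderOf_pow_orderOf_div (orderOf_pos ⁅a, t⁆).ne' (h.pg.dvd_orderOf (h.c_ne hc ht))
    exact ⟨_, pow_mem (comm_mem a t) _, fun e => by rw [e, orderOf_one] at h1; omega, h1 ▸ pow_orderOf_eq_one _⟩
  have zc := commute_of_mem_center (central_of_cyc hc zA z2)
  obtain ⟨s, s1⟩ := h.cls' hc ht ht2 zA
  have two : ∀ v ∈ commutator X, Commute v t → v = 1 ∨ v = z := fun v hv h1 =>
    uniq_inv hc hv zA (h.sq_one hc ht ht2 hv h1) z2 z1
  have zH : z ∈ closure ({z, t} : Set X) := subset_closure (Or.inl rfl)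
  have tH : t ∈ closure ({z, t} : Set X) := subset_closure (Or.inr rfl)
  have main : ∀ g, Commute g t → Commute s g → z ∉ zpowers g →
      (∀ x, Commute x t → x ∈ closure ({z, t} : Set X) ⊔ zpowers g) → _ := fun g h1 h2 h3 h4 =>
    have h5 : ∀ c ∈ zpowers g, Commute s c := by rintro _ ⟨m, rfl⟩; exact h2.zpow_right m
    have h6 : ¬ Commute s t := fun e => z1 (s1.symm.trans (commutatorElement_eq_one_iff_commute.2 e))
    Qd.exists_sat (i := z) (j := t) (C := zpowers g) ⟨h.inv' hc ht ht2 zA, by rw [← pow_two, t2, z2],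
      fun c _ => (zc c).symm, by rintro _ ⟨m, rfl⟩; exact h1.symm.zpow_right m, z2 ▸ one_mem _, h3,
      fun e => h6 (h5 t e), fun e => h6 (by simpa using (zc s).inv_right.mul_right (h5 _ e))⟩ h.pg
      (by rintro _ ⟨m, rfl⟩ _ ⟨n, rfl⟩; exact (Commute.refl g).zpow_zpow m n) (fun x _ hx => h4 x hx)
      (conj_mem_of_cyc hc zA) (fun g hg => h.root hc (comm_mem g t) zA z1 (h.comm_t hc ht ht2 (comm_mem g t) ▸ hg))
      s1 (zc s) h5
  have main' : ∀ g, Commute g t → Commute s g →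
      (∀ x, Commute x t → x ∈ closure ({z, t} : Set X) ⊔ zpowers g) → _ := fun g h1 h2 h4 => by
    by_cases h3 : z ∈ zpowers g
    swap
    · exact main g h1 h2 h3 h4
    obtain ⟨m, hm⟩ := h3
    replace hm : g ^ m = z := hm
    rcases Int.even_or_odd m with ⟨l, rfl⟩ | h5
    · rw [zpow_add, ← pow_two] at hm
      refine absurd ?_ z1
      by_cases h6 : g ^ l ∈ Lx a
      · have e : (g ^ l * t) ^ 2 = z := by rw [(h1.zpow_left l).mul_pow, hm, t2, mul_one]
        exact e ▸ hD _ (fun h7 => ht ((mul_mem_cancel_left h6).1 h7)) (e ▸ zA)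
      · exact hm ▸ hD _ h6 (hm ▸ zA)
    · refine main 1 (Commute.one_left t) (Commute.one_right s) (by simpa using z1) fun x hx =>
        sup_le le_sup_left (zpowers_le.2 (mem_sup_left (mem_of_zpow_odd h.pg h5 (hm ▸ zH)))) (h4 x hx)
  obtain ⟨g, hg, hgen⟩ := h.gen_mod ht ht2 (centralizer {t})
  replace hg : Commute g t := mem_centralizer_singleton_iff.1 hg
  have key : ∀ K : Subgroup X, g ∈ closure ({z, t} : Set X) ⊔ K → ∀ x, Commute x t →
      x ∈ closure ({z, t} : Set X) ⊔ K := fun K hK x hx => by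
    obtain ⟨m, hm⟩ := hgen x (mem_centralizer_singleton_iff.2 hx)
    have h1 : Commute ((g ^ m)⁻¹ * x) t := (hg.zpow_left m).inv_left.mul_left hx
    have h2 : ∀ v ∈ commutator X, Commute v t → v ∈ closure ({z, t} : Set X) := fun v hv h3 => by
      rcases two v hv h3 with rfl | rfl
      exacts [one_mem _, zH]
    refine (mul_mem_cancel_left (inv_mem (zpow_mem hK m))).1 (mem_sup_left ?_)
    rcases hm with h3 | h3
    · exact h2 _ h3 h1
    · exact (mul_mem_cancel_left (inv_mem tH)).1 (h2 _ h3 ((Commute.refl t).inv_left.mul_left h1))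
  have h1 : Commute ⁅s, g⁆ t := by
    have e : s * t * s⁻¹ = z * t := by rw [← s1]; group
    have h2 : Commute (s * g * s⁻¹) (z * t) := by simpa [e] using hg.map (MulAut.conj s)
    have h3 : Commute (s * g * s⁻¹) t := by simpa using (zc _).inv_right.mul_right h2
    exact h3.mul_left hg.inv_left
  rcases two _ (comm_mem s g) h1 with e | e
  · exact main' g hg (commutatorElement_eq_one_iff_commute.1 e) (key _ (mem_sup_right (mem_zpowers g)))
  · refine main' (g * t) (hg.mul_left rfl) (commutatorElement_eq_one_iff_commute.1 ?_) (key _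
      ((mul_mem_cancel_right (mem_sup_left tH)).1 (mem_sup_right (mem_zpowers _))))
    rw [commutatorElement_mul_right_eq_mul_conj, e, s1, mul_assoc z, (zc g).eq, ← mul_assoc, mul_inv_cancel_right,
      ← pow_two, z2]

omit ht ht2 in
theorem sat : ∃ F : FusionSystem (⊤ : Subgroup X), F.IsSaturated 2 ∧
    ¬ ∀ P : Subgroup X, F.Hom P = (innerFusionSystem ⊤).Hom P := by
  by_cases hD : ∀ t, t ∉ Lx a → t ^ 2 ∈ commutator X → t ^ 2 = 1
  · obtain ⟨t, ht, ht2⟩ := h.ex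
    exact h.sat_D hc ht ht2 hD
  · push Not at hD
    obtain ⟨t, ht, ht2, t1⟩ := hD
    exact h.sat_Q hc ht ht2 t1

end St

end CL.Fus.Bi
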