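/-
Realisations of fusion systems on the group `CL.C3.G`: interfaces.
-/
import Cfsg.Agent.Fus.C3X

set_option autoImplicit false

namespace CL.C3

open Cfsg.Spor

/-- `ι` embeds `G` as a Sylow 3-subgroup -/
def Real {Γ : Type} [Group Γ] (ι : G →* Γ) : Prop :=
  Function.Injective ι ∧ ∃ T : Sylow 3 Γ, (T : Subgroup Γ) = ι.range

/-- the embedding in `Co₁` -/
def StCo : Prop := ∃ ι : G →* Co1, Real ι ∧ ∃ y ∉ L 6, IsConj (ι (e 1)) (ι y)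

/-- the embeddings in `Sp₆(3)` (`s = False`) and in the group of similitudes (`s = True`) -/
def StSp (s : Prop) : Prop := ∃ (Γ : Type) (_ : Group Γ) (_ : Finite Γ) (ι : G →* Γ), Real ι ∧
  (∃ x ∈ L 6, x ∉ L 5 ∧ IsConj (ι (e 1)) (ι x)) ∧ (∃ x ∈ L 6, ∃ y ∉ L 6, IsConj (ι x) (ι y)) ∧
  (∀ y ∉ L 6, ¬ IsConj (ι (e 1)) (ι y)) ∧ (IsConj (ι (e 1)) (ι (e 2)) ↔ s)

end CL.C3
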