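/-
The polycyclic generators as matrices in `GL₆(3)`.
-/
import Cfsg.Agent.Fus.C3M
import Cfsg.Agent.Spor.Mx3

set_option autoImplicit false
set_option Elab.async false

namespace CL.C3

open CL.PG CL.Mx3

/-- the matrices of the generators and their inverses -/
def ms : List ((ℕ × ℕ) × ℕ × ℕ) := [((0x810204089, 0x0), 0x810204081, 0x8),
  ((0x810204291, 0x0), 0x810204081, 0x210),
  ((0x810204481, 0x0), 0x810204081, 0x400),
  ((0x81020c0a1, 0x0), 0x810204081, 0x8020),
  ((0x810214881, 0x0), 0x810204081, 0x10800),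
  ((0x810224081, 0x0), 0x810204081, 0x20000),
  ((0x810204085, 0x200000000), 0xa10204081, 0x4),
  ((0x810204181, 0x400000000), 0xc10204081, 0x100),
  ((0x810204083, 0x8000000), 0x818204081, 0x2)]

/-- the letters -/
noncomputable def gS : List (GL (Fin 6) (ZMod 3)) := gns 6 ms

theorem repS : RepT 6 (tab0 6 ms) gS := repT_tab0 (by norm_num) (by decide +kernel)

/-- the polycyclic generators -/
noncomputable def γS (i : ℕ) : GL (Fin 6) (ZMod 3) := letG gS (2 * i)

/-- normal words -/
def wd : ℕ → ℕ → ℕ → List ℕ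
  | 0, _, _ => []
  | n + 1, o, x => wd n (o + 1) (x / 3) ++ List.replicate (x % 3) (2 * o)

section
variable {Ω : Type*} [Group Ω] (gs : List Ω)

theorem wordG_rep (c : ℕ) : ∀ d, wordG gs (List.replicate d c) = letG gs c ^ d
  | 0 => by simp
  | d + 1 => by rw [List.replicate_succ, wordG_cons, wordG_rep c d, pow_succ']

theorem wordG_wd : ∀ n o x, wordG gs (wd n o x) = nf (fun i => letG gs (2 * i)) n o x
  | 0, _, _ => rfl
  | n + 1, o, x => by rw [wd, nf, wordG_append, wordG_wd n, wordG_rep]

/-- the polycyclic relations as words -/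
def RL : List (List ℕ × List ℕ) := (List.range 9).flatMap fun i => (List.replicate 3 (2 * i), wd 9 0 (pp i)) ::
  (List.range i).map fun j => ([2 * j, 2 * i], 2 * i :: wd 9 0 (cc i j))

/-- nine letters satisfying the relations `RL` satisfy `Rel` -/
theorem rel_of_rels (h : Rels gs RL) : Rel fun i => letG gs (2 * i) := by
  refine ⟨fun i hi => ?_, fun i hi j hj => ?_⟩
  · have := h (List.replicate 3 (2 * i), wd 9 0 (pp i))
      (List.mem_flatMap.2 ⟨i, List.mem_range.2 hi, List.mem_cons_self⟩)
    rwa [wordG_rep, wordG_wd] at this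
  · have := h ([2 * j, 2 * i], 2 * i :: wd 9 0 (cc i j)) (List.mem_flatMap.2 ⟨i, List.mem_range.2 hi,
      List.mem_cons_of_mem _ (List.mem_map.2 ⟨j, List.mem_range.2 hj, rfl⟩)⟩)
    rwa [wordG_cons, wordG_cons, wordG_cons, wordG_nil, mul_one, wordG_wd] at this

end

theorem relS : Rel γS := rel_of_rels gS (repS.rels (by decide +kernel))

theorem chain3 : 243 * (27 * (3 * 1)) ∣ Nat.card (subW gS ([[0], [2], [6], [12], [16]] ++ ([[4], [8], [14]] ++ ([[10]] ++ [])))) :=
  repS.lev (v := (1, 0)) (by decide +kernel) (repS.lev (v := (2, 0)) (by decide +kernel)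
    (repS.lev (v := (4, 0)) (by decide +kernel) (one_dvd _)))

theorem el_inj : Function.Injective fun x : Fin 19683 => el γS x := by
  let K : Subgroup (GL (Fin 6) (ZMod 3)) :=
    { carrier := Set.range fun x : Fin 19683 => el γS x
      one_mem' := ⟨0, el_zero γS⟩
      mul_mem' := by
        rintro _ _ ⟨x, rfl⟩ ⟨y, rfl⟩
        obtain ⟨h1, h2⟩ := spec_all relS le_rfl x x.2 y y.2
        exact ⟨⟨_, h1⟩, h2⟩
      inv_mem' := by
        rintro _ ⟨x, rfl⟩
        have h := cI x x.2
        simp only [Bool.and_eq_true, Nat.beq_eq, Nat.blt_eq] at h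
        have h2 := (spec_all relS le_rfl _ h.1 x x.2).2
        rw [h.2, el_zero] at h2
        exact ⟨⟨_, h.1⟩, eq_inv_of_mul_eq_one_left h2.symm⟩ }
  have h1 : subW gS ([[0], [2], [6], [12], [16]] ++ ([[4], [8], [14]] ++ ([[10]] ++ []))) ≤ K := subW_le.2 fun w hw => by
    have : ∃ i < 9, w = [2 * i] := by revert w; decide
    obtain ⟨i, hi, rfl⟩ := this
    rw [wordG_single]
    refine ⟨⟨1 * 3 ^ i, ?_⟩, (el_top γS hi (by norm_num)).trans (pow_one _)⟩
    have : 3 ^ i < 3 ^ 9 := Nat.pow_lt_pow_right (by norm_num) hi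
    omega
  have h2 : 19683 ≤ Nat.card K := Nat.le_of_dvd Nat.card_pos (chain3.trans (Subgroup.card_dvd_of_le h1))
  have h3 : Function.Surjective (Set.rangeFactorization fun x : Fin 19683 => el γS x) :=
    Set.rangeFactorization_surjective
  have h4 := (Nat.bijective_iff_surjective_and_card _).2 ⟨h3, le_antisymm
    (by rw [Nat.card_eq_fintype_card, Fintype.card_fin]; exact h2) (Nat.card_le_card_of_surjective _ h3)⟩
  intro x y e
  exact h4.1 (Subtype.ext e)

end CL.C3
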