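/-
Echelon generators of subgroups of the group `CL.C3.G`; centralisers.
-/
import Cfsg.Agent.Fus.C3G

set_option autoImplicit false
set_option Elab.async false

namespace CL.C3

open Subgroup

/-- no element of `P` has level exactly `k + 1` -/
def Miss (P : Subgroup G) (k : ℕ) : Prop := ∀ x ∈ P, x ∈ L (k + 1) → x ∈ L k

/-- `E` lists echelon generators of `P` (code `0`: no generator on that level) -/
def Ech (P : Subgroup G) (E : List ℕ) : Prop :=
  ∀ k < 9, (E.getD k 0 = 0 ∧ Miss P k) ∨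
    (e (E.getD k 0) ∈ P ∧ 3 ^ k ≤ E.getD k 0 ∧ E.getD k 0 < 2 * 3 ^ k)

theorem lead_one {k n : ℕ} (hk : k < 9) (h1 : 3 ^ k ≤ n) (h2 : n < 2 * 3 ^ k) : ∃ r ∈ L k, e n = e (3 ^ k) * r := by
  have h3 := pow_le (k := k + 1) hk
  rw [pow_succ] at h3
  have h0 : (e (n - 3 ^ k)).v = n - 3 ^ k := e_v (by omega)
  have hr : e (n - 3 ^ k) ∈ L k := by rw [mem_L, h0]; omega
  refine ⟨_, hr, G.ext' ?_⟩
  have := pow_mul_v hk (d := 1) (by norm_num) hr
  rw [pow_one] at this
  rw [this, h0, e_v (by omega)]; omega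

theorem mul_pow_L {k : ℕ} {r : G} (hr : r ∈ L k) (a : G) : ∀ d : ℕ, ∃ s ∈ L k, (a * r) ^ d = a ^ d * s
  | 0 => ⟨1, one_mem _, by simp⟩
  | d + 1 => by
    obtain ⟨s, hs, h⟩ := mul_pow_L hr a d
    refine ⟨a⁻¹ * s * a⁻¹⁻¹ * r, mul_mem (conj_L hs _) hr, ?_⟩
    rw [pow_succ, h]; group

theorem gen_cube : ∀ k < 9, e (3 ^ k) ^ 3 ∈ L k := by decide +kernel

/-- division by an element with leading digit `1` -/
theorem split' {k n : ℕ} (hk : k < 9) (h1 : 3 ^ k ≤ n) (h2 : n < 2 * 3 ^ k) {x : G} (hx : x ∈ L (k + 1)) :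
    ∃ d < 3, ∃ r ∈ L k, x = e n ^ d * r := by
  obtain ⟨d, hd, r, hr, rfl⟩ := split hk hx
  obtain ⟨t, ht, h⟩ := lead_one hk h1 h2
  obtain ⟨s, hs, h'⟩ := mul_pow_L ht (e (3 ^ k)) d
  exact ⟨d, hd, s⁻¹ * r, mul_mem (inv_mem hs) hr, by rw [h, h']; group⟩

theorem miss_of {P : Subgroup G} {k : ℕ} (hk : k < 9) (h : ∀ r ∈ L k, e (3 ^ k) * r ∉ P) : Miss P k := by
  intro x hx hk'
  obtain ⟨d, hd, r, hr, rfl⟩ := split hk hk'
  interval_cases d
  · simpa using hr
  · exact absurd hx (by rw [pow_one]; exact h r hr)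
  · obtain ⟨s, hs, h'⟩ := mul_pow_L hr (e (3 ^ k) ^ 2) 2
    refine absurd (pow_mem hx 2) ?_
    rw [h', ← pow_mul, show 2 * 2 = 1 + 3 by rfl, pow_add, pow_one, mul_assoc]
    exact h _ (mul_mem (gen_cube k hk) hs)

variable {P : Subgroup G} {E : List ℕ}

theorem Ech.step (h : Ech P E) {k : ℕ} (hk : k < 9) {x : G} (hx : x ∈ P) (hk' : x ∈ L (k + 1)) :
    ∃ d < 3, ∃ r ∈ P, r ∈ L k ∧ x = e (E.getD k 0) ^ d * r := by
  rcases h k hk with ⟨-, h2⟩ | ⟨h1, h2, h3⟩
  · exact ⟨0, by norm_num, x, hx, h2 x hx hk', by simp⟩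
  · obtain ⟨d, hd, r, hr, rfl⟩ := split' hk h2 h3 hk'
    exact ⟨d, hd, r, (mul_mem_cancel_left (pow_mem h1 d)).1 hx, hr, rfl⟩

theorem Ech.mem (h : Ech P E) {k : ℕ} (hk : k < 9) : e (E.getD k 0) ∈ P := by
  rcases h k hk with ⟨h1, -⟩ | ⟨h1, -⟩
  · rw [h1]; exact one_mem _
  · exact h1

/-- `P` is generated by its echelon generators -/
theorem Ech.le (h : Ech P E) {H : Subgroup G} (hH : ∀ k < 9, e (E.getD k 0) ∈ H) : P ≤ H := by
  have key : ∀ k ≤ 9, ∀ x ∈ P, x ∈ L k → x ∈ H := fun k => by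
    induction k with
    | zero => intro _ x _ hx; rw [L_zero] at hx; rw [mem_bot.1 hx]; exact one_mem _
    | succ k ih =>
      intro hk x hx hk'
      obtain ⟨d, -, r, hr, hr', rfl⟩ := h.step hk hx hk'
      exact mul_mem (pow_mem (hH k hk) d) (ih (by omega) r hr hr')
  exact fun x hx => key 9 le_rfl x hx x.lt

theorem Ech.eq {Q : Subgroup G} (h : Ech P E) (h' : Ech Q E) : P = Q :=
  le_antisymm (h.le fun _ => h'.mem) (h'.le fun _ => h.mem)

/-- enumeration of the products of the echelon generators -/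
noncomputable def go (E : List ℕ) (p : ℕ → Bool) (k : ℕ) : ℕ → Bool :=
  Nat.rec (motive := fun _ => ℕ → Bool) p (fun k ih a => frc (E.getD k 0) fun g =>
    Bool.rec (Bool.rec false (frc (mul a g) fun b => Bool.rec false (frc (mul b g) ih) (ih b)) (ih a)) (ih a)
      (Nat.beq g 0)) k

theorem Ech.go (h : Ech P E) {p : ℕ → Bool} : ∀ k ≤ 9, ∀ a : G, go E p k a.v = true →
    ∀ x ∈ P, x ∈ L k → p (a * x).v = true := fun k => by
  induction k with
  | zero => intro _ a ha x _ hx; rw [L_zero] at hx; rw [mem_bot.1 hx, mul_one]; exact ha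
  | succ k ih =>
    intro hk a ha x hx hk'
    have e0 : C3.go E p (k + 1) a.v = Bool.rec (Bool.rec false (Bool.rec false (C3.go E p k (mul (mul a.v (E.getD k 0))
      (E.getD k 0))) (C3.go E p k (mul a.v (E.getD k 0)))) (C3.go E p k a.v)) (C3.go E p k a.v)
      (Nat.beq (E.getD k 0) 0) := rfl
    rw [e0] at ha
    rcases h k hk with ⟨h1, h2⟩ | ⟨h1, h2, h3⟩
    · rw [h1] at ha
      exact ih (by omega) a ha x hx (h2 x hx hk')
    · have h4 := pow_le (k := k + 1) hk
      have h5 : 0 < 3 ^ k := by positivity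
      rw [pow_succ] at h4
      have hv : (e (E.getD k 0)).v = E.getD k 0 := e_v (by omega)
      rw [show Nat.beq (E.getD k 0) 0 = false from Bool.eq_false_iff.2 fun h => by rw [Nat.beq_eq] at h; omega,
        ← hv, ← mul_v, ← mul_v] at ha
      obtain ⟨d, hd, r, hr, hr', rfl⟩ := h.step hk hx hk'
      cases h6 : C3.go E p k a.v with
      | false => rw [h6] at ha; cases ha
      | true =>
        rw [h6] at ha
        cases h7 : C3.go E p k (a * e (E.getD k 0)).v with
        | false => rw [h7] at ha; cases ha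
        | true =>
          rw [h7] at ha
          interval_cases d
          · simpa using ih (by omega) _ h6 r hr hr'
          · simpa [mul_assoc] using ih (by omega) _ h7 r hr hr'
          · simpa [mul_assoc, pow_two] using ih (by omega) _ ha r hr hr'

/-- loops over the elements of `P` -/
theorem Ech.all (h : Ech P E) {p : G → Prop} [DecidablePred p]
    (hp : C3.go E (fun n => decide (p (e n))) 9 0 = true) : ∀ x ∈ P, p x := fun x hx => by
  have := h.go 9 le_rfl 1 hp x hx x.lt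
  rw [one_mul, e_self] at this
  exact of_decide_eq_true this

/-- the number of generators below level `k` -/
def cnt (E : List ℕ) : ℕ → ℕ
  | 0 => 0
  | k + 1 => if E.getD k 0 = 0 then cnt E k else cnt E k + 1

theorem Ech.card (h : Ech P E) : Nat.card P = 3 ^ cnt E 9 := by
  have key : ∀ k ≤ 9, Nat.card ↥(P ⊓ L k) = 3 ^ cnt E k := fun k => by
    induction k with
    | zero => intro _; rw [L_zero, inf_bot_eq, card_bot]; rfl
    | succ k ih =>
      intro hk
      rcases h k hk with ⟨h1, h2⟩ | ⟨h1, h2, h3⟩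
      · rw [cnt, if_pos h1, ← ih (by omega), show P ⊓ L (k + 1) = P ⊓ L k from le_antisymm
          (fun x hx => ⟨hx.1, h2 x hx.1 hx.2⟩) (inf_le_inf_left _ (L_mono (Nat.le_succ k)))]
      · have h5 : 0 < 3 ^ k := by positivity
        rw [cnt, if_neg (by omega), pow_succ, ← ih (by omega)]
        obtain ⟨t, ht, e1⟩ := lead_one hk h2 h3
        have hv : ∀ d < 3, ∀ r ∈ L k, (e (E.getD k 0) ^ d * r).v / 3 ^ k = d ∧
            e (E.getD k 0) ^ d * r ∈ L (k + 1) := fun d hd r hr => by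
          obtain ⟨s, hs, e2⟩ := mul_pow_L ht (e (3 ^ k)) d
          have h6 : (s * r).v < 3 ^ k := mul_mem hs hr
          rw [e1, e2, mul_assoc, mem_L, pow_mul_v hk hd (mul_mem hs hr)]
          exact ⟨by rw [add_comm, Nat.add_mul_div_right _ _ h5, Nat.div_eq_of_lt h6, zero_add], lt_of_digit hd h6⟩
        let f : ↥(P ⊓ L k) × Fin 3 → ↥(P ⊓ L (k + 1)) := fun y =>
          ⟨e (E.getD k 0) ^ y.2.1 * y.1, mul_mem (pow_mem h1 _) y.1.2.1, (hv _ y.2.2 _ y.1.2.2).2⟩
        have hf : Function.Bijective f := by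
          constructor
          · rintro ⟨x, d⟩ ⟨y, d'⟩ e2
            have e3 : e (E.getD k 0) ^ d.1 * x = e (E.getD k 0) ^ d'.1 * y := congrArg Subtype.val e2
            have e4 : d = d' := Fin.ext (by rw [← (hv _ d.2 _ x.2.2).1, e3, (hv _ d'.2 _ y.2.2).1])
            subst e4
            rw [Subtype.ext (mul_left_cancel e3)]
          · rintro ⟨x, hx, hx'⟩
            obtain ⟨d, hd, r, hr, hr', rfl⟩ := h.step hk hx hx'
            exact ⟨(⟨r, hr, hr'⟩, ⟨d, hd⟩), rfl⟩
        rw [← Nat.card_congr (Equiv.ofBijective f hf), Nat.card_prod, Nat.card_eq_fintype_card (α := Fin 3),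
          Fintype.card_fin]
  have := key 9 le_rfl
  rwa [L_nine, inf_top_eq] at this

/-- commutators in `P` lie in a normal subgroup `N` if those of the generators do -/
theorem Ech.comm_le (h : Ech P E) {N : Subgroup G} [N.Normal]
    (hc : ∀ i < 9, ∀ j < 9, e (E.getD i 0) * e (E.getD j 0) * (e (E.getD i 0))⁻¹ * (e (E.getD j 0))⁻¹ ∈ N) :
    ∀ a ∈ P, ∀ b ∈ P, a * b * a⁻¹ * b⁻¹ ∈ N := by
  have key : ∀ a b : G, a * b * a⁻¹ * b⁻¹ ∈ N ↔
      QuotientGroup.mk' N a * QuotientGroup.mk' N b = QuotientGroup.mk' N b * QuotientGroup.mk' N a :=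
    fun a b => by
      rw [← QuotientGroup.eq_one_iff, ← QuotientGroup.mk'_apply, map_mul, map_mul, map_mul, map_inv, map_inv,
        mul_inv_eq_one, mul_inv_eq_iff_eq_mul]
  intro a ha b hb
  rw [key]
  have h1 : ∀ j < 9, a ∈ (centralizer {QuotientGroup.mk' N (e (E.getD j 0))}).comap (QuotientGroup.mk' N) :=
    fun j hj => h.le (H := (centralizer {QuotientGroup.mk' N (e (E.getD j 0))}).comap (QuotientGroup.mk' N))
      (fun i hi => mem_centralizer_singleton_iff.2 ((key _ _).1 (hc i hi j hj))) ha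
  exact (mem_centralizer_singleton_iff.1 (h.le (H := (centralizer {QuotientGroup.mk' N a}).comap (QuotientGroup.mk' N))
    (fun j hj => mem_centralizer_singleton_iff.2 (mem_centralizer_singleton_iff.1 (h1 j hj)).symm) hb)).symm

/-- the generators of `L k` -/
def EL (k : ℕ) : List ℕ := (List.range k).map (3 ^ ·)

theorem ech_L {k : ℕ} (hk : k ≤ 9) : Ech (L k) (EL k) := fun j hj => by
  by_cases h : j < k
  · have : (EL k).getD j 0 = 3 ^ j := by simp [EL, List.getD_eq_getElem?_getD, h]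
    have h5 : 0 < 3 ^ j := by positivity
    have h6 : 3 ^ j < 3 ^ k := Nat.pow_lt_pow_right (by norm_num) h
    have h7 := pow_le hk
    rw [this]
    exact Or.inr ⟨by rw [mem_L, e_v (by omega)]; exact h6, le_rfl, by omega⟩
  · exact Or.inl ⟨by simp [EL, List.getD_eq_getElem?_getD, h], fun x hx _ => L_mono (by omega) hx⟩

/-- `A = L 5` is abelian -/
theorem A_comm {a b : G} (ha : a ∈ L 5) (hb : b ∈ L 5) : a * b = b * a := by
  have := (ech_L (k := 5) (by norm_num)).comm_le (N := L 0) (by decide +kernel) a ha b hb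
  rw [L_zero, mem_bot, mul_inv_eq_one, mul_inv_eq_iff_eq_mul] at this
  exact this

/-- if `L 5 ≤ P`, a missing level can be checked modulo `L 5` -/
theorem miss_hi (hP : L 5 ≤ P) {k : ℕ} (hk : k < 4) (h : ∀ n < 3 ^ k, e (243 * (3 ^ k + n)) ∉ P) : Miss P (k + 5) :=
  miss_of (by omega) fun r hr hx => by
    have h1 := pow_mul_v (k := k + 5) (by omega) (d := 1) (by norm_num) hr
    have h2 : r.v < 3 ^ (k + 5) := hr
    rw [pow_one, one_mul] at h1
    rw [← hi_mem hP, hi, h1] at hx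
    rw [pow_add] at h2 hx
    exact h (r.v / 243) (by omega) (by rwa [show (3 ^ k * 3 ^ 5 + r.v) / 243 = 3 ^ k + r.v / 243 by omega] at hx)

/-- centralisers -/
noncomputable abbrev C (u : G) : Subgroup G := centralizer {u}

theorem mem_C {u x : G} : x ∈ C u ↔ x * u = u * x := mem_centralizer_singleton_iff

noncomputable instance (u x : G) : Decidable (x ∈ C u) := decidable_of_iff _ mem_C.symm

noncomputable def cm (x r : ℕ) : Bool := Nat.beq (mul x r) (mul r x)

noncomputable def noC (r k : ℕ) : Bool :=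
  Bool.rec (frc (3 ^ k) fun m => allB m fun n => !cm (Nat.add m n) r)
    (frc (3 ^ (k - 5)) fun m => allB m fun n => frc (Nat.mul 243 (Nat.add m n)) fun H =>
      Bool.rec true (Bool.rec (allB 243 fun a => !cm (Nat.add H a) r) (!cm H r) (Nat.blt r 243))
        (Nat.beq (Nat.div (mul H r) 243) (Nat.div (mul r H) 243))) (Nat.ble 5 k)

noncomputable def chkE (r : ℕ) (E : List ℕ) : Bool :=
  Nat.blt r 19683 && allB 9 fun k => frc (E.getD k 0) fun g =>
    Bool.rec (cm g r && Nat.ble (3 ^ k) g && Nat.blt g (2 * 3 ^ k)) (noC r k) (Nat.beq g 0)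

theorem cm_iff {x r : G} : cm x.v r.v = true ↔ x ∈ C r := by
  rw [cm, Nat.beq_eq, mem_C]
  exact ⟨fun h => G.ext' h, congrArg G.v⟩

theorem not_cm {x r : G} (h : (!cm x.v r.v) = true) : x ∉ C r := by
  rw [← cm_iff]; simpa using h

theorem miss_C {r : G} {k : ℕ} (hk : k < 9) (h : noC r.v k = true) : Miss (C r) k := by
  refine miss_of hk fun t ht => ?_
  have h1 := pow_mul_v hk (d := 1) (by norm_num) ht
  have h2 : t.v < 3 ^ k := ht
  rw [pow_one, one_mul] at h1
  generalize e (3 ^ k) * t = x at h1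
  unfold noC at h
  by_cases h5 : 5 ≤ k
  · rw [Nat.ble_eq_true_of_le h5] at h
    obtain ⟨j, rfl⟩ := Nat.exists_eq_add_of_le' h5
    rw [pow_add] at h1 h2
    have h3 := allB_spec h (t.v / 243) (by rw [Nat.add_sub_cancel]; omega)
    have hx := x.lt
    have h4 : Nat.mul 243 (Nat.add (3 ^ (j + 5 - 5)) (t.v / 243)) = (hi x).v := by
      rw [hi, e_v (by omega), Nat.add_sub_cancel]
      show 243 * (3 ^ j + t.v / 243) = _
      omega
    rw [frc_eq, h4, ← mul_v, ← mul_v] at h3
    obtain ⟨a, ha, e1⟩ := hi_split x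
    intro hC
    have h6 : (hi x * r).v / 243 = (r * hi x).v / 243 := by
      have e2 : hi x * r * (r⁻¹ * a * r⁻¹⁻¹) = r * hi x * a := by
        rw [mul_assoc r, ← e1, ← mem_C.1 hC]; conv_rhs => rw [e1]
        group
      rw [← hi_mul (hi x * r) (conj_L ha r⁻¹), e2, hi_mul _ ha]
    have h7 : Nat.beq (Nat.div (hi x * r).v 243) (Nat.div (r * hi x).v 243) = true := by
      rw [Nat.beq_eq]; exact h6
    rw [h7] at h3
    by_cases h8 : r.v < 243
    · rw [show Nat.blt r.v 243 = true by rw [Nat.blt_eq]; exact h8] at h3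
      exact not_cm h3 ((hi_mem fun b hb => mem_C.2 (A_comm hb h8)).2 hC)
    · rw [show Nat.blt r.v 243 = false from Bool.eq_false_iff.2 fun h => h8 (by rwa [Nat.blt_eq] at h)] at h3
      have h9 := allB_spec h3 (x.v % 243) (Nat.mod_lt _ (by norm_num))
      have h10 : Nat.add (hi x).v (x.v % 243) = x.v := by
        rw [hi, e_v (by omega)]; exact Nat.div_add_mod _ _
      rw [h10] at h9
      exact not_cm h9 hC
  · rw [show Nat.ble 5 k = false from Bool.eq_false_iff.2 fun h => h5 (Nat.le_of_ble_eq_true h)] at h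
    have h3 := allB_spec h t.v h2
    rw [show Nat.add (3 ^ k) t.v = x.v from h1.symm] at h3
    exact not_cm h3

theorem ech_C {r : ℕ} (h : chkE r E = true) : Ech (C (e r)) E := fun k hk => by
  simp only [chkE, Bool.and_eq_true, Nat.blt_eq] at h
  have h1 := allB_spec h.2 k hk
  rw [frc_eq] at h1
  by_cases h0 : E.getD k 0 = 0
  · rw [h0] at h1
    exact Or.inl ⟨h0, miss_C hk (by rw [e_v h.1]; exact h1)⟩
  · rw [show Nat.beq (E.getD k 0) 0 = false from Bool.eq_false_iff.2 fun h => h0 (Nat.eq_of_beq_eq_true h)] at h1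
    simp only [Bool.and_eq_true, Nat.blt_eq, Nat.ble_eq] at h1
    have h4 := pow_le (k := k + 1) hk
    rw [pow_succ] at h4
    exact Or.inr ⟨cm_iff.1 (by rw [e_v h.1, e_v (by omega)]; exact h1.1.1), h1.1.2, h1.2⟩

end CL.C3
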