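/-
Saturated fusion systems on `CL.C3.G`: characteristic subgroups.
-/
import Cfsg.Agent.Fus.C3F

set_option autoImplicit false
set_option Elab.async false

namespace CL.C3

open Subgroup Cfsg Cfsg.FusionSystem CL.Fus

attribute [local irreducible] mul inv

namespace Ih

theorem ivL {F : FS} {A P M N : Subgroup G} {f : G → G} {EP EM : List ℕ} (hf : Mor F A f) (hP : Ech P EP)
    (hM : Ech M EM) (MA : M ≤ A) (NA : N ≤ A) (iM : Iv f M) (iN : Iv f N) {k : ℕ} (iK : Iv f (L k))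
    (PN : ∀ i < 9, e (EP.getD i 0) ∈ N) (h1 : ∀ i < 9, ∀ j < 9, e (EP.getD i 0) ∈ CM k (e (EM.getD j 0)))
    (h2 : ∀ x ∈ N, (∀ m ∈ M, x ∈ CM k m) → x ∈ P) : Iv f P :=
  iv_cm hf MA NA iM iN iK (hP.le PN) (fun _ hx _ hm => comm_of_gens hP hM h1 hx hm)
    fun x hx h => h2 x hx fun m hm => mem_CM.2 (h m hm)

theorem iv0 {F : FS} {A : Subgroup G} {f : G → G} (hf : Mor F A f) : Iv f (L 0) := L_zero ▸ iv_bot hf

theorem L5_CM (k : ℕ) {m : G} (hm : m ∈ L 6) : L 5 ≤ CM k m := fun x hx => mem_CM.2 (by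
  rw [J_comm (L_mono (by norm_num) hx) hm, mul_inv_cancel_right, mul_inv_cancel]; exact one_mem _)

theorem CM_mono {j k : ℕ} (h : j ≤ k) {m x : G} (hx : x ∈ CM j m) : x ∈ CM k m := mem_CM.2 (L_mono h (mem_CM.1 hx))

theorem z6 {x : G} (h : x ∈ CM 1 (e 81)) : x ∈ L 6 :=
  (hi_mem_L (by norm_num)).1 (all_hi (p := fun y => y ∈ CM 1 (e 81) → y ∈ L 6) (by decide +kernel) x
    ((hi_mem (L5_CM 1 (by decide +kernel))).2 h))

theorem z7 {x : G} (h : x ∈ CM 2 (e 81)) : x ∈ L 7 :=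
  (hi_mem_L (by norm_num)).1 (all_hi (p := fun y => y ∈ CM 2 (e 81) → y ∈ L 7) (by decide +kernel) x
    ((hi_mem (L5_CM 2 (by decide +kernel))).2 h))

theorem c8 {x : G} (h : x ∈ CM 0 (e 3)) : x ∈ L 8 :=
  (hi_mem_L (by norm_num)).1 (all_hi (p := fun y => y ∈ CM 0 (e 3) → y ∈ L 8) (by decide +kernel) x
    ((hi_mem (L5_CM 0 (by decide +kernel))).2 h))

theorem c7 {x : G} (h : x ∈ CM 6 (e 6561)) (h' : x ∈ CM 6 (e 2187)) : x ∈ L 7 :=
  (hi_mem_L (by norm_num)).1 (all_hi (p := fun y => y ∈ CM 6 (e 6561) → y ∈ CM 6 (e 2187) → y ∈ L 7)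
    (by decide +kernel) x ((hi_mem ((L_mono (by norm_num)).trans (L_le_CM (by norm_num) _))).2 h)
    ((hi_mem ((L_mono (by norm_num)).trans (L_le_CM (by norm_num) _))).2 h'))

theorem L5_E3 : L 5 ≤ E3 := L_le (by norm_num) (by decide +kernel)
theorem L5_RR : L 5 ≤ RR := L_le (by norm_num) (by decide +kernel)

theorem cR {x : G} (h : x ∈ E3) (h' : x ∈ L 8) : x ∈ RR :=
  (hi_mem L5_RR).1 (all_hi (p := fun y => y ∈ E3 → y ∈ L 8 → y ∈ RR) (by decide +kernel) x ((hi_mem L5_E3).2 h)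
    ((hi_mem_L (by norm_num)).2 h'))

theorem c3 : ∀ x ∈ L 6, x ∈ CM 0 (e 729) → x ∈ L 3 := all_L (by decide +kernel)
theorem c1 : ∀ x ∈ L 3, x ∈ CM 0 (e 6561) → x ∈ L 1 := all_L (by decide +kernel)
theorem c4 : ∀ x ∈ L 6, x ∈ CM 2 (e 729) → x ∈ CM 2 (e 6561) → x ∈ L 4 := all_L (by decide +kernel)
theorem c2 : ∀ x ∈ L 4, x ∈ CM 1 (e 2187) → x ∈ CM 1 (e 6561) → x ∈ L 2 := all_L (by decide +kernel)
theorem c5 : ∀ x ∈ L 6, x ∈ CM 3 (e 729) → x ∈ L 5 := all_L (by decide +kernel)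
theorem cR5 : ∀ x ∈ RR ⊓ L 7, x ∈ CM 2 (e 2187) → x ∈ R5 := ((ech_PS lR).inf_L 7).all (by decide +kernel)

theorem d1 {M : Subgroup G} (h1 : e 81 ∈ M) (h2 : e 729 ∈ M) (h3 : e 6561 ∈ M) {x : G} (h : ∀ m ∈ M, x ∈ CM 0 m) :
    x ∈ L 1 := c1 x (c3 x (z6 (CM_mono (by norm_num) (h _ h1))) (h _ h2)) (h _ h3)

theorem d2 {M : Subgroup G} (h1 : e 81 ∈ M) (h2 : e 729 ∈ M) (h3 : e 6561 ∈ M) (h4 : e 2187 ∈ M) {x : G}
    (h : ∀ m ∈ M, x ∈ CM 1 m) : x ∈ L 2 :=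
  c2 x (c4 x (z6 (h _ h1)) (CM_mono (by norm_num) (h _ h2)) (CM_mono (by norm_num) (h _ h3))) (h _ h4) (h _ h3)

theorem d3 {M : Subgroup G} (h1 : e 81 ∈ M) (h2 : e 729 ∈ M) {x : G} (h : ∀ m ∈ M, x ∈ CM 0 m) : x ∈ L 3 :=
  c3 x (z6 (CM_mono (by norm_num) (h _ h1))) (h _ h2)

theorem i1 (F : FS) (f : G → G) (h : Au F (L 8) f) : Iv f (L 6) ∧ Iv f (L 5) ∧ Iv f (L 3) := by
  have h6 : Iv f (L 6) := J_wc h.1 (L_mono (by norm_num))
  have h3 : Iv f (L 3) := ivL h.1 (ech_L (by norm_num)) (ech_L (k := 8) (by norm_num)) le_rfl le_rfl h.2 h.2 (iv0 h.1)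
    (by decide +kernel) (by decide +kernel) fun _ _ => d3 (by decide +kernel) (by decide +kernel)
  exact ⟨h6, ivL h.1 (ech_L (by norm_num)) (ech_L (k := 8) (by norm_num)) le_rfl (L_mono (by norm_num)) h.2 h6 h3
    (by decide +kernel) (by decide +kernel) fun x hx H => c5 x hx (H _ (by decide +kernel)), h3⟩

theorem i0 (F : FS) (f : G → G) (hf : Mor F ⊤ f) (k : ℕ) : Iv f (L k) := by
  have h9 : Iv f (L 9) := L_nine ▸ fun _ _ => mem_top _
  have e9 := ech_L (k := 9) le_rfl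
  have h1 : Iv f (L 1) := ivL hf (ech_L (by norm_num)) e9 le_top le_top h9 h9 (iv0 hf) (by decide +kernel)
    (by decide +kernel) fun _ _ => d1 (by decide +kernel) (by decide +kernel) (by decide +kernel)
  have h2 : Iv f (L 2) := ivL hf (ech_L (by norm_num)) e9 le_top le_top h9 h9 h1 (by decide +kernel)
    (by decide +kernel) fun _ _ => d2 (by decide +kernel) (by decide +kernel) (by decide +kernel) (by decide +kernel)
  have h8 : Iv f (L 8) := ivL hf (ech_L (by norm_num)) (ech_L (k := 2) (by norm_num)) le_top le_top h2 h9 (iv0 hf)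
    (by decide +kernel) (by decide +kernel) fun _ _ H => c8 (H _ (by decide +kernel))
  obtain ⟨h6, h5, h3⟩ := i1 F f ⟨hf.mono le_top, h8⟩
  have h7 : Iv f (L 7) := ivL hf (ech_L (by norm_num)) e9 le_top le_top h9 h9 h6 (by decide +kernel)
    (by decide +kernel) fun _ _ H => c7 (H _ (by decide +kernel)) (H _ (by decide +kernel))
  have h4 : Iv f (L 4) := ivL hf (ech_L (by norm_num)) e9 le_top le_top h9 h6 h2 (by decide +kernel)
    (by decide +kernel) fun x hx H => c4 x hx (H _ (by decide +kernel)) (H _ (by decide +kernel))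
  by_cases hk : 9 ≤ k
  · exact fun x _ => L_mono hk (L_nine ▸ mem_top _)
  · obtain rfl | rfl | rfl | rfl | rfl | rfl | rfl | rfl | rfl :
      k = 0 ∨ k = 1 ∨ k = 2 ∨ k = 3 ∨ k = 4 ∨ k = 5 ∨ k = 6 ∨ k = 7 ∨ k = 8 := by omega
    exacts [iv0 hf, h1, h2, h3, h4, h5, h6, h7, h8]

theorem i2 (F : FS) (f : G → G) (h : Au F E2 f) : Iv f (L 6) ∧ Iv f (L 1) :=
  ⟨J_wc h.1 (L_le (by norm_num) (by decide +kernel)),
    ivL h.1 (ech_L (by norm_num)) (ech_PS lE2) le_rfl le_rfl h.2 h.2 (iv0 h.1) (by decide +kernel) (by decide +kernel)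
      fun _ _ => d1 (by decide +kernel) (by decide +kernel) (by decide +kernel)⟩

theorem i3 (F : FS) (f : G → G) (h : Au F E3 f) :
    Iv f (L 1) ∧ Iv f (L 2) ∧ Iv f (L 3) ∧ Iv f R5 ∧ Iv f RR := by
  have e3 := ech_PS lE3
  have eR := ech_PS lR
  have hR : RR ≤ E3 := eR.le (by decide +kernel)
  have h1 : Iv f (L 1) := ivL h.1 (ech_L (by norm_num)) e3 le_rfl le_rfl h.2 h.2 (iv0 h.1) (by decide +kernel)
    (by decide +kernel) fun _ _ => d1 (by decide +kernel) (by decide +kernel) (by decide +kernel)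
  have h2 : Iv f (L 2) := ivL h.1 (ech_L (by norm_num)) e3 le_rfl le_rfl h.2 h.2 h1 (by decide +kernel)
    (by decide +kernel) fun _ _ => d2 (by decide +kernel) (by decide +kernel) (by decide +kernel) (by decide +kernel)
  have hr : Iv f RR := ivL h.1 eR (ech_L (k := 2) (by norm_num)) ((L_mono (by norm_num)).trans L5_E3) le_rfl h2 h.2
    (iv0 h.1) (by decide +kernel) (by decide +kernel) fun _ hx H => cR hx (c8 (H _ (by decide +kernel)))
  exact ⟨h1, h2, ivL h.1 (ech_L (by norm_num)) eR hR hR hr hr (iv0 h.1) (by decide +kernel) (by decide +kernel)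
    fun _ _ => d3 (by decide +kernel) (by decide +kernel),
    ivL h.1 (ech_PS lR5) eR hR hR hr hr h2 (by decide +kernel) (by decide +kernel)
      fun x hx H => cR5 x ⟨hx, z7 (H _ (by decide +kernel))⟩ (H _ (by decide +kernel)), hr⟩

end Ih

theorem stI : StI := ⟨Ih.i0, Ih.i1, Ih.i2, Ih.i3⟩

end CL.C3
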