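/-
Saturated fusion systems on `CL.C3.G`: extension of automorphisms of the candidates for essential subgroups.
-/
import Cfsg.Agent.Fus.C3I

set_option autoImplicit false
set_option Elab.async false

namespace CL.C3

open Subgroup Cfsg Cfsg.FusionSystem CL.Fus

attribute [local irreducible] mul inv

namespace Xh

open Ih

variable {F : FS} {A N P K : Subgroup G} {f : G → G}

theorem relIdx {k : ℕ} (hAN : A ≤ N) (hA : Nat.card A = 3 ^ k) (hN : Nat.card N = 3 ^ (k + 1)) :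
    (A.relIndex N).Prime := by
  have := relIndex_mul_relIndex ⊥ A N bot_le hAN
  rw [relIndex_bot_left, relIndex_bot_left, hA, hN, pow_succ] at this
  rw [Nat.eq_of_mul_eq_mul_left (by positivity) this]
  exact Nat.prime_three

theorem card_T : Nat.card (⊤ : Subgroup G) = 3 ^ (8 + 1) := by rw [card_top, card_G]

theorem ext3 (hF : F.IsSaturated 3) [A.Normal] (hc : Nat.card A = 3 ^ 8) (hf : Au F A f)
    (h : F.IsEssential 3 A → ∀ δ ∈ F.autGroup A, (∀ x ∈ A, autFun δ x = f x) → δ ∈ extAut F A) :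
    ∃ k, Mor F ⊤ k ∧ ∀ x ∈ A, k x = f x := by
  have := Fact.mk Nat.prime_three
  obtain ⟨δ, hδ, e1⟩ := hf.aut
  have h1 : δ ∈ extAut F A := by
    by_cases hE : F.IsEssential 3 A
    · exact h hE δ hδ e1
    · rwa [extAut_eq_of_not_essential pT hF (lt_top_iff_ne_top.2 ?_) (fn_normal F A) hE]
      rintro rfl
      rw [card_T] at hc
      omega
  obtain ⟨β, hβ, e2⟩ := exists_extend_of_mem_extAut le_top (relIdx le_top hc card_T) h1
  exact ⟨_, mor_autFun le_rfl hβ, fun x hx => (e2 x hx).trans (e1 x hx)⟩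

theorem flag (hF : F.IsSaturated 3) (hf : Iv f A) {u : G} (hu : u ∈ normalizer (A : Set G)) (hu' : u ∉ A)
    {C1 C2 C3 : Subgroup G} (h12 : C1 ≤ C2) (h23 : C2 ≤ C3) (h3 : C3 ≤ A) (i1 : Iv f C1) (i2 : Iv f C2) (i3 : Iv f C3)
    (k1 : ∀ x ∈ C1, lk x u ∈ L 0) (k2 : ∀ x ∈ C2, lk x u ∈ C1) (k3 : ∀ x ∈ C3, lk x u ∈ C2)
    (k4 : ∀ x ∈ A, lk x u ∈ C3) (hA : F.IsEssential 3 A) (δ : MulAut A) (hδ : δ ∈ F.autGroup A)
    (e1 : ∀ x ∈ A, autFun δ x = f x) : δ ∈ extAut F A := by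
  refine ext_of_flag hF hA 4 (fun i => [L 0, C1, C2, C3].getD i A) L_zero le_rfl (fun i hi => ?_) hu hu'
    (fun i hi x _ hx => ?_) hδ fun i x hx => ⟨autFun_mem _ hx.1, ?_⟩
  · interval_cases i
    exacts [L_zero.le.trans bot_le, h12, h23, h3]
  · interval_cases i
    exacts [k1 _ (inv_mem hx), k2 _ (inv_mem hx), k3 _ (inv_mem hx), k4 _ (inv_mem hx)]
  · have h0 : Iv (autFun δ) (L 0) := iv0 (mor_autFun le_top hδ)
    rcases i with _ | _ | _ | _ | i
    · exact h0 x hx.2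
    all_goals rw [e1 x hx.1]
    exacts [i1 x hx.2, i2 x hx.2, i3 x hx.2, hf x hx.1]

theorem lkN {E : List ℕ} (hP : Ech P E) [K.Normal] {u : G} (h : ∀ i < 9, lk (e (E.getD i 0)) u ∈ K) :
    ∀ x ∈ P, lk x u ∈ K := fun _ hx => lk_of_gens hP (by rw [normalizer_eq_top]; exact le_top) h hx

theorem eL (k : ℕ) (hk : k ≤ 9 := by norm_num) : Ech (L k) (EL k) := ech_L hk

theorem iv7 (hf : Mor F A f) (hA : L 7 ≤ A) (h : f (e 729) ∈ L 7) : Iv f (L 7) :=
  maps_L hf (by norm_num) hA fun j hj => by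
    rcases Nat.lt_succ_iff_lt_or_eq.1 hj with hj | rfl
    · exact L_mono (by norm_num) (J_wc hf ((L_mono (by norm_num)).trans hA) _
        (e_mem_L (Nat.pow_lt_pow_right (by norm_num) hj)))
    · exact h

theorem W3_le : W3 ≤ L 7 := (ech_PS lW3).le (by decide +kernel)

theorem ivW (hf : Mor F A f) (hA : L 7 ≤ A) (h7 : Iv f (L 7)) : Iv f W3 := by
  have hn : L 7 ≤ normalizer (W3 : Set G) := by rw [normalizer_eq_top]; exact le_top
  have key : ∀ m ∈ L 7, ∀ n ∈ L 7, lk m n ∈ W3 := fun m hm n hn' =>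
    lk_of_gens2 (eL 7) (eL 7) hn hn (by decide +kernel) hm hn'
  have h : ∀ m ∈ L 7, ∀ n ∈ L 7, lk m n ∈ pre hf W3 := fun m hm n hn' =>
    (mem_pre hf).2 ⟨hA (W3_le (key m hm n hn')), iv_lo hf hA hA h7 h7 key hm hn'⟩
  refine fun x hx => ((mem_pre hf).1 ((ech_PS lW3).le (H := pre hf W3) (fun k hk => ?_) hx)).2
  rcases (by decide +kernel : ∀ k < 9, e (lW3.getD k 0) = 1 ∨ e (lW3.getD k 0) = lk (e 27) (e 729) ∨
    e (lW3.getD k 0) = lk (e 729) (e 81) ∨ e (lW3.getD k 0) = lk (e 729) (e 243) * lk (e 729) (e 27)) k hk with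
    e1 | e1 | e1 | e1 <;> rw [e1]
  · exact one_mem _
  · exact h _ (by decide +kernel) _ (by decide +kernel)
  · exact h _ (by decide +kernel) _ (by decide +kernel)
  · exact mul_mem (h _ (by decide +kernel) _ (by decide +kernel)) (h _ (by decide +kernel) _ (by decide +kernel))

theorem iv1 (hf : Mor F A f) (hA : L 1 ≤ A) (h : f (e 1) ∈ L 1) : Iv f (L 1) :=
  maps_L hf (by norm_num) hA fun j hj => by rwa [show j = 0 by omega]

theorem x1 : ExtP (L 8) (L 7) (e 729) := fun F hF f hf h => by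
  have hA : L 7 ≤ L 8 := L_mono (by norm_num)
  have h7 := iv7 hf.1 hA h
  have hW := ivW hf.1 hA h7
  have h1 : Iv f (L 1) := iv1 hf.1 (L_mono (by norm_num)) (by
    rw [show e 1 = lk (e 27) (e 729) by decide +kernel]
    exact iv_lo hf.1 (W3_le.trans hA) hA hW h7 (fun m hm n hn => comm_of_gens (ech_PS lW3) (eL 7) (by decide +kernel) hm hn)
      (by decide +kernel) (by decide +kernel))
  exact ext3 hF (card_L (by norm_num)) hf (flag hF hf.2 (u := e 6561) (by rw [normalizer_eq_top]; trivial)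
    (by decide +kernel) (L_le (by norm_num) (by decide +kernel)) W3_le hA h1 hW h7 (lkN (eL 1) (by decide +kernel))
    (lkN (ech_PS lW3) (by decide +kernel)) (lkN (eL 7) (by decide +kernel)) (lkN (eL 8) (by decide +kernel)))

theorem x2 : ExtP E2 (L 7) (e 729) := fun F hF f hf h => by
  have hA : L 7 ≤ E2 := L_le (by norm_num) (by decide +kernel)
  have hA6 : L 6 ≤ E2 := (L_mono (by norm_num)).trans hA
  have h7 := iv7 hf.1 hA h
  have h3 : Iv f (L 3) := ivL hf.1 (eL 3) (eL 7) hA hA h7 h7 (iv0 hf.1) (by decide +kernel) (by decide +kernel)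
    fun _ _ => d3 (by decide +kernel) (by decide +kernel)
  have h5 : Iv f (L 5) := ivL hf.1 (eL 5) (eL 7) hA hA6 h7 (J_wc hf.1 hA6) h3 (by decide +kernel) (by decide +kernel)
    fun x hx H => c5 x hx (H _ (by decide +kernel))
  exact ext3 hF (ech_PS lE2).card hf (flag hF hf.2 (u := e 2187) (by rw [normalizer_eq_top]; trivial)
    (by decide +kernel) (L_mono (by norm_num)) (L_mono (by norm_num)) hA h3 h5 h7 (lkN (eL 3) (by decide +kernel))
    (lkN (eL 5) (by decide +kernel)) (lkN (eL 7) (by decide +kernel)) (lkN (ech_PS lE2) (by decide +kernel)))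

theorem cR27 {x : G} (h : x ∈ RR) (h' : x ∈ CM 0 (e 27)) : x ∈ L 5 :=
  (hi_mem_L le_rfl).1 (all_hi (p := fun y => y ∈ RR → y ∈ CM 0 (e 27) → y ∈ L 5) (by decide +kernel) x
    ((hi_mem L5_RR).2 h) ((hi_mem (L5_CM 0 (by decide +kernel))).2 h'))

theorem x3 (hI : StI) : ExtP E3 (L 4) (e 27) := fun F hF f hf h => by
  obtain ⟨h1, -, h3, -, hR⟩ := hI.i3 F f hf
  have hA : L 4 ≤ E3 := (L_mono (by norm_num)).trans L5_E3
  have h4 : Iv f (L 4) := maps_L hf.1 (by norm_num) hA fun j hj => by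
    rcases Nat.lt_succ_iff_lt_or_eq.1 hj with hj | rfl
    · exact L_mono (by norm_num) (h3 _ (e_mem_L (Nat.pow_lt_pow_right (by norm_num) hj)))
    · exact h
  have h5 : Iv f (L 5) := ivL hf.1 (eL 5) (eL 4) hA ((ech_PS lR).le (by decide +kernel)) h4 hR (iv0 hf.1)
    (by decide +kernel) (by decide +kernel) fun x hx H => cR27 hx (H _ (by decide +kernel))
  exact ext3 hF (ech_PS lE3).card hf (flag hF hf.2 (u := e 243) (by rw [normalizer_eq_top]; trivial)
    (by decide +kernel) (L_mono (by norm_num)) (L_mono (by norm_num)) L5_E3 h1 h3 h5 (lkN (eL 1) (by decide +kernel))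
    (lkN (eL 3) (by decide +kernel)) (lkN (eL 5) (by decide +kernel)) (lkN (ech_PS lE3) (by decide +kernel)))

/-! ### The subgroups `E4 s` -/

def sI (i : Fin 6) : ℕ := S4.getD i 0
def lN (i : Fin 6) : List ℕ := [1, 3, 9, 27, 81, 243, 729, 0, if i < 3 then 8748 else 10935]
def lY (i : Fin 6) : List ℕ := [1, 3, 0, if i < 3 then 45 else 36, 0, 0, 0, 0, 0]
def lZ (i : Fin 6) : List ℕ := [1, 0, 0, [48, 45, 51, 42, 39, 36].getD i 0, 0, 0, 0, 0, 0]

instance okA (i : Fin 6) : Fact (okE (lE4 (sI i)) = true) := ⟨by revert i; decide +kernel⟩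
instance okN (i : Fin 6) : Fact (okE (lN i) = true) := ⟨by revert i; decide +kernel⟩
instance okY (i : Fin 6) : Fact (okE (lY i) = true) := ⟨by revert i; decide +kernel⟩
instance okZ (i : Fin 6) : Fact (okE (lZ i) = true) := ⟨by revert i; decide +kernel⟩

theorem ex_sI : ∀ s ∈ S4, ∃ i, s = sI i := by decide

noncomputable abbrev A4 (i : Fin 6) : Subgroup G := E4 (sI i)
noncomputable abbrev N4 (i : Fin 6) : Subgroup G := PS (lN i)
noncomputable abbrev Y4 (i : Fin 6) : Subgroup G := PS (lY i)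
noncomputable abbrev Z4 (i : Fin 6) : Subgroup G := PS (lZ i)

variable (i : Fin 6)

theorem eA : Ech (A4 i) (lE4 (sI i)) := ech_PS _
theorem cardA : Nat.card (A4 i) = 3 ^ 7 := by rw [(eA i).card]; congr 1; revert i; decide
theorem cardN : Nat.card (N4 i) = 3 ^ 8 := by rw [(ech_PS _).card]; congr 1; revert i; decide
theorem cardZ : Nat.card (Z4 i) = 3 ^ 2 := by rw [(ech_PS _).card]; congr 1; revert i; decide
theorem J_A : L 6 ≤ A4 i := L_le (by norm_num) (by revert i; decide +kernel)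
theorem L5_A : L 5 ≤ A4 i := (L_mono (by norm_num)).trans (J_A i)
theorem A_N : A4 i ≤ N4 i := (eA i).le (by revert i; decide +kernel)
theorem Z_A : Z4 i ≤ A4 i := (ech_PS _).le (by revert i; decide +kernel)
theorem s_A : e (sI i) ∈ A4 i ∧ e (sI i) ∉ L 6 ∧ e 729 ∉ A4 i ∧ e 729 ∈ N4 i ∧ e (sI i) ∉ L 8 ∧ e (sI i) ∉ E2 ∧
    e 243 ∉ E3 := by
  revert i; decide +kernel

instance : (N4 i).Normal := normal_of_gens (ech_PS _) (by revert i; decide +kernel)

theorem nrmA : normalizer (A4 i : Set G) = N4 i :=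
  le_antisymm (fun g hg => (hi_mem ((L5_A i).trans (A_N i))).1
    (all_hi (p := fun y => y * e (sI i) * y⁻¹ ∈ A4 i → y ∈ N4 i) (by clear hg; revert i; decide +kernel) g
      (conj_mem_of_mem_normalizer ((hi_mem ((L5_A i).trans le_normalizer)).2 hg) (s_A i).1)))
    (le_nrm_of_gens (ech_PS _) (eA i) (by revert i; decide +kernel))

theorem cY : ∀ x ∈ L 6, x ∈ CM 1 (e (sI i)) → x ∈ Y4 i := all_L (by revert i; decide +kernel)
theorem cY5 : ∀ x ∈ L 6, lk x (e (sI i)) ∈ Y4 i → x ∈ L 5 := all_L (by revert i; decide +kernel)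
theorem cZ : ∀ x ∈ L 6, x ∈ C (e (sI i)) → x ∈ Z4 i := all_L (by revert i; decide +kernel)
theorem Y_nrm : A4 i ≤ normalizer (Y4 i : Set G) := le_nrm_of_gens (eA i) (ech_PS _) (by revert i; decide +kernel)

theorem notEss (h : StJ1) (hF : F.IsSaturated 3) : ¬ F.IsEssential 3 (N4 i) := fun hE => by
  obtain ⟨a1, a2, -, a4, a5, a6, a7⟩ := s_A i
  rcases h F hF _ hE ((J_A i).trans (A_N i)) (fun e1 => a2 (e1 ▸ A_N i a1)) with e1 | e1 | e1 | ⟨s, hs, e1⟩
  · exact a5 (e1 ▸ A_N i a1)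
  · exact a6 (e1 ▸ A_N i a1)
  · exact a7 (e1 ▸ A_N i (J_A i (by decide +kernel)))
  · obtain ⟨j, rfl⟩ := ex_sI s hs
    exact (s_A j).2.2.1 (by rw [A4, ← e1]; exact a4)

theorem extA (h : StJ1) (hF : F.IsSaturated 3) {α : MulAut (A4 i)} (hα : α ∈ extAut F (A4 i)) :
    ∃ β ∈ F.autGroup ⊤, ∀ x ∈ A4 i, autFun β x = autFun α x := by
  have := Fact.mk Nat.prime_three
  induction hα using closure_induction with
  | mem α hα =>
    obtain ⟨Q, f, hQ, hf, e1⟩ := hα
    obtain ⟨a, haQ, ha, haA⟩ := exists_mem_normalizer_not_mem (pG.to_subgroup Q) hQ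
    have hN : N4 i ≤ Q := inf_eq_left.1 ((CL.Grp.eq_or_eq_of_relIndex_prime (le_inf (A_N i) hQ.le) inf_le_left
      (relIdx (A_N i) (cardA i) (cardN i))).resolve_left fun e2 => haA (e2 ▸ ⟨nrmA i ▸ ha, haQ⟩))
    obtain ⟨k, hk, e2⟩ := ext3 hF (cardN i) (f := f) ⟨hf.mono hN, fun x hx =>
      nrmA i ▸ map_mem_normalizer_of_ext hf hQ.le e1 (hN hx) ((nrmA i).symm ▸ hx)⟩ fun hE => (notEss i h hF hE).elim
    obtain ⟨β, hβ, e3⟩ := hk.exists_aut' le_rfl fun x _ => mem_top _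
    exact ⟨β, hβ, fun x hx => by rw [e3 x (mem_top x), e2 x (A_N i hx), e1 x hx]⟩
  | one => exact ⟨1, one_mem _, fun x hx => by rw [autFun_one hx, autFun_one (mem_top x)]⟩
  | mul a b _ _ ha hb =>
    obtain ⟨a', ha', ea⟩ := ha
    obtain ⟨b', hb', eb⟩ := hb
    exact ⟨a' * b', mul_mem ha' hb', fun x hx => by
      rw [autFun_mul _ _ (mem_top x), eb x hx, ea _ (autFun_mem b hx), autFun_mul _ _ hx]⟩
  | inv a _ ha =>
    obtain ⟨a', ha', ea⟩ := ha
    exact ⟨a'⁻¹, Subgroup.inv_mem _ ha', autFun_inv_eq le_top ea⟩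

theorem L7_le {Q : Subgroup G} [Q.Normal] (hJ : L 6 ≤ Q) {y : G} (hy : y ∈ Q) (hy' : y ∉ L 6) : L 7 ≤ Q := by
  have h5 : L 5 ≤ Q := (L_mono (by norm_num)).trans hJ
  have h1 := (hi_mem h5).2 hy
  have h2 := (hi_mem_L (k := 6) (by norm_num)).not.2 hy'
  rcases all_hi (p := fun y => y ∉ L 6 → y ∈ L 7 ∨ (lk (e 6561) y ∈ L 7 ∧ lk (e 6561) y ∉ L 6) ∨
    (lk (e 2187) y ∈ L 7 ∧ lk (e 2187) y ∉ L 6)) (by decide +kernel) y h2 with h | h | h
  · exact L_succ_le (by norm_num) hJ h1 h h2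
  · exact L_succ_le (by norm_num) hJ (lk_mem h1 _) h.1 h.2
  · exact L_succ_le (by norm_num) hJ (lk_mem h1 _) h.1 h.2

theorem fnA (F : FS) : F.IsFullyNormalized (A4 i) := ⟨le_top, fun Q hQ => by
  have := Fact.mk Nat.prime_three
  obtain ⟨f, hf, rfl⟩ := isConj_iff.1 hQ
  rw [normalizerIn, normalizerIn, top_inf_eq, top_inf_eq, nrmA, cardN]
  by_cases hn : normalizer (img f (A4 i) : Set G) = ⊤
  · exfalso
    have := normalizer_eq_top_iff.1 hn
    have h6 := J_wc hf (J_A i)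
    obtain ⟨a1, a2, -⟩ := s_A i
    have h7 : L 7 = img f (A4 i) := eq_of_le_of_card_ge (L7_le (fun y hy => by
      obtain ⟨x, hx, rfl⟩ := onto hf (J_A i) h6 hy
      exact mem_img_of_mem f (J_A i hx)) (mem_img_of_mem f a1) fun h => a2 (back hf (J_A i) h6 a1 h))
      (by rw [hf.card_img, cardA, card_L (by norm_num)])
    have h3 : L 3 ≤ img f (Z4 i) := fun y hy => by
      obtain ⟨x, hx, rfl⟩ := onto hf (J_A i) h6 (L_mono (by norm_num) hy)
      refine mem_img_of_mem f (cZ i x hx (mem_C.2 ((map_comm hf (J_A i hx) a1).1 ?_)))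
      have := comm_of_gens (eL 3) (eL 7) (k := 0) (by decide +kernel) hy (h7 ▸ mem_img_of_mem f a1)
      rwa [L_zero, mem_bot, mul_inv_eq_one, mul_inv_eq_iff_eq_mul] at this
    have := card_le_of_le h3
    rw [hf.card_img' (Z_A i), cardZ, card_L (by norm_num)] at this
    omega
  · obtain ⟨k, hk⟩ := (pG.to_subgroup (normalizer (img f (A4 i) : Set G))).exists_card_eq
    have h1 := card_lt_of_lt (lt_top_iff_ne_top.2 hn)
    rw [hk, card_T, Nat.pow_lt_pow_iff_right (by norm_num)] at h1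
    rw [hk]
    exact Nat.pow_le_pow_right (by norm_num) (by omega)⟩

theorem x4 (h : StJ1) : ExtP (A4 i) (L 1) (e 1) := fun F hF f hf h0 => by
  have := Fact.mk Nat.prime_three
  obtain ⟨δ, hδ, e1⟩ := hf.aut
  obtain ⟨a1, -, a3, a4, -⟩ := s_A i
  have h1 : δ ∈ extAut F (A4 i) := by
    by_cases hE : F.IsEssential 3 (A4 i)
    · have i1 := iv1 hf.1 ((L_mono (by norm_num)).trans (J_A i)) h0
      have i6 := J_wc hf.1 (J_A i)
      have iY : Iv f (Y4 i) := ivL hf.1 (ech_PS _) (eA i) le_rfl (J_A i) hf.2 i6 i1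
        (by clear * -; revert i; decide +kernel) (by clear * -; revert i; decide +kernel) fun x hx H => cY i x hx (H _ a1)
      have i5 : Iv f (L 5) := iv_cm hf.1 le_rfl (J_A i) hf.2 i6 iY (L_mono (by norm_num))
        (fun x hx m hm => lk_of_gens2 (eL 5) (eA i) ((L5_A i).trans (Y_nrm i)) (Y_nrm i)
          (by clear * -; revert i; decide +kernel) hx hm) fun x hx H => cY5 i x hx (H _ a1)
      exact flag hF hf.2 (u := e 729) ((nrmA i).symm ▸ a4) a3
        (L_le (by norm_num) (by clear * -; revert i; decide +kernel))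
        ((ech_PS _).le (by clear * -; revert i; decide +kernel)) (L5_A i) i1 iY i5 (lkN (eL 1) (by decide +kernel))
        (lkN (ech_PS _) (by clear * -; revert i; decide +kernel))
        (fun x hx => lk_of_gens (eL 5) ((L5_A i).trans (Y_nrm i)) (by clear * -; revert i; decide +kernel) hx)
        (lkN (eA i) (by clear * -; revert i; decide +kernel)) hE δ hδ e1
    · rwa [extAut_eq_of_not_essential pT hF (lt_top_iff_ne_top.2 fun e2 : A4 i = ⊤ => a3 (e2.ge (mem_top _))) (fnA i F) hE]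
  obtain ⟨β, hβ, e2⟩ := extA i h hF h1
  exact ⟨_, mor_autFun le_rfl hβ, fun x hx => (e2 x hx).trans (e1 x hx)⟩

end Xh

theorem stX (hI : StI) : StX := ⟨Xh.x1, Xh.x2, Xh.x3 hI⟩

theorem stX4 (h : StJ1) : StX4 := fun s hs => by
  obtain ⟨i, rfl⟩ := Xh.ex_sI s hs
  exact Xh.x4 i h

end CL.C3
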