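/-
Saturated fusion systems on `CL.C3.G`: the systems of the three groups and the final count.
-/
import Cfsg.Agent.Fus.C3F
import Cfsg.Agent.Fus.C3Co
import Cfsg.Agent.Fus.C3Sp
import Cfsg.Agent.Fus.Realized

set_option autoImplicit false

namespace CL.C3

open Subgroup Cfsg Cfsg.FusionSystem CL.Fus

attribute [local irreducible] mul inv

theorem stR : StR := by
  intro Γ _ _ ι ⟨hi, T, hT⟩
  have := Fact.mk Nat.prime_three
  obtain ⟨η, h⟩ := exists_gIso_of_injOn (homOn_hom ι ⊤) hi.injOn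
  rw [img_hom, ← MonoidHom.range_eq_map] at h
  have hI := (h.symm.fIso_transport (groupFusionSystem ι.range)).symm
  have hs : SylIn 3 ι.range ⊤ := sylIn_top_iff.2 ⟨T, hT⟩
  refine ⟨_, hI.symm.isSaturated (GS.isSaturated_group hs), hI.symm.isRealizable (isRealizable_group hs),
    fun x y => ⟨?_, fun hc => ?_⟩⟩
  · rintro ⟨P, f, hf, hx, rfl⟩
    obtain ⟨-, -, g, hg⟩ := hI.mor_iff_group.1 hf
    exact isConj_iff.2 ⟨g, (hg x hx).symm⟩
  · obtain ⟨g, hg⟩ := isConj_iff.1 hc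
    refine ⟨zpowers x, fun z => η (g * ι z * g⁻¹), hI.mor_iff_group.2 ⟨le_top, fun _ _ => mem_top _, g,
      fun z hz => h.right _ ?_⟩, mem_zpowers x, (congrArg η hg).trans (h.left y (mem_top y))⟩
    obtain ⟨n, rfl⟩ := mem_zpowers_iff.1 hz
    exact ⟨y ^ n, by rw [map_zpow, map_zpow, ← hg, conj_zpow]⟩

namespace FinA

variable {F F' : FS} {θ η : G → G} {x y : G}

theorem cj_inv (h : Cj F x y) : Cj F x⁻¹ y⁻¹ := by
  obtain ⟨P, f, hf, hx, rfl⟩ := h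
  exact ⟨P, f, hf, inv_mem hx, hf.homOn.map_inv hx⟩

theorem cj_iso (h : FIso F F' θ η) (c : Cj F x y) : Cj F' (θ x) (θ y) := by
  obtain ⟨P, f, hf, hx, rfl⟩ := c
  exact ⟨_, _, h.mor P f hf, mem_img_of_mem θ hx, by simp only [h.left x (mem_top x)]⟩

theorem mor_iso (h : FIso F F' θ η) : Mor (univFS ⊤) ⊤ θ :=
  mor_univFS.2 ⟨h.homOn, h.toGIso.injOn, le_rfl, fun _ _ => mem_top _⟩

theorem z_iso (hI : StI) (h : FIso F F' θ η) : θ (e 1) = e 1 ∨ θ (e 1) = (e 1)⁻¹ :=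
  (L1_cases _ (hI.i0 _ θ (mor_iso h) 1 _ (by decide))).resolve_left
    (map_ne_one (mor_iso h) (mem_top _) (by decide +kernel))

/-- the centre is fused out of `L 6` -/
def Bb (F : FS) : Prop := ∃ y ∉ L 6, Cj F (e 1) y

/-- the centre is inverted -/
def Ss (F : FS) : Prop := Cj F (e 1) (e 1)⁻¹

theorem bb_iso (hI : StI) (h : FIso F F' θ η) : Bb F → Bb F' := by
  rintro ⟨y, hy, c⟩
  have h1 : θ y ∉ L 6 := fun k => hy (back (mor_iso h) le_top (hI.i0 _ θ (mor_iso h) 6) (mem_top y) k)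
  have h2 := cj_iso h c
  rcases z_iso hI h with k | k <;> rw [k] at h2
  · exact ⟨_, h1, h2⟩
  · exact ⟨_, by rwa [inv_mem_iff], inv_inv (e 1) ▸ cj_inv h2⟩

theorem ss_iso (hI : StI) (h : FIso F F' θ η) (c : Ss F) : Ss F' := by
  have h2 := cj_iso h c
  rw [h.homOn.map_inv (mem_top _)] at h2
  rcases z_iso hI h with k | k <;> rw [k] at h2
  · exact h2
  · have := cj_inv h2
    rwa [inv_inv] at this

/-- the three types of normal forms -/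
def Q (N : FS) (t : Fin 3) : Prop := Ty N (if t = 2 then 2 else 0) ∧ (Mor N ⊤ (tau 4) ↔ t ≠ 0)

theorem q_ex (hC : StCl) (hT : StTy) (hs : F.IsSaturated 3) (hc : F.core = ⊥) :
    ∃ (N : FS) (θ η : G → G) (t : Fin 3), FIso F N θ η ∧ Q N t := by
  obtain ⟨N, θ, η, m, hm, h, k⟩ := hC F hs hc
  rcases hT N m hm k with rfl | ⟨rfl, d⟩
  · by_cases d : Mor N ⊤ (tau 4)
    · exact ⟨N, θ, η, 1, h, k, iff_of_true d (by decide)⟩
    · exact ⟨N, θ, η, 0, h, k, iff_of_false d (by decide)⟩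
  · exact ⟨N, θ, η, 2, h, k, iff_of_true d (by decide)⟩

theorem q_uq (hU : StUq) {t : Fin 3} (h : Q F t) (h' : Q F' t) : F = F' :=
  fusionSystem_le_antisymm (hU _ _ _ (by split_ifs <;> norm_num) h.1 h'.1 fun d => h'.2.2 (h.2.1 d))
    (hU _ _ _ (by split_ifs <;> norm_num) h'.1 h.1 fun d => h.2.2 (h'.2.1 d))

theorem sp (hF : StCF) {s : Prop} (h : StSp s) :
    ∃ F : FS, F.IsSaturated 3 ∧ F.core = ⊥ ∧ F.IsRealizable 3 ∧ ¬ Bb F ∧ (Ss F ↔ s) := by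
  obtain ⟨Γ, _, _, ι, hr, ⟨x, x1, x2, x3⟩, ⟨a, a1, b, b1, ab⟩, h3, h4⟩ := h
  obtain ⟨F, f1, f2, f3⟩ := stR Γ ι hr
  exact ⟨F, f1, hF F (.inr ⟨⟨x, x1, x2, (f3 _ _).2 x3⟩, a, a1, b, b1, (f3 _ _).2 ab⟩), f2,
    fun ⟨y, hy, c⟩ => h3 y hy ((f3 _ _).1 c), by rw [Ss, ← SpJ.e_two, f3, h4]⟩

end FinA

open FinA in
theorem stFin (hI : StI) (hC : StCl) (hU : StUq) (hT : StTy) (hF : StCF) : StFin := by
  intro F hs hc
  obtain ⟨F0, s0, c0, r0, b0, i0⟩ := sp hF stSp0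
  obtain ⟨F1, s1, c1, r1, b1, i1⟩ := sp hF stSp1
  obtain ⟨ι, hr, y, hy, k⟩ := stCo
  have : Finite Spor.Co1 := Nat.finite_of_card_ne_zero (by rw [CL.Spor.Leech.card_Co1]; norm_num)
  obtain ⟨F2, s2, r2, f3⟩ := stR _ ι hr
  have b2 : Bb F2 := ⟨y, hy, (f3 _ _).2 k⟩
  obtain ⟨N, θ, η, t, h, q⟩ := q_ex hC hT hs hc
  obtain ⟨N0, θ0, η0, t0, h0, q0⟩ := q_ex hC hT s0 c0
  obtain ⟨N1, θ1, η1, t1, h1, q1⟩ := q_ex hC hT s1 c1
  obtain ⟨N2, θ2, η2, t2, h2, q2⟩ := q_ex hC hT s2 (hF F2 (.inl b2))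
  have n01 : t0 ≠ t1 := by
    rintro rfl
    obtain rfl := q_uq hU q0 q1
    exact i0.1 (ss_iso hI h0.symm (ss_iso hI h1 (i1.2 trivial)))
  have n02 : t0 ≠ t2 := by
    rintro rfl
    obtain rfl := q_uq hU q0 q2
    exact b0 (bb_iso hI h0.symm (bb_iso hI h2 b2))
  have n12 : t1 ≠ t2 := by
    rintro rfl
    obtain rfl := q_uq hU q1 q2
    exact b1 (bb_iso hI h1.symm (bb_iso hI h2 b2))
  rcases (by decide : ∀ a b c d : Fin 3, b ≠ c → b ≠ d → c ≠ d → a = b ∨ a = c ∨ a = d) t _ _ _ n01 n02 n12 with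
    rfl | rfl | rfl
  · obtain rfl := q_uq hU q q0
    exact h.symm.isRealizable (h0.isRealizable r0)
  · obtain rfl := q_uq hU q q1
    exact h.symm.isRealizable (h1.isRealizable r1)
  · obtain rfl := q_uq hU q q2
    exact h.symm.isRealizable (h2.isRealizable r2)

end CL.C3
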