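/-
Saturated fusion systems on `CL.C3.G`: the four-point argument.
-/
import Cfsg.Agent.Fus.C3F

set_option autoImplicit false
set_option Elab.async false

namespace CL.C3

open Subgroup Cfsg Cfsg.FusionSystem CL.Fus

attribute [local irreducible] mul inv

namespace Four

/-- `p` and a conjugate of `q` agree up to inversion modulo `L k` -/
def Nr (k : ℕ) (u p q : G) : Prop :=
  ∃ i < 3, p⁻¹ * (u ^ i * q * (u ^ i)⁻¹) ∈ L k ∨ p * (u ^ i * q * (u ^ i)⁻¹) ∈ L k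

noncomputable instance (k : ℕ) (u p q : G) : Decidable (Nr k u p q) := by unfold Nr; infer_instance

theorem Nr.mul {k : ℕ} {u p q r s : G} (h : Nr k u p q) (hr : r ∈ L k) (hs : s ∈ L k) : Nr k u (p * r) (q * s) := by
  obtain ⟨i, hi, h⟩ := h
  refine ⟨i, hi, h.imp (fun h => ?_) fun h => ?_⟩
  · convert mul_mem (mul_mem (inv_mem hr) h) (conj_L hs (u ^ i)) using 1; group
  · convert mul_mem (mul_mem (conj_L hr p) h) (conj_L hs (u ^ i)) using 1; group

theorem four {A M : Subgroup G} {k : ℕ} {t u : G} (R : List ℕ) (hK : L k ≤ M) (hA : L k ≤ A) (hM : t ∈ M) (ht : t ∈ A)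
    (hu : u ∈ normalizer (A : Set G)) (hE : ExtP A M t) (hI : ∀ (F : FS) f, Au F A f → Iv f (L k))
    (hR : ∀ (F : FS) f, Au F A f → f t ∉ M → ∃ n ∈ R, ∃ r ∈ L k, f t = e n * r)
    (h4 : ∀ n ∈ R, ∀ m ∈ R, Nr k u (e n) (e m)) : FourP A M t := fun F hF f w hf hw h1 h2 => by
  obtain ⟨n, hn, r, hr, e1⟩ := hR F f hf h1
  obtain ⟨m, hm, s, hs, e2⟩ := hR F w hw h2
  obtain ⟨i, -, h⟩ := (h4 n hn m hm).mul hr hs
  rw [← e1, ← e2] at h
  have hw' := hw.comp (au_conj F (pow_mem hu i))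
  obtain ⟨v, hv, a1, a2⟩ := hw'.inv
  have hp := hf.2 t ht
  have hq := hw'.2 t ht
  obtain ⟨g, hg, e3⟩ := hE F hF _ (hf.comp hv) (h.elim (fun h => by
    have := hK (hI F v hv _ h)
    rwa [hv.1.homOn.map_mul (inv_mem hp) hq, a1 t ht, mul_mem_cancel_right hM, hv.1.homOn.map_inv hp,
      inv_mem_iff] at this) fun h => by
    have := hK (hI F v hv _ h)
    rwa [hv.1.homOn.map_mul hp hq, a1 t ht, mul_mem_cancel_right hM] at this)
  exact ⟨u ^ i, g, hg, fun x hx => e3 x hx ▸ hv.2 _ (hf.2 x hx), fun x hx => by rw [e3 x hx, a2 _ (hf.2 x hx)]⟩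

theorem red {k N : ℕ} (hk : k ≤ 9) (hN : 3 ^ k * N = 19683) {Y M : Subgroup G} (hY : L k ≤ Y) (hM : L k ≤ M)
    {R : List ℕ} (h : ∀ n < N, e (n * 3 ^ k) ∈ Y → e (n * 3 ^ k) ∉ M → n * 3 ^ k ∈ R) {x : G} (hx : x ∈ Y)
    (hx' : x ∉ M) : ∃ n ∈ R, ∃ r ∈ L k, x = e n * r := by
  have h0 : 0 < 3 ^ k := by positivity
  have h1 := Nat.mod_lt x.v h0
  have h2 := x.lt
  have h3 : (e (x.v % 3 ^ k)).v = x.v % 3 ^ k := e_v (h1.trans_le (pow_le hk))
  have h4 := e_split hk (a := x.v / 3 ^ k) (e_mem_L h1) (by rw [h3, Nat.div_add_mod']; exact h2)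
  rw [h3, Nat.div_add_mod', e_self] at h4
  refine ⟨_, h _ (Nat.div_lt_of_lt_mul (hN ▸ h2)) ?_ ?_, _, e_mem_L h1, h4⟩
  · rwa [h4, mul_mem_cancel_right (hY (e_mem_L h1))] at hx
  · rwa [h4, mul_mem_cancel_right (hM (e_mem_L h1))] at hx'

/-- the elements of `C_J(s)` outside the centre -/
def lZ (s : ℕ) : List ℕ :=
  [[48, 49, 50, 69, 70, 71], [45, 46, 47, 63, 64, 65], [51, 52, 53, 66, 67, 68], [42, 43, 44, 75, 76, 77],
    [39, 40, 41, 78, 79, 80], [36, 37, 38, 72, 73, 74]].getD (s / 729 - 12) []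

theorem cZ : ∀ s ∈ S4, allW (3 ^ 6) (fun n => decide (e n ∈ C (e s) → e n ∉ L 1 → (e n).v ∈ lZ s)) = true := by
  decide +kernel

theorem nZ : ∀ s ∈ S4, (∀ j < 9, mb (lE4 s) 9 (e 729 * e ((lE4 s).getD j 0) * (e 729)⁻¹).v = true) ∧
    (∀ j < 6, mb (lE4 s) 9 (e (3 ^ j)).v = true) ∧ ∀ n ∈ lZ s, ∀ m ∈ lZ s, Nr 0 (e 729) (e n) (e m) := by
  decide +kernel

end Four

open Four in
theorem stF (hI : StI) (hX : StX) (hX4 : StX4) : StF := by
  have top : ∀ (A : Subgroup G) [A.Normal] (u : G), u ∈ normalizer (A : Set G) := fun A _ u =>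
    (normalizer_eq_top A).ge (mem_top u)
  have l7 : L 6 ≤ L 7 := L_mono (by norm_num)
  have l4 : L 3 ≤ L 4 := L_mono (by norm_num)
  refine ⟨?_, ?_, ?_, fun s hs => ?_⟩
  · have h6 : L 6 ≤ L 8 := L_mono (by norm_num)
    have ht : e 729 ∈ L 8 := by decide +kernel
    exact four [2187, 2916, 3645, 4374, 5103, 5832] l7 h6 (by decide +kernel) ht (top _ (e 6561)) hX.x1
      (fun F f hf => (hI.i1 F f hf).1)
      (fun F f hf => red (N := 27) (by norm_num) (by norm_num) h6 l7 (by decide +kernel) (hf.2 _ ht)) (by decide +kernel)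
  · have h6 : L 6 ≤ E2 := L_le (by norm_num) (by decide +kernel)
    have ht : e 729 ∈ E2 := by decide +kernel
    exact four [6561, 7290, 8019, 13122, 13851, 14580] l7 h6 (by decide +kernel) ht (top _ (e 2187)) hX.x2
      (fun F f hf => (hI.i2 F f hf).1)
      (fun F f hf => red (N := 27) (by norm_num) (by norm_num) h6 l7 (by decide +kernel) (hf.2 _ ht)) (by decide +kernel)
  · have h3 : L 3 ≤ R5 := L_le (by norm_num) (by decide +kernel)
    have k : allW 729 (fun n => decide (e (n * 3 ^ 3) ∈ R5 → e (n * 3 ^ 3) ∉ L 4 →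
        n * 3 ^ 3 ∈ [729, 756, 783, 1458, 1485, 1512])) = true := by decide +kernel
    exact four _ l4 (L_le (by norm_num) (by decide +kernel)) (by decide +kernel) (by decide +kernel) (top _ (e 243)) hX.x3
      (fun F f hf => (hI.i3 F f hf).2.2.1)
      (fun F f hf => red (by norm_num) (by norm_num) h3 l4 (fun n hn => of_decide_eq_true (allW_spec k n hn))
        ((hI.i3 F f hf).2.2.2.1 _ (by decide +kernel))) (by decide +kernel)
  · have := Fact.mk (okE4 s hs)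
    obtain ⟨n1, n2, n3⟩ := nZ s hs
    have h6 : L 6 ≤ E4 s := L_le (by norm_num) fun j hj => mem_PS.2 (n2 j hj)
    have z1 : e 1 ∈ L 1 := by decide +kernel
    have z6 : e 1 ∈ L 6 := by decide +kernel
    refine four (lZ s) (L_mono (by norm_num)) (L_zero ▸ bot_le) z1 (h6 z6)
      (nrm_of_gens (ech_PS _) fun j hj => mem_PS.2 (n1 j hj)) (hX4 s hs) (fun F f hf => L_zero ▸ iv_bot hf.1)
      (fun F f hf h => ⟨_, all_L (p := fun x => x ∈ C (e s) → x ∉ L 1 → x.v ∈ lZ s) (cZ s hs) _ (J_wc hf.1 h6 _ z6) ?_ h, 1, one_mem _, by rw [e_self, mul_one]⟩) n3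
    obtain ⟨y, hy, e1⟩ := onto hf.1 le_rfl hf.2 ((ech_PS (lE4 s)).mem (k := 8) (by norm_num))
    exact mem_C.2 ((show f y = e s from e1) ▸ (map_comm hf.1 (h6 z6) hy).2 (L1_comm z1 y).symm)

end CL.C3
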