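/-
Saturated fusion systems on `CL.C3.G`: generation by the candidates for essential subgroups.
-/
import Cfsg.Agent.Fus.C3F
import Cfsg.Agent.Fus.KNormSat

set_option autoImplicit false

namespace CL.C3

open Subgroup Cfsg Cfsg.FusionSystem CL.Fus

attribute [local irreducible] mul inv

namespace GenX

variable {F : FS} {T A B Q : Subgroup G} {E : FusionSystem T} {a φ : G → G} {v : G}

theorem exists_N (hF : F.IsSaturated 3) (Q : Subgroup G) [Q.Normal] : ∃ D : FS, D.IsSaturated 3 ∧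
    (∀ P f, Mor D P f → Mor F P f) ∧ D.IsNormal Q ∧ ∀ P k, Mor F P k → Q ≤ P → Iv k Q → Mor D P k := by
  have := Fact.mk Nat.prime_three
  have key : ∀ (T : Subgroup G) (_ : T = ⊤) (D : FusionSystem T), D.IsSaturated 3 →
      (∀ P f, Mor D P f ↔ P ≤ T ∧ ∃ g, Mor F (P ⊔ Q) g ∧ (∀ x ∈ P, g x = f x) ∧ img g Q = Q) →
      ∃ D : FS, D.IsSaturated 3 ∧ ∀ P f, Mor D P f ↔ ∃ g, Mor F (P ⊔ Q) g ∧ (∀ x ∈ P, g x = f x) ∧ img g Q = Q := by
    rintro _ rfl D h1 h2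
    exact ⟨D, h1, fun P f => (h2 P f).trans (and_iff_right le_top)⟩
  obtain ⟨D, h1, h2⟩ := key (normalizerIn ⊤ Q) (top_le_iff.1 fun x _ => mem_normalizerIn.2 ⟨trivial, by rw [normalizer_eq_top]; trivial⟩) _
    (isSaturated_normalizerSystem pT hF (fn_normal F Q)) fun _ _ => mor_normalizerSystem
  have h3 : ∀ P k, Mor F P k → Q ≤ P → Iv k Q → Mor D P k := fun P k hk hP hi =>
    (h2 P k).2 ⟨k, by rwa [sup_eq_left.2 hP], fun _ _ => rfl, hk.img_eq_self hP hi⟩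
  refine ⟨D, h1, fun P f hf => ?_, isNormal_iff.2 ⟨le_top, fun P f hf => ?_⟩, h3⟩ <;>
    obtain ⟨g, hg, e1, e2⟩ := (h2 P f).1 hf
  · exact (hg.mono le_sup_left).congr e1
  · exact ⟨g, h3 _ g hg le_sup_right (img_le_iff.1 e2.le), e1, e2⟩

theorem iv_of_normal (h : F.IsNormal Q) (ha : Mor F A a) {x : G} (hx : x ∈ A) (hQ : x ∈ Q) : a x ∈ Q := by
  obtain ⟨g, -, e1, e2⟩ := (isNormal_iff.1 h).2 A a ha
  rw [← e1 x hx, ← e2]
  exact mem_img_of_mem g hQ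

theorem frame (j0 : StJ0) (j1 : StJ1) (hF : F.IsSaturated 3) (hE : ∀ A a, (A = ⊤ ∨ Ess A) → Au F A a → Mor E A a)
    (hs : ∀ A, F.IsEssential 3 A → ¬ L 6 ≤ A → (∀ (B : Subgroup G) b, Nat.card A < Nat.card B → Mor F B b → Mor E B b) →
      ∀ a, Au F A a → Mor E A a) : F.IsSubsystemOf E := by
  have := Fact.mk Nat.prime_three
  refine subsystem_of_aut_step pT hF fun A hA ih a ha hi => ?_
  have hu : Au F A a := ⟨ha, img_le_iff.1 hi.le⟩
  by_cases h0 : A = ⊤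
  · exact hE A a (.inl h0) hu
  by_cases h : F.IsEssential 3 A
  · by_cases h6 : L 6 ≤ A
    · exact hE A a (.inr (j1 F hF A h h6 fun e => j0 F hF (e ▸ h))) hu
    · exact hs A h h6 ih a hu
  have hlt : A < ⊤ := lt_top_iff_ne_top.2 h0
  obtain ⟨α, hα, e⟩ := hu.aut
  rw [← extAut_eq_of_not_essential pT hF hlt hA h] at hα
  exact (mor_autFun (le_top.trans (ih ⊤ _ (card_lt_of_lt hlt) (mor_id F le_rfl)).le) (extAut_le_autGroup_of ih hα)).congr e

theorem up (hD : ∀ P k, Mor F P k → Q ≤ P → Iv k Q → Mor E P k) (ha : Mor F A a) (hφ : Mor F A φ) (hφE : Mor E A φ)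
    (h : ∀ y ∈ Q, ∃ p ∈ A, φ p = y ∧ a p ∈ Q) : Mor E A a := by
  obtain ⟨ψ, hψ, h1, -, h3⟩ := hφ.exists_inv
  refine (hφE.comp (hD _ _ (hψ.comp ha fun y hy => h3 ▸ mem_img_of_mem ψ hy) (fun y hy => ?_) fun y hy => ?_)
    fun x hx => mem_img_of_mem φ hx).congr fun x hx => by rw [h1 x hx]
  · obtain ⟨p, hp, rfl, -⟩ := h y hy
    exact mem_img_of_mem φ hp
  · obtain ⟨p, hp, rfl, h2⟩ := h y hy
    simpa only [h1 p hp] using h2

theorem gIso (c : G) : GIso (⊤ : Subgroup G) ⊤ (fun x => c * x * c⁻¹) fun x => c⁻¹ * x * c⁻¹⁻¹ :=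
  ⟨homOn_conj _ c, fun _ _ => trivial, fun _ _ => trivial, fun _ _ => by group, fun _ _ => by group⟩

theorem fIso (F : FS) (c : G) : FIso F F (fun x => c * x * c⁻¹) fun x => c⁻¹ * x * c⁻¹⁻¹ :=
  ⟨gIso c, fun _ _ hf => ((mor_conj F le_top (mem_top c⁻¹)).comp hf fun _ hy => (gIso c).inv_mem_of_mem_img le_top hy).comp
      (mor_conj F le_rfl (mem_top c)) fun _ _ => trivial,
    fun _ _ hf => ((mor_conj F le_top (mem_top c)).comp hf fun _ hy => (gIso c).symm.inv_mem_of_mem_img le_top hy).comp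
      (mor_conj F le_rfl (mem_top c⁻¹)) fun _ _ => trivial⟩

/-- conjugation of `v` to a representative -/
theorem norm (hE : ∀ c, Mor E ⊤ fun x => c * x * c⁻¹) (hA : F.IsEssential 3 A) (ha : Au F A a) (hv : v ∈ A)
    (h3 : a v ^ 3 = 1) (h6 : v ∉ L 6) : ∃ (c : G) (r : ℕ) (B : Subgroup G) (f : G → G), r ∈ RP ∧ e r ∉ L 6 ∧
      (c * v * c⁻¹ = e r ∨ c * v * c⁻¹ = (e r)⁻¹) ∧ F.IsEssential 3 B ∧ (∀ x, c * x * c⁻¹ ∈ B ↔ x ∈ A) ∧
      Nat.card B = Nat.card A ∧ Au F B f ∧ f (c * a v * c⁻¹) = c * v * c⁻¹ ∧ (Mor E B f → Mor E A a) := by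
  have := Fact.mk Nat.prime_three
  obtain ⟨g, hg, e1, e2⟩ := ha.inv
  obtain ⟨c, r, hr, h⟩ := cls (x := v) (by rw [← e1 v hv]; exact map_cube hg.1 (ha.2 v hv) h3)
  have hB : ∀ x, c * x * c⁻¹ ∈ img (fun x => c * x * c⁻¹) A ↔ x ∈ A := fun x => (gIso c).mem_img_iff le_top trivial
  refine ⟨c, r, _, _, hr, ?_, h.imp_right fun h => by rw [← h]; group, (fIso F c).isEssential hA, hB,
    (gIso c).card_img le_top, ⟨(fIso F c).mor A g hg.1, fun y hy =>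
      (hB _).2 (hg.2 _ ((gIso c).inv_mem_of_mem_img le_top hy))⟩, ?_, fun hf => ?_⟩
  · rcases h with h | h <;> rw [← h, conj_L_iff]
    exacts [h6, mt inv_mem_iff.1 h6]
  · rw [show c⁻¹ * (c * a v * c⁻¹) * c⁻¹⁻¹ = a v by group, e1 v hv]
  · have : Mor E A g := ((((hE c).mono le_top).comp hf fun x hx => (hB x).2 hx).comp (hE c⁻¹) fun _ _ => trivial).congr
      fun x _ => by rw [show c⁻¹ * (c * x * c⁻¹) * c⁻¹⁻¹ = x by group]; group
    have := this.inv e2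
    rwa [hg.1.img_eq_self le_rfl hg.2] at this

theorem gen2 (j0 : StJ0) (j1 : StJ1) (l2 : StL2) (hF : F.IsSaturated 3) (hZ : ZI F) (hN : F.IsNormal (L 2)) : Gen F :=
  fun _ _ hE => frame j0 j1 hF hE fun A hA h6 _ a ha =>
    have := Fact.mk Nat.prime_three
    have h2 := IsNormal.le_of_essential pT hN hA
    hE A a (.inr (.inr (.inr (.inl ((l2 F hF hZ A hA h2 fun _ hf _ hx =>
      iv_of_normal hN hf.1 (h2 hx) hx).resolve_left h6))))) ha

theorem L2_le (hZ : ZI F) (hA : F.IsEssential 3 A) : L 2 ≤ A := by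
  refine kill_le hA 2 (fun i => if i = 0 then ⊥ else if i = 1 then L 1 else ⊤) rfl le_top (fun f hf _ i x hx h => ?_)
    fun b hb _ i hi x _ h => ?_
  · split_ifs at h ⊢
    exacts [iv_bot hf x h, hZ A f hf x hx h, trivial]
  · interval_cases i
    · exact mem_bot.2 (by rw [lk, ← L1_comm (inv_mem h) b]; group)
    · exact comm_L (k := 1) (by norm_num) hb x⁻¹

theorem ext1 (hF : F.IsSaturated 3) (hZ : ZI F) (h2 : L 2 ≤ A) (ha : Au F A a) (hv : v ∈ A) (e3 : a v = e 3) :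
    ∃ φ, Mor F (CM 1 v) φ ∧ ∀ x ∈ A, a x ∈ L 2 → φ x = a x := by
  have := Fact.mk Nat.prime_three
  have h1 : L 1 ≤ A := (L_mono (by norm_num)).trans h2
  have i1 : Iv a (L 1) := fun x hx => hZ A a ha.1 x (h1 hx) hx
  have hP : pre ha.1 (L 2) ≤ A := fun x hx => ((mem_pre ha.1).1 hx).1
  have hi : img a (pre ha.1 (L 2)) = L 2 := le_antisymm (img_le_iff.2 fun x hx => ((mem_pre ha.1).1 hx).2) fun y hy => by
    obtain ⟨x, hx, rfl⟩ := onto ha.1 le_rfl ha.2 (h2 hy)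
    exact mem_img_of_mem a ((mem_pre ha.1).2 ⟨hx, hy⟩)
  obtain ⟨φ, hφ, h⟩ := (ha.1.mono hP).extend (by rw [hi]; exact receptive_of_fullyNormalized pT hF (fn_normal F (L 2)))
  refine ⟨φ, hφ.mono fun g hg => ?_, fun x hx hx' => h x ((mem_pre ha.1).2 ⟨hx, hx'⟩)⟩
  rw [mem_CM] at hg
  obtain ⟨b, hb⟩ : ∃ b : G, a (g * v * g⁻¹ * v⁻¹) * e 3 = b * e 3 * b⁻¹ := by
    rcases L1_cases _ (i1 _ hg) with h | h | h <;> rw [h]
    · exact ⟨1, by simp⟩
    · exact ⟨(e 6561)⁻¹, by decide +kernel⟩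
    · exact ⟨e 6561, by decide +kernel⟩
  have key : ∀ x ∈ pre ha.1 (L 2), g * x * g⁻¹ ∈ A ∧ a (g * x * g⁻¹) = b * a x * b⁻¹ := fun x hx => by
    obtain ⟨hx, hx'⟩ := (mem_pre ha.1).1 hx
    obtain ⟨d, -, r, hr, e1⟩ := split (k := 1) (by norm_num) hx'
    obtain ⟨s, hs, rfl⟩ := onto ha.1 h1 i1 hr
    have e2 : a (v ^ d * s) = e 3 ^ d * a s := by
      rw [ha.1.homOn.map_mul (pow_mem hv d) (h1 hs), ha.1.homOn.map_pow hv, e3]
    obtain rfl : x = v ^ d * s := ha.1.injOn hx (mul_mem (pow_mem hv d) (h1 hs)) (e1.trans e2.symm)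
    have e4 : g * (v ^ d * s) * g⁻¹ = (g * v * g⁻¹ * v⁻¹ * v) ^ d * s := by
      rw [inv_mul_cancel_right, ← conj_mul, conj_pow, L1_conj hs]
    have hm := mul_mem (h1 hg) hv
    refine ⟨e4 ▸ mul_mem (pow_mem hm d) (h1 hs), ?_⟩
    rw [e4, ha.1.homOn.map_mul (pow_mem hm d) (h1 hs), ha.1.homOn.map_pow hm, ha.1.homOn.map_mul (h1 hg) hv, e3, hb, e2,
      ← conj_mul, conj_pow, L1_conj hr]
  exact ⟨trivial, mem_normalizer_of_finite fun x hx => (mem_pre ha.1).2 ⟨(key x hx).1, by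
    rw [(key x hx).2]; exact conj_L ((mem_pre ha.1).1 hx).2 b⟩, b, trivial, fun x hx => (key x hx).2⟩

theorem CM_inv (k : ℕ) (u : G) : CM k u⁻¹ = CM k u := by
  ext x
  simp only [CM, mem_comap, mem_centralizer_singleton_iff, map_inv]
  exact Commute.inv_right_iff

theorem CM_conj {k : ℕ} {c x u : G} : c * x * c⁻¹ ∈ CM k (c * u * c⁻¹) ↔ x ∈ CM k u := by
  rw [mem_CM, mem_CM, ← conj_L_iff (g := c) (x := x * u * x⁻¹ * u⁻¹)]
  exact iff_of_eq (by congr 1; group)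

theorem gen1 (j0 : StJ0) (j1 : StJ1) (l2 : StL2) (l1 : StL1) (hF : F.IsSaturated 3) (hZ : ZI F) : Gen F :=
  fun T E hE => frame j0 j1 hF hE fun A hA h6 ih a ha => by
    obtain ⟨D, d1, d2, d3, d4⟩ := exists_N hF (L 2)
    have hD := gen2 j0 j1 l2 d1 (fun P f hf => hZ P f (d2 P f hf)) d3 T E fun A a h ha => hE A a h ⟨d2 A a ha.1, ha.2⟩
    have h2 := L2_le hZ hA
    have h1 : L 1 ≤ A := (L_mono (by norm_num)).trans h2
    have m3 : e 3 ∈ L 2 := by decide +kernel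
    obtain ⟨v, hv, e3⟩ := onto ha.1 le_rfl ha.2 (h2 m3)
    obtain ⟨φ, hφ, h⟩ := ext1 hF hZ h2 ha hv e3
    have hle : A ≤ CM 1 v := fun x hx => mem_CM.2 (back ha.1 h1 (fun x hx => hZ A a ha.1 x (h1 hx) hx)
      (mul_mem (mul_mem (mul_mem hx hv) (inv_mem hx)) (inv_mem hv))
      (by rw [map_lk ha.1 hx hv, e3]; exact comm_L (k := 1) (by norm_num) m3 _))
    rcases hle.lt_or_eq with hlt | heq
    · refine up (fun P k hk hP hi => (d4 P k hk hP hi).of_subsystem hD) ha.1 (hφ.mono hle)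
        ((ih _ φ (card_lt_of_lt hlt) hφ).mono hle) fun y hy => ?_
      obtain ⟨x, hx, rfl⟩ := onto ha.1 le_rfl ha.2 (h2 hy)
      exact ⟨x, hx, h x hx hy, hy⟩
    have hc : ∀ c, Mor E ⊤ fun x => c * x * c⁻¹ := fun c => hE ⊤ _ (.inl rfl) (au_conj' F c)
    obtain ⟨c, r, B, f, hr, r6, hcv, hB, hm, hcard, hf, e4, k⟩ := norm hc hA ha hv (by rw [e3]; decide +kernel)
      fun v6 => h6 fun x hx => heq ▸ mem_CM.2 (by rw [J_comm hx v6]; simp)
    obtain rfl : B = CM 1 (e r) := by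
      ext y
      rw [show y = c * (c⁻¹ * y * c) * c⁻¹ by group, hm, heq, ← CM_conj (c := c)]
      rcases hcv with h | h <;> rw [h]
      rw [CM_inv]
    obtain ⟨α, hα, e5⟩ := hf.aut
    have hx : c * a v * c⁻¹ ∈ L 2 := conj_L (e3 ▸ m3) c
    have := l1 F hF hZ r hr r6 hB α hα _ hx (by rwa [e5 _ ((hm _).2 (ha.2 v hv)), e4])
    exact k ((mor_autFun (le_top.trans (hc 1).le) (extAut_le_autGroup_of (hcard ▸ ih) this)).congr e5)

end GenX

open GenX in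
theorem stGen (j0 : StJ0) (j1 : StJ1) (l2 : StL2) (l1 : StL1) (l0 : StL0) : StGen :=
  fun F hF T E hE => frame j0 j1 hF hE fun A hA h6 ih a ha => by
    obtain ⟨D, d1, d2, d3, d4⟩ := exists_N hF (L 1)
    have hD := gen1 j0 j1 l2 l1 d1 (fun P f hf x hx => iv_of_normal d3 hf hx) T E fun A a h ha =>
      hE A a h ⟨d2 A a ha.1, ha.2⟩
    have h1 : L 1 ≤ A := fun x hx => IsCentric.centralizerIn_le hA.1 ⟨trivial, fun y _ => L1_comm hx y⟩
    have m1 : e 1 ∈ L 1 := by decide +kernel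
    obtain ⟨v, hv, e1⟩ := onto ha.1 le_rfl ha.2 (h1 m1)
    have v1 : v ≠ 1 := fun k => by
      rw [k, ha.1.homOn.map_one] at e1
      exact absurd e1 (by decide +kernel)
    obtain ⟨φ, hφ, h⟩ := X.ext hF ⟨v1, A, a, ha.1, hv, e1 ▸ m1⟩
    have hle : A ≤ C v := fun x hx => mem_C.2 ((map_comm ha.1 hx hv).1 (L1_comm (e1 ▸ m1) _))
    rcases hle.lt_or_eq with hlt | heq
    · refine up (fun P k hk hP hi => (d4 P k hk hP hi).of_subsystem hD) ha.1 (hφ.mono hle)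
        ((ih _ φ (card_lt_of_lt hlt) hφ).mono hle) fun y hy => ?_
      obtain ⟨i, -, hi⟩ := cyc_step (k := 0) (by norm_num) h (by rw [L_zero, mem_bot]; exact map_ne_one hφ (self_C v) v1) hy
      rw [L_zero, mem_bot, mul_eq_one_iff_eq_inv] at hi
      refine ⟨(v ^ i)⁻¹, inv_mem (pow_mem hv i), ?_, ?_⟩
      · rw [hi, hφ.homOn.map_inv (pow_mem (self_C v) i), hφ.homOn.map_pow (self_C v)]
      · rw [ha.1.homOn.map_inv (pow_mem hv i), ha.1.homOn.map_pow hv, e1]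
        exact inv_mem (pow_mem m1 i)
    obtain ⟨c, r, B, f, hr, r6, hcv, hB, hm, -, hf, e4, -⟩ := norm (fun c => hE ⊤ _ (.inl rfl) (au_conj' F c)) hA ha hv
      (by rw [e1]; decide +kernel) fun v6 => h6 fun x hx => heq ▸ mem_C.2 (J_comm hx v6)
    obtain rfl : B = C (e r) := by
      ext y
      rw [show y = c * (c⁻¹ * y * c) * c⁻¹ by group, hm, heq, ← mem_C_conj (c := c)]
      rcases hcv with h | h <;> rw [h]
      rw [C_inv]
    exact (l0 F hF r hr r6 hB f hf _ (conj_L (e1 ▸ m1) c) (by rwa [e4])).elim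

end CL.C3
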