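/-
Saturated fusion systems on `CL.C3.G`: normal subgroups, normal form, uniqueness.
-/
import Cfsg.Agent.Fus.C3F

set_option autoImplicit false
set_option Elab.async false

namespace CL.C3

open Subgroup Cfsg Cfsg.FusionSystem CL.Fus

attribute [local irreducible] mul inv

namespace Glue

variable {F F' : FS}

theorem le_core (hI : StI) (hG : Gen F) {k : ℕ} (h : ∀ A a, Ess A → Au F A a →
    (L k ≤ A ∧ Iv a (L k)) ∨ ∃ g, Mor F ⊤ g ∧ ∀ x ∈ A, g x = a x) : L k ≤ F.core := by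
  have hn : ∀ P : Subgroup G, P ≤ normalizerIn ⊤ (L k) := fun P x _ => ⟨mem_top x, by
    rw [normalizer_eq_top]; exact mem_top x⟩
  have top : ∀ A a g, Mor F ⊤ g → (∀ x ∈ A, g x = a x) → Mor (normalizerSystem F (L k) le_top) A a :=
    fun A a g hg e1 => mor_normalizerSystem.2 ⟨hn A, g, hg.mono le_top, e1, hg.img_eq_self le_top (hI.i0 F g hg k)⟩
  refine IsNormal.le_core (isNormal_iff.2 ⟨le_top, fun P f hf => (mor_normalizerSystem.1
    (hf.of_subsystem (hG _ (normalizerSystem F (L k) le_top) fun A a hA ha => ?_))).2⟩)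
  rcases hA with rfl | hA
  · exact top _ a a ha.1 fun _ _ => rfl
  rcases h A a hA ha with ⟨h1, h2⟩ | ⟨g, hg, e1⟩
  · exact mor_normalizerSystem.2 ⟨hn A, a, ha.1.mono (sup_le le_rfl h1), fun _ _ => rfl, ha.1.img_eq_self h1 h2⟩
  · exact top A a g hg e1

theorem J_E2 : L 6 ≤ E2 := (ech_L (by norm_num)).le (by decide +kernel)
theorem V_E3 : L 3 ≤ E3 := (ech_L (by norm_num)).le (by decide +kernel)

theorem J_E4 {s : ℕ} (hs : s ∈ S4) : L 6 ≤ E4 s :=
  have := Fact.mk (okE4 s hs)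
  L_le (by norm_num) fun j hj => by
    have := (ech_PS (lE4 s)).mem (k := j) (by omega)
    rwa [show (lE4 s).getD j 0 = 3 ^ j by interval_cases j <;> rfl] at this

theorem not_le {k : ℕ} (hk : 1 ≤ k) (h : F.core = ⊥) : ¬ L k ≤ F.core := fun h1 => by
  rw [h] at h1
  exact (by decide : e 1 ≠ 1) (h1 (L_mono hk (show e 1 ∈ L 1 by decide)))

theorem tau_lt (h : Tor F) : ∀ s < 4, Mor F ⊤ (tau s) := fun s hs => by
  interval_cases s
  · exact (mor_id F le_rfl).congr fun x _ => (tau_zero x).symm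
  · exact h.t1
  · exact h.t2
  · exact (h.t2.comp h.t1 fun _ _ => mem_top _).congr fun x _ => tau_tau (s := 1) (t := 2) (by norm_num) (by norm_num) x

theorem tau_xor {s t : ℕ} (hs : s < 8) (ht : t < 8) (h1 : Mor F ⊤ (tau s)) (h2 : Mor F ⊤ (tau t)) :
    Mor F ⊤ (tau (s ^^^ t)) := (h2.comp h1 fun _ _ => mem_top _).congr fun x _ => tau_tau hs ht x

theorem step (hF : F.IsSaturated 3) (top : ∀ k, Mor F ⊤ k → Mor F' ⊤ k) {A M : Subgroup G} {t : G} (hX : ExtP A M t)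
    (h4 : FourP A M t) {w : G → G} (hw : Au F A w) (hw' : Mor F' A w) (ht : w t ∉ M) {a : G → G} (ha : Au F A a) :
    Mor F' A a := by
  by_cases h : a t ∈ M
  · obtain ⟨k, hk, e1⟩ := hX F hF a ha h
    exact ((top k hk).mono le_top).congr e1
  · obtain ⟨g, k, hk, h1, e1⟩ := h4 F hF a w ha hw h ht
    exact ((((top k hk).mono le_top).comp hw' h1).comp (mor_conj F' le_rfl (mem_top g)) fun _ _ => mem_top _).congr
      fun x hx => (e1 x hx).symm

theorem common {E l : List ℕ} [Fact (okE E = true)] (h : Wm F E l) (h' : Wm F' E l)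
    (hl : ∀ k < 9, e (l.getD k 0) ∈ PS E) :
    ∃ w, Au F (PS E) w ∧ Mor F' (PS E) w ∧ ∀ k < 9, w (e (E.getD k 0)) = e (l.getD k 0) := by
  obtain ⟨w, h1, h2⟩ := h
  obtain ⟨w', h3, h4⟩ := h'
  exact ⟨w, ⟨h1, iv_gens h1 (ech_PS E) le_rfl fun k hk => h2 k hk ▸ hl k hk⟩, h3.congr
    (eq_of_gens h3.homOn h1.homOn (ech_PS E) fun k hk => (h4 k hk).trans (h2 k hk).symm), h2⟩

end Glue

open Glue

theorem stC0 (hG : StGen) (hI : StI) (hX : StX) (hX4 : StX4) (hN : StN4) : StC0 := fun F hF hc => by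
  refine ⟨by_contra fun h => not_le (k := 1) le_rfl hc (le_core hI (hG F hF) ?_),
    by_contra fun h => not_le (k := 3) (by norm_num) hc (le_core hI (hG F hF) ?_),
    by_contra fun h => not_le (k := 6) (by norm_num) hc (le_core hI (hG F hF) ?_)⟩
  · rintro A a (rfl | rfl | rfl | ⟨s, hs, rfl⟩) ha
    · exact Or.inr (hX.x1 F hF a ha (by_contra fun h1 => h ⟨a, ha, h1⟩))
    · exact Or.inl ⟨(L_mono (by norm_num)).trans J_E2, (hI.i2 F a ha).2⟩
    · exact Or.inl ⟨(L_mono (by norm_num)).trans V_E3, (hI.i3 F a ha).1⟩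
    · exact Or.inr (hX4 s hs F hF a ha (by_contra fun h1 => h (hN F hF s hs a ha h1).1))
  · rintro A a (rfl | rfl | rfl | ⟨s, hs, rfl⟩) ha
    · exact Or.inl ⟨L_mono (by norm_num), (hI.i1 F a ha).2.2⟩
    · exact Or.inr (hX.x2 F hF a ha (by_contra fun h1 => h ⟨a, ha, h1⟩))
    · exact Or.inl ⟨V_E3, (hI.i3 F a ha).2.2.1⟩
    · exact Or.inr (hX4 s hs F hF a ha (by_contra fun h1 => h (hN F hF s hs a ha h1).2.1))
  · rintro A a (rfl | rfl | rfl | ⟨s, hs, rfl⟩) ha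
    · exact Or.inl ⟨L_mono (by norm_num), (hI.i1 F a ha).1⟩
    · exact Or.inl ⟨J_E2, (hI.i2 F a ha).1⟩
    · exact Or.inr (hX.x3 F hF a ha (by_contra fun h1 => h ⟨a, ha, h1⟩))
    · exact Or.inl ⟨J_E4 hs, J_wc ha.1 (J_E4 hs)⟩

theorem stCl (hC : StC0) (h0 : StTor0) (h12 : StT12) (v1 : StV1) (v2 : StV2) (v3 : StV3) (w1 : StW1) (w2 : StW2)
    (w3 : StW3) (hZ : StZ) : StCl := fun F hF hc => by
  obtain ⟨F1, θ, η, i1, t1⟩ := h0 F hF
  have s1 := i1.isSaturated hF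
  have c1 : F1.core = ⊥ := by rw [← i1.img_core, hc, i1.toGIso.img_bot]
  obtain ⟨n1, n2, -⟩ := hC F1 s1 c1
  have T1 := h12 F1 s1 t1 n1 n2
  obtain ⟨m, hm, h1⟩ := w1 F1 T1 (v1 F1 T1 n1)
  obtain ⟨F2, θ', η', i2, T2, h2⟩ := hZ F1 T1 m hm h1
  obtain ⟨-, n2, n3⟩ := hC F2 T2.sat (by rw [← i2.img_core, c1, i2.toGIso.img_bot])
  obtain ⟨m, hm, h3⟩ := w2 F2 T2 (v2 F2 T2 n2)
  exact ⟨F2, _, _, m, hm, i1.trans i2, T2, h2, h3, w3 F2 T2 (v3 F2 T2 n3)⟩

theorem stUq (hG : StGen) (hX : StX) (hX4 : StX4) (hF : StF) (hN : StN4) (hW : StW4) (hT : StTy) : StUq := by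
  intro F F' m hm h h' h4
  have top : ∀ k, Mor F ⊤ k → Mor F' ⊤ k := fun k hk => by
    obtain ⟨g, s, hs, h1, e1⟩ := h.tor k hk
    refine (Mor.comp (g := fun x => g * x * g⁻¹) (f := tau s) ?_ (mor_conj F' le_rfl (mem_top g))
      fun _ _ => mem_top _).congr fun x _ => (e1 x).symm
    by_cases h2 : s < 4
    · exact tau_lt h'.toTor s h2
    · obtain ⟨h3, h5, h6⟩ := (by decide : ∀ s < 8, ¬ s < 4 → s - 4 < 4 ∧ s ^^^ (s - 4) = 4 ∧ 4 ^^^ (s - 4) = s) s hs h2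
      have := tau_xor hs (by omega) h1 (tau_lt h.toTor _ h3)
      rw [h5] at this
      have := tau_xor (by norm_num) (by omega) (h4 this) (tau_lt h'.toTor _ h3)
      rwa [h6] at this
  refine hG F h.sat _ F' ?_
  rintro A a (rfl | rfl | rfl | rfl | ⟨s, hs, rfl⟩) ha
  · exact top a ha.1
  · obtain ⟨w, h1, h2, h3⟩ := common h.w1 h'.w1 (by decide +kernel)
    rw [← L8_eq] at h1 h2
    exact Glue.step h.sat top hX.x1 hF.f1 h1 h2 (by rw [show w (e 729) = _ from h3 6 (by norm_num)]; decide) ha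
  · obtain ⟨w, h1, h2, h3⟩ := common h.w2 h'.w2
      ((by decide +kernel : ∀ m < 3, ∀ k < 9, e ((lW2 m).getD k 0) ∈ E2) m hm)
    exact Glue.step h.sat top hX.x2 hF.f2 h1 h2 (by
      rw [show w (e 729) = e 6561 from h3 6 (by norm_num)]; decide) ha
  · obtain ⟨w, h1, h2, h3⟩ := common h.w3 h'.w3 (by decide +kernel)
    exact Glue.step h.sat top hX.x3 hF.f3 h1 h2 (by rw [show w (e 27) = _ from h3 3 (by norm_num)]; decide) ha
  · by_cases h1 : a (e 1) ∈ L 1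
    · obtain ⟨k, hk, e1⟩ := hX4 s hs F h.sat a ha h1
      exact ((top k hk).mono le_top).congr e1
    rcases hT F m hm h with rfl | ⟨rfl, -⟩
    · exact absurd ⟨h.w1, h.w2⟩ (hN F h.sat s hs a ha h1).2.2
    · obtain ⟨w, h2, h3, h5⟩ := hW F F' h h' s hs
      exact Glue.step h.sat top (hX4 s hs) (hF.f4 s hs) h2 h3 h5 ha

end CL.C3
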