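/-
Saturated fusion systems on `CL.C3.G`: the essential subgroups above `J`.
-/
import Cfsg.Agent.Fus.C3F

set_option autoImplicit false
set_option Elab.async false

namespace CL.C3

open Subgroup Cfsg Cfsg.FusionSystem CL.Fus

attribute [local irreducible] mul inv

namespace J1

variable {F : FS} {A M N P : Subgroup G} {f : G → G}

theorem lev {j k : ℕ} (hj : 5 ≤ j) (hJ : L j ≤ A) (hk : k < 4) (l : List ℕ)
    (h : ∀ n < 3 ^ k, ∃ y ∈ l, (e (243 * (3 ^ k + n)))⁻¹ * e y ∈ L j) : Miss A (k + 5) ∨ ∃ y ∈ l, e y ∈ A := by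
  by_contra hn
  push Not at hn
  refine hn.1 (miss_hi ((L_mono hj).trans hJ) hk fun n h1 h2 => ?_)
  obtain ⟨y, h3, h4⟩ := h n h1
  exact hn.2 y h3 ((mul_mem_cancel_left (inv_mem h2)).1 (hJ h4))

theorem mkEch (hJ : L 6 ≤ A) {t6 t7 t8 : ℕ} (h6 : (t6 = 0 ∧ Miss A 6) ∨ (e t6 ∈ A ∧ 3 ^ 6 ≤ t6 ∧ t6 < 2 * 3 ^ 6))
    (h7 : (t7 = 0 ∧ Miss A 7) ∨ (e t7 ∈ A ∧ 3 ^ 7 ≤ t7 ∧ t7 < 2 * 3 ^ 7))
    (h8 : (t8 = 0 ∧ Miss A 8) ∨ (e t8 ∈ A ∧ 3 ^ 8 ≤ t8 ∧ t8 < 2 * 3 ^ 8)) :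
    Ech A [1, 3, 9, 27, 81, 243, t6, t7, t8] := fun k hk => by
  interval_cases k
  exacts [Or.inr ⟨hJ (e_mem_L (n := 1) (by norm_num)), by simp⟩, Or.inr ⟨hJ (e_mem_L (n := 3) (by norm_num)), by simp⟩,
    Or.inr ⟨hJ (e_mem_L (n := 9) (by norm_num)), by simp⟩, Or.inr ⟨hJ (e_mem_L (n := 27) (by norm_num)), by simp⟩,
    Or.inr ⟨hJ (e_mem_L (n := 81) (by norm_num)), by simp⟩, Or.inr ⟨hJ (e_mem_L (n := 243) (by norm_num)), by simp⟩,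
    h6, h7, h8]

theorem nrm (P K : Subgroup G) [K.Normal] : P ≤ normalizer (K : Set G) := by rw [normalizer_eq_top]; exact le_top

theorem iv_L0 (hf : Mor F A f) : Iv f (L 0) := L_zero ▸ iv_bot hf

theorem kill4 (hA : F.IsEssential 3 A) {C1 C2 C3 : Subgroup G} {a : G} (hC : C3 ≤ A)
    (iv : ∀ f, Mor F A f → Iv f A → Iv f C1 ∧ Iv f C2 ∧ Iv f C3) (h0 : ∀ x ∈ C1, lk x a ∈ L 0)
    (h1 : ∀ x ∈ C2, lk x a ∈ C1) (h2 : ∀ x ∈ C3, lk x a ∈ C2) (h3 : ∀ x ∈ A, lk x a ∈ C3) : a ∈ A := by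
  refine kill hA 4 (fun i => match i with | 0 => ⊥ | 1 => C1 | 2 => C2 | 3 => C3 | _ => ⊤) rfl le_top
    (fun f hf hi i x _ hx => ?_) (mem_normalizer_of_finite fun x hx => ?_) fun i hi x hx hx' => ?_
  · obtain ⟨i1, i2, i3⟩ := iv f hf hi
    match i with
    | 0 => exact iv_bot hf x hx
    | 1 => exact i1 x hx
    | 2 => exact i2 x hx
    | 3 => exact i3 x hx
    | _ + 4 => exact mem_top _
  · have := mul_mem hx (hC (h3 _ (inv_mem hx)))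
    convert this using 1; simp only [lk]; group
  · interval_cases i
    exacts [L_zero ▸ h0 _ (inv_mem hx'), h1 _ (inv_mem hx'), h2 _ (inv_mem hx'), h3 _ (inv_mem hx)]

/-- `P = [M, N]` is invariant -/
theorem iv_comm (hf : Mor F A f) (hM : M ≤ A) (hN : N ≤ A) (iM : Iv f M) (iN : Iv f N) {E : List ℕ} (hP : Ech P E)
    (hPA : P ≤ A) (h1 : ∀ m ∈ M, ∀ n ∈ N, lk m n ∈ P) {m n1 n2 n3 : G} (hm : m ∈ M) (k1 : n1 ∈ N) (k2 : n2 ∈ N)
    (k3 : n3 ∈ N) (h2 : ∀ k < 9, ∃ i < 3, ∃ j < 3, ∃ l < 3, e (E.getD k 0) = lk m n1 ^ i * lk m n2 ^ j * lk m n3 ^ l) :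
    Iv f P := iv_gens hf hP hPA fun k hk => by
  obtain ⟨i, -, j, -, l, -, h⟩ := h2 k hk
  have c : ∀ n ∈ N, lk m n ∈ pre hf P := fun n hn =>
    (mem_pre hf).2 ⟨hPA (h1 m hm n hn), iv_lo hf hM hN iM iN h1 hm hn⟩
  exact ((mem_pre hf).1 (h ▸ mul_mem (mul_mem (pow_mem (c _ k1) i) (pow_mem (c _ k2) j)) (pow_mem (c _ k3) l))).2

theorem W3_le : W3 ≤ L 6 := (ech_PS _).le (by decide +kernel)

/-- the data for the chain `L 1 < W3 < A` -/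
def OkW (E : List ℕ) (m n1 n2 n3 a : ℕ) : Prop :=
  (∀ i < 9, ∀ j < 9, lk (e (E.getD i 0)) (e ((EL 6).getD j 0)) ∈ W3) ∧
  (∀ i < 9, ∀ j < 9, lk (e (E.getD i 0)) (e (lW3.getD j 0)) ∈ L 1) ∧ e n1 ∈ W3 ∧ e n2 ∈ L 6 ∧ e n3 ∈ L 6 ∧
  (∀ k < 9, ∃ i < 3, ∃ j < 3, ∃ l < 3, e (lW3.getD k 0) =
    lk (e m) (e n1) ^ i * lk (e m) (e n2) ^ j * lk (e m) (e n3) ^ l) ∧
  (∀ k < 9, ∃ i < 3, ∃ j < 3, ∃ l < 3, e ((EL 1).getD k 0) =
    lk (e m) (e n1) ^ i * lk (e m) (e n1) ^ j * lk (e m) (e n1) ^ l) ∧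
  (∀ i < 9, lk (e (lW3.getD i 0)) (e a) ∈ L 1) ∧ ∀ i < 9, lk (e (E.getD i 0)) (e a) ∈ W3

noncomputable instance (E : List ℕ) (m n1 n2 n3 a : ℕ) : Decidable (OkW E m n1 n2 n3 a) := by
  unfold OkW; infer_instance

theorem lk_L {k : ℕ} (hk : k < 9) {x : G} (hx : x ∈ L (k + 1)) (a : G) : lk x a ∈ L k := lk_symm (comm_L hk hx a)

theorem killW (hA : F.IsEssential 3 A) (hJ : L 6 ≤ A) {E : List ℕ} (hE : Ech A E) {m n1 n2 n3 a : ℕ} (hm : e m ∈ A)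
    (h : OkW E m n1 n2 n3 a) : e a ∈ A := by
  obtain ⟨c1, c2, c3, c4, c5, c6, c7, c8, c9⟩ := h
  refine kill4 hA (C1 := L 0) (C2 := L 1) (C3 := W3) (W3_le.trans hJ) (fun f hf hi => ?_)
    (fun x hx => lk_symm (lk_mem hx _)) (fun x hx => lk_L (by norm_num) hx _)
    (fun x => lk_of_gens (ech_PS _) (nrm _ _) c8) fun x => lk_of_gens hE (nrm _ _) c9
  have i3 : Iv f W3 := iv_comm hf le_rfl hJ hi (J_wc hf hJ) (ech_PS _) (W3_le.trans hJ)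
    (fun _ k _ k' => lk_of_gens2 hE (ech_L (by norm_num)) (nrm _ _) (nrm _ _) c1 k k') hm (W3_le c3) c4 c5 c6
  exact ⟨iv_L0 hf, iv_comm hf le_rfl (W3_le.trans hJ) hi i3 (ech_L (by norm_num)) ((L_mono (by norm_num)).trans hJ)
    (fun _ k _ k' => lk_of_gens2 hE (ech_PS _) (nrm _ _) (nrm _ _) c2 k k') hm c3 c3 c3 c7, i3⟩

theorem okW1 : OkW [1, 3, 9, 27, 81, 243, 729, 0, 0] 729 27 81 243 6561 := by decide +kernel

theorem okW2 : ∀ y ∈ [6561, 7290, 8019], OkW [1, 3, 9, 27, 81, 243, 0, 0, y] y 3 9 81 729 := by decide +kernel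

theorem killB (hA : F.IsEssential 3 A) (hJ : L 6 ≤ A) {y : ℕ} (hy : y ∈ [2187, 2916, 3645]) (hm : e y ∈ A)
    (hE : Ech A [1, 3, 9, 27, 81, 243, 0, y, 0]) : e 729 ∈ A := by
  obtain ⟨c1, c2, c3, c4, c5⟩ := (by decide +kernel : ∀ y ∈ [2187, 2916, 3645],
    (∀ i < 9, ∀ j < 9, e ((EL 3).getD i 0) ∈ CM 0 (e ([1, 3, 9, 27, 81, 243, 0, y, 0].getD j 0))) ∧
    (∀ i < 9, ∀ j < 9, e ((EL 5).getD i 0) ∈ CM 3 (e ([1, 3, 9, 27, 81, 243, 0, y, 0].getD j 0))) ∧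
    allW (3 ^ 6) (fun n => decide (lk (e n) (e y) ∈ L 0 → e n ∈ L 3)) = true ∧
    allW (3 ^ 6) (fun n => decide (lk (e n) (e y) ∈ L 3 → e n ∈ L 5)) = true ∧
    ∀ i < 9, lk (e ([1, 3, 9, 27, 81, 243, 0, y, 0].getD i 0)) (e 729) ∈ L 5) y hy
  refine kill4 hA (C1 := L 0) (C2 := L 3) (C3 := L 5) ((L_mono (by norm_num)).trans hJ) (fun f hf hi => ?_)
    (fun x hx => lk_symm (lk_mem hx _)) (fun x => lk_of_gens (ech_L (by norm_num)) (nrm _ _) (by decide +kernel))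
    (fun x => lk_of_gens (ech_L (by norm_num)) (nrm _ _) (by decide +kernel)) fun x => lk_of_gens hE (nrm _ _) c5
  have i3 : Iv f (L 3) := iv_cm hf le_rfl hJ hi (J_wc hf hJ) (iv_L0 hf) (L_mono (by norm_num))
    (fun _ k _ k' => comm_of_gens (ech_L (by norm_num)) hE c1 k k')
    fun x hx k => all_L (p := fun u => lk u (e y) ∈ L 0 → u ∈ L 3) c3 x hx (k _ hm)
  exact ⟨iv_L0 hf, i3, iv_cm hf le_rfl hJ hi (J_wc hf hJ) i3 (L_mono (by norm_num))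
    (fun _ k _ k' => comm_of_gens (ech_L (by norm_num)) hE c2 k k')
    fun x hx k => all_L (p := fun u => lk u (e y) ∈ L 3 → u ∈ L 5) c4 x hx (k _ hm)⟩

theorem lk_hi (x : G) {j : G} (hj : j ∈ L 6) : lk (hi x) j = lk x j := by
  obtain ⟨a, ha, h⟩ := hi_split x
  conv_rhs => rw [h]
  have := J_comm (L_mono (by norm_num) ha) hj
  calc lk (hi x) j = hi x * (j * a * a⁻¹) * (hi x)⁻¹ * j⁻¹ := by simp only [lk]; group
    _ = _ := by rw [← this]; simp only [lk]; group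

theorem killC (hA : F.IsEssential 3 A) (h7 : L 7 ≤ A) {y : ℕ} (hy : y ∈ [8748, 10935]) (hm : e y ∈ A)
    (hE : Ech A [1, 3, 9, 27, 81, 243, 729, 0, y]) : e 6561 ∈ A := by
  by_contra ha
  have hJ : L 6 ≤ A := (L_mono (by norm_num)).trans h7
  have m7 : e 729 ∈ L 7 := by decide
  obtain ⟨c1, c2⟩ := (by decide +kernel : ∀ y ∈ [8748, 10935],
    allW (3 ^ 6) (fun n => decide (lk (e n) (e 729) ∈ L 0 → lk (e n) (e y) ∈ L 0 → e n ∈ L 1)) = true ∧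
    ∀ i < 9, lk (e ([1, 3, 9, 27, 81, 243, 729, 0, y].getD i 0)) (e 6561) ∈ L 7) y hy
  have d1 : ∀ m ∈ L 7, ∀ n ∈ L 6, lk m n ∈ W3 := fun _ k _ k' =>
    lk_of_gens2 (ech_L (by norm_num)) (ech_L (by norm_num)) (nrm _ _) (nrm _ _) (by decide +kernel) k k'
  refine ha (kill4 hA (C1 := L 1) (C2 := W3) (C3 := L 7) h7 (fun f hf hi => ?_)
    (fun x hx => lk_L (by norm_num) hx _) (fun x => lk_of_gens (ech_PS _) (nrm _ _) (by decide +kernel))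
    (fun x => lk_of_gens (ech_L (by norm_num)) (nrm _ _) (by decide +kernel)) fun x => lk_of_gens hE (nrm _ _) c2)
  have iJ := J_wc hf hJ
  have i1 : Iv f (L 1) := iv_cm hf le_rfl hJ hi iJ (iv_L0 hf) (L_mono (by norm_num))
    (fun _ k _ _ => lk_L (by norm_num) k _)
    fun x hx k => all_L (p := fun u => lk u (e 729) ∈ L 0 → lk u (e y) ∈ L 0 → u ∈ L 1) c1 x hx (k _ (h7 m7)) (k _ hm)
  have i7 : Iv f (L 7) := maps_L hf (by norm_num) h7 fun j hj => by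
    rcases Nat.lt_succ_iff_lt_or_eq.1 hj with hj | rfl
    · exact L_mono (by norm_num) (iJ _ (e_mem_L (Nat.pow_lt_pow_right (by norm_num) hj)))
    obtain ⟨u, hu, eu⟩ := onto hf hJ iJ (y := e 243) (by decide)
    have k1 := d1 _ m7 u hu
    have k2 : lk (f (e 729)) (lk (f (e 729)) (e 243)) ∈ L 1 := by
      rw [← eu, lk, lk, ← map_lk hf (h7 m7) (hJ hu), ← map_lk hf (h7 m7) (hJ (W3_le k1))]
      exact i1 _ (lk_symm (lk_of_gens (ech_PS _) (nrm _ _) (by decide +kernel) k1))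
    have k3 : e 243 ∈ L 6 := by decide
    have k4 := all_hi (p := fun u => lk u (lk u (e 243)) ∈ L 1 → u ∈ L 7 ∨ e 6561 * u ∈ L 7 ∨ (e 6561)⁻¹ * u ∈ L 7)
      (by decide +kernel) (f (e 729)) (by rwa [lk_hi _ k3, lk_hi _ (lk_mem k3 _)])
    have k5 := (hi_mem ((L_mono (by norm_num)).trans hJ)).2 (hi _ (h7 m7))
    rcases k4 with k | k | k
    · exact (hi_mem_L (by norm_num)).1 k
    · exact absurd ((mul_mem_cancel_right k5).1 (h7 k)) ha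
    · exact absurd (inv_mem_iff.1 ((mul_mem_cancel_right k5).1 (h7 k))) ha
  exact ⟨i1, iv_comm hf h7 hJ i7 iJ (ech_PS _) (W3_le.trans hJ) d1 m7 (n1 := e 27) (n2 := e 81) (n3 := e 243)
    (by decide) (by decide) (by decide) (by decide +kernel), i7⟩

end J1

open J1 in
theorem stJ1 : StJ1 := fun F hF A hA hJ hne => by
  have := Fact.mk Nat.prime_three
  have ht := (IsEssential.lt_top pT hF hA).ne
  rcases lev (k := 1) (by norm_num) hJ (by norm_num) [729] (by decide +kernel) with m6 | ⟨_, h, h6⟩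
  · rcases lev (k := 2) (by norm_num) hJ (by norm_num) [2187, 2916, 3645] (by decide +kernel) with m7 | ⟨y, hy, h7⟩ <;>
    rcases lev (k := 3) (by norm_num) hJ (by norm_num) ([6561, 7290, 8019] ++ S4) (by decide +kernel) with
      m8 | ⟨z, hz, h8⟩
    · exact absurd (le_antisymm (fun x hx => m6 x hx (m7 x hx (m8 x hx x.lt))) hJ) hne
    · have hE := mkEch hJ (Or.inl ⟨rfl, m6⟩) (Or.inl ⟨rfl, m7⟩) (Or.inr ⟨h8,
        (by decide : ∀ z ∈ [6561, 7290, 8019] ++ S4, 3 ^ 8 ≤ z ∧ z < 2 * 3 ^ 8) z hz⟩)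
      rcases List.mem_append.1 hz with hz | hz
      · exact absurd (m6 _ (killW hA hJ hE h8 (okW2 z hz)) (by decide)) (by decide)
      · have := Fact.mk (okE4 z hz)
        exact Or.inr (Or.inr (Or.inr ⟨z, hz, Ech.eq_PS (E := lE4 z) hE⟩))
    · have hE := mkEch hJ (Or.inl ⟨rfl, m6⟩) (Or.inr ⟨h7,
        (by decide : ∀ z ∈ [2187, 2916, 3645], 3 ^ 7 ≤ z ∧ z < 2 * 3 ^ 7) y hy⟩) (Or.inl ⟨rfl, m8⟩)
      exact absurd (m6 _ (killB hA hJ hy h7 hE) (by decide)) (by decide)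
    · obtain ⟨k1, k2⟩ := (by decide +kernel : ∀ y ∈ [2187, 2916, 3645], ∀ z ∈ [6561, 7290, 8019] ++ S4,
        lk (e z) (e y) ∈ L 7 ∧ lk (e z) (e y) ∉ L 6) y hy z hz
      exact absurd (m6 _ (mul_mem (mul_mem (mul_mem h8 h7) (inv_mem h8)) (inv_mem h7)) k1) k2
  obtain rfl := List.mem_singleton.1 h
  have l7 : L 7 ≤ A := L_succ_le (by norm_num) hJ h6 (by decide) (by decide)
  have g6 : e 729 ∈ A ∧ 3 ^ 6 ≤ 729 ∧ 729 < 2 * 3 ^ 6 := ⟨h6, by norm_num⟩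
  rcases lev (k := 2) (by norm_num) l7 (by norm_num) [2187] (by decide +kernel) with m7 | ⟨_, h, h7⟩
  · rcases lev (k := 3) (by norm_num) l7 (by norm_num) [6561, 8748, 10935] (by decide +kernel) with m8 | ⟨z, hz, h8⟩
    · exact absurd (m8 _ (killW hA hJ (mkEch hJ (Or.inr g6) (Or.inl ⟨rfl, m7⟩) (Or.inl ⟨rfl, m8⟩)) h6 okW1)
        (by decide)) (by decide)
    · have hE := mkEch hJ (Or.inr g6) (Or.inl ⟨rfl, m7⟩) (Or.inr ⟨h8,
        (by decide : ∀ z ∈ [6561, 8748, 10935], 3 ^ 8 ≤ z ∧ z < 2 * 3 ^ 8) z hz⟩)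
      rcases List.mem_cons.1 hz with rfl | hz
      · exact Or.inr (Or.inl (Ech.eq_PS (E := lE2) hE))
      · obtain ⟨k1, k2⟩ := (by decide +kernel : ∀ z ∈ [8748, 10935],
          (e 6561)⁻¹ * e z ∈ L 8 ∧ (e 6561)⁻¹ * e z ∉ L 7) z hz
        exact absurd (m7 _ (mul_mem (inv_mem (killC hA l7 hz h8 hE)) h8) k1) k2
  obtain rfl := List.mem_singleton.1 h
  have l8 : L 8 ≤ A := L_succ_le (by norm_num) l7 h7 (by decide) (by decide)
  refine Or.inl (le_antisymm (fun x hx => ?_) l8)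
  by_contra hx'
  exact ht (eq_top_iff.2 (L_nine ▸ L_succ_le (by norm_num) l8 hx x.lt hx'))

end CL.C3
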