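/-
Saturated fusion systems on `CL.C3.G`: centralisers of elements as essential subgroups; trivial cores.
-/
import Cfsg.Agent.Fus.C3F

set_option autoImplicit false
set_option Elab.async false

namespace CL.C3

open Subgroup Cfsg Cfsg.FusionSystem CL.Fus

attribute [local irreducible] mul inv

namespace L0

theorem cube_mem (g : G) : g ^ 3 ∈ L 6 := by
  obtain ⟨a, ha, h⟩ := hi_split g
  obtain ⟨s, hs, h'⟩ := mul_pow_L ha (hi g) 3
  rw [h, h']
  exact mul_mem (all_hi (p := fun y => y ^ 3 ∈ L 6) (by decide +kernel) g) (L_mono (by norm_num) hs)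

theorem cases_r : ∀ r ∈ RP, e r ∉ L 6 →
    (∃ y ∈ [6579, 6687, 6795, 6876, 7092, 1215, 1230, 1236, 1299, 1305, 1320, 1383, 1389, 1395],
      e y ∈ C (e r) ∧ e y ^ 3 = e 1) ∨
    (e r ∉ L 8 ∧ ∃ a ∈ [48, 42], e a ∈ C (e r) ∧ e 729 ∈ C (e r) ∧
      (lk (e a) (e 729) = e 1 ∨ lk (e 729) (e a) = e 1)) ∨
    (∀ k < 9, (EE r).getD k 0 = lB.getD k 0) ∨ r ∈ [2214, 2241] := by decide +kernel

theorem shape : ∀ r ∈ [2214, 2241], (∀ k < 9, e ((EE r).getD k 0) ∈ L 8) ∧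
    (∀ k < 9, e (((EE r).take 7).getD k 0) ∈ L 3) ∧ ∀ k < 3, e (3 ^ k) ∈ C (e r) := by decide +kernel

theorem trv : ∀ r ∈ [2214, 2241], ∀ n < 27, ∃ i < 9, ∃ k < 3,
    (e r)⁻¹ * (e (27 * i + 729 * k) * e r * (e (27 * i + 729 * k))⁻¹) = e n ∧
    (∀ m < 9, e (27 * i + 729 * k) * e ((EE r).getD m 0) * (e (27 * i + 729 * k))⁻¹ ∈ C (e r)) ∧
    e n ∈ C (e (27 * i + 729 * k)) ∧
    go (EE r) (fun m => decide ((e m)⁻¹ * (e (27 * i + 729 * k) * e m * (e (27 * i + 729 * k))⁻¹) ∈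
      [1, e n, (e n)⁻¹])) 9 0 = true := by decide +kernel

theorem trv' {r : ℕ} (hr : r ∈ RP) (h : r ∈ [2214, 2241]) {p : G} (hp : p ∈ L 3) (h1 : p ≠ 1) :
    ∃ t ∈ normalizer (C (e r) : Set G), t ∉ C (e r) ∧ (∀ y ∈ zpowers p, y⁻¹ * (t * y * t⁻¹) = 1) ∧
      ∀ y ∈ C (e r), y⁻¹ * (t * y * t⁻¹) ∈ zpowers p := by
  obtain ⟨i, -, k, -, a1, a2, a3, a4⟩ := trv r h p.v hp
  rw [e_self] at a1 a3 a4
  generalize e (27 * i + 729 * k) = t at a1 a2 a3 a4
  refine ⟨t, nrm_of_gens (ech_rep hr) a2, fun m => h1 ?_, ?_, fun y hy => ?_⟩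
  · rw [← a1, mem_C.1 m]; group
  · rintro _ ⟨n, rfl⟩
    have : Commute (p ^ n) t := Commute.zpow_left (mem_C.1 a3) n
    simp only [← this.eq]; group
  · have := (ech_rep hr).all (p := fun y => y⁻¹ * (t * y * t⁻¹) ∈ [1, p, p⁻¹]) a4 y hy
    simp only [List.mem_cons, List.not_mem_nil, or_false] at this
    rcases this with h | h | h <;> rw [h]
    exacts [one_mem _, mem_zpowers _, inv_mem (mem_zpowers _)]

theorem no_ess {F : FS} (hF : F.IsSaturated 3) {r : ℕ} (hr : r ∈ RP) (h : r ∈ [2214, 2241]) :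
    ¬ F.IsEssential 3 (C (e r)) := fun hA => by
  have := Fact.mk Nat.prime_three
  obtain ⟨δ, hδ, hn⟩ := IsEssential.exists_notMem_extAut pT hF hA
  obtain ⟨s1, s2, s3⟩ := shape r h
  have hm := mor_autFun le_top hδ
  have a8 := (ech_rep hr).le s1
  have a7 := ((ech_rep hr).inf_L 7).le s2
  have a3 : L 3 ≤ C (e r) := L_le (by norm_num) s3
  have z1 : e 1 ∈ L 3 := by decide
  have z3 : e 3 ∈ L 3 := by decide
  obtain ⟨p, hp, p1, p3⟩ : ∃ p ∈ L 3, p ≠ 1 ∧ autFun δ p ∈ L 3 := by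
    by_cases k : autFun δ (e 1) ∈ L 7
    · exact ⟨_, z1, by decide, a7 ⟨autFun_mem δ (a3 z1), k⟩⟩
    · obtain ⟨i, hi, k'⟩ := cyc_step (by norm_num) (a8 (autFun_mem δ (a3 z1))) k (a8 (autFun_mem δ (a3 z3)))
      have m := mul_mem z3 (pow_mem z1 i)
      rw [← hm.homOn.map_pow (a3 z1), ← hm.homOn.map_mul (a3 z3) (a3 (pow_mem z1 i))] at k'
      exact ⟨_, m, (by decide +kernel : ∀ i < 3, e 3 * e 1 ^ i ≠ 1) i hi, a7 ⟨autFun_mem δ (a3 m), k'⟩⟩
  obtain ⟨t, t1, t2, t3, t4⟩ := trv' hr h p3 (map_ne_one hm (a3 hp) p1)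
  obtain ⟨u, u1, u2, u3, u4⟩ := trv' hr h hp p1
  have zp : ∀ n : ℤ, autFun δ (p ^ n) = autFun δ p ^ n := hm.homOn.map_zpow (a3 hp)
  have key : ∀ y ∈ C (e r), (autFun δ y)⁻¹ * autFun (δ * conjAut _ u1 * δ⁻¹) (autFun δ y) =
      autFun δ (y⁻¹ * (u * y * u⁻¹)) := fun y hy => by
    rw [autFun_mul _ _ (autFun_mem δ hy), autFun_inv_apply _ hy, autFun_mul _ _ hy, ← hm.homOn.map_inv hy,
      ← hm.homOn.map_mul (inv_mem hy) (autFun_mem _ hy), autFun_conjAut u1 hy]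
  refine hn (IsEssential.mem_extAut_of_closure pT hF hA (IsEssential.conjAut_mem_extAut pT hF hA (mem_top t) t1)
    (IsEssential.conjAut_notMem_Inn hA (mem_top t) t1 t2) (IsEssential.conjAut_mem_extAut pT hF hA (mem_top u) u1)
    (IsEssential.conjAut_notMem_Inn hA (mem_top u) u1 u2) (conjAut_pow u1) hδ
    (pgrp_of_chain 2 (fun i => [⊥, zpowers (autFun δ p)].getD i ⊤) rfl le_top (fun i hi => ?_) (fun i hi x hx hx' => ?_)
      fun i hi x hx hx' => ?_))
  · interval_cases i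
    exacts [bot_le, le_top]
  · rw [autFun_conjAut t1 hx]
    interval_cases i
    exacts [t3 x hx', t4 x hx]
  · interval_cases i
    · obtain ⟨n, rfl⟩ : ∃ n : ℤ, autFun δ p ^ n = x := hx'
      rw [← zp, key _ (zpow_mem (a3 hp) n), u3 _ (zpow_mem (mem_zpowers p) n)]
      exact hm.homOn.map_one
    · obtain ⟨y, hy, rfl⟩ := onto hm le_rfl (fun _ => autFun_mem δ) hx
      obtain ⟨n, hn⟩ : ∃ n : ℤ, p ^ n = _ := u4 y hy
      rw [key y hy, ← hn, zp]
      exact zpow_mem (mem_zpowers _) n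

theorem lk_hi (y : G) {j : G} (hj : j ∈ L 6) : lk y j = lk (hi y) j := by
  obtain ⟨a, ha, h⟩ := hi_split y
  have := J_comm (L_mono (by norm_num) ha) hj
  conv_lhs => rw [h]
  calc _ = hi y * (a * j) * a⁻¹ * (hi y)⁻¹ * j⁻¹ := by simp only [lk]; group
    _ = _ := by rw [this]; simp only [lk]; group

end L0

open L0

/-- the centre is not moved to a noncentral generator of an essential centraliser -/
theorem stL0 (h : StB0) : StL0 := by
  intro F hF r hr h6 hA f hf x hx hfx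
  have zA : e 1 ∈ C (e r) := L1_le_C _ (by decide)
  have hz : ∀ k, f (e 1) ∈ L k → e r ∈ L k := fun k hk => by
    have : f x ∈ L k := by
      rcases L1_cases x hx with rfl | rfl | rfl
      · rw [hf.1.homOn.map_one]; exact one_mem _
      · exact hk
      · rw [hf.1.homOn.map_inv zA]; exact inv_mem hk
    rcases hfx with e1 | e1 <;> rw [e1] at this
    exacts [this, inv_mem_iff.1 this]
  rcases cases_r r hr h6 with ⟨y, -, h1, h2⟩ | ⟨h8, a, -, h1, h2, h3 | h3⟩ | h1 | h1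
  · exact h6 (hz 6 (by rw [← h2, hf.1.homOn.map_pow h1]; exact cube_mem _))
  · exact h8 (hz 8 (by rw [← h3, lk, map_lk hf.1 h1 h2]; exact comm_L (by norm_num) (G.lt _) _))
  · exact h8 (hz 8 (by rw [← h3, lk, map_lk hf.1 h2 h1]; exact comm_L (by norm_num) (G.lt _) _))
  · exact h F hF (by rwa [((ech_rep hr).congr h1).eq_PS] at hA)
  · exact no_ess hF hr h1 hA

/-- a criterion for a trivial core -/
theorem stCF : StCF := by
  intro F h
  by_contra hN
  have hn := isNormal_core F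
  have sc := IsNormal.stronglyClosed (IsNormal.zSer hn 1)
  have := sc_normal (IsNormal.stronglyClosed hn)
  have nY := sc_normal sc
  have hz : e 1 ∈ zSer F.core 1 := by
    rw [zSer_one]
    exact ⟨L1_le hN (by decide), mem_centralizer_iff.2 fun g _ => L1_comm (by decide) g⟩
  have ab : ∀ a ∈ zSer F.core 1, ∀ b ∈ zSer F.core 1, a * b = b * a := fun a ha b hb => by
    rw [zSer_one] at ha hb
    exact mem_centralizer_iff.1 hb.2 a ha.1
  have cj : ∀ x y, Cj F x y → x ∈ zSer F.core 1 → y ∈ zSer F.core 1 := by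
    rintro x _ ⟨P, f, hf, hx, rfl⟩ hY
    exact hf.mem_of_stronglyClosed sc hx hY
  generalize zSer F.core 1 = Y at *
  have le6 : Y ≤ L 6 := fun y hy => by
    have k : ∀ j ∈ L 6, lk (hi y) (lk (hi y) j) = 1 := fun j hj => by
      have m : lk (hi y) j ∈ L 6 := lk_mem hj _
      have m' : lk y j ∈ Y := lk_symm (lk_mem hy j)
      rw [← lk_hi y m, ← lk_hi y hj]
      generalize lk y j = w at m'
      rw [lk, ab y hy _ m']
      group
    exact (hi_mem_L (by norm_num)).1 (all_hi (p := fun y => lk y (lk y (e 9)) = 1 → lk y (lk y (e 243)) = 1 → y ∈ L 6)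
      (by decide +kernel) y (k _ (by decide)) (k _ (by decide)))
  rcases h with ⟨y, h1, h2⟩ | ⟨⟨x, x6, x5, hx⟩, x', hx', y, h1, h2⟩
  · exact h1 (le6 (cj _ _ h2 hz))
  have m6 := cj _ _ hx hz
  have s5 := all_L (k := 6) (p := fun x => x ∉ L 5 → lk (e 2187) x ∉ L 4) (by decide +kernel) x x6 x5
  have x5' := comm_L (by norm_num) x6 (e 2187)
  have m5 := lk_mem m6 (e 2187)
  have s4 := all_L (k := 5) (p := fun x => x ∉ L 4 → lk (e 6561) x ∉ L 3) (by decide +kernel) _ x5' s5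
  have x4' := comm_L (by norm_num) x5' (e 6561)
  have m4 := lk_mem m5 (e 6561)
  obtain ⟨x3', s3⟩ := all_L (k := 5) (p := fun x => x ∉ L 4 → lk (e 2187) x ∈ L 3 ∧ lk (e 2187) x ∉ L 2)
    (by decide +kernel) _ x5' s5
  have m3 := lk_mem m5 (e 2187)
  have s2 := all_L (k := 3) (p := fun x => x ∉ L 2 → lk (e 6561) x ∉ L 1) (by decide +kernel) _ x3' s3
  have x2' := comm_L (by norm_num) x3' (e 6561)
  have m2 := lk_mem m3 (e 6561)
  have l1 : L 1 ≤ Y := L_succ_le (by norm_num) (L_zero ▸ bot_le) hz (by decide) (by decide)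
  exact h1 (le6 (cj _ _ h2 (L_succ_le (by norm_num) (L_succ_le (by norm_num) (L_succ_le (by norm_num)
    (L_succ_le (by norm_num) (L_succ_le (by norm_num) l1 m2 x2' s2) m3 x3' s3) m4 x4' s4) m5 x5' s5) m6 x6 x5 hx')))

end CL.C3
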