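/-
Saturated fusion systems on `CL.C3.G`: essential subgroups which leave the second centre invariant.
-/
import Cfsg.Agent.Fus.C3I

set_option autoImplicit false
set_option Elab.async false

namespace CL.C3

open Subgroup Cfsg Cfsg.FusionSystem CL.Fus

attribute [local irreducible] mul inv

namespace L2x

open Ih

variable {F : FS} {A : Subgroup G}

theorem chain_iv (l : List (Subgroup G)) (hI : ∀ f, Au F A f → ∀ K ∈ l, Iv f K) :
    ∀ f, Mor F A f → Iv f A → ∀ i, ∀ x ∈ A, x ∈ (⊥ :: l).getD i ⊤ → f x ∈ (⊥ :: l).getD i ⊤ := by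
  intro f hf hA i x _ hx
  rcases i with _ | i
  · exact iv_bot hf x hx
  · rw [List.getD_cons_succ] at hx ⊢
    by_cases hi : i < l.length
    · rw [List.getD_eq_getElem _ _ hi] at hx ⊢
      exact hI f ⟨hf, hA⟩ _ (List.getElem_mem hi) x hx
    · rw [List.getD_eq_default _ _ (not_lt.1 hi)]
      exact mem_top _

theorem killL (hA : F.IsEssential 3 A) (l : List (Subgroup G)) (hI : ∀ f, Au F A f → ∀ K ∈ l, Iv f K) {a : G}
    (ha : a ∈ normalizer (A : Set G))
    (h : ∀ i < l.length + 1, ∀ x ∈ A, x ∈ (⊥ :: l).getD (i + 1) ⊤ → lk x a ∈ (⊥ :: l).getD i ⊤) : a ∈ A :=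
  kill hA (l.length + 1) (fun i => (⊥ :: l).getD i ⊤) rfl
    (by simp) (chain_iv l hI) ha fun i hi x hx hx' => h i hi _ (inv_mem hx) (inv_mem hx')

theorem killL_le (hA : F.IsEssential 3 A) (l : List (Subgroup G)) (hI : ∀ f, Au F A f → ∀ K ∈ l, Iv f K)
    (N : Subgroup G) [N.Normal] (h : ∀ a ∈ N, a ∈ normalizer (A : Set G) →
      ∀ i < l.length + 1, ∀ x ∈ A, x ∈ (⊥ :: l).getD (i + 1) ⊤ → lk x a ∈ (⊥ :: l).getD i ⊤) : N ≤ A :=
  kill_le hA (l.length + 1) (fun i => (⊥ :: l).getD i ⊤) rfl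
    (by simp) (chain_iv l hI) fun a ha ha' i hi x hx hx' => h a ha ha' i hi _ (inv_mem hx) (inv_mem hx')

theorem lk_nrm {x a : G} (hx : x ∈ A) (ha : a ∈ normalizer (A : Set G)) : lk x a ∈ A := by
  have := mul_mem hx (conj_mem_of_mem_normalizer ha (inv_mem hx))
  convert this using 1; simp only [lk]; group

theorem nrm_of_lk {a : G} (h : ∀ x ∈ A, lk x a ∈ A) : a ∈ normalizer (A : Set G) :=
  mem_normalizer_of_finite fun x hx => by
    have := mul_mem hx (h _ (inv_mem hx))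
    convert this using 1; simp only [lk]; group

theorem lk_bot {x a : G} (h : x * a = a * x) : lk x a ∈ (⊥ : Subgroup G) := by
  rw [mem_bot, lk, h]; group

theorem of_lk_bot {x a : G} (h : lk x a ∈ (⊥ : Subgroup G)) : x * a = a * x := by
  rwa [mem_bot, mul_inv_eq_one, mul_inv_eq_iff_eq_mul] at h

def lR6 : List ℕ := [1, 3, 9, 27, 81, 0, 729, 0, 0]
instance okR6 : Fact (okE lR6 = true) := ⟨by decide +kernel⟩

theorem g4 {x a : G} (ha : a ∈ L 4) : lk x a ∈ L 2 :=
  comm_of_gens (ech_L (k := 9) le_rfl) (ech_L (by norm_num)) (by decide +kernel) x.lt ha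

theorem g83 {x a : G} (hx : x ∈ L 8) (ha : a ∈ L 3) : lk x a ∈ (⊥ : Subgroup G) :=
  L_zero ▸ comm_of_gens (ech_L (by norm_num)) (ech_L (by norm_num)) (by decide +kernel) hx ha

theorem g85 {x a : G} (hx : x ∈ L 8) (ha : a ∈ L 5) : lk x a ∈ L 3 :=
  comm_of_gens (ech_L (by norm_num)) (ech_L (by norm_num)) (by decide +kernel) hx ha

theorem gRR {x a : G} (hx : x ∈ RR) (ha : a ∈ RR) : lk x a ∈ L 3 :=
  comm_of_gens (ech_PS lR) (ech_PS lR) (by decide +kernel) hx ha

theorem gR5R {x a : G} (hx : x ∈ R5) (ha : a ∈ RR) : lk x a ∈ L 2 :=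
  comm_of_gens (ech_PS lR5) (ech_PS lR) (by decide +kernel) hx ha

theorem gR6 {x : G} (hx : x ∈ PS lR6) (a : G) : lk x a ∈ L 4 :=
  comm_of_gens (ech_PS lR6) (ech_L (k := 9) le_rfl) (by decide +kernel) hx a.lt

theorem gR5a {x : G} (hx : x ∈ R5) : lk x (e 6561) ∈ L 3 :=
  lk_of_gens (ech_PS lR5) le_normalizer_of_normal (by decide +kernel) hx

theorem gRa {x : G} (hx : x ∈ RR) : lk x (e 6561) ∈ R5 :=
  lk_of_gens (ech_PS lR) le_normalizer_of_normal (by decide +kernel) hx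

theorem R_L8 : RR ≤ L 8 := (ech_PS lR).le (by decide +kernel)
theorem R5_R : R5 ≤ RR := (ech_PS lR5).le (by decide +kernel)
theorem R6_R : PS lR6 ≤ RR := (ech_PS lR6).le (by decide +kernel)
theorem L4_R5 : L 4 ≤ R5 := L_le (by norm_num) (by decide +kernel)
theorem L5_R6 : L 5 ≤ PS lR6 := L_le (by norm_num) (by decide +kernel)

theorem c27 {x : G} (h : x ∈ C (e 27)) (h8 : x ∈ L 8) : x ∈ L 6 :=
  ((ech_rep (r := 27) (by decide)).inf_L 8).le (H := L 6) (by decide +kernel) ⟨h, h8⟩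

theorem cJ {x y : G} (hy : y ∈ L 6) (hy' : y ∉ L 3) (h8 : x ∈ L 8) (h : x ∈ C y) : x ∈ L 6 := by
  by_contra h6
  have h1 := all_hi (p := fun w => w ∈ L 8 → w ∉ L 6 →
    allW (3 ^ 6) (fun n => decide (e n ∉ L 3 → w ∉ C (e n))) = true) (by decide +kernel) x
    ((hi_mem_L (by norm_num)).2 h8) (mt (hi_mem_L (by norm_num)).1 h6)
  exact all_L (p := fun y => y ∉ L 3 → hi x ∉ C y) h1 y hy hy'
    ((hi_mem fun b hb => mem_C.2 (J_comm (L_mono (by norm_num) hb) hy)).2 h)

theorem top_gen (g : G) : hi g ∉ L 8 → ∃ y ∈ [6561, 6804, 7047], (e y)⁻¹ * hi g ∈ RR ∨ e y * hi g ∈ RR :=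
  all_hi (p := fun w => w ∉ L 8 → ∃ y ∈ [6561, 6804, 7047], (e y)⁻¹ * w ∈ RR ∨ e y * w ∈ RR) (by decide +kernel) g

theorem d4 : ∀ y ∈ [6804, 7047], ∀ x ∈ R5, lk x (e y) ∈ L 3 → x ∈ L 4 := fun y hy =>
  (ech_PS lR5).all ((by decide +kernel : ∀ y ∈ [6804, 7047],
    go lR5 (fun n => decide (lk (e n) (e y) ∈ L 3 → e n ∈ L 4)) 9 0 = true) y hy)

theorem d6 {y : ℕ} (hy : y ∈ [6804, 7047]) {x : G} (hx : x ∈ RR) (h : lk x (e y) ∈ L 4) : x ∈ PS lR6 :=
  (hi_mem L5_R6).1 (all_hi (p := fun w => ∀ y ∈ [6804, 7047], w ∈ RR → w ∈ CM 4 (e y) → w ∈ PS lR6)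
    (by decide +kernel) x y hy ((hi_mem L5_RR).2 hx) ((hi_mem (L_le_CM (by norm_num) _)).2 (mem_CM.2 h)))

theorem ord3 : ∀ x ∈ L 8, x * x * x = 1 → x ∈ L 6 ∨ x ∈ RR := all_L (by decide +kernel)

theorem L5_CM3 {m : G} (hm : m ∈ L 8) : L 5 ≤ CM 3 m := fun _ hx => CM_symm (mem_CM.2 (g85 hm hx))

theorem d5 {g h : G} (hg : g ∈ RR) (h8 : h ∈ L 8) (hR : h ∉ RR) (hc : lk g h ∈ L 3) : g ∈ L 5 := by
  have h1 : hi g ∈ RR := (hi_mem L5_RR).2 hg
  have h2 := all_hi (p := fun w => w ∈ RR → allB 81 (fun n => decide (e (243 * n) ∈ L 8 → e (243 * n) ∉ RR →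
    e (243 * n) ∈ CM 3 w → w ∈ L 5)) = true) (by decide +kernel) g h1
  exact (hi_mem_L le_rfl).1 (all_hi (p := fun v => v ∈ L 8 → v ∉ RR → v ∈ CM 3 (hi g) → hi g ∈ L 5) h2 h
    ((hi_mem_L (by norm_num)).2 h8) (mt (hi_mem L5_RR).1 hR)
    ((hi_mem (L5_CM3 (R_L8 h1))).2 (CM_symm ((hi_mem (L5_CM3 h8)).2 (mem_CM.2 hc)))))

theorem J_of_c (h5 : L 5 ≤ A) (hc : e 243 ∈ A) : L 6 ≤ A :=
  L_succ_le (by norm_num) h5 hc (by decide) (by decide)

theorem c_nrm (h5 : L 5 ≤ A) : e 243 ∈ normalizer (A : Set G) :=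
  nrm_of_lk fun x _ => h5 (comm_L (by norm_num) (by decide) x)

end L2x

open L2x Ih in
theorem stL2 : StL2 := by
  intro F _ hZ A hA h2 i2
  have h4 : L 4 ≤ A := killL_le hA [L 2] (fun f hf K hK => by rw [List.mem_singleton.1 hK]; exact i2 f hf) (L 4)
    fun a ha _ i hi x _ hx' => by
      simp only [List.length_singleton] at hi
      interval_cases i
      · exact lk_bot (J_comm (L_mono (by norm_num) hx') (L_mono (by norm_num) ha))
      · exact g4 ha
  have h3 : L 3 ≤ A := (L_mono (by norm_num)).trans h4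
  have iA1 : ∀ f, Au F A f → Iv f (A ⊓ L 8) := fun f hf =>
    iv_cm hf.1 h2 le_rfl (i2 f hf) hf.2 (iv_bot hf.1) inf_le_left
      (fun x hx m hm => g83 hx.2 (L_mono (by norm_num) hm))
      fun x hx h => ⟨hx, c8 (mem_CM.2 (L_zero ▸ h (e 3) (by decide)))⟩
  have top : ∀ a ∈ L 8, a ∈ normalizer (A : Set G) → ∀ x ∈ A, lk x a ∈ A ⊓ L 8 := fun a ha ha' x hx =>
    ⟨lk_nrm hx ha', lk_mem ha x⟩
  by_cases hY : ∃ y ∈ A ⊓ L 8, y ∉ L 3 ∧ ∀ m ∈ A ⊓ L 8, lk y m ∈ (⊥ : Subgroup G)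
  · obtain ⟨y, hy, hy3, hc⟩ := hY
    have y6 : y ∈ L 6 := c27 (mem_C.2 (of_lk_bot (hc _ ⟨h4 (by decide), show e 27 ∈ L 8 by decide⟩))) hy.2
    have a6 : ∀ x ∈ A ⊓ L 8, x ∈ L 6 := fun x hx => cJ y6 hy3 hx.2 (mem_C.2 (of_lk_bot (hc x hx)).symm)
    refine .inl (killL_le hA [A ⊓ L 8] (fun f hf K hK => by rw [List.mem_singleton.1 hK]; exact iA1 f hf) (L 6)
      fun a ha ha' i hi x hx hx' => ?_)
    simp only [List.length_singleton] at hi
    interval_cases i
    · exact lk_bot (J_comm (a6 x hx') ha)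
    · exact top a (L_mono (by norm_num) ha) ha' x hx
  have i3 : ∀ f, Au F A f → Iv f (L 3) := fun f hf =>
    iv_cm hf.1 inf_le_left inf_le_left (iA1 f hf) (iA1 f hf) (iv_bot hf.1) (le_inf h3 (L_mono (by norm_num)))
      (fun x hx m hm => lk_symm (g83 hm.2 hx)) fun x hx h => by
        by_contra k
        exact hY ⟨x, hx, k, h⟩
  have iC : ∀ f, Au F A f → ∀ K ∈ [L 3, A ⊓ L 8], Iv f K := fun f hf K hK => by
    simp only [List.mem_cons, List.not_mem_nil, or_false] at hK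
    rcases hK with rfl | rfl
    exacts [i3 f hf, iA1 f hf]
  have h5 : L 5 ≤ A := killL_le hA [L 3, A ⊓ L 8] iC (L 5) fun a ha ha' i hi x hx hx' => by
    simp only [List.length_cons, List.length_nil] at hi
    interval_cases i
    · exact lk_bot (J_comm (L_mono (by norm_num) hx') (L_mono (by norm_num) ha))
    · exact g85 hx'.2 ha
    · exact top a (L_mono (by norm_num) ha) ha' x hx
  by_cases hR : A ⊓ L 8 ≤ RR
  · have hRA : RR ≤ A := killL_le hA [L 3, A ⊓ L 8] iC RR fun a ha ha' i hi x hx hx' => by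
      simp only [List.length_cons, List.length_nil] at hi
      interval_cases i
      · exact lk_symm (g83 (R_L8 ha) hx')
      · exact gRR (hR hx') ha
      · exact top a (R_L8 ha) ha' x hx
    have eR : A ⊓ L 8 = RR := le_antisymm hR (le_inf hRA R_L8)
    have iR : ∀ f, Au F A f → Iv f RR := fun f hf => eR ▸ iA1 f hf
    have iR5 : ∀ f, Au F A f → Iv f R5 := fun f hf =>
      iv_cm hf.1 hRA hRA (iR f hf) (iR f hf) (i2 f hf) R5_R (fun x hx m hm => gR5R hx hm) fun x hx H =>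
        cR5 x ⟨hx, z7 (mem_CM.2 (H _ (by decide +kernel)))⟩ (mem_CM.2 (H _ (by decide +kernel)))
    by_cases h8 : A ≤ L 8
    · exfalso
      have eA : A = RR := by rw [← eR, inf_eq_left.2 h8]
      have := killL hA [L 1, L 2, L 3, R5] (a := e 6561) (fun f hf K hK => by
        simp only [List.mem_cons, List.not_mem_nil, or_false] at hK
        rcases hK with rfl | rfl | rfl | rfl
        exacts [fun x hx => hZ A f hf.1 x (h2 (L_mono (by norm_num) hx)) hx, i2 f hf, i3 f hf, iR5 f hf])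
        (by rw [eA, normalizer_eq_top]; exact mem_top _) fun i hi x hx hx' => by
          simp only [List.length_cons, List.length_nil] at hi
          interval_cases i
          · exact lk_bot (L1_comm hx' _).symm
          · exact lk_symm (comm_L (by norm_num) hx' _)
          · exact lk_symm (comm_L (by norm_num) hx' _)
          · exact gR5a hx'
          · exact gRa (eA ▸ hx)
      exact absurd (h8 this) (by decide)
    obtain ⟨g, hg, hg8⟩ := SetLike.not_le_iff_exists.1 h8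
    obtain ⟨y, hy, hy'⟩ := top_gen g (mt (hi_mem_L (by norm_num)).1 hg8)
    have hg' : hi g ∈ A := (hi_mem h5).2 hg
    have yA : e y ∈ A := by
      rcases hy' with k | k
      · exact inv_mem_iff.1 ((mul_mem_cancel_right hg').1 (hRA k))
      · exact (mul_mem_cancel_right hg').1 (hRA k)
    rcases List.mem_cons.1 hy with rfl | hy
    · refine .inr (le_antisymm (fun x hx => ?_) ((ech_PS lE3).le fun k hk => ?_))
      · obtain ⟨d, -, r, hr, rfl⟩ := split (k := 8) (by norm_num) x.lt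
        have h1 : e (3 ^ 8) ^ d ∈ A := pow_mem yA d
        exact mul_mem (pow_mem (by decide +kernel) d)
          ((ech_PS lR).le (H := E3) (by decide +kernel) (hR ⟨(mul_mem_cancel_left h1).1 hx, hr⟩))
      · by_cases k8 : k = 8
        · subst k8; exact yA
        · exact hRA ((by decide +kernel : ∀ k < 9, k ≠ 8 → e (lE3.getD k 0) ∈ RR) k hk k8)
    have i4 : ∀ f, Au F A f → Iv f (L 4) := fun f hf =>
      iv_cm hf.1 le_rfl (R5_R.trans hRA) hf.2 (iR5 f hf) (i3 f hf) L4_R5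
        (fun x hx m _ => lk_symm (comm_L (by norm_num) hx m)) fun x hx H => d4 y hy x hx (H _ yA)
    have i6 : ∀ f, Au F A f → Iv f (PS lR6) := fun f hf =>
      iv_cm hf.1 le_rfl hRA hf.2 (iR f hf) (i4 f hf) R6_R (fun x hx m _ => gR6 hx m) fun x hx H => d6 hy hx (H _ yA)
    refine .inl (J_of_c h5 (killL hA [L 4, PS lR6] (fun f hf K hK => ?_) (c_nrm h5) fun i hi x hx hx' => ?_))
    · simp only [List.mem_cons, List.not_mem_nil, or_false] at hK
      rcases hK with rfl | rfl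
      exacts [i4 f hf, i6 f hf]
    · simp only [List.length_cons, List.length_nil] at hi
      interval_cases i
      · exact lk_bot (J_comm (L_mono (by norm_num) hx') (by decide))
      · exact gR6 hx' _
      · exact L5_R6 (comm_L (by norm_num) (by decide) x)
  obtain ⟨h, hh, hhR⟩ := SetLike.not_le_iff_exists.1 hR
  refine .inl (by_contra fun h6 => h6 (J_of_c h5 (killL hA [L 5] (fun f hf K hK => ?_) (c_nrm h5)
    fun i hi x hx hx' => ?_)))
  · rw [List.mem_singleton.1 hK]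
    intro g hg
    have g1 : g ∈ A ⊓ L 8 := ⟨h5 hg, L_mono (by norm_num) hg⟩
    have g2 := iA1 f hf g g1
    have g3 := map_cube hf.1 g1.1 (A_cube g (L_mono (by norm_num) hg))
    have gR : f g ∈ RR := by
      by_contra k
      rcases ord3 _ g2.2 (by rwa [← pow_three']) with k' | k'
      · exact h6 (L_succ_le (by norm_num) h5 g2.1 k' fun k5 => k (L5_RR k5))
      · exact k k'
    exact d5 gR hh.2 hhR (iv_lk hf.1 inf_le_left (iA1 f hf) (i3 f hf) g1.1 (fun m hm => lk_symm (g85 hm.2 hg)) hh)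
  · simp only [List.length_singleton] at hi
    interval_cases i
    · exact lk_bot (J_comm (L_mono (by norm_num) hx') (by decide))
    · exact comm_L (by norm_num) (by decide) x

end CL.C3
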