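/-
Saturated fusion systems on `CL.C3.G`: centralisers modulo the centre as essential subgroups.
-/
import Cfsg.Agent.Fus.C3L2

set_option autoImplicit false
set_option Elab.async false

namespace CL.C3

open Subgroup Cfsg Cfsg.FusionSystem CL.Fus

attribute [local irreducible] mul inv

namespace L1x

open L2x Ih

theorem split_cm {r w g : G} (hw : w ∈ CM 1 r) (hw' : w ∉ C r) (hg : g ∈ CM 1 r) :
    g ∈ C r ∨ g * w ∈ C r ∨ g * w⁻¹ ∈ C r := by
  have key : ∀ a : G, lk a r = 1 → a ∈ C r := fun a h => mem_C.2 (of_lk_bot (mem_bot.2 h))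
  have h1 : lk w r ∈ L 1 := mem_CM.1 hw
  have h2 : lk g r ∈ L 1 := mem_CM.1 hg
  have e1 : lk (g * w) r = lk w r * lk g r := by
    rw [← L1_conj h1 g]; simp only [lk]; group
  have e2 : lk (g * w⁻¹) r = (lk w r)⁻¹ * lk g r := by
    rw [← L1_conj (inv_mem h1) (g * w⁻¹)]; simp only [lk]; group
  rcases L1_cases _ h1 with a | a | a
  · exact absurd (key w a) hw'
  · rcases L1_cases _ h2 with b | b | b
    · exact .inl (key g b)
    · exact .inr (.inr (key _ (by rw [e2, a, b, inv_mul_cancel])))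
    · exact .inr (.inl (key _ (by rw [e1, a, b, mul_inv_cancel])))
  · rcases L1_cases _ h2 with b | b | b
    · exact .inl (key g b)
    · exact .inr (.inl (key _ (by rw [e1, a, b, inv_mul_cancel])))
    · exact .inr (.inr (key _ (by rw [e2, a, b, inv_inv, mul_inv_cancel])))

/-- echelon generators of the centralisers modulo the centre -/
def EA (r : ℕ) : List ℕ :=
  (List.lookup r [
    (729, [1, 3, 9, 27, 0, 0, 729, 2187, 6561]),
    (738, [1, 3, 9, 27, 0, 0, 729, 2187, 6642]),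
    (747, [1, 3, 9, 27, 0, 0, 729, 2187, 6723]),
    (810, [1, 3, 9, 27, 0, 0, 810, 0, 6804]),
    (891, [1, 3, 9, 27, 0, 0, 891, 0, 7047]),
    (2214, [1, 3, 9, 0, 0, 0, 729, 2214, 0]),
    (2241, [1, 3, 9, 0, 0, 0, 729, 2241, 0]),
    (6561, [1, 3, 0, 27, 0, 243, 729, 0, 6561]),
    (6642, [1, 3, 0, 27, 0, 243, 738, 0, 6642]),
    (6723, [1, 3, 0, 27, 0, 243, 747, 0, 6723]),
    (6804, [1, 3, 0, 27, 0, 243, 810, 0, 6561]),
    (6885, [1, 3, 0, 27, 0, 243, 819, 0, 6642]),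
    (6966, [1, 3, 0, 27, 0, 243, 828, 0, 6723]),
    (7047, [1, 3, 0, 27, 0, 243, 891, 0, 6561]),
    (7128, [1, 3, 0, 27, 0, 243, 900, 0, 6642]),
    (7209, [1, 3, 0, 27, 0, 243, 909, 0, 6723]),
    (8748, [1, 3, 0, 45, 0, 0, 729, 0, 8748]),
    (10935, [1, 3, 0, 36, 0, 0, 729, 0, 10935])]).getD []

def wA (r : ℕ) : ℕ := if r < 2000 then 27 else if r < 6000 then 729 else 3

def R4 : List ℕ := [6561, 6642, 6723, 6804, 6885, 6966, 7047, 7128, 7209]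

def RW : List ℕ := [729, 738, 747, 810, 891, 2214, 2241, 8748, 10935] ++ R4

theorem dataA : ∀ r ∈ RW, r ∈ RP ∧ okE (EA r) = true ∧ (∀ k < 9, e ((EA r).getD k 0) ∈ CM 1 (e r)) ∧
    (∀ k < 9, mb (EA r) 9 (e ((EE r).getD k 0)).v = true) ∧ mb (EA r) 9 (e (wA r)).v = true ∧ e (wA r) ∉ C (e r) := by
  decide +kernel

theorem echA {r : ℕ} (hr : r ∈ RW) : Ech (CM 1 (e r)) (EA r) := by
  obtain ⟨h1, h2, h3, h4, h5, h6⟩ := dataA r hr
  have : Fact (okE (EA r) = true) := ⟨h2⟩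
  have a1 : PS (EA r) ≤ CM 1 (e r) := (ech_PS _).le h3
  have a2 : C (e r) ≤ PS (EA r) := (ech_rep h1).le fun k hk => mem_PS.2 (h4 k hk)
  have a3 : e (wA r) ∈ PS (EA r) := mem_PS.2 h5
  have : CM 1 (e r) = PS (EA r) := le_antisymm (fun g hg => by
    rcases split_cm (a1 a3) h6 hg with k | k | k
    · exact a2 k
    · exact (mul_mem_cancel_right a3).1 (a2 k)
    · exact (mul_mem_cancel_right (inv_mem a3)).1 (a2 k)) a1
  rw [this]
  exact ech_PS _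

theorem eqB {r : ℕ} (hr : r ∈ [2187, 2188, 2189]) : CM 1 (e r) = BB := by
  refine le_antisymm (fun g hg => ?_) ((ech_PS lB).le
    ((by decide +kernel : ∀ r ∈ [2187, 2188, 2189], ∀ k < 9, e (lB.getD k 0) ∈ CM 1 (e r)) r hr))
  have h1 : g ∈ RR := (hi_mem L5_RR).1 (all_hi (p := fun w => ∀ r ∈ [2187, 2188, 2189], w ∈ CM 4 (e r) → w ∈ RR)
    (by decide +kernel) g r hr ((hi_mem (L_le_CM (by norm_num) _)).2 (CM_mono (by norm_num) hg)))
  have h2 : g ∈ CM 1 (e 2187) := by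
    have k1 : (e 2187)⁻¹ * e r ∈ L 1 := (by decide +kernel : ∀ r ∈ [2187, 2188, 2189], (e 2187)⁻¹ * e r ∈ L 1) r hr
    have k2 : e r ∈ CM 1 g := CM_symm hg
    have k3 : (e 2187)⁻¹ * e r ∈ CM 1 g := L_le_CM (by norm_num) g (L_mono (by norm_num) k1)
    exact CM_symm (inv_mem_iff.1 ((mul_mem_cancel_right k2).1 k3))
  exact (ech_PS lR).all (p := fun g => g ∈ CM 1 (e 2187) → g ∈ BB) (by decide +kernel) g h1 h2

theorem cx8 {x y : G} (hx : x ∈ L 2) (hx' : x ∉ L 1) (h : y ∈ C x) : y ∈ L 8 := by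
  have h1 := all_hi (p := fun w => allW (3 ^ 2) (fun n => decide (e n ∉ L 1 → w ∈ C (e n) → w ∈ L 8)) = true)
    (by decide +kernel) y
  exact (hi_mem_L (by norm_num)).1 (all_L (p := fun x => x ∉ L 1 → hi y ∈ C x → hi y ∈ L 8) h1 x hx hx'
    ((hi_mem fun b hb => mem_C.2 (A_comm hb (L_mono (by norm_num) hx))).2 h))

theorem cases_r : ∀ r ∈ RP, e r ∉ L 6 → r ∈ [729, 738, 747] ∨ r ∈ [810, 891] ∨ r ∈ [2187, 2188, 2189] ∨
    r ∈ [2214, 2241] ∨ r ∈ R4 ∨ r ∈ [8748, 10935] := by decide +kernel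

theorem data1 : ∀ r ∈ [729, 738, 747], r ∈ RW ∧ (EA r).take 8 = [1, 3, 9, 27, 0, 0, 729, 2187] ∧
    ∃ y ∈ [6579, 6687, 6795], e y ∈ C (e r) ∧ e y ∈ CM 1 (e r) ∧ e y ^ 3 ≠ 1 := by decide +kernel

theorem exp3 : go [1, 3, 9, 27, 0, 0, 729, 2187] (fun n => decide (e n * e n * e n = 1)) 9 0 = true := by
  decide +kernel

theorem data2 : ∀ r ∈ [810, 891], r ∈ RW ∧ (∀ i < 9, ∀ j < 9, e ((EA r).getD i 0) ∈ CM 2 (e ((EA r).getD j 0))) ∧
    lk (e ((EA r).getD 8 0)) (e ((EA r).getD 2 0)) = e 4 := by decide +kernel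

theorem data3 : ∀ r ∈ [2214, 2241], r ∈ RW ∧ (∀ i < 9, e ((EA r).getD i 0) ∈ L 8) ∧ e 729 ∈ CM 1 (e r) ∧
    e 729 ∉ C (e r) := by decide +kernel

def lK : List ℕ := [1, 0, 0, 28, 0, 0, 0, 0, 0]
instance okK : Fact (okE lK = true) := ⟨by decide +kernel⟩
def lZ (r : ℕ) : List ℕ := [1, 3, 0, 27, 0, 0, 0, 0, r]
def tt (r : ℕ) : ℕ := if r = 6561 then 162 else if r = 6804 ∨ r = 7047 then 8019 else 6561

theorem data4 : ∀ r ∈ R4, r ∈ RW ∧ okE (lZ r) = true ∧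
    (∀ i < 9, ∀ j < 9, e ((EA r).getD i 0) * e (lK.getD j 0) * (e ((EA r).getD i 0))⁻¹ ∈ PS lK) ∧
    (∀ i < 9, ∀ j < 9,
      mb (lZ r) 9 (e ((EA r).getD i 0) * e ((lZ r).getD j 0) * (e ((EA r).getD i 0))⁻¹).v = true) ∧
    (∀ i < 9, ∀ j < 9, lk (e ((EA r).getD i 0)) (e ((EA r).getD j 0)) ∈ PS lK) ∧
    lk (e ((EA r).getD 6 0)) (e ((EA r).getD 5 0)) = e 28 ∧
    (∀ i < 9, e (lK.getD i 0) ∈ CM 1 (e r)) ∧ (∀ i < 9, e ((lZ r).getD i 0) ∈ CM 1 (e r)) ∧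
    (∀ i < 9, ∀ j < 9, e ((lZ r).getD i 0) ∈ CM 1 (e ((EA r).getD j 0))) := by decide +kernel

theorem data4' : ∀ r ∈ R4, (∀ j < 9, e (tt r) * e ((EA r).getD j 0) * (e (tt r))⁻¹ ∈ CM 1 (e r)) ∧
    e (tt r) ∉ CM 1 (e r) ∧ (∀ j < 9, lk (e (lK.getD j 0)) (e (tt r)) ∈ L 1) ∧
    (∀ j < 9, lk (e ((lZ r).getD j 0)) (e (tt r)) ∈ PS lK) ∧
    (∀ j < 9, mb (lZ r) 9 (lk (e ((EA r).getD j 0)) (e (tt r))).v = true) := by decide +kernel

theorem data4'' : ∀ r ∈ R4, go (EA r) (fun n => decide (e n ∈ CM 1 (e ((EA r).getD 5 0)) →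
    e n ∈ CM 1 (e ((EA r).getD 6 0)) → mb (lZ r) 9 (e n).v = true)) 9 0 = true := by decide +kernel

theorem no4 {F : FS} (hZ : ZI F) {r : ℕ} (hr : r ∈ R4) : ¬ F.IsEssential 3 (CM 1 (e r)) := fun hA => by
  obtain ⟨h1, h2, a1, a2, a3, a4, a5, a6, a7⟩ := data4 r hr
  obtain ⟨b1, b2, b3, b4, b5⟩ := data4' r hr
  have : Fact (okE (lZ r) = true) := ⟨h2⟩
  have eA := echA h1
  have nK := le_nrm_of_gens eA (ech_PS lK) a1
  have nZ := le_nrm_of_gens eA (ech_PS (lZ r)) fun i hi j hj => mem_PS.2 (a2 i hi j hj)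
  have KA : PS lK ≤ CM 1 (e r) := (ech_PS lK).le a5
  have ZA : PS (lZ r) ≤ CM 1 (e r) := (ech_PS (lZ r)).le a6
  have l1 : L 1 ≤ PS lK := L_le (by norm_num) (by decide +kernel)
  refine b2 (killL hA [L 1, PS lK, PS (lZ r)] (fun f hf K hK => ?_) (nrm_of_gens eA b1) fun i hi x hx hx' => ?_)
  · have i1 : Iv f (L 1) := fun x hx => hZ _ f hf.1 x (KA (l1 hx)) hx
    simp only [List.mem_cons, List.not_mem_nil, or_false] at hK
    rcases hK with rfl | rfl | rfl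
    · exact i1
    · refine iv_gens hf.1 (ech_PS lK) KA fun k hk => ?_
      rcases (by decide : ∀ k < 9, lK.getD k 0 = 0 ∨ lK.getD k 0 = 1 ∨ lK.getD k 0 = 28) k hk with k0 | k0 | k0 <;>
        rw [k0]
      · rw [e_zero, hf.1.homOn.map_one]; exact one_mem _
      · exact l1 (i1 _ (by decide))
      · rw [← a4]
        exact iv_lo hf.1 le_rfl le_rfl hf.2 hf.2 (fun m hm n hn => lk_of_gens2 eA eA nK nK a3 hm hn)
          (eA.mem (by norm_num)) (eA.mem (by norm_num))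
    · exact iv_cm hf.1 le_rfl le_rfl hf.2 hf.2 i1 ZA (fun x hx m hm => comm_of_gens (ech_PS _) eA a7 hx hm)
        fun x hx H => mem_PS.2 (eA.all (p := fun y => y ∈ CM 1 (e ((EA r).getD 5 0)) →
          y ∈ CM 1 (e ((EA r).getD 6 0)) → mb (lZ r) 9 y.v = true) (data4'' r hr) x hx
          (mem_CM.2 (H _ (eA.mem (by norm_num)))) (mem_CM.2 (H _ (eA.mem (by norm_num)))))
  · simp only [List.length_cons, List.length_nil] at hi
    interval_cases i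
    · exact lk_bot (L1_comm hx' _).symm
    · exact lk_of_gens (ech_PS lK) le_normalizer_of_normal b3 hx'
    · exact lk_of_gens (ech_PS (lZ r)) (ZA.trans nK) b4 hx'
    · exact lk_of_gens eA nZ (fun j hj => mem_PS.2 (b5 j hj)) hx

def uu (r : ℕ) : ℕ := if r = 8748 then 99 else 90
def lC (r : ℕ) : List ℕ := [1, 0, 0, if r = 8748 then 48 else 42, 0, 0, 0, 0, 0]
def lW (r : ℕ) : List ℕ := [1, 0, 0, if r = 8748 then 48 else 42, 0, 0, 0, 0, r]
def lD (r : ℕ) : List ℕ := [1, 3, 0, if r = 8748 then 45 else 36, 0, 0, 0, 0, r]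

theorem data5 : ∀ r ∈ [8748, 10935], r ∈ RW ∧ okE (lC r) = true ∧ okE (lW r) = true ∧ okE (lD r) = true ∧
    (∀ i < 9, ∀ j < 9,
      mb (lC r) 9 (e ((EA r).getD i 0) * e ((lC r).getD j 0) * (e ((EA r).getD i 0))⁻¹).v = true) ∧
    (∀ i < 9, ∀ j < 9,
      mb (lW r) 9 (e ((EA r).getD i 0) * e ((lW r).getD j 0) * (e ((EA r).getD i 0))⁻¹).v = true) ∧
    (∀ i < 9, ∀ j < 9,
      mb (lD r) 9 (e ((EA r).getD i 0) * e ((lD r).getD j 0) * (e ((EA r).getD i 0))⁻¹).v = true) ∧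
    mb (lC r) 9 (e 1).v = true ∧ (∀ j < 9, mb (lW r) 9 (e ((lC r).getD j 0)).v = true) ∧
    (∀ j < 9, mb (lD r) 9 (e ((lW r).getD j 0)).v = true) ∧ (∀ j < 9, e ((lD r).getD j 0) ∈ CM 1 (e r)) ∧
    (∀ j < 9, e ((lW r).getD j 0) ∈ C (e r)) ∧ mb (lW r) 9 (e r).v = true := by decide +kernel

theorem data5' : ∀ r ∈ [8748, 10935], (∀ j < 9, e (uu r) * e ((EA r).getD j 0) * (e (uu r))⁻¹ ∈ CM 1 (e r)) ∧
    e (uu r) ∉ CM 1 (e r) ∧ (∀ j < 9, e 9 * e ((EA r).getD j 0) * (e 9)⁻¹ ∈ CM 1 (e r)) ∧ e 9 ∉ CM 1 (e r) ∧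
    (∀ j < 9, lk (e ((lC r).getD j 0)) (e (uu r)) ∈ L 1) ∧
    (∀ j < 9, mb (lC r) 9 (lk (e ((lW r).getD j 0)) (e (uu r))).v = true) ∧
    (∀ j < 9, mb (lW r) 9 (lk (e ((lD r).getD j 0)) (e (uu r))).v = true) ∧
    (∀ j < 9, mb (lD r) 9 (lk (e ((EA r).getD j 0)) (e (uu r))).v = true) := by decide +kernel

end L1x

open L1x L2x Ih in
theorem stL1 (h : StB0) : StL1 := by
  intro F hF hZ r hr h6 hA α hα x hx hfx
  have := Fact.mk Nat.prime_three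
  have hf := au_autFun hα
  have l2 : L 2 ≤ CM 1 (e r) := L_le_CM (by norm_num) _
  have xA := l2 hx
  have i1 : Iv (autFun α) (L 1) := fun x hx => hZ _ _ hf.1 x (l2 (L_mono (by norm_num) hx)) hx
  have rm : ∀ H : Subgroup G, autFun α x ∈ H ↔ e r ∈ H := fun H => by
    rcases hfx with k | k <;> rw [k]
    exact inv_mem_iff
  have rc : C (autFun α x) = C (e r) := by
    rcases hfx with k | k <;> rw [k]
    exact C_inv _
  have x1 : x ∉ L 1 := fun k => h6 (L_mono (by norm_num) ((rm _).1 (i1 x k)))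
  have c8 : ∀ y ∈ CM 1 (e r), autFun α y ∈ C (e r) ↔ y ∈ L 8 := fun y hy => by
    rw [← rc, mem_C, map_comm hf.1 hy xA]
    exact ⟨fun k => cx8 hx x1 (mem_C.2 k), fun k => of_lk_bot (g83 k (L_mono (by norm_num) hx))⟩
  have m2 : ∀ H : Subgroup G, L 1 ≤ H → ∀ y ∈ L 2, y ∉ L 1 → autFun α y ∈ H → ∀ z ∈ L 2, autFun α z ∈ H :=
    fun H h1 y hy hy' k z hz => ((mem_pre hf.1).1 (L_succ_le (k := 1) (by norm_num) (H := pre hf.1 H)
      (fun a ha => (mem_pre hf.1).2 ⟨l2 (L_mono (by norm_num) ha), h1 (i1 a ha)⟩)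
      ((mem_pre hf.1).2 ⟨l2 hy, k⟩) hy hy' hz)).2
  rcases cases_r r hr h6 with k | k | k | k | k | k
  · exfalso
    obtain ⟨a1, a2, y, -, a3, a4, a5⟩ := data1 r k
    obtain ⟨y', hy', e1⟩ := onto hf.1 le_rfl hf.2 a4
    have eB := (echA a1).inf_L 8
    rw [a2] at eB
    have := eB.all (p := fun y => y * y * y = 1) exp3 y' ⟨hy', (c8 y' hy').1 (e1 ▸ a3)⟩
    exact a5 (e1 ▸ map_cube hf.1 hy' (by rwa [pow_three']))
  · exfalso
    obtain ⟨a1, a2, a3⟩ := data2 r k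
    have eA := echA a1
    refine h6 (L_mono (by norm_num) ((rm _).1 (m2 (L 2) (L_mono (by norm_num)) (e 4) (by decide) (by decide) ?_ x hx)))
    rw [← a3]
    exact iv_lo hf.1 le_rfl le_rfl hf.2 hf.2 (fun m hm n hn => comm_of_gens eA eA a2 hm hn)
      (eA.mem (by norm_num)) (eA.mem (by norm_num))
  · exact absurd (eqB k ▸ hA) (h F hF)
  · exfalso
    obtain ⟨a1, a2, a3, a4⟩ := data3 r k
    obtain ⟨y', hy', e1⟩ := onto hf.1 le_rfl hf.2 a3
    exact a4 (e1 ▸ (c8 y' hy').2 ((echA a1).le a2 hy'))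
  · exact absurd hA (no4 hZ k)
  obtain ⟨a1, o1, o2, o3, n1, n2, n3, s0, s1, s2, s3, s4, s5⟩ := data5 r k
  obtain ⟨b1, b2, b3, b4, b5, b6, b7, b8⟩ := data5' r k
  have : Fact (okE (lC r) = true) := ⟨o1⟩
  have : Fact (okE (lW r) = true) := ⟨o2⟩
  have : Fact (okE (lD r) = true) := ⟨o3⟩
  have eA := echA a1
  have nC := le_nrm_of_gens eA (ech_PS (lC r)) fun i hi j hj => mem_PS.2 (n1 i hi j hj)
  have nW := le_nrm_of_gens eA (ech_PS (lW r)) fun i hi j hj => mem_PS.2 (n2 i hi j hj)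
  have nD := le_nrm_of_gens eA (ech_PS (lD r)) fun i hi j hj => mem_PS.2 (n3 i hi j hj)
  have t1 : L 1 ≤ PS (lC r) := L_le (by norm_num) fun j hj => by
    rw [show j = 0 by omega]; exact mem_PS.2 s0
  have t2 : PS (lC r) ≤ PS (lW r) := (ech_PS _).le fun j hj => mem_PS.2 (s1 j hj)
  have t3 : PS (lW r) ≤ PS (lD r) := (ech_PS _).le fun j hj => mem_PS.2 (s2 j hj)
  have t4 : PS (lD r) ≤ CM 1 (e r) := (ech_PS _).le s3
  have t5 : PS (lW r) ≤ C (e r) := (ech_PS _).le s4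
  have u1 := nrm_of_gens eA b1
  have v1 := nrm_of_gens eA b3
  have key : ∀ y ∈ CM 1 (e r), (autFun α y)⁻¹ * autFun (α * conjAut _ v1 * α⁻¹) (autFun α y) =
      autFun α (lk y⁻¹ (e 9)) := fun y hy => by
    rw [autFun_mul _ _ (autFun_mem α hy), autFun_inv_apply _ hy, autFun_mul _ _ hy, ← hf.1.homOn.map_inv hy,
      ← hf.1.homOn.map_mul (inv_mem hy) (autFun_mem _ hy), autFun_conjAut v1 hy]
    congr 1; simp only [lk]; group
  have kW : ∀ y : G, autFun α (lk y⁻¹ (e 9)) ∈ PS (lW r) := fun y =>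
    m2 _ (t1.trans t2) x hx x1 ((rm _).2 (mem_PS.2 s5)) _ (comm_L (by norm_num) (by decide) _)
  have k1 : ∀ y ∈ CM 1 (e r), autFun α y ∈ PS (lW r) → ∀ H : Subgroup G, autFun α (lk y⁻¹ (e 9)) ∈ H :=
    fun y hy k H => by
      rw [mem_bot.1 (g83 (inv_mem ((c8 y hy).1 (t5 k))) (show e 9 ∈ L 3 by decide)), hf.1.homOn.map_one]
      exact one_mem _
  refine IsEssential.mem_extAut_of_closure pT hF hA (IsEssential.conjAut_mem_extAut pT hF hA (mem_top _) u1)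
    (IsEssential.conjAut_notMem_Inn hA (mem_top _) u1 b2) (IsEssential.conjAut_mem_extAut pT hF hA (mem_top _) v1)
    (IsEssential.conjAut_notMem_Inn hA (mem_top _) v1 b4) (conjAut_pow v1) hα
    (pgrp_of_chain 5 (fun i => [⊥, L 1, PS (lC r), PS (lW r), PS (lD r)].getD i ⊤) rfl le_top (fun i hi => ?_)
      (fun i hi y hy hy' => ?_) fun i hi y hy hy' => ?_)
  · interval_cases i
    exacts [bot_le, t1, t2, t3, le_top]
  · rw [autFun_conjAut u1 hy, show y⁻¹ * (e (uu r) * y * (e (uu r))⁻¹) = lk y⁻¹ (e (uu r)) by simp only [lk]; group]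
    interval_cases i
    · exact lk_bot (L1_comm (inv_mem hy') _).symm
    · exact lk_of_gens (ech_PS (lC r)) le_normalizer_of_normal b5 (inv_mem hy')
    · exact lk_of_gens (ech_PS (lW r)) ((t3.trans t4).trans nC) (fun j hj => mem_PS.2 (b6 j hj)) (inv_mem hy')
    · exact lk_of_gens (ech_PS (lD r)) (t4.trans nW) (fun j hj => mem_PS.2 (b7 j hj)) (inv_mem hy')
    · exact lk_of_gens eA nD (fun j hj => mem_PS.2 (b8 j hj)) (inv_mem hy)
  · obtain ⟨z, hz, rfl⟩ := onto hf.1 le_rfl hf.2 hy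
    rw [key z hz]
    interval_cases i
    · exact k1 z hz (t2 (t1 hy')) _
    · exact k1 z hz (t2 hy') _
    · exact k1 z hz hy' _
    · exact kW z
    · exact t3 (kW z)

end CL.C3
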