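/-
Subgroups of `GL₆(3)` with Sylow 3-subgroup `U = UT₃(3)` acting on the symmetric square: interfaces.
Basis of the module: `x², 2xy, y², 2xw, 2yw, w²`; `u i j k` is the substitution `y ↦ y + i x`, `w ↦ w + j y + k x`.
-/
import Cfsg.Agent.Base

set_option autoImplicit false

namespace CL.C3.MM

open Matrix

abbrev Vec := Fin 6 → ZMod 3
abbrev GL6 := GL (Fin 6) (ZMod 3)

/-- the action on column vectors -/
scoped instance act : DistribMulAction GL6 Vec where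
  smul g v := (g : Matrix (Fin 6) (Fin 6) (ZMod 3)) *ᵥ v
  one_smul v := one_mulVec v
  mul_smul _ _ v := (mulVec_mulVec v _ _).symm
  smul_zero _ := mulVec_zero _
  smul_add _ := mulVec_add _

theorem smul_def (g : GL6) (v : Vec) : g • v = (g : Matrix (Fin 6) (Fin 6) (ZMod 3)) *ᵥ v := rfl

theorem smul_smul' (g : GL6) (c : ZMod 3) (v : Vec) : g • c • v = c • g • v := mulVec_smul _ c v

theorem neg_one_smul' (v : Vec) : (-1 : GL6) • v = -v := by rw [smul_def]; simp [neg_mulVec]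

/-- the matrices of the elements of `U` -/
def uM (i j k : ZMod 3) : Matrix (Fin 6) (Fin 6) (ZMod 3) :=
  !![1, 2 * i, i * i, 2 * k, 2 * i * k, k * k; 0, 1, i, j, k + i * j, j * k; 0, 0, 1, 0, 2 * j, j * j;
    0, 0, 0, 1, i, k; 0, 0, 0, 0, 1, j; 0, 0, 0, 0, 0, 1]

theorem uM_mul (i j k l m n : ZMod 3) : uM i j k * uM l m n = uM (i + l) (j + m) (k + n + i * m) := by
  ext a b
  fin_cases a <;> fin_cases b <;> simp [uM, mul_apply, Fin.sum_univ_six] <;> ring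

theorem uM_zero : uM 0 0 0 = 1 := by decide

/-- the elements of `U` -/
def u (i j k : ZMod 3) : GL6 :=
  ⟨uM i j k, uM (-i) (-j) (i * j - k), by rw [uM_mul, ← uM_zero]; congr 1 <;> ring,
    by rw [uM_mul, ← uM_zero]; congr 1 <;> ring⟩

theorem u_mul (i j k l m n : ZMod 3) : u i j k * u l m n = u (i + l) (j + m) (k + n + i * m) :=
  Units.ext (uM_mul ..)

theorem u_zero : u 0 0 0 = 1 := Units.ext uM_zero

theorem u_inv (i j k : ZMod 3) : (u i j k)⁻¹ = u (-i) (-j) (i * j - k) := Units.ext (by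
  show uM _ _ _ = uM _ _ _; rfl)

theorem u_smul (i j k : ZMod 3) (v : Vec) : u i j k • v =
    ![v 0 + 2 * i * v 1 + i * i * v 2 + 2 * k * v 3 + 2 * i * k * v 4 + k * k * v 5,
      v 1 + i * v 2 + j * v 3 + (k + i * j) * v 4 + j * k * v 5, v 2 + 2 * j * v 4 + j * j * v 5,
      v 3 + i * v 4 + k * v 5, v 4 + j * v 5, v 5] := by
  ext a
  fin_cases a <;> simp [smul_def, u, uM, mulVec, dotProduct, Fin.sum_univ_six]

theorem u_inj {i j k l m n : ZMod 3} (h : u i j k = u l m n) : i = l ∧ j = m ∧ k = n :=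
  have e : uM i j k = uM l m n := congrArg Units.val h
  ⟨congrFun (congrFun e 3) 4, congrFun (congrFun e 4) 5, congrFun (congrFun e 3) 5⟩

theorem u_cube (i j k : ZMod 3) : u i j k ^ 3 = 1 := by
  rw [pow_three, u_mul, u_mul, ← u_zero]
  revert i j k; intro i j k; congr 1 <;> revert i j k <;> decide

/-- the Sylow subgroup -/
def U : Subgroup GL6 where
  carrier := {g | ∃ i j k, g = u i j k}
  one_mem' := ⟨0, 0, 0, u_zero.symm⟩
  mul_mem' := by rintro _ _ ⟨i, j, k, rfl⟩ ⟨l, m, n, rfl⟩; exact ⟨_, _, _, u_mul ..⟩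
  inv_mem' := by rintro _ ⟨i, j, k, rfl⟩; exact ⟨_, _, _, u_inv ..⟩

theorem u_mem (i j k : ZMod 3) : u i j k ∈ U := ⟨i, j, k, rfl⟩

theorem card_U : Nat.card U = 27 := by
  rw [← Nat.card_congr (Equiv.ofBijective (fun x : ZMod 3 × ZMod 3 × ZMod 3 => (⟨u x.1 x.2.1 x.2.2, u_mem ..⟩ : U))
    ⟨fun x y h => by
      obtain ⟨a, b, c⟩ := u_inj (congrArg Subtype.val h)
      exact Prod.ext a (Prod.ext b c), fun ⟨_, i, j, k, h⟩ => ⟨(i, j, k), Subtype.ext h.symm⟩⟩)]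
  simp

/-- coordinate subspaces -/
def sp (s : Finset (Fin 6)) : Submodule (ZMod 3) Vec where
  carrier := {v | ∀ i ∉ s, v i = 0}
  zero_mem' _ _ := rfl
  add_mem' ha hb i hi := by rw [Pi.add_apply, ha i hi, hb i hi, add_zero]
  smul_mem' c _ ha i hi := by rw [Pi.smul_apply, ha i hi, smul_zero]

theorem mem_sp {s : Finset (Fin 6)} {v : Vec} : v ∈ sp s ↔ ∀ i ∉ s, v i = 0 := Iff.rfl

instance (s : Finset (Fin 6)) (v : Vec) : Decidable (v ∈ sp s) := decidable_of_iff _ mem_sp.symm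

abbrev Z1 := sp {0}
abbrev L2 := sp {0, 1}
abbrev V3 := sp {0, 1, 2}
abbrev W3 := sp {0, 1, 3}
abbrev L5 := sp {0, 1, 2, 3, 4}

/-- the vector `x²` -/
def z : Vec := ![1, 0, 0, 0, 0, 0]

/-- `g` maps `W` to itself -/
def Stab (g : GL6) (W : Submodule (ZMod 3) Vec) : Prop := ∀ v ∈ W, g • v ∈ W

/-- nontrivial 3-elements -/
def P3 (t : GL6) : Prop := t ≠ 1 ∧ ∃ k, t ^ 3 ^ k = 1

/-- `U` is a Sylow 3-subgroup of `Γ` -/
structure Syl (Γ : Subgroup GL6) : Prop where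
  le : U ≤ Γ
  nd : ¬ 81 ∣ Nat.card Γ

/-- `H` is strongly 3-embedded in `Γ` (or equal to it) -/
structure SE (Γ H : Subgroup GL6) : Prop extends Syl Γ where
  hU : U ≤ H
  hH : H ≤ Γ
  se : ∀ g ∈ Γ, ∀ t ∈ H, P3 t → g * t * g⁻¹ ∈ H → g ∈ H

/-- the vectors fixed by a nontrivial 3-element of `H` -/
def NH (H : Subgroup GL6) : Set Vec := {v | ∃ t ∈ H, P3 t ∧ t • v = v}

/-- the vectors of `NH H` with stabiliser in `H` -/
def DH (Γ H : Subgroup GL6) : Set Vec := {v | v ∈ NH H ∧ ∀ g ∈ Γ, g • v = v → g ∈ H}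

/-- the orbit of `v` under `H` -/
def orb (H : Subgroup GL6) (v : Vec) : Set Vec := {w | ∃ h ∈ H, h • v = w}

/-- unipotent elements on a chain -/
def StU : Prop := ∀ (n : ℕ) (W : ℕ → Submodule (ZMod 3) Vec), W 0 = ⊥ → W n = ⊤ → (∀ i < n, W i ≤ W (i + 1)) →
  ∃ P : Subgroup GL6, IsPGroup 3 P ∧ ∀ g, g ∈ P ↔ ∀ i < n, ∀ v ∈ W (i + 1), g • v - v ∈ W i

/-- the stabiliser of `L5` stabilises `V3` -/
def StB : Prop := ∀ Γ, Syl Γ → ∀ g ∈ Γ, Stab g L5 → Stab g V3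

/-- duality -/
def StD : Prop := ∃ φ : GL6 ≃* GL6, (∀ g, φ g ∈ U ↔ g ∈ U) ∧ φ (-1) = -1 ∧ (∀ g, Stab (φ g) L5 ↔ Stab g Z1) ∧
  (∀ g, Stab (φ g) V3 ↔ Stab g W3) ∧ (∀ g, Stab (φ g) Z1 ↔ Stab g L5) ∧ (∀ g, Stab (φ g) W3 ↔ Stab g V3)

/-- 3-subgroups which meet `H` lie in `H` -/
def StP : Prop := ∀ Γ H, SE Γ H → ∀ P : Subgroup GL6, P ≤ Γ → IsPGroup 3 P → ∀ t ∈ P, t ∈ H → t ≠ 1 → P ≤ H

/-- counting -/
def StC : Prop := ∀ Γ H, SE Γ H → H ≠ Γ → z ∈ DH Γ H →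
  (H.relIndex Γ = 28 ∨ H.relIndex Γ = 55) ∧ (H.relIndex Γ - 1) * (DH Γ H).ncard ≤ 594 ∧
    ∀ v ∈ DH Γ H, ∀ g ∈ Γ, g • v ∈ NH H → g ∈ H

/-- the orbit of `z` -/
def StS : Prop := ∀ Γ H, SE Γ H → -1 ∈ H → (orb H z).ncard ≤ 22 → (∀ h ∈ H, Stab h Z1) ∨ ∀ h ∈ H, Stab h V3

/-- vectors of `V3` with stabiliser in `H` -/
def StK : Prop := ∀ Γ H, SE Γ H → H ≠ Γ → -1 ∈ H → z ∈ DH Γ H → (∀ h ∈ H, Stab h V3) → ∀ v ∈ V3, v ∉ orb H z → v ≠ 0 →
  ((orb H v).ncard = 6 ∨ (orb H v).ncard = 12 ∨ (orb H v).ncard = 18 ∨ (orb H v).ncard = 24) ∧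
    (H.relIndex Γ = 28 ∨ (orb H v).ncard = 6 ∨ (orb H v).ncard = 18 → v ∈ DH Γ H)

/-- the final count -/
def StF : Prop := ∀ Γ H, SE Γ H → H ≠ Γ → -1 ∈ H → z ∈ DH Γ H → (∀ h ∈ H, Stab h Z1 → Stab h W3) →
  ¬ ∀ h ∈ H, Stab h V3

/-- there is no proper strongly 3-embedded subgroup -/
def StM : Prop := ∀ Γ H, SE Γ H → H = Γ

end CL.C3.MM
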