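/-
Project C3 (job C3M-B): the stabiliser of `L5` stabilises `V3`.
-/
import Cfsg.Agent.Fus.C3MD
import Cfsg.Agent.Grp.SylowIn

set_option autoImplicit false

namespace CL.C3.MM

open Module Matrix CL.Grp

attribute [-instance] act

local notation "𝔽" => ZMod 3

namespace Bx

/-- the linear map of an element -/
def lin (g : GL6) : Vec ≃ₗ[𝔽] Vec where
  toFun v := g • v
  invFun v := g⁻¹ • v
  map_add' := smul_add g
  map_smul' := smul_smul' g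
  left_inv := inv_smul_smul g
  right_inv := smul_inv_smul g

/-- the preimage of a subspace -/
def pre (g : GL6) (W : Submodule 𝔽 Vec) : Submodule 𝔽 Vec := W.comap (lin g : Vec →ₗ[𝔽] Vec)

theorem mem_pre {g : GL6} {W : Submodule 𝔽 Vec} {v : Vec} : v ∈ pre g W ↔ g • v ∈ W := Iff.rfl

theorem rk_pre (g : GL6) (W : Submodule 𝔽 Vec) : finrank 𝔽 (pre g W) = finrank 𝔽 W := by
  rw [pre, Submodule.comap_equiv_eq_map_symm, LinearEquiv.finrank_map_eq]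

theorem Stab.inv {g : GL6} {W : Submodule 𝔽 Vec} (h : Stab g W) : Stab g⁻¹ W := fun v hv => by
  rw [Submodule.eq_of_le_of_finrank_le (show W ≤ pre g W from h) (rk_pre g W).le, mem_pre, smul_inv_smul]
  exact hv

theorem Stab.mul {g h : GL6} {W : Submodule 𝔽 Vec} (a : Stab g W) (b : Stab h W) : Stab (g * h) W :=
  fun v hv => mul_smul g h v ▸ a _ (b v hv)

theorem rk_sp (s : Finset (Fin 6)) : finrank 𝔽 (sp s) + Fintype.card {i // i ∉ s} = 6 := by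
  let f := LinearMap.funLeft 𝔽 𝔽 (Subtype.val : {i // i ∉ s} → Fin 6)
  have e : sp s = LinearMap.ker f := Submodule.ext fun v =>
    ⟨fun h => funext fun i => h i i.2, fun h i hi => congrFun h ⟨i, hi⟩⟩
  have := f.finrank_range_add_finrank_ker
  rw [LinearMap.range_eq_top.2 (LinearMap.funLeft_surjective_of_injective _ _ _ Subtype.val_injective),
    finrank_top, ← e, finrank_fintype_fun_eq_card, finrank_fintype_fun_eq_card, Fintype.card_fin] at this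
  exact (add_comm _ _).trans this

theorem rk3 : finrank 𝔽 V3 = 3 := by
  have := rk_sp {0, 1, 2}
  rw [show Fintype.card {i : Fin 6 // i ∉ ({0, 1, 2} : Finset (Fin 6))} = 3 by decide] at this
  exact Nat.add_right_cancel this

theorem rk5 : finrank 𝔽 L5 = 5 := by
  have := rk_sp {0, 1, 2, 3, 4}
  rw [show Fintype.card {i : Fin 6 // i ∉ ({0, 1, 2, 3, 4} : Finset (Fin 6))} = 1 by decide] at this
  exact Nat.add_right_cancel this

theorem mem3 {v : Vec} : v ∈ V3 ↔ v 3 = 0 ∧ v 4 = 0 ∧ v 5 = 0 :=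
  ⟨fun h => ⟨h 3 (by decide), h 4 (by decide), h 5 (by decide)⟩, fun h i hi => by
    fin_cases i <;> simp_all⟩

theorem mem5 {v : Vec} : v ∈ L5 ↔ v 5 = 0 :=
  ⟨fun h => h 5 (by decide), fun h i hi => by fin_cases i <;> simp_all⟩

theorem le35 : V3 ≤ L5 := fun _ h => mem5.2 (mem3.1 h).2.2

theorem fix3 (j k : 𝔽) {v : Vec} (h : v ∈ V3) : u 0 j k • v = v := by
  obtain ⟨a, b, c⟩ := mem3.1 h
  rw [u_smul]
  ext i
  fin_cases i <;> simp [a, b, c]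

theorem mov5 (j k : 𝔽) {v : Vec} (h : v ∈ L5) :
    u 0 j k • v - v = ![2 * k * v 3, j * v 3 + k * v 4, 2 * j * v 4, 0, 0, 0] := by
  have a := mem5.1 h
  rw [u_smul]
  ext i
  fin_cases i <;> simp [a]
  ring

theorem mov53 (j k : 𝔽) {v : Vec} (h : v ∈ L5) : u 0 j k • v - v ∈ V3 := by
  rw [mov5 j k h, mem3]; simp

theorem mov6 (i j k : 𝔽) (v : Vec) : u i j k • v - v ∈ L5 := by rw [mem5, u_smul]; simp

theorem stab5 (i j k : 𝔽) : Stab (u i j k) L5 := fun v hv => by simpa using add_mem (mov6 i j k v) hv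

theorem of_fix {j k : 𝔽} (h : u 0 j k ≠ 1) {v : Vec} (e : u 0 j k • v = v) : v ∈ V3 := by
  have n : ¬ (j = 0 ∧ k = 0) := fun c => h (by rw [c.1, c.2, u_zero])
  rw [u_smul] at e
  have e0 := congrFun e 0
  have e1 := congrFun e 1
  have e2 := congrFun e 2
  have e3 := congrFun e 3
  have e4 := congrFun e 4
  simp only [cons_val_zero, cons_val_one, cons_val] at e0 e1 e2 e3 e4
  rw [add_eq_left] at e4
  have f0 : 2 * k * v 3 + k * k * v 5 = 0 := by linear_combination e0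
  have f1 : j * v 3 + k * v 4 + j * k * v 5 = 0 := by linear_combination e1
  have f2 : 2 * j * v 4 + j * j * v 5 = 0 := by linear_combination e2
  have f3 : k * v 5 = 0 := by linear_combination e3
  rw [mem3]
  generalize v 3 = a, v 4 = b, v 5 = c at *
  clear e e0 e1 e2 e3 h
  revert j k a b c
  decide

theorem cj_smul (h s : GL6) (v : Vec) : (h * s * h⁻¹) • h • v = h • s • v := by
  rw [mul_smul, mul_smul, inv_smul_smul]

theorem of_cj {h : GL6} {a b j k : 𝔽} (n : ¬ (a = 0 ∧ b = 0)) (e : h * u 0 a b * h⁻¹ = u 0 j k) : Stab h V3 :=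
  fun v hv => of_fix (j := j) (k := k) (fun c => n (by
    rw [c, conj_eq_one_iff, ← u_zero] at e
    exact (u_inj e).2)) (by rw [← e, cj_smul, fix3 a b hv])

theorem i_zero {e : GL6} (he : Stab e L5) {a b i j k : 𝔽} (h : e * u 0 a b * e⁻¹ = u i j k) : i = 0 := by
  have m : e⁻¹ • ![0, 0, 1, 0, 0, 0] ∈ L5 := Stab.inv he _ (mem5.2 rfl)
  have := congrArg (e • ·) (fix3 a b (mov53 a b m))
  simp only [← cj_smul e (u 0 a b), smul_sub, h, smul_inv_smul] at this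
  have k0 := congrFun this 0
  simp [u_smul] at k0
  clear this h m
  revert i j k
  decide

theorem key {h : GL6} (h1 : h * u 0 1 0 * h⁻¹ ∈ U) (h2 : h * u 0 0 1 * h⁻¹ ∈ U) : Stab h V3 ∧ Stab h L5 := by
  obtain ⟨i, j, k, e1⟩ := h1
  obtain ⟨l, m, n, e2⟩ := h2
  have p : ∀ {a b c d : 𝔽} {x y : GL6}, h * u 0 a b * h⁻¹ = x → h * u 0 c d * h⁻¹ = y →
      h * u 0 (a + c) (b + d) * h⁻¹ = x * y := fun {a b c d x y} p1 p2 => by
    rw [← p1, ← p2, conj_mul, u_mul]; simp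
  have e3 := p e1 e2
  have e4 := p e3 e2
  have e5 := e3.symm.trans ((show u 0 (1 + 0) (0 + 1) = u 0 (0 + 1) (1 + 0) by simp) ▸ p e2 e1)
  rw [u_mul, u_mul] at e5
  rw [u_mul] at e3
  rw [u_mul, u_mul] at e4
  have c : i * m = l * j := by linear_combination (u_inj e5).2.2
  have d : ∀ i j l m : 𝔽, i * m = l * j → (i = 0 ∧ j = 0) ∨ (l = 0 ∧ m = 0) ∨ (i + l = 0 ∧ j + m = 0) ∨
    (i + l + l = 0 ∧ j + m + m = 0) := by decide
  have s : Stab h V3 := by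
    rcases d i j l m c with q | q | q | q
    · exact of_cj (by decide) (q.1 ▸ e1)
    · exact of_cj (by decide) (q.1 ▸ e2)
    · exact of_cj (by decide) (q.1 ▸ e3)
    · exact of_cj (by decide) (q.1 ▸ e4)
  refine ⟨s, inv_inv h ▸ Stab.inv fun v hv => ?_⟩
  have i0 : i = 0 := by
    have m : h⁻¹ • ![0, 0, 1, 0, 0, 0] ∈ V3 := Stab.inv s _ (mem3.2 ⟨rfl, rfl, rfl⟩)
    have := congrArg (h • ·) (fix3 1 0 m)
    simp only [← cj_smul h (u 0 1 0), e1, smul_inv_smul] at this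
    simpa [u_smul] using congrFun this 1
  have := Stab.inv s _ (mov53 j k hv)
  rw [← i0, ← e1, mul_assoc, mul_smul, smul_sub, inv_smul_smul, mul_smul, u_smul] at this
  simpa [mem5] using (mem3.1 this).2.1

theorem hyp {D W : Submodule 𝔽 Vec} (h : D ≤ W) (r : finrank 𝔽 W ≤ finrank 𝔽 D + 1) {w : Vec} (hw : w ∈ W)
    (n : w ∉ D) {v : Vec} (hv : v ∈ W) : ∃ c : 𝔽, v - c • w ∈ D := by
  have l : D ⊔ 𝔽 ∙ w ≤ W := sup_le h ((Submodule.span_singleton_le_iff_mem _ _).2 hw)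
  have := Submodule.finrank_lt_finrank_of_lt (s := D) (t := D ⊔ 𝔽 ∙ w) (lt_of_le_of_ne le_sup_left fun e =>
    n (e ▸ Submodule.mem_sup_right (Submodule.mem_span_singleton_self w)))
  rw [← Submodule.eq_of_le_of_finrank_le l (by omega)] at hv
  obtain ⟨d, hd, _, ⟨c, rfl⟩ , rfl⟩ := Submodule.mem_sup.1 hv |>.imp fun _ k => k.imp_right fun k => k.imp fun _ k =>
    k.imp_left Submodule.mem_span_singleton.1
  exact ⟨c, by simpa using hd⟩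

theorem ex_t {V' : Submodule 𝔽 Vec} (l : V' ≤ L5) (r3 : finrank 𝔽 V' = 3) (r : 2 ≤ finrank 𝔽 ↥(V3 ⊓ V')) :
    ∃ j k : 𝔽, ¬ (j = 0 ∧ k = 0) ∧ ∀ v ∈ V', u 0 j k • v - v ∈ V' := by
  by_cases c : V' ≤ V3
  · exact ⟨1, 0, by decide, fun v hv => by rw [fix3 1 0 (c hv), sub_self]; exact zero_mem _⟩
  obtain ⟨w, hw, n⟩ := SetLike.not_le_iff_exists.1 c
  have k : ∃ j k : 𝔽, ¬ (j = 0 ∧ k = 0) ∧ u 0 j k • w - w ∈ V' := by
    by_cases c1 : u 0 1 0 • w - w ∈ V3 ⊓ V'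
    · exact ⟨1, 0, by decide, c1.2⟩
    obtain ⟨c, hc⟩ := hyp inf_le_left (by rw [rk3]; omega) (mov53 1 0 (l hw)) c1 (mov53 0 1 (l hw))
    refine ⟨-c, 1, by simp, ?_⟩
    rw [show u 0 (-c) 1 • w - w = u 0 0 1 • w - w - c • (u 0 1 0 • w - w) by
      simp only [mov5 _ _ (l hw)]
      ext i
      fin_cases i <;> simp <;> ring]
    exact (Submodule.mem_inf.1 hc).2
  obtain ⟨j, k, h1, h2⟩ := k
  refine ⟨j, k, h1, fun v hv => ?_⟩
  obtain ⟨c, hc⟩ := hyp inf_le_right (by omega) hw (fun e => n e.1) hv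
  have := fix3 j k hc.1
  rw [smul_sub, smul_smul', sub_eq_iff_eq_add] at this
  rw [this, show v - c • w + c • u 0 j k • w - v = c • (u 0 j k • w - w) by rw [smul_sub]; abel]
  exact Submodule.smul_mem _ c h2

/-- the chain -/
def ch (A : Submodule 𝔽 Vec) : ℕ → Submodule 𝔽 Vec
  | 0 => ⊥ | 1 => V3 ⊓ A | 2 => A | 3 => V3 ⊔ A | 4 => L5 | _ => ⊤

theorem mem_ch {A : Submodule 𝔽 Vec} {t : GL6} (h0 : ∀ v ∈ V3 ⊓ A, t • v - v = 0) (h1 : ∀ v ∈ A, t • v - v ∈ V3 ⊓ A)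
    (h2 : ∀ v ∈ V3 ⊔ A, t • v - v ∈ A) (h3 : ∀ v ∈ L5, t • v - v ∈ V3 ⊔ A) (h4 : ∀ v, t • v - v ∈ L5) :
    ∀ i < 5, ∀ v ∈ ch A (i + 1), t • v - v ∈ ch A i := fun i hi => by
  interval_cases i
  exacts [h0, h1, h2, h3, fun v _ => h4 v]

theorem b1 (hU : StU) {Γ : Subgroup GL6} (hΓ : Syl Γ) {g : GL6} (hg : g ∈ Γ) (h5 : Stab g L5)
    (r : 2 ≤ finrank 𝔽 ↥(V3 ⊓ pre g V3)) : Stab g V3 := by
  have l : pre g V3 ≤ L5 := fun v hv => by simpa using Stab.inv h5 _ (le35 (mem_pre.1 hv))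
  obtain ⟨j, k, n, ht⟩ := ex_t l ((rk_pre g V3).trans rk3) r
  obtain ⟨P, hP, mP⟩ := hU 5 (ch (pre g V3)) rfl rfl (by
      intro i hi
      interval_cases i
      exacts [bot_le, inf_le_right, le_sup_right, sup_le le35 l, le_top])
  have t1 : u 0 j k ∈ P := (mP _).2 (mem_ch (fun v hv => by rw [fix3 j k (Submodule.mem_inf.1 hv).1, sub_self])
    (fun v hv => Submodule.mem_inf.2 ⟨mov53 j k (l hv), ht v hv⟩) (fun v hv => by
      obtain ⟨a, ha, b, hb, rfl⟩ := Submodule.mem_sup.1 hv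
      rw [smul_add, fix3 j k ha, add_sub_add_left_eq_sub]
      exact ht b hb) (fun v hv => Submodule.mem_sup_left (mov53 j k hv)) (mov6 0 j k))
  have t2 : ∀ a b, g⁻¹ * u 0 a b * g ∈ P := fun a b => by
    have e : ∀ v : Vec, g • ((g⁻¹ * u 0 a b * g) • v - v) = u 0 a b • g • v - g • v := fun v => by
      rw [smul_sub, mul_smul, mul_smul, smul_inv_smul]
    have z : ∀ v ∈ pre g V3, (g⁻¹ * u 0 a b * g) • v - v = 0 := fun v hv => by
      rw [mul_smul, mul_smul, fix3 a b (mem_pre.1 hv), inv_smul_smul, sub_self]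
    have y : ∀ v ∈ L5, (g⁻¹ * u 0 a b * g) • v - v ∈ pre g V3 := fun v hv => by
      rw [mem_pre, e]; exact mov53 a b (h5 v hv)
    exact (mP _).2 (mem_ch (fun v hv => z v (Submodule.mem_inf.1 hv).2) (fun v hv => by rw [z v hv]; exact zero_mem _)
      (fun v hv => y v (sup_le le35 l hv)) (fun v hv => Submodule.mem_sup_right (y v hv)) fun v => by
        have := Stab.inv h5 _ (mov6 0 a b (g • v))
        rwa [← e, inv_smul_smul] at this)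
  have sy : IsSylowIn 3 U Γ := ⟨hΓ.le, IsPGroup.of_card (n := 3) card_U, fun d => hΓ.nd (by
    rw [← (U.subgroupOf Γ).index_mul_card, Nat.card_congr (Subgroup.subgroupOfEquivOfLe hΓ.le).toEquiv, card_U]
    exact Nat.mul_dvd_mul_right d 27)⟩
  obtain ⟨e, -, he⟩ := sy.exists_conj_le (hP.to_inf_left (K := Γ)) inf_le_right
  rw [conj_smul_le_iff] at he
  have t3 : ∀ a b, e * g⁻¹ * u 0 a b * (e * g⁻¹)⁻¹ ∈ U := fun a b => by
    simpa [mul_assoc] using he _ ⟨t2 a b, Γ.mul_mem (Γ.mul_mem (Γ.inv_mem hg) (hΓ.le (u_mem ..))) hg⟩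
  obtain ⟨k3, k5⟩ := key (t3 1 0) (t3 0 1)
  obtain ⟨i, j', k', e1⟩ := he _ ⟨t1, hΓ.le (u_mem ..)⟩
  obtain rfl := i_zero (by simpa using Stab.mul k5 h5) e1
  simpa using Stab.mul (Stab.inv k3) (of_cj n e1)

theorem two_le {W : Submodule 𝔽 Vec} {a b : Vec} (ha : a ∈ W) (hb : b ∈ W)
    (h : ∀ s t : 𝔽, s • a + t • b = 0 → s = 0 ∧ t = 0) : 2 ≤ finrank 𝔽 W := by
  simpa using (LinearIndependent.pair_iff.2 fun s t e => h s t (congrArg Subtype.val e) :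
    LinearIndependent 𝔽 ![(⟨a, ha⟩ : W), ⟨b, hb⟩]).fintype_card_le_finrank

/-- the action in coordinates -/
def f (j k : 𝔽) (v : Vec) : Vec :=
  ![v 0 + 2 * 1 * v 1 + 1 * 1 * v 2 + 2 * k * v 3 + 2 * 1 * k * v 4 + k * k * v 5,
    v 1 + 1 * v 2 + j * v 3 + (k + 1 * j) * v 4 + j * k * v 5, v 2 + 2 * j * v 4 + j * j * v 5,
    v 3 + 1 * v 4 + k * v 5, v 4 + j * v 5, v 5]

/-- the equations in the anisotropic case -/
def Eq2 (p v w : Vec) (j k c d e e' : 𝔽) : Prop :=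
  f j k (v + c • p) = v + e • p ∧ f j k (w + d • p) = v + w + e' • p

instance (p v w : Vec) (j k c d e e' : 𝔽) : Decidable (Eq2 p v w j k c d e e') := by unfold Eq2; infer_instance

set_option synthInstance.maxSize 4000 in
set_option synthInstance.maxHeartbeats 200000 in
theorem chk1 : ∀ a b c : 𝔽, (a = 0 ∧ b = 0 ∧ c = 0) ∨ (a = 1 ∧ b = 0 ∧ c = 1) ∨ (a = 1 ∧ b = 1 ∧ c = 2) ∨
    (a = 1 ∧ b = 2 ∧ c = 2) ∨ (a = 2 ∧ b = 0 ∧ c = 2) ∨ (a = 2 ∧ b = 1 ∧ c = 1) ∨ (a = 2 ∧ b = 2 ∧ c = 1) ∨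
    ∃ j k x y x' y' : 𝔽, ¬ (x = 0 ∧ y = 0) ∧ 2 * k * x = a ∧ j * x + k * y = b ∧ 2 * j * y = c ∧
      ∀ s : 𝔽, ¬ (s * a = 2 * k * x' ∧ s * b = j * x' + k * y' ∧ s * c = 2 * j * y') := by decide +kernel

theorem an0 : ∀ a0 a1 a2 b0 b1 b2 : 𝔽, Eq2 ![1, 0, 1, 0, 0, 0] ![a0, a1, a2, 1, 0, 0] ![b0, b1, b2, 0, 1, 0]
    (2 * a0 + a2 + 2 * b1) (a0 + 2 * a1 + 2 * a2 + b1) (a0 + a2 + b1)
    (2 * a1 + 2 * b2) (a0 + a2 + b1) (a0 + 2 * a1 + a2 + b1 + 2 * b2) := by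
  decide +kernel

theorem an1 : ∀ a0 a1 a2 b0 b1 b2 : 𝔽, Eq2 ![1, 1, 2, 0, 0, 0] ![a0, a1, a2, 1, 0, 0] ![b0, b1, b2, 0, 1, 0]
    (2 * a0 + 2 * a1 + a2 + 2 * b1 + 2 * b2) (2 * a0 + a1 + 2 * b1 + 2 * b2) (2 * a0 + 2 * a1 + 2 * a2 + 2 * b1 + 2 * b2)
    (2 * a0 + 2 * a2 + 2 * b1) (2 * a0 + 2 * a1 + 2 * a2 + 2 * b1 + 2 * b2) (a0 + 2 * a1 + a2 + b1 + 2 * b2) := by
  decide +kernel

theorem an2 : ∀ a0 a1 a2 b0 b1 b2 : 𝔽, Eq2 ![1, 2, 2, 0, 0, 0] ![a0, a1, a2, 1, 0, 0] ![b0, b1, b2, 0, 1, 0]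
    (2 * a0 + a1 + a2 + 2 * b1 + b2) (2 * a1 + a2) (2 * a0 + a1 + 2 * a2 + 2 * b1 + b2)
    (a0 + a2 + b1) (2 * a0 + a1 + 2 * a2 + 2 * b1 + b2) (a1 + b2) := by
  decide +kernel

theorem an3 : ∀ a0 a1 a2 b0 b1 b2 : 𝔽, Eq2 ![2, 0, 2, 0, 0, 0] ![a0, a1, a2, 1, 0, 0] ![b0, b1, b2, 0, 1, 0]
    (2 * a0 + a2 + 2 * b1) (a0 + 2 * a1 + 2 * a2 + b1) (2 * a0 + 2 * a2 + 2 * b1)
    (a1 + b2) (2 * a0 + 2 * a2 + 2 * b1) (2 * a0 + a1 + 2 * a2 + 2 * b1 + b2) := by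
  decide +kernel

theorem an4 : ∀ a0 a1 a2 b0 b1 b2 : 𝔽, Eq2 ![2, 1, 1, 0, 0, 0] ![a0, a1, a2, 1, 0, 0] ![b0, b1, b2, 0, 1, 0]
    (2 * a0 + a1 + a2 + 2 * b1 + b2) (2 * a1 + a2) (a0 + 2 * a1 + a2 + b1 + 2 * b2)
    (2 * a0 + 2 * a2 + 2 * b1) (a0 + 2 * a1 + a2 + b1 + 2 * b2) (2 * a1 + 2 * b2) := by
  decide +kernel

theorem an5 : ∀ a0 a1 a2 b0 b1 b2 : 𝔽, Eq2 ![2, 2, 1, 0, 0, 0] ![a0, a1, a2, 1, 0, 0] ![b0, b1, b2, 0, 1, 0]
    (2 * a0 + 2 * a1 + a2 + 2 * b1 + 2 * b2) (2 * a0 + a1 + 2 * b1 + 2 * b2) (a0 + a1 + a2 + b1 + b2)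
    (a0 + a2 + b1) (a0 + a1 + a2 + b1 + b2) (2 * a0 + a1 + 2 * a2 + 2 * b1 + b2) := by
  decide +kernel

theorem b2 (hU : StU) {Γ : Subgroup GL6} (hΓ : Syl Γ) {g : GL6} (hg : g ∈ Γ) (h5 : Stab g L5) {i j k : 𝔽}
    {a b : Vec} (ha : a ∈ pre g V3) (hb : b ∈ pre g V3) (ta : u i j k • a ∈ pre g V3) (tb : u i j k • b ∈ pre g V3)
    (h : ∀ s t : 𝔽, s • a + t • b = 0 → s = 0 ∧ t = 0) : Stab (u i j k) (pre g V3) := fun v hv => by
  have := b1 hU hΓ (mul_mem (mul_mem hg (hΓ.le (u_mem i j k))) (inv_mem hg))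
    (Stab.mul (Stab.mul h5 (stab5 i j k)) (Stab.inv h5)) (two_le (a := g • a) (b := g • b)
      ⟨ha, by rw [SetLike.mem_coe, mem_pre, cj_smul]; exact ta⟩
      ⟨hb, by rw [SetLike.mem_coe, mem_pre, cj_smul]; exact tb⟩ fun s t e => h s t (by
        rwa [← smul_smul', ← smul_smul', ← smul_add, smul_eq_zero_iff_eq] at e)) _ (mem_pre.1 hv)
  rwa [cj_smul] at this

end Bx

open Bx in
theorem stB (hU : StU) : StB := by
  intro Γ hΓ g hg h5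
  by_contra ns
  have r : finrank 𝔽 ↥(V3 ⊓ pre g V3) ≤ 1 := by
    by_contra r
    exact ns (b1 hU hΓ hg h5 (by omega))
  have l : pre g V3 ≤ L5 := fun v hv => by simpa using Stab.inv h5 _ (le35 (mem_pre.1 hv))
  have s := Submodule.finrank_sup_add_finrank_inf_eq V3 (pre g V3)
  have s5 := Submodule.finrank_mono (sup_le le35 l)
  rw [rk_pre, rk3] at s
  have e5 := Submodule.eq_of_le_of_finrank_le (sup_le le35 l) (by rw [rk5]; omega)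
  rw [rk5] at s5
  obtain ⟨⟨p, p3, p'⟩, p0, hp⟩ := finrank_eq_one_iff'.1 (show finrank 𝔽 ↥(V3 ⊓ pre g V3) = 1 by omega)
  have hp' : ∀ w ∈ V3, w ∈ pre g V3 → ∃ c : 𝔽, c • p = w := fun w h h' =>
    (hp ⟨w, h, h'⟩).imp fun _ e => congrArg Subtype.val e
  have ex : ∀ x y : 𝔽, ∃ a b c : 𝔽, ![a, b, c, x, y, 0] ∈ pre g V3 := fun x y => by
    obtain ⟨v, hv, w, hw, e⟩ := Submodule.mem_sup.1 (e5.ge (mem5.2 rfl : ![0, 0, 0, x, y, 0] ∈ L5))
    obtain ⟨v3, v4, v5⟩ := mem3.1 hv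
    refine ⟨w 0, w 1, w 2, ?_⟩
    convert hw using 1
    ext i
    fin_cases i
    exacts [rfl, rfl, rfl, by simpa [v3] using (congrFun e 3).symm, by simpa [v4] using (congrFun e 4).symm,
      by simpa [v5] using (congrFun e 5).symm]
  obtain ⟨a, b, c, rfl⟩ : ∃ a b c : 𝔽, p = ![a, b, c, 0, 0, 0] := ⟨p 0, p 1, p 2, by
    obtain ⟨v3, v4, v5⟩ := mem3.1 p3
    ext i
    fin_cases i
    exacts [rfl, rfl, rfl, v3, v4, v5]⟩
  have an : (∀ a0 a1 a2 b0 b1 b2 : 𝔽, ∃ j k c1 c2 e1 e2, Eq2 ![a, b, c, 0, 0, 0] ![a0, a1, a2, 1, 0, 0]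
      ![b0, b1, b2, 0, 1, 0] j k c1 c2 e1 e2) → (∀ s : 𝔽, ¬ (s * b = b + c ∧ s * c = c)) → False := fun h n => by
    obtain ⟨a0, a1, a2, hv⟩ := ex 1 0
    obtain ⟨b0, b1, b2, hw⟩ := ex 0 1
    obtain ⟨j, k, c1, c2, e1, e2, q1, q2⟩ := h a0 a1 a2 b0 b1 b2
    have st := Bx.b2 hU hΓ hg h5 (i := 1) (j := j) (k := k) (add_mem hv (Submodule.smul_mem _ c1 p'))
      (add_mem hw (Submodule.smul_mem _ c2 p'))
      (by rw [u_smul]; exact (show f j k _ ∈ _ from q1 ▸ add_mem hv (Submodule.smul_mem _ e1 p')))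
      (by rw [u_smul]; exact (show f j k _ ∈ _ from q2 ▸ add_mem (add_mem hv hw) (Submodule.smul_mem _ e2 p')))
      fun s t e => ⟨by simpa using congrFun e 3, by simpa using congrFun e 4⟩
    obtain ⟨s, hs⟩ := hp' _ (by rw [mem3, u_smul]; simp) (st _ p')
    rw [u_smul] at hs
    exact n s ⟨by simpa using congrFun hs 1, by simpa using congrFun hs 2⟩
  rcases chk1 a b c with ⟨rfl, rfl, rfl⟩ | ⟨rfl, rfl, rfl⟩ | ⟨rfl, rfl, rfl⟩ | ⟨rfl, rfl, rfl⟩ | ⟨rfl, rfl, rfl⟩ |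
    ⟨rfl, rfl, rfl⟩ | ⟨rfl, rfl, rfl⟩ | ⟨j, k, x, y, x', y', n, q1, q2, q3, q4⟩
  · exact p0 (Subtype.ext (show (![0, 0, 0, 0, 0, 0] : Vec) = 0 by decide))
  · exact an (fun a0 a1 a2 b0 b1 b2 => ⟨_, _, _, _, _, _, an0 a0 a1 a2 b0 b1 b2⟩) (by decide)
  · exact an (fun a0 a1 a2 b0 b1 b2 => ⟨_, _, _, _, _, _, an1 a0 a1 a2 b0 b1 b2⟩) (by decide)
  · exact an (fun a0 a1 a2 b0 b1 b2 => ⟨_, _, _, _, _, _, an2 a0 a1 a2 b0 b1 b2⟩) (by decide)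
  · exact an (fun a0 a1 a2 b0 b1 b2 => ⟨_, _, _, _, _, _, an3 a0 a1 a2 b0 b1 b2⟩) (by decide)
  · exact an (fun a0 a1 a2 b0 b1 b2 => ⟨_, _, _, _, _, _, an4 a0 a1 a2 b0 b1 b2⟩) (by decide)
  · exact an (fun a0 a1 a2 b0 b1 b2 => ⟨_, _, _, _, _, _, an5 a0 a1 a2 b0 b1 b2⟩) (by decide)
  obtain ⟨a0, a1, a2, hv⟩ := ex x y
  obtain ⟨b0, b1, b2, hw⟩ := ex x' y'
  have m := mov5 j k (l hv)
  have st := Bx.b2 hU hΓ hg h5 (i := 0) (j := j) (k := k) p' hv (by rwa [fix3 j k p3])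
    (by
      rw [sub_eq_iff_eq_add.1 m]
      refine add_mem ?_ hv
      simpa only [cons_val, q1, q2, q3, SetLike.mem_coe] using p')
    fun s t e => by
      have e3 : t * x = 0 := by simpa using congrFun e 3
      have e4 : t * y = 0 := by simpa using congrFun e 4
      obtain rfl : t = 0 := by
        by_contra c
        exact n ⟨(mul_eq_zero.1 e3).resolve_left c, (mul_eq_zero.1 e4).resolve_left c⟩
      rw [zero_smul, add_zero, smul_eq_zero] at e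
      exact ⟨e.resolve_right fun c => p0 (Subtype.ext c), rfl⟩
  obtain ⟨s, hs⟩ := hp' _ (mov53 j k (l hw)) (sub_mem (st _ hw) hw)
  rw [mov5 j k (l hw)] at hs
  exact q4 s ⟨by simpa using congrFun hs 0, by simpa using congrFun hs 1, by simpa using congrFun hs 2⟩

end CL.C3.MM
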