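/-
Subgroups of `GL₆(3)` with Sylow 3-subgroup `UT₃(3)`: counting cosets and regular vectors.
-/
import Cfsg.Agent.Fus.C3MD
import Cfsg.Agent.Grp.Frob

set_option autoImplicit false

namespace CL.C3.MM

open Matrix

namespace Cx

abbrev K := ZMod 3

/-- the coordinates of the vectors that are not fixed by a nontrivial element of `U` -/
def reg : Finset (K × K × K × K × K × K) := Finset.univ.filter fun x => ∀ i j k : K, (i = 0 ∧ j = 0 ∧ k = 0) ∨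
  ¬ (x.1 + 2 * i * x.2.1 + i * i * x.2.2.1 + 2 * k * x.2.2.2.1 + 2 * i * k * x.2.2.2.2.1 + k * k * x.2.2.2.2.2 = x.1 ∧
    x.2.1 + i * x.2.2.1 + j * x.2.2.2.1 + (k + i * j) * x.2.2.2.2.1 + j * k * x.2.2.2.2.2 = x.2.1 ∧
    x.2.2.1 + 2 * j * x.2.2.2.2.1 + j * j * x.2.2.2.2.2 = x.2.2.1 ∧
    x.2.2.2.1 + i * x.2.2.2.2.1 + k * x.2.2.2.2.2 = x.2.2.2.1 ∧ x.2.2.2.2.1 + j * x.2.2.2.2.2 = x.2.2.2.2.1)

theorem card_reg : reg.card = 594 := by decide +kernel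

theorem p3 {t : GL6} (h : t ∈ U) (h1 : t ≠ 1) : P3 t := by
  obtain ⟨i, j, k, rfl⟩ := h
  exact ⟨h1, 1, u_cube i j k⟩

theorem card_compl {H : Subgroup GL6} (h : U ≤ H) : Nat.card ↥(NH H)ᶜ ≤ 594 := by
  rw [← card_reg, ← Nat.card_eq_finsetCard]
  refine Nat.card_le_card_of_injective (fun v => ⟨(v.1 0, v.1 1, v.1 2, v.1 3, v.1 4, v.1 5),
    Finset.mem_filter.2 ⟨Finset.mem_univ _, fun i j k => or_iff_not_imp_left.2 fun n e => v.2
      ⟨u i j k, h (u_mem ..), p3 (u_mem ..) fun l => n (u_inj (l.trans u_zero.symm)), ?_⟩⟩⟩) fun v w e => ?_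
  · rw [u_smul]
    ext a
    fin_cases a
    exacts [e.1, e.2.1, e.2.2.1, e.2.2.2.1, e.2.2.2.2, rfl]
  · replace e := Subtype.mk.inj e
    simp only [Prod.mk.injEq] at e
    ext a
    fin_cases a
    exacts [e.1, e.2.1, e.2.2.1, e.2.2.2.1, e.2.2.2.2.1, e.2.2.2.2.2]

theorem P3.conj {t : GL6} (h : P3 t) (g : GL6) : P3 (g * t * g⁻¹) :=
  ⟨mt conj_eq_one_iff.1 h.1, h.2.imp fun k e => by rw [conj_pow, e, mul_one, mul_inv_cancel]⟩

theorem arith {m : ℕ} (h1 : 27 ∣ m - 1) (h2 : m - 1 ≠ 0) (h3 : (m - 1) * 2 ≤ 594) (h4 : m ∣ 84129611558952960) :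
    m = 28 ∨ m = 55 := by
  obtain ⟨c, hc⟩ := h1
  obtain rfl : m = 27 * c + 1 := by omega
  have : c ≤ 11 := by omega
  interval_cases c <;> simp_all

end Cx

open Cx in
theorem stC : StC := by
  intro Γ H h ne hz
  have h3 : ∀ v ∈ DH Γ H, ∀ g ∈ Γ, g • v ∈ NH H → g ∈ H := fun v hv g hg ⟨t, t1, t2, t3⟩ =>
    h.se g hg (g⁻¹ * t * g⁻¹⁻¹) (hv.2 _ (mul_mem (mul_mem (inv_mem hg) (h.hH t1)) (inv_mem (inv_mem hg))) (by
      rw [inv_inv, mul_smul, mul_smul, t3, inv_smul_smul])) (P3.conj t2 _) (by simpa [mul_assoc] using t1)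
  let S : Set (Γ ⧸ H.subgroupOf Γ) := {((1 : Γ) : Γ ⧸ H.subgroupOf Γ)}ᶜ
  have mS : ∀ g : Γ, (g : Γ ⧸ H.subgroupOf Γ) ∈ S ↔ g.1 ∉ H := fun g => not_congr (by
    rw [Set.mem_singleton_iff, eq_comm, QuotientGroup.eq, inv_one, one_mul, Subgroup.mem_subgroupOf])
  have cS : Nat.card S = H.relIndex Γ - 1 := by
    rw [Nat.card_coe_set_eq, Set.ncard_compl, Set.ncard_singleton]; rfl
  have d27 : 27 ∣ H.relIndex Γ - 1 := by
    rw [← cS, ← card_U, ← Nat.card_congr (Subgroup.subgroupOfEquivOfLe h.le).toEquiv]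
    refine CL.Grp.card_dvd_card_of_free_on S (fun a q hq => ?_) fun a q hq e => ?_ <;>
      obtain ⟨g, rfl⟩ := QuotientGroup.mk_surjective q
    · exact (mS (a * g)).2 fun k => (mS g).1 hq ((H.mul_mem_cancel_left (h.hU a.2)).1 k)
    · by_contra a1
      have k : (g⁻¹ * (a.1 * g)).1 ∈ H := (QuotientGroup.eq (s := H.subgroupOf Γ)).1 e.symm
      exact (mS g).1 hq (inv_mem_iff.1 (h.se _ (inv_mem g.2) _ (h.hU a.2)
        (p3 a.2 fun l => a1 (Subtype.ext (Subtype.ext l))) (by simpa [mul_assoc] using k)))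
  have n0 : H.relIndex Γ - 1 ≠ 0 := by
    obtain ⟨g, g1, g2⟩ := SetLike.exists_of_lt (lt_of_le_of_ne h.hH ne)
    have : Nonempty S := ⟨⟨_, (mS ⟨g, g1⟩).2 g2⟩⟩
    exact cS ▸ Nat.card_pos.ne'
  have h2 : (H.relIndex Γ - 1) * (DH Γ H).ncard ≤ 594 := by
    rw [← cS, ← Nat.card_coe_set_eq, ← Nat.card_prod]
    refine le_trans (Nat.card_le_card_of_injective (fun x => ⟨x.1.1.out.1 • x.2.1, fun k => (mS _).1
      (by rw [QuotientGroup.out_eq']; exact x.1.2) (h3 _ x.2.2 _ x.1.1.out.2 k)⟩) ?_) (card_compl h.hU)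
    rintro ⟨⟨q, hq⟩, v, hv⟩ ⟨⟨q', hq'⟩, v', hv'⟩ e
    have e1 : q.out.1 • v = q'.out.1 • v' := Subtype.mk.inj e
    have e2 := h3 v hv _ (q'.out⁻¹ * q.out).2 (by
      rw [Subgroup.coe_mul, mul_smul, e1, Subgroup.coe_inv, inv_smul_smul]; exact hv'.1)
    obtain rfl : q' = q := by
      rw [← QuotientGroup.out_eq' q, ← QuotientGroup.out_eq' q']; exact QuotientGroup.eq.2 e2
    obtain rfl := smul_left_cancel _ e1
    rfl
  refine ⟨arith d27 n0 (le_trans (Nat.mul_le_mul_left _ ?_) h2) ?_, h2, h3⟩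
  · obtain ⟨⟨t, t1, t2, t3⟩, k⟩ := id hz
    rw [← Set.ncard_pair (show z ≠ -z by decide)]
    refine Set.ncard_le_ncard (Set.pair_subset hz ⟨⟨t, t1, t2, by rw [smul_neg, t3]⟩, fun g hg e => k g hg ?_⟩)
    rwa [smul_neg, neg_inj] at e
  · have := (Subgroup.relIndex_dvd_card H Γ).trans (Subgroup.card_subgroup_dvd_card Γ)
    rw [card_GL_field] at this
    simpa [Fin.prod_univ_six] using this

end CL.C3.MM
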