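/-
Subgroups of `GL₆(3)` with Sylow 3-subgroup `U`: the inverse transpose duality.
-/
import Cfsg.Agent.Fus.C3MD

set_option autoImplicit false

namespace CL.C3.MM

open Matrix

namespace D2x

/-- the Gram matrix of the pairing -/
def PM : Matrix (Fin 6) (Fin 6) (ZMod 3) :=
  !![0, 0, 0, 0, 0, 1; 0, 0, 0, 0, 1, 0; 0, 0, 1, 0, 0, 0; 0, 0, 0, 2, 0, 0; 0, 1, 0, 0, 0, 0; 1, 0, 0, 0, 0, 0]

theorem PM_sq : PM * PM = 1 := by decide +kernel

theorem PM_tr : PMᵀ = PM := by decide +kernel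

/-- the adjoint -/
def ad (M : Matrix (Fin 6) (Fin 6) (ZMod 3)) : Matrix (Fin 6) (Fin 6) (ZMod 3) := PM * Mᵀ * PM

theorem ad_mul (A B : Matrix (Fin 6) (Fin 6) (ZMod 3)) : ad (A * B) = ad B * ad A := by
  simp only [ad, transpose_mul, Matrix.mul_assoc]
  rw [← Matrix.mul_assoc PM PM, PM_sq, Matrix.one_mul]

theorem ad_one : ad 1 = 1 := by rw [ad, transpose_one, Matrix.mul_one, PM_sq]

theorem ad_ad (A : Matrix (Fin 6) (Fin 6) (ZMod 3)) : ad (ad A) = A := by
  simp only [ad, transpose_mul, PM_tr, transpose_transpose, Matrix.mul_assoc]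
  rw [PM_sq, Matrix.mul_one, ← Matrix.mul_assoc, PM_sq, Matrix.one_mul]

theorem ad_u (i j k : ZMod 3) : ∃ l m n, ad (uM i j k) = uM l m n := by revert i j k; decide +kernel

/-- the inverse of the adjoint -/
def ph (g : GL6) : GL6 :=
  ⟨ad g⁻¹.val, ad g.val, by rw [← ad_mul, Units.mul_inv, ad_one], by rw [← ad_mul, Units.inv_mul, ad_one]⟩

theorem ph_ph (g : GL6) : ph (ph g) = g := Units.ext (ad_ad _)

/-- the duality -/
def φ : GL6 ≃* GL6 where
  toFun := ph
  invFun := ph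
  left_inv := ph_ph
  right_inv := ph_ph
  map_mul' a b := Units.ext (by
    show ad (a * b)⁻¹.val = ad a⁻¹.val * ad b⁻¹.val
    rw [_root_.mul_inv_rev, Units.val_mul, ad_mul])

theorem ph_U {g : GL6} (h : g ∈ U) : ph g ∈ U := by
  obtain ⟨i, j, k, e⟩ := U.inv_mem h
  obtain ⟨l, m, n, e'⟩ := ad_u i j k
  exact ⟨l, m, n, Units.ext (by show ad g⁻¹.val = _; rw [e]; exact e')⟩

/-- the pairing -/
def B (v w : Vec) : ZMod 3 := v ⬝ᵥ PM *ᵥ w

theorem B_ph (g : GL6) (v w : Vec) : B (ph g • v) w = B v (g⁻¹ • w) := by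
  show (ad g⁻¹.val *ᵥ v) ⬝ᵥ PM *ᵥ w = v ⬝ᵥ PM *ᵥ (g⁻¹.val *ᵥ w)
  rw [dotProduct_comm, dotProduct_mulVec, dotProduct_comm, ← mulVec_transpose, mulVec_mulVec, mulVec_mulVec, ad,
    transpose_mul, transpose_mul, PM_tr, transpose_transpose, Matrix.mul_assoc, Matrix.mul_assoc, PM_sq, Matrix.mul_one]

/-- the permutation of the pairing -/
def π : Fin 6 → Fin 6 := ![5, 4, 2, 3, 1, 0]

/-- the coefficients of the pairing -/
def cf : Fin 6 → ZMod 3 := ![1, 1, 1, 2, 1, 1]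

theorem B_eq (v w : Vec) : B v w = ∑ a, cf a * v a * w (π a) := by
  simp [B, PM, cf, π, dotProduct, mulVec, Fin.sum_univ_six]
  ring

theorem perp {s s' : Finset (Fin 6)} (h : ∀ a, a ∉ s' ↔ π a ∈ s) (v : Vec) : v ∈ sp s' ↔ ∀ w ∈ sp s, B v w = 0 := by
  refine ⟨fun hv w hw => ?_, fun k a ha => ?_⟩
  · rw [B_eq]
    refine Finset.sum_eq_zero fun a _ => ?_
    by_cases e : a ∈ s'
    · rw [hw _ fun c => (h a).2 c e, mul_zero]
    · rw [hv a e, mul_zero, zero_mul]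
  · have := k (Pi.single (π a) 1) fun i hi => Pi.single_eq_of_ne (fun e : i = π a => hi (e ▸ (h a).1 ha)) _
    rw [B_eq, Finset.sum_eq_single a (fun b _ hb => by
      rw [Pi.single_eq_of_ne (fun e => hb ((by decide : Function.Injective π) e)), mul_zero]) (by simp),
      Pi.single_eq_same, mul_one] at this
    exact (mul_eq_zero.1 this).resolve_left ((by decide : ∀ a, cf a ≠ 0) a)

theorem stab_inv {g : GL6} {W : Submodule (ZMod 3) Vec} (h : Stab g W) : Stab g⁻¹ W := by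
  have k : ∀ n : ℕ, Stab (g ^ n) W := fun n => by
    induction n with
    | zero => exact fun v hv => by rwa [pow_zero, one_smul]
    | succ n ih => exact fun v hv => by rw [pow_succ, mul_smul]; exact ih _ (h v hv)
  have e : g⁻¹ = g ^ (orderOf g - 1) := by
    rw [inv_eq_iff_mul_eq_one, ← pow_succ', Nat.sub_add_cancel (orderOf_pos g), pow_orderOf_eq_one]
  exact e ▸ k _

theorem dual {s s' : Finset (Fin 6)} (h : ∀ a, a ∉ s' ↔ π a ∈ s) {g : GL6} (k : Stab g (sp s)) : Stab (ph g) (sp s') :=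
  fun v hv => (perp h _).2 fun w hw => by rw [B_ph]; exact (perp h v).1 hv _ (stab_inv k w hw)

theorem dual_iff {s s' : Finset (Fin 6)} (h : ∀ a, a ∉ s' ↔ π a ∈ s) (h' : ∀ a, a ∉ s ↔ π a ∈ s') (g : GL6) :
    Stab (φ g) (sp s') ↔ Stab g (sp s) := ⟨fun k => ph_ph g ▸ dual h' k, dual h⟩

end D2x

open D2x in
theorem stD : StD :=
  ⟨φ, fun g => ⟨fun k => ph_ph g ▸ ph_U k, ph_U⟩, Units.ext (by
    show ad (-1 : GL6)⁻¹.val = _
    rw [inv_neg_one, Units.val_neg, Units.val_one, ad, transpose_neg, transpose_one, Matrix.mul_neg, Matrix.mul_one,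
      Matrix.neg_mul, PM_sq]), dual_iff (by decide) (by decide), dual_iff (by decide) (by decide),
    dual_iff (by decide) (by decide), dual_iff (by decide) (by decide)⟩

end CL.C3.MM
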