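/-
Subgroups of `GL₆(3)` with Sylow 3-subgroup `UT₃(3)`: stabilisers of vectors of `V3`.
-/
import Cfsg.Agent.Fus.C3MD

set_option autoImplicit false

namespace CL.C3.MM

open Matrix Subgroup MulAction

namespace Kx

theorem free_dvd {G K α : Type*} [Group G] [Group K] [MulAction G α] (φ : K →* G) (X : Set α)
    (h1 : ∀ k, ∀ x ∈ X, φ k • x ∈ X) (h2 : ∀ k, ∀ x ∈ X, φ k • x = x → k = 1) : Nat.card K ∣ X.ncard := by
  let _ : MulAction K X :=
    { smul := fun k x => ⟨φ k • x, h1 k x x.2⟩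
      one_smul := fun x => Subtype.ext (show φ 1 • x.1 = x.1 by rw [map_one, one_smul])
      mul_smul := fun a b x => Subtype.ext (show φ (a * b) • x.1 = φ a • φ b • x.1 by rw [map_mul, mul_smul]) }
  rw [← Nat.card_coe_set_eq, Nat.card_congr (selfEquivOrbitsQuotientProd (G := K) (X := X) fun x =>
    eq_bot_iff.2 fun k e => h2 k x x.2 (congrArg Subtype.val e)), Nat.card_prod]
  exact dvd_mul_left _ _

theorem ncard_orb (H : Subgroup GL6) (v : Vec) : (orb H v).ncard = (stabilizer GL6 v).relIndex H := by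
  rw [show orb H v = orbit H v from Set.ext fun w => ⟨fun ⟨h, a, e⟩ => ⟨⟨h, a⟩, e⟩, fun ⟨h, e⟩ => ⟨h, h.2, e⟩⟩,
    ← index_stabilizer]
  rfl

theorem ncard_cos {G : Type*} [Group G] (H K : Subgroup G) :
    {c : G ⧸ H | ∃ g ∈ K, (g : G ⧸ H) = c}.ncard = H.relIndex K := by
  rw [show {c : G ⧸ H | ∃ g ∈ K, (g : G ⧸ H) = c} = orbit K ((1 : G) : G ⧸ H) from Set.ext fun w =>
    ⟨fun ⟨h, a, e⟩ => ⟨⟨h, a⟩, (congrArg _ (mul_one h)).trans e⟩, fun ⟨h, e⟩ => ⟨h * 1, by simp, e⟩⟩, ← index_stabilizer]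
  congr 1
  ext k
  rw [mem_stabilizer_iff, mem_subgroupOf, eq_comm]
  exact QuotientGroup.eq.trans (by simp [Subgroup.smul_def])

def φ1 : Multiplicative (ZMod 3) →* GL6 := MonoidHom.mk' (fun k => u k.toAdd 0 0) fun a b => by simp [u_mul]
def φ2 : Multiplicative (ZMod 3 × ZMod 3) →* GL6 :=
  MonoidHom.mk' (fun k => u 0 k.toAdd.1 k.toAdd.2) fun a b => by simp [u_mul]
def φ3 : ℤˣ →* GL6 := Units.map (Int.castRingHom _).toMonoidHom

theorem φ3_neg : φ3 (-1) = -1 := Units.ext (by simp [φ3])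

theorem even_orb {H : Subgroup GL6} (h : -1 ∈ H) {v : Vec} (hv : v ≠ 0) : 2 ∣ (orb H v).ncard := by
  have := free_dvd φ3 (orb H v) (fun k _ ⟨g, a, e⟩ => ⟨φ3 k * g, mul_mem ?_ a, by rw [mul_smul, e]⟩)
    fun k _ ⟨g, _, e⟩ e' => (Int.units_eq_one_or k).resolve_right ?_
  · simpa using this
  · rcases Int.units_eq_one_or k with rfl | rfl
    exacts [map_one φ3 ▸ one_mem H, φ3_neg ▸ h]
  · rintro rfl
    rw [φ3_neg, neg_one_smul', ← e] at e'
    exact hv ((smul_eq_zero_iff_eq g).1 (funext fun i => (by decide : ∀ a : ZMod 3, -a = a → a = 0) _ (congrFun e' i)))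

theorem f1 : ∀ v ∈ Z1, v = 0 ∨ v = z ∨ -v = z := by decide +kernel
theorem f2 : (Finset.univ.filter fun v => v ∈ V3 ∧ v ∉ Z1).card = 24 := by decide +kernel
theorem f3 : ∀ v ∈ V3, v ∉ Z1 → ∀ k, u k 0 0 • v = v → k = 0 := by simp only [u_smul]; decide +kernel
theorem f4 : ∀ v ∈ V3, ∀ j k, u 0 j k • v = v := by simp only [u_smul]; decide +kernel
theorem f5 : ∀ v ∈ V3, v ∉ Z1 → ∃ a b c : ZMod 3, z = a • v + b • u 1 0 0 • v + c • u 2 0 0 • v := by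
  simp only [u_smul]; decide +kernel

theorem p3 {i j k : ZMod 3} (h : u i j k ≠ 1) : P3 (u i j k) := ⟨h, 1, u_cube i j k⟩

theorem nh {H : Subgroup GL6} (h : U ≤ H) {v : Vec} (hv : v ∈ V3) : v ∈ NH H :=
  ⟨_, h (u_mem 0 0 1), p3 fun e => absurd (u_inj (e.trans u_zero.symm)).2.2 (by decide), f4 v hv 0 1⟩

end Kx

open Kx in
theorem stK (hC : StC) : StK := by
  intro Γ H se ne h1 hz st v hv hv' h0
  have hX : ∀ w ∈ orb H v, w ∈ V3 ∧ w ∉ Z1 := by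
    rintro _ ⟨h, a, rfl⟩
    refine ⟨st h a v hv, fun e => ?_⟩
    rcases f1 _ e with e | e | e
    · exact h0 ((smul_eq_zero_iff_eq h).1 e)
    · exact hv' ⟨h⁻¹, inv_mem a, by rw [← e, inv_smul_smul]⟩
    · exact hv' ⟨h⁻¹ * -1, mul_mem (inv_mem a) h1, by rw [mul_smul, neg_one_smul', ← e, neg_neg, inv_smul_smul]⟩
  have hvX : v ∈ orb H v := ⟨1, one_mem _, one_smul _ _⟩
  have k1 : (orb H v).ncard ≤ 24 := by
    rw [← f2, ← Set.ncard_coe_finset]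
    exact Set.ncard_le_ncard fun w hw => by simpa using hX w hw
  have k2 : 0 < (orb H v).ncard := (Set.ncard_pos).2 ⟨v, hvX⟩
  have k3 : 3 ∣ (orb H v).ncard := by
    simpa using free_dvd φ1 (orb H v) (fun k _ ⟨g, a, e⟩ => ⟨φ1 k * g, mul_mem (se.hU (u_mem ..)) a, by rw [mul_smul, e]⟩)
      fun k w a e => f3 w (hX w a).1 (hX w a).2 _ e
  have k4 := even_orb h1 h0
  refine ⟨by omega, fun hm => ⟨nh se.hU hv, ?_⟩⟩
  obtain ⟨c1, -, c3⟩ := hC Γ H se ne hz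
  let T := stabilizer GL6 v
  let C : Subgroup GL6 → Set (GL6 ⧸ H) := fun K => {c | ∃ g ∈ K, (g : GL6 ⧸ H) = c}
  have m1 : 9 ∣ (C (Γ ⊓ T) \ {((1 : GL6) : GL6 ⧸ H)}).ncard := by
    have b : ∀ k, φ2 k ∈ H := fun k => se.hU (u_mem ..)
    have := free_dvd φ2 (C (Γ ⊓ T) \ {((1 : GL6) : GL6 ⧸ H)}) ?_ ?_
    · simpa using this
    · rintro k _ ⟨⟨g, a, rfl⟩, e⟩
      refine ⟨⟨φ2 k * g, mul_mem ⟨se.hH (b k), f4 v hv _ _⟩ a, rfl⟩, fun e' => e (QuotientGroup.eq.2 ?_)⟩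
      have := mul_mem (QuotientGroup.eq.1 (e' : ((φ2 k * g : GL6) : GL6 ⧸ H) = _)) (b k)
      simpa using this
    · rintro k _ ⟨⟨g, a, rfl⟩, e⟩ e'
      by_contra hk
      refine e (QuotientGroup.eq.2 ?_)
      have := QuotientGroup.eq.1 (e' : ((φ2 k * g : GL6) : GL6 ⧸ H) = _).symm
      rw [mul_one]
      refine se.se _ (inv_mem a.1) _ (b k) (p3 fun e => hk ?_) (by simpa [mul_assoc] using this)
      exact Prod.ext (u_inj (e.trans u_zero.symm)).2.1 (u_inj (e.trans u_zero.symm)).2.2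
  have m0 : ((1 : GL6) : GL6 ⧸ H) ∈ C (Γ ⊓ T) := ⟨1, one_mem _, rfl⟩
  have m2 := Set.ncard_sdiff_singleton_add_one m0
  have m3 : (C (Γ ⊓ T)).ncard ≤ (C Γ).ncard := Set.ncard_le_ncard fun _ ⟨g, a, e⟩ => ⟨g, a.1, e⟩
  rw [ncard_cos] at m2 m3
  rw [ncard_cos] at m3
  have m4 : H.relIndex (Γ ⊓ T) * (orb Γ v).ncard = (orb H v).ncard * H.relIndex Γ := by
    rw [ncard_orb, ncard_orb, ← inf_relIndex_right H, ← inf_relIndex_left Γ, ← inf_relIndex_left H,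
      relIndex_mul_relIndex _ _ _ inf_le_right inf_le_left, relIndex_mul_relIndex _ _ _ inf_le_left se.hH, ← inf_assoc,
      inf_eq_left.2 se.hH]
  have m5 := even_orb (se.hH h1) h0
  have m6 : H.relIndex (Γ ⊓ T) ≠ H.relIndex Γ := fun e => ne (le_antisymm se.hH fun g hg => c3 z hz g hg (nh se.hU ?_))
  · have m7 : H.relIndex (Γ ⊓ T) = 1 := by
      obtain ⟨a, ha⟩ := m1
      obtain ⟨r, hr⟩ := m5
      rw [ha] at m2
      rw [hr, ← m2] at m4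
      have : a ≤ 5 := by omega
      rcases c1 with c | c <;> rw [c] at m3 m4 m6 hm <;> interval_cases a <;> omega
    exact fun g a b => relIndex_eq_one.1 m7 ⟨a, b⟩
  rw [e, mul_comm] at m4
  have m7 : orb H v = orb Γ v := Set.eq_of_subset_of_ncard_le (fun _ ⟨g, a, e⟩ => ⟨g, se.hH a, e⟩)
    (mul_right_cancel₀ (by omega) m4).le
  have m8 : ∀ g ∈ Γ, g • v ∈ V3 := fun g a => (hX _ (m7 ▸ ⟨g, a, rfl⟩)).1
  obtain ⟨a, b, c, e⟩ := f5 v hv (hX v hvX).2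
  rw [e, smul_add, smul_add, smul_smul', smul_smul', smul_smul', ← mul_smul, ← mul_smul]
  exact add_mem (add_mem (V3.smul_mem _ (m8 g hg)) (V3.smul_mem _ (m8 _ (mul_mem hg (se.le (u_mem ..))))))
    (V3.smul_mem _ (m8 _ (mul_mem hg (se.le (u_mem ..)))))

end CL.C3.MM
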