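/-
Subgroups of `GL₆(3)` with Sylow 3-subgroup `UT₃(3)`: short orbits of the vector `z`.
-/
import Cfsg.Agent.Fus.C3MD
import Cfsg.Agent.Grp.SylowIn

set_option autoImplicit false
set_option synthInstance.maxSize 4096
set_option synthInstance.maxHeartbeats 400000

namespace CL.C3.MM

namespace Sx

/-- coordinates -/
abbrev T := ZMod 3 × ZMod 3 × ZMod 3 × ZMod 3 × ZMod 3 × ZMod 3

instance decT : DecidableEq T := inferInstance

/-- the action of `u i j k` in coordinates -/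
def f (i j k : ZMod 3) (v : T) : T :=
  (v.1 + 2 * i * v.2.1 + i * i * v.2.2.1 + 2 * k * v.2.2.2.1 + 2 * i * k * v.2.2.2.2.1 + k * k * v.2.2.2.2.2,
    v.2.1 + i * v.2.2.1 + j * v.2.2.2.1 + (k + i * j) * v.2.2.2.2.1 + j * k * v.2.2.2.2.2,
    v.2.2.1 + 2 * j * v.2.2.2.2.1 + j * j * v.2.2.2.2.2,
    v.2.2.2.1 + i * v.2.2.2.2.1 + k * v.2.2.2.2.2, v.2.2.2.2.1 + j * v.2.2.2.2.2, v.2.2.2.2.2)

/-- representatives of the short orbits -/
def reps : List T := [(0,0,0,1,0,0), (0,0,1,1,0,0), (0,0,2,1,0,0), (0,0,0,0,0,1), (1,0,0,0,0,1), (2,0,0,0,0,1)]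

/-- the candidates for the orbit of `z` -/
def yl : List (T × List T) := [
  ((0,0,0,1,0,0), [(0,0,0,1,0,0), (2,0,0,1,0,0), (1,0,0,1,0,0), (0,1,0,1,0,0), (2,1,0,1,0,0), (1,1,0,1,0,0),
    (0,2,0,1,0,0), (2,2,0,1,0,0), (1,2,0,1,0,0), (0,0,0,2,0,0), (1,0,0,2,0,0), (2,0,0,2,0,0), (0,2,0,2,0,0),
    (1,2,0,2,0,0), (2,2,0,2,0,0), (0,1,0,2,0,0), (1,1,0,2,0,0), (2,1,0,2,0,0), (1,0,0,0,0,0), (2,0,0,0,0,0)]),
  ((0,0,1,1,0,0), [(0,0,1,1,0,0), (2,0,1,1,0,0), (1,0,1,1,0,0), (0,1,1,1,0,0), (2,1,1,1,0,0), (1,1,1,1,0,0),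
    (0,2,1,1,0,0), (2,2,1,1,0,0), (1,2,1,1,0,0), (0,0,2,2,0,0), (1,0,2,2,0,0), (2,0,2,2,0,0), (0,2,2,2,0,0),
    (1,2,2,2,0,0), (2,2,2,2,0,0), (0,1,2,2,0,0), (1,1,2,2,0,0), (2,1,2,2,0,0), (1,0,0,0,0,0), (2,0,0,0,0,0)]),
  ((0,0,2,1,0,0), [(0,0,2,1,0,0), (2,0,2,1,0,0), (1,0,2,1,0,0), (0,1,2,1,0,0), (2,1,2,1,0,0), (1,1,2,1,0,0),
    (0,2,2,1,0,0), (2,2,2,1,0,0), (1,2,2,1,0,0), (0,0,1,2,0,0), (1,0,1,2,0,0), (2,0,1,2,0,0), (0,2,1,2,0,0),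
    (1,2,1,2,0,0), (2,2,1,2,0,0), (0,1,1,2,0,0), (1,1,1,2,0,0), (2,1,1,2,0,0), (1,0,0,0,0,0), (2,0,0,0,0,0)]),
  ((0,0,0,0,0,1), [(0,0,0,0,0,1), (1,0,0,1,0,1), (1,0,0,2,0,1), (0,0,1,0,1,1), (1,1,1,1,1,1), (1,2,1,2,1,1),
    (0,0,1,0,2,1), (1,2,1,1,2,1), (1,1,1,2,2,1), (0,0,0,0,0,2), (2,0,0,2,0,2), (2,0,0,1,0,2), (0,0,2,0,2,2),
    (2,2,2,2,2,2), (2,1,2,1,2,2), (0,0,2,0,1,2), (2,1,2,2,1,2), (2,2,2,1,1,2), (1,0,0,0,0,0), (2,0,0,0,0,0)]),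
  ((1,0,0,0,0,1), [(1,0,0,0,0,1), (2,0,0,1,0,1), (2,0,0,2,0,1), (1,0,1,0,1,1), (2,1,1,1,1,1), (2,2,1,2,1,1),
    (1,0,1,0,2,1), (2,2,1,1,2,1), (2,1,1,2,2,1), (2,0,0,0,0,2), (1,0,0,2,0,2), (1,0,0,1,0,2), (2,0,2,0,2,2),
    (1,2,2,2,2,2), (1,1,2,1,2,2), (2,0,2,0,1,2), (1,1,2,2,1,2), (1,2,2,1,1,2), (1,0,0,0,0,0), (2,0,0,0,0,0)]),
  ((2,0,0,0,0,1), [(2,0,0,0,0,1), (0,0,0,1,0,1), (0,0,0,2,0,1), (2,0,1,0,1,1), (0,1,1,1,1,1), (0,2,1,2,1,1),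
    (2,0,1,0,2,1), (0,2,1,1,2,1), (0,1,1,2,2,1), (1,0,0,0,0,2), (0,0,0,2,0,2), (0,0,0,1,0,2), (1,0,2,0,2,2),
    (0,2,2,2,2,2), (0,1,2,1,2,2), (1,0,2,0,1,2), (0,1,2,2,1,2), (0,2,2,1,1,2), (1,0,0,0,0,0), (2,0,0,0,0,0)])]

/-- the number of representations as a sum of three elements -/
def n3 (l : List T) (v : T) : ℕ := (l.map fun a => l.countP fun b => v - a - b ∈ l).sum

theorem chk1 : ∀ a b c d e g : ZMod 3, ¬ (d = 0 ∧ e = 0 ∧ g = 0) →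
    (∀ i j k, f i j k (a, b, c, d, e, g) = (a, b, c, d, e, g) → i = 0 ∧ j = 0 ∧ k = 0) ∨
      ∃ i j k, f i j k (a, b, c, d, e, g) ∈ reps ∨ -f i j k (a, b, c, d, e, g) ∈ reps := by decide +kernel

theorem chk0 : ∀ r ∈ reps, ∃ x ∈ yl, x.1 = r := by decide +kernel

theorem chk2 : ∀ x ∈ yl, x.2.Nodup ∧ x.2.length = 20 ∧ (1,0,0,0,0,0) ∈ x.2 ∧ (2,0,0,0,0,0) ∈ x.2 ∧
    n3 x.2 x.1 ≠ n3 x.2 (1,0,0,0,0,0) := by decide +kernel

theorem chk3 : ∀ x ∈ yl, ∀ v ∈ x.2, -v ∈ x.2 ∧ f 1 0 0 v ∈ x.2 ∧ f 0 1 0 v ∈ x.2 ∧ f 0 0 1 v ∈ x.2 ∧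
    (v = (1,0,0,0,0,0) ∨ v = -(1,0,0,0,0,0) ∨ ∃ j k, v = f 0 j k x.1 ∨ v = -f 0 j k x.1) := by decide +kernel

theorem chk4 : ∀ a b c d e g : ZMod 3, ¬ (b = 0 ∧ c = 0 ∧ d = 0 ∧ e = 0 ∧ g = 0) →
    ∃ x ∈ [((1 : ZMod 3), (0 : ZMod 3), (0 : ZMod 3)), (0, 1, 0), (0, 0, 1)],
      f x.1 x.2.1 x.2.2 (a, b, c, d, e, g) ≠ (a, b, c, d, e, g) ∧
      f x.1 x.2.1 x.2.2 (a, b, c, d, e, g) ≠ -(a, b, c, d, e, g) := by
  decide +kernel

theorem n3_map {l : List T} (hl : l.Nodup) (φ : T ≃+ T) (h : ∀ v, φ v ∈ l ↔ v ∈ l) (v : T) :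
    n3 l (φ v) = n3 l v := by
  have hp : (l.map φ).Perm l := (List.perm_ext_iff_of_nodup (hl.map φ.injective) hl).2 fun a =>
    ⟨fun ha => by obtain ⟨b, hb, rfl⟩ := List.mem_map.1 ha; exact (h b).2 hb,
      fun ha => List.mem_map.2 ⟨φ.symm a, (h _).1 (by simpa using ha), by simp⟩⟩
  rw [n3, n3, ← (hp.map _).sum_eq, List.map_map]
  refine congrArg List.sum (List.map_congr_left fun a _ => ?_)
  rw [Function.comp, ← hp.countP_eq, List.countP_map]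
  exact List.countP_congr fun b _ => by simp only [Function.comp, ← map_sub, h]

/-- coordinates of a vector -/
def e : Vec ≃+ T where
  toFun v := (v 0, v 1, v 2, v 3, v 4, v 5)
  invFun x := ![x.1, x.2.1, x.2.2.1, x.2.2.2.1, x.2.2.2.2.1, x.2.2.2.2.2]
  left_inv v := by ext i; fin_cases i <;> rfl
  right_inv _ := rfl
  map_add' _ _ := rfl

theorem e_u (i j k : ZMod 3) (v : Vec) : e (u i j k • v) = f i j k (e v) := by rw [u_smul]; rfl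

theorem e_z : e z = (1, 0, 0, 0, 0, 0) := rfl

theorem mem_Z1 {v : Vec} : v ∈ Z1 ↔ v 1 = 0 ∧ v 2 = 0 ∧ v 3 = 0 ∧ v 4 = 0 ∧ v 5 = 0 :=
  ⟨fun h => ⟨h 1 (by decide), h 2 (by decide), h 3 (by decide), h 4 (by decide), h 5 (by decide)⟩,
    fun ⟨a, b, c, d, g⟩ i hi => by fin_cases i <;> first | assumption | exact absurd (by decide) hi⟩

theorem mem_L2 {v : Vec} : v ∈ L2 ↔ v 2 = 0 ∧ v 3 = 0 ∧ v 4 = 0 ∧ v 5 = 0 :=
  ⟨fun h => ⟨h 2 (by decide), h 3 (by decide), h 4 (by decide), h 5 (by decide)⟩,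
    fun ⟨a, b, c, d⟩ i hi => by fin_cases i <;> first | assumption | exact absurd (by decide) hi⟩

theorem mem_V3 {v : Vec} : v ∈ V3 ↔ v 3 = 0 ∧ v 4 = 0 ∧ v 5 = 0 :=
  ⟨fun h => ⟨h 3 (by decide), h 4 (by decide), h 5 (by decide)⟩,
    fun ⟨a, b, c⟩ i hi => by fin_cases i <;> first | assumption | exact absurd (by decide) hi⟩

theorem sq1 : ∀ a : ZMod 3, a ≠ 0 → a * a = 1 := by decide

theorem Z1_le {S : Submodule (ZMod 3) Vec} (hz : z ∈ S) : Z1 ≤ S := fun v hv => by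
  obtain ⟨a, b, c, d, g⟩ := mem_Z1.1 hv
  have : v = v 0 • z := by ext i; fin_cases i <;> simp [z, *]
  exact this ▸ S.smul_mem _ hz

theorem L2_le {S : Submodule (ZMod 3) Vec} (hz : z ∈ S) {q : Vec} (hq : q ∈ S) (h2 : q ∈ L2) (h1 : q 1 ≠ 0) :
    L2 ≤ S := fun v hv => by
  obtain ⟨a, b, c, d⟩ := mem_L2.1 hv
  obtain ⟨a', b', c', d'⟩ := mem_L2.1 h2
  have h : v - (v 1 * q 1) • q ∈ S := Z1_le hz (mem_Z1.2 (by simp [mul_assoc, sq1 _ h1, *]))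
  simpa using S.add_mem h (S.smul_mem (v 1 * q 1) hq)

theorem V3_le {S : Submodule (ZMod 3) Vec} (hz : z ∈ S) {q : Vec} (hq : q ∈ S) (hq' : u 1 0 0 • q ∈ S)
    (h3 : q ∈ V3) (h2 : q 2 ≠ 0) : V3 ≤ S := fun v hv => by
  obtain ⟨a, b, c⟩ := mem_V3.1 hv
  obtain ⟨a', b', c'⟩ := mem_V3.1 h3
  have h : v - (v 2 * q 2) • q ∈ S := L2_le hz (S.sub_mem hq' hq) (mem_L2.2 (by simp [u_smul, *]))
    (by simpa [u_smul, *] using h2) (mem_L2.2 (by simp [mul_assoc, sq1 _ h2, *]))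
  simpa using S.add_mem h (S.smul_mem (v 2 * q 2) hq)

variable {H : Subgroup GL6}

theorem smul_mem {g : GL6} (hg : g ∈ H) {v : Vec} (hv : v ∈ orb H z) : g • v ∈ orb H z :=
  let ⟨a, ha, e⟩ := hv
  ⟨g * a, mul_mem hg ha, by rw [mul_smul, e]⟩

theorem z_mem : z ∈ orb H z := ⟨1, one_mem _, one_smul _ _⟩

theorem stab {W : Submodule (ZMod 3) Vec} (h1 : ∀ v ∈ orb H z, v ∈ W)
    (h2 : W ≤ Submodule.span (ZMod 3) (orb H z)) : ∀ h ∈ H, Stab h W := fun h hh v hv => by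
  have hv' := h2 hv
  clear hv
  induction hv' using Submodule.span_induction with
  | mem x hx => exact h1 _ (smul_mem hh hx)
  | zero => rw [smul_zero]; exact W.zero_mem
  | add x y _ _ a b => rw [smul_add]; exact W.add_mem a b
  | smul c x _ a => rw [smul_smul']; exact W.smul_mem c a

theorem caseA (hU : U ≤ H) (hm : -1 ∈ H) (hc : (orb H z).ncard ≤ 22) : ∀ q ∈ orb H z, q ∈ V3 := by
  intro q hq
  by_contra h3
  have hneg : ∀ v ∈ orb H z, -v ∈ orb H z := fun v hv => neg_one_smul' v ▸ smul_mem hm hv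
  have hu : ∀ i j k, ∀ v ∈ orb H z, u i j k • v ∈ orb H z := fun i j k v hv => smul_mem (hU (u_mem ..)) hv
  rcases chk1 (q 0) (q 1) (q 2) (q 3) (q 4) (q 5) (fun h => h3 (mem_V3.2 h)) with h | ⟨i, j, k, h⟩
  · have := Nat.card_le_card_of_injective (fun g : U => (⟨g.1 • q, smul_mem (hU g.2) hq⟩ : orb H z)) fun a b hab => by
      obtain ⟨i, j, k, h1⟩ := mul_mem (inv_mem b.2) a.2
      have h2 : u i j k • q = q := by
        rw [← h1, mul_smul, inv_smul_eq_iff]; exact congrArg Subtype.val hab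
      obtain ⟨rfl, rfl, rfl⟩ := h i j k ((e_u i j k q).symm.trans (congrArg e h2))
      rw [u_zero, inv_mul_eq_one] at h1
      exact Subtype.ext h1.symm
    rw [card_U, Nat.card_coe_set_eq] at this
    omega
  obtain ⟨r, hr, hr'⟩ : ∃ r ∈ orb H z, e r ∈ reps := by
    rcases h with h | h
    · exact ⟨_, hu i j k q hq, by rw [e_u]; exact h⟩
    · exact ⟨_, hneg _ (hu i j k q hq), by rw [map_neg, e_u]; exact h⟩
  obtain ⟨⟨r', l⟩, hx, rfl : r' = e r⟩ := chk0 _ hr'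
  obtain ⟨nd, len, z1, z2, ne⟩ := chk2 _ hx
  have h4 := chk3 _ hx
  dsimp only at nd len z1 z2 ne h4
  have sub : ∀ v, e v ∈ l → v ∈ orb H z := fun v hv => by
    rcases (h4 _ hv).2.2.2.2 with h | h | ⟨j, k, h | h⟩
    · rw [e.injective (h.trans e_z.symm)]; exact z_mem
    · rw [e.injective (h.trans (map_neg e z).symm)]; exact hneg _ z_mem
    · rw [← e_u] at h; rw [e.injective h]; exact hu _ _ _ _ hr
    · rw [← e_u, ← map_neg] at h; rw [e.injective h]; exact hneg _ (hu _ _ _ _ hr)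
  by_cases hall : ∀ y ∈ orb H z, e y ∈ l
  · obtain ⟨g, hg, rfl⟩ := hr
    refine ne (n3_map nd (e.symm.trans ((DistribMulAction.toAddEquiv Vec g).trans e)) (fun v => ?_) (e z))
    obtain ⟨v, rfl⟩ := e.surjective v
    refine ⟨fun h => hall _ ?_, fun h => hall _ (smul_mem hg (sub _ h))⟩
    simpa using smul_mem (inv_mem hg) (sub (g • v) h)
  push Not at hall
  obtain ⟨y, hy, hyl⟩ := hall
  have y0 : y ≠ 0 := by
    obtain ⟨g, -, rfl⟩ := hy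
    exact fun h => absurd ((smul_eq_zero_iff_eq g).1 h) (by decide)
  obtain ⟨x, hx', a, b⟩ := chk4 (y 0) (y 1) (y 2) (y 3) (y 4) (y 5) (by
    rintro ⟨a, b, c, d, g⟩
    have h5 : e y = (y 0, 0, 0, 0, 0, 0) := by change (y 0, y 1, y 2, y 3, y 4, y 5) = _; rw [a, b, c, d, g]
    have h6 : ∀ s : ZMod 3, s = 0 ∨ s = 1 ∨ s = 2 := by decide
    rcases h6 (y 0) with h | h | h <;> rw [h] at h5
    · exact y0 (e.injective h5)
    · exact hyl (h5 ▸ z1)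
    · exact hyl (h5 ▸ z2))
  change f _ _ _ (e y) ≠ e y at a
  change f _ _ _ (e y) ≠ -e y at b
  have cl : ∀ v ∈ l, f x.1 x.2.1 x.2.2 v ∈ l := fun v hv => by
    simp only [List.mem_cons, List.not_mem_nil, or_false] at hx'
    rcases hx' with rfl | rfl | rfl
    exacts [(h4 v hv).2.1, (h4 v hv).2.2.1, (h4 v hv).2.2.2.1]
  have c : f x.1 x.2.1 x.2.2 (e y) ∉ l := fun h => hyl (by
    have := cl _ (cl _ h)
    rwa [← e_u, ← e_u, ← e_u, ← mul_smul, ← mul_smul, ← pow_three', u_cube, one_smul] at this)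
  have d : -e y ∉ l := fun h => hyl (by simpa using (h4 _ h).1)
  have g : e y ≠ -e y := fun h => y0 (by
    have h7 : ∀ s : ZMod 3, s = -s → s = 0 := by decide
    rw [← map_neg] at h
    exact funext fun i => h7 _ (congrFun (e.injective h) i))
  have nd' : (f x.1 x.2.1 x.2.2 (e y) :: e y :: -e y :: l).Nodup := by simp [a, b, c, d, g, hyl, nd]
  have h8 := Set.ncard_le_ncard (s := (f x.1 x.2.1 x.2.2 (e y) :: e y :: -e y :: l).toFinset)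
    (t := e '' orb H z) fun v hv => by
      simp only [List.coe_toFinset, List.mem_cons, Set.mem_ofPred_eq] at hv
      rcases hv with rfl | rfl | rfl | hv
      · exact ⟨_, hu _ _ _ _ hy, e_u ..⟩
      · exact ⟨_, hy, rfl⟩
      · exact ⟨_, hneg _ hy, map_neg ..⟩
      · exact ⟨e.symm v, sub _ (by simpa using hv), by simp⟩
  rw [Set.ncard_coe_finset, List.toFinset_card_of_nodup nd', Set.ncard_image_of_injective _ e.injective] at h8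
  simp only [List.length_cons, len] at h8
  omega

theorem chk5 : ∀ i j k a b c d g : ZMod 3, c + 2 * j * d + j * j * g + 2 * j * (d + j * g) + j * j * g -
    2 * (c + 2 * j * d + j * j * g) + c = 0 → a + i * c + j * b + (k + i * j) * d + j * k * g +
      i * (c + 2 * j * d + j * j * g) + j * (b + i * d + k * g) + (k + i * j) * (d + j * g) + j * k * g -
      2 * (a + i * c + j * b + (k + i * j) * d + j * k * g) + a = 0 := by
  intro i j k a b c d g h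
  have h1 : ∀ j g : ZMod 3, 2 * j * j * g = 0 → j * g = 0 := by decide
  have h2 := h1 j g (by linear_combination h)
  have h3 : (3 : ZMod 3) = 0 := rfl
  linear_combination (2 * i * j + 2 * k) * h2 + i * j * d * h3

theorem caseC (hU : U ≤ H) (hn : ¬ 81 ∣ Nat.card H) (h2 : ∀ v ∈ orb H z, v ∈ L2) : ∀ v ∈ orb H z, v 1 = 0 := by
  intro q hq
  by_contra h1
  have st := stab h2 (L2_le (Submodule.subset_span z_mem) (Submodule.subset_span hq) (h2 q hq) h1)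
  have hS : CL.Grp.IsSylowIn 3 U H := ⟨hU, IsPGroup.of_card (n := 3) card_U, fun ⟨m, hm⟩ => hn ⟨m, by
    rw [← (U.subgroupOf H).index_mul_card, Nat.card_congr (Subgroup.subgroupOfEquivOfLe hU).toEquiv, card_U]
    change U.relIndex H * 27 = _
    rw [hm]; ring⟩⟩
  have hK : H ≤ Subgroup.normalizer ((H ⊓ fixingSubgroup GL6 (L2 : Set Vec) : Subgroup GL6) : Set GL6) :=
    Subgroup.le_normalizer_iff.2 fun g hg x hx => Subgroup.mem_inf.2 ⟨mul_mem (mul_mem hg hx.1) (inv_mem hg),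
      (mem_fixingSubgroup_iff _).2 fun v hv => by
        rw [mul_smul, mul_smul, (mem_fixingSubgroup_iff _).1 hx.2 _ (st _ (inv_mem hg) v hv), smul_inv_smul]⟩
  obtain ⟨h, hh, hq'⟩ := id hq
  obtain ⟨n, hn1, hn2⟩ := (hS.inf_of_normalized inf_le_left hK).frattini hK hh
  have e1 : (n * h) • z = q := by rw [mul_smul, hq', (mem_fixingSubgroup_iff _).1 hn1.2 q (h2 q hq)]
  obtain ⟨⟨i, j, k, e2⟩, -⟩ := (Subgroup.mem_normalizer_iff.1 hn2 (u 0 0 1)).1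
    ⟨u_mem .., hU (u_mem ..), (mem_fixingSubgroup_iff _).2 fun v hv => by
      obtain ⟨a, b, c, d⟩ := mem_L2.1 hv
      rw [u_smul]; ext i; fin_cases i <;> simp [*]⟩
  generalize n * h = g at e1 e2
  have e3 : u 0 0 1 • u 0 0 1 • ![0, 0, 0, 0, 0, 1] - (2 : ZMod 3) • u 0 0 1 • ![0, 0, 0, 0, 0, 1] +
      ![0, 0, 0, 0, 0, 1] = (2 : ZMod 3) • z := by
    rw [u_smul, u_smul]; decide
  have e4 : ∀ w : Vec, g • u 0 0 1 • w = u i j k • g • w := fun w => by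
    rw [← e2, mul_smul, mul_smul, inv_smul_smul]
  have e5 := congrArg (g • ·) e3
  simp only [smul_add, smul_sub, smul_smul', e4, e1] at e5
  generalize g • (![0, 0, 0, 0, 0, 1] : Vec) = w at e5
  rw [u_smul, u_smul] at e5
  have a1 := congrFun e5 1
  have a2 := congrFun e5 2
  rw [Pi.smul_apply, (mem_L2.1 (h2 q hq)).1, smul_zero] at a2
  have a3 := (chk5 i j k (w 1) (w 3) (w 2) (w 4) (w 5) a2).symm.trans a1
  have h7 : ∀ s : ZMod 3, 0 = 2 * s → s = 0 := by decide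
  exact h1 (h7 _ a3)

end Sx

open Sx in
theorem stS : StS := by
  intro Γ H h hm hc
  have h3 := caseA h.hU hm hc
  by_cases h2 : ∀ v ∈ orb H z, v 2 = 0
  · have h2' : ∀ v ∈ orb H z, v ∈ L2 := fun v hv => mem_L2.2 ⟨h2 v hv, mem_V3.1 (h3 v hv)⟩
    have h1 := caseC h.hU (fun e => h.nd (e.trans (Subgroup.card_dvd_of_le h.hH))) h2'
    exact Or.inl (stab (fun v hv => mem_Z1.2 ⟨h1 v hv, mem_L2.1 (h2' v hv)⟩)
      (Z1_le (Submodule.subset_span z_mem)))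
  · push Not at h2
    obtain ⟨q, hq, h2⟩ := h2
    exact Or.inr (stab h3 (V3_le (Submodule.subset_span z_mem) (Submodule.subset_span hq)
      (Submodule.subset_span (smul_mem (h.hU (u_mem ..)) hq)) (h3 q hq) h2))

end CL.C3.MM
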