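/-
Subgroups of `GL₆(3)`: unipotent elements on a chain, and 3-subgroups meeting a strongly 3-embedded subgroup.
-/
import Cfsg.Agent.Fus.C3MD

set_option autoImplicit false

namespace CL.C3.MM

open Matrix

namespace Ux

variable {n : ℕ} {W : ℕ → Submodule (ZMod 3) Vec}

/-- the elements acting trivially on the factors of a chain -/
def mon (h : ∀ i < n, W i ≤ W (i + 1)) (h0 : W 0 = ⊥) : Submonoid GL6 where
  carrier := {g | ∀ i < n, ∀ v ∈ W (i + 1), g • v - v ∈ W i}
  one_mem' i _ v _ := by rw [one_smul, sub_self]; exact zero_mem _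
  mul_mem' {a b} ha hb i hi v hv := by
    have k : ∀ w ∈ W i, a • w ∈ W i := fun w hw => by
      rcases i with _ | i
      · rw [h0, Submodule.mem_bot] at hw ⊢
        rw [hw, smul_zero]
      · simpa using add_mem (h i (by omega) (ha i (by omega) w hw)) hw
    have := add_mem (k _ (hb i hi v hv)) (ha i hi v hv)
    rwa [smul_sub, sub_add_sub_cancel, ← mul_smul] at this

theorem pow_eq (h0 : W 0 = ⊥) (hn : W n = ⊤) {g : GL6} (hg : ∀ i < n, ∀ v ∈ W (i + 1), g • v - v ∈ W i) :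
    g ^ 3 ^ n = 1 := by
  have h1 : ∀ i ≤ n, ∀ v ∈ W i, ((g : Matrix (Fin 6) (Fin 6) (ZMod 3)) - 1) ^ i *ᵥ v = 0 := fun i => by
    induction i with
    | zero => exact fun _ v hv => by rw [h0, Submodule.mem_bot] at hv; rw [hv, mulVec_zero]
    | succ i ih =>
      intro hi v hv
      rw [pow_succ, ← mulVec_mulVec, sub_mulVec, one_mulVec]
      exact ih (by omega) _ (hg i hi v hv)
  have h2 : ((g : Matrix (Fin 6) (Fin 6) (ZMod 3)) - 1) ^ n = 0 :=
    Matrix.ext_iff_mulVec.2 fun v => by rw [h1 n le_rfl v (hn ▸ trivial), zero_mulVec]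
  have h3 := pow_eq_zero_of_le (Nat.lt_pow_self (show 1 < 3 by norm_num)).le h2
  rw [sub_pow_char_pow_of_commute 3 n (Commute.one_right _), one_pow, sub_eq_zero] at h3
  exact Units.ext (by rw [Units.val_pow_eq_pow_val, h3, Units.val_one])

end Ux

open Ux in
theorem stU : StU := fun n W h0 hn h =>
  ⟨{ mon h h0 with
      inv_mem' := fun {g} hg => by
        have e := pow_eq h0 hn hg
        rw [← Nat.sub_add_cancel (Nat.one_le_pow n 3 three_pos), pow_succ, mul_eq_one_iff_eq_inv] at e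
        exact e ▸ pow_mem (S := mon h h0) hg _ },
    fun g => ⟨n, Subtype.ext (pow_eq h0 hn g.2)⟩, fun _ => Iff.rfl⟩

theorem stP : StP := fun Γ H h P hP h3 t ht tH t1 => by
  have p3 : ∀ x ∈ P, x ≠ 1 → P3 x := fun x hx x1 => ⟨x1, (h3 ⟨x, hx⟩).imp fun _ e => congrArg Subtype.val e⟩
  have : Nontrivial P := ⟨⟨⟨t, ht⟩, 1, fun e => t1 (congrArg Subtype.val e)⟩⟩
  have := Fact.mk Nat.prime_three
  have := h3.center_nontrivial
  obtain ⟨c, hc⟩ := exists_ne (1 : Subgroup.center P)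
  have k : ∀ x ∈ P, x * c.1.1 = c.1.1 * x := fun x hx => congrArg Subtype.val (Subgroup.mem_center_iff.1 c.2 ⟨x, hx⟩)
  have cH : c.1.1 ∈ H := h.se _ (hP c.1.2) t tH (p3 t ht t1) (by rwa [← k t ht, mul_inv_cancel_right])
  exact fun x hx => h.se _ (hP hx) _ cH (p3 _ c.1.2 fun e => hc (Subtype.ext (Subtype.ext e)))
    (by rwa [k x hx, mul_inv_cancel_right])

end CL.C3.MM
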