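import Cfsg.Agent.Fus.C3MM
import Cfsg.Agent.Fus.C3MU
import Cfsg.Agent.Fus.C3MB
import Cfsg.Agent.Fus.C3MD2
import Cfsg.Agent.Fus.C3MC
import Cfsg.Agent.Fus.C3MS
import Cfsg.Agent.Fus.C3MK

/-! Subgroups of `GL₆(3)` with Sylow 3-subgroup `U`: conclusions. -/

set_option autoImplicit false

namespace CL.C3.MM

theorem stB' : StB := stB stU

theorem stM : StM := stM_of stU stP stB' stD stC stS (stF stC (stK stC))

theorem stBd : ∀ Γ, Syl Γ → ∀ g ∈ Γ, Stab g Z1 → Stab g W3 := Mx.dualB stB' stD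

end CL.C3.MM
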