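import Cfsg.Agent.Fus.C3MD

/-! The final count for a strongly 3-embedded subgroup stabilising `V3`. -/

set_option autoImplicit false

namespace CL.C3.MM

namespace Fx

theorem dh_inv {Γ H : Subgroup GL6} (hH : H ≤ Γ) {v : Vec} (hv : v ∈ DH Γ H) {h : GL6} (hh : h ∈ H) :
    h • v ∈ DH Γ H := by
  obtain ⟨⟨t, ht, ⟨t1, k, hk⟩, htv⟩, hs⟩ := hv
  refine ⟨⟨h * t * h⁻¹, mul_mem (mul_mem hh ht) (inv_mem hh), ⟨fun e => t1 ?_, k, ?_⟩, ?_⟩, fun g hg e => ?_⟩
  · calc t = h⁻¹ * (h * t * h⁻¹) * h := by group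
      _ = 1 := by rw [e]; group
  · rw [conj_pow, hk]; group
  · rw [mul_smul, inv_smul_smul, mul_smul, htv]
  · have := hs (h⁻¹ * g * h) (mul_mem (mul_mem (inv_mem (hH hh)) hg) (hH hh))
      (by rw [mul_smul, mul_smul, e, inv_smul_smul])
    have e' : g = h * (h⁻¹ * g * h) * h⁻¹ := by group
    rw [e']
    exact mul_mem (mul_mem hh this) (inv_mem hh)

theorem orb_sub {H : Subgroup GL6} {T : Set Vec} (hT : ∀ h ∈ H, ∀ v ∈ T, h • v ∈ T) {v : Vec} (hv : v ∈ T) :
    orb H v ⊆ T := by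
  rintro _ ⟨h, hh, rfl⟩
  exact hT h hh v hv

theorem orb_inv {H : Subgroup GL6} (v : Vec) : ∀ h ∈ H, ∀ w ∈ orb H v, h • w ∈ orb H v := by
  rintro h hh _ ⟨k, hk, rfl⟩
  exact ⟨h * k, mul_mem hh hk, mul_smul _ _ _⟩

theorem diff_inv {H : Subgroup GL6} {T X : Set Vec} (hT : ∀ h ∈ H, ∀ v ∈ T, h • v ∈ T)
    (hX : ∀ h ∈ H, ∀ v ∈ X, h • v ∈ X) : ∀ h ∈ H, ∀ v ∈ T \ X, h • v ∈ T \ X := fun h hh v hv =>
  ⟨hT h hh v hv.1, fun e => hv.2 (by simpa using hX _ (inv_mem hh) _ e)⟩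

/-- vectors of `V3` -/
def e (a b c : ZMod 3) : Vec := ![a, b, c, 0, 0, 0]

theorem eq_e {v : Vec} (hv : v ∈ V3) : v = e (v 0) (v 1) (v 2) := by
  ext i
  fin_cases i <;> first | rfl | exact hv _ (by decide)

theorem u_e (a b c : ZMod 3) : u 1 0 0 • e a b c = e (a + 2 * b + c) (b + c) c := by
  rw [u_smul]
  ext i
  fin_cases i <;> simp [e]

/-- the orbit under `-u 1 0 0` -/
def O (a b c : ZMod 3) : Finset Vec :=
  {e a b c, -e a b c, e (a + 2 * b + c) (b + c) c, -e (a + 2 * b + c) (b + c) c,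
    e (a + 2 * b + c + 2 * (b + c) + c) (b + c + c) c, -e (a + 2 * b + c + 2 * (b + c) + c) (b + c + c) c}

theorem c8 : ∀ a b c : ZMod 3, e a b c ∉ Z1 → (insert z (insert (-z) (O a b c))).card = 8 := by decide +kernel

theorem c14 : ∀ a b c a' b' c' : ZMod 3, e a b c ∉ Z1 → e a' b' c' ≠ 0 → e a' b' c' ∉ insert z (insert (-z) (O a b c)) →
    (insert z (insert (-z) (O a b c ∪ O a' b' c'))).card = 14 := by decide +kernel

theorem card_sp (s : Finset (Fin 6)) : (sp s : Set Vec).ncard = (Finset.univ.filter (· ∈ sp s)).card := by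
  rw [← Set.ncard_coe_finset]; congr 1; ext; simp

theorem c27 : (V3 : Set Vec).ncard = 27 := by rw [card_sp]; decide +kernel
theorem c9 : (L2 : Set Vec).ncard = 9 := by rw [card_sp]; decide +kernel
theorem c3 : (Z1 : Set Vec).ncard = 3 := by rw [card_sp]; decide +kernel

theorem O_sub {H : Subgroup GL6} (hU : U ≤ H) (hm : -1 ∈ H) {Y : Set Vec} (hY : ∀ h ∈ H, ∀ v ∈ Y, h • v ∈ Y)
    {a b c : ZMod 3} (h : e a b c ∈ Y) : (O a b c : Set Vec) ⊆ Y := by
  have hn : ∀ v ∈ Y, -v ∈ Y := fun v hv => neg_one_smul' v ▸ hY _ hm v hv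
  have h1 := hY _ (hU (u_mem 1 0 0)) _ h
  rw [u_e] at h1
  have h2 := hY _ (hU (u_mem 1 0 0)) _ h1
  rw [u_e] at h2
  intro v hv
  simp only [O, Finset.coe_insert, Finset.coe_singleton, Set.mem_insert_iff, Set.mem_singleton_iff] at hv
  rcases hv with rfl | rfl | rfl | rfl | rfl | rfl
  exacts [h, hn _ h, h1, hn _ h1, h2, hn _ h2]

end Fx

open Fx

theorem stF (hC : StC) (hK : StK) : StF := by
  intro Γ H se hne hm hz hW hV
  obtain ⟨hidx, hcnt, -⟩ := hC Γ H se hne hz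
  have hK' := hK Γ H se hne hm hz hV
  have hD : ∀ h ∈ H, ∀ v ∈ DH Γ H, h • v ∈ DH Γ H := fun h hh v hv => dh_inv se.hH hv hh
  have hYD : orb H z ⊆ DH Γ H := orb_sub hD hz
  have hzV : z ∈ V3 := by decide
  have hYV : orb H z ⊆ V3 := orb_sub hV hzV
  have hY0 : (0 : Vec) ∉ orb H z := by
    rintro ⟨h, -, e⟩
    exact absurd ((smul_eq_zero_iff_eq h).1 e) (by decide)
  have h0 : ∀ h ∈ H, ∀ v ∈ ({0} : Set Vec), h • v ∈ ({0} : Set Vec) := fun h _ v hv => by
    rw [show v = 0 from hv]; exact smul_zero h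
  rcases hidx with hidx | hidx
  · have hsub : (V3 : Set Vec) \ {0} ⊆ DH Γ H := fun v hv => by
      by_cases hy : v ∈ orb H z
      · exact hYD hy
      · exact (hK' v hv.1 hy hv.2).2 (.inl hidx)
    have h1 := Set.ncard_le_ncard hsub
    rw [Set.ncard_sdiff_singleton_of_mem V3.zero_mem, c27] at h1
    rw [hidx] at hcnt
    omega
  rw [hidx] at hcnt
  have hR : ∀ T : Set Vec, T ⊆ V3 → Disjoint T (orb H z) → (0 : Vec) ∉ T → (∀ h ∈ H, ∀ v ∈ T, h • v ∈ T) →
      T.ncard = 18 → ∃ X ⊆ T, X ⊆ DH Γ H ∧ 6 ≤ X.ncard := by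
    intro T hT hd h0T hinv h18
    obtain ⟨v, hv⟩ := Set.nonempty_of_ncard_ne_zero (s := T) (by omega)
    have hk : ∀ w ∈ T, _ := fun w hw => hK' w (hT hw) (Set.disjoint_left.1 hd hw) fun e => h0T (e ▸ hw)
    have hle := Set.ncard_le_ncard (orb_sub hinv hv)
    obtain ⟨h1, h2⟩ := hk v hv
    by_cases h12 : (orb H v).ncard = 12
    · have hc := Set.ncard_sdiff (orb_sub hinv hv)
      obtain ⟨w, hw⟩ := Set.nonempty_of_ncard_ne_zero (s := T \ orb H v) (by omega)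
      have hle' := Set.ncard_le_ncard (orb_sub (diff_inv hinv (orb_inv v)) hw)
      obtain ⟨h3, h4⟩ := hk w hw.1
      exact ⟨orb H w, orb_sub hinv hw.1, orb_sub hD (h4 (by omega)), by omega⟩
    · exact ⟨orb H v, orb_sub hinv hv, orb_sub hD (h2 (by omega)), by omega⟩
  have hzY : z ∈ orb H z := ⟨1, one_mem _, one_smul _ _⟩
  have hzY' : -z ∈ orb H z := ⟨-1, hm, neg_one_smul' _⟩
  by_cases hYZ : orb H z ⊆ Z1
  · have hZ : ∀ h ∈ H, Stab h Z1 := fun h hh v hv => by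
      have e : v = v 0 • z := by
        ext i
        fin_cases i <;> first | exact (hv _ (by decide)).trans (by simp [z]) | simp [z]
      rw [e, smul_smul']
      exact Z1.smul_mem _ (hYZ ⟨h, hh, rfl⟩)
    have hL : ∀ h ∈ H, ∀ v ∈ (L2 : Set Vec), h • v ∈ (L2 : Set Vec) := fun h hh v hv => by
      have h1 := hV h hh v fun i hi => hv i (by revert i; decide)
      have h2 := hW h hh (hZ h hh) v fun i hi => hv i (by revert i; decide)
      intro i hi
      by_cases h3 : i = 2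
      · exact h2 i (by rw [h3]; decide)
      · exact h1 i (by revert i; decide)
    have hZL : (Z1 : Set Vec) ⊆ L2 := fun v hv i hi => hv i (by revert i; decide)
    have hLV : (L2 : Set Vec) ⊆ V3 := fun v hv i hi => hv i (by revert i; decide)
    have h1 : e 0 1 0 ∈ (L2 : Set Vec) \ Z1 := ⟨show e 0 1 0 ∈ L2 by decide, show e 0 1 0 ∉ Z1 by decide⟩
    have h2 := orb_sub (diff_inv hL hZ) h1
    have h3 := Set.ncard_le_ncard h2
    rw [Set.ncard_sdiff hZL, c9, c3] at h3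
    obtain ⟨h4, h5⟩ := hK' _ (hLV h1.1) (fun h => h1.2 (hYZ h)) (by decide)
    obtain ⟨X, hXT, hXD, hX6⟩ := hR ((V3 : Set Vec) \ L2) Set.sdiff_subset
      (Set.disjoint_left.2 fun v hv h => hv.2 (hZL (hYZ h))) (fun h => h.2 L2.zero_mem) (diff_inv hV hL)
      (by rw [Set.ncard_sdiff hLV, c27, c9])
    have h6 := Set.ncard_le_ncard (Set.union_subset (orb_sub hD (h5 (by omega))) hXD)
    rw [Set.ncard_union_eq (Set.disjoint_left.2 fun v hv h => (hXT h).2 (h2 hv).1)] at h6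
    omega
  · obtain ⟨q, hq, hqZ⟩ := Set.not_subset.1 hYZ
    have eq := eq_e (hYV hq)
    have hO := O_sub se.hU hm (orb_inv z) (eq ▸ hq)
    have hY8 : orb H z = (insert z (insert (-z) (O (q 0) (q 1) (q 2))) : Finset Vec) := by
      refine Set.Subset.antisymm (fun p hp => ?_) ?_
      · by_contra hn
        have ep := eq_e (hYV hp)
        have hO' := O_sub se.hU hm (orb_inv z) (ep ▸ hp)
        have h14 := c14 (q 0) (q 1) (q 2) (p 0) (p 1) (p 2) (eq ▸ hqZ) (ep ▸ fun h => hY0 (h ▸ hp)) (ep ▸ hn)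
        have hsub : ((insert z (insert (-z) (O (q 0) (q 1) (q 2) ∪ O (p 0) (p 1) (p 2))) : Finset Vec) : Set Vec) ⊆
            DH Γ H := by
          rw [Finset.coe_insert, Finset.coe_insert, Finset.coe_union]
          exact (Set.insert_subset hzY (Set.insert_subset hzY' (Set.union_subset hO hO'))).trans hYD
        have h1 := Set.ncard_le_ncard hsub
        rw [Set.ncard_coe_finset, h14] at h1
        omega
      · rw [Finset.coe_insert, Finset.coe_insert]
        exact Set.insert_subset hzY (Set.insert_subset hzY' hO)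
    have h8 : (orb H z).ncard = 8 := by rw [hY8, Set.ncard_coe_finset, c8 _ _ _ (eq ▸ hqZ)]
    have hsub : orb H z ⊆ (V3 : Set Vec) \ {0} := fun v hv => ⟨hYV hv, fun h => hY0 (h ▸ hv)⟩
    obtain ⟨X, hXT, hXD, hX6⟩ := hR (((V3 : Set Vec) \ {0}) \ orb H z) (fun v hv => hv.1.1) Set.disjoint_sdiff_left
      (fun h => h.1.2 rfl) (diff_inv (diff_inv hV h0) (orb_inv z))
      (by rw [Set.ncard_sdiff hsub, Set.ncard_sdiff_singleton_of_mem V3.zero_mem, c27, h8])
    have h6 := Set.ncard_le_ncard (Set.union_subset hYD hXD)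
    rw [Set.ncard_union_eq (Set.disjoint_left.2 fun v hv h => (hXT h).2 hv)] at h6
    omega

end CL.C3.MM
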