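import Cfsg.Agent.Fus.C3MF

/-! Assembly: there is no proper strongly 3-embedded subgroup. -/

set_option autoImplicit false

namespace CL.C3.MM

namespace Mx

theorem stab_inv {g : GL6} {W : Submodule (ZMod 3) Vec} (h : Stab g W) : Stab g⁻¹ W := by
  obtain ⟨n, hn⟩ := (isOfFinOrder_of_finite g).mem_powers_iff_mem_zpowers.2 (inv_mem (Subgroup.mem_zpowers g))
  rw [← hn]
  clear hn
  induction n with
  | zero => intro v hv; simpa using hv
  | succ n ih =>
    intro v hv
    show g ^ (n + 1) • v ∈ W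
    rw [pow_succ, mul_smul]
    exact ih _ (h v hv)

theorem t_ne : u 0 0 1 ≠ 1 := fun h => absurd (u_inj (h.trans u_zero.symm)).2.2 (by decide)

theorem p3_t : P3 (u 0 0 1) := ⟨t_ne, 1, u_cube ..⟩

theorem of_l5 (hU : StU) (hP : StP) (hB : StB) {Γ H : Subgroup GL6} (se : SE Γ H) {g : GL6} (hg : g ∈ Γ)
    (h5 : Stab g L5) : g ∈ H := by
  have h3 := hB Γ se.toSyl g hg h5
  obtain ⟨P, hp, hm⟩ := hU 3 (fun i => if i = 0 then ⊥ else if i = 1 then V3 else if i = 2 then L5 else ⊤) rfl rfl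
    (by
      intro i hi
      interval_cases i
      · exact bot_le
      · exact fun v hv j hj => hv j (by revert j; decide)
      · exact le_top)
  have ht : u 0 0 1 ∈ P := (hm _).2 (by
    intro i hi v hv
    rw [u_smul]
    interval_cases i
    · have hv' : v ∈ V3 := hv
      have h3 := hv' 3 (by decide)
      have h4 := hv' 4 (by decide)
      have h5 := hv' 5 (by decide)
      show _ ∈ (⊥ : Submodule (ZMod 3) Vec)
      rw [Submodule.mem_bot]
      ext j
      fin_cases j <;> simp [h3, h4, h5]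
    · have hv' : v ∈ L5 := hv
      have h5 := hv' 5 (by decide)
      show _ ∈ V3
      intro j hj
      fin_cases j <;> first | exact absurd hj (by decide) | simp [h5]
    · show _ ∈ L5
      intro j hj
      fin_cases j <;> first | exact absurd hj (by decide) | simp)
  have hst : ∀ i, Stab g (if i = 0 then ⊥ else if i = 1 then V3 else if i = 2 then L5 else ⊤) := fun i => by
    split_ifs
    · intro v hv
      rw [(Submodule.mem_bot _).1 hv, smul_zero]
      exact zero_mem _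
    · exact h3
    · exact h5
    · exact fun _ _ => Submodule.mem_top
  have hc : g * u 0 0 1 * g⁻¹ ∈ P := (hm _).2 fun i hi v hv => by
    have := hst i _ ((hm _).1 ht i hi _ (stab_inv (hst (i + 1)) v hv))
    rwa [smul_sub, smul_inv_smul, ← mul_smul, ← mul_smul] at this
  have htΓ := se.le (u_mem 0 0 1)
  have := hP Γ H se (P ⊓ Γ) inf_le_right (hp.to_le inf_le_left) _ ⟨ht, htΓ⟩ (se.hU (u_mem ..)) t_ne
  exact se.se g hg _ (se.hU (u_mem ..)) p3_t (this (Subgroup.mem_inf.2 ⟨hc, mul_mem (mul_mem hg htΓ) (inv_mem hg)⟩))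

theorem u_le_map {φ : GL6 ≃* GL6} (hφ : ∀ g, φ g ∈ U ↔ g ∈ U) {K : Subgroup GL6} (hK : U ≤ K) :
    U ≤ K.map (φ : GL6 →* GL6) := fun x hx =>
  ⟨φ.symm x, hK ((hφ _).1 (by rwa [φ.apply_symm_apply])), φ.apply_symm_apply x⟩

theorem syl_map {φ : GL6 ≃* GL6} (hφ : ∀ g, φ g ∈ U ↔ g ∈ U) {Γ : Subgroup GL6} (h : Syl Γ) :
    Syl (Γ.map (φ : GL6 →* GL6)) :=
  ⟨u_le_map hφ h.le, by rw [Subgroup.card_map_of_injective φ.injective]; exact h.nd⟩

theorem se_map {φ : GL6 ≃* GL6} (hφ : ∀ g, φ g ∈ U ↔ g ∈ U) {Γ H : Subgroup GL6} (h : SE Γ H) :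
    SE (Γ.map (φ : GL6 →* GL6)) (H.map (φ : GL6 →* GL6)) where
  toSyl := syl_map hφ h.toSyl
  hU := u_le_map hφ h.hU
  hH := Subgroup.map_mono h.hH
  se := by
    rintro _ ⟨g, hg, rfl⟩ _ ⟨t, ht, rfl⟩ ⟨h1, k, hk⟩ hc
    refine ⟨g, h.se g hg t ht ⟨fun e => h1 (by rw [e, map_one]), k, φ.injective ?_⟩ ?_, rfl⟩
    · rw [map_pow, map_one]; exact hk
    · rw [← map_inv, ← map_mul, ← map_mul] at hc
      exact (Subgroup.mem_map_iff_mem φ.injective).1 hc

theorem dualB (hB : StB) (hD : StD) (Γ : Subgroup GL6) (h : Syl Γ) (g : GL6) (hg : g ∈ Γ) (h1 : Stab g Z1) :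
    Stab g W3 := by
  obtain ⟨φ, hφ, -, e1, e2, -, -⟩ := hD
  exact (e2 g).1 (hB _ (syl_map hφ h) _ ⟨g, hg, rfl⟩ ((e1 g).2 h1))

theorem stab_z {g : GL6} (h : g • z = z) : Stab g Z1 := fun v hv => by
  have e : v = v 0 • z := by
    ext i
    fin_cases i <;> first | exact (hv _ (by decide)).trans (by simp [z]) | simp [z]
  rw [e, smul_smul', h, ← e]
  exact hv

theorem z_mem (hU : StU) (hP : StP) (hB : StB) (hD : StD) {Γ H : Subgroup GL6} (se : SE Γ H) : z ∈ DH Γ H := by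
  obtain ⟨φ, hφ, -, e1, -⟩ := hD
  refine ⟨⟨u 0 0 1, se.hU (u_mem ..), p3_t, by rw [u_smul]; decide⟩, fun g hg e => ?_⟩
  exact (Subgroup.mem_map_iff_mem (f := (φ : GL6 →* GL6)) φ.injective).1
    (of_l5 hU hP hB (se_map hφ se) ⟨g, hg, rfl⟩ ((e1 g).2 (stab_z e)))

/-- adjoining `-1` -/
def pm (K : Subgroup GL6) : Subgroup GL6 where
  carrier := {g | g ∈ K ∨ -g ∈ K}
  one_mem' := .inl K.one_mem
  mul_mem' := by
    rintro a b (ha | ha) (hb | hb)
    · exact .inl (mul_mem ha hb)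
    · exact .inr (by simpa using mul_mem ha hb)
    · exact .inr (by simpa using mul_mem ha hb)
    · exact .inl (by simpa using mul_mem ha hb)
  inv_mem' := by
    rintro a (ha | ha)
    · exact .inl (inv_mem ha)
    · exact .inr (by simpa using inv_mem ha)

theorem card_pm (K : Subgroup GL6) : Nat.card (pm K) ∣ Nat.card K * 2 := by
  let f : K × Subgroup.zpowers (-1 : GL6) →* GL6 := K.subtype.noncommCoprod (Subgroup.subtype _) fun a b => by
    obtain ⟨b, n, rfl⟩ := b
    exact (Commute.neg_one_right (a : GL6)).zpow_right n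
  have hle : pm K ≤ f.range := by
    rintro g (hg | hg)
    · exact ⟨(⟨g, hg⟩, 1), mul_one g⟩
    · exact ⟨(⟨-g, hg⟩, ⟨-1, Subgroup.mem_zpowers _⟩), by show -g * -1 = g; simp⟩
  refine (Subgroup.card_dvd_of_le hle).trans ((Subgroup.card_range_dvd f).trans ?_)
  rw [Nat.card_prod, Nat.card_zpowers]
  exact mul_dvd_mul_left _ (orderOf_dvd_of_pow_eq_one (by simp))

theorem p3_pm {K : Subgroup GL6} {t : GL6} (ht : t ∈ pm K) {k : ℕ} (hk : t ^ 3 ^ k = 1) : t ∈ K := by
  rcases ht with ht | ht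
  · exact ht
  · have := pow_mem ht (3 ^ k + 1)
    rwa [Even.neg_pow (Odd.add_one (Odd.pow (by decide))), pow_succ, hk, one_mul] at this

theorem se_pm {Γ H : Subgroup GL6} (h : SE Γ H) : SE (pm Γ) (pm H) where
  le := fun _ hx => .inl (h.le hx)
  nd := fun e => h.nd ((by norm_num : Nat.Coprime 81 2).dvd_of_dvd_mul_right (e.trans (card_pm Γ)))
  hU := fun _ hx => .inl (h.hU hx)
  hH := fun _ hx => hx.imp (fun e => h.hH e) fun e => h.hH e
  se := by
    rintro g hg t ht ⟨h1, k, hk⟩ hc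
    have ht' := p3_pm ht hk
    have hc' := p3_pm hc (k := k) (by rw [conj_pow, hk]; group)
    rcases hg with hg | hg
    · exact .inl (h.se g hg t ht' ⟨h1, k, hk⟩ hc')
    · exact .inr (h.se _ hg t ht' ⟨h1, k, hk⟩ (by simpa using hc'))

end Mx

open Mx

theorem stM_of (hU : StU) (hP : StP) (hB : StB) (hD : StD) (hC : StC) (hS : StS) (hF : StF) : StM := by
  have main : ∀ Γ H, SE Γ H → -1 ∈ H → H = Γ := by
    intro Γ H se hm
    by_contra hne
    have hz := z_mem hU hP hB hD se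
    obtain ⟨hidx, hcnt, -⟩ := hC Γ H se hne hz
    have h1 := Set.ncard_le_ncard (Fx.orb_sub (T := DH Γ H) (fun h hh v hv => Fx.dh_inv se.hH hv hh) hz)
    rcases hS Γ H se hm (by rcases hidx with e | e <;> rw [e] at hcnt <;> omega) with h | h
    · obtain ⟨φ, hφ, em, -, e2, -⟩ := id hD
      have se' := se_map hφ se
      refine hF _ _ se' (fun e => hne (Subgroup.map_injective φ.injective e)) ⟨-1, hm, em⟩ (z_mem hU hP hB hD se')
        (fun g hg => dualB hB hD _ se'.toSyl g (se'.hH hg)) ?_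
      rintro _ ⟨g, hg, rfl⟩
      exact (e2 g).2 (dualB hB hD _ se.toSyl g (se.hH hg) (h g hg))
    · exact hF _ _ se hne hm hz (fun g hg => dualB hB hD _ se.toSyl g (se.hH hg)) h
  intro Γ H se
  have e := main _ _ (se_pm se) (.inr (by simp))
  refine le_antisymm se.hH fun g hg => ?_
  have hg' : g ∈ pm H := e ▸ (.inl hg : g ∈ pm Γ)
  rcases hg' with h | h
  · exact h
  · refine se.se g hg _ (se.hU (u_mem 0 0 1)) p3_t ?_
    simpa using mul_mem (mul_mem h (se.hU (u_mem 0 0 1))) (inv_mem h)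

end CL.C3.MM
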