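/-
Saturated fusion systems on `CL.C3.G`: automorphisms of `E4 s` which move the centre.
-/
import Cfsg.Agent.Fus.C3F

set_option autoImplicit false
set_option Elab.async false

namespace CL.C3

open Subgroup Cfsg Cfsg.FusionSystem CL.Fus

attribute [local irreducible] mul inv

open MM

namespace N4

variable {F : FS} {P : Subgroup G} {f : G → G} {g : GL6}

theorem gl_ext (hP : StPsi) {g h : GL6} (k : ∀ x ∈ L 6, g • vec x = h • vec x) : g = h := by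
  refine Units.ext (Matrix.ext fun i j => ?_)
  obtain ⟨x, hx, e⟩ := hP.surj (Pi.single j 1)
  have := congrFun (k x hx) i
  rwa [e, smul_def, smul_def, Matrix.mulVec_single_one, Matrix.mulVec_single_one] at this

theorem conj_rep (hP : StPsi) (hf : Mor F P f) (hJ : L 6 ≤ P) (hg : Rep f g) {c : G} (hc : c ∈ P) :
    g * uOf c * g⁻¹ = uOf (f c) := by
  rw [mul_inv_eq_iff_eq_mul]
  refine gl_ext hP fun x hx => ?_
  rw [mul_smul, mul_smul, ← hP.conj c x hx, ← hg _ (conj_L hx c), ← hg x hx, ← hP.conj (f c) _ (J_wc hf hJ x hx),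
    hf.homOn.map_mul (mul_mem hc (hJ hx)) (inv_mem hc), hf.homOn.map_mul hc (hJ hx), hf.homOn.map_inv hc]

theorem ext_gen (hP : StPsi) (hF : F.IsSaturated 3) (hg : g ∈ Gam F) : ∃ (X : Subgroup G) (f : G → G),
    Mor F X f ∧ L 6 ≤ X ∧ Iv f (L 6) ∧ ∀ c i j k, g * uOf c * g⁻¹ = u i j k → c ∈ X ∧ uOf (f c) = u i j k := by
  have := Fact.mk Nat.prime_three
  obtain ⟨γ, hγ, hr⟩ := hg
  obtain ⟨f, hf, ef⟩ := hγ.1.extend (by
    rw [hγ.1.img_eq_self le_rfl hγ.2]; exact receptive_of_fullyNormalized pT hF (fn_normal F _))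
  have hl := hγ.1.le_extenderF
  refine ⟨_, f, hf, hl, J_wc hf hl, fun c i j k h => ?_⟩
  have hc : c ∈ extenderF ⊤ (L 6) γ := by
    obtain ⟨t, ht⟩ := hP.usurj i j k
    refine ⟨mem_top c, by rw [normalizer_eq_top]; exact mem_top c, t, mem_top t, fun x hx => ?_⟩
    refine hP.inj _ (hγ.2 _ (conj_L hx c)) _ (conj_L (hγ.2 x hx) t) ?_
    rw [hr _ (conj_L hx c), hP.conj c x hx, hP.conj t _ (hγ.2 x hx), hr x hx, ht, ← h, ← mul_smul, ← mul_smul,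
      inv_mul_cancel_right]
  exact ⟨hc, by rw [← h, conj_rep hP hf hl (fun x hx => by rw [ef x hx, hr x hx]) hc]⟩

theorem dg_hi (x : G) : dg (hi x) 6 = dg x 6 ∧ dg (hi x) 7 = dg x 7 ∧ dg (hi x) 8 = dg x 8 := by
  have h := x.lt
  have e1 : (hi x).v = 243 * (x.v / 243) := e_v (by omega)
  refine ⟨?_, ?_, ?_⟩ <;> rw [dg, dg, e1] <;> congr 1 <;> omega

theorem digits (x : G) : (dg x 8 = 0 → x ∈ L 8) ∧ (x ∈ L 7 → dg x 7 = 0 ∧ dg x 8 = 0) ∧ (dg x 7 = 0 → x ∈ E2) := by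
  have := all_hi (p := fun x => (dg x 8 = 0 → x ∈ L 8) ∧ (x ∈ L 7 → dg x 7 = 0 ∧ dg x 8 = 0) ∧ (dg x 7 = 0 → x ∈ E2))
    (by decide +kernel) x
  rwa [(dg_hi x).2.1, (dg_hi x).2.2, hi_mem_L (by norm_num), hi_mem_L (by norm_num),
    hi_mem (L_le (by norm_num) (by decide +kernel))] at this

theorem ne1 (hP : StPsi) (hF : F.IsSaturated 3) (h : N1 (Gam F)) : NE1 F := by
  obtain ⟨g, hg, ⟨j, k, hj, h1⟩, j', k', h2⟩ := h
  obtain ⟨X, f, hf, hl, hi, key⟩ := ext_gen hP hF hg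
  obtain ⟨a1, a2⟩ := key (e 729) _ _ _ h1
  obtain ⟨b1, b2⟩ := key (e 2187) _ _ _ h2
  have hX : L 8 ≤ X := L_le (by norm_num) fun i hi' => by
    rcases (by omega : i < 6 ∨ i = 6 ∨ i = 7) with h | rfl | rfl
    exacts [hl (e_mem_L (Nat.pow_lt_pow_right (by norm_num) h)), a1, b1]
  refine ⟨f, ⟨hf.mono hX, maps_L hf (by norm_num) hX fun i hi' => ?_⟩, fun h => hj ?_⟩
  · rcases (by omega : i < 6 ∨ i = 6 ∨ i = 7) with h | rfl | rfl
    exacts [L_mono (by norm_num) (hi _ (e_mem_L (Nat.pow_lt_pow_right (by norm_num) h))),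
      (digits _).1 (u_inj a2).1, (digits _).1 (u_inj b2).1]
  · rw [← (u_inj a2).2.1, ((digits _).2.1 h).1]

theorem J_le_E2 : L 6 ≤ E2 := L_le (by norm_num) (by decide +kernel)

theorem ne2 (hP : StPsi) (hF : F.IsSaturated 3) (h : N2 (Gam F)) : NE2 F := by
  obtain ⟨g, hg, ⟨j, k, hj, h1⟩, j', k', h2⟩ := h
  obtain ⟨X, f, hf, hl, hi, key⟩ := ext_gen hP hF hg
  obtain ⟨a1, a2⟩ := key (e 729) _ _ _ h1
  obtain ⟨b1, b2⟩ := key (e 6561) _ _ _ h2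
  have cs : ∀ i < 9, e (lE2.getD i 0) ∈ L 6 ∨ i = 6 ∨ i = 8 := by decide +kernel
  have hX : E2 ≤ X := (ech_PS lE2).le fun i hi' => by
    rcases cs i hi' with h | rfl | rfl
    exacts [hl h, a1, b1]
  refine ⟨f, ⟨hf.mono hX, iv_gens hf (ech_PS lE2) hX fun i hi' => ?_⟩, fun h => hj ?_⟩
  · rcases cs i hi' with h | rfl | rfl
    exacts [J_le_E2 (hi _ h), (digits _).2.2 (u_inj a2).2.1, (digits _).2.2 (u_inj b2).2.1]
  · rw [← (u_inj a2).1, ((digits _).2.1 h).2]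

theorem rep_of_gens (hP : StPsi) (hf : HomOn (L 6) f) (hi : Iv f (L 6))
    (h : ∀ k < 6, vec (f (e (3 ^ k))) = g • vec (e (3 ^ k))) : Rep f g := by
  have v1 : vec 1 = 0 := by decide +kernel
  have vi : ∀ x ∈ L 6, vec x⁻¹ = -vec x := fun x hx =>
    eq_neg_of_add_eq_zero_left (by rw [← hP.add _ (inv_mem hx) _ hx, inv_mul_cancel, v1])
  let H : Subgroup G :=
    { carrier := {x | x ∈ L 6 ∧ vec (f x) = g • vec x}
      one_mem' := ⟨one_mem _, by rw [hf.map_one, v1, smul_zero]⟩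
      mul_mem' := fun {a b} ha hb => ⟨mul_mem ha.1 hb.1, by
        rw [hf.map_mul ha.1 hb.1, hP.add _ (hi _ ha.1) _ (hi _ hb.1), hP.add _ ha.1 _ hb.1, smul_add, ha.2, hb.2]⟩
      inv_mem' := fun {a} ha => ⟨inv_mem ha.1, by
        rw [hf.map_inv ha.1, vi _ (hi _ ha.1), vi _ ha.1, smul_neg, ha.2]⟩ }
  exact fun x hx => (L_le (H := H) (by norm_num)
    (fun k hk => ⟨e_mem_L (Nat.pow_lt_pow_right (by norm_num) hk), h k hk⟩) hx).2

theorem gam_of_wm (hP : StPsi) {E l : List ℕ} (h : Wm F E l) (hJ : L 6 ≤ PS E)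
    (hE : ∀ k < 6, E.getD k 0 = 3 ^ k ∧ vec (e (l.getD k 0)) = g • vec (e (3 ^ k))) : g ∈ Gam F := by
  obtain ⟨f, hf, ef⟩ := h
  exact ⟨f, ⟨hf.mono hJ, J_wc hf hJ⟩, rep_of_gens hP (hf.mono hJ).homOn (J_wc hf hJ) fun k hk => by
    rw [← (hE k hk).2, ← ef k (by omega), (hE k hk).1]⟩

theorem e4 : ∀ s ∈ S4, e s ∉ L 6 ∧ dg (e s) 8 = 1 ∧ dg (e s) 7 ≠ 0 ∧ allB 81 (fun n => decide
    (mb (lE4 s) 9 (e (243 * n)).v = true → e (243 * n) ∉ L 6 →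
      (dg (e (243 * n)) 8 = dg (e s) 8 ∧ dg (e (243 * n)) 7 = dg (e s) 7 ∧ dg (e (243 * n)) 6 = dg (e s) 6) ∨
      (dg (e (243 * n)) 8 = -dg (e s) 8 ∧ dg (e (243 * n)) 7 = -dg (e s) 7 ∧
        dg (e (243 * n)) 6 + dg (e (243 * n)) 8 * dg (e (243 * n)) 7 =
          dg (e s) 8 * dg (e s) 7 - (dg (e s) 6 + dg (e s) 8 * dg (e s) 7)))) = true := by decide +kernel

end N4

open N4 in
theorem stN4 (hP : StPsi) (ha : MM.StN4a) (hb : MM.StN4b) : StN4 := by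
  intro F hF s hs f hf h1
  have : Fact (okE (lE4 s) = true) := ⟨okE4 s hs⟩
  have hJ : L 6 ≤ E4 s := L_le (by norm_num) fun j hj => by
    have := (ech_PS (lE4 s)).mem (k := j) (by omega)
    interval_cases j <;> exact this
  have hσ : e s ∈ E4 s := (ech_PS (lE4 s)).mem (k := 8) (by norm_num)
  have iJ := J_wc hf.1 hJ
  obtain ⟨g, hg⟩ := hP.ex F f ⟨hf.1.mono hJ, iJ⟩
  have hΓ : g ∈ Gam F := ⟨f, ⟨hf.1.mono hJ, iJ⟩, hg⟩
  obtain ⟨s1, s2, s3, s4⟩ := e4 s hs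
  have k1 := conj_rep hP hf.1 hJ hg hσ
  have k2 : uOf (f (e s)) = uOf (e s) ∨ uOf (f (e s)) = (uOf (e s))⁻¹ := by
    have := all_hi (p := fun x => mb (lE4 s) 9 x.v = true → x ∉ L 6 →
      (dg x 8 = dg (e s) 8 ∧ dg x 7 = dg (e s) 7 ∧ dg x 6 = dg (e s) 6) ∨
      (dg x 8 = -dg (e s) 8 ∧ dg x 7 = -dg (e s) 7 ∧
        dg x 6 + dg x 8 * dg x 7 = dg (e s) 8 * dg (e s) 7 - (dg (e s) 6 + dg (e s) 8 * dg (e s) 7))) s4 (f (e s))
      (mem_PS.1 ((hi_mem ((L_mono (by norm_num)).trans hJ)).2 (hf.2 _ hσ)))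
      fun h => s1 (back hf.1 hJ iJ hσ ((hi_mem_L (by norm_num)).1 h))
    rw [(dg_hi _).1, (dg_hi _).2.1, (dg_hi _).2.2] at this
    rcases this with ⟨a, b, c⟩ | ⟨a, b, c⟩
    · exact .inl (by rw [uOf, uOf, a, b, c])
    · exact .inr (by rw [uOf, uOf, u_inv, c, a, b])
  rw [← k1, uOf, s2] at k2
  have hsyl := hP.syl F hF
  obtain ⟨j, hj, j1, j2⟩ := ha _ hsyl.le _ _ s3 g hΓ k2 fun h => h1 (by
    have m : e 1 ∈ L 6 := e_mem_L (by norm_num)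
    have := h _ (by decide +kernel : vec (e 1) ∈ Z1)
    rw [← hg _ m] at this
    exact all_L (k := 6) (p := fun x => vec x ∈ Z1 → x ∈ L 1) (by decide +kernel) _ (iJ _ m) this)
  obtain ⟨n1, n2, n3⟩ := hb _ hsyl _ s3 j hj j1 j2
  exact ⟨ne1 hP hF n1, ne2 hP hF n2, fun h => n3
    ⟨gam_of_wm hP h.1 (L8_eq ▸ L_mono (by norm_num)) (by decide +kernel), gam_of_wm hP h.2 J_le_E2 (by decide +kernel)⟩⟩

end CL.C3
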