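/-
Project C3: an element of order 4 in the centraliser of a regular unipotent element; words in `2 M₁₂`.
-/
import Cfsg.Agent.Fus.C3F
import Cfsg.Agent.Spor.Mx3

set_option autoImplicit false
set_option Elab.async false

namespace CL.C3.MM

open Matrix CL.Grp CL.Mx3

namespace N4a

local notation "𝔽" => ZMod 3

theorem stab_u (i j k : 𝔽) : Stab (u i j k) Z1 := fun v hv => by
  have h : ∀ a : Fin 6, a ≠ 0 → v a = 0 := fun a ha => hv a (by simpa using ha)
  rw [u_smul, h 1 (by decide), h 2 (by decide), h 3 (by decide), h 4 (by decide), h 5 (by decide)]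
  intro a ha
  fin_cases a <;> simp at ha ⊢

theorem stab_mul {g h : GL6} (a : Stab g Z1) (b : Stab h Z1) : Stab (g * h) Z1 := fun v hv => by
  rw [mul_smul]; exact a _ (b v hv)

theorem conj_u (ε k : 𝔽) : u 0 k 0 * u 1 ε k * (u 0 k 0)⁻¹ = u 1 ε 0 := by
  rw [u_inv, u_mul, u_mul]; congr 1 <;> ring

theorem not_stab {g : GL6} (h : ¬ Stab g Z1) (k : 𝔽) : ¬ Stab (u 0 k 0 * g * (u 0 k 0)⁻¹) Z1 := fun e => h (by
  have := stab_mul (stab_mul (u_inv 0 k 0 ▸ stab_u _ _ _ : Stab (u 0 k 0)⁻¹ Z1) e) (stab_u 0 k 0)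
  simpa [mul_assoc] using this)

/-- the fixed vectors of `u 1 ε 0` -/
def E (ε a b : 𝔽) : Vec := ![a, -ε * b, -ε * b, b, 0, 0]

theorem E_add (ε a b c d : 𝔽) : E ε a b + E ε c d = E ε (a + c) (b + d) := by
  ext i; fin_cases i <;> simp [E] <;> ring

theorem E_smul (ε a b c : 𝔽) : c • E ε a b = E ε (c * a) (c * b) := by
  ext i; fin_cases i <;> simp [E] <;> ring

theorem fix_E (ε a b : 𝔽) : u 1 ε 0 • E ε a b = E ε a b := by
  rw [u_smul]; revert ε a b; decide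

theorem of_fix {ε : 𝔽} (hε : ε ≠ 0) {v : Vec} (h : u 1 ε 0 • v = v) : ∃ a b, v = E ε a b := by
  rw [u_smul] at h
  have h0 := congrFun h 0
  have h1 := congrFun h 1
  have h3 := congrFun h 3
  have h4 := congrFun h 4
  simp at h0 h1 h3 h4
  have h5 : v 5 = 0 := h4.resolve_left hε
  have e2 : v 2 = -ε * v 3 := by rw [h3] at h1; linear_combination h1
  have e1 : v 1 = v 2 := (by decide : ∀ x y z : 𝔽, x + 2 * y + z = x → y = z) _ _ _ h0
  refine ⟨v 0, v 3, ?_⟩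
  ext i; fin_cases i <;> simp [E, h3, h5, e1, e2]

theorem zb_E (ε a b : 𝔽) : u 0 0 1 • E ε a b = E ε (a + 2 * b) b := by
  rw [u_smul]; ext i; fin_cases i <;> simp [E]

theorem lin {ε : 𝔽} {g : GL6} {p q r t : 𝔽} (h1 : g • E ε 1 0 = E ε p q) (h2 : g • E ε 0 1 = E ε r t) (a b : 𝔽) :
    g • E ε a b = E ε (a * p + b * r) (a * q + b * t) := by
  have : E ε a b = a • E ε 1 0 + b • E ε 0 1 := by rw [E_smul, E_smul, E_add]; simp
  rw [this, smul_add, smul_smul', smul_smul', h1, h2, E_smul, E_smul, E_add]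

theorem cube {ε : 𝔽} (hε : ε ≠ 0) {n : GL6} (hc : n * u 1 ε 0 = u 1 ε 0 * n) (hf : ∀ a b, n • E ε a b = E ε a b) :
    n ^ 3 = 1 := by
  have hN : (uM 1 ε 0 - 1) * ((uM 1 ε 0 - 1) * (uM 1 ε 0 - 1)) = 0 :=
    (by decide +kernel : ∀ ε : 𝔽, ε ≠ 0 → (uM 1 ε 0 - 1) * ((uM 1 ε 0 - 1) * (uM 1 ε 0 - 1)) = 0) ε hε
  have H : ∀ X : Matrix (Fin 6) (Fin 6) 𝔽, (uM 1 ε 0 - 1) * X = 0 → (n.val - 1) * X = 0 := fun X h => by
    ext i j
    have h1 : (uM 1 ε 0 - 1) *ᵥ (fun k => X k j) = 0 := by ext k; exact congrFun (congrFun h k) j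
    rw [sub_mulVec, one_mulVec, sub_eq_zero] at h1
    obtain ⟨a, b, e⟩ := of_fix hε h1
    have h2 : (n.val - 1) *ᵥ (fun k => X k j) = 0 := by
      rw [sub_mulVec, one_mulVec, sub_eq_zero, e]; exact hf a b
    exact congrFun h2 i
  have hc' : Commute n.val (uM 1 ε 0) := congrArg Units.val hc
  have hDN : Commute (n.val - 1) (uM 1 ε 0 - 1) :=
    (hc'.sub_left (Commute.one_left _)).sub_right (Commute.one_right _)
  have h3 := sub_pow_char_of_commute 3 (Commute.one_right n.val)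
  generalize uM 1 ε 0 - 1 = N at hN H hDN
  generalize n.val - 1 = D at H hDN h3
  have a1 := H _ hN
  rw [← mul_assoc, hDN.eq, mul_assoc, hDN.eq] at a1
  have a2 := H _ a1
  rw [← mul_assoc, hDN.eq, mul_assoc] at a2
  have a3 := H _ a2
  rw [← pow_three, h3, one_pow, sub_eq_zero] at a3
  exact Units.ext (by rw [Units.val_pow_eq_pow_val, a3]; rfl)

theorem fin {Γ : Subgroup GL6} {ε : 𝔽} (hε : ε ≠ 0) {k : GL6} (hk : k ∈ Γ) (hc : Commute k (u 1 ε 0))
    (hf : ∀ a b, k • k • E ε a b = E ε (-a) (-b)) : ∃ j ∈ Γ, j * j = -1 ∧ j * u 1 ε 0 = u 1 ε 0 * j := by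
  have h := cube hε (n := -(k * k)) (hc.mul_left hc).neg_left.eq fun a b => by
    rw [← neg_one_mul, mul_smul, mul_smul, hf, neg_one_smul', ← neg_one_smul 𝔽, E_smul]; simp
  refine ⟨k ^ 3, pow_mem hk 3, ?_, (hc.pow_left 3).eq⟩
  rw [(by decide : Odd 3).neg_pow, neg_eq_iff_eq_neg] at h
  rw [← h, (Commute.refl k).mul_pow]

theorem main {Γ : Subgroup GL6} (hU : U ≤ Γ) {ε : 𝔽} (hε : ε ≠ 0) {g : GL6} (hg : g ∈ Γ)
    (h : g * u 1 ε 0 * g⁻¹ = u 1 ε 0 ∨ g * u 1 ε 0 * g⁻¹ = (u 1 ε 0)⁻¹) (hs : ¬ Stab g Z1) :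
    ∃ j ∈ Γ, j * j = -1 ∧ j * u 1 ε 0 = u 1 ε 0 * j := by
  have m1 : ∀ a b, ∃ c d, g • E ε a b = E ε c d := fun a b => of_fix hε (by
    have e : (g * u 1 ε 0 * g⁻¹) • g • E ε a b = g • E ε a b := by rw [mul_smul, mul_smul, inv_smul_smul, fix_E]
    rcases h with h | h <;> rw [h] at e
    · exact e
    · exact (inv_smul_eq_iff.1 e).symm)
  have m2 : ∀ a b, ∃ c d, g⁻¹ • E ε a b = E ε c d := fun a b => of_fix hε (by
    have e : (g * u 1 ε 0 * g⁻¹) • E ε a b = E ε a b := by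
      rcases h with h | h <;> rw [h]
      · exact fix_E ..
      · exact inv_smul_eq_iff.2 (fix_E ..).symm
    rw [mul_smul, mul_smul] at e
    exact eq_inv_smul_iff.2 e)
  obtain ⟨p, q, h1⟩ := m1 1 0
  obtain ⟨r, t, h2⟩ := m1 0 1
  obtain ⟨p', q', h3⟩ := m2 1 0
  obtain ⟨r', t', h4⟩ := m2 0 1
  have hq : q ≠ 0 := fun e => hs fun v hv => by
    have hv' : v = E ε (v 0) 0 := by
      ext i
      by_cases hi : i = 0
      · rw [hi]; rfl
      · rw [hv i (by simpa using hi)]; fin_cases i <;> simp [E] at hi ⊢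
    rw [hv', lin h1 h2, e]
    intro i hi
    fin_cases i <;> simp [E] at hi ⊢
  have e1 : p * q' + q * t' = 0 := by
    have := lin h3 h4 p q
    rw [← h1, inv_smul_smul] at this
    exact (congrFun this 3).symm
  have e2 : r * q' + t * t' = 1 := by
    have := lin h3 h4 r t
    rw [← h2, inv_smul_smul] at this
    exact (congrFun this 3).symm
  have hh : ∀ a b, (g * u 0 0 1 * g⁻¹) • E ε a b =
      E ε (a + 2 * (a * q' + b * t') * p) (b + 2 * (a * q' + b * t') * q) := fun a b => by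
    have e : E ε (a * p' + b * r' + 2 * (a * q' + b * t')) (a * q' + b * t') =
        g⁻¹ • E ε a b + (2 * (a * q' + b * t')) • E ε 1 0 := by rw [lin h3 h4, E_smul, E_add]; simp
    rw [mul_smul, mul_smul, lin h3 h4, zb_E, e, smul_add, smul_inv_smul, smul_smul', h1, E_smul, E_add]
  have cz : Commute (u 0 0 1) (u 1 ε 0) := by
    rw [Commute, SemiconjBy, u_mul, u_mul]; congr 1 <;> ring
  have ch : Commute (g * u 0 0 1 * g⁻¹) (u 1 ε 0) := by
    have := cz.conj g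
    rcases h with h | h <;> rw [h] at this
    · exact this
    · exact Commute.inv_right_iff.1 this
  have hz : u 0 0 1 ∈ Γ := hU (u_mem ..)
  have hΓ : g * u 0 0 1 * g⁻¹ ∈ Γ := mul_mem (mul_mem hg hz) (inv_mem hg)
  generalize g * u 0 0 1 * g⁻¹ = x at hh ch hΓ
  have hq' : q * q' = 1 ∨ q * q' = 2 :=
    (by decide : ∀ p q q' t' r t : 𝔽, q ≠ 0 → p * q' + q * t' = 0 → r * q' + t * t' = 1 → q * q' = 1 ∨ q * q' = 2)
      _ _ _ _ _ _ hq e1 e2
  clear e2 h1 h2 h3 h4 hq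
  rcases hq' with e | e
  · refine fin hε (mul_mem hz hΓ) (cz.mul_left ch) fun a b => ?_
    simp only [mul_smul, hh, zb_E]
    clear hh
    congr 1 <;> revert p q q' t' a b <;> decide +kernel
  · refine fin hε (mul_mem hz (mul_mem hΓ hΓ)) (cz.mul_left (ch.mul_left ch)) fun a b => ?_
    simp only [mul_smul, hh, zb_E]
    clear hh
    congr 1 <;> revert p q q' t' a b <;> decide +kernel

/-- `A` is a code of `g` -/
def R (g : GL6) (A : ℕ × ℕ) : Prop := Dis A ∧ g.val = dec 6 A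

theorem R.mul {g h : GL6} {A B : ℕ × ℕ} (a : R g A) (b : R h B) : R (g * h) (Mx3.mul 6 A B) :=
  have := mul_spec (n := 6) (by norm_num) a.1 b.1
  ⟨this.1.1, by rw [this.2, Units.val_mul, a.2, b.2]⟩

theorem R.eq {g h : GL6} {A B : ℕ × ℕ} (a : R g A) (b : R h B) (e : eqB A B = true) : g = h :=
  Units.ext (by rw [a.2, b.2, eqB_iff.1 e])

theorem ra : R (u 1 0 0) (0x810604185, 0x2) := ⟨dis_of (by decide +kernel), by decide +kernel⟩
theorem rb : R (u 0 1 0) (0x830224281, 0x10000) := ⟨dis_of (by decide +kernel), by decide +kernel⟩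
theorem rc : R W1 (0x808401084, 0) := ⟨dis_of (by decide +kernel), by decide +kernel⟩
theorem rd : R (W2 2) (0x1100a0221, 0x4) := ⟨dis_of (by decide +kernel), by decide +kernel⟩
theorem re : R (W2 1) (0x1100a0205, 0x20) := ⟨dis_of (by decide +kernel), by decide +kernel⟩
theorem r1 : R (u 1 1 0) (0x830624785, 0x10002) := ⟨dis_of (by decide +kernel), by decide +kernel⟩
theorem r2 : R (u 1 2 0) (0x810634185, 0x20000602) := ⟨dis_of (by decide +kernel), by decide +kernel⟩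
theorem rone : R 1 (0x810204081, 0) := ⟨dis_of (by decide +kernel), by decide +kernel⟩
theorem rneg : R (-1) (0, 0x810204081) := ⟨dis_of (by decide +kernel), by decide +kernel⟩

/-- an element of `M12` with its code -/
def RM (A : ℕ × ℕ) : Prop := ∃ g ∈ M12, R g A

theorem RM.mul {A B : ℕ × ℕ} (a : RM A) (b : RM B) : RM (Mx3.mul 6 A B) :=
  let ⟨_, a1, a2⟩ := a
  let ⟨_, b1, b2⟩ := b
  ⟨_, mul_mem a1 b1, a2.mul b2⟩

theorem m0 : RM (0x810604185, 0x2) := ⟨_, Subgroup.subset_closure (by simp), ra⟩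
theorem m1 : RM (0x830224281, 0x10000) := ⟨_, Subgroup.subset_closure (by simp), rb⟩
theorem m2 : RM (0x808401084, 0) := ⟨_, Subgroup.subset_closure (by simp), rc⟩
theorem m3 : RM (0x1100a0221, 0x4) := ⟨_, Subgroup.subset_closure (by simp), rd⟩

theorem ex0 (ε : 𝔽) (hε : ε ≠ 0) : ∃ g ∈ M12, g * u 1 ε 0 = u 1 ε 0 * g ∧ ¬ Stab g Z1 := by
  obtain rfl | rfl := (by decide : ∀ ε : 𝔽, ε ≠ 0 → ε = 1 ∨ ε = 2) ε hε
  · obtain ⟨g, hg, r⟩ := m2.mul (m3.mul (m2.mul (m3.mul (m1.mul (m0.mul (m2.mul (m3.mul (m2.mul m3))))))))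
    refine ⟨g, hg, (r.mul r1).eq (r1.mul r) (by decide +kernel), fun h => ?_⟩
    have := h z (by decide)
    rw [smul_def, r.2] at this
    exact absurd this (by decide +kernel)
  · obtain ⟨g, hg, r⟩ :=
      m2.mul (m3.mul (m2.mul (m0.mul (m2.mul (m3.mul (m1.mul (m0.mul (m2.mul (m3.mul m0)))))))))
    refine ⟨g, hg, (r.mul r2).eq (r2.mul r) (by decide +kernel), fun h => ?_⟩
    have := h z (by decide)
    rw [smul_def, r.2] at this
    exact absurd this (by decide +kernel)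

end N4a

open N4a

theorem stN4a : StN4a := by
  intro Γ hU ε k hε g hg h hs
  have hw : u 0 k 0 ∈ Γ := hU (u_mem ..)
  refine main hU hε (mul_mem (mul_mem hw hg) (inv_mem hw)) ?_ (not_stab hs k)
  have e : u 0 k 0 * g * (u 0 k 0)⁻¹ * u 1 ε 0 * (u 0 k 0 * g * (u 0 k 0)⁻¹)⁻¹ =
      u 0 k 0 * (g * u 1 ε k * g⁻¹) * (u 0 k 0)⁻¹ := by rw [← conj_u ε k]; group
  rw [e]
  refine h.imp (fun h => by rw [h, conj_u]) fun h => by rw [h, ← conj_u ε k]; group

theorem stMu : StMu := by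
  refine ⟨fun Γ hΓ h1 h2 => ?_, ?_, fun ε k hε => ?_⟩
  · have sy : IsSylowIn 3 U Γ := ⟨hΓ.le, IsPGroup.of_card (n := 3) card_U, fun d => hΓ.nd (by
      rw [← (U.subgroupOf Γ).index_mul_card, Nat.card_congr (Subgroup.subgroupOfEquivOfLe hΓ.le).toEquiv, card_U]
      exact Nat.mul_dvd_mul_right d 27)⟩
    have hh : u 0 1 0 * W2 1 * (W1 * u 1 0 0) ∈ Γ :=
      mul_mem (mul_mem (hΓ.le (u_mem ..)) h2) (mul_mem h1 (hΓ.le (u_mem ..)))
    have r := (rb.mul re).mul (rc.mul ra)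
    have ht := mul_mem hh hh
    have r2 := r.mul r
    generalize u 0 1 0 * W2 1 * (W1 * u 1 0 0) * (u 0 1 0 * W2 1 * (W1 * u 1 0 0)) = t at ht r2
    have r6 := r2.mul (r2.mul r2)
    have h9 := (r6.mul (r6.mul r6)).eq rone (by decide +kernel)
    rw [← pow_three t, ← pow_three, ← pow_mul] at h9
    have : Fact (Nat.Prime 3) := ⟨Nat.prime_three⟩
    obtain ⟨c, -, hc⟩ := sy.exists_conj_le (CL.Even.isPGroup_zpowers (p := 3) (k := 2) h9) (Subgroup.zpowers_le.2 ht)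
    obtain ⟨i, j, k, e⟩ := hc (conj_mem_conj_smul c (Subgroup.mem_zpowers t))
    have h3 := u_cube i j k
    rw [← e, conj_pow, conj_eq_one_iff, pow_three] at h3
    have h4 := r6.2
    rw [h3] at h4
    exact absurd h4 (by decide +kernel)
  · obtain ⟨g, hg, r⟩ := m3.mul (m2.mul (m3.mul (m2.mul (m3.mul (m0.mul (m2.mul (m3.mul (m2.mul (m1.mul (m3.mul
      (m2.mul (m3.mul (m0.mul (m2.mul m0))))))))))))))
    exact r.eq rneg (by decide +kernel) ▸ hg
  · obtain ⟨g, hg, h1, h2⟩ := ex0 ε hε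
    have hw : u 0 k 0 ∈ M12 := by
      have hb : u 0 1 0 ∈ M12 := Subgroup.subset_closure (by simp)
      obtain rfl | rfl | rfl := (by decide : ∀ k : ZMod 3, k = 0 ∨ k = 1 ∨ k = 2) k
      · rw [u_zero]; exact one_mem _
      · exact hb
      · have := mul_mem hb hb
        rw [u_mul] at this
        exact this
    refine ⟨(u 0 k 0)⁻¹ * g * u 0 k 0, mul_mem (mul_mem (inv_mem hw) hg) hw, ?_, fun h => h2 ?_⟩
    · rw [← conj_u ε k] at h1
      calc (u 0 k 0)⁻¹ * g * u 0 k 0 * u 1 ε k = (u 0 k 0)⁻¹ * (g * (u 0 k 0 * u 1 ε k * (u 0 k 0)⁻¹)) * u 0 k 0 := by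
            group
        _ = _ := by rw [h1]; group
    · by_contra h3
      have := stab_mul (stab_mul (stab_u 0 k 0) h) (u_inv 0 k 0 ▸ stab_u _ _ _ : Stab (u 0 k 0)⁻¹ Z1)
      exact h3 (by simpa [mul_assoc] using this)

end CL.C3.MM
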