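/-
Project C3 (job C3F-N4b): elements of order 4 which centralise a regular unipotent element.
-/
import Cfsg.Agent.Fus.C3F
import Cfsg.Agent.Spor.Mx3

set_option autoImplicit false
set_option Elab.async false

namespace CL.C3.MM

open Matrix CL.Mx3 Cfsg CL.Grp

namespace N4b

/-- codes -/
abbrev Cd := ℕ × ℕ
/-- matrices -/
abbrev M6 := Matrix (Fin 6) (Fin 6) (ZMod 3)

theorem no9 {Γ : Subgroup GL6} (hΓ : Syl Γ) {h : GL6} (hh : h ∈ Γ) (e : h ^ 36 = 1) : h ^ 12 = 1 := by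
  haveI : Fact (Nat.Prime 3) := ⟨Nat.prime_three⟩
  have sy : IsSylowIn 3 U Γ := ⟨hΓ.le, IsPGroup.of_card (n := 3) card_U, fun ⟨m, hm⟩ => hΓ.nd ⟨m, by
    rw [← card_mul_relIndex hΓ.le, card_U, hm]; ring⟩⟩
  obtain ⟨g, -, hg⟩ := sy.exists_conj_le (U := Subgroup.zpowers (h ^ 4)) (by
    rintro ⟨_, n, rfl⟩
    refine ⟨2, Subtype.ext ?_⟩
    show ((h ^ 4) ^ n) ^ 3 ^ 2 = 1
    rw [← _root_.zpow_natCast, ← _root_.zpow_mul, mul_comm, _root_.zpow_mul, _root_.zpow_natCast, ← pow_mul, show 4 * 3 ^ 2 = 36 from rfl, e,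
      _root_.one_zpow]) (Subgroup.zpowers_le.2 (pow_mem hh 4))
  obtain ⟨i, j, k, e1⟩ := hg (conj_mem_conj_smul g (Subgroup.mem_zpowers _))
  have := u_cube i j k
  rw [← e1, conj_pow, ← pow_mul, mul_inv_eq_one, mul_eq_left] at this
  exact this

theorem fP {α : Type} (A : Cd) (k : Cd → α) : frcP A k = k A := by cases A; rfl

/-- the sum of two codes -/
noncomputable def add (A B : Cd) : Cd := Prod.rec (fun x y => Prod.rec (fun p m => addK x y p m Prod.mk) B) A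

/-- `A` is a code of `M` -/
def R (A : Cd) (M : M6) : Prop := disB A = true ∧ dec 6 A = M

noncomputable instance decR (A : Cd) (M : M6) : Decidable (R A M) := inferInstanceAs (Decidable (_ ∧ _))

theorem disB_of {A : Cd} (h : Dis A) : disB A = true :=
  Nat.beq_eq ▸ Nat.eq_of_testBit_eq fun c => (Nat.testBit_and _ _ c).trans ((h c).trans (Nat.zero_testBit c).symm)

variable {A B : Cd} {M N : M6}

theorem R.mul (h : R A M) (h' : R B N) : R (Mx3.mul 6 A B) (M * N) :=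
  have := mul_spec (n := 6) (by decide) (dis_of h.1) (dis_of h'.1)
  ⟨disB_of this.1.1, h.2 ▸ h'.2 ▸ this.2⟩

theorem R.add (h : R A M) (h' : R B N) : R (add A B) (M + N) := by
  obtain ⟨x, y⟩ := A
  obtain ⟨p, m⟩ := B
  have := add_spec (dis_of h.1) (dis_of h'.1)
  rw [show N4b.add (x, y) (p, m) = _ from (Mx3.frc_eq _ _).trans (Mx3.frc_eq _ _)]
  exact ⟨disB_of fun c => (this c).1, h.2 ▸ h'.2 ▸ ext fun i j => (this _).2⟩

theorem R.eq (h : R A M) (h' : R B N) (e : eqB A B = true) : M = N := by rw [← h.2, ← h'.2, eqB_iff.1 e]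

/-- the identity -/
def I6 : Cd := (34630287489, 0)

theorem rI : R I6 1 := by decide +kernel

/-- the order is divisible by 9 and divides 36 -/
noncomputable def bad (h : Cd) : Bool := frcP (Mx3.mul 6 h h) fun h2 => frcP (Mx3.mul 6 h2 h2) fun h4 =>
  frcP (Mx3.mul 6 (Mx3.mul 6 h4 h4) h4) fun h12 => !eqB h12 I6 && eqB (Mx3.mul 6 (Mx3.mul 6 h12 h12) h12) I6

theorem bad_spec {Γ : Subgroup GL6} (hΓ : Syl Γ) {g : GL6} (hg : g ∈ Γ) (h : R A g.val) (e : bad A = true) : False := by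
  simp only [bad, fP, Bool.and_eq_true, Bool.not_eq_true'] at e
  have h4 := (h.mul h).mul (h.mul h)
  have h12 := (h4.mul h4).mul h4
  rw [show g.val * g.val * (g.val * g.val) * (g.val * g.val * (g.val * g.val)) * (g.val * g.val * (g.val * g.val)) =
    (g ^ 12).val by simp only [Units.val_mul, pow_succ, pow_zero, one_mul, mul_assoc]] at h12
  have e1 := no9 hΓ hg (Units.ext (by
    rw [show 36 = 12 + 12 + 12 from rfl, pow_add, pow_add]
    exact ((h12.mul h12).mul h12).eq rI e.2))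
  have r1 : Red 6 I6 := (show Mx3.mul 6 I6 I6 = I6 from eqB_iff.1 (by decide +kernel)) ▸
    (mul_spec (by decide) (dis_of rI.1) (dis_of rI.1)).1
  rw [eqB_iff.2 ((mul_spec (by decide) (dis_of (h4.mul h4).1) (dis_of h4.1)).1.inj r1
    (h12.2.trans (by rw [e1, rI.2]; rfl)))] at e
  exact Bool.noConfusion e.1

/-- the codes of the elements of `U` -/
def uc (i j k : ZMod 3) : Cd := [(34630287489, 0), (34638677153, 8), (34630287529, 8389632), (35167289985, 65536),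
  (35175681697, 65544), (35167290025, 8457216), (34630484097, 536871424), (34638873761, 536873480),
  (34630486185, 545261056), (34634482053, 2), (34642871717, 26), (34634482109, 8389634), (35171485573, 65538),
  (35179875237, 66586), (35171484605, 8456194), (34634678661, 536872450), (34643067301, 536873498),
  (34634681789, 545260034), (34630287495, 4194560), (34638677175, 4194568), (34630287535, 12584208),
  (35167289991, 4261120), (35175680695, 4260104), (35167291055, 12650768), (34630485127, 541065984),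
  (34638872759, 541069064), (34630486191, 549454608)].getD (9 * i.val + 3 * j.val + k.val) I6

theorem ru : ∀ i j k, R (uc i j k) (u i j k).val := by decide +kernel

/-- the codes of the letters -/
def tab (J : Cd) (c : ℕ) : Cd :=
  [(34634482053, 2), (35167289985, 65536), J, (34498154628, 0), (4564058625, 0), (34638677153, 8)].getD c I6

/-- the letters -/
def gs (j : GL6) (c : ℕ) : GL6 := [u 1 0 0, u 0 1 0, j, W1, W2 0, u 0 0 1].getD c 1

/-- the code of a word -/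
noncomputable def ev (J : Cd) (w : List ℕ) : Cd := List.rec I6 (fun c _ ih => Mx3.mul 6 (tab J c) ih) w

theorem r_tab {j : GL6} (h : R A j.val) : ∀ c, R (tab A c) (gs j c).val
  | 0 => ru 1 0 0
  | 1 => ru 0 1 0
  | 2 => h
  | 3 => (by decide +kernel : R (34498154628, 0) W1.val)
  | 4 => (by decide +kernel : R (4564058625, 0) (W2 0).val)
  | 5 => ru 0 0 1
  | _ + 6 => rI

theorem r_ev {j : GL6} (h : R A j.val) (w : List ℕ) : R (ev A w) (w.map (gs j)).prod.val := by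
  induction w with
  | nil => exact rI
  | cons c w ih => rw [List.map_cons, List.prod_cons]; exact (r_tab h c).mul ih

theorem gs_mem {Γ : Subgroup GL6} (hΓ : Syl Γ) {j : GL6} (hj : j ∈ Γ) {w : List ℕ}
    (h : (W1 ∈ Γ ∧ W2 0 ∈ Γ) ∨ ∀ c ∈ w, c ≠ 3 ∧ c ≠ 4) : (w.map (gs j)).prod ∈ Γ := by
  refine Γ.list_prod_mem fun x hx => ?_
  obtain ⟨c, hc, rfl⟩ := List.mem_map.1 hx
  match c, hc with
  | 0, _ => exact hΓ.le (u_mem ..)
  | 1, _ => exact hΓ.le (u_mem ..)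
  | 2, _ => exact hj
  | 3, hc => exact h.elim And.left fun h => absurd rfl (h 3 hc).1
  | 4, hc => exact h.elim And.right fun h => absurd rfl (h 4 hc).2
  | 5, _ => exact hΓ.le (u_mem ..)
  | _ + 6, _ => exact one_mem _

/-- words without `W1`, `W2` -/
def wA : List (List ℕ) := [[2, 5], [2, 1, 2, 0, 2, 1, 0, 0], [2, 1, 2, 0, 2, 1, 1, 0], [2, 0, 2, 0, 1, 2, 0, 0]]
/-- words with `W1`, `W2` -/
def wB : List (List ℕ) := [[3, 4, 3, 2, 0], [4, 3, 2, 0], [4, 2, 3, 2], [2, 4, 2, 0], [2, 3, 2, 4, 0], [4, 3, 2, 3, 0],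
  [3, 2, 4, 2, 1], [3, 1, 4, 2, 0], [4, 2, 1, 3, 0], [2, 3, 2, 1], [2, 3, 4, 1], [3, 0, 4, 2, 0], [4, 1, 2, 3, 0]]
/-- a word for `N1` -/
def g1 (ε : ZMod 3) : List ℕ :=
  if ε = 1 then [2, 1, 1, 2, 0, 2, 0, 2, 1, 2, 0, 2] else [2, 0, 2, 1, 2, 0, 1, 2, 0, 2, 0, 2]
/-- a word for `N2` -/
def g2 (ε : ZMod 3) : List ℕ :=
  if ε = 1 then [2, 1, 2, 0, 2, 1, 2, 1, 2, 0, 0, 2] else [2, 0, 2, 1, 2, 1, 2, 0, 0, 2, 0, 2]

/-- `g` conjugates the first element of `U` to the second one -/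
noncomputable def cjB (g : Cd) (a b c i j k : ZMod 3) : Bool := eqB (Mx3.mul 6 g (uc a b c)) (Mx3.mul 6 (uc i j k) g)

theorem cjB_spec {g : GL6} (h : R A g.val) {a b c i j k : ZMod 3} (e : cjB A a b c i j k = true) :
    g * u a b c * g⁻¹ = u i j k :=
  mul_inv_eq_iff_eq_mul.2 (Units.ext ((h.mul (ru a b c)).eq ((ru i j k).mul h) e))

/-- the test for one matrix -/
noncomputable def chkJ (ε : ZMod 3) (J : Cd) : Bool := wA.any (fun w => frcP (ev J w) bad) ||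
  (frcP (ev J (g1 ε)) (fun g => decide ((∃ j k, j ≠ 0 ∧ cjB g 0 0 1 0 j k = true) ∧ ∃ j k, cjB g 0 1 0 0 j k = true)) &&
    frcP (ev J (g2 ε)) (fun g => decide ((∃ i k, i ≠ 0 ∧ cjB g 0 0 1 i 0 k = true) ∧ ∃ i k, cjB g 1 0 0 i 0 k = true)) &&
    wB.any fun w => frcP (ev J w) bad)

theorem chkJ_spec {Γ : Subgroup GL6} (hΓ : Syl Γ) {j : GL6} (hj : j ∈ Γ) (h : R A j.val) {ε : ZMod 3}
    (e : chkJ ε A = true) : N1 Γ ∧ N2 Γ ∧ ¬ (W1 ∈ Γ ∧ W2 0 ∈ Γ) := by
  simp only [chkJ, fP, Bool.or_eq_true, Bool.and_eq_true, List.any_eq_true, decide_eq_true_eq] at e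
  rcases e with ⟨w, hw, e⟩ | ⟨⟨⟨⟨a, b, c, d⟩, a', b', d'⟩, ⟨i, k, l, m⟩, i', k', m'⟩, w, -, e⟩
  · exact (bad_spec hΓ (gs_mem hΓ hj (Or.inr ((by decide : ∀ w ∈ wA, ∀ c ∈ w, c ≠ 3 ∧ c ≠ 4) w hw))) (r_ev h w) e).elim
  · exact ⟨⟨_, gs_mem hΓ hj (Or.inr ((by decide : ∀ ε, ∀ c ∈ g1 ε, c ≠ 3 ∧ c ≠ 4) ε)),
      ⟨a, b, c, cjB_spec (r_ev h _) d⟩, a', b', cjB_spec (r_ev h _) d'⟩,
      ⟨_, gs_mem hΓ hj (Or.inr ((by decide : ∀ ε, ∀ c ∈ g2 ε, c ≠ 3 ∧ c ≠ 4) ε)),
      ⟨i, k, l, cjB_spec (r_ev h _) m⟩, i', k', cjB_spec (r_ev h _) m'⟩,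
      fun hW => bad_spec hΓ (gs_mem hΓ hj (Or.inl hW)) (r_ev h w) e⟩

/-- constant matrices: `s`, `s²`, `(s - 1)²`, a projection, three rows, an element of order 4, `(s - 1)² E₅₅` -/
def dat (ε : ZMod 3) (k : ℕ) : Cd := (if ε = 1 then [(35171485573, 65538), (34638872759, 541069064), (8388656, 133132),
  (34561606146, 2138248), (26843545600, 4294967296), (3221225472, 0), (9663676416, 2147483648),
  (13591155016, 17180148355), (8388640, 133120)] else [(34634678661, 536872450), (35167291055, 12650768), (40, 8521748),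
  (34494005258, 69739136), (30064771072, 1073741824), (0, 3221225472), (10737418240, 1073741824),
  (9161982091, 21609321280), (32, 8521728)]).getD k I6

/-- a matrix unit -/
def E5 : M6 := single 5 5 1
/-- the matrices of the constants -/
def dm (ε : ZMod 3) (k : ℕ) : M6 := dec 6 (dat ε k)
/-- maps the second generator to the first one -/
def E12 (ε : ZMod 3) : M6 := E5 * dm ε 4 + dm ε 0 * (E5 * dm ε 5) + dm ε 1 * (E5 * dm ε 6)

theorem facts : ∀ ε : ZMod 3, ε ≠ 0 → (∀ k < 9, disB (dat ε k) = true) ∧ dm ε 0 = uM 1 ε 0 ∧ dm ε 1 = dm ε 0 * dm ε 0 ∧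
    dm ε 2 = (dm ε 0 - 1) * (dm ε 0 - 1) ∧ dm ε 3 * dm ε 7 = -E12 ε ∧ E12 ε * dm ε 7 = dm ε 3 ∧
    dm ε 8 = dm ε 2 * E5 ∧ dm ε 8 0 5 = 1 ∧ R (0, 0) 0 ∧ R (dat ε 8).swap (-dm ε 8) := by decide +kernel

/-- one entry -/
def bt (x y : ZMod 3) (n : ℕ) : ℕ := cond (x == y) n 0
/-- the code of a matrix with one column -/
def cv (a b c d e f : ZMod 3) : Cd :=
  (bt a 1 32 + bt b 1 2048 + bt c 1 131072 + bt d 1 8388608 + bt e 1 536870912 + bt f 1 34359738368,
    bt a 2 32 + bt b 2 2048 + bt c 2 131072 + bt d 2 8388608 + bt e 2 536870912 + bt f 2 34359738368)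

theorem r_cv : ∀ a b c d e f, R (cv a b c d e f) (of fun i k => if k = 5 then ![a, b, c, d, e, f] i else 0) := by
  decide +kernel

/-- the test for one column -/
noncomputable def chk (ε : ZMod 3) (V : Cd) : Bool := frcP (Mx3.mul 6 (dat ε 2) V) (fun Z =>
  eqB Z (0, 0) || eqB Z (dat ε 8) || eqB Z (dat ε 8).swap) ||
  frcP (add (add (add (dat ε 3) (Mx3.mul 6 V (dat ε 4))) (Mx3.mul 6 (dat ε 0) (Mx3.mul 6 V (dat ε 5))))
    (Mx3.mul 6 (dat ε 1) (Mx3.mul 6 V (dat ε 6)))) fun φ => frcP (Mx3.mul 6 φ φ) fun x2 => frcP (Mx3.mul 6 x2 x2) fun x4 =>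
    frcP (Mx3.mul 6 x4 x4) fun x8 => frcP (Mx3.mul 6 (Mx3.mul 6 x8 x8) φ) fun X =>
    eqB (Mx3.mul 6 φ X) I6 && frcP (Mx3.mul 6 (Mx3.mul 6 φ (dat ε 7)) X) (chkJ ε)

theorem big1 : ∀ a b c d e f, chk 1 (cv a b c d e f) = true := by decide +kernel
theorem big2 : ∀ a b c d e f, chk 2 (cv a b c d e f) = true := by decide +kernel

end N4b

open N4b in
theorem stN4b : StN4b := by
  intro Γ hΓ ε hε j hj j2 js
  obtain ⟨hd, f0, f1, f2, f3, f4, f5, f6, r0, r1⟩ := facts ε hε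
  have rd : ∀ k < 9, R (dat ε k) (dm ε k) := fun k hk => ⟨hd k hk, rfl⟩
  have m2 : j.val * j.val = -1 := congrArg Units.val j2
  have ms : dm ε 0 * j.val = j.val * dm ε 0 := f0 ▸ (congrArg Units.val js).symm
  have ms1 : dm ε 1 * j.val = j.val * dm ε 1 := by rw [f1, mul_assoc, ms, ← mul_assoc, ms, mul_assoc]
  have ms2 : dm ε 2 * j.val = j.val * dm ε 2 := by
    have : (dm ε 0 - 1) * j.val = j.val * (dm ε 0 - 1) := by rw [sub_mul, mul_sub, ms, one_mul, mul_one]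
    rw [f2, mul_assoc, this, ← mul_assoc, this, mul_assoc]
  have hV := r_cv (j.val 0 5) (j.val 1 5) (j.val 2 5) (j.val 3 5) (j.val 4 5) (j.val 5 5)
  have e : chk ε (cv (j.val 0 5) (j.val 1 5) (j.val 2 5) (j.val 3 5) (j.val 4 5) (j.val 5 5)) = true := by
    rcases (by decide : ∀ ε : ZMod 3, ε ≠ 0 → ε = 1 ∨ ε = 2) ε hε with rfl | rfl
    exacts [big1 .., big2 ..]
  rw [show (of fun i k => if k = 5 then ![j.val 0 5, j.val 1 5, j.val 2 5, j.val 3 5, j.val 4 5, j.val 5 5] i else 0 : M6) =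
    j.val * E5 from ext fun i k => by
      by_cases h : k = 5
      · rw [of_apply, if_pos h, h, E5, mul_single_apply_same, mul_one]; fin_cases i <;> rfl
      · rw [of_apply, if_neg h, E5, mul_single_apply_of_ne _ _ _ _ _ h]] at hV
  generalize cv _ _ _ _ _ _ = V at hV e
  simp only [chk, fP, Bool.or_eq_true, Bool.and_eq_true] at e
  rcases e with e | ⟨e1, e2⟩
  · have hZ := (rd 2 (by decide)).mul hV
    rw [← mul_assoc, ms2, mul_assoc, ← f5] at hZ
    obtain ⟨l, hl⟩ : ∃ l : ZMod 3, j.val * dm ε 8 = l • dm ε 8 := by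
      rcases e with (e | e) | e
      exacts [⟨0, by rw [hZ.eq r0 e, zero_smul]⟩, ⟨1, by rw [hZ.eq (rd 8 (by decide)) e, one_smul]⟩,
        ⟨-1, by rw [hZ.eq r1 e, neg_one_smul]⟩]
    have : -dm ε 8 = (l * l) • dm ε 8 := by rw [← neg_one_mul, ← m2, mul_assoc, hl, mul_smul_comm, hl, smul_smul]
    have := congrFun (congrFun this 0) 5
    rw [Matrix.neg_apply, Matrix.smul_apply, f6] at this
    exact ((by decide : ∀ l : ZMod 3, -1 ≠ (l * l) • (1 : ZMod 3)) l this).elim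
  · have hφ := (((rd 3 (by decide)).add (hV.mul (rd 4 (by decide)))).add
      ((rd 0 (by decide)).mul (hV.mul (rd 5 (by decide))))).add ((rd 1 (by decide)).mul (hV.mul (rd 6 (by decide))))
    rw [show dm ε 3 + j.val * E5 * dm ε 4 + dm ε 0 * (j.val * E5 * dm ε 5) + dm ε 1 * (j.val * E5 * dm ε 6) =
      dm ε 3 + j.val * E12 ε by
        simp only [E12, mul_add, ← mul_assoc, ms, ms1, add_assoc]] at hφ
    have h2 := hφ.mul hφ
    have h8 := (h2.mul h2).mul (h2.mul h2)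
    have hX := (h8.mul h8).mul hφ
    have hJ := (hφ.mul (rd 7 (by decide))).mul hX
    rw [show (dm ε 3 + j.val * E12 ε) * dm ε 7 = j.val * (dm ε 3 + j.val * E12 ε) by
      rw [add_mul, mul_add, f3, mul_assoc, f4, ← mul_assoc, m2, neg_one_mul, add_comm], mul_assoc,
      (hφ.mul hX).eq rI e1, mul_one] at hJ
    exact chkJ_spec hΓ hj hJ e2

end CL.C3.MM
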