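/-
Coordinates on `J = L 6` and the automiser of `J` as a subgroup of `GL₆(3)`.
-/
import Cfsg.Agent.Fus.C3F

set_option autoImplicit false
set_option Elab.async false

namespace CL.C3

open Subgroup Cfsg Cfsg.FusionSystem CL.Fus

attribute [local irreducible] mul inv

open MM

namespace Psi

theorem vec_one : vec 1 = 0 := by decide +kernel

theorem add_gen : ∀ j < 6, ∀ y ∈ L 6, vec (e (3 ^ j) * y) = vec (e (3 ^ j)) + vec y := fun j hj =>
  all_L (allB_spec (by decide +kernel : allB 6 (fun j => allW (3 ^ 6) fun n =>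
    decide (vec (e (3 ^ j) * e n) = vec (e (3 ^ j)) + vec (e n))) = true) j hj)

/-- the elements on which `vec` is additive -/
def addSub : Submonoid G where
  carrier := {x | x ∈ L 6 ∧ ∀ y ∈ L 6, vec (x * y) = vec x + vec y}
  one_mem' := ⟨one_mem _, fun y _ => by rw [one_mul, vec_one, zero_add]⟩
  mul_mem' := fun {a b} ha hb => ⟨mul_mem ha.1 hb.1, fun y hy => by
    rw [mul_assoc, ha.2 _ (mul_mem hb.1 hy), hb.2 y hy, ha.2 b hb.1, add_assoc]⟩

theorem ind {M : Submonoid G} : ∀ {k : ℕ}, k ≤ 9 → (∀ j < k, e (3 ^ j) ∈ M) → ∀ x ∈ L k, x ∈ M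
  | 0, _, _ => fun x hx => by rw [L_zero, mem_bot] at hx; rw [hx]; exact one_mem _
  | k + 1, hk, h => fun x hx => by
    obtain ⟨d, -, r, hr, rfl⟩ := split hk hx
    exact mul_mem (pow_mem (h k (by omega)) d) (ind (by omega) (fun j hj => h j (by omega)) r hr)

theorem gen_mem : ∀ j < 6, e (3 ^ j) ∈ L 6 := by decide +kernel

theorem add : ∀ x ∈ L 6, ∀ y ∈ L 6, vec (x * y) = vec x + vec y := fun x hx =>
  (ind (M := addSub) (by norm_num) (fun j hj => ⟨gen_mem j hj, add_gen j hj⟩) x hx).2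

/-- the element with given coordinates -/
def cod (v : Vec) : G :=
  e ((v 0).val + 3 * (v 1).val + 9 * (v 2).val + 27 * (v 3).val + 81 * (v 4).val + 243 * (v 5).val)

theorem cod_vec : ∀ x ∈ L 6, cod (vec x) = x := all_L (by decide +kernel)

theorem vec_cod' : ∀ a b c d f g : ZMod 3, cod ![a, b, c, d, f, g] ∈ L 6 ∧
    vec (cod ![a, b, c, d, f, g]) = ![a, b, c, d, f, g] := by decide +kernel

theorem vec_cod (v : Vec) : cod v ∈ L 6 ∧ vec (cod v) = v := by
  have : v = ![v 0, v 1, v 2, v 3, v 4, v 5] := by ext i; fin_cases i <;> rfl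
  rw [this]; exact vec_cod' ..

theorem inj : ∀ x ∈ L 6, ∀ y ∈ L 6, vec x = vec y → x = y := fun x hx y hy h => by
  rw [← cod_vec x hx, h, cod_vec y hy]

theorem cod_add (v w : Vec) : cod (v + w) = cod v * cod w :=
  inj _ (vec_cod _).1 _ (mul_mem (vec_cod v).1 (vec_cod w).1) (by
    rw [add _ (vec_cod v).1 _ (vec_cod w).1, (vec_cod _).2, (vec_cod _).2, (vec_cod _).2])

/-- an endomorphism of `J` is given by a matrix -/
theorem exists_mat {f : G → G} (hf : HomOn (L 6) f) (hi : Iv f (L 6)) :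
    ∃ M : Matrix (Fin 6) (Fin 6) (ZMod 3), ∀ x ∈ L 6, vec (f x) = M.mulVec (vec x) := by
  let φ : Vec →+ Vec := AddMonoidHom.mk' (fun v => vec (f (cod v))) fun v w => by
    rw [cod_add, hf _ (vec_cod v).1 _ (vec_cod w).1, add _ (hi _ (vec_cod v).1) _ (hi _ (vec_cod w).1)]
  refine ⟨LinearMap.toMatrix' (φ.toZModLinearMap 3), fun x hx => ?_⟩
  rw [LinearMap.toMatrix'_mulVec]
  show _ = vec (f (cod (vec x)))
  rw [cod_vec x hx]

theorem mat_ext {M N : Matrix (Fin 6) (Fin 6) (ZMod 3)} (h : ∀ x ∈ L 6, M.mulVec (vec x) = N.mulVec (vec x)) :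
    M = N := Matrix.toLin'.injective (LinearMap.ext fun v => by
  have := h _ (vec_cod v).1
  rwa [(vec_cod v).2] at this)

theorem exists_rep {f g : G → G} (hf : HomOn (L 6) f) (hi : Iv f (L 6)) (hg : HomOn (L 6) g) (hj : Iv g (L 6))
    (h1 : ∀ x ∈ L 6, g (f x) = x) (h2 : ∀ x ∈ L 6, f (g x) = x) : ∃ m, Rep f m := by
  obtain ⟨M, hM⟩ := exists_mat hf hi
  obtain ⟨N, hN⟩ := exists_mat hg hj
  refine ⟨⟨M, N, mat_ext fun x hx => ?_, mat_ext fun x hx => ?_⟩, hM⟩
  · rw [← Matrix.mulVec_mulVec, ← hN x hx, ← hM _ (hj x hx), h2 x hx, Matrix.one_mulVec]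
  · rw [← Matrix.mulVec_mulVec, ← hM x hx, ← hN _ (hi x hx), h1 x hx, Matrix.one_mulVec]

theorem rep_unique {f : G → G} {g g' : GL6} (h : Rep f g) (h' : Rep f g') : g = g' :=
  Units.ext (mat_ext fun x hx => (h x hx).symm.trans (h' x hx))

theorem Rep.congr {f f' : G → G} {g : GL6} (h : Rep f g) (e : ∀ x ∈ L 6, f x = f' x) : Rep f' g :=
  fun x hx => e x hx ▸ h x hx

theorem ex (F : FS) (f : G → G) (hf : Au F (L 6) f) : ∃ g, Rep f g := by
  obtain ⟨g, hg, h1, h2⟩ := hf.inv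
  exact exists_rep hf.1.homOn hf.2 hg.1.homOn hg.2 h1 h2

/-- `Rep` can be checked on generators -/
theorem rep_of_gens {f : G → G} (hf : HomOn (L 6) f) (hi : Iv f (L 6)) {g : GL6}
    (h : ∀ j < 6, vec (f (e (3 ^ j))) = g • vec (e (3 ^ j))) : Rep f g := fun x hx =>
  (ind (M :=
    { carrier := {x | x ∈ L 6 ∧ vec (f x) = g • vec x}
      one_mem' := ⟨one_mem _, by rw [hf.map_one, vec_one, smul_zero]⟩
      mul_mem' := fun {a b} ha hb => ⟨mul_mem ha.1 hb.1, by
        rw [hf a ha.1 b hb.1, add _ (hi a ha.1) _ (hi b hb.1), add a ha.1 b hb.1, smul_add, ha.2, hb.2]⟩ })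
    (by norm_num) (fun j hj => ⟨gen_mem j hj, h j hj⟩) x hx).2

theorem conj_hi (c : G) : ∀ j < 6, vec (hi c * e (3 ^ j) * (hi c)⁻¹) =
    (uM (dg (hi c) 8) (dg (hi c) 7) (dg (hi c) 6 + dg (hi c) 8 * dg (hi c) 7)).mulVec (vec (e (3 ^ j))) :=
  all_hi (p := fun c => ∀ j < 6, vec (c * e (3 ^ j) * c⁻¹) =
    (uM (dg c 8) (dg c 7) (dg c 6 + dg c 8 * dg c 7)).mulVec (vec (e (3 ^ j)))) (by decide +kernel) c

theorem dg_hi (c : G) {k : ℕ} (hk : 5 ≤ k) : dg (hi c) k = dg c k := by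
  obtain ⟨a, ha, h⟩ := hi_split c
  obtain ⟨m, rfl⟩ := Nat.exists_eq_add_of_le hk
  have h1 := hi_mul (hi c) ha
  rw [← h] at h1
  rw [dg, dg, pow_add, ← Nat.div_div_eq_div_mul, ← Nat.div_div_eq_div_mul, show 3 ^ 5 = 243 from rfl, h1]

theorem conj (c : G) : Rep (fun x => c * x * c⁻¹) (uOf c) := by
  refine rep_of_gens (fun x _ y _ => by group) (fun x hx => conj_L hx c) fun j hj => ?_
  obtain ⟨a, ha, h⟩ := hi_split c
  have h1 := conj_hi c j hj
  rw [dg_hi c (by norm_num), dg_hi c (by norm_num), dg_hi c (by norm_num)] at h1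
  have h2 : c * e (3 ^ j) * c⁻¹ = hi c * e (3 ^ j) * (hi c)⁻¹ := by
    conv_lhs => rw [h, mul_assoc (hi c), J_comm (L_mono (by norm_num) ha) (gen_mem j hj)]
    group
  show vec (c * e (3 ^ j) * c⁻¹) = _
  rw [h2, h1]; rfl

theorem usurj' : ∀ i j k : ZMod 3, dg (e (6561 * i.val + 2187 * j.val + 729 * (k - i * j).val)) 8 = i ∧
    dg (e (6561 * i.val + 2187 * j.val + 729 * (k - i * j).val)) 7 = j ∧
    dg (e (6561 * i.val + 2187 * j.val + 729 * (k - i * j).val)) 6 = k - i * j := by decide +kernel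

theorem usurj (i j k : ZMod 3) : ∃ c : G, uOf c = u i j k :=
  ⟨_, by rw [uOf, (usurj' i j k).1, (usurj' i j k).2.1, (usurj' i j k).2.2, sub_add_cancel]⟩

theorem exists_rep_aut (α : MulAut (L 6)) : ∃ g, Rep (autFun α) g :=
  exists_rep (homOn_autFun α) (fun _ hx => autFun_mem α hx) (homOn_autFun α⁻¹) (fun _ hx => autFun_mem _ hx)
    (fun _ hx => autFun_inv_apply α hx) fun _ hx => autFun_apply_inv α hx

/-- the matrix of an automorphism of `J` -/
noncomputable def rho : MulAut (L 6) →* GL6 :=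
  MonoidHom.mk' (fun α => (exists_rep_aut α).choose) fun α β =>
    rep_unique (exists_rep_aut (α * β)).choose_spec fun x hx => by
      rw [autFun_mul α β hx, (exists_rep_aut α).choose_spec _ (autFun_mem β hx),
        (exists_rep_aut β).choose_spec x hx, mul_smul]

theorem rho_spec (α : MulAut (L 6)) : Rep (autFun α) (rho α) := (exists_rep_aut α).choose_spec

theorem rho_inj : Function.Injective rho := fun α β h => aut_ext fun x hx =>
  inj _ (autFun_mem α hx) _ (autFun_mem β hx) (by rw [rho_spec α x hx, rho_spec β x hx, h])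

theorem gam_eq (F : FS) : (F.autGroup (L 6)).map rho = Gam F := by
  ext g
  constructor
  · rintro ⟨α, hα, rfl⟩
    exact ⟨_, au_autFun hα, rho_spec α⟩
  · rintro ⟨f, hf, h⟩
    obtain ⟨α, hα, e⟩ := hf.aut
    exact ⟨α, hα, rep_unique (Rep.congr (rho_spec α) e) h⟩

theorem u_eq : (autInducedBy ⊤ (L 6)).map rho = U := by
  ext g
  constructor
  · rintro ⟨α, hα, rfl⟩
    obtain ⟨a, -, e⟩ := mem_autInducedBy.1 hα
    rw [rep_unique (Rep.congr (rho_spec α) e) (conj a)]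
    exact u_mem ..
  · rintro ⟨i, j, k, rfl⟩
    obtain ⟨c, hc⟩ := usurj i j k
    have hn : c ∈ normalizer (L 6 : Set G) := by rw [normalizer_eq_top]; exact mem_top c
    exact ⟨_, conjAut_mem_autInducedBy hn (mem_top c),
      (rep_unique (Rep.congr (rho_spec _) fun x hx => autFun_conjAut hn hx) (conj c)).trans hc⟩

theorem syl (F : FS) (hF : F.IsSaturated 3) : Syl (Gam F) := by
  have := Fact.mk Nat.prime_three
  have h := (sylIn_map_iff_of_injective rho_inj).2 (sylIn_of_fullyNormalized pT hF (fn_normal F (L 6)))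
  rw [gam_eq, u_eq] at h
  refine ⟨h.le, fun hd => ?_⟩
  have h1 := h.card_eq_pow
  have h2 : 4 ≤ (Nat.card (Gam F)).factorization 3 :=
    (Nat.prime_three.pow_dvd_iff_le_factorization Nat.card_pos.ne').1 hd
  have h3 := Nat.pow_le_pow_right (n := 3) (by norm_num) h2
  rw [← h1, card_U] at h3
  omega

end Psi

theorem stPsi : StPsi :=
  ⟨Psi.add, Psi.inj, fun v => ⟨_, Psi.vec_cod v⟩, Psi.ex, Psi.conj, Psi.usurj, Psi.syl⟩

end CL.C3
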