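/-
Explicit subgroups of `CL.C3.G` with decidable membership; invariant subgroups and chains.
-/
import Cfsg.Agent.Fus.C3X
import Cfsg.Agent.Fus.SmallEss
import Cfsg.Agent.Fus.EssExt

set_option autoImplicit false
set_option Elab.async false

namespace CL.C3

open Subgroup Cfsg Cfsg.FusionSystem CL.Fus

attribute [local irreducible] mul inv

/-! ### Subgroups given by echelon generators -/

/-- the subgroup generated by the first `k` entries of `E` -/
noncomputable def PK (E : List ℕ) : ℕ → Subgroup G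
  | 0 => ⊥
  | k + 1 => PK E k ⊔ zpowers (e (E.getD k 0))

/-- sifting -/
noncomputable def mb (E : List ℕ) (k : ℕ) : ℕ → Bool :=
  Nat.rec (motive := fun _ => ℕ → Bool) (fun x => Nat.beq x 0) (fun k ih x => frc (E.getD k 0) fun g =>
    Bool.rec (frc (Nat.div x (3 ^ k)) fun d => Bool.rec (Bool.rec (Nat.beq d 2 && frc (mul (inv g) (mul (inv g) x)) ih)
      (frc (mul (inv g) x) ih) (Nat.beq d 1)) (ih x) (Nat.beq d 0)) (ih x) (Nat.beq g 0)) k

/-- consistency of the generators -/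
noncomputable def okE (E : List ℕ) : Bool :=
  allB 9 fun k => frc (E.getD k 0) fun g => Nat.beq g 0 || (Nat.ble (3 ^ k) g && Nat.blt g (2 * 3 ^ k) &&
    mb E k (mul (mul g g) g) && allB k fun j => mb E k (mul (mul g (e (E.getD j 0)).v) (inv g)))

theorem PK_le {E : List ℕ} {H : Subgroup G} : ∀ {k : ℕ}, (∀ j < k, e (E.getD j 0) ∈ H) → PK E k ≤ H
  | 0, _ => bot_le
  | k + 1, h => sup_le (PK_le fun j hj => h j (by omega)) (zpowers_le_of_mem (h k (by omega)))

theorem digit_lead {k n : ℕ} (hk : k < 9) (h1 : 3 ^ k ≤ n) (h2 : n < 2 * 3 ^ k) {d : ℕ} (hd : d < 3) {r : G}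
    (hr : r ∈ L k) : (e n ^ d * r).v / 3 ^ k = d ∧ e n ^ d * r ∈ L (k + 1) := by
  have h5 : 0 < 3 ^ k := by positivity
  obtain ⟨t, ht, e1⟩ := lead_one hk h1 h2
  obtain ⟨s, hs, e2⟩ := mul_pow_L ht (e (3 ^ k)) d
  have h6 : (s * r).v < 3 ^ k := mul_mem hs hr
  rw [e1, e2, mul_assoc, mem_L, pow_mul_v hk hd (mul_mem hs hr)]
  exact ⟨by rw [add_comm, Nat.add_mul_div_right _ _ h5, Nat.div_eq_of_lt h6, zero_add], lt_of_digit hd h6⟩

theorem PK_spec {E : List ℕ} (h : okE E = true) : ∀ k ≤ 9, PK E k ≤ L k ∧ (∀ x : G, x ∈ PK E k ↔ mb E k x.v = true) ∧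
    ∀ j < k, (E.getD j 0 = 0 ∧ Miss (PK E k) j) ∨
      (e (E.getD j 0) ∈ PK E k ∧ 3 ^ j ≤ E.getD j 0 ∧ E.getD j 0 < 2 * 3 ^ j) := fun k => by
  induction k with
  | zero => exact fun _ => ⟨bot_le, fun x => by
      rw [PK, mem_bot]; exact ⟨fun h => by rw [h]; rfl, fun h => G.ext' (Nat.eq_of_beq_eq_true h)⟩, by omega⟩
  | succ k ih =>
    intro hk
    obtain ⟨i1, i2, i3⟩ := ih (by omega)
    have h1 := allB_spec h k hk
    have e0 : ∀ x, mb E (k + 1) x = Bool.rec (Bool.rec (Bool.rec (Nat.beq (x / 3 ^ k) 2 && mb E k (mul (inv (E.getD k 0))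
      (mul (inv (E.getD k 0)) x))) (mb E k (mul (inv (E.getD k 0)) x)) (Nat.beq (x / 3 ^ k) 1)) (mb E k x)
      (Nat.beq (x / 3 ^ k) 0)) (mb E k x) (Nat.beq (E.getD k 0) 0) := fun _ => rfl
    rw [frc_eq] at h1
    by_cases h0 : E.getD k 0 = 0
    · have e1 : PK E (k + 1) = PK E k := by rw [PK, h0, e_zero, zpowers_one_eq_bot, sup_bot_eq]
      rw [e1]
      refine ⟨i1.trans (L_mono (Nat.le_succ k)), fun x => by rw [e0, h0]; exact i2 x, fun j hj => ?_⟩
      rcases Nat.lt_succ_iff_lt_or_eq.1 hj with hj | rfl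
      · exact i3 j hj
      · exact Or.inl ⟨h0, fun x hx _ => i1 hx⟩
    have h0' : Nat.beq (E.getD k 0) 0 = false := Bool.eq_false_iff.2 fun h => h0 (Nat.eq_of_beq_eq_true h)
    simp only [h0', Bool.false_or, Bool.and_eq_true, Nat.ble_eq, Nat.blt_eq] at h1
    obtain ⟨⟨⟨a1, a2⟩, a3⟩, a4⟩ := h1
    have a5 := pow_le (k := k + 1) hk
    rw [pow_succ] at a5
    have hv : (e (E.getD k 0)).v = E.getD k 0 := e_v (by omega)
    set g := e (E.getD k 0) with hg
    rw [← hv, ← mul_v, ← mul_v, ← pow_three', ← i2] at a3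
    have a6 : g ∈ normalizer (PK E k : Set G) := mem_normalizer_of_finite fun x hx =>
      PK_le (H := (PK E k).comap (MulAut.conj g).toMonoidHom) (fun j hj => by
        have := allB_spec a4 j hj
        rw [← hv, ← inv_v, ← mul_v, ← mul_v, ← i2] at this
        exact this) hx
    have a7 : ∀ x, x ∈ PK E (k + 1) ↔ ∃ d < 3, ∃ r ∈ PK E k, x = g ^ d * r := fun x => by
      refine ⟨fun hx => ?_, by
        rintro ⟨d, -, r, hr, rfl⟩
        exact mul_mem (mem_sup_right (pow_mem (mem_zpowers g) d)) (mem_sup_left hr)⟩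
      rw [PK, sup_comm] at hx
      obtain ⟨a, ha, b, hb, rfl⟩ := (mem_sup_of_le_normalizer (zpowers_le_of_mem a6)).1 hx
      obtain ⟨n, rfl⟩ := (isOfFinOrder_of_finite g).mem_powers_iff_mem_zpowers.2 ha
      refine ⟨n % 3, Nat.mod_lt _ (by norm_num), (g ^ 3) ^ (n / 3) * b, mul_mem (pow_mem a3 _) hb, ?_⟩
      show g ^ n * b = _
      rw [← mul_assoc, ← pow_mul, ← pow_add, Nat.mod_add_div]
    have a8 : ∀ d < 3, ∀ x : G, x.v / 3 ^ k = d → (x ∈ PK E (k + 1) ↔ (g ^ d)⁻¹ * x ∈ PK E k) := fun d hd x hx => by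
      rw [a7]
      refine ⟨?_, fun h => ⟨d, hd, _, h, by group⟩⟩
      rintro ⟨d', hd', r, hr, rfl⟩
      rw [← hx, (digit_lead hk a1 a2 hd' (i1 hr)).1, inv_mul_cancel_left]
      exact hr
    have a9 : PK E (k + 1) ≤ L (k + 1) := fun x hx => by
      obtain ⟨d, hd, r, hr, rfl⟩ := (a7 x).1 hx
      exact (digit_lead hk a1 a2 hd (i1 hr)).2
    refine ⟨a9, fun x => ?_, fun j hj => ?_⟩
    · rw [e0, h0', ← hv, ← inv_v, ← mul_v, ← mul_v, ← mul_assoc, ← mul_inv_rev, ← pow_two]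
      by_cases b0 : x.v / 3 ^ k = 0
      · rw [a8 0 (by norm_num) x b0, b0, pow_zero, inv_one, one_mul]; exact i2 x
      by_cases b1 : x.v / 3 ^ k = 1
      · rw [a8 1 (by norm_num) x b1, b1, pow_one]; exact i2 _
      by_cases b2 : x.v / 3 ^ k = 2
      · rw [a8 2 (by norm_num) x b2, b2]; exact i2 _
      rw [show Nat.beq (x.v / 3 ^ k) 0 = false from Bool.eq_false_iff.2 fun h => b0 (Nat.eq_of_beq_eq_true h),
        show Nat.beq (x.v / 3 ^ k) 1 = false from Bool.eq_false_iff.2 fun h => b1 (Nat.eq_of_beq_eq_true h),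
        show Nat.beq (x.v / 3 ^ k) 2 = false from Bool.eq_false_iff.2 fun h => b2 (Nat.eq_of_beq_eq_true h)]
      refine ⟨fun hx => ?_, fun h => by cases h⟩
      have := a9 hx
      rw [mem_L, pow_succ, mul_comm, ← Nat.div_lt_iff_lt_mul (by positivity)] at this
      generalize x.v / 3 ^ k = d at *
      omega
    · rcases Nat.lt_succ_iff_lt_or_eq.1 hj with hj | rfl
      · refine (i3 j hj).imp (fun h => ⟨h.1, fun x hx hx' => h.2 x ?_ hx'⟩) fun h => ⟨mem_sup_left h.1, h.2⟩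
        have b0 : x.v / 3 ^ k = 0 := Nat.div_eq_of_lt (L_mono hj hx')
        rwa [a8 0 (by norm_num) x b0, pow_zero, inv_one, one_mul] at hx
      · exact Or.inr ⟨mem_sup_right (mem_zpowers _), a1, a2⟩

/-- the subgroup generated by the entries of `E`; facts on it need `[Fact (okE E = true)]` -/
noncomputable def PS (E : List ℕ) : Subgroup G := PK E 9

theorem ech_PS (E : List ℕ) [h : Fact (okE E = true)] : Ech (PS E) E := (PK_spec h.out 9 le_rfl).2.2

theorem mem_PS {E : List ℕ} [h : Fact (okE E = true)] {x : G} : x ∈ PS E ↔ mb E 9 x.v = true :=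
  (PK_spec h.out 9 le_rfl).2.1 x

noncomputable instance (E : List ℕ) [Fact (okE E = true)] (x : G) : Decidable (x ∈ PS E) :=
  decidable_of_iff _ mem_PS.symm

theorem Ech.eq_PS {P : Subgroup G} {E : List ℕ} [Fact (okE E = true)] (h : Ech P E) : P = PS E := h.eq (ech_PS E)

/-! ### Commutators -/

/-- the commutator -/
noncomputable abbrev lk (x y : G) : G := x * y * x⁻¹ * y⁻¹

variable {P Q K A M N : Subgroup G} {E E' : List ℕ}

/-- normalisers from generators -/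
theorem nrm_of_gens (hK : Ech K E) {g : G} (h : ∀ j < 9, g * e (E.getD j 0) * g⁻¹ ∈ K) : g ∈ normalizer (K : Set G) :=
  mem_normalizer_of_finite fun _ hx => hK.le (H := K.comap (MulAut.conj g).toMonoidHom) h hx

theorem le_nrm_of_gens (hP : Ech P E') (hK : Ech K E)
    (h : ∀ i < 9, ∀ j < 9, e (E'.getD i 0) * e (E.getD j 0) * (e (E'.getD i 0))⁻¹ ∈ K) : P ≤ normalizer (K : Set G) :=
  hP.le fun i hi => nrm_of_gens hK (h i hi)

/-- the elements of the normaliser of `K` whose commutator with `y` lies in `K` -/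
noncomputable def lkSub (K : Subgroup G) (y : G) : Subgroup G where
  carrier := {x | x ∈ normalizer (K : Set G) ∧ lk x y ∈ K}
  one_mem' := ⟨one_mem _, by rw [lk, one_mul, inv_one, mul_one, mul_inv_cancel]; exact one_mem _⟩
  mul_mem' := fun {a b} ha hb => ⟨mul_mem ha.1 hb.1, by
    have := mul_mem (conj_mem_of_mem_normalizer ha.1 hb.2) ha.2
    convert this using 1; simp only [lk]; group⟩
  inv_mem' := fun {a} ha => ⟨inv_mem ha.1, by
    have := conj_mem_of_mem_normalizer (inv_mem ha.1) (inv_mem ha.2)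
    convert this using 1; simp only [lk]; group⟩

theorem lk_symm {x y : G} (h : lk x y ∈ K) : lk y x ∈ K := by
  convert inv_mem h using 1; simp only [lk]; group

theorem lk_of_gens (hP : Ech P E) (hN : P ≤ normalizer (K : Set G)) {y : G} (h : ∀ i < 9, lk (e (E.getD i 0)) y ∈ K)
    {x : G} (hx : x ∈ P) : lk x y ∈ K := (hP.le (H := lkSub K y) (fun i hi => ⟨hN (hP.mem hi), h i hi⟩) hx).2

theorem lk_of_gens2 (hP : Ech P E) (hQ : Ech Q E') (hN : P ≤ normalizer (K : Set G)) (hN' : Q ≤ normalizer (K : Set G))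
    (h : ∀ i < 9, ∀ j < 9, lk (e (E.getD i 0)) (e (E'.getD j 0)) ∈ K) {x y : G} (hx : x ∈ P) (hy : y ∈ Q) :
    lk x y ∈ K :=
  lk_symm (lk_of_gens hQ hN' (fun j hj => lk_symm (lk_of_gens hP hN (fun i hi => h i hi j hj) hx)) hy)

/-! ### Invariant subgroups -/

variable {T : Subgroup G} {F : FusionSystem T} {f : G → G}

/-- `f` maps `P` to itself -/
def Iv (f : G → G) (P : Subgroup G) : Prop := ∀ x ∈ P, f x ∈ P

theorem iv_bot (hf : Mor F A f) : Iv f ⊥ := fun x hx => by rw [mem_bot.1 hx, hf.homOn.map_one]; exact one_mem _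

theorem Iv.inf (h : Iv f P) (h' : Iv f Q) : Iv f (P ⊓ Q) := fun x hx => ⟨h x hx.1, h' x hx.2⟩

theorem iv_gens (hf : Mor F A f) (hP : Ech P E) (hPA : P ≤ A) (h : ∀ k < 9, f (e (E.getD k 0)) ∈ P) : Iv f P :=
  maps_gens hf hP hPA h

/-- if `[x, M] ≤ K` then `[f x, M] ≤ K` -/
theorem iv_lk (hf : Mor F A f) (hM : M ≤ A) (iM : Iv f M) (iK : Iv f K) {x : G} (hx : x ∈ A) (h : ∀ m ∈ M, lk x m ∈ K)
    {m : G} (hm : m ∈ M) : lk (f x) m ∈ K := by
  obtain ⟨m', hm', rfl⟩ := onto hf hM iM hm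
  rw [lk, ← map_lk hf hx (hM hm')]
  exact iK _ (h m' hm')

/-- `P = {x ∈ N | [x, M] ≤ K}` is invariant -/
theorem iv_cm (hf : Mor F A f) (hM : M ≤ A) (hN : N ≤ A) (iM : Iv f M) (iN : Iv f N) (iK : Iv f K) (hP : P ≤ N)
    (h1 : ∀ x ∈ P, ∀ m ∈ M, lk x m ∈ K) (h2 : ∀ x ∈ N, (∀ m ∈ M, lk x m ∈ K) → x ∈ P) : Iv f P :=
  fun x hx => h2 _ (iN x (hP hx)) fun _ hm => iv_lk hf hM iM iK (hN (hP hx)) (h1 x hx) hm

/-- a commutator of elements of invariant subgroups -/
theorem iv_lo (hf : Mor F A f) (hM : M ≤ A) (hN : N ≤ A) (iM : Iv f M) (iN : Iv f N)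
    (h : ∀ m ∈ M, ∀ n ∈ N, lk m n ∈ P) {m n : G} (hm : m ∈ M) (hn : n ∈ N) : f (lk m n) ∈ P := by
  rw [lk, map_lk hf (hM hm) (hN hn)]
  exact h _ (iM m hm) _ (iN n hn)

variable {F : FusionSystem (⊤ : Subgroup G)}

/-- `J` is weakly closed -/
theorem J_wc (hf : Mor F P f) (hP : L 6 ≤ P) : Iv f (L 6) := fun x hx => by
  obtain ⟨c, r, hr, h⟩ := cls (map_cube hf (hP hx) (A_cube x hx))
  have hg := hf.comp (mor_conj F le_rfl (mem_top c)) fun _ _ => mem_top _
  have h1 : ∀ y ∈ L 6, c * f y * c⁻¹ ∈ C (e r) := fun y hy => by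
    have h3 : f y ∈ C (f x) := mem_C.2 ((map_comm hf (hP hy) (hP hx)).2 (J_comm hy hx))
    rcases h with h | h
    · rwa [← h, mem_C_conj]
    · rwa [← h, mem_C_conj, C_inv]
  have h2 : e r ∈ L 6 := by
    by_contra h6
    have h3 := (hg.mono hP).card_le h1
    rw [card_L (by norm_num), ← cz, cz_rep hr, Nat.pow_le_pow_iff_right (by norm_num)] at h3
    obtain ⟨h4, h5, h7, h8⟩ := (by decide +kernel : ∀ r ∈ RP, e r ∉ L 6 → 6 ≤ kk r → kk r = 6 ∧ e 3 ∈ C (e r) ∧
      e ((EE r).getD 8 0) ∈ C (e r) ∧ e 3 ∉ C (e ((EE r).getD 8 0))) r hr h6 h3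
    have h9 : img (fun y => c * f y * c⁻¹) (L 6) = C (e r) := eq_of_le_of_card_ge (img_le_iff.2 h1) (by
      rw [(hg.mono hP).card_img, card_L (by norm_num), ← cz, cz_rep hr, h4])
    rw [← h9, (hg.mono hP).mem_img] at h5 h7
    obtain ⟨a, ha, e1⟩ := h5
    obtain ⟨b, hb, e2⟩ := h7
    exact h8 (mem_C.2 (by rw [← e1, ← e2]; exact (map_comm hg (hP ha) (hP hb)).2 (J_comm ha hb)))
  rcases h with h | h
  · rwa [← h, conj_L_iff] at h2
  · rwa [← h, conj_L_iff, inv_mem_iff] at h2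

/-- an element acting trivially on a chain of invariant subgroups of an essential subgroup lies in it -/
theorem kill (hA : F.IsEssential 3 A) (n : ℕ) (C : ℕ → Subgroup G) (h0 : C 0 = ⊥) (hn : A ≤ C n)
    (hC : ∀ f, Mor F A f → Iv f A → ∀ i, ∀ x ∈ A, x ∈ C i → f x ∈ C i) {a : G} (ha : a ∈ normalizer (A : Set G))
    (h : ∀ i < n, ∀ x ∈ A, x ∈ C (i + 1) → lk x⁻¹ a ∈ C i) : a ∈ A :=
  have := Fact.mk Nat.prime_three
  mem_of_chain pT hA.1 (IsEssential.isRadical pT hA) n C (fun i f hf hi => hC f hf (img_le_iff.1 hi.le) i) hn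
    (fun x _ hx => by rwa [h0, mem_bot] at hx) (mem_top a) ha fun i hi x hx hx' => by
      convert h i hi x hx hx' using 1; simp only [lk]; group

/-- the same for a normal subgroup `N` of `G` -/
theorem kill_le (hA : F.IsEssential 3 A) (n : ℕ) (C : ℕ → Subgroup G) (h0 : C 0 = ⊥)
    (hn : A ≤ C n) (hC : ∀ f, Mor F A f → Iv f A → ∀ i, ∀ x ∈ A, x ∈ C i → f x ∈ C i) [N.Normal]
    (h : ∀ a ∈ N, a ∈ normalizer (A : Set G) → ∀ i < n, ∀ x ∈ A, x ∈ C (i + 1) → lk x⁻¹ a ∈ C i) : N ≤ A :=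
  have := Fact.mk Nat.prime_three
  le_of_inf_normalizer_le_of_normalizes pT le_top le_top (by rw [normalizer_eq_top]; exact le_top)
    fun a ha ha' => kill hA n C h0 hn hC ha' (h a ha ha')

/-- two automorphisms acting trivially on the factors of a chain generate a 3-group -/
theorem pgrp_of_chain (n : ℕ) (C : ℕ → Subgroup G) (h0 : C 0 = ⊥) (hn : A ≤ C n) (hm : ∀ i < n, C i ≤ C (i + 1))
    {s t : MulAut A} (hs : ∀ i < n, ∀ x ∈ A, x ∈ C (i + 1) → x⁻¹ * autFun s x ∈ C i)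
    (ht : ∀ i < n, ∀ x ∈ A, x ∈ C (i + 1) → x⁻¹ * autFun t x ∈ C i) :
    IsPGroup 3 (closure ({s, t} : Set (MulAut A))) := by
  have := Fact.mk Nat.prime_three
  have key : ∀ γ ∈ closure ({s, t} : Set (MulAut A)), ∀ i < n, ∀ x ∈ A, x ∈ C (i + 1) → x⁻¹ * autFun γ x ∈ C i := by
    intro γ hγ
    rw [← Subgroup.mem_toSubmonoid, Subgroup.closure_toSubmonoid_of_finite] at hγ
    induction hγ using Submonoid.closure_induction with
    | mem γ hγ => rcases hγ with rfl | rfl; exacts [hs, ht]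
    | one => intro i _ x hx _; rw [autFun_one hx, inv_mul_cancel]; exact one_mem _
    | mul a b _ _ ha hb =>
      intro i hi x hx hx'
      have h1 := hb i hi x hx hx'
      have h2 := ha i hi _ (autFun_mem b hx) ((mul_mem_cancel_left (inv_mem hx')).1 (hm i hi h1))
      have := mul_mem h1 h2
      rwa [mul_assoc, mul_inv_cancel_left, ← autFun_mul _ _ hx] at this
  rintro ⟨γ, hγ⟩
  obtain ⟨k, hk⟩ := exists_pow_eq_one_of_chain (pG.to_subgroup A) γ n C hn
    (fun i hi x hx hx' m => key _ (pow_mem hγ m) i hi x hx hx')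
    ⟨0, fun x _ hx => by rw [h0, mem_bot] at hx; rw [hx, (homOn_autFun _).map_one]⟩
  exact ⟨k, Subtype.ext hk⟩

theorem conjAut_pow {a : G} (h : a ∈ normalizer (A : Set G)) : ∃ k, conjAut A h ^ 3 ^ k = 1 := by
  obtain ⟨k, hk⟩ := pG a
  refine ⟨k, aut_ext fun x hx => ?_⟩
  have : ∀ m : ℕ, autFun (conjAut A h ^ m) x = a ^ m * x * (a ^ m)⁻¹ := fun m => by
    induction m with
    | zero => simp [autFun_one hx]
    | succ m ih => rw [autFun_pow_succ _ _ hx, autFun_conjAut h (autFun_mem _ hx), ih, pow_succ']; group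
  rw [this, hk, autFun_one hx]; group

/-- an automorphism which preserves a chain on whose factors `u` acts trivially is a product of maps which extend -/
theorem ext_of_flag (hF : F.IsSaturated 3) (hA : F.IsEssential 3 A) (n : ℕ) (C : ℕ → Subgroup G) (h0 : C 0 = ⊥)
    (hn : A ≤ C n) (hm : ∀ i < n, C i ≤ C (i + 1)) {u : G} (hu : u ∈ normalizer (A : Set G)) (hu' : u ∉ A)
    (h : ∀ i < n, ∀ x ∈ A, x ∈ C (i + 1) → lk x⁻¹ u ∈ C i) {δ : MulAut A} (hδ : δ ∈ F.autGroup A)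
    (hC : ∀ i, Iv (autFun δ) (A ⊓ C i)) : δ ∈ extAut F A := by
  have := Fact.mk Nat.prime_three
  have h1 := IsEssential.conjAut_mem_extAut pT hF hA (mem_top u) hu
  have h2 := IsEssential.conjAut_notMem_Inn hA (mem_top u) hu hu'
  have h3 : ∀ i < n, ∀ x ∈ A, x ∈ C (i + 1) → x⁻¹ * autFun (conjAut A hu) x ∈ C i := fun i hi x hx hx' => by
    rw [autFun_conjAut hu hx]
    convert h i hi x hx hx' using 1; simp only [lk]; group
  refine IsEssential.mem_extAut_of_closure pT hF hA h1 h2 h1 h2 (conjAut_pow hu) hδ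
    (pgrp_of_chain n C h0 hn hm h3 fun i hi x hx hx' => ?_)
  have hm := mor_autFun le_top hδ
  obtain ⟨y, hy, rfl⟩ := onto hm inf_le_left (hC (i + 1)) ⟨hx, hx'⟩
  have hyA : y ∈ A := hy.1
  rw [autFun_mul _ _ hx, autFun_inv_apply _ hyA, autFun_mul _ _ hyA, ← hm.homOn.map_inv hyA,
    ← hm.homOn.map_mul (A.inv_mem hyA) (autFun_mem _ hyA)]
  exact (hC i _ ⟨A.mul_mem (A.inv_mem hyA) (autFun_mem _ hyA), h3 i hi y hyA hy.2⟩).2

end CL.C3
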