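/-
Saturated fusion systems on `CL.C3.G`: `tau 1` and `tau 2` lie in the system; normalising the four-group.
-/
import Cfsg.Agent.Fus.C3F
import Cfsg.Agent.Loc.PConstr

set_option autoImplicit false
set_option Elab.async false

namespace CL.C3

open Subgroup Cfsg Cfsg.FusionSystem CL.Fus

attribute [local irreducible] mul inv

namespace T12

abbrev Z2 := ZMod 3 × ZMod 3

/-- coordinates modulo `L 6` -/
def pi (j : ℕ) (x : G) : Z2 := (dg x 6, dg x j)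

/-- the linear map with the columns `a`, `b` -/
def ap (a b v : Z2) : Z2 := (v.1 * a.1 + v.2 * b.1, v.1 * a.2 + v.2 * b.2)

theorem ap_add (a b v w : Z2) : ap a b (v + w) = ap a b v + ap a b w := by
  simp only [ap, Prod.fst_add, Prod.snd_add, Prod.mk_add_mk, Prod.mk.injEq]
  constructor <;> ring

theorem lin : ∀ (ε : ZMod 3) (a b c d : Z2), ε ≠ 0 → a.2 ≠ 0 → ap a b c = (1, 0) → ap a b d = (0, 1) →
    let B := fun v => ap a b (ap (1, 0) (ε, 1) (ap c d v))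
    let D := fun v => ap (1, 0) (ε, 1) (B v)
    (D (D (1, 0)) + (1, 0) = 0 ∧ D (D (0, 1)) + (0, 1) = 0) ∨
      (D (B (D (B (1, 0)))) + (1, 0) = 0 ∧ D (B (D (B (0, 1)))) + (0, 1) = 0) := by decide +kernel

theorem pi_congr {j : ℕ} (hj : 5 ≤ j) {x y : G} (h : x.v / 243 = y.v / 243) : pi j x = pi j y := by
  obtain ⟨i, rfl⟩ := Nat.exists_eq_add_of_le hj
  have k : ∀ i, dg x (5 + i) = dg y (5 + i) := fun i => by
    rw [dg, dg, pow_add, ← Nat.div_div_eq_div_mul, ← Nat.div_div_eq_div_mul]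
    exact congrArg (fun n => ((n / 3 ^ i % 3 : ℕ) : ZMod 3)) h
  exact Prod.ext (k 1) (k i)

theorem pi_hi {j : ℕ} (hj : 5 ≤ j) (x : G) : pi j (hi x) = pi j x := by
  obtain ⟨a, ha, h⟩ := hi_split x
  exact pi_congr hj ((hi_mul _ ha).symm.trans (by rw [← h]))

/-- the finite check -/
def Ck (A : Subgroup G) (j : ℕ) : Prop := ∀ n < 81, e (243 * n) ∈ A →
  ((pi j (e (243 * n)) = 0 ↔ e (243 * n) ∈ L 6) ∧ ((pi j (e (243 * n))).2 = 0 → e (243 * n) ∈ L 7)) ∧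
    ∀ m < 81, e (243 * m) ∈ A → pi j (e (243 * n) * e (243 * m)) = pi j (e (243 * n)) + pi j (e (243 * m))

theorem ck1 : Ck (L 8) 7 := by unfold Ck; decide +kernel
set_option synthInstance.maxSize 1000 in
theorem ck2 : Ck E2 8 := by unfold Ck; decide +kernel

theorem strip {k : ℕ} (hk : k < 9) {y z g : G} (hy : y ∈ L (k + 1)) (h : g * y * g⁻¹ * z ∈ L k) : y * z ∈ L k := by
  have := mul_mem (inv_mem (comm_L hk hy g)) h
  rwa [show (g * y * g⁻¹ * y⁻¹)⁻¹ * (g * y * g⁻¹ * z) = y * z by group] at this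

theorem lt81 (x : G) : x.v / 243 < 81 := by have := x.lt; omega

variable {F : FS} {A : Subgroup G} {j k : ℕ}

theorem Ck.ker (ck : Ck A j) (hj : 5 ≤ j) (h5 : L 5 ≤ A) {x : G} (hx : x ∈ A) :
    (pi j x = 0 ↔ x ∈ L 6) ∧ ((pi j x).2 = 0 → x ∈ L 7) := by
  have : (pi j (hi x) = 0 ↔ hi x ∈ L 6) ∧ ((pi j (hi x)).2 = 0 → hi x ∈ L 7) := (ck _ (lt81 x) ((hi_mem h5).2 hx)).1
  rwa [pi_hi hj, hi_mem_L (by norm_num), hi_mem_L (by norm_num)] at this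

theorem Ck.add (ck : Ck A j) (hj : 5 ≤ j) (h5 : L 5 ≤ A) {x y : G} (hx : x ∈ A) (hy : y ∈ A) :
    pi j (x * y) = pi j x + pi j y := by
  have : pi j (hi x * hi y) = pi j (hi x) + pi j (hi y) :=
    (ck _ (lt81 x) ((hi_mem h5).2 hx)).2 _ (lt81 y) ((hi_mem h5).2 hy)
  rw [pi_hi hj, pi_hi hj] at this
  obtain ⟨a, ha, e1⟩ := hi_split x
  obtain ⟨b, hb, e2⟩ := hi_split y
  rw [← this, ← pi_congr hj (hi_mul (hi x * hi y) (mul_mem (conj_L ha (hi y)⁻¹) hb))]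
  generalize hi x = u at e1
  generalize hi y = v at e2
  rw [e1, e2]
  exact congrArg _ (by group)

theorem Ck.mat (ck : Ck A j) (hj : 5 ≤ j) (hA : L 6 ≤ A) {p q : G} (hp : p ∈ A) (hq : q ∈ A)
    (gen : ∀ H : Subgroup G, L 6 ≤ H → p ∈ H → q ∈ H → A ≤ H) (p1 : pi j p = (1, 0)) (q1 : pi j q = (0, 1))
    {h : G → G} (hh : Au F A h) (h6 : Iv h (L 6)) {x : G} (hx : x ∈ A) :
    pi j (h x) = ap (pi j (h p)) (pi j (h q)) (pi j x) := by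
  have h5 : L 5 ≤ A := (L_mono (by norm_num)).trans hA
  have a1 : HomOn A fun x => Multiplicative.ofAdd (pi j (h x)) := fun x hx y hy => by
    rw [← ofAdd_add, ← ck.add hj h5 (hh.2 x hx) (hh.2 y hy), ← hh.1.homOn x hx y hy]
  have a2 : HomOn A fun x => Multiplicative.ofAdd (ap (pi j (h p)) (pi j (h q)) (pi j x)) := fun x hx y hy => by
    rw [← ofAdd_add, ← ap_add, ← ck.add hj h5 hx hy]
  obtain ⟨y, hy, rfl⟩ := gen ((a1.toHom.eqLocus a2.toHom).map A.subtype) (fun y hy => ⟨⟨y, hA hy⟩, by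
      refine congrArg Multiplicative.ofAdd (?_ : pi j (h y) = ap _ _ (pi j y))
      rw [(ck.ker hj h5 (hA hy)).1.2 hy, (ck.ker hj h5 (hh.2 y (hA hy))).1.2 (h6 y hy)]
      simp [ap, Prod.ext_iff], rfl⟩)
    ⟨⟨_, hp⟩, congrArg Multiplicative.ofAdd (by simp [p1, ap] : pi j (h p) = ap _ _ (pi j p)), rfl⟩
    ⟨⟨_, hq⟩, congrArg Multiplicative.ofAdd (by simp [q1, ap] : pi j (h q) = ap _ _ (pi j q)), rfl⟩ hx
  exact hy

/-- `h` acts trivially on `L (k + 1) / L k` and as `H` on `A / L 6` -/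
structure Q (F : FS) (A : Subgroup G) (j k : ℕ) (h : G → G) (H : Z2 → Z2) : Prop where
  au : Au F A h
  tr : ∀ x ∈ L (k + 1), h x * x⁻¹ ∈ L k
  ac : ∀ x ∈ A, pi j (h x) = H (pi j x)

theorem Q.comp (hI : ∀ f, Au F A f → Iv f (L (k + 1))) {g h : G → G} {K H : Z2 → Z2} (a : Q F A j k g K)
    (b : Q F A j k h H) : Q F A j k (fun x => h (g x)) fun v => H (K v) :=
  ⟨a.au.comp b.au, fun x hx => by
    have := mul_mem (b.tr _ (hI g a.au x hx)) (a.tr x hx)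
    rwa [mul_assoc, inv_mul_cancel_left] at this, fun x hx => by rw [b.ac _ (a.au.2 x hx), a.ac x hx]⟩

theorem ex_neg [A.Normal] (hj : 5 ≤ j) (hk : k < 6) (ck : Ck A j) (hA : L 6 ≤ A) {p q c : G} (hp : p ∈ A) (hq : q ∈ A)
    (gen : ∀ H : Subgroup G, L 6 ≤ H → p ∈ H → q ∈ H → A ≤ H) (p1 : pi j p = (1, 0)) (q1 : pi j q = (0, 1))
    {ε : ZMod 3} (hε : ε ≠ 0) (p2 : pi j (c * p * c⁻¹) = (1, 0)) (q2 : pi j (c * q * c⁻¹) = (ε, 1))
    (hI : ∀ f, Au F A f → Iv f (L 6) ∧ Iv f (L (k + 1)) ∧ Iv f (L k)) {f : G → G} (hf : Au F A f) (hf7 : f p ∉ L 7) :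
    ∃ δ, Au F A δ ∧ (∀ x ∈ L (k + 1), δ x * x⁻¹ ∈ L k) ∧ δ p * p ∈ L 6 ∧ δ q * q ∈ L 6 := by
  have h5 : L 5 ≤ A := (L_mono (by norm_num)).trans hA
  have mat := fun h (hh : Au F A h) x (hx : x ∈ A) => ck.mat hj hA hp hq gen p1 q1 hh (hI h hh).1 hx
  obtain ⟨f', hf', -, i2⟩ := hf.inv
  have kA : L (k + 1) ≤ A := (L_mono hk).trans hA
  have hα := au_conj' (A := A) F c
  have Qα : Q F A j k (fun x => c * x * c⁻¹) (ap (1, 0) (ε, 1)) :=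
    ⟨hα, fun x hx => comm_L (by omega) hx c, fun x hx => by rw [mat _ hα x hx, p2, q2]⟩
  have Qβ : Q F A j k (fun x => f (c * f' x * c⁻¹)) fun v => ap (pi j (f p)) (pi j (f q))
      (ap (1, 0) (ε, 1) (ap (pi j (f' p)) (pi j (f' q)) v)) :=
    ⟨(hf'.comp hα).comp hf, fun x hx => by
      have a := hf'.2 x (kA hx)
      have := (hI f hf).2.2 _ (Qα.tr _ ((hI f' hf').2.1 x hx))
      rwa [hf.1.homOn.map_mul (hα.2 _ a) (inv_mem a), hf.1.homOn.map_inv a, i2 x (kA hx)] at this,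
    fun x hx => by rw [mat f hf _ (hα.2 _ (hf'.2 x hx)), Qα.ac _ (hf'.2 x hx), mat f' hf' x hx]⟩
  have fin : ∀ {δ D}, Q F A j k δ D → D (1, 0) + (1, 0) = 0 ∧ D (0, 1) + (0, 1) = 0 →
      ∃ δ, Au F A δ ∧ (∀ x ∈ L (k + 1), δ x * x⁻¹ ∈ L k) ∧ δ p * p ∈ L 6 ∧ δ q * q ∈ L 6 := fun {δ _} hδ d =>
    ⟨δ, hδ.au, hδ.tr, (ck.ker hj h5 (mul_mem (hδ.au.2 _ hp) hp)).1.1 (by
      rw [ck.add hj h5 (hδ.au.2 _ hp) hp, hδ.ac _ hp, p1, d.1]), (ck.ker hj h5 (mul_mem (hδ.au.2 _ hq) hq)).1.1 (by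
      rw [ck.add hj h5 (hδ.au.2 _ hq) hq, hδ.ac _ hq, q1, d.2])⟩
  have hI' := fun f hf => (hI f hf).2.1
  have Q1 := Qβ.comp hI' Qα
  have Q2 := Qβ.comp hI' Q1
  rcases lin ε (pi j (f p)) (pi j (f q)) (pi j (f' p)) (pi j (f' q)) hε (fun h => hf7 ((ck.ker hj h5 (hf.2 _ hp)).2 h))
    (by rw [← mat f hf _ (hf'.2 _ hp), i2 _ hp, p1]) (by rw [← mat f hf _ (hf'.2 _ hq), i2 _ hq, q1]) with h | h
  · exact fin (Q1.comp hI' Q1) h
  · exact fin (Q2.comp hI' Q2) h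

theorem main (hF : F.IsSaturated 3) (h0 : Tor0 F) [A.Normal] (hj : 6 ≤ j)
    (hj' : j < 9) (hk : k < 6) (ck : Ck A j) (hA : L 6 ≤ A) {q c : G} (hp : e 729 ∈ A) (hq : q ∈ A)
    (hq' : q ∈ L (j + 1)) (gen : ∀ H : Subgroup G, L 6 ≤ H → e 729 ∈ H → q ∈ H → A ≤ H)
    (p1 : pi j (e 729) = (1, 0)) (q1 : pi j q = (0, 1)) {ε : ZMod 3} (hε : ε ≠ 0)
    (p2 : pi j (c * e 729 * c⁻¹) = (1, 0)) (q2 : pi j (c * q * c⁻¹) = (ε, 1))
    (hI : ∀ f, Au F A f → Iv f (L 6) ∧ Iv f (L (k + 1)) ∧ Iv f (L k)) (hX : ExtP A (L 7) (e 729))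
    {f : G → G} (hf : Au F A f) (hf7 : f (e 729) ∉ L 7) :
    ∃ s < 8, Mor F ⊤ (tau s) ∧ tau s q * q ∈ L j ∧ tau s (e 729) * e 729 ∈ L 6 ∧
      tau s (e (3 ^ k)) * (e (3 ^ k))⁻¹ ∈ L k := by
  obtain ⟨δ, hδ, e0, e1, e2⟩ := ex_neg (by omega) hk ck hA hp hq gen p1 q1 hε p2 q2 hI hf hf7
  have p7 : e 729 ∈ L 7 := by decide
  obtain ⟨κ, hκ, e3⟩ := hX F hF δ hδ ((mul_mem_cancel_right p7).1 (L_mono (by norm_num) e1))
  obtain ⟨g, s, hs, ms, e4⟩ := h0 κ hκ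
  have k1 : e (3 ^ k) ∈ L (k + 1) := e_mem_L (Nat.pow_lt_pow_right (by norm_num) (by omega))
  refine ⟨s, hs, ms, strip (g := g) hj' (iv_tau_L hs hj' _ hq') ?_, strip (g := g) (by norm_num)
    (iv_tau_L hs (by norm_num) _ p7) ?_, strip (g := g) (by omega) (iv_tau_L hs (by omega) _ k1) ?_⟩
  · rw [← e4, e3 _ hq]; exact L_mono hj e2
  · rw [← e4, e3 _ hp]; exact e1
  · rw [← e4, e3 _ (hA (L_mono hk k1))]; exact e0 _ k1

theorem gens {E : List ℕ} (h : Ech A E) {n : ℕ}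
    (hE : ∀ k < 9, e (E.getD k 0) ∈ L 6 ∨ E.getD k 0 = 729 ∨ E.getD k 0 = n) (H : Subgroup G) (h6 : L 6 ≤ H)
    (hp : e 729 ∈ H) (hq : e n ∈ H) : A ≤ H :=
  h.le fun k hk => (hE k hk).elim (@h6 _) fun a => a.elim (fun a => a ▸ hp) fun a => a ▸ hq

end T12

open T12 in
theorem stT12 (hI : StI) (hX : StX) : StT12 := by
  rintro F hF h0 ⟨f, hf, f7⟩ ⟨g, hg, g7⟩
  obtain ⟨s, hs, ms, a⟩ := main (j := 7) (k := 5) (q := e 2187) (c := e 6561) (ε := 1) hF h0 (by norm_num) (by norm_num)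
    (by norm_num) ck1 (L_mono (by norm_num)) (by decide) (by decide) (by decide)
    (gens (ech_L (by norm_num)) (by decide +kernel)) (by decide +kernel) (by decide +kernel) (by decide)
    (by decide +kernel) (by decide +kernel) (fun f hf => let h := hI.i1 F f hf; ⟨h.1, h.1, h.2.1⟩) hX.x1 hf f7
  obtain ⟨t, ht, mt, b⟩ := main (j := 8) (k := 0) (q := e 6561) (c := e 2187) (ε := 2) hF h0 (by norm_num) (by norm_num)
    (by norm_num) ck2 ((ech_L (by norm_num)).le (by decide +kernel)) (by decide +kernel) (by decide +kernel) (by decide)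
    (gens (ech_PS _) (by decide +kernel)) (by decide +kernel) (by decide +kernel) (by decide)
    (by decide +kernel) (by decide +kernel)
    (fun f hf => let h := hI.i2 F f hf; ⟨h.1, h.2, L_zero ▸ iv_bot hf.1⟩) hX.x2 hg g7
  rw [(by decide +kernel : ∀ s < 8, tau s (e 2187) * e 2187 ∈ L 7 ∧ tau s (e 729) * e 729 ∈ L 6 ∧
    tau s (e (3 ^ 5)) * (e (3 ^ 5))⁻¹ ∈ L 5 → s = 2) s hs a] at ms
  rw [(by decide +kernel : ∀ s < 8, tau s (e 6561) * e 6561 ∈ L 8 ∧ tau s (e 729) * e 729 ∈ L 6 ∧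
    tau s (e (3 ^ 0)) * (e (3 ^ 0))⁻¹ ∈ L 0 → s = 1) t ht b] at mt
  exact ⟨hF, h0, mt, ms⟩

theorem stN : StN := by
  intro F A w hw hI h
  have := Fact.mk Nat.prime_two
  have := Fact.mk Nat.prime_three
  have l8 : ∀ {s}, s < 4 → s < 8 := fun h => by omega
  obtain ⟨ω, -, hω⟩ := hw.aut
  have ex : ∀ s < 4, ∃ τ : MulAut A, ∀ x ∈ A, autFun τ x = tau s x := fun s hs =>
    let ⟨τ, _, k⟩ := (mor_tau_univ (l8 hs)).exists_aut' le_top (hI s hs); ⟨τ, k⟩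
  let T : Subgroup (MulAut A) :=
    { carrier := {σ | ∃ s < 4, ∀ x ∈ A, autFun σ x = tau s x}
      one_mem' := ⟨0, by norm_num, fun x hx => by rw [autFun_one hx, tau_zero]⟩
      mul_mem' := fun ⟨s, hs, a⟩ ⟨t, ht, b⟩ => ⟨s ^^^ t, Nat.xor_lt_two_pow (n := 2) hs ht, fun x hx => by
        rw [autFun_mul _ _ hx, a _ (autFun_mem _ hx), b x hx, tau_tau (l8 hs) (l8 ht)]⟩
      inv_mem' := fun {σ} ⟨s, hs, a⟩ => ⟨s, hs, fun x hx => by
        conv_lhs => rw [← tau_self (l8 hs) x, ← a _ (hI s hs x hx), autFun_inv_apply _ (hI s hs x hx)]⟩ }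
  have hT : IsPGroup 2 T := fun ⟨σ, s, hs, a⟩ => ⟨1, Subtype.ext (aut_ext fun x hx => by
    change autFun (σ ^ 2 ^ 1) x = autFun 1 x
    rw [pow_one, pow_two, autFun_mul _ _ hx, a _ (autFun_mem _ hx), a x hx, tau_self (l8 hs), autFun_one hx])⟩
  obtain ⟨n, hn⟩ := (isPGroup_Inn (pG.to_subgroup A)).exists_card_eq
  have hN : T ≤ normalizer (Inn A : Set (MulAut A)) := le_normalizer_of_normal
  obtain ⟨η, h1, h2⟩ := (CL.Loc.isSylowIn_sup_of_coprime hN hT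
    (hn ▸ Nat.Coprime.pow_left n (by norm_num))).exists_conj_le (hT.map (MulAut.conj ω).toMonoidHom) (by
      rintro _ ⟨σ, ⟨s, hs, a⟩, rfl⟩
      obtain ⟨g, hg, t, ht, b⟩ := h s hs
      obtain ⟨τ, c⟩ := ex t ht
      have : ω * σ * ω⁻¹ = MulAut.conj ⟨g, hg⟩ * τ := mul_inv_eq_iff_eq_mul.2 (aut_ext fun x hx => by
        rw [autFun_mul _ _ hx, autFun_mul _ _ hx, autFun_mul _ _ (autFun_mem _ hx), a x hx, hω _ (hI s hs x hx), hω x hx,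
          c _ (hw.2 x hx), autFun_conj _ (hI t ht _ (hw.2 x hx)), b x hx])
      change ω * σ * ω⁻¹ ∈ _
      rw [this]
      exact mul_mem (mem_sup_right ⟨_, rfl⟩) (mem_sup_left ⟨t, ht, c⟩))
  obtain ⟨τ, hτ, ι, hι, rfl⟩ := (CL.Grp.mem_sup_of_le_normalizer hN).1 h1
  obtain ⟨g, hg, a⟩ := mem_Inn_iff.1 hι
  refine ⟨g, hg, fun s hs => ?_⟩
  obtain ⟨σ, b⟩ := ex s hs
  obtain ⟨t, ht, c⟩ := mul_mem (mul_mem (inv_mem hτ) ((CL.Grp.conj_smul_le_iff _ _ _).1 h2 _ ⟨σ, ⟨s, hs, b⟩, rfl⟩)) hτ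
  refine ⟨t, ht, fun x hx => ?_⟩
  have k := c _ (autFun_mem (ι * ω) hx)
  rw [← autFun_mul _ _ hx, show τ⁻¹ * (τ * ι * (MulAut.conj ω).toMonoidHom σ * (τ * ι)⁻¹) * τ * (ι * ω) = ι * ω * σ by
    change τ⁻¹ * (τ * ι * (ω * σ * ω⁻¹) * (τ * ι)⁻¹) * τ * (ι * ω) = _; group, autFun_mul _ _ hx, b x hx,
    autFun_mul _ _ hx, autFun_mul _ _ (hI s hs x hx), a _ (autFun_mem _ hx), a _ (autFun_mem _ (hI s hs x hx)), hω x hx,
    hω _ (hI s hs x hx)] at k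
  exact k

end CL.C3
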