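/-
Saturated fusion systems on `CL.C3.G`: signs of automorphisms and the standard position of the automiser.
-/
import Cfsg.Agent.Fus.C3F
import Cfsg.Agent.Grp.SylowIn

set_option autoImplicit false
set_option Elab.async false

namespace CL.C3

open Subgroup Cfsg Cfsg.FusionSystem CL.Fus

attribute [local irreducible] mul inv

namespace TorA

/-- `β` fixes `x` modulo `L k` -/
def Fx (β : MulAut G) (k : ℕ) (x : G) : Prop := x⁻¹ * β x ∈ L k

theorem fx_iff {β : MulAut G} {k : ℕ} {x : G} :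
    Fx β k x ↔ QuotientGroup.mk' (L k) (β x) = QuotientGroup.mk' (L k) x :=
  QuotientGroup.eq.symm.trans eq_comm

theorem fx_all {β : MulAut G} {k : ℕ} (hk : k < 9) (hβ : Iv β (L k)) {g : G} (hg : g ∈ L (k + 1)) (hg' : g ∉ L k)
    (h : Fx β k g) : ∀ x ∈ L (k + 1), Fx β k x := fun x hx =>
  fx_iff.2 (L_succ_le (H := ((QuotientGroup.mk' (L k)).comp β.toMonoidHom).eqLocus (QuotientGroup.mk' (L k))) hk
    (fun y hy => fx_iff.1 (mul_mem (inv_mem hy) (hβ y hy))) (fx_iff.1 h) hg hg' hx)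

theorem fx_lk {β : MulAut G} {i j k : ℕ} (hi : i < 9) (hj : j < 9)
    (h1 : ∀ a < 9, ∀ b < 9, e ((EL i).getD a 0) ∈ CM k (e ((EL (j + 1)).getD b 0)))
    (h2 : ∀ a < 9, ∀ b < 9, e ((EL (i + 1)).getD a 0) ∈ CM k (e ((EL j).getD b 0)))
    {x y : G} (hx : x ∈ L (i + 1)) (hy : y ∈ L (j + 1)) (fx : Fx β i x) (fy : Fx β j y) : Fx β k (lk x y) := by
  have key : ∀ {a b : G}, a * b * a⁻¹ * b⁻¹ ∈ L k →
      Commute (QuotientGroup.mk' (L k) a) (QuotientGroup.mk' (L k) b) := fun h =>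
    mem_centralizer_singleton_iff.1 (mem_comap.1 (mem_CM.2 h))
  obtain ⟨u, hu, eu⟩ : ∃ u ∈ L i, β x = x * u := ⟨_, fx, by group⟩
  obtain ⟨v, hv, ev⟩ : ∃ v ∈ L j, β y = y * v := ⟨_, fy, by group⟩
  have c1 := key (comm_of_gens (ech_L hi.le) (ech_L hj) h1 hu (mul_mem hy (L_mono (Nat.le_succ j) hv)))
  have c2 := key (comm_of_gens (ech_L hi) (ech_L hj.le) h2 hx hv)
  rw [fx_iff]
  simp only [lk, map_mul, map_inv, eu, ev] at c1 ⊢
  generalize QuotientGroup.mk' (L k) x = X at *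
  generalize QuotientGroup.mk' (L k) y = Y at *
  generalize QuotientGroup.mk' (L k) u = U at *
  generalize QuotientGroup.mk' (L k) v = V at *
  calc X * U * (Y * V) * (X * U)⁻¹ * (Y * V)⁻¹ = X * (U * (Y * V)) * U⁻¹ * X⁻¹ * V⁻¹ * Y⁻¹ := by group
    _ = X * Y * (V * X⁻¹) * V⁻¹ * Y⁻¹ := by rw [c1.eq]; group
    _ = X * Y * X⁻¹ * Y⁻¹ := by rw [← c2.inv_left.eq]; group

theorem sign {α : MulAut G} (hα : ∀ k, Iv α (L k)) {k : ℕ} (hk : k < 9) :
    ∃ b : Bool, (e (3 ^ k))⁻¹ * α (if b then (e (3 ^ k))⁻¹ else e (3 ^ k)) ∈ L k := by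
  have h0 : ∀ k < 9, e (3 ^ k) ∈ L (k + 1) ∧ e (3 ^ k) ∉ L k := by decide +kernel
  obtain ⟨d, hd, h⟩ := q_split hk (hα _ _ (h0 k hk).1)
  have h1 : d ≠ 0 := by
    rintro rfl
    exact (h0 k hk).2 (back (mor_univ α) le_top (hα k) (mem_top _)
      ((QuotientGroup.eq_one_iff _).1 (h.trans (pow_zero _))))
  obtain rfl | rfl : d = 1 ∨ d = 2 := by omega
  · exact ⟨false, fx_iff.2 (h.trans (pow_one _))⟩
  · refine ⟨true, QuotientGroup.eq.1 ?_⟩
    change QuotientGroup.mk' (L k) _ = QuotientGroup.mk' (L k) (α (e (3 ^ k))⁻¹)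
    rw [map_inv, map_inv, h, eq_inv_iff_mul_eq_one, ← pow_succ']
    exact q_pow hk rfl

theorem bits : ∀ b₁ b₂ b₃ : Bool, ∃ s < 8, tau s (e (3 ^ 8)) = (if b₁ then (e (3 ^ 8))⁻¹ else e (3 ^ 8)) ∧
    tau s (e (3 ^ 7)) = (if b₂ then (e (3 ^ 7))⁻¹ else e (3 ^ 7)) ∧
    tau s (e (3 ^ 5)) = (if b₃ then (e (3 ^ 5))⁻¹ else e (3 ^ 5)) := by decide +kernel

/-- the stabiliser of the chief series -/
def K : Subgroup (MulAut G) where
  carrier := {κ | ∀ k < 9, ∀ x ∈ L (k + 1), Fx κ k x}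
  one_mem' := fun k _ x _ => fx_iff.2 rfl
  mul_mem' := fun {a b} ha hb k hk x hx => by
    have h1 := hb k hk x hx
    have h2 : b x ∈ L (k + 1) := (mul_mem_cancel_left (inv_mem hx)).1 (L_mono (Nat.le_succ k) h1)
    exact fx_iff.2 ((fx_iff.1 (ha k hk _ h2)).trans (fx_iff.1 h1))
  inv_mem' := fun {a} ha => by
    have hm : ∀ n : ℕ, ∀ k < 9, ∀ x ∈ L (k + 1), Fx (a ^ n) k x := fun n => by
      induction n with
      | zero => exact fun k _ x _ => fx_iff.2 rfl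
      | succ n ih =>
        intro k hk x hx
        have h1 := ha k hk x hx
        have h2 : a x ∈ L (k + 1) := (mul_mem_cancel_left (inv_mem hx)).1 (L_mono (Nat.le_succ k) h1)
        rw [pow_succ]
        exact fx_iff.2 ((fx_iff.1 (ih k hk _ h2)).trans (fx_iff.1 h1))
    obtain ⟨n, hn⟩ := (isOfFinOrder_of_finite a).mem_powers_iff_mem_zpowers.2 (inv_mem (mem_zpowers a))
    exact hn ▸ hm n

theorem iv_K {κ : MulAut G} (h : κ ∈ K) {k : ℕ} (hk : k ≤ 9) : Iv κ (L k) := fun x hx => by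
  cases k with
  | zero => rw [L_zero, mem_bot] at hx ⊢; rw [hx, map_one]
  | succ k => exact (mul_mem_cancel_left (inv_mem hx)).1 (L_mono (Nat.le_succ k) (h k hk x hx))

/-- automorphisms of the top subgroup -/
noncomputable def c : MulAut G ≃* MulAut (⊤ : Subgroup G) := MulAut.congr topEquiv.symm

theorem autFun_c (α : MulAut G) (x : G) : autFun (c α) x = α x := by
  rw [autFun_apply _ (mem_top x)]; rfl

theorem K_three : IsPGroup 3 K := by
  have := Fact.mk Nat.prime_three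
  rintro ⟨γ, hγ⟩
  obtain ⟨k, hk⟩ := exists_pow_eq_one_of_chain pT (c γ) 9 L L_nine.ge
    (fun i hi x _ hx' m => by rw [← map_pow, autFun_c]; exact pow_mem hγ m i hi x hx')
    ⟨0, fun x _ hx => by rw [L_zero, mem_bot] at hx; rw [hx, (homOn_autFun _).map_one]⟩
  exact ⟨k, Subtype.ext (c.injective (by rw [SubgroupClass.coe_pow, map_pow, hk, OneMemClass.coe_one, map_one]))⟩

theorem conj_mem_K (g : G) : MulAut.conj g ∈ K := fun k hk x hx => by
  have := conj_L (comm_L hk hx g) x⁻¹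
  rw [Fx, MulAut.conj_apply]
  convert this using 1
  group

theorem exists_K (h : StSg) (α : MulAut G) : ∃ s, ∃ hs : s < 8, α * tauE s hs ∈ K :=
  let ⟨s, hs, h1⟩ := h α
  ⟨s, hs, h1⟩

theorem iv_all (h : StSg) (α : MulAut G) {k : ℕ} (hk : k ≤ 9) : Iv α (L k) := fun x hx => by
  obtain ⟨s, hs, h1⟩ := exists_K h α
  have := iv_K h1 hk _ (iv_tau_L hs hk x hx)
  rwa [MulAut.mul_apply, show tauE s hs (tau s x) = x from tau_self hs x] at this

theorem K_normal (h : StSg) : K.Normal := ⟨fun κ hκ α k hk x hx => by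
  have := iv_all h α hk.le _ (hκ k hk _ (iv_all h α⁻¹ hk x hx))
  rwa [map_mul, map_inv, MulAut.apply_inv_self] at this⟩

theorem tauE_sq {s : ℕ} (hs : s < 8) : tauE s hs * tauE s hs = 1 := MulEquiv.ext (tau_self hs)

/-- the diagonal automorphisms -/
def T0 : Subgroup (MulAut G) where
  carrier := {α | ∃ s, ∃ hs : s < 8, α = tauE s hs}
  one_mem' := ⟨0, by norm_num, (MulEquiv.ext tau_zero).symm⟩
  mul_mem' := by
    rintro _ _ ⟨s, hs, rfl⟩ ⟨t, ht, rfl⟩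
    exact ⟨s ^^^ t, Nat.xor_lt_two_pow (n := 3) hs ht, MulEquiv.ext (tau_tau hs ht)⟩
  inv_mem' := by
    rintro _ ⟨s, hs, rfl⟩
    exact ⟨s, hs, inv_eq_of_mul_eq_one_right (tauE_sq hs)⟩

theorem T0_two : IsPGroup 2 T0 := by
  rintro ⟨_, s, hs, rfl⟩
  exact ⟨1, Subtype.ext (by rw [pow_one, sq]; exact tauE_sq hs)⟩

theorem conj_T0 (h : StSg) {P : Subgroup (MulAut G)} (hP : IsPGroup 2 P) :
    ∃ θ : MulAut G, ∀ p ∈ P, θ * p * θ⁻¹ ∈ T0 := by
  have := Fact.mk Nat.prime_two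
  have := Fact.mk Nat.prime_three
  obtain ⟨Q, hQ⟩ := T0_two.exists_le_sylow
  obtain ⟨θ, hθ⟩ := CL.Grp.exists_conj_le_sylow Q hP
  refine ⟨θ, fun p hp => ?_⟩
  have h1 := (CL.Grp.conj_smul_le_iff _ _ _).1 hθ p hp
  obtain ⟨s, hs, h2⟩ := exists_K h (θ * p * θ⁻¹)
  have h3 := (IsPGroup.disjoint_of_ne 2 3 (by norm_num) _ _ Q.isPGroup' K_three).le_bot
    ⟨mul_mem h1 (hQ ⟨s, hs, rfl⟩), h2⟩
  rw [eq_inv_of_mul_eq_one_left (mem_bot.1 h3)]
  exact inv_mem ⟨s, hs, rfl⟩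

/-- the automiser of `G` -/
noncomputable def Lam (F : FS) : Subgroup (MulAut G) := (F.autGroup ⊤).comap c.toMonoidHom

theorem mem_Lam {F : FS} {α : MulAut G} : α ∈ Lam F ↔ Mor F ⊤ α :=
  (mem_autGroup_iff le_rfl).trans ⟨fun h => h.congr fun x _ => autFun_c α x, fun h => h.congr fun x _ =>
    (autFun_c α x).symm⟩

theorem exists_Lam {F : FS} {f : G → G} (hf : Mor F ⊤ f) : ∃ α ∈ Lam F, ∀ x, α x = f x := by
  obtain ⟨α, hα, e1⟩ := hf.exists_aut (hf.img_eq_self le_rfl fun _ _ => mem_top _)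
  refine ⟨c.symm α, ?_, fun x => ?_⟩
  · change c (c.symm α) ∈ F.autGroup ⊤
    rwa [MulEquiv.apply_symm_apply]
  · rw [← autFun_c, MulEquiv.apply_symm_apply, e1 x (mem_top x)]

theorem inner {F : FS} (hF : F.IsSaturated 3) {κ : MulAut G} (h1 : κ ∈ K) (h2 : κ ∈ Lam F) :
    ∃ g, ∀ x, κ x = g * x * g⁻¹ := by
  have := Fact.mk Nat.prime_three
  have h3 := (sylIn_Inn_top pT hF).eq_of_le (Z := (K ⊓ Lam F).map c.toMonoidHom)
    ((K_three.to_le inf_le_left).map _) (fun α hα => by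
      obtain ⟨g, -, hg⟩ := mem_Inn_iff.1 hα
      refine ⟨MulAut.conj g, ⟨conj_mem_K g, mem_Lam.2 (mor_conj F le_rfl (mem_top g))⟩, aut_ext fun x hx => ?_⟩
      rw [hg x hx]
      exact autFun_c _ x)
    (by rintro _ ⟨α, hα, rfl⟩; exact hα.2)
  obtain ⟨g, -, hg⟩ := mem_Inn_iff.1 (h3.le ⟨κ, ⟨h1, h2⟩, rfl⟩)
  exact ⟨g, fun x => (autFun_c κ x).symm.trans (hg x (mem_top x))⟩

theorem relIndex_K (h : StSg) (H : Subgroup (MulAut G)) : ∃ n, K.relIndex H = 2 ^ n := by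
  have := Fact.mk Nat.prime_two
  have := K_normal h
  have h1 : IsPGroup 2 (MulAut G ⧸ K) := fun q => by
    obtain ⟨α, rfl⟩ := QuotientGroup.mk'_surjective K q
    obtain ⟨s, hs, h2⟩ := exists_K h α
    have h3 : QuotientGroup.mk' K α * QuotientGroup.mk' K (tauE s hs) = 1 := (QuotientGroup.eq_one_iff _).2 h2
    refine ⟨1, ?_⟩
    rw [eq_inv_of_mul_eq_one_left h3, pow_one, inv_pow, sq, ← map_mul, tauE_sq, map_one, inv_one]
  have h2 := relIndex_ker H (QuotientGroup.mk' K)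
  rw [QuotientGroup.ker_mk'] at h2
  rw [h2]
  exact IsPGroup.iff_card.1 (h1.to_subgroup _)

end TorA

open TorA in
theorem stSg (hI : StI) : StSg := fun α => by
  have hα : ∀ k, Iv α (L k) := hI.i0 _ _ (mor_univ α)
  obtain ⟨b₁, h₁⟩ := sign hα (k := 8) (by norm_num)
  obtain ⟨b₂, h₂⟩ := sign hα (k := 7) (by norm_num)
  obtain ⟨b₃, h₃⟩ := sign hα (k := 5) (by norm_num)
  obtain ⟨s, hs, e₁, e₂, e₃⟩ := bits b₁ b₂ b₃
  rw [← e₁] at h₁
  rw [← e₂] at h₂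
  rw [← e₃] at h₃
  have hβ : ∀ k, Iv (α * tauE s hs : MulAut G) (L k) := hI.i0 _ _ (mor_univ _)
  have k8 := fx_all (k := 8) (by norm_num) (hβ _) (g := e (3 ^ 8)) (by decide) (by decide) h₁
  have k7 := fx_all (k := 7) (by norm_num) (hβ _) (g := e (3 ^ 7)) (by decide) (by decide) h₂
  have k5 := fx_all (k := 5) (by norm_num) (hβ _) (g := e (3 ^ 5)) (by decide) (by decide) h₃
  have step : ∀ i j k : ℕ, i < 9 → j < 9 → k < 9 →
      ((∀ a < 9, ∀ b < 9, e ((EL i).getD a 0) ∈ CM k (e ((EL (j + 1)).getD b 0))) ∧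
        (∀ a < 9, ∀ b < 9, e ((EL (i + 1)).getD a 0) ∈ CM k (e ((EL j).getD b 0))) ∧
        e (3 ^ i) ∈ L (i + 1) ∧ e (3 ^ j) ∈ L (j + 1) ∧ lk (e (3 ^ i)) (e (3 ^ j)) ∈ L (k + 1) ∧
        lk (e (3 ^ i)) (e (3 ^ j)) ∉ L k) →
      (∀ x ∈ L (i + 1), Fx (α * tauE s hs) i x) → (∀ x ∈ L (j + 1), Fx (α * tauE s hs) j x) →
      ∀ x ∈ L (k + 1), Fx (α * tauE s hs) k x := fun i j k hi hj hk ⟨a1, a2, a3, a4, a5, a6⟩ fi fj =>
    fx_all hk (hβ _) a5 a6 (fx_lk hi hj a1 a2 a3 a4 (fi _ a3) (fj _ a4))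
  have k6 := step 8 7 6 (by norm_num) (by norm_num) (by norm_num) (by decide +kernel) k8 k7
  have k4 := step 7 5 4 (by norm_num) (by norm_num) (by norm_num) (by decide +kernel) k7 k5
  have k3 := step 8 4 3 (by norm_num) (by norm_num) (by norm_num) (by decide +kernel) k8 k4
  have k2 := step 7 4 2 (by norm_num) (by norm_num) (by norm_num) (by decide +kernel) k7 k4
  have k1 := step 8 2 1 (by norm_num) (by norm_num) (by norm_num) (by decide +kernel) k8 k2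
  have k0 := step 8 1 0 (by norm_num) (by norm_num) (by norm_num) (by decide +kernel) k8 k1
  refine ⟨s, hs, fun k hk => ?_⟩
  interval_cases k
  exacts [k0, k1, k2, k3, k4, k5, k6, k7, k8]

open TorA in
theorem stTor0 (h : StSg) : StTor0 := fun F hF => by
  have := Fact.mk Nat.prime_two
  obtain ⟨P, hP⟩ := CL.Grp.exists_isSylowIn 2 (Lam F)
  obtain ⟨θ, hθ⟩ := conj_T0 h hP.isPGroup
  obtain ⟨n, hn⟩ := relIndex_K h (Lam F)
  have hg : GIso (⊤ : Subgroup G) (⊤ : Subgroup G) θ (θ⁻¹ : MulAut G) :=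
    ⟨homOn_hom θ.toMonoidHom ⊤, fun _ _ => mem_top _, fun _ _ => mem_top _, fun x _ => θ.symm_apply_apply x,
      fun x _ => θ.apply_symm_apply x⟩
  refine ⟨hg.transport F, _, _, hg.fIso_transport F, fun f hf => ?_⟩
  have hm : ∀ f : G → G, Mor (hg.transport F) ⊤ f ↔ Mor F ⊤ fun x => (θ⁻¹ : MulAut G) (f (θ x)) := fun f => by
    rw [hg.mor_transport, hg.symm.img_top]
    exact ⟨fun h => h.2.2, fun h => ⟨le_rfl, fun _ _ => mem_top _, h⟩⟩
  obtain ⟨φ, hφ, e1⟩ := exists_Lam ((hm f).1 hf)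
  obtain ⟨κ, hκ, p, hp, rfl⟩ := hP.exists_mul_eq_of_relIndex_pow hn hφ
  obtain ⟨g, e2⟩ := inner hF hκ ((mul_mem_cancel_right (hP.le hp)).1 hφ)
  obtain ⟨s, hs, e3⟩ := hθ p hp
  have e4 : ∀ x, θ (p ((θ⁻¹ : MulAut G) x)) = tau s x := fun x => DFunLike.congr_fun e3 x
  refine ⟨θ g, s, hs, (hm _).2 ((mem_Lam.1 (hP.le hp)).congr fun x _ => ?_), fun x => ?_⟩
  · rw [← e4, MulAut.inv_apply_self, MulAut.inv_apply_self]
  · have e5 := congrArg θ (e1 ((θ⁻¹ : MulAut G) x))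
    rw [MulAut.apply_inv_self, MulAut.apply_inv_self, MulAut.mul_apply, e2, map_mul, map_mul, map_inv, e4] at e5
    exact e5.symm

end CL.C3
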