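/-
Project C3 (job C3F-TY): the three types; a common automorphism of `E4`.
-/
import Cfsg.Agent.Fus.C3F

set_option autoImplicit false
set_option Elab.async false

namespace CL.C3

open Subgroup Cfsg Cfsg.FusionSystem CL.Fus MM

attribute [local irreducible] mul inv

namespace TyX

variable {F : FS} {f : G → G} {g : GL6}

theorem vec_one : vec 1 = 0 := by decide +kernel

theorem vec_inv (hP : StPsi) {x : G} (hx : x ∈ L 6) : vec x⁻¹ = -vec x :=
  eq_neg_of_add_eq_zero_left (by rw [← hP.add _ (inv_mem hx) x hx, inv_mul_cancel, vec_one])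

theorem rep_of_gens (hP : StPsi) (hf : HomOn (L 6) f) (hi : Iv f (L 6))
    (h : ∀ k < 6, vec (f (e (3 ^ k))) = g • vec (e (3 ^ k))) : Rep f g := fun x hx =>
  (L_le (H := {
    carrier := {x | x ∈ L 6 ∧ vec (f x) = g • vec x}
    one_mem' := ⟨one_mem _, by rw [hf.map_one, vec_one, smul_zero]⟩
    mul_mem' := fun {a b} ha hb => ⟨mul_mem ha.1 hb.1, by
      rw [hf.map_mul ha.1 hb.1, hP.add _ (hi a ha.1) _ (hi b hb.1), hP.add a ha.1 b hb.1, smul_add, ha.2, hb.2]⟩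
    inv_mem' := fun {a} ha => ⟨inv_mem ha.1, by
      rw [hf.map_inv ha.1, vec_inv hP (hi a ha.1), vec_inv hP ha.1, smul_neg, ha.2]⟩ })
    (by norm_num) (fun k hk => ⟨e_mem_L (Nat.pow_lt_pow_right (by norm_num) hk), h k hk⟩) hx).2

theorem mem_gam (hP : StPsi) {E l : List ℕ} [Fact (okE E = true)] (h : Wm F E l) (hE : ∀ k < 6, E.getD k 0 = 3 ^ k)
    (hl : ∀ k < 6, vec (e (l.getD k 0)) = g • vec (e (3 ^ k))) : g ∈ Gam F := by
  obtain ⟨f, hf, h⟩ := h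
  have h1 : L 6 ≤ PS E := L_le (by norm_num) fun k hk => hE k hk ▸ (ech_PS E).mem (by omega)
  exact ⟨f, ⟨hf.mono h1, J_wc hf h1⟩, rep_of_gens hP (hf.mono h1).homOn (J_wc hf h1) fun k hk => by
    rw [← hl k hk, ← hE k hk, h k (by omega)]⟩

theorem w1_mem (hP : StPsi) {m : ℕ} (h : Ty F m) : W1 ∈ Gam F := mem_gam hP h.w1 (by decide) (by decide +kernel)

theorem m12_le (hP : StPsi) (h : Ty F 2) : M12 ≤ Gam F := (closure_le _).2 (by
  rintro _ (rfl | rfl | rfl | rfl)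
  exacts [(hP.syl F h.sat).le (u_mem ..), (hP.syl F h.sat).le (u_mem ..), w1_mem hP h,
    mem_gam hP h.w2 (by decide) (by decide +kernel)])

theorem extend (hF : F.IsSaturated 3) (hf : Au F (L 6) f) {R : Subgroup G} (hR : R ≤ extenderF ⊤ (L 6) f) :
    ∃ k, Mor F R k ∧ ∀ x ∈ L 6, k x = f x := by
  have := Fact.mk Nat.prime_three
  obtain ⟨k, hk, h⟩ := hf.1.extend' (receptive_of_fullyNormalized pT hF (fn_normal F _))
    (hf.1.img_eq_self le_rfl hf.2) hR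
  exact ⟨k, hk.mono le_sup_right, h⟩

theorem cen_J {x : G} (h : ∀ y ∈ L 6, x ∈ C y) : x ∈ L 6 := by
  have key : ∀ a ∈ L 6, hi x ∈ C a := fun a ha =>
    (hi_mem fun b hb => mem_C.2 (J_comm (L_mono (by norm_num) hb) ha)).2 (h a ha)
  exact (hi_mem_L (by norm_num)).1 (all_hi (p := fun y => y ∈ C (e 243) → y ∈ C (e 81) → y ∈ C (e 9) → y ∈ L 6)
    (by decide +kernel) x (key _ (by decide)) (key _ (by decide)) (key _ (by decide)))

theorem E4_le {s : ℕ} (hs : s ∈ S4) {H : Subgroup G} (h : L 6 ≤ H) (h' : e s ∈ H) : E4 s ≤ H :=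
  have := Fact.mk (okE4 s hs)
  (ech_PS _).le fun k hk => by
    interval_cases k
    exacts [h (show e 1 ∈ _ by decide), h (show e 3 ∈ _ by decide), h (show e 9 ∈ _ by decide),
      h (show e 27 ∈ _ by decide), h (show e 81 ∈ _ by decide), h (show e 243 ∈ _ by decide), one_mem _, one_mem _, h']

theorem le_E4 {s : ℕ} (hs : s ∈ S4) : L 6 ≤ E4 s ∧ e s ∈ E4 s :=
  have := Fact.mk (okE4 s hs)
  ⟨L_le (by norm_num) fun k hk => by
    have := (ech_PS (lE4 s)).mem (k := k) (by omega)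
    interval_cases k <;> exact this, (ech_PS (lE4 s)).mem (k := 8) (by norm_num)⟩

/-- an element of `L 6` which conjugates `e s` to `e s * a` -/
noncomputable def sol (s : ℕ) (a : G) : G :=
  e 3 ^ (a.v % 3) * e 21 ^ (a.v / 3 % 3) * e ([183, 168, 171, 177, 180, 165].getD (s / 729 - 12) 0) ^ (a.v / 27 % 3) *
    e ([486, 585, 666, 243, 414, 333].getD (s / 729 - 12) 0) ^ (a.v / 81 % 3)

theorem sol_spec {s : ℕ} (hs : s ∈ S4) :
    ∀ a ∈ L 6, (e s * a) ^ 3 = 1 → sol s a ∈ L 6 ∧ e s * a * sol s a = sol s a * e s :=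
  all_L ((by decide +kernel : ∀ s ∈ S4, allW (3 ^ 6) (fun n => decide ((e s * e n) ^ 3 = 1 →
    sol s (e n) ∈ L 6 ∧ e s * e n * sol s (e n) = sol s (e n) * e s)) = true) s hs)

theorem ext4 (hF : F.IsSaturated 3) {s : ℕ} (hs : s ∈ S4) (hf : Au F (L 6) f)
    (h : ∀ x ∈ L 6, f (e s * x * (e s)⁻¹) = e s * f x * (e s)⁻¹) :
    ∃ k, Mor F (E4 s) k ∧ (∀ x ∈ L 6, k x = f x) ∧ k (e s) = e s := by
  obtain ⟨h1, h2⟩ := le_E4 hs
  obtain ⟨k, hk, e1⟩ := extend hF hf (E4_le hs hf.1.le_extenderF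
    ⟨mem_top _, by rw [normalizer_eq_top]; trivial, e s, mem_top _, h⟩)
  have h3 : (e s)⁻¹ * k (e s) ∈ L 6 := cen_J fun y hy => by
    obtain ⟨x, hx, rfl⟩ := onto hf.1 le_rfl hf.2 hy
    have := hk.homOn.map_conj h2 (h1 hx)
    rw [e1 _ (conj_L hx _), e1 x hx, h x hx] at this
    rw [mem_C]
    calc (e s)⁻¹ * k (e s) * f x = (e s)⁻¹ * (k (e s) * f x * (k (e s))⁻¹) * k (e s) := by group
      _ = _ := by rw [← this]; group
  obtain ⟨h4, h5⟩ := sol_spec hs _ h3 (by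
    rw [mul_inv_cancel_left, ← hk.homOn.map_pow h2, (by decide +kernel : ∀ s ∈ S4, e s ^ 3 = 1) s hs,
      hk.homOn.map_one])
  generalize sol s ((e s)⁻¹ * k (e s)) = j at h4 h5
  refine ⟨_, hk.comp (mor_conj F le_rfl (mem_top j⁻¹)) fun _ _ => mem_top _, fun x hx => ?_, ?_⟩
  · rw [e1 x hx, J_comm (inv_mem h4) (hf.2 x hx), mul_inv_cancel_right]
  · rw [mul_inv_cancel_left] at h5
    rw [inv_inv, mul_assoc, h5, inv_mul_cancel_left]

end TyX

open TyX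

theorem stTy (hP : StPsi) (hM : StMu) : StTy := fun F m hm h => by
  interval_cases m
  · exact Or.inl rfl
  · exact absurd (mem_gam hP h.w2 (by decide) (by decide +kernel)) (hM.no1 _ (hP.syl F h.sat) (w1_mem hP h))
  obtain ⟨γ, hγ, h1⟩ := m12_le hP h hM.neg
  have h2 : ∀ x ∈ L 6, γ x = x⁻¹ := fun x hx =>
    hP.inj _ (hγ.2 x hx) _ (inv_mem hx) (by rw [h1 x hx, neg_one_smul', vec_inv hP hx])
  obtain ⟨k, hk, e1⟩ := extend h.sat hγ (R := ⊤) fun a _ => ⟨mem_top _, by rw [normalizer_eq_top]; trivial, a,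
    mem_top _, fun x hx => by rw [h2 _ (conj_L hx a), h2 x hx]; group⟩
  obtain ⟨c, s, hs, h3, h4⟩ := h.tor k hk
  have key : ∀ j < 6, ∀ x ∈ L (j + 1), tau s x * x ∈ L j := fun j hj x hx => by
    have h5 := inv_mem (comm_L (by omega) (iv_tau_L hs (by omega) x hx) c)
    have h6 := L_mono (show j + 1 ≤ 6 by omega) hx
    rwa [← h4, e1 x h6, h2 x h6, ← mul_inv_rev, inv_inv] at h5
  obtain rfl := (by decide +kernel : ∀ s < 8, tau s (e 243) * e 243 ∈ L 5 → tau s (e 81) * e 81 ∈ L 4 →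
    tau s (e 3) * e 3 ∈ L 1 → s = 4) s hs (key 5 (by norm_num) _ (by decide)) (key 4 (by norm_num) _ (by decide))
    (key 1 (by norm_num) _ (by decide))
  exact Or.inr ⟨rfl, h3⟩

theorem stW4 (hP : StPsi) (hM : StMu) : StW4 := fun F F' h h' s hs => by
  obtain ⟨h1, h2⟩ := (by decide +kernel : ∀ s ∈ S4, dg (e s) 8 = 1 ∧ dg (e s) 7 ≠ 0) s hs
  obtain ⟨g, hg, h3, h4⟩ := hM.ex _ (dg (e s) 6 + dg (e s) 8 * dg (e s) 7) h2
  rw [← h1, ← uOf] at h3
  have key : ∀ {F : FS}, Ty F 2 → ∃ k, Mor F (E4 s) k ∧ Iv k (L 6) ∧ Rep k g ∧ k (e s) = e s := fun {F} h => by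
    obtain ⟨γ, hγ, r⟩ := m12_le hP h hg
    obtain ⟨k, hk, e1, e2⟩ := ext4 h.sat hs hγ fun x hx =>
      hP.inj _ (hγ.2 _ (conj_L hx _)) _ (conj_L (hγ.2 x hx) _) (by
        rw [r _ (conj_L hx _), hP.conj _ x hx, hP.conj _ _ (hγ.2 x hx), r x hx, ← mul_smul, h3, mul_smul])
    exact ⟨k, hk, fun x hx => e1 x hx ▸ hγ.2 x hx, fun x hx => by rw [e1 x hx, r x hx], e2⟩
  obtain ⟨k, hk, i, r, e1⟩ := key h
  obtain ⟨k', hk', i', r', e1'⟩ := key h'
  obtain ⟨h5, h6⟩ := le_E4 hs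
  refine ⟨k, ⟨hk, fun x hx => ((mem_pre hk).1 (E4_le hs (fun y hy => (mem_pre hk).2 ⟨h5 hy, h5 (i y hy)⟩)
    ((mem_pre hk).2 ⟨h6, e1.symm ▸ h6⟩) hx)).2⟩, hk'.congr fun x hx => ?_, fun h7 => h4 fun v hv => ?_⟩
  · obtain ⟨y, hy, rfl⟩ := E4_le hs (H := (hk'.homOn.toHom.eqLocus hk.homOn.toHom).map (E4 s).subtype)
      (fun y hy => ⟨⟨y, h5 hy⟩, hP.inj _ (i' y hy) _ (i y hy) ((r' y hy).trans (r y hy).symm), rfl⟩)
      ⟨⟨_, h6⟩, e1'.trans e1.symm, rfl⟩ hx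
    exact hy
  · have h8 := all_L (k := 1) (p := fun x => vec x ∈ Z1) (by decide +kernel) _ h7
    rw [r _ (by decide)] at h8
    rw [(by decide +kernel : ∀ v ∈ Z1, v = v 0 • vec (e 1)) v hv, smul_smul']
    exact Submodule.smul_mem _ _ h8

end CL.C3
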