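/-
The non-extending automorphism of `E3`: normal form.
-/
import Cfsg.Agent.Fus.C3F

set_option autoImplicit false
set_option Elab.async false

namespace CL.C3

open Subgroup Cfsg Cfsg.FusionSystem CL.Fus

attribute [local irreducible] mul inv

namespace V3W

variable {F : FS} {w : G → G}

theorem mor_tau (hT : Tor F) {s : ℕ} (hs : s < 4) : Mor F ⊤ (tau s) := by
  have h0 : tau 0 = fun x => x := funext tau_zero
  have h3 : tau 3 = fun x => tau 1 (tau 2 x) := funext fun x => (tau_tau (s := 1) (t := 2) (by norm_num) (by norm_num) x).symm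
  interval_cases s
  · rw [h0]; exact mor_id F le_rfl
  · exact hT.t1
  · exact hT.t2
  · rw [h3]; exact hT.t2.comp hT.t1 fun _ _ => mem_top _

theorem au_tau (hT : Tor F) {s : ℕ} (hs : s < 4) : Au F E3 (tau s) :=
  ⟨(mor_tau hT hs).mono le_top, iv_tau_E3 (by omega)⟩

theorem tau_inv {s : ℕ} (hs : s < 8) (x : G) : tau s x⁻¹ = (tau s x)⁻¹ := (tauH s hs).map_inv x

theorem tau_comm {s t : ℕ} (hs : s < 8) (ht : t < 8) (x : G) : tau s (tau t x) = tau t (tau s x) := by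
  rw [tau_tau hs ht, tau_tau ht hs, Nat.xor_comm]

theorem tau_z : ∀ s < 4, tau s (e 1) = e 1 := by decide +kernel

theorem z_mem : e 1 ∈ L 1 := by decide +kernel

/-- the hypotheses which are kept by the normalisation -/
structure PP (F : FS) (w : G → G) : Prop where
  au : Au F E3 w
  t1 : Tw w E3 1 1
  t2 : Tw w E3 2 2
  z : w (e 1) = e 1

theorem PP.post (h : PP F w) (hT : Tor F) {g : G} (g1 : tau 1 g = g) (g2 : tau 2 g = g) {s : ℕ} (hs : s < 4) :
    PP F fun x => g * tau s (w x) * g⁻¹ := by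
  have hs' : s < 8 := by omega
  refine ⟨(h.au.comp (au_tau hT hs)).comp (au_conj' F g), fun x hx => ?_, fun x hx => ?_, ?_⟩
  · show g * tau s (w (tau 1 x)) * g⁻¹ = tau 1 (g * tau s (w x) * g⁻¹)
    rw [h.t1 x hx, tau_mul (by norm_num), tau_mul (by norm_num), tau_inv (by norm_num), g1,
      tau_comm hs' (by norm_num)]
  · show g * tau s (w (tau 2 x)) * g⁻¹ = tau 2 (g * tau s (w x) * g⁻¹)
    rw [h.t2 x hx, tau_mul (by norm_num), tau_mul (by norm_num), tau_inv (by norm_num), g2,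
      tau_comm hs' (by norm_num)]
  · show g * tau s (w (e 1)) * g⁻¹ = e 1
    rw [h.z, tau_z s hs, L1_conj z_mem]

theorem PP.pre (h : PP F w) {g : G} (g1 : tau 1 g = g) (g2 : tau 2 g = g) :
    PP F fun x => w (g * x * g⁻¹) := by
  have hc : ∀ x ∈ E3, g * x * g⁻¹ ∈ E3 := (au_conj' F g).2
  refine ⟨(au_conj' F g).comp h.au, fun x hx => ?_, fun x hx => ?_, ?_⟩
  · show w (g * tau 1 x * g⁻¹) = tau 1 (w (g * x * g⁻¹))
    rw [← h.t1 _ (hc x hx), tau_mul (by norm_num), tau_mul (by norm_num), tau_inv (by norm_num), g1]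
  · show w (g * tau 2 x * g⁻¹) = tau 2 (w (g * x * g⁻¹))
    rw [← h.t2 _ (hc x hx), tau_mul (by norm_num), tau_mul (by norm_num), tau_inv (by norm_num), g2]
  · show w (g * e 1 * g⁻¹) = e 1
    rw [L1_conj z_mem, h.z]

def Wa : List ℕ := [0, 3, 6, 6561, 6566, 6568, 13122, 13126, 13130]
def Wb : List ℕ := [0, 81, 162, 2187, 2286, 2358, 4374, 4464, 4554]
def Gs : List ℕ := [0, 243, 486, 9, 252, 495, 18, 261, 504]

theorem wa : ∀ x ∈ E3, tau 2 x = x → tau 1 x = x⁻¹ → x.v ∈ Wa := Ech.all (ech_PS _) (by decide +kernel)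
theorem wb : ∀ x ∈ E3, tau 1 x = x → tau 2 x = x⁻¹ → x.v ∈ Wb := Ech.all (ech_PS _) (by decide +kernel)

theorem PP.a (h : PP F w) {x : G} (hx : x ∈ E3) (h2 : tau 2 x = x) (h1 : tau 1 x = x⁻¹) : (w x).v ∈ Wa :=
  wa _ (h.au.2 x hx) (by rw [← h.t2 x hx, h2]) (by rw [← h.t1 x hx, h1, h.au.1.homOn.map_inv hx])

theorem PP.b (h : PP F w) {x : G} (hx : x ∈ E3) (h1 : tau 1 x = x) (h2 : tau 2 x = x⁻¹) : (w x).v ∈ Wb :=
  wb _ (h.au.2 x hx) (by rw [← h.t1 x hx, h1]) (by rw [← h.t2 x hx, h2, h.au.1.homOn.map_inv hx])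

theorem gs_fix : ∀ g ∈ Gs, tau 1 (e g) = e g ∧ tau 2 (e g) = e g := by decide +kernel

theorem stepA : ∀ x ∈ Wa, ∀ p ∈ Wb, lk (e x) (e p) ∉ L 4 → ∃ g ∈ Gs, ∃ s < 4,
    e g * tau s (e x) * (e g)⁻¹ = e 6561 ∧ e g * tau s (e p) * (e g)⁻¹ = e 4374 := by decide +kernel

theorem stepB : ∀ q ∈ Wb, lk (lk (e 6561) (e q)) (lk (e 6561) (e 4374)) = e 1 * e 1 → e q = e 81 ∨
    e q * e 4374 * e 4374 * (lk (e q) (e 4374) * lk (e q) (e 4374)) = e 81 ∨
    e q * e 4374 * lk (e q) (e 4374) = e 81 := by decide +kernel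

theorem ma : e 6561 ∈ E3 := by decide +kernel
theorem mb' : e 2187 ∈ E3 := by decide +kernel
theorem m81 : e 81 ∈ E3 := by decide +kernel
theorem m27 : e 27 ∈ E3 := by decide +kernel
theorem m729 : e 729 ∈ E3 := by decide +kernel
theorem m18 : e 18 ∈ E3 := by decide +kernel
theorem m1 : e 1 ∈ E3 := by decide +kernel

theorem f27 (h : Mor F E3 w) : w (e 27) = lk (w (e 6561)) (w (e 81)) := by
  rw [lk, ← map_lk h ma m81]; congr 1; decide +kernel

theorem f729 (h : Mor F E3 w) : w (e 729) = lk (w (e 6561)) (w (e 2187)) := by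
  rw [lk, ← map_lk h ma mb']; congr 1; decide +kernel

theorem f18 (h : Mor F E3 w) : w (e 18) = lk (w (e 2187)) (w (e 81)) := by
  rw [lk, ← map_lk h mb' m81]; congr 1; decide +kernel

theorem f3 (h : Mor F E3 w) : w (e 3) = lk (w (e 2187)) (w (e 27)) := by
  rw [lk, ← map_lk h mb' m27]; congr 1; decide +kernel

theorem f9 (h : Mor F E3 w) : w (e 9) = w (e 18) * w (e 18) := by
  rw [← h.homOn.map_mul m18 m18]; congr 1; decide +kernel

theorem f2 (h : Mor F E3 w) : w (e 1) * w (e 1) = lk (w (e 729)) (w (e 27)) := by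
  rw [lk, ← map_lk h m729 m27, ← h.homOn.map_mul m1 m1]; congr 1; decide +kernel

theorem fin (h : Mor F E3 w) (hz : w (e 1) = e 1) (ha : w (e 6561) = e 6561) (hp : w (e 81) = e 4374)
    (hq : w (e 2187) = e 81) : Wm F lE3 lw3 := by
  refine ⟨w, h, fun k hk => ?_⟩
  interval_cases k
  · exact hz
  · show w (e 3) = e 3
    rw [f3 h, f27 h, ha, hp, hq]; decide +kernel
  · show w (e 9) = e 9
    rw [f9 h, f18 h, hp, hq]; decide +kernel
  · show w (e 27) = e 1458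
    rw [f27 h, ha, hp]; decide +kernel
  · exact hp
  · exact h.homOn.map_one
  · show w (e 729) = e 27
    rw [f729 h, ha, hq]; decide +kernel
  · exact hq
  · exact ha

theorem fin2 (h : PP F w) (ha : w (e 6561) = e 6561) (hp : w (e 81) = e 4374) : Wm F lE3 lw3 := by
  have hq := h.b mb' (by decide +kernel) (by decide +kernel)
  have h2 := f2 h.au.1
  rw [f729 h.au.1, f27 h.au.1, ha, hp, h.z, ← e_self (w (e 2187))] at h2
  have hm := h.au.1.homOn
  have h18 := f18 h.au.1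
  rw [hp] at h18
  rcases stepB _ hq h2.symm with h3 | h3 | h3 <;> rw [e_self] at h3
  · exact fin h.au.1 h.z ha hp h3
  · have h' := h.pre (g := e 243) (by decide +kernel) (by decide +kernel)
    refine fin h'.au.1 h'.z ?_ ?_ ?_
    · exact (congrArg w (by decide +kernel)).trans ha
    · exact (congrArg w (by decide +kernel)).trans hp
    · rw [← h18, ← hp, ← hm.map_mul m18 m18, ← hm.map_mul mb' m81, ← hm.map_mul (mul_mem mb' m81) m81,
        ← hm.map_mul (mul_mem (mul_mem mb' m81) m81) (mul_mem m18 m18)] at h3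
      exact (congrArg w (by decide +kernel)).trans h3
  · have h' := h.pre (g := e 486) (by decide +kernel) (by decide +kernel)
    refine fin h'.au.1 h'.z ?_ ?_ ?_
    · exact (congrArg w (by decide +kernel)).trans ha
    · exact (congrArg w (by decide +kernel)).trans hp
    · rw [← h18, ← hp, ← hm.map_mul mb' m81, ← hm.map_mul (mul_mem mb' m81) m18] at h3
      exact (congrArg w (by decide +kernel)).trans h3

/-! ### The construction of `w` -/

theorem L4_le : L 4 ≤ E3 := L_le (by norm_num) (by decide +kernel)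
theorem L5_le : L 5 ≤ E3 := L_le (by norm_num) (by decide +kernel)
theorem L3_le : L 3 ≤ E3 := (L_mono (by norm_num)).trans L4_le
theorem R5_le : R5 ≤ E3 := (ech_PS _).le (by decide +kernel)
theorem RR_le : RR ≤ E3 := (ech_PS _).le (by decide +kernel)
theorem r27 : e 27 ∈ R5 := by decide +kernel
theorem r729 : e 729 ∈ R5 := by decide +kernel

theorem key {f : G → G} (hf : Au F E3 f) (h3 : Iv f (L 3)) {y : G} (hy : y ∈ L 4) (hy' : y ∉ L 3)
    (hfy : f y ∈ L 4) : f (e 27) ∈ L 4 :=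
  ((mem_pre hf.1).1 (L_succ_le (k := 3) (by norm_num) (H := pre hf.1 (L 4))
    (fun x hx => (mem_pre hf.1).2 ⟨L3_le hx, L_mono (by norm_num) (h3 x hx)⟩)
    ((mem_pre hf.1).2 ⟨L4_le hy, hfy⟩) hy hy' (by decide +kernel : e 27 ∈ L 4))).2

theorem c_lk : ∀ x ∈ R5, x ∉ L 4 → lk (e 243) x ∈ L 4 ∧ lk (e 243) x ∉ L 3 :=
  Ech.all (ech_PS _) (by decide +kernel)

theorem ex_w (hI : StI) (h : NE3 F) : ∃ w, Au F E3 w ∧ w (e 27) ∉ L 4 ∧ w (e 1) = e 1 := by
  obtain ⟨f, hf, h27⟩ := h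
  obtain ⟨f', hf', -, h2⟩ := hf.inv
  have i := hI.i3 F f hf
  have i' := hI.i3 F f' hf'
  refine ⟨fun x => f (e 243 * f' x * (e 243)⁻¹), (hf'.comp (au_conj' F (e 243))).comp hf, fun h4 => ?_, ?_⟩
  · have hx : f' (e 27) ∈ R5 := i'.2.2.2.1 _ r27
    have hx' : f' (e 27) ∉ L 4 := fun h => h27 (key hf i.2.2.1 h (fun h3 => by
      have := i.2.2.1 _ h3
      rw [h2 _ m27] at this
      exact absurd this (by decide +kernel)) (by rw [h2 _ m27]; decide +kernel))
    obtain ⟨hy, hy'⟩ := c_lk _ hx hx'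
    refine h27 (key hf i.2.2.1 hy hy' ?_)
    have e1 : e 243 * f' (e 27) * (e 243)⁻¹ = lk (e 243) (f' (e 27)) * f' (e 27) := by rw [lk, inv_mul_cancel_right]
    have h5 : f (e 243 * f' (e 27) * (e 243)⁻¹) ∈ L 4 := h4
    rw [e1, hf.1.homOn.map_mul (L4_le hy) (R5_le hx), h2 _ m27] at h5
    exact (mul_mem_cancel_right (by decide +kernel : e 27 ∈ L 4)).1 h5
  · show f (e 243 * f' (e 1) * (e 243)⁻¹) = e 1
    rw [L1_conj (i'.1 _ z_mem), h2 _ m1]

theorem scal : ∀ s < 4, ∀ x ∈ R5, tau s x * x⁻¹ ∈ L 3 ∨ tau s x * x ∈ L 3 := fun s hs => by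
  interval_cases s <;> exact Ech.all (ech_PS _) (by decide +kernel)

def lM : List ℕ := [1, 3, 9, 0, 0, 0, 729, 0, 0]
instance okM : Fact (okE lM = true) := ⟨by decide +kernel⟩

theorem L3_M : L 3 ≤ PS lM := L_le (by norm_num) (by decide +kernel)

theorem conj_M {g : G} (h : g * e 729 * g⁻¹ ∈ PS lM) : g ∈ E3 := by
  obtain ⟨a, ha, hg⟩ := hi_split g
  have h1 : lk a (e 729) ∈ L 3 := all_L (k := 5) (p := fun a => lk a (e 729) ∈ L 3) (by decide +kernel) a ha
  have h2 : g * e 729 * g⁻¹ = hi g * lk a (e 729) * (hi g)⁻¹ * (hi g * e 729 * (hi g)⁻¹) := by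
    conv_lhs => rw [hg]
    rw [lk]; group
  rw [h2] at h
  exact (hi_mem L5_le).1 (all_hi (p := fun g => g * e 729 * g⁻¹ ∈ PS lM → g ∈ E3) (by decide +kernel) g
    ((mul_mem_cancel_left (L3_M (conj_L h1 _))).1 h))

theorem tau729 : ∀ t < 4, tau t (e 729) = e 729 ∨ tau t (e 729) = (e 729)⁻¹ := by decide +kernel

theorem t_lt : ∀ t < 8, tau t (e 1) = e 1 → t < 4 := by decide +kernel

theorem twist (hI : StI) (hX : StX) (hT : Tor F) (hw : Au F E3 w) (hz : w (e 1) = e 1) {s : ℕ} (hs : s < 4) :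
    ∃ g ∈ E3, ∃ t < 4, ∀ x ∈ E3, w (tau s x) = g * tau t (w x) * g⁻¹ := by
  obtain ⟨w', hw', h1, h2⟩ := hw.inv
  have i := hI.i3 F w hw
  have i' := hI.i3 F w' hw'
  have hh : Au F E3 fun x => w (tau s (w' x)) := (hw'.comp (au_tau hT hs)).comp hw
  have hsc : ∀ H : Subgroup G, L 3 ≤ H → ∀ x ∈ R5, x ∈ H → w (tau s (w' x)) ∈ H := fun H hH x hx hxH => by
    have hy := i'.2.2.2.1 x hx
    have hy1 := R5_le hy
    have hy2 := iv_tau_E3 (show s < 8 by omega) _ hy1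
    rcases scal s hs _ hy with h | h
    · have := hH (i.2.2.1 _ h)
      rw [hw.1.homOn.map_mul hy2 (inv_mem hy1), hw.1.homOn.map_inv hy1, h2 _ (R5_le hx)] at this
      exact (mul_mem_cancel_right (inv_mem hxH)).1 this
    · have := hH (i.2.2.1 _ h)
      rw [hw.1.homOn.map_mul hy2 hy1, h2 _ (R5_le hx)] at this
      exact (mul_mem_cancel_right hxH).1 this
  obtain ⟨k, hk, hk'⟩ := hX.x3 F hT.sat _ hh (hsc _ (L_mono (by norm_num)) _ r27 (by decide +kernel))
  obtain ⟨g, t, ht, -, hg⟩ := hT.tor k hk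
  have hz' : w' (e 1) = e 1 := (congrArg w' hz).symm.trans (h1 _ m1)
  have ht4 : t < 4 := t_lt t ht (by
    have := hk' _ m1
    rw [hg, L1_conj (iv_tau_L ht (by norm_num) _ z_mem)] at this
    rw [this]
    show w (tau s (w' (e 1))) = e 1
    rw [hz', tau_z s hs, hz])
  refine ⟨g, conj_M ?_, t, ht4, fun x hx => ?_⟩
  · have h3 : k (e 729) ∈ PS lM := by
      rw [hk' _ m729]; exact hsc _ L3_M _ r729 (by decide +kernel)
    rw [hg] at h3
    rcases tau729 t ht4 with h | h <;> rw [h] at h3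
    · exact h3
    · have := inv_mem h3
      rwa [conj_inv, inv_inv] at this
  · rw [← hg, hk' _ (hw.2 x hx)]
    show _ = w (tau s (w' (w x)))
    rw [h1 x hx]

theorem sgA : ∀ y ∈ E3, ((tau 0 y = y⁻¹ ∨ tau 2 y = y⁻¹) ∨ (tau 1 y = y ∨ tau 3 y = y)) → y ∈ RR :=
  Ech.all (ech_PS _) (by decide +kernel)

theorem sgB : ∀ y ∈ R5, (tau 0 y = y⁻¹ ∨ tau 3 y = y⁻¹) → y ∈ L 4 := Ech.all (ech_PS _) (by decide +kernel)

end V3W

open V3W

theorem stV3 (hI : StI) (hX : StX) (hN : StN) : StV3 := by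
  intro F hT h
  obtain ⟨w0, hw0, h0, hz0⟩ := ex_w hI h
  obtain ⟨g, -, hg⟩ := hN F E3 w0 hw0 (fun s hs => iv_tau_E3 (by omega)) fun s hs => twist hI hX hT hw0 hz0 hs
  obtain ⟨w, hw, h27, hz, hg⟩ : ∃ w, Au F E3 w ∧ w (e 27) ∉ L 4 ∧ w (e 1) = e 1 ∧ ∀ s < 4, ∃ t < 4, Tw w E3 s t :=
    ⟨_, hw0.comp (au_conj' F g), fun h => h0 (conj_L_iff.1 h), by
      show g * w0 (e 1) * g⁻¹ = e 1
      rw [hz0, L1_conj z_mem], hg⟩
  have i := hI.i3 F _ hw
  have ha : w (e 6561) ∉ RR := fun h => absurd (back hw.1 RR_le i.2.2.2.2 ma h) (by decide +kernel)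
  have hA := sgA _ (hw.2 _ ma)
  have hB := sgB _ (i.2.2.2.1 _ r27)
  refine ⟨w, hw, ?_, ?_, h27, hz⟩
  · obtain ⟨t, ht, h1⟩ := hg 1 (by norm_num)
    have e1 := h1 _ ma
    have e2 := h1 _ m27
    rw [(by decide +kernel : tau 1 (e 6561) = (e 6561)⁻¹), hw.1.homOn.map_inv ma] at e1
    rw [(by decide +kernel : tau 1 (e 27) = (e 27)⁻¹), hw.1.homOn.map_inv m27] at e2
    interval_cases t
    · exact absurd (hA (.inl (.inl e1.symm))) ha
    · exact h1
    · exact absurd (hA (.inl (.inr e1.symm))) ha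
    · exact absurd (hB (.inr e2.symm)) h27
  · obtain ⟨t, ht, h1⟩ := hg 2 (by norm_num)
    have e1 := h1 _ ma
    have e2 := h1 _ m27
    rw [(by decide +kernel : tau 2 (e 6561) = e 6561)] at e1
    rw [(by decide +kernel : tau 2 (e 27) = (e 27)⁻¹), hw.1.homOn.map_inv m27] at e2
    interval_cases t
    · exact absurd (hB (.inl e2.symm)) h27
    · exact absurd (hA (.inr (.inl e1.symm))) ha
    · exact h1
    · exact absurd (hA (.inr (.inr e1.symm))) ha

theorem stW3 : StW3 := by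
  rintro F hT ⟨w, hw, t1, t2, h27, hz⟩
  have h : PP F w := ⟨hw, t1, t2, hz⟩
  have ha := h.a ma (by decide +kernel) (by decide +kernel)
  have hp := h.b m81 (by decide +kernel) (by decide +kernel)
  rw [f27 hw.1, ← e_self (w (e 6561)), ← e_self (w (e 81))] at h27
  obtain ⟨g, hg, s, hs, h1, h2⟩ := stepA _ ha _ hp h27
  rw [e_self] at h1 h2
  exact fin2 (h.post hT (gs_fix g hg).1 (gs_fix g hg).2 hs) h1 h2

end CL.C3
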