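/-
Saturated fusion systems on `CL.C3.G`: the normal form of the automorphism of `L 8`.
-/
import Cfsg.Agent.Fus.C3F

set_option autoImplicit false
set_option Elab.async false

namespace CL.C3

open Subgroup Cfsg Cfsg.FusionSystem CL.Fus

attribute [local irreducible] mul inv

namespace W1x

theorem mor_tau {F : FS} (h : Tor F) {s : ℕ} (hs : s < 4) : Mor F ⊤ (tau s) := by
  interval_cases s
  · exact (mor_id F le_rfl).congr fun x _ => (tau_zero x).symm
  · exact h.t1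
  · exact h.t2
  · exact (h.t1.comp h.t2 fun _ _ => mem_top _).congr fun x _ => tau_tau (by norm_num) (by norm_num) x

theorem wb : ∀ x ∈ L 8, tau 3 x = x⁻¹ → tau 2 x = x⁻¹ → x ∉ L 7 → x.v ∈ [2187, 2286, 2358, 4374, 4464, 4554] :=
  all_L (by decide +kernel)

theorem wab : ∀ x ∈ L 8, tau 3 x = x → tau 2 x = x⁻¹ → x.v ∈ [0, 27, 54, 729, 758, 784, 1458, 1486, 1514] :=
  all_L (by decide +kernel)

theorem wc : ∀ x ∈ L 6, tau 3 x = x → tau 2 x = x → x * (e 243)⁻¹ ∈ L 5 →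
    ∃ i < 3, ∃ j < 3, x = e 243 * e 1 ^ i * e 9 ^ j := all_L (by decide +kernel)

theorem post : ∀ p ∈ [2187, 2286, 2358, 4374, 4464, 4554], ∀ q ∈ [0, 27, 54, 729, 758, 784, 1458, 1486, 1514],
    e p * e q = e q * e p → e q ≠ 1 → ∃ k < 3, ∃ s < 4, e 243 ^ k * tau s (e p) * (e 243 ^ k)⁻¹ = e 2187 ∧
      e 243 ^ k * tau s (e q) * (e 243 ^ k)⁻¹ = e 729 ∧ ∀ i < 3, ∀ j < 3,
      e 243 ^ k * tau s (e 243 * e 1 ^ i * e 9 ^ j) * (e 243 ^ k)⁻¹ = e 243 * e 1 ^ i * e 9 ^ j := by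
  decide +kernel

/-- first normalisation -/
theorem step1 {F : FS} (h : Tor F) (hV : V1 F) : ∃ w, Au F (L 8) w ∧ w (e 729) = e 2187 ∧ w (e 2187) = e 729 ∧
    ∃ i < 3, ∃ j < 3, w (e 243) = e 243 * e 1 ^ i * e 9 ^ j := by
  obtain ⟨w, hw, h13, h22, h7, h5⟩ := hV
  have m1 : e 729 ∈ L 8 := by decide
  have m2 : e 2187 ∈ L 8 := by decide
  have m3 : e 243 ∈ L 8 := by decide
  have hh := hw.1.homOn
  have a1 := wb _ (hw.2 _ m1) (by rw [← h13 _ m1, ← hh.map_inv m1]; exact congrArg w (by decide +kernel))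
    (by rw [← h22 _ m1, ← hh.map_inv m1]; exact congrArg w (by decide +kernel)) h7
  have a2 := wab _ (hw.2 _ m2) (by rw [← h13 _ m2]; exact congrArg w (by decide +kernel))
    (by rw [← h22 _ m2, ← hh.map_inv m2]; exact congrArg w (by decide +kernel))
  obtain ⟨i, hi, j, hj, a3⟩ := wc _ ((mul_mem_cancel_right (inv_mem (show e 243 ∈ L 6 by decide))).1
    (L_mono (by norm_num) h5)) (by rw [← h13 _ m3]; exact congrArg w (by decide +kernel))
    (by rw [← h22 _ m3]; exact congrArg w (by decide +kernel)) h5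
  obtain ⟨k, -, s, hs, b1, b2, b3⟩ := post _ a1 _ a2
    (by rw [e_self, e_self]; exact (map_comm hw.1 m1 m2).2 (by decide +kernel))
    (by rw [e_self]; exact map_ne_one hw.1 m2 (by decide +kernel))
  rw [e_self] at b1 b2
  refine ⟨_, (hw.comp ⟨(mor_tau h hs).mono le_top, iv_tau_L (by omega) (by norm_num)⟩).comp (au_conj' F (e 243 ^ k)),
    b1, b2, i, hi, j, hj, ?_⟩
  rw [a3]
  exact b3 i hi j hj

theorem lks : ∀ i < 3, ∀ j < 3, lk (e 2187) (e 243 * e 1 ^ i * e 9 ^ j) = e 90 ∧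
    lk (e 729) (e 243 * e 1 ^ i * e 9 ^ j) = e 28 := by decide +kernel

/-- the images of the generators -/
theorem step2 {F : FS} {w : G → G} (hw : Mor F (L 8) w) (h1 : w (e 729) = e 2187) (h2 : w (e 2187) = e 729)
    {i j : ℕ} (hi : i < 3) (hj : j < 3) (h3 : w (e 243) = e 243 * e 1 ^ i * e 9 ^ j) :
    w (e 1) = e 9 ∧ w (e 3) = e 3 ∧ w (e 9) = e 1 ∧ w (e 27) = e 81 ∧ w (e 81) = e 27 := by
  have hh := hw.homOn
  have a28 : w (e 28) = e 90 := by
    rw [show e 28 = e 729 * e 243 * (e 729)⁻¹ * (e 243)⁻¹ by decide +kernel, map_lk hw (by decide) (by decide), h1, h3]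
    exact (lks i hi j hj).1
  have a90 : w (e 90) = e 28 := by
    rw [show e 90 = e 2187 * e 243 * (e 2187)⁻¹ * (e 243)⁻¹ by decide +kernel, map_lk hw (by decide) (by decide), h2,
      h3]
    exact (lks i hi j hj).2
  have a3 : w (e 3) = e 3 := by
    rw [show w (e 3) = w (e 2187 * e 28 * (e 2187)⁻¹ * (e 28)⁻¹) from congrArg w (by decide +kernel),
      map_lk hw (by decide) (by decide), h2, a28]
    decide +kernel
  have a1 : w (e 1) = e 9 := by
    rw [show e 1 = (e 729 * e 28 * (e 729)⁻¹ * (e 28)⁻¹)⁻¹ by decide +kernel, hh.map_inv (by decide +kernel),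
      map_lk hw (by decide) (by decide), h1, a28]
    decide +kernel
  have a9 : w (e 9) = e 1 := by
    rw [show e 9 = (e 2187 * e 90 * (e 2187)⁻¹ * (e 90)⁻¹)⁻¹ by decide +kernel, hh.map_inv (by decide +kernel),
      map_lk hw (by decide) (by decide), h2, a90]
    decide +kernel
  refine ⟨a1, a3, a9, ?_, ?_⟩
  · rw [show e 27 = e 28 * (e 1)⁻¹ by decide +kernel, hh.map_mul (by decide) (by decide +kernel),
      hh.map_inv (by decide), a28, a1]
    decide +kernel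
  · rw [show e 81 = e 90 * (e 9)⁻¹ by decide +kernel, hh.map_mul (by decide) (by decide +kernel),
      hh.map_inv (by decide), a90, a9]
    decide +kernel

theorem sgn : ∀ s < 8, e 2187 * (tau s (e 2187))⁻¹ ∈ L 7 → e 729 * (tau s (e 729))⁻¹ ∈ L 6 →
    e 243 * (tau s (e 243))⁻¹ ∈ L 5 → s = 0 := by decide +kernel

theorem cb : ∀ g ∈ C (e 2187), g * e 243 * g⁻¹ * (e 243)⁻¹ ∈ L 3 → g * e 243 * g⁻¹ = e 243 :=
  (ech_rep (r := 2187) (by decide)).all (by decide +kernel)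

theorem fin : ∀ i < 3, ∀ j < 3, e 243 * e 1 ^ i * e 9 ^ j * e 9 ^ i * e 1 ^ j * (e 243)⁻¹ ∈ L 3 ∧
    (e 243 * e 1 ^ i * e 9 ^ j * e 9 ^ i * e 1 ^ j = e 243 →
      ∃ m < 3, e 243 * e 1 ^ i * e 9 ^ j = e ([243, 254, 262].getD m 0)) := by decide +kernel

/-- the central automorphisms -/
def γZ (n k : ℕ) : G := if k = 5 then e (243 + n) else e (3 ^ k)

theorem rel_Z : ∀ n < 3, Rel (γZ n) := fun n hn =>
  ⟨(by decide +kernel : ∀ n < 3, ∀ i < 9, γZ n i ^ 3 = el (γZ n) (pp i)) n hn,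
    (by decide +kernel : ∀ n < 3, ∀ i < 9, ∀ j < i, γZ n j * γZ n i = γZ n i * el (γZ n) (cc i j)) n hn⟩

theorem Z_e {n : ℕ} (hn : n < 3) (x : G) : homOf (rel_Z n hn) x = el (γZ n) x.v := rfl

theorem Z_inv {n m : ℕ} (hn : n < 3) (hm : m < 3) (h : (n + m) % 3 = 0) (x : G) :
    homOf (rel_Z n hn) (homOf (rel_Z m hm) x) = x :=
  DFunLike.congr_fun (hom_ext (φ := (homOf (rel_Z n hn)).comp (homOf (rel_Z m hm))) (ψ := MonoidHom.id G)
    ((by decide +kernel : ∀ n < 3, ∀ m < 3, (n + m) % 3 = 0 → ∀ k < 9,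
      el (γZ n) (el (γZ m) (e (3 ^ k)).v).v = e (3 ^ k)) n hn m hm h)) x

theorem Z_tau {n s : ℕ} (hn : n < 3) (hs : s < 8) (x : G) :
    homOf (rel_Z n hn) (tau s x) = tau s (homOf (rel_Z n hn) x) :=
  DFunLike.congr_fun (hom_ext (φ := (homOf (rel_Z n hn)).comp (tauH s hs)) (ψ := (tauH s hs).comp (homOf (rel_Z n hn)))
    ((by decide +kernel : ∀ n < 3, ∀ s < 8, ∀ k < 9,
      el (γZ n) (tau s (e (3 ^ k))).v = tau s (el (γZ n) (e (3 ^ k)).v)) n hn s hs)) x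

end W1x

open W1x

theorem stW1 (hX : StX) : StW1 := by
  intro F h hV
  obtain ⟨w, hw, h1, h2, i, hi, j, hj, h3⟩ := step1 h hV
  obtain ⟨a1, a3, a9, a27, a81⟩ := step2 hw.1 h1 h2 hi hj h3
  have hh := hw.1.homOn
  have h4 : w (w (e 243)) = e 243 * e 1 ^ i * e 9 ^ j * e 9 ^ i * e 1 ^ j := by
    have m1 : e 1 ∈ L 8 := by decide
    have m9 : e 9 ∈ L 8 := by decide
    have m3 : e 243 ∈ L 8 := by decide
    conv_lhs => rw [h3, hh.map_mul (mul_mem m3 (pow_mem m1 i)) (pow_mem m9 j), hh.map_mul m3 (pow_mem m1 i),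
      hh.map_pow m1, hh.map_pow m9, h3, a1, a9]
  obtain ⟨k, hk, e1⟩ := hX.x1 F h.sat _ (hw.comp hw) (by rw [h1, h2]; decide)
  obtain ⟨g, s, hs, -, e2⟩ := h.tor k hk
  have b1 : g * tau s (e 2187) * g⁻¹ = e 2187 := by rw [← e2, e1 _ (by decide), h2, h1]
  have b2 : g * tau s (e 729) * g⁻¹ = e 729 := by rw [← e2, e1 _ (by decide), h1, h2]
  have b3 : g * tau s (e 243) * g⁻¹ = e 243 * e 1 ^ i * e 9 ^ j * e 9 ^ i * e 1 ^ j := by
    rw [← e2, e1 _ (by decide), h4]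
  obtain ⟨c1, c2⟩ := fin i hi j hj
  have s0 : s = 0 := by
    refine sgn s hs ?_ ?_ ?_
    · have := comm_L (k := 7) (by norm_num) (iv_tau_L hs (by norm_num) (e 2187) (by decide)) g
      rwa [b1] at this
    · have := comm_L (k := 6) (by norm_num) (iv_tau_L hs (by norm_num) (e 729) (by decide)) g
      rwa [b2] at this
    · have := comm_L (k := 5) (by norm_num) (iv_tau_L hs (by norm_num) (e 243) (by decide)) g
      rw [b3] at this
      have h5 := mul_mem (inv_mem (L_mono (by norm_num : 3 ≤ 5) c1)) this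
      convert h5 using 1
      group
  subst s0
  rw [tau_zero] at b1 b3
  obtain ⟨m, hm, e3⟩ := c2 (b3 ▸ cb g (mem_C.2 (mul_inv_eq_iff_eq_mul.1 b1)) (b3.symm ▸ c1))
  refine ⟨m, hm, w, L8_eq ▸ hw.1, fun k hk => ?_⟩
  interval_cases k
  exacts [a1, a3, a9, a27, a81, h3.trans e3, h1, h2, hh.map_one]

theorem stZ : StZ := by
  intro F h m hm ⟨w, hw, e1⟩
  have hn : (3 - m) % 3 < 3 := Nat.mod_lt _ (by norm_num)
  set θ := homOf (rel_Z m hm) with hθ
  set η := homOf (rel_Z _ hn) with hη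
  have l1 : ∀ x, η (θ x) = x := Z_inv hn hm (by omega)
  have l2 : ∀ x, θ (η x) = x := Z_inv hm hn (by omega)
  have hI : GIso (⊤ : Subgroup G) ⊤ θ η :=
    ⟨homOn_hom θ ⊤, fun _ _ => mem_top _, fun _ _ => mem_top _, fun x _ => l1 x, fun x _ => l2 x⟩
  have hF := hI.fIso_transport F
  have ht : ∀ s < 8, Mor F ⊤ (tau s) → Mor (hI.transport F) ⊤ (tau s) := fun s hs hs' => by
    have := hF.mor _ _ hs'
    rw [hI.img_top] at this
    exact this.congr fun x _ => by rw [Z_tau hm hs, l2]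
  refine ⟨_, θ, η, hF, ⟨hF.isSaturated h.sat, fun f hf => ?_, ht 1 (by norm_num) h.t1, ht 2 (by norm_num) h.t2⟩, ?_⟩
  · have := hF.mor' _ _ hf
    rw [hI.symm.img_top] at this
    obtain ⟨g, s, hs, h1, h2⟩ := h.tor _ this
    refine ⟨θ g, s, hs, ht s hs h1, fun x => ?_⟩
    have h3 := congrArg θ (h2 (η x))
    rwa [l2, l2, map_mul, map_mul, map_inv, Z_tau hm hs, l2] at h3
  · have hu : Mor (univFS ⊤) ⊤ θ := mor_univ (MulEquiv.mk ⟨θ, η, l1, l2⟩ (map_mul θ))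
    have hi : img θ (PS lE1) = PS lE1 := hu.img_eq_self le_top (iv_gens hu (ech_PS _) le_top
      ((by decide +kernel : ∀ m < 3, ∀ k < 9, el (γZ m) (e (lE1.getD k 0)).v ∈ PS lE1) m hm))
    have := hF.mor _ _ hw
    rw [hi] at this
    refine ⟨_, this, fun k hk => ?_⟩
    by_cases h5 : k = 5
    · subst h5
      have e2 : η (e (lE1.getD 5 0)) = e (lE1.getD 5 0) * e (lE1.getD 0 0) ^ ((3 - m) % 3) :=
        (by decide +kernel : ∀ m < 3, el (γZ ((3 - m) % 3)) (e (lE1.getD 5 0)).v =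
          e (lE1.getD 5 0) * e (lE1.getD 0 0) ^ ((3 - m) % 3)) m hm
      have m0 := (ech_PS lE1).mem (k := 0) (by norm_num)
      rw [e2, hw.homOn.map_mul ((ech_PS lE1).mem hk) (pow_mem m0 _), hw.homOn.map_pow m0, e1 5 hk, e1 0 (by norm_num)]
      exact (by decide +kernel : ∀ m < 3, el (γZ m) (e ((lW1 m).getD 5 0) * e ((lW1 m).getD 0 0) ^ ((3 - m) % 3)).v =
        e ((lW1 0).getD 5 0)) m hm
    · have e2 : η (e (lE1.getD k 0)) = e (lE1.getD k 0) :=
        (by decide +kernel : ∀ m < 3, ∀ k < 9, k ≠ 5 → el (γZ ((3 - m) % 3)) (e (lE1.getD k 0)).v =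
          e (lE1.getD k 0)) m hm k hk h5
      rw [e2, e1 k hk]
      exact (by decide +kernel : ∀ m < 3, ∀ k < 9, k ≠ 5 → el (γZ m) (e ((lW1 m).getD k 0)).v =
        e ((lW1 0).getD k 0)) m hm k hk h5

end CL.C3
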