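/-
Saturated fusion systems on `CL.C3.G`: normal form of the automorphism of `E2`.
-/
import Cfsg.Agent.Fus.C3F

set_option autoImplicit false
set_option Elab.async false

namespace CL.C3

open Subgroup Cfsg Cfsg.FusionSystem CL.Fus

attribute [local irreducible] mul inv

namespace W2x

/-- the standing properties of the automorphism -/
structure PW (F : FS) (w : G → G) : Prop where
  au : Au F E2 w
  t1 : Tw w E2 1 1
  t2 : Tw w E2 2 3
  z : w (e 1) = e 1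

variable {F : FS} {w : G → G}

theorem tau_comm {s t : ℕ} (hs : s < 8) (ht : t < 8) (x : G) : tau s (tau t x) = tau t (tau s x) := by
  rw [tau_tau hs ht, tau_tau ht hs, Nat.xor_comm]

theorem tau_conj {t : ℕ} (ht : t < 8) {c : G} (hc : tau t c = c) (x : G) :
    tau t (c * x * c⁻¹) = c * tau t x * c⁻¹ := by
  have : tau t c⁻¹ = (tau t c)⁻¹ := map_inv (tauH t ht) c
  rw [tau_mul ht, tau_mul ht, this, hc]

theorem post (hF : Tor F) (h : PW F w) {c : G} (h1 : tau 1 c = c) (h3 : tau 3 c = c) {s : ℕ} (hs : s < 3) :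
    PW F fun x => tau s (c * w x * c⁻¹) := by
  have hs8 : s < 8 := by omega
  have hm : Mor F ⊤ (tau s) := by
    interval_cases s
    · rw [show tau 0 = fun x => x from funext tau_zero]
      exact mor_id F le_rfl
    · exact hF.t1
    · exact hF.t2
  refine ⟨(h.au.comp (au_conj' F c)).comp ⟨hm.mono le_top, iv_tau_E2 hs8⟩, fun x hx => ?_, fun x hx => ?_, ?_⟩
  · show tau s (c * w (tau 1 x) * c⁻¹) = tau 1 (tau s (c * w x * c⁻¹))
    rw [h.t1 x hx, ← tau_conj (by norm_num) h1, tau_comm hs8 (by norm_num)]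
  · show tau s (c * w (tau 2 x) * c⁻¹) = tau 3 (tau s (c * w x * c⁻¹))
    rw [h.t2 x hx, ← tau_conj (by norm_num) h3, tau_comm hs8 (by norm_num)]
  · show tau s (c * w (e 1) * c⁻¹) = e 1
    rw [h.z, L1_conj (by decide)]
    exact (by decide +kernel : ∀ s < 3, tau s (e 1) = e 1) s hs

theorem PW.fix1 (h : PW F w) {x : G} (hx : x ∈ E2) (e1 : tau 1 x = x) : tau 1 (w x) = w x := by
  rw [← h.t1 x hx, e1]

theorem PW.inv1 (h : PW F w) {x : G} (hx : x ∈ E2) (e1 : tau 1 x = x⁻¹) : tau 1 (w x) = (w x)⁻¹ := by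
  rw [← h.t1 x hx, e1, h.au.1.homOn.map_inv hx]

theorem PW.fix2 (h : PW F w) {x : G} (hx : x ∈ E2) (e1 : tau 2 x = x) : tau 3 (w x) = w x := by
  rw [← h.t2 x hx, e1]

theorem PW.inv2 (h : PW F w) {x : G} (hx : x ∈ E2) (e1 : tau 2 x = x⁻¹) : tau 3 (w x) = (w x)⁻¹ := by
  rw [← h.t2 x hx, e1, h.au.1.homOn.map_inv hx]

theorem PW.lk (h : PW F w) {x y u : G} (hx : x ∈ E2) (hy : y ∈ E2) (e1 : u = lk x y) : w u = lk (w x) (w y) :=
  e1 ▸ map_lk h.au.1 hx hy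

theorem PW.mul (h : PW F w) {x y u : G} (hx : x ∈ E2) (hy : y ∈ E2) (e1 : u = x * y) : w u = w x * w y :=
  e1 ▸ h.au.1.homOn.map_mul hx hy

theorem d1 : ∀ x ∈ E2, x ∉ L 7 → tau 1 x = x⁻¹ → tau 3 x = x⁻¹ →
    ∃ i < 3, ∃ s < 2, tau s (e (9 * i) * x * (e (9 * i))⁻¹) = e 6561 :=
  (ech_PS lE2).all (by decide +kernel)

theorem d2 : ∀ x ∈ E2, x ∉ L 6 → tau 1 x = x⁻¹ → tau 3 x = x →
    ∃ i < 3, ∃ s < 2, tau (2 * s) (e (243 * i) * x * (e (243 * i))⁻¹) = e 729 :=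
  (ech_PS lE2).all (by decide +kernel)

theorem d3 : ∀ x ∈ E2, tau 1 x = x → tau 3 x = x⁻¹ → lk (e 729) (lk (e 6561) x) = e 2 → x = e 81 :=
  (ech_PS lE2).all (by decide +kernel)

theorem d4 : ∀ x ∈ E2, tau 1 x = x → tau 3 x = x →
    (lk (e 729) x = e 28 → x * e 6561 = e 6561 * x → ∃ m < 3, x = e (243 + m)) ∧
      (lk (e 6561) x = e 4 → x * e 729 = e 729 * x → ∃ n < 3, x = e (9 + n)) :=
  (ech_PS lE2).all (by decide +kernel)

theorem d5 : ∀ g ∈ C (e 6561), g ∈ C (e 729) → g ∈ C (e 81) → g ∈ L 1 :=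
  (ech_rep (r := 6561) (by decide +kernel)).all (by decide +kernel)

theorem d6 : ∀ s < 8, tau s (e 6561) * (e 6561)⁻¹ ∈ L 8 → tau s (e 729) * (e 729)⁻¹ ∈ L 6 → tau s (e 1) = e 1 →
    s = 0 := by decide +kernel

theorem step1 (hF : Tor F) (h : PW F w) (h7 : w (e 729) ∉ L 7) : ∃ w, PW F w ∧ w (e 729) = e 6561 := by
  have m : e 729 ∈ E2 := by decide +kernel
  obtain ⟨i, hi, s, hs, e1⟩ := d1 _ (h.au.2 _ m) h7 (h.inv1 m (by decide +kernel)) (h.inv2 m (by decide +kernel))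
  obtain ⟨a, b⟩ := (by decide +kernel : ∀ i < 3, tau 1 (e (9 * i)) = e (9 * i) ∧ tau 3 (e (9 * i)) = e (9 * i)) i hi
  exact ⟨_, post hF h a b (by omega), e1⟩

theorem step2 (hF : Tor F) (h : PW F w) (ha : w (e 729) = e 6561) :
    ∃ w, PW F w ∧ w (e 729) = e 6561 ∧ w (e 6561) = e 729 := by
  have m : e 6561 ∈ E2 := by decide +kernel
  have hJ : L 6 ≤ E2 := L_le (by norm_num) (by decide +kernel)
  obtain ⟨i, hi, s, hs, e1⟩ := d2 _ (h.au.2 _ m)
    (fun h6 => absurd (back h.au.1 hJ (J_wc h.au.1 hJ) m h6) (by decide +kernel))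
    (h.inv1 m (by decide +kernel)) (h.fix2 m (by decide +kernel))
  obtain ⟨a, b, c⟩ := (by decide +kernel : ∀ i < 3, tau 1 (e (243 * i)) = e (243 * i) ∧
    tau 3 (e (243 * i)) = e (243 * i) ∧
    ∀ s < 2, tau (2 * s) (e (243 * i) * e 6561 * (e (243 * i))⁻¹) = e 6561) i hi
  refine ⟨_, post hF h a b (s := 2 * s) (by omega), ?_, e1⟩
  show tau (2 * s) (e (243 * i) * w (e 729) * (e (243 * i))⁻¹) = e 6561
  rw [ha, c s hs]

end W2x

open W2x in
theorem stW2 (hX : StX) : StW2 := by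
  rintro F hF ⟨w0, a1, a2, a3, a4, a5⟩
  obtain ⟨w1, b1, b2⟩ := step1 hF ⟨a1, a2, a3, a5⟩ a4
  obtain ⟨w, h, hb, ha⟩ := step2 hF b1 b2
  obtain ⟨m1, m3, m9, m27, m81, mc, mb, ma⟩ : e 1 ∈ E2 ∧ e 3 ∈ E2 ∧ e 9 ∈ E2 ∧ e 27 ∈ E2 ∧ e 81 ∈ E2 ∧ e 243 ∈ E2 ∧
    e 729 ∈ E2 ∧ e 6561 ∈ E2 := by decide +kernel
  have h3 := h.lk mb m81 (u := e 3) (by decide +kernel)
  have h2 := h.lk ma m3 (u := e 2) (by decide +kernel)
  rw [h.mul m1 m1 (u := e 2) (by decide +kernel), h.z, ha, h3, hb] at h2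
  have h81 := d3 _ (h.au.2 _ m81) (h.fix1 m81 (by decide +kernel)) (h.inv2 m81 (by decide +kernel))
    (h2.symm.trans (by decide +kernel))
  rw [hb, h81] at h3
  replace h3 : w (e 3) = e 27 := h3.trans (by decide +kernel)
  have h27 := h.lk ma m81 (u := e 27) (by decide +kernel)
  rw [ha, h81] at h27
  replace h27 : w (e 27) = e 3 := h27.trans (by decide +kernel)
  have h4 := h.lk ma m9 (u := e 4) (by decide +kernel)
  rw [h.mul m3 m1 (u := e 4) (by decide +kernel), h.z, h3, ha] at h4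
  have h28 := h.lk mb mc (u := e 28) (by decide +kernel)
  rw [h.mul m27 m1 (u := e 28) (by decide +kernel), h.z, h27, hb] at h28
  obtain ⟨m, hm, h9⟩ := (d4 _ (h.au.2 _ m9) (h.fix1 m9 (by decide +kernel)) (h.fix2 m9 (by decide +kernel))).1
    (h4.symm.trans (by decide +kernel)) (hb ▸ (map_comm h.au.1 m9 mb).2 (by decide +kernel))
  obtain ⟨n, hn, hc⟩ := (d4 _ (h.au.2 _ mc) (h.fix1 mc (by decide +kernel)) (h.fix2 mc (by decide +kernel))).2
    (h28.symm.trans (by decide +kernel)) (ha ▸ (map_comm h.au.1 mc ma).2 (by decide +kernel))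
  obtain ⟨k, hk, ek⟩ := hX.x2 F hF.sat _ (h.au.comp h.au) (by
    show w (w (e 729)) ∈ L 7
    rw [hb, ha]
    decide)
  obtain ⟨g, s, hs, -, eg⟩ := hF.tor k hk
  have key : ∀ x ∈ E2, w (w x) = x → tau s x = g⁻¹ * x * g⁻¹⁻¹ := fun x hx e1 => by
    have := (eg x).symm.trans ((ek x hx).trans e1)
    calc tau s x = g⁻¹ * (g * tau s x * g⁻¹) * g⁻¹⁻¹ := by group
      _ = _ := by rw [this]
  have ka := key _ ma (by rw [ha, hb])
  have kb := key _ mb (by rw [hb, ha])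
  have k81 := key _ m81 (by rw [h81, h81])
  have kz := key _ m1 (by rw [h.z, h.z])
  obtain rfl : s = 0 := d6 s hs (ka ▸ comm_L (by norm_num) (by decide) _) (kb ▸ comm_L (by norm_num) (by decide) _)
    (kz.trans (L1_conj (by decide) _))
  rw [tau_zero, eq_mul_inv_iff_mul_eq] at ka kb k81
  have hg : g ∈ L 1 := inv_mem_iff.1 (d5 _ (mem_C.2 ka.symm) (mem_C.2 kb.symm) (mem_C.2 k81.symm))
  have kc := (ek _ mc).symm.trans (eg _)
  rw [tau_zero, ← L1_comm hg, mul_inv_cancel_right] at kc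
  have e9 : e (9 + n) = e 9 * e 1 ^ n := (by decide +kernel : ∀ n < 3, e (9 + n) = e 9 * e 1 ^ n) n hn
  have kc' : w (w (e 243)) = e (243 + m) * e 1 ^ n := by
    rw [hc, h.mul m9 (pow_mem m1 n) e9, h9, h.au.1.homOn.map_pow m1, h.z]
  have hmn : 9 + n = [9, 11, 10].getD m 0 :=
    (by decide +kernel : ∀ m < 3, ∀ n < 3, e (243 + m) * e 1 ^ n = e 243 → 9 + n = [9, 11, 10].getD m 0) m hm n hn
      (kc'.symm.trans kc)
  refine ⟨m, hm, w, h.au.1, fun j hj => ?_⟩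
  interval_cases j
  exacts [h.z, h3, h9, h27, h81, hmn ▸ hc, hb, h.au.1.homOn.map_one, ha]

end CL.C3
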