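/-
Saturated fusion systems with trivial core on a Sylow 3-subgroup of `Co₁`: assembly.
-/
import Cfsg.Agent.Fus.C3Ext
import Cfsg.Agent.Fus.C3Fin
import Cfsg.Agent.Fus.C3Four
import Cfsg.Agent.Fus.C3Gen
import Cfsg.Agent.Fus.C3Glue
import Cfsg.Agent.Fus.C3I
import Cfsg.Agent.Fus.C3J0
import Cfsg.Agent.Fus.C3J1
import Cfsg.Agent.Fus.C3L0
import Cfsg.Agent.Fus.C3L2
import Cfsg.Agent.Fus.C3N4
import Cfsg.Agent.Fus.C3N4a
import Cfsg.Agent.Fus.C3Psi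
import Cfsg.Agent.Fus.C3T12
import Cfsg.Agent.Fus.C3Tor
import Cfsg.Agent.Fus.C3Ty
import Cfsg.Agent.Fus.C3V3
import Cfsg.Agent.Fus.C3W1
import Cfsg.Agent.Fus.C3W2

set_option autoImplicit false

namespace CL.C3

open Subgroup Cfsg Cfsg.Spor

theorem fin_of (l1 : StL1) (n4 : MM.StN4b) (v1 : StV1) (v2 : StV2) : StFin :=
  have g := stGen (stJ0 stPsi) stJ1 stL2 l1 (stL0 stB0)
  have x := stX stI
  have x4 := stX4 stJ1
  have n := stN4 stPsi MM.stN4a n4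
  have t := stTy stPsi MM.stMu
  stFin stI (stCl (stC0 g stI x x4 n) (stTor0 (stSg stI)) (stT12 stI x) v1 v2 (stV3 stI x stN) (stW1 x) (stW2 x) stW3 stZ)
    (stUq g x x4 (stF stI x x4) n (stW4 stPsi MM.stMu) t) t stCF

theorem sylow_iso [Fact (Nat.Prime 3)] (T : Sylow 3 Co1) : Nonempty ((T : Subgroup Co1) ≃* (⊤ : Subgroup G)) := by
  obtain ⟨ι, ⟨hi, T', hT⟩, -⟩ := stCo
  have : Finite Co1 := Nat.finite_of_card_ne_zero (by rw [CL.Spor.Leech.card_Co1]; norm_num)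
  exact ⟨(((Sylow.equiv T T').trans (MulEquiv.subgroupCongr hT)).trans (MonoidHom.ofInjective hi).symm).trans
    topEquiv.symm⟩

end CL.C3
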