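/-
Saturated fusion systems on `CL.C3.G`: automorphisms of `L 8` and `E2` which normalise the four-group.
-/
import Cfsg.Agent.Fus.C3W1

set_option autoImplicit false
set_option Elab.async false

namespace CL.C3

open Subgroup Cfsg Cfsg.FusionSystem CL.Fus

attribute [local irreducible] mul inv

namespace V12x

/-- `h` acts trivially on `L (k + 1) / L k` -/
def Ch (k : ℕ) (h : G → G) : Prop := ∀ x ∈ L (k + 1), h x * x⁻¹ ∈ L k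

/-- `N / J` is generated by `z` -/
def Cy (N : Subgroup G) (z : G) : Prop := ∀ p ∈ N, p ∉ L 6 → z⁻¹ * p ∈ L 6 ∨ z * p ∈ L 6

variable {k : ℕ} {F : FS} {A M N H : Subgroup G} {f g h : G → G} {u y z : G}

theorem Ch.comp (hf : Ch k f) (hg : Ch k g) : Ch k fun x => g (f x) := fun x hx => by
  have h1 := hf x hx
  have h2 : f x ∈ L (k + 1) := (mul_mem_cancel_right (inv_mem hx)).1 (L_mono (Nat.le_succ k) h1)
  have := mul_mem (hg _ h2) h1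
  rwa [mul_assoc, inv_mul_cancel_left] at this

theorem ch_conj (hk : k < 9) (c : G) : Ch k fun x => c * x * c⁻¹ := fun _ hx => comm_L hk hx c

theorem Ch.cj (hh : Ch k h) (hf : Mor F A f) (hA : L (k + 1) ≤ A) (i1 : Iv f (L k)) (i2 : Iv g (L (k + 1)))
    (r : ∀ x ∈ A, f (g x) = x) : Ch k fun x => f (h (g x)) := fun x hx => by
  have h1 := hh _ (i2 x hx)
  have h2 : h (g x) ∈ L (k + 1) := (mul_mem_cancel_right (inv_mem (i2 x hx))).1 (L_mono (Nat.le_succ k) h1)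
  have := i1 _ h1
  rwa [hf.homOn.map_mul (hA h2) (inv_mem (hA (i2 x hx))), hf.homOn.map_inv (hA (i2 x hx)), r x (hA hx)] at this

theorem Cy.le (hc : Cy N z) (hH : L 6 ≤ H) {q : G} (hq : q ∈ N) (hq' : q ∉ L 6) (hqH : q ∈ H) : N ≤ H := by
  have hz : z ∈ H := by
    rcases hc q hq hq' with h | h
    · exact inv_mem_iff.1 ((mul_mem_cancel_right hqH).1 (hH h))
    · exact (mul_mem_cancel_right hqH).1 (hH h)
  intro x hx
  by_cases h6 : x ∈ L 6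
  · exact hH h6
  rcases hc x hx h6 with h | h
  · exact (mul_mem_cancel_left (inv_mem hz)).1 (hH h)
  · exact (mul_mem_cancel_left hz).1 (hH h)

theorem Cy.maps (hc : Cy N z) (hf : Mor F A f) (hN : N ≤ A) (h6 : L 6 ≤ A) (i6 : Iv f (L 6)) (hH : L 6 ≤ H) {q : G}
    (hq : q ∈ N) (hq' : q ∉ L 6) (hqH : f q ∈ H) : ∀ x ∈ N, f x ∈ H := fun _ hx =>
  ((mem_pre hf).1 (hc.le (H := pre hf H) (fun x hx => (mem_pre hf).2 ⟨h6 hx, hH (i6 x hx)⟩) hq hq'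
    ((mem_pre hf).2 ⟨hN hq, hqH⟩) hx)).2

theorem hi_cs (hH : L 5 ≤ H) (c d x : G) : c * hi x * d ∈ H ↔ c * x * d ∈ H := by
  obtain ⟨a, ha, e1⟩ := hi_split x
  conv_rhs => rw [e1, show c * (hi x * a) * d = c * hi x * d * (d⁻¹ * a * d⁻¹⁻¹) by group]
  exact (mul_mem_cancel_right (hH (conj_L ha _))).symm

theorem cy_of (hN : L 5 ≤ N) (h : ∀ x, hi x ∈ N → hi x ∉ L 6 → z⁻¹ * hi x * 1 ∈ L 6 ∨ z * hi x * 1 ∈ L 6) :
    Cy N z := fun p hp hp' => by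
  have := h p ((hi_mem hN).2 hp) (mt (hi_mem_L (by norm_num)).1 hp')
  rwa [hi_cs (L_mono (by norm_num)), hi_cs (L_mono (by norm_num)), mul_one, mul_one] at this

theorem cy7 : Cy (L 7) (e 729) := cy_of (L_mono (by norm_num))
  (all_hi (p := fun x => x ∈ L 7 → x ∉ L 6 → (e 729)⁻¹ * x * 1 ∈ L 6 ∨ e 729 * x * 1 ∈ L 6) (by decide +kernel))

theorem comm7 (a b : G) : a * b * a⁻¹ * b⁻¹ ∈ L 7 :=
  comm_of_gens (ech_L le_rfl) (ech_L le_rfl) (k := 7) (by decide +kernel) a.lt b.lt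

/-- the sign of `tau t` modulo `J` -/
theorem sg {t : ℕ} (ht : t < 8) (hc : Cy N z) {p : G} (hp : p ∈ N) (hp' : p ∉ L 6) :
    (tau t p = p⁻¹ → tau t z * z ∈ L 6) ∧ (tau t p = p → tau t z * z⁻¹ ∈ L 6) := by
  have i6 := iv_tau_L ht (k := 6) (by norm_num)
  have hinv : ∀ x, tau t x⁻¹ = (tau t x)⁻¹ := (tauH t ht).map_inv
  have key : ∀ x, x ∈ L 6 ↔ QuotientGroup.mk' (L 6) x = 1 := fun x => (QuotientGroup.eq_one_iff x).symm
  rcases hc p hp hp' with h | h <;> have h' := i6 _ h <;> rw [tau_mul ht] at h' <;>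
    refine ⟨fun e1 => ?_, fun e1 => ?_⟩ <;> rw [e1] at h' <;>
    simp only [hinv, key, map_mul, map_inv] at h h' ⊢
  · rw [inv_mul_eq_one.1 h, inv_mul_eq_one.1 h', inv_mul_cancel]
  · rw [inv_mul_eq_one.1 h, inv_mul_eq_one.1 h', mul_inv_cancel]
  · rw [mul_inv_eq_one.1 h', eq_inv_of_mul_eq_one_left h, mul_inv_cancel]
  · rw [eq_inv_of_mul_eq_one_left h', eq_inv_of_mul_eq_one_left h, mul_inv_cancel]

/-- the data of the two cases -/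
structure Dat (k : ℕ) (A M : Subgroup G) (u y : G) : Prop where
  k5 : k ≤ 5
  nm : A.Normal
  l7 : L 7 ≤ A
  l6 : L 6 ≤ M
  le : M ≤ A
  ym : y ∈ M
  y6 : y ∉ L 6
  iv : ∀ (F : FS) f, Au F A f → Iv f (L 6) ∧ Iv f (L (k + 1)) ∧ Iv f (L k)
  ext : ExtP A (L 7) (e 729)
  s1 : ∀ x ∈ A, x ∈ CM 6 u → x ∈ L 7
  s2 : ∀ p ∈ A, p ∉ L 7 → ∃ i < 3, u ^ i * p * (u ^ i)⁻¹ ∈ M
  s3 : CM 6 y ≤ A
  s4 : ∀ x ∈ M, x ∈ L 7 → x ∈ L 6
  cy : Cy M y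
  tA : ∀ s < 8, Iv (tau s) A
  tM : ∀ s < 8, Iv (tau s) M
  ct : ∀ s < 4, Ch k (tau s)
  tc : ∀ s < 8, tau s (e (3 ^ k)) * (e (3 ^ k))⁻¹ ∈ L k → s < 4
  nr : A ≤ normalizer (M : Set G)

theorem m7 : e 729 ∈ L 7 := by decide
theorem m6 : e 729 ∉ L 6 := by decide

theorem Dat.inv_not (d : Dat k A M u y) (hg : Au F A g) (l : ∀ x ∈ A, f (g x) = x) (h7 : f (e 729) ∉ L 7) :
    g (e 729) ∉ L 7 := fun h => by
  have h67 : L 6 ≤ L 7 := L_mono (by norm_num)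
  obtain ⟨p, hp, e1⟩ := onto hg.1 d.l7 (cy7.maps hg.1 d.l7 (h67.trans d.l7) (d.iv F g hg).1 h67 m7 m6 h) m7
  exact h7 (by rwa [← e1, l p (d.l7 hp)])

theorem Dat.step1 (d : Dat k A M u y) (hf : Au F A f) (h7 : f (e 729) ∉ L 7) :
    ∃ β, Au F A β ∧ Ch k β ∧ β (e 729) ∉ L 7 := by
  have := d.nm
  have h67 : L 6 ≤ L 7 := L_mono (by norm_num)
  have hk := d.k5
  obtain ⟨g, hg, -, r⟩ := hf.inv
  refine ⟨fun x => f (u * g x * u⁻¹), (hg.comp (au_conj' F u)).comp hf,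
    (ch_conj (by omega) u).cj hf.1 ((L_mono (by omega)).trans d.l7) (d.iv F f hf).2.2 (d.iv F g hg).2.1 r, fun h => ?_⟩
  have hx := hg.2 _ (d.l7 m7)
  have h1 : u * g (e 729) * u⁻¹ * (g (e 729))⁻¹ ∉ L 6 := fun h1 =>
    d.inv_not hg r h7 (d.s1 _ hx (CM_symm (mem_CM.2 h1)))
  refine h7 (cy7.maps hf.1 d.l7 (h67.trans d.l7) (d.iv F f hf).1 h67 (comm7 _ _) h1 ?_ _ m7)
  rw [hf.1.homOn.map_mul (this.conj_mem _ hx u) (inv_mem hx), hf.1.homOn.map_inv hx, r _ (d.l7 m7)]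
  exact mul_mem h (inv_mem m7)

theorem Dat.step2 (d : Dat k A M u y) (hf : Au F A f) (hc : Ch k f) (h7 : f (e 729) ∉ L 7) :
    ∃ w, Au F A w ∧ Ch k w ∧ (∀ x ∈ M, w x ∈ L 7) ∧ ∀ x ∈ L 7, w x ∈ M := by
  have := d.nm
  have h67 : L 6 ≤ L 7 := L_mono (by norm_num)
  have hk : k < 9 := by have := d.k5; omega
  obtain ⟨i, -, hi⟩ := d.s2 _ (hf.2 _ (d.l7 m7)) h7
  have h1 := hf.comp (au_conj' F (u ^ i))
  obtain ⟨g, hg, -, r⟩ := h1.inv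
  have h2 := d.inv_not (f := fun x => u ^ i * f x * (u ^ i)⁻¹) hg r (fun h => h7 (conj_L_iff.1 h))
  obtain ⟨j, -, hj⟩ := d.s2 _ (hg.2 _ (d.l7 m7)) h2
  have h3 := (au_conj' F (u ^ j)⁻¹).comp h1
  refine ⟨_, h3, (ch_conj hk _).comp (hc.comp (ch_conj hk _)),
    d.cy.maps h3.1 d.le (h67.trans d.l7) (d.iv F _ h3).1 h67 hj (fun h => h2 (h67 (conj_L_iff.1 h))) ?_,
    fun x hx => cy7.maps h1.1 d.l7 (h67.trans d.l7) (d.iv F _ h1).1 d.l6 m7 m6 hi _ (conj_L hx _)⟩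
  rw [show (u ^ j)⁻¹ * (u ^ j * g (e 729) * (u ^ j)⁻¹) * (u ^ j)⁻¹⁻¹ = g (e 729) by group, r _ (d.l7 m7)]
  exact m7

theorem Dat.step3 (d : Dat k A M u y) (hF : Tor F) {w : G → G} (hw : Au F A w) (h1 : ∀ x ∈ M, w x ∈ L 7)
    (h2 : ∀ x ∈ L 7, w x ∈ M) {s : ℕ} (hs : s < 4) :
    ∃ g ∈ A, ∃ t < 4, ∀ x ∈ A, w (tau s x) = g * tau t (w x) * g⁻¹ := by
  have hk := d.k5
  have hs8 : s < 8 := by omega
  obtain ⟨v, hv, l, r⟩ := hw.inv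
  have a1 : v (e 729) ∈ M := by
    obtain ⟨p, hp, e1⟩ := onto (hw.comp hw).1 d.l7 (fun x hx => h1 _ (h2 x hx)) m7
    rw [← e1, l _ (hw.2 _ (d.l7 hp))]
    exact h2 p hp
  have a2 : v y ∈ L 7 := by
    obtain ⟨p, hp, e1⟩ := onto (hw.comp hw).1 d.le (fun x hx => h2 _ (h1 x hx)) d.ym
    rw [← e1, l _ (hw.2 _ (d.le hp))]
    exact h1 p hp
  have hh := (hv.comp ⟨(W1x.mor_tau hF hs).mono le_top, d.tA s hs8⟩).comp hw
  have hc : Ch k fun x => w (tau s (v x)) :=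
    (d.ct s hs).cj hw.1 ((L_mono (by omega)).trans d.l7) (d.iv F w hw).2.2 (d.iv F v hv).2.1 r
  obtain ⟨φ, hφ, e1⟩ := d.ext F hF.sat _ hh (h1 _ (d.tM s hs8 _ a1))
  obtain ⟨g, t, ht, -, e2⟩ := hF.tor φ hφ
  have e3 : ∀ x ∈ A, w (tau s (v x)) = g * tau t x * g⁻¹ := fun x hx => (e1 x hx).symm.trans (e2 x)
  refine ⟨g, d.s3 ?_, t, d.tc t ht ?_, fun x hx => by rw [← e3 _ (hw.2 x hx), l x hx]⟩
  · have b1 : g * tau t y * g⁻¹ ∈ M := e3 y (d.le d.ym) ▸ h2 _ (iv_tau_L hs8 (by norm_num) _ a2)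
    have b2 := d.tM t ht y d.ym
    have b3 : tau t y ∉ L 6 := fun h => d.y6 (tau_self ht y ▸ iv_tau_L ht (by norm_num) _ h)
    have b4 := CM_symm (mem_CM.2 (d.s4 _ (mul_mem b1 (inv_mem b2)) (comm7 _ _)))
    exact CM_symm (d.cy.le ((L_mono (by norm_num)).trans (L_le_CM (by norm_num) g)) b2 b3 b4 d.ym)
  · have hx : e (3 ^ k) ∈ L (k + 1) := e_mem_L (Nat.pow_lt_pow_right (by norm_num) (Nat.lt_succ_self k))
    have b1 := hc _ hx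
    have b2 := comm_L (k := k) (by omega) (iv_tau_L ht (by omega) _ hx) g
    simp only [e3 _ (d.l7 (L_mono (by omega) hx))] at b1
    have := mul_mem (inv_mem b2) b1
    convert this using 1
    group

theorem Dat.main (d : Dat k A M u y) (hN : StN) (hF : Tor F) (hf : Au F A f) (h7 : f (e 729) ∉ L 7) :
    ∃ w, Au F A w ∧ Ch k w ∧ w (e 729) ∉ L 7 ∧ ∀ s < 4, tau s (e 729) = (e 729)⁻¹ → ∃ t < 4, Tw w A s t ∧
      tau t y * y ∈ L 6 ∧ (tau s y = y⁻¹ → tau t (e 729) * e 729 ∈ L 6) ∧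
      (tau s y = y → tau t (e 729) * (e 729)⁻¹ ∈ L 6) := by
  have := d.nm
  have h67 : L 6 ≤ L 7 := L_mono (by norm_num)
  obtain ⟨β, b1, b2, b3⟩ := d.step1 hf h7
  obtain ⟨w, hw, hc, h1, h2⟩ := d.step2 b1 b2 b3
  obtain ⟨c, hc', h3⟩ := hN F A w hw (fun s hs => d.tA s (by omega)) fun s hs => d.step3 hF hw h1 h2 hs
  have hv := hw.comp (au_conj' F c)
  have i6 := (d.iv F _ hv).1
  have a1 : c * w (e 729) * c⁻¹ ∈ M := conj_mem_of_mem_normalizer (d.nr hc') (h2 _ m7)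
  have a2 : c * w (e 729) * c⁻¹ ∉ L 6 := fun h => m6 (back hv.1 (h67.trans d.l7) i6 (d.l7 m7) h)
  have a3 : c * w y * c⁻¹ ∈ L 7 := conj_L (h1 _ d.ym) c
  have a4 : c * w y * c⁻¹ ∉ L 6 := fun h => d.y6 (back hv.1 (h67.trans d.l7) i6 (d.le d.ym) h)
  refine ⟨_, hv, hc.comp (ch_conj (by have := d.k5; omega) c), fun h => a2 (d.s4 _ a1 h), fun s hs e1 => ?_⟩
  obtain ⟨t, ht, h4⟩ := h3 s hs
  refine ⟨t, ht, h4, (sg (by omega) d.cy a1 a2).1 ?_, fun e2 => (sg (by omega) cy7 a3 a4).1 ?_,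
    fun e2 => (sg (by omega) cy7 a3 a4).2 ?_⟩
  · exact (h4 _ (d.l7 m7)).symm.trans (by rw [e1]; exact hv.1.homOn.map_inv (d.l7 m7))
  · exact (h4 _ (d.le d.ym)).symm.trans (by rw [e2]; exact hv.1.homOn.map_inv (d.le d.ym))
  · exact (h4 _ (d.le d.ym)).symm.trans (by rw [e2])

def lM1 : List ℕ := [1, 3, 9, 27, 81, 243, 0, 2187, 0]
def lM2 : List ℕ := [1, 3, 9, 27, 81, 243, 0, 0, 6561]
instance okM1 : Fact (okE lM1 = true) := ⟨by decide +kernel⟩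
instance okM2 : Fact (okE lM2 = true) := ⟨by decide +kernel⟩

theorem l5_CM (u : G) : L 5 ≤ CM 6 u := (L_mono (by norm_num)).trans (L_le_CM (by norm_num) u)

theorem dat_of (k5 : k ≤ 5) [nm : A.Normal] (l7 : L 7 ≤ A) (l6 : L 6 ≤ M) (le : M ≤ A) (ym : y ∈ M) (y6 : y ∉ L 6)
    (iv : ∀ (F : FS) f, Au F A f → Iv f (L 6) ∧ Iv f (L (k + 1)) ∧ Iv f (L k)) (ext : ExtP A (L 7) (e 729))
    (s : ∀ x, (hi x ∈ A → hi x ∈ CM 6 u → hi x ∈ L 7) ∧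
      (hi x ∈ A → hi x ∉ L 7 → ∃ i < 3, u ^ i * hi x * (u ^ i)⁻¹ ∈ M) ∧ (hi x ∈ CM 6 y → hi x ∈ A) ∧
      (hi x ∈ M → hi x ∈ L 7 → hi x ∈ L 6) ∧ (hi x ∈ M → hi x ∉ L 6 → y⁻¹ * hi x * 1 ∈ L 6 ∨ y * hi x * 1 ∈ L 6))
    (tA : ∀ s < 8, Iv (tau s) A) (tM : ∀ s < 8, Iv (tau s) M) (ct : ∀ s < 4, Ch k (tau s))
    (tc : ∀ s < 8, tau s (e (3 ^ k)) * (e (3 ^ k))⁻¹ ∈ L k → s < 4) (nr : A ≤ normalizer (M : Set G)) :
    Dat k A M u y := by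
  have a5 : L 5 ≤ A := (L_mono (by norm_num)).trans l7
  have m5 : L 5 ≤ M := (L_mono (by norm_num)).trans l6
  refine ⟨k5, nm, l7, l6, le, ym, y6, iv, ext, fun x h1 h2 => ?_, fun x h1 h2 => ?_, fun x h1 => ?_,
    fun x h1 h2 => ?_, cy_of m5 fun x => (s x).2.2.2.2, tA, tM, ct, tc, nr⟩
  · exact (hi_mem_L (by norm_num)).1 ((s x).1 ((hi_mem a5).2 h1) ((hi_mem (l5_CM u)).2 h2))
  · obtain ⟨i, h3, h4⟩ := (s x).2.1 ((hi_mem a5).2 h1) (mt (hi_mem_L (by norm_num)).1 h2)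
    exact ⟨i, h3, (hi_cs m5 _ _ x).1 h4⟩
  · exact (hi_mem a5).1 ((s x).2.2.1 ((hi_mem (l5_CM y)).2 h1))
  · exact (hi_mem_L (by norm_num)).1 ((s x).2.2.2.1 ((hi_mem m5).2 h1) ((hi_mem_L (by norm_num)).2 h2))

theorem dat1 (hI : StI) (hX : StX) : Dat 5 (L 8) (PS lM1) (e 6561) (e 2187) :=
  dat_of le_rfl (L_mono (by norm_num)) (L_le (by norm_num) (by decide +kernel)) ((ech_PS _).le (by decide +kernel))
    (by decide +kernel) (by decide) (fun F f hf => ⟨(hI.i1 F f hf).1, (hI.i1 F f hf).1, (hI.i1 F f hf).2.1⟩) hX.x1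
    (all_hi (p := fun x => (x ∈ L 8 → x ∈ CM 6 (e 6561) → x ∈ L 7) ∧
      (x ∈ L 8 → x ∉ L 7 → ∃ i < 3, e 6561 ^ i * x * (e 6561 ^ i)⁻¹ ∈ PS lM1) ∧ (x ∈ CM 6 (e 2187) → x ∈ L 8) ∧
      (x ∈ PS lM1 → x ∈ L 7 → x ∈ L 6) ∧
      (x ∈ PS lM1 → x ∉ L 6 → (e 2187)⁻¹ * x * 1 ∈ L 6 ∨ e 2187 * x * 1 ∈ L 6)) (by decide +kernel))
    (fun _ hs => iv_tau_L hs (by norm_num))
    (fun s hs => iv_gens (mor_tau_univ hs) (ech_PS _) le_top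
      ((by decide +kernel : ∀ s < 8, ∀ k < 9, tau s (e (lM1.getD k 0)) ∈ PS lM1) s hs))
    (fun s hs x hx => all_L (k := 6) (p := fun x => ∀ s < 4, tau s x * x⁻¹ ∈ L 5) (by decide +kernel) x hx s hs)
    (by decide +kernel) (le_nrm_of_gens (ech_L (by norm_num)) (ech_PS _) (by decide +kernel))

theorem dat2 (hI : StI) (hX : StX) : Dat 0 E2 (PS lM2) (e 2187) (e 6561) :=
  dat_of (by norm_num) (L_le (by norm_num) (by decide +kernel)) (L_le (by norm_num) (by decide +kernel))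
    ((ech_PS _).le (by decide +kernel)) (by decide +kernel) (by decide)
    (fun F f hf => ⟨(hI.i2 F f hf).1, (hI.i2 F f hf).2, L_zero ▸ iv_bot hf.1⟩) hX.x2
    (all_hi (p := fun x => (x ∈ E2 → x ∈ CM 6 (e 2187) → x ∈ L 7) ∧
      (x ∈ E2 → x ∉ L 7 → ∃ i < 3, e 2187 ^ i * x * (e 2187 ^ i)⁻¹ ∈ PS lM2) ∧ (x ∈ CM 6 (e 6561) → x ∈ E2) ∧
      (x ∈ PS lM2 → x ∈ L 7 → x ∈ L 6) ∧
      (x ∈ PS lM2 → x ∉ L 6 → (e 6561)⁻¹ * x * 1 ∈ L 6 ∨ e 6561 * x * 1 ∈ L 6)) (by decide +kernel))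
    (fun _ hs => iv_tau_E2 hs)
    (fun s hs => iv_gens (mor_tau_univ hs) (ech_PS _) le_top
      ((by decide +kernel : ∀ s < 8, ∀ k < 9, tau s (e (lM2.getD k 0)) ∈ PS lM2) s hs))
    (fun s hs x hx => all_L (k := 1) (p := fun x => ∀ s < 4, tau s x * x⁻¹ ∈ L 0) (by decide +kernel) x hx s hs)
    (by decide +kernel) (le_nrm_of_gens (ech_PS _) (ech_PS _) (by decide +kernel))

end V12x

open V12x

theorem stV1 (hI : StI) (hX : StX) (hN : StN) : StV1 := by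
  rintro F hF ⟨f, hf, h7⟩
  obtain ⟨w, hw, hc, h1, h2⟩ := (dat1 hI hX).main hN hF hf h7
  obtain ⟨t, ht, a1, a2, -, a3⟩ := h2 1 (by norm_num) (by decide +kernel)
  obtain ⟨t', ht', b1, b2, b3, -⟩ := h2 2 (by norm_num) (by decide +kernel)
  obtain rfl := (by decide +kernel : ∀ t < 4, tau t (e 2187) * e 2187 ∈ L 6 → tau t (e 729) * (e 729)⁻¹ ∈ L 6 →
    t = 3) t ht a2 (a3 (by decide +kernel))
  obtain rfl := (by decide +kernel : ∀ t < 4, tau t (e 2187) * e 2187 ∈ L 6 → tau t (e 729) * e 729 ∈ L 6 →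
    t = 2) t' ht' b2 (b3 (by decide +kernel))
  exact ⟨w, hw, a1, b1, h1, hc _ (by decide)⟩

theorem stV2 (hI : StI) (hX : StX) (hN : StN) : StV2 := by
  rintro F hF ⟨f, hf, h7⟩
  obtain ⟨w, hw, hc, h1, h2⟩ := (dat2 hI hX).main hN hF hf h7
  obtain ⟨t, ht, a1, a2, a3, -⟩ := h2 1 (by norm_num) (by decide +kernel)
  obtain ⟨t', ht', b1, b2, -, b3⟩ := h2 2 (by norm_num) (by decide +kernel)
  obtain rfl := (by decide +kernel : ∀ t < 4, tau t (e 6561) * e 6561 ∈ L 6 → tau t (e 729) * e 729 ∈ L 6 →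
    t = 1) t ht a2 (a3 (by decide +kernel))
  obtain rfl := (by decide +kernel : ∀ t < 4, tau t (e 6561) * e 6561 ∈ L 6 → tau t (e 729) * (e 729)⁻¹ ∈ L 6 →
    t = 3) t' ht' b2 (b3 (by decide +kernel))
  have := hc (e 1) (by decide)
  rw [L_zero, mem_bot, mul_inv_eq_one] at this
  exact ⟨w, hw, a1, b1, h1, this⟩

end CL.C3
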