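import Cfsg.Agent.Fus.SimpleSL
import Cfsg.Agent.Perm.Module
import Cfsg.Agent.Cls.UniStab

/-! Groups of isometries of `ε`-hermitian forms that contain all Eichler transformations: transitivity,
generation of pointwise stabilizers, and unipotent radicals of totally isotropic subspaces. -/

set_option autoImplicit false
open Cfsg Module

namespace CL.Fus.Form

variable {F V : Type*} [Field F] [AddCommGroup V] [Module F V] {σ : F →+* F}

/-- `g` is the Eichler map `x ↦ x + B(r, x) w - (ε B(w, x) + c B(r, x)) r`. -/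
def Ei (ε : F) (B : V →ₛₗ[σ] V →ₗ[F] F) (r w : V) (c : F) (g : V ≃ₗ[F] V) : Prop :=
  ∀ x, g x = x + B r x • w - (ε * B w x + c * B r x) • r

/-- The symplectic and special unitary groups in one setting. -/
structure Geo (ε : F) (B : V →ₛₗ[σ] V →ₗ[F] F) (G : Subgroup (V ≃ₗ[F] V)) : Prop where
  invol : ∀ a, σ (σ a) = a
  eps : ε = 1 ∨ ε = -1
  symm : ∀ x y, B y x = ε * σ (B x y)
  nondeg : ∀ x, (∀ y, B x y = 0) → x = 0
  isom : ∀ g ∈ G, ∀ x y, B (g x) (g y) = B x y
  eich : ∀ r w c, B r r = 0 → B r w = 0 → ε * c + σ c = B w w → ∃ g ∈ G, Ei ε B r w c g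
  trace : ∀ u, ∃ c, ε * c + σ c = B u u
  norm : ∀ u, B u u ≠ 0 → ∀ c, ∃ a : F, B (a • u) (a • u) = ε * c + σ c
  tv0 : ∃ c, c ≠ 0 ∧ ε * c + σ c = 0
  irr : ∀ (A : AddSubgroup F) c, c ≠ 0 → ε * c + σ c = 0 → (∀ a, a ≠ 0 → a * σ a * c ∈ A) →
    ∀ d, ε * d + σ d = 0 → d ∈ A
  det1 : ∀ g ∈ G, ∀ u, B u u ≠ 0 → (∀ x, B u x = 0 → g x = x) → g u = u
  det2 : ∀ g ∈ G, ∀ e f (μ : F), B e e = 0 → B f f = 0 → B e f = 1 → g e = μ • e → g f = (σ μ)⁻¹ • f →
    (∀ x, B e x = 0 → B f x = 0 → g x = x) → σ μ = μ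

variable {ε : F} {B : V →ₛₗ[σ] V →ₗ[F] F} {G : Subgroup (V ≃ₗ[F] V)}

theorem B_smul_left (a : F) (x y : V) : B (a • x) y = σ a * B x y := by simp
theorem B_add_left (x x' y : V) : B (x + x') y = B x y + B x' y := by simp
theorem B_sub_left (x x' y : V) : B (x - x') y = B x y - B x' y := by simp

/-- The vectors orthogonal to `X`. -/
def perp (B : V →ₛₗ[σ] V →ₗ[F] F) (X : Set V) : Submodule F V where
  carrier := {y | ∀ x ∈ X, B x y = 0}
  zero_mem' := fun _ _ => map_zero _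
  add_mem' := fun ha hb x hx => by rw [map_add, ha x hx, hb x hx, add_zero]
  smul_mem' := fun a y hy x hx => by rw [map_smul, hy x hx, smul_zero]

theorem mem_perp {X : Set V} {y : V} : y ∈ perp B X ↔ ∀ x ∈ X, B x y = 0 := Iff.rfl

theorem mem_perp_insert {X : Set V} {r y : V} : y ∈ perp B (insert r X) ↔ B r y = 0 ∧ y ∈ perp B X := by
  simp [mem_perp]

/-- The form is nondegenerate on `X^⊥`. -/
def ND (B : V →ₛₗ[σ] V →ₗ[F] F) (X : Set V) : Prop := ∀ y ∈ perp B X, y ≠ 0 → ∃ z ∈ perp B X, B y z ≠ 0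

/-- The pointwise stabilizer. -/
def Fix (G : Subgroup (V ≃ₗ[F] V)) (X : Set V) : Subgroup (V ≃ₗ[F] V) where
  carrier := {g | g ∈ G ∧ ∀ x ∈ X, g x = x}
  one_mem' := ⟨G.one_mem, fun _ _ => rfl⟩
  mul_mem' := fun ha hb => ⟨G.mul_mem ha.1 hb.1, fun x hx => by rw [LinearEquiv.mul_apply, hb.2 x hx, ha.2 x hx]⟩
  inv_mem' := fun {g} ha => ⟨G.inv_mem ha.1, fun x hx => by
    conv_lhs => rw [← ha.2 x hx]
    exact g.symm_apply_apply x⟩

theorem mem_Fix {X : Set V} {g : V ≃ₗ[F] V} : g ∈ Fix G X ↔ g ∈ G ∧ ∀ x ∈ X, g x = x := Iff.rfl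

theorem Fix_le (X : Set V) : Fix G X ≤ G := fun _ h => h.1

theorem mem_Fix_insert {X : Set V} {r : V} {g : V ≃ₗ[F] V} : g ∈ Fix G (insert r X) ↔ g r = r ∧ g ∈ Fix G X := by
  simp only [mem_Fix, Set.forall_mem_insert]; tauto

theorem Fix_empty : Fix G ∅ = G := le_antisymm (Fix_le _) fun _ h => ⟨h, fun _ h => h.elim⟩

theorem app_inv (g : V ≃ₗ[F] V) (x : V) : g (g⁻¹ x) = x := g.apply_symm_apply x
theorem inv_app (g : V ≃ₗ[F] V) (x : V) : g⁻¹ (g x) = x := g.symm_apply_apply x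

theorem inv_app_eq {g : V ≃ₗ[F] V} {x y : V} (h : g x = y) : g⁻¹ y = x := h ▸ inv_app g x

/-- The Eichler maps of `G` with data in `X^⊥`. -/
def EiSet (ε : F) (B : V →ₛₗ[σ] V →ₗ[F] F) (G : Subgroup (V ≃ₗ[F] V)) (X : Set V) : Set (V ≃ₗ[F] V) :=
  {g | g ∈ G ∧ ∃ r ∈ perp B X, ∃ w ∈ perp B X, ∃ c, B r r = 0 ∧ B r w = 0 ∧ ε * c + σ c = B w w ∧ Ei ε B r w c g}

theorem EiSet_mono {X Y : Set V} (h : X ⊆ Y) : EiSet ε B G Y ⊆ EiSet ε B G X := by
  rintro g ⟨hg, r, hr, w, hw, h'⟩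
  exact ⟨hg, r, fun x hx => hr x (h hx), w, fun x hx => hw x (h hx), h'⟩

theorem Ei.unique {r w : V} {c : F} {g g' : V ≃ₗ[F] V} (h : Ei ε B r w c g) (h' : Ei ε B r w c g') : g = g' :=
  LinearEquiv.ext fun x => (h x).trans (h' x).symm

theorem Ei.fix {r w : V} {c : F} {g : V ≃ₗ[F] V} (h : Ei ε B r w c g) {x : V} (h1 : B r x = 0) (h2 : B w x = 0) :
    g x = x := by rw [h, h1, h2]; simp

theorem Ei.mul {r w w' : V} {c c' : F} {g g' : V ≃ₗ[F] V} (h : Ei ε B r w c g) (h' : Ei ε B r w' c' g')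
    (hr : B r r = 0) (hw : B w r = 0) (hw' : B r w' = 0) : Ei ε B r (w + w') (c + c' + ε * B w w') (g * g') := by
  intro x
  rw [LinearEquiv.mul_apply, h, h']
  simp only [map_add, map_sub, map_smul, hr, hw, hw', smul_eq_mul, LinearMap.add_apply]
  module

theorem ei_one (r : V) : Ei ε B r 0 0 1 := fun x => by simp

theorem Ei.conj {r w : V} {c : F} {g k : V ≃ₗ[F] V} (h : Ei ε B r w c g) (hk : ∀ x y, B (k x) (k y) = B x y) :
    Ei ε B (k r) (k w) c (k * g * k⁻¹) := by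
  intro x
  have e : ∀ y, B (k y) x = B y (k⁻¹ x) := fun y => by rw [← hk y, app_inv]
  rw [LinearEquiv.mul_apply, LinearEquiv.mul_apply, h, e, e]
  simp only [map_add, map_sub, map_smul, app_inv]

/-- The unipotent radical of the stabilizer of a totally isotropic subspace. -/
def QE (h : Geo ε B G) (E : Submodule F V) : Subgroup (V ≃ₗ[F] V) where
  carrier := {g | g ∈ Fix G E ∧ ∀ x ∈ perp B E, g x - x ∈ E}
  one_mem' := ⟨one_mem _, fun x _ => by simp⟩
  mul_mem' := by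
    intro g k hg hk
    refine ⟨mul_mem hg.1 hk.1, fun x hx => ?_⟩
    have := E.add_mem (hg.2 (k x) fun e he => by rw [← hk.1.2 e he, h.isom k hk.1.1, hx e he]) (hk.2 x hx)
    rwa [sub_add_sub_cancel] at this
  inv_mem' := by
    intro g hg
    refine ⟨inv_mem hg.1, fun x hx => ?_⟩
    have := E.neg_mem (hg.2 (g⁻¹ x) fun e he => by rw [← h.isom g hg.1.1, hg.1.2 e he, app_inv, hx e he])
    rwa [app_inv, neg_sub] at this

theorem pow_eq_one_of_cube (p : ℕ) [Fact p.Prime] [CharP F p] {g : V ≃ₗ[F] V}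
    (hg : ∀ x y z, y = g x - x → z = g y - y → g z = z) : g ^ p ^ 2 = 1 := by
  rcases subsingleton_or_nontrivial V with hV | hV
  · exact LinearEquiv.ext fun x => Subsingleton.elim _ _
  have : CharP (Module.End F V) p := charP_of_injective_algebraMap (algebraMap F (Module.End F V)).injective p
  have h3 : ((g : Module.End F V) - 1) ^ 3 = 0 := LinearMap.ext fun x => by
    have := hg x _ _ rfl rfl
    simp only [pow_succ, pow_zero, one_mul, Module.End.mul_apply, LinearMap.sub_apply, LinearEquiv.coe_coe,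
      Module.End.one_apply, LinearMap.zero_apply]
    rw [this, sub_self]
  have h4 : 3 ≤ p ^ 2 := by have := (Fact.out : p.Prime).two_le; nlinarith
  have h5 := sub_pow_char_pow_of_commute p 2 (Commute.one_right (g : Module.End F V))
  rw [pow_eq_zero_of_le h4 h3, one_pow, eq_comm, sub_eq_zero] at h5
  refine LinearEquiv.toLinearMap_injective ?_
  rw [← LinearEquiv.automorphismGroup.toLinearMapMonoidHom_apply, map_pow]
  exact h5

namespace Geo

variable (h : Geo ε B G)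
include h

theorem eps_sq : ε * ε = 1 := by rcases h.eps with rfl | rfl <;> simp
theorem sigma_eps : σ ε = ε := by rcases h.eps with rfl | rfl <;> simp
theorem eps_ne : ε ≠ 0 := by rcases h.eps with rfl | rfl <;> simp
theorem flip {x y : V} (e : B x y = 0) : B y x = 0 := by rw [h.symm, e, map_zero, mul_zero]
theorem flip_ne {x y : V} (e : B x y ≠ 0) : B y x ≠ 0 := fun e' => e (h.flip e')
theorem flip_one {x y : V} (e : B x y = 1) : B y x = ε := by rw [h.symm, e, map_one, mul_one]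

theorem add_smul_self (x y : V) (s : F) :
    B (x + s • y) (x + s • y) = B x x + (s * B x y + ε * σ (s * B x y)) + σ s * s * B y y := by
  rw [B_add_left, B_smul_left, map_add, map_add, map_smul, map_smul, h.symm x y, map_mul, smul_eq_mul, smul_eq_mul]
  ring

theorem exists_ne {x : V} (hx : x ≠ 0) : ∃ y, B x y ≠ 0 := by
  by_contra hh
  push Not at hh
  exact hx (h.nondeg x hh)

theorem nd_empty : ND B ∅ := fun _ _ hy => let ⟨z, hz⟩ := h.exists_ne hy; ⟨z, fun _ h => h.elim, hz⟩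

theorem ei_smul {r w : V} {a c : F} {g : V ≃ₗ[F] V} :
    Ei ε B (a • r) w c g ↔ Ei ε B r (σ a • w) (a * σ a * c) g := by
  refine forall_congr' fun x => ?_
  rw [B_smul_left, B_smul_left, h.invol]
  refine Eq.congr_right ?_
  module

omit h in
theorem ei_add_smul {r w : V} {a c : F} {g : V ≃ₗ[F] V} :
    Ei ε B r (w + a • r) c g ↔ Ei ε B r w (c + ε * σ a - a) g := by
  refine forall_congr' fun x => ?_
  rw [B_add_left, B_smul_left]
  refine Eq.congr_right ?_
  module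

theorem app_mem_perp {X : Set V} {g : V ≃ₗ[F] V} (hg : g ∈ Fix G X) {y : V} (hy : y ∈ perp B X) : g y ∈ perp B X :=
  fun x hx => by rw [← hg.2 x hx, h.isom g hg.1, hy x hx]

theorem sub_mem_perp {X : Set V} {g : V ≃ₗ[F] V} (hg : g ∈ Fix G X) (y : V) : g y - y ∈ perp B X :=
  fun x hx => by
    rw [map_sub]
    conv_lhs => enter [1]; rw [← hg.2 x hx, h.isom g hg.1]
    exact sub_self _

theorem EiSet_subset (X : Set V) : EiSet ε B G X ⊆ Fix G X := by
  rintro g ⟨hg, r, hr, w, hw, c, -, -, -, he⟩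
  exact ⟨hg, fun x hx => he.fix (h.flip (hr x hx)) (h.flip (hw x hx))⟩

theorem closure_le_Fix (X : Set V) : Subgroup.closure (EiSet ε B G X) ≤ Fix G X :=
  (Subgroup.closure_le _).2 (h.EiSet_subset X)

theorem isPGroup_QE (p : ℕ) [Fact p.Prime] [CharP F p] (E : Submodule F V) : IsPGroup p (QE h E) := fun g =>
  ⟨2, Subtype.ext (pow_eq_one_of_cube p fun x y z hy hz => g.2.1.2 z
    (hz ▸ g.2.2 y (hy ▸ h.sub_mem_perp g.2.1 x)))⟩

theorem QE_le (E : Submodule F V) : QE h E ≤ G := fun _ hg => hg.1.1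

theorem mem_QE_of_ei {E : Submodule F V} (hE : ∀ e ∈ E, e ∈ perp B E) {r w : V} {c : F} {g : V ≃ₗ[F] V} (hg : g ∈ G)
    (he : Ei ε B r w c g) (hr : r ∈ E) (hw : w ∈ perp B E) : g ∈ QE h E :=
  ⟨⟨hg, fun e hx => he.fix (hE e hx r hr) (h.flip (hw e hx))⟩, fun x hx => by
    rw [he, hx r hr, zero_smul, add_zero, sub_sub_cancel_left]
    exact E.neg_mem (E.smul_mem _ hr)⟩

omit h in
theorem mem_perp_span {s : Set V} {y : V} : y ∈ perp B (Submodule.span F s : Submodule F V) ↔ y ∈ perp B s := by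
  refine ⟨fun hy x hx => hy x (Submodule.subset_span hx), fun hy x hx => ?_⟩
  induction hx using Submodule.span_induction with
  | mem x hx => exact hy x hx
  | zero => simp
  | add a b _ _ ha hb => rw [B_add_left, ha, hb, add_zero]
  | smul a x _ hx => rw [B_smul_left, hx, mul_zero]

omit h in
theorem mem_perp_span_singleton {r y : V} : y ∈ perp B (F ∙ r : Submodule F V) ↔ B r y = 0 := by
  rw [mem_perp_span]; simp [mem_perp]

omit h in
theorem span_singleton_ti {r : V} (hr : B r r = 0) : ∀ e ∈ (F ∙ r : Submodule F V), e ∈ perp B (F ∙ r : Submodule F V) := by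
  intro e he
  obtain ⟨a, rfl⟩ := Submodule.mem_span_singleton.1 he
  rw [mem_perp_span_singleton, map_smul, hr, smul_zero]

theorem pow_eq_one_of_mem_EiSet (p : ℕ) [Fact p.Prime] [CharP F p] {X : Set V} {g : V ≃ₗ[F] V}
    (hg : g ∈ EiSet ε B G X) : ∃ k, g ^ p ^ k = 1 := by
  obtain ⟨hg, r, -, w, -, c, hr, hw, -, he⟩ := hg
  obtain ⟨k, hk⟩ := h.isPGroup_QE p (F ∙ r) ⟨g, h.mem_QE_of_ei (span_singleton_ti hr) hg he
    (Submodule.mem_span_singleton_self r) (mem_perp_span_singleton.2 hw)⟩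
  exact ⟨k, congrArg Subtype.val hk⟩

theorem mem_normalizer_QE [FiniteDimensional F V] {E : Submodule F V} {k : V ≃ₗ[F] V} (hk : k ∈ G)
    (hE : ∀ e ∈ E, k e ∈ E) : k ∈ Subgroup.normalizer (QE h E : Set (V ≃ₗ[F] V)) := by
  have h1 : k ∈ CL.Uni.stabSet F (E : Set V) := CL.Uni.mem_stabSet_of_forall hE
  have key : ∀ k ∈ G, k ∈ CL.Uni.stabSet F (E : Set V) → ∀ g ∈ QE h E, k * g * k⁻¹ ∈ QE h E := by
    intro k hk h1 g hg
    have h2 : ∀ e ∈ E, k e ∈ E := fun e he => (CL.Uni.mem_stabSet.1 h1 e).1 he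
    have h3 : ∀ e ∈ E, k⁻¹ e ∈ E := fun e he => (CL.Uni.mem_stabSet.1 (inv_mem h1) e).1 he
    refine ⟨⟨mul_mem (mul_mem hk hg.1.1) (inv_mem hk), fun e he => ?_⟩, fun x hx => ?_⟩
    · rw [LinearEquiv.mul_apply, LinearEquiv.mul_apply, hg.1.2 _ (h3 e he), app_inv]
    · have := h2 _ (hg.2 (k⁻¹ x) fun e he => by rw [← h.isom k hk, app_inv, hx _ (h2 e he)])
      rwa [map_sub, app_inv] at this
  refine Subgroup.mem_normalizer_iff.2 fun g => ⟨key k hk h1 g, fun hg => ?_⟩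
  simpa [mul_assoc] using key k⁻¹ (inv_mem hk) (inv_mem h1) _ hg

omit h in
theorem eq_one_of_app_eq_smul (p : ℕ) [Fact p.Prime] [CharP F p] {g : V ≃ₗ[F] V} {k : ℕ} (hk : g ^ p ^ k = 1)
    {e : V} (he : e ≠ 0) {a : F} (ha : g e = a • e) : a = 1 := by
  have key : ∀ m : ℕ, (g ^ m) e = a ^ m • e := fun m => by
    induction m with
    | zero => simp
    | succ m ih => rw [pow_succ', LinearEquiv.mul_apply, ih, map_smul, ha, smul_smul, pow_succ]
  have := key (p ^ k)
  rw [hk] at this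
  refine eq_one_of_pow_char_pow p (k := k) (smul_left_injective F he ?_)
  simpa using this.symm

theorem pCen_QE (p : ℕ) [Fact p.Prime] [CharP F p] {E : Submodule F V} (hE : ∀ e ∈ E, e ∈ perp B E) {e₀ : V}
    (he₀ : e₀ ∈ E) (h0 : e₀ ≠ 0) : PCen p G (QE h E) := by
  rintro c hc ⟨k, hk⟩ hcomm
  obtain ⟨c0, hc0, hc0'⟩ := h.tv0
  have h1 : ∀ e ∈ E, c e = e := by
    intro e he
    by_cases he0 : e = 0
    · rw [he0, map_zero]
    obtain ⟨t, ht, ht'⟩ := h.eich e 0 c0 (hE e he e he) (map_zero _) (by simpa using hc0')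
    have h2 := ht'.conj (h.isom c hc)
    rw [hcomm t (h.mem_QE_of_ei hE ht ht' he (zero_mem _)), mul_inv_cancel_right, map_zero] at h2
    obtain ⟨x, hx⟩ := h.exists_ne ((map_ne_zero_iff c c.injective).2 he0)
    have h3 := (h2 x).symm.trans (ht' x)
    simp only [smul_zero, add_zero, map_zero, LinearMap.zero_apply, mul_zero, zero_add, sub_right_inj] at h3
    have h4 : c e = ((c0 * B (c e) x)⁻¹ * (c0 * B e x)) • e := by
      rw [← smul_smul, ← h3, smul_smul, inv_mul_cancel₀ (mul_ne_zero hc0 hx), one_smul]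
    rw [h4, eq_one_of_app_eq_smul p hk he0 h4, one_smul]
  refine ⟨⟨hc, h1⟩, fun a ha => ?_⟩
  obtain ⟨d, hd⟩ := h.trace a
  obtain ⟨u, hu, hu'⟩ := h.eich e₀ a d (hE _ he₀ _ he₀) (ha _ he₀) hd
  have h2 := hu'.conj (h.isom c hc)
  rw [hcomm u (h.mem_QE_of_ei hE hu hu' he₀ ha), mul_inv_cancel_right, h1 _ he₀] at h2
  obtain ⟨x, hx⟩ := h.exists_ne h0
  have h3 := (h2 x).symm.trans (hu' x)
  have h4 : B e₀ x • (c a - a) = (ε * B (c a) x - ε * B a x) • e₀ := by
    linear_combination (norm := module) h3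
  rw [← E.smul_mem_iff hx, h4]
  exact E.smul_mem _ he₀

theorem move {X : Set V} {r f f' : V} (hr : r ∈ perp B X) (hf : f ∈ perp B X) (hf' : f' ∈ perp B X) (hrr : B r r = 0)
    (hff : B f f = 0) (hff' : B f' f' = 0) (e : B r f = B r f') (h0 : B r f ≠ 0) :
    ∃ u ∈ EiSet ε B G X, u ∈ QE h (F ∙ r) ∧ u f = f' := by
  have hw : B r ((B r f)⁻¹ • (f' - f)) = 0 := by rw [map_smul, map_sub, e, sub_self, smul_zero]
  have hc : ε * (-(ε * (B r f)⁻¹ * σ (B r f)⁻¹ * B f' f)) + σ (-(ε * (B r f)⁻¹ * σ (B r f)⁻¹ * B f' f)) =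
      B ((B r f)⁻¹ • (f' - f)) ((B r f)⁻¹ • (f' - f)) := by
    rw [B_smul_left, map_smul, B_sub_left, map_sub, map_sub, hff, hff', h.symm f' f, map_neg, map_mul, map_mul, map_mul,
      h.invol, h.sigma_eps, smul_eq_mul]
    linear_combination (-((B r f)⁻¹ * σ (B r f)⁻¹ * B f' f)) * h.eps_sq
  obtain ⟨u, hu, hu'⟩ := h.eich r _ _ hrr hw hc
  have hwX := (perp B X).smul_mem (B r f)⁻¹ ((perp B X).sub_mem hf' hf)
  refine ⟨u, ⟨hu, r, hr, _, hwX, _, hrr, hw, hc, hu'⟩, h.mem_QE_of_ei (span_singleton_ti hrr) hu hu'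
    (Submodule.mem_span_singleton_self r) (mem_perp_span_singleton.2 hw), ?_⟩
  rw [hu', smul_smul, mul_inv_cancel₀ h0, one_smul, B_smul_left, B_sub_left, hff, sub_zero]
  have : ε * (σ (B r f)⁻¹ * B f' f) + -(ε * (B r f)⁻¹ * σ (B r f)⁻¹ * B f' f) * B r f = 0 := by field_simp; ring
  rw [this, zero_smul, sub_zero, add_sub_cancel]

theorem exists_iso_add {r u : V} (hr : B r r = 0) (hu : B r u ≠ 0) : ∃ s : F, B (u + s • r) (u + s • r) = 0 := by
  obtain ⟨d, hd⟩ := h.trace u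
  refine ⟨-(ε * d) / B u r, ?_⟩
  rw [h.add_smul_self, div_mul_cancel₀ _ (h.flip_ne hu), hr, ← hd, map_neg, map_mul, h.sigma_eps]
  linear_combination (-σ d) * h.eps_sq

theorem exists_partner {X : Set V} {r u : V} (hr : r ∈ perp B X) (hu : u ∈ perp B X) (hrr : B r r = 0)
    (hru : B r u ≠ 0) : ∃ f ∈ perp B X, B f f = 0 ∧ B r f = 1 := by
  obtain ⟨s, hs⟩ := h.exists_iso_add hrr hru
  refine ⟨(B r u)⁻¹ • (u + s • r), Submodule.smul_mem _ _ (add_mem hu (Submodule.smul_mem _ _ hr)), ?_, ?_⟩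
  · rw [B_smul_left, map_smul, hs, smul_zero, mul_zero]
  · rw [map_smul, map_add, map_smul, hrr, smul_zero, add_zero, smul_eq_mul, inv_mul_cancel₀ hru]

theorem transitive {X : Set V} {x y u u' : V} (hx : x ∈ perp B X) (hy : y ∈ perp B X) (hu : u ∈ perp B X)
    (hu' : u' ∈ perp B X) (hxx : B x x = 0) (hyy : B y y = 0) (hxu : B x u ≠ 0) (hyu : B y u' ≠ 0) :
    ∃ k ∈ EiSet ε B G X, ∃ μ : F, μ ≠ 0 ∧ k x = μ • y := by
  obtain ⟨r, hr, hrr, h1, h2⟩ : ∃ r ∈ perp B X, B r r = 0 ∧ B r x ≠ 0 ∧ B r y ≠ 0 := by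
    by_cases hxy : B x y = 0
    · obtain ⟨w, hw, h1, h2⟩ : ∃ w ∈ perp B X, B x w ≠ 0 ∧ B y w ≠ 0 := by
        by_cases h1 : B y u = 0
        · by_cases h2 : B x u' = 0
          · exact ⟨u + u', add_mem hu hu', by rwa [map_add, h2, add_zero], by rwa [map_add, h1, zero_add]⟩
          · exact ⟨u', hu', h2, hyu⟩
        · exact ⟨u, hu, hxu, h1⟩
      obtain ⟨s, hs⟩ := h.exists_iso_add hxx h1
      refine ⟨w + s • x, add_mem hw (Submodule.smul_mem _ _ hx), hs, h.flip_ne ?_, h.flip_ne ?_⟩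
      · rwa [map_add, map_smul, hxx, smul_zero, add_zero]
      · rwa [map_add, map_smul, h.flip hxy, smul_zero, add_zero]
    · obtain ⟨c0, hc0, hc0'⟩ := h.tv0
      refine ⟨x + (c0 / B x y) • y, add_mem hx (Submodule.smul_mem _ _ hy), ?_, ?_, ?_⟩
      · rw [h.add_smul_self, div_mul_cancel₀ _ hxy, hxx, hyy]
        linear_combination ε * hc0' - c0 * h.eps_sq
      · rw [B_add_left, B_smul_left, hxx, zero_add]
        exact mul_ne_zero ((map_ne_zero σ).2 (div_ne_zero hc0 hxy)) (h.flip_ne hxy)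
      · rwa [B_add_left, B_smul_left, hyy, mul_zero, add_zero]
  obtain ⟨k, hk, -, e⟩ := h.move hr hx ((perp B X).smul_mem (B r x / B r y) hy) hrr hxx
    (by rw [B_smul_left, map_smul, hyy, smul_zero, mul_zero]) (by rw [map_smul, smul_eq_mul, div_mul_cancel₀ _ h2]) h1
  exact ⟨k, hk, _, div_ne_zero h1 h2, e⟩

theorem exists_swap {X : Set V} {r f a : V} (hr : r ∈ perp B X) (hf : f ∈ perp B X) (ha : a ∈ perp B X)
    (hrr : B r r = 0) (hff : B f f = 0) (hrf : B r f = 1) (hra : B r a = 0) (hfa : B f a = 0) {c : F} (hc : c ≠ 0)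
    (hc' : ε * c + σ c = B a a) : ∃ k ∈ Subgroup.closure (EiSet ε B G X), k r = (-(ε * c)) • f := by
  obtain ⟨t, ht, ht'⟩ := h.eich f a c hff hfa hc'
  have htX : t ∈ EiSet ε B G X := ⟨ht, f, hf, a, ha, c, hff, hfa, hc', ht'⟩
  have e : B r (t r) = -(ε * c) := by
    rw [ht', map_sub, map_add, map_smul, map_smul, hrr, hra, hrf, h.flip hra, h.flip_one hrf]
    simp [mul_comm]
  obtain ⟨u, hu, -, hu'⟩ := h.move hr (h.app_mem_perp (h.EiSet_subset X htX) hr) ((perp B X).smul_mem (-(ε * c)) hf)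
    hrr (by rw [h.isom t ht, hrr]) (by rw [B_smul_left, map_smul, hff, smul_zero, mul_zero])
    (by rw [e, map_smul, hrf, smul_eq_mul, mul_one]) (by rw [e]; exact neg_ne_zero.2 (mul_ne_zero h.eps_ne hc))
  exact ⟨u * t, mul_mem (Subgroup.subset_closure hu) (Subgroup.subset_closure htX), hu'⟩

theorem exists_scale {X : Set V} {r f a : V} (hr : r ∈ perp B X) (hf : f ∈ perp B X) (ha : a ∈ perp B X)
    (hrr : B r r = 0) (hff : B f f = 0) (hrf : B r f = 1) (hra : B r a = 0) (hfa : B f a = 0) {c μ : F} (hc : c ≠ 0)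
    (hc' : ε * c + σ c = 0) (hμ : μ ≠ 0) (hμ' : ε * (c * μ) + σ (c * μ) = B a a) :
    ∃ k ∈ Subgroup.closure (EiSet ε B G X), k r = μ • r := by
  obtain ⟨k₁, h₁, e₁⟩ := h.exists_swap hr hf ha hrr hff hrf hra hfa (mul_ne_zero hc hμ) hμ'
  obtain ⟨k₂, h₂, e₂⟩ := h.exists_swap hr hf (zero_mem _) hrr hff hrf (map_zero _) (map_zero _) hc (by simpa using hc')
  refine ⟨k₂⁻¹ * k₁, mul_mem (inv_mem h₂) h₁, ?_⟩
  rw [LinearEquiv.mul_apply, e₁]
  refine inv_app_eq ?_
  rw [map_smul, e₂, smul_smul]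
  congr 1; ring

theorem nd_insert {X : Set V} (hX : ND B X) {r f : V} (hr : r ∈ perp B X) (hf : f ∈ perp B X) (hrr : B r r = 0)
    (hff : B f f = 0) (hrf : B r f = 1) : ND B (insert r (insert f X)) := by
  intro y hy hy0
  rw [mem_perp_insert, mem_perp_insert] at hy
  obtain ⟨z, hz, hyz⟩ := hX y hy.2.2 hy0
  refine ⟨z - B r z • f - (ε * B f z) • r, mem_perp_insert.2 ⟨?_, mem_perp_insert.2 ⟨?_, ?_⟩⟩, ?_⟩
  · simp [hrr, hrf]
  · simp only [map_sub, map_smul, hff, h.flip_one hrf, smul_eq_mul]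
    linear_combination (-B f z) * h.eps_sq
  · exact sub_mem (sub_mem hz (Submodule.smul_mem _ _ hf)) (Submodule.smul_mem _ _ hr)
  · simpa [h.flip hy.1, h.flip hy.2.1] using hyz

theorem finrank_insert_lt [FiniteDimensional F V] {X : Set V} {r f : V} (hr : r ∈ perp B X) (hrf : B r f = 1) :
    finrank F (perp B (insert r (insert f X))) < finrank F (perp B X) := by
  refine Submodule.finrank_lt_finrank_of_lt (lt_of_le_of_ne (fun y hy => ?_) fun e => ?_)
  · exact (mem_perp_insert.1 (mem_perp_insert.1 hy).2).2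
  · have := (mem_perp_insert.1 (mem_perp_insert.1 (e ▸ hr)).2).1
    exact h.eps_ne (h.flip_one hrf ▸ this)

theorem exists_iso_of_orth {X : Set V} {u y : V} (hu : u ∈ perp B X) (hy : y ∈ perp B X) (hu0 : u ≠ 0) (hy0 : y ≠ 0)
    (huy : B u y = 0) : ∃ r ∈ perp B X, r ≠ 0 ∧ B r r = 0 := by
  by_cases h1 : B u u = 0
  · exact ⟨u, hu, hu0, h1⟩
  obtain ⟨d, hd⟩ := h.trace y
  obtain ⟨a, ha⟩ := h.norm u h1 (-d)
  refine ⟨y + a • u, add_mem hy (Submodule.smul_mem _ _ hu), fun e => hy0 ?_, ?_⟩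
  · have := congrArg (B u) e
    rw [map_add, map_smul, huy, zero_add, map_zero, smul_eq_mul, mul_eq_zero] at this
    rwa [this.resolve_right h1, zero_smul, add_zero] at e
  · rw [B_add_left, map_add, map_add, ha, map_smul, B_smul_left, huy, h.flip huy, ← hd, map_neg,
      smul_zero]
    ring

/-- The pointwise stabilizer of `X` is generated by Eichler maps when `X^⊥` is nondegenerate. -/
theorem Fix_le_closure [FiniteDimensional F V] {X : Set V} (hX : ND B X) :
    Fix G X ≤ Subgroup.closure (EiSet ε B G X) := by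
  induction hn : finrank F (perp B X) using Nat.strong_induction_on generalizing X with
  | _ n ih =>
  intro g hg
  by_cases hiso : ∃ r ∈ perp B X, r ≠ 0 ∧ B r r = 0
  · obtain ⟨r, hr, hr0, hrr⟩ := hiso
    obtain ⟨z, hz, hrz⟩ := hX r hr hr0
    obtain ⟨f, hf, hff, hrf⟩ := h.exists_partner hr hz hrr hrz
    have hX' := h.nd_insert hX hr hf hrr hff hrf
    obtain ⟨k, hk, μ, hμ, e⟩ := h.transitive (h.app_mem_perp hg hr) hr (h.app_mem_perp hg hz) hz
      (by rw [h.isom g hg.1, hrr]) hrr (by rwa [h.isom g hg.1]) hrz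
    have hσμ : σ μ ≠ 0 := (map_ne_zero σ).2 hμ
    have hkg : k * g ∈ Fix G X := mul_mem (h.EiSet_subset X hk) hg
    have e1 : (k * g) r = μ • r := e
    obtain ⟨c0, hc0, hc0'⟩ := h.tv0
    obtain ⟨a, ha, ha'⟩ : ∃ a ∈ perp B (insert r (insert f X)), ε * (c0 * μ) + σ (c0 * μ) = B a a := by
      have easy : σ μ = μ → ∃ a ∈ perp B (insert r (insert f X)), ε * (c0 * μ) + σ (c0 * μ) = B a a := fun hs =>
        ⟨0, zero_mem _, by rw [map_mul, hs, map_zero]; linear_combination μ * hc0'⟩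
      by_cases hb : perp B (insert r (insert f X)) = ⊥
      · have e2 : B r ((k * g) f) = (σ μ)⁻¹ := by
          have := h.isom _ hkg.1 r f
          rw [e1, B_smul_left, hrf] at this
          exact eq_inv_of_mul_eq_one_right this
        obtain ⟨u, hu, hu', e3⟩ := h.move hr (h.app_mem_perp hkg hf) ((perp B X).smul_mem (σ μ)⁻¹ hf) hrr
          (by rw [h.isom _ hkg.1, hff]) (by rw [B_smul_left, map_smul, hff, smul_zero, mul_zero])
          (by rw [e2, map_smul, hrf, smul_eq_mul, mul_one]) (by rw [e2]; exact inv_ne_zero hσμ)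
        have hg2 : u * (k * g) ∈ Fix G X := mul_mem (h.EiSet_subset X hu) hkg
        have e4 : (u * (k * g)) r = μ • r := by
          rw [LinearEquiv.mul_apply, e1, map_smul, hu'.1.2 r (Submodule.mem_span_singleton_self r)]
        have e5 : (u * (k * g)) f = (σ μ)⁻¹ • f := e3
        refine easy (h.det2 _ hg2.1 r f μ hrr hff hrf e4 e5 fun x hx hx' => ?_)
        rw [← sub_eq_zero, ← Submodule.mem_bot F, ← hb, mem_perp_insert, mem_perp_insert]
        refine ⟨?_, ?_, h.sub_mem_perp hg2 x⟩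
        · have := h.isom _ hg2.1 r x
          rw [e4, B_smul_left, hx] at this
          rw [map_sub, hx, (mul_eq_zero.1 this).resolve_left hσμ, sub_zero]
        · have := h.isom _ hg2.1 f x
          rw [e5, B_smul_left, hx'] at this
          rw [map_sub, hx', (mul_eq_zero.1 this).resolve_left ((map_ne_zero σ).2 (inv_ne_zero hσμ)), sub_zero]
      · by_cases han : ∃ a ∈ perp B (insert r (insert f X)), B a a ≠ 0
        · obtain ⟨a, ha, ha'⟩ := han
          obtain ⟨s, hs⟩ := h.norm a ha' (c0 * μ)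
          exact ⟨s • a, Submodule.smul_mem _ _ ha, hs.symm⟩
        · push Not at han
          obtain ⟨a, ha, ha0⟩ := (Submodule.ne_bot_iff _).1 hb
          obtain ⟨b, hb, hab⟩ := hX' a ha ha0
          have key : ∀ t : F, t + ε * σ t = 0 := fun t => by
            have := han _ (add_mem ha (Submodule.smul_mem _ (t / B a b) hb))
            rw [h.add_smul_self, div_mul_cancel₀ _ hab, han a ha, han b hb] at this
            linear_combination this
          have h1 := key 1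
          rw [map_one] at h1
          exact easy (by linear_combination σ μ * h1 - key μ)
    rw [mem_perp_insert, mem_perp_insert] at ha
    obtain ⟨k', hk', e2⟩ := h.exists_scale hr hf ha.2.2 hrr hff hrf ha.1 ha.2.1 hc0 hc0' hμ ha'
    have hg3 : k'⁻¹ * (k * g) ∈ Fix G X := mul_mem (inv_mem (h.closure_le_Fix X hk')) hkg
    have e3 : (k'⁻¹ * (k * g)) r = r := by rw [LinearEquiv.mul_apply, e1, inv_app_eq e2]
    have e4 : B r ((k'⁻¹ * (k * g)) f) = B r f := by
      have := h.isom _ hg3.1 r f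
      rwa [e3] at this
    obtain ⟨u, hu, hu', e5⟩ := h.move hr (h.app_mem_perp hg3 hf) hf hrr (by rw [h.isom _ hg3.1, hff]) hff e4
      (by rw [e4, hrf]; exact one_ne_zero)
    have hg4 : u * (k'⁻¹ * (k * g)) ∈ Fix G (insert r (insert f X)) :=
      mem_Fix_insert.2 ⟨by rw [LinearEquiv.mul_apply, e3, hu'.1.2 r (Submodule.mem_span_singleton_self r)],
        mem_Fix_insert.2 ⟨e5, mul_mem (h.EiSet_subset X hu) hg3⟩⟩
    have := Subgroup.closure_mono (EiSet_mono ((Set.subset_insert f X).trans (Set.subset_insert r _)))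
      (ih _ (hn ▸ h.finrank_insert_lt hr hrf) hX' rfl hg4)
    rwa [Subgroup.mul_mem_cancel_left _ (Subgroup.subset_closure hu), Subgroup.mul_mem_cancel_left _ (inv_mem hk'),
      Subgroup.mul_mem_cancel_left _ (Subgroup.subset_closure hk)] at this
  · suffices g = 1 from this ▸ one_mem _
    by_cases hb : perp B X = ⊥
    · exact LinearEquiv.ext fun x => sub_eq_zero.1 ((Submodule.mem_bot F).1 (hb ▸ h.sub_mem_perp hg x))
    obtain ⟨u, hu, hu0⟩ := (Submodule.ne_bot_iff _).1 hb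
    have huu : B u u ≠ 0 := fun e => hiso ⟨u, hu, hu0, e⟩
    have key : ∀ y ∈ perp B X, B u y = 0 → y = 0 := fun y hy huy =>
      by_contra fun hy0 => hiso (h.exists_iso_of_orth hu hy hu0 hy0 huy)
    have hdec : ∀ x, B u (x - (B u x / B u u) • u) = 0 := fun x => by
      rw [map_sub, map_smul, smul_eq_mul, div_mul_cancel₀ _ huu, sub_self]
    have h1 : ∀ x, B u x = 0 → g x = x := fun x hx => by
      refine sub_eq_zero.1 (key _ (h.sub_mem_perp hg x) ?_)
      have := sub_eq_zero.1 (key _ (sub_mem (h.app_mem_perp (inv_mem hg) hu) (Submodule.smul_mem _ _ hu)) (hdec _))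
      rw [map_sub, hx, sub_zero, ← h.isom g⁻¹ (inv_mem hg.1), inv_app, this, B_smul_left, hx, mul_zero]
    have h2 := h.det1 g hg.1 u huu h1
    refine LinearEquiv.ext fun x => ?_
    have := h1 _ (hdec x)
    rwa [map_sub, map_smul, h2, sub_left_inj] at this

end Geo

end CL.Fus.Form
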