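/-
Fusion systems over `p^{1+2}_+` (helper73): the model `Hs p`, the pairs `(W, E)`, and the statements of the steps.
-/
import Cfsg.Agent.Fus.Realized
import Cfsg.Agent.Fus.SubGrp

set_option autoImplicit false

namespace CL.RV

open Cfsg Cfsg.FusionSystem CL.Fus Matrix

/-- vectors -/
abbrev V2 (p : ℕ) : Type := Fin 2 → ZMod p
/-- matrices -/
abbrev G2 (p : ℕ) : Type := GL (Fin 2) (ZMod p)

variable {p : ℕ}

/-- the alternating form -/
def om (u v : V2 p) : ZMod p := u 0 * v 1 - u 1 * v 0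
/-- the action on vectors -/
def ap (g : G2 p) (v : V2 p) : V2 p := (g : Matrix (Fin 2) (Fin 2) (ZMod p)) *ᵥ v
/-- the determinant -/
def dt (g : G2 p) : ZMod p := (g : Matrix (Fin 2) (Fin 2) (ZMod p)).det

theorem ap_0 (g : G2 p) (v : V2 p) : ap g v 0 = g.1 0 0 * v 0 + g.1 0 1 * v 1 := by
  simp [ap, mulVec, dotProduct, Fin.sum_univ_two]
theorem ap_1 (g : G2 p) (v : V2 p) : ap g v 1 = g.1 1 0 * v 0 + g.1 1 1 * v 1 := by
  simp [ap, mulVec, dotProduct, Fin.sum_univ_two]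
theorem dt_eq (g : G2 p) : dt g = g.1 0 0 * g.1 1 1 - g.1 0 1 * g.1 1 0 := det_fin_two _
theorem v_ext {u v : V2 p} (h0 : u 0 = v 0) (h1 : u 1 = v 1) : u = v := funext fun i => by
  fin_cases i
  exacts [h0, h1]
theorem ap_one (v : V2 p) : ap 1 v = v := by simp [ap]
theorem ap_mul (g h : G2 p) (v : V2 p) : ap (g * h) v = ap g (ap h v) := by
  simp only [ap, Units.val_mul, mulVec_mulVec]
theorem ap_add (g : G2 p) (u v : V2 p) : ap g (u + v) = ap g u + ap g v := mulVec_add _ _ _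
theorem ap_smul (g : G2 p) (c : ZMod p) (v : V2 p) : ap g (c • v) = c • ap g v := mulVec_smul _ _ _
theorem ap_zero (g : G2 p) : ap g 0 = 0 := mulVec_zero _
theorem ap_neg (g : G2 p) (v : V2 p) : ap g (-v) = -ap g v := mulVec_neg _ _
theorem ap_inv_ap (g : G2 p) (v : V2 p) : ap g⁻¹ (ap g v) = v := by rw [← ap_mul, inv_mul_cancel, ap_one]
theorem ap_ap_inv (g : G2 p) (v : V2 p) : ap g (ap g⁻¹ v) = v := by rw [← ap_mul, mul_inv_cancel, ap_one]
theorem ap_inj (g : G2 p) {u v : V2 p} (h : ap g u = ap g v) : u = v := by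
  rw [← ap_inv_ap g u, h, ap_inv_ap]
theorem ap_ne_zero (g : G2 p) {v : V2 p} (h : v ≠ 0) : ap g v ≠ 0 := fun e => h (ap_inj g (e.trans (ap_zero g).symm))
theorem g_ext {g h : G2 p} (e : ∀ v, ap g v = ap h v) : g = h := by
  have a := e ![1, 0]
  have b := e ![0, 1]
  have a0 := congrFun a 0
  have a1 := congrFun a 1
  have b0 := congrFun b 0
  have b1 := congrFun b 1
  simp only [ap_0, ap_1, cons_val_zero, cons_val_one, mul_one, mul_zero, add_zero, zero_add] at a0 a1 b0 b1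
  refine Units.ext (Matrix.ext fun i j => ?_)
  fin_cases i <;> fin_cases j
  exacts [a0, b0, a1, b1]
theorem dt_one : dt (1 : G2 p) = 1 := by simp [dt]
theorem dt_mul (g h : G2 p) : dt (g * h) = dt g * dt h := by simp [dt]
theorem dt_inv_mul (g : G2 p) : dt g⁻¹ * dt g = 1 := by rw [← dt_mul, inv_mul_cancel, dt_one]
theorem om_ap (g : G2 p) (u v : V2 p) : om (ap g u) (ap g v) = dt g * om u v := by
  simp only [om, ap_0, ap_1, dt_eq]; ring
theorem om_self (u : V2 p) : om u u = 0 := by simp only [om]; ring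
theorem om_swap (u v : V2 p) : om u v = -om v u := by simp only [om]; ring
theorem om_addl (u v w : V2 p) : om (u + v) w = om u w + om v w := by simp only [om, Pi.add_apply]; ring
theorem om_addr (u v w : V2 p) : om u (v + w) = om u v + om u w := by simp only [om, Pi.add_apply]; ring
theorem om_smull (c : ZMod p) (u v : V2 p) : om (c • u) v = c * om u v := by
  simp only [om, Pi.smul_apply, smul_eq_mul]; ring
theorem om_smulr (c : ZMod p) (u v : V2 p) : om u (c • v) = c * om u v := by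
  simp only [om, Pi.smul_apply, smul_eq_mul]; ring
theorem om_negl (u v : V2 p) : om (-u) v = -om u v := by simp only [om, Pi.neg_apply]; ring
theorem om_negr (u v : V2 p) : om u (-v) = -om u v := by simp only [om, Pi.neg_apply]; ring
theorem om_zerol (v : V2 p) : om 0 v = 0 := by simp [om]
theorem om_zeror (v : V2 p) : om v 0 = 0 := by simp [om]

/-- The group `p^{1+2}_+` (for odd `p`). -/
@[ext] structure Hs (p : ℕ) where
  /-- the image in the central quotient -/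
  v : V2 p
  /-- the central coordinate -/
  c : ZMod p

instance : Group (Hs p) where
  mul x y := ⟨x.v + y.v, x.c + y.c + om x.v y.v⟩
  one := ⟨0, 0⟩
  inv x := ⟨-x.v, -x.c⟩
  mul_assoc x y z := Hs.ext (add_assoc _ _ _) (by
    show x.c + y.c + om x.v y.v + z.c + om (x.v + y.v) z.v = x.c + (y.c + z.c + om y.v z.v) + om x.v (y.v + z.v)
    rw [om_addl, om_addr]; ring)
  one_mul x := Hs.ext (zero_add _) (by show 0 + x.c + om 0 x.v = x.c; rw [om_zerol]; ring)
  mul_one x := Hs.ext (add_zero _) (by show x.c + 0 + om x.v 0 = x.c; rw [om_zeror]; ring)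
  inv_mul_cancel x := Hs.ext (neg_add_cancel _) (by
    show -x.c + x.c + om (-x.v) x.v = 0
    rw [om_negl, om_self]; ring)

namespace Hs

theorem mul_v (x y : Hs p) : (x * y).v = x.v + y.v := rfl
theorem mul_c (x y : Hs p) : (x * y).c = x.c + y.c + om x.v y.v := rfl
theorem one_v : (1 : Hs p).v = 0 := rfl
theorem one_c : (1 : Hs p).c = 0 := rfl
theorem inv_v (x : Hs p) : x⁻¹.v = -x.v := rfl
theorem inv_c (x : Hs p) : x⁻¹.c = -x.c := rfl

theorem pow_eq (x : Hs p) (n : ℕ) : x ^ n = ⟨(n : ZMod p) • x.v, n * x.c⟩ := by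
  induction n with
  | zero => exact Hs.ext (by simp [one_v]) (by simp [one_c])
  | succ n ih =>
    rw [pow_succ, ih]
    refine Hs.ext ?_ ?_
    · simp [mul_v, add_smul]
    · simp only [mul_c, om_smull, om_self]; push_cast; ring

theorem pow_p (x : Hs p) : x ^ p = 1 := by
  rw [pow_eq]; exact Hs.ext (by simp [one_v]) (by simp [one_c])

theorem conj_eq (s x : Hs p) : s * x * s⁻¹ = ⟨x.v, x.c + 2 * om s.v x.v⟩ := Hs.ext (by simp [mul_v, inv_v]) (by
  simp only [mul_c, mul_v, inv_v, inv_c, om_negr, om_addl, om_self, om_swap x.v s.v]; ring)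

/-- the underlying set -/
def eqv : Hs p ≃ V2 p × ZMod p := ⟨fun x => (x.v, x.c), fun y => ⟨y.1, y.2⟩, fun _ => rfl, fun _ => rfl⟩

end Hs

/-- the automorphism given by a matrix -/
def act (g : G2 p) (x : Hs p) : Hs p := ⟨ap g x.v, dt g * x.c⟩

theorem act_mul (g : G2 p) (x y : Hs p) : act g (x * y) = act g x * act g y := Hs.ext (ap_add _ _ _) (by
  simp only [act, Hs.mul_c, om_ap]; ring)
theorem act_one (x : Hs p) : act 1 x = x := Hs.ext (ap_one _) (by simp only [act, dt_one, one_mul])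
theorem mul_act (g h : G2 p) (x : Hs p) : act (g * h) x = act g (act h x) := Hs.ext (ap_mul _ _ _) (by
  simp only [act, dt_mul, mul_assoc])
theorem act_inv_act (g : G2 p) (x : Hs p) : act g⁻¹ (act g x) = x := by rw [← mul_act, inv_mul_cancel, act_one]
theorem act_act_inv (g : G2 p) (x : Hs p) : act g (act g⁻¹ x) = x := by rw [← mul_act, mul_inv_cancel, act_one]

/-- the same, as a homomorphism -/
def actH (g : G2 p) : Hs p →* Hs p := MonoidHom.mk' (act g) (act_mul g)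

/-- The properties of the pair (outer automiser, fused vectors). -/
structure Data (W : Subgroup (G2 p)) (E : Set (V2 p)) : Prop where
  nop : ∀ g ∈ W, g ^ p = 1 → g = 1
  ne : ∀ v ∈ E, v ≠ 0
  inv : ∀ g ∈ W, ∀ v ∈ E, ap g v ∈ E
  tor : ∀ v ∈ E, ∀ a b : ZMod p, a * b = 1 → ∃ g ∈ W, ap g v = a • v ∧ dt g = b

/-- `E` meets three lines. -/
def Three (E : Set (V2 p)) : Prop := ∃ u ∈ E, ∃ v ∈ E, ∃ w ∈ E, om u v ≠ 0 ∧ om u w ≠ 0 ∧ om v w ≠ 0

/-- the two axes -/
def Ax (p : ℕ) : Set (V2 p) := {v | v ≠ 0 ∧ v 0 * v 1 = 0}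

/-- `h` carries the first pair to the second. -/
def Cj (h : G2 p) (W : Subgroup (G2 p)) (E : Set (V2 p)) (W' : Subgroup (G2 p)) (E' : Set (V2 p)) : Prop :=
  (∀ g, g ∈ W ↔ h * g * h⁻¹ ∈ W') ∧ ∀ v, v ∈ E ↔ ap h v ∈ E'

section Grp
variable {G : Type*} [Group G]

/-- the matrices induced by the normaliser -/
def Wg (ι : Hs p →* G) : Subgroup (G2 p) where
  carrier := {g | ∃ n : G, ∀ x, ι (act g x) = n * ι x * n⁻¹}
  one_mem' := ⟨1, fun x => by rw [act_one]; group⟩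
  mul_mem' := by
    rintro g h ⟨n, hn⟩ ⟨m, hm⟩
    exact ⟨n * m, fun x => by rw [mul_act, hn, hm]; group⟩
  inv_mem' := by
    rintro g ⟨n, hn⟩
    refine ⟨n⁻¹, fun x => ?_⟩
    have := hn (act g⁻¹ x)
    rw [act_act_inv] at this
    rw [this]; group

/-- the vectors fused into the centre -/
def Eg (ι : Hs p →* G) : Set (V2 p) := {v | v ≠ 0 ∧ ∃ (n : G) (c : ZMod p), n * ι ⟨v, 0⟩ * n⁻¹ = ι ⟨0, c⟩}

/-- an embedding onto a Sylow subgroup -/
structure Emb (ι : Hs p →* G) : Prop where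
  inj : Function.Injective ι
  idx : ¬ p ∣ ι.range.index

end Grp

/-- The pair comes from a finite group. -/
def Real (W : Subgroup (G2 p)) (E : Set (V2 p)) : Prop :=
  ∃ (G : Type) (_ : Group G) (_ : Finite G) (ι : Hs p →* G), Emb ι ∧ Wg ι = W ∧ Eg ι = E

/-- Step TWO: two lines. -/
def TwoThm : Prop := ∀ (p : ℕ) [Fact p.Prime], p ≠ 2 → ∀ W : Subgroup (G2 p), Data W (Ax p) → Real W (Ax p)

/-- Step LA0: three lines bound the prime. -/
def LA0 : Prop := ∀ (p : ℕ) [Fact p.Prime], p ≠ 2 → ∀ (W : Subgroup (G2 p)) (E : Set (V2 p)), Data W E → Three E →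
  p = 3 ∨ p = 5 ∨ p = 7 ∨ p = 13

/-- Step LA1: uniqueness for `p = 5` and `p = 13`. -/
def LA1 (p : ℕ) : Prop := ∀ (W W' : Subgroup (G2 p)) (E E' : Set (V2 p)), Data W E → Three E → Data W' E' → Three E' →
  ∃ h, Cj h W E W' E'

/-- Step LA3: the prime `3`. -/
def LA3 : Prop := (∀ (W : Subgroup (G2 3)) (E : Set (V2 3)), Data W E → Three E → Nat.card W = 8 ∨ Nat.card W = 16) ∧
  ∀ (W W' : Subgroup (G2 3)) (E E' : Set (V2 3)), Data W E → Three E → Data W' E' → Three E' →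
    Nat.card W = Nat.card W' → ∃ h, Cj h W E W' E'

/-- Step P3: a finite group with Sylow `3`-subgroup `3^{1+2}_+`, three fused planes and outer automiser of order `k`. -/
def Sp3k (k : ℕ) : Prop := ∃ (G : Type) (_ : Group G) (_ : Finite G) (P : Subgroup G) (c y₁ y₂ y₃ : G),
  ¬ 3 ∣ P.index ∧ Nat.card P = 27 ∧ (∀ g ∈ P, g ^ 3 = 1) ∧ c ∈ P ∧ (∀ g ∈ P, g * c = c * g) ∧
  y₁ ∈ P ∧ y₂ ∈ P ∧ y₃ ∈ P ∧ IsConj y₁ c ∧ IsConj y₂ c ∧ IsConj y₃ c ∧
  y₁ * y₂ ≠ y₂ * y₁ ∧ y₁ * y₃ ≠ y₃ * y₁ ∧ y₂ * y₃ ≠ y₃ * y₂ ∧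
  Subgroup.centralizer (P : Set G) ≤ P ∧ Nat.card (Subgroup.normalizer (P : Set G)) = 27 * k

theorem Cj.symm {h : G2 p} {W W' : Subgroup (G2 p)} {E E' : Set (V2 p)} (c : Cj h W E W' E') : Cj h⁻¹ W' E' W E :=
  ⟨fun g => by rw [c.1, show h * (h⁻¹ * g * h⁻¹⁻¹) * h⁻¹ = g by group], fun v => by rw [c.2, ap_ap_inv]⟩

theorem Cj.trans {h k : G2 p} {W W' W'' : Subgroup (G2 p)} {E E' E'' : Set (V2 p)} (c : Cj h W E W' E')
    (d : Cj k W' E' W'' E'') : Cj (k * h) W E W'' E'' :=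
  ⟨fun g => by rw [c.1, d.1, show k * (h * g * h⁻¹) * k⁻¹ = k * h * g * (k * h)⁻¹ by group],
    fun v => by rw [c.2, d.2, ap_mul]⟩

theorem exists_cj (h : G2 p) (W : Subgroup (G2 p)) (E : Set (V2 p)) : ∃ W' E', Cj h W E W' E' :=
  ⟨W.comap (MulAut.conj h⁻¹).toMonoidHom, {v | ap h⁻¹ v ∈ E}, fun g => by
    simp [Subgroup.mem_comap, mul_assoc], fun v => by simp [ap_inv_ap]⟩

theorem Cj.data {h : G2 p} {W W' : Subgroup (G2 p)} {E E' : Set (V2 p)} (c : Cj h W E W' E') (d : Data W E) :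
    Data W' E' where
  nop g hg e := by
    have := d.nop _ ((c.symm.1 g).1 hg) (by rw [conj_pow, e]; group)
    calc g = h * (h⁻¹ * g * h⁻¹⁻¹) * h⁻¹ := by group
      _ = 1 := by rw [this]; group
  ne v hv e := d.ne _ ((c.symm.2 v).1 hv) (by rw [e, ap_zero])
  inv g hg v hv := by
    have := (c.2 _).1 (d.inv _ ((c.symm.1 g).1 hg) _ ((c.symm.2 v).1 hv))
    rwa [← ap_mul, ← ap_mul, show h * (h⁻¹ * g * h⁻¹⁻¹) * h⁻¹ = g by group] at this
  tor v hv a b e := by
    obtain ⟨g, hg, h1, h2⟩ := d.tor _ ((c.symm.2 v).1 hv) a b e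
    refine ⟨_, (c.1 g).1 hg, by rw [ap_mul, ap_mul, h1, ap_smul, ap_ap_inv], ?_⟩
    rw [dt_mul, dt_mul, h2]
    linear_combination b * dt_inv_mul h

theorem Cj.card {h : G2 p} {W W' : Subgroup (G2 p)} {E E' : Set (V2 p)} (c : Cj h W E W' E') :
    Nat.card W = Nat.card W' :=
  Nat.card_congr ((MulAut.conj h).toEquiv.subtypeEquiv fun g => c.1 g)

variable [Fact p.Prime]

theorem dt_ne (g : G2 p) : dt g ≠ 0 := fun e => by
  have := dt_inv_mul g
  rw [e, mul_zero] at this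
  exact zero_ne_one this

theorem Cj.three {h : G2 p} {W W' : Subgroup (G2 p)} {E E' : Set (V2 p)} (c : Cj h W E W' E') (t : Three E) :
    Three E' := by
  obtain ⟨u, hu, v, hv, w, hw, h1, h2, h3⟩ := t
  refine ⟨_, (c.2 u).1 hu, _, (c.2 v).1 hv, _, (c.2 w).1 hw, ?_, ?_, ?_⟩ <;> rw [om_ap] <;>
    exact mul_ne_zero (dt_ne h) ‹_›

theorem Data.smul {W : Subgroup (G2 p)} {E : Set (V2 p)} (d : Data W E) {v : V2 p} (hv : v ∈ E) {a : ZMod p}
    (ha : a ≠ 0) : a • v ∈ E := by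
  obtain ⟨g, hg, h, -⟩ := d.tor v hv a a⁻¹ (mul_inv_cancel₀ ha)
  exact h ▸ d.inv g hg v hv

/-- the matrix with given columns -/
noncomputable def cols (u v : V2 p) (h : om u v ≠ 0) : G2 p :=
  GeneralLinearGroup.mkOfDetNeZero !![u 0, v 0; u 1, v 1] (by
    rw [det_fin_two_of]; intro e; apply h; rw [om]; linear_combination e)

theorem ap_cols {u v : V2 p} (h : om u v ≠ 0) (w : V2 p) : ap (cols u v h) w = w 0 • u + w 1 • v :=
  v_ext (by simp [ap_0, cols]; ring) (by simp [ap_1, cols]; ring)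

theorem dt_cols {u v : V2 p} (h : om u v ≠ 0) : dt (cols u v h) = om u v := by
  simp [dt_eq, cols, om]; ring

theorem exists_smul_of_om {u v : V2 p} (hu : u ≠ 0) (h : om u v = 0) : ∃ a : ZMod p, v = a • u := by
  rw [om] at h
  by_cases h0 : u 0 = 0
  · have h1 : u 1 ≠ 0 := fun e => hu (v_ext h0 e)
    refine ⟨v 1 / u 1, v_ext ?_ ?_⟩
    · have : u 1 * v 0 = 0 := by linear_combination v 1 * h0 - h
      simp [h0, (mul_eq_zero.1 this).resolve_left h1]
    · simp [h1]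
  · refine ⟨v 0 / u 0, v_ext (by simp [h0]) ?_⟩
    simp only [Pi.smul_apply, smul_eq_mul]
    field_simp
    linear_combination h

theorem exists_om_eq {u : V2 p} (hu : u ≠ 0) (c : ZMod p) : ∃ s, om s u = c := by
  by_cases h0 : u 0 = 0
  · have h1 : u 1 ≠ 0 := fun e => hu (v_ext h0 e)
    exact ⟨![c / u 1, 0], by simp [om, h1]⟩
  · exact ⟨![0, -c / u 0], by simp [om]; field_simp⟩

theorem two_ne (hp : p ≠ 2) : (2 : ZMod p) ≠ 0 := fun e => by
  have := (ZMod.natCast_eq_zero_iff 2 p).1 (by exact_mod_cast e)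
  exact hp ((Nat.prime_dvd_prime_iff_eq Fact.out Nat.prime_two).1 this)

instance : Finite (Hs p) := Finite.of_equiv _ Hs.eqv.symm

theorem Hs.card : Nat.card (Hs p) = p ^ 3 := by
  rw [Nat.card_congr Hs.eqv, Nat.card_prod, Nat.card_fun, Nat.card_zmod, Nat.card_eq_fintype_card, Fintype.card_fin,
    pow_succ p 2]

theorem Hs.comm_iff (hp : p ≠ 2) {x y : Hs p} : x * y = y * x ↔ om x.v y.v = 0 := by
  constructor
  · intro e
    have := congrArg Hs.c e
    rw [Hs.mul_c, Hs.mul_c, om_swap y.v] at this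
    exact (mul_eq_zero.1 (show 2 * om x.v y.v = 0 by linear_combination this)).resolve_left (two_ne hp)
  · intro e
    exact Hs.ext (add_comm _ _) (by rw [Hs.mul_c, Hs.mul_c, om_swap y.v, e]; ring)

end CL.RV
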