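/-
Fusion systems over `p^{1+2}_+` (helper73): the pair `(W, E)` of a saturated system, and its properties.
-/
import Cfsg.Agent.Fus.RV0
import Cfsg.Agent.Fus.NormalCrit
import Cfsg.Agent.Fus.Heis

set_option autoImplicit false

namespace CL.RV

open Cfsg Cfsg.FusionSystem CL.Fus Subgroup

variable {p : ℕ} [Fact p.Prime]

/-- the first generator -/
def e0 (p : ℕ) : Hs p := ⟨![1, 0], 0⟩
/-- the second generator -/
def e1 (p : ℕ) : Hs p := ⟨![0, 1], 0⟩

theorem isP : IsPGroup p (⊤ : Subgroup (Hs p)) := fun g => ⟨1, Subtype.ext (by simpa using Hs.pow_p g.1)⟩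

theorem top_of_nc (hp : p ≠ 2) {K : Subgroup (Hs p)} {x y : Hs p} (hx : x ∈ K) (hy : y ∈ K) (h : om x.v y.v ≠ 0)
    (w : Hs p) : w ∈ K := by
  have hz : (⟨0, 2 * om x.v y.v⟩ : Hs p) ∈ K := by
    have := mul_mem (mul_mem (mul_mem hx hy) (inv_mem hx)) (inv_mem hy)
    rw [Hs.conj_eq] at this
    convert this using 1
    exact Hs.ext (by simp [Hs.mul_v, Hs.inv_v]) (by simp [Hs.mul_c, Hs.inv_v, Hs.inv_c, om_negr, om_self])
  have hZ : ∀ c : ZMod p, (⟨0, c⟩ : Hs p) ∈ K := fun c => by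
    have := pow_mem hz (c / (2 * om x.v y.v)).val
    rw [Hs.pow_eq, ZMod.natCast_zmod_val, div_mul_cancel₀ _ (mul_ne_zero (two_ne hp) h), smul_zero] at this
    exact this
  set u := ap (cols x.v y.v h)⁻¹ w.v
  have e : (x ^ (u 0).val * y ^ (u 1).val).v = w.v := by
    rw [Hs.mul_v, Hs.pow_eq, Hs.pow_eq, ZMod.natCast_zmod_val, ZMod.natCast_zmod_val, ← ap_cols h, ap_ap_inv]
  have := mul_mem (mul_mem (pow_mem hx (u 0).val) (pow_mem hy (u 1).val))
    (hZ (w.c - (x ^ (u 0).val * y ^ (u 1).val).c))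
  convert this using 1
  exact Hs.ext (by rw [Hs.mul_v, e, add_zero]) (by rw [Hs.mul_c, om_zeror]; ring)

theorem om_e : om (e0 p).v (e1 p).v = 1 := by simp [om, e0, e1]

theorem hom_ext (hp : p ≠ 2) {G : Type*} [Group G] {φ ψ : Hs p →* G} (h0 : φ (e0 p) = ψ (e0 p))
    (h1 : φ (e1 p) = ψ (e1 p)) (x : Hs p) : φ x = ψ x :=
  top_of_nc hp (K := φ.eqLocus ψ) h0 h1 (by rw [om_e]; exact one_ne_zero) x

/-- The automorphisms. -/
theorem exists_act (hp : p ≠ 2) (φ : Hs p →* Hs p) (hφ : Function.Injective φ) :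
    ∃ (g : G2 p) (s : Hs p), ∀ x, φ x = s * act g x * s⁻¹ := by
  have h : om (φ (e0 p)).v (φ (e1 p)).v ≠ 0 := fun e => by
    have := (Hs.comm_iff hp).2 e
    rw [← map_mul, ← map_mul] at this
    have := (Hs.comm_iff hp).1 (hφ this)
    rw [om_e] at this
    exact one_ne_zero this
  have h2 := two_ne hp
  set u := φ (e0 p) with hu
  set w := φ (e1 p) with hw
  refine ⟨cols u.v w.v h, ⟨(w.c / (2 * om u.v w.v)) • u.v + (-(u.c / (2 * om u.v w.v))) • w.v, 0⟩,
    hom_ext hp (ψ := (MulAut.conj _).toMonoidHom.comp (actH (cols u.v w.v h))) ?_ ?_⟩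
  · show u = _ * act _ _ * _⁻¹
    have : (act (cols u.v w.v h) (e0 p)) = ⟨u.v, 0⟩ := Hs.ext (by simp [act, ap_cols, e0]) (by simp [act, e0])
    rw [this, Hs.conj_eq]
    refine Hs.ext rfl ?_
    simp only [om_addl, om_smull, om_self, om_swap w.v u.v]
    field_simp
    ring
  · show w = _ * act _ _ * _⁻¹
    have : (act (cols u.v w.v h) (e1 p)) = ⟨w.v, 0⟩ := Hs.ext (by simp [act, ap_cols, e1]) (by simp [act, e1])
    rw [this, Hs.conj_eq]
    refine Hs.ext rfl ?_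
    simp only [om_addl, om_smull, om_self]
    field_simp
    ring

/-- the plane over the line of `v` -/
def Vp (v : V2 p) : Subgroup (Hs p) where
  carrier := {x | om v x.v = 0}
  one_mem' := om_zeror v
  mul_mem' := fun {x y} (hx : om v x.v = 0) (hy : om v y.v = 0) => by
    show om v (x.v + y.v) = 0
    rw [om_addr, hx, hy, add_zero]
  inv_mem' := fun {x} (hx : om v x.v = 0) => by
    show om v (-x.v) = 0
    rw [om_negr, hx, neg_zero]

/-- coordinates on the plane -/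
def em (v : V2 p) (t c : ZMod p) : Hs p := ⟨t • v, c⟩

theorem em_mem (v : V2 p) (t c : ZMod p) : em v t c ∈ Vp v := by
  show om v (t • v) = 0
  rw [om_smulr, om_self, mul_zero]

theorem exists_em {v : V2 p} (hv : v ≠ 0) {x : Hs p} (hx : x ∈ Vp v) : ∃ t c, x = em v t c :=
  let ⟨t, e⟩ := exists_smul_of_om hv hx
  ⟨t, x.c, Hs.ext e rfl⟩

theorem em_mul (v : V2 p) (t c t' c' : ZMod p) : em v t c * em v t' c' = em v (t + t') (c + c') :=
  Hs.ext (add_smul _ _ _).symm (by simp [em, Hs.mul_c, om_smull, om_smulr, om_self])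

theorem em_pow (v : V2 p) (t c k : ZMod p) : em v t c ^ k.val = em v (k * t) (k * c) := by
  rw [Hs.pow_eq, ZMod.natCast_zmod_val]
  exact Hs.ext (mul_smul _ _ _).symm rfl

theorem em_zero (v : V2 p) (c : ZMod p) : em v 0 c = ⟨0, c⟩ := Hs.ext (zero_smul _ _) rfl

theorem em_one (v : V2 p) (c : ZMod p) : em v 1 c = ⟨v, c⟩ := Hs.ext (one_smul _ _) rfl

theorem em_inj {v : V2 p} (hv : v ≠ 0) {t c t' c' : ZMod p} (h : em v t c = em v t' c') : t = t' ∧ c = c' :=
  ⟨smul_left_injective _ hv (congrArg Hs.v h), congrArg Hs.c h⟩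

theorem z_pow (c k : ZMod p) : (⟨0, c⟩ : Hs p) ^ k.val = ⟨0, k * c⟩ := by
  rw [Hs.pow_eq, ZMod.natCast_zmod_val, smul_zero]

theorem mul_z (x : Hs p) (c : ZMod p) : x * ⟨0, c⟩ = ⟨x.v, x.c + c⟩ :=
  Hs.ext (add_zero _) (by rw [Hs.mul_c, om_zeror, add_zero])

theorem norm_of_z {Q : Subgroup (Hs p)} (h : ∀ c, (⟨0, c⟩ : Hs p) ∈ Q) (a : Hs p) : a ∈ normalizer (Q : Set (Hs p)) :=
  mem_normalizer_of_finite fun x hx => by
    rw [Hs.conj_eq, ← mul_z]
    exact mul_mem hx (h _)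

theorem homOn_em {v : V2 p} {f : Hs p → Hs p} (h : HomOn (Vp v) f) (t c : ZMod p) :
    f (em v t c) = f (em v 1 0) ^ t.val * f (em v 0 1) ^ c.val := by
  rw [← h.map_pow (em_mem _ _ _), ← h.map_pow (em_mem _ _ _),
    ← h.map_mul (pow_mem (em_mem _ _ _) _) (pow_mem (em_mem _ _ _) _), em_pow, em_pow, em_mul]
  simp

variable {F : FusionSystem (⊤ : Subgroup (Hs p))}

/-- the outer automiser -/
def Wf (F : FusionSystem (⊤ : Subgroup (Hs p))) : Subgroup (G2 p) where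
  carrier := {g | Mor F ⊤ (act g)}
  one_mem' := (mor_id F le_rfl).congr fun x _ => (act_one x).symm
  mul_mem' := fun {g h} (hg : Mor F ⊤ (act g)) (hh : Mor F ⊤ (act h)) =>
    (hh.comp hg fun _ _ => trivial).congr fun x _ => (mul_act g h x).symm
  inv_mem' := fun {g} (hg : Mor F ⊤ (act g)) => (hg.inv fun x _ => act_inv_act g x).mono fun x _ =>
    act_act_inv g x ▸ mem_img_of_mem _ trivial

/-- fused into the centre -/
def Fz (F : FusionSystem (⊤ : Subgroup (Hs p))) (x : Hs p) : Prop := ∃ c, F.IsConjElt x ⟨0, c⟩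

/-- the fused vectors -/
def Ef (F : FusionSystem (⊤ : Subgroup (Hs p))) : Set (V2 p) := {v | v ≠ 0 ∧ Fz F ⟨v, 0⟩}

theorem Fz.of {x y : Hs p} (h : Fz F y) (e : F.IsConjElt x y) : Fz F x :=
  let ⟨c, hc⟩ := h
  ⟨c, isConjElt_trans e hc⟩

theorem fz_z {x : Hs p} (h : x.v = 0) : Fz F x :=
  ⟨x.c, (show x = ⟨0, x.c⟩ from Hs.ext h rfl) ▸ (mor_id F le_rfl).isConjElt trivial⟩

theorem conj_of_v (hp : p ≠ 2) {x y : Hs p} (hx : x.v ≠ 0) (e : x.v = y.v) : F.IsConjElt x y := by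
  obtain ⟨s, hs⟩ := exists_om_eq hx ((y.c - x.c) / 2)
  have := (mor_conj F le_rfl (a := ⟨s, 0⟩) trivial).isConjElt (x := x) trivial
  rw [Hs.conj_eq, hs] at this
  convert this using 1
  exact Hs.ext e.symm (by have := two_ne hp; field_simp; ring)

theorem mem_Ef (hp : p ≠ 2) {x : Hs p} (hx : x.v ≠ 0) : x.v ∈ Ef F ↔ Fz F x :=
  ⟨fun h => h.2.of (conj_of_v hp hx rfl), fun h => ⟨hx, h.of (conj_of_v hp hx rfl)⟩⟩

theorem mor_top (hp : p ≠ 2) {f : Hs p → Hs p} (h : Mor F ⊤ f) :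
    ∃ g ∈ Wf F, ∃ s, ∀ x, f x = s * act g x * s⁻¹ := by
  obtain ⟨g, s, e⟩ := exists_act hp (MonoidHom.mk' f fun x y => h.homOn.map_mul trivial trivial)
    fun x y e => h.injOn trivial trivial e
  refine ⟨g, (h.comp (mor_conj F le_rfl (a := s⁻¹) trivial) fun _ _ => trivial).congr fun x _ => ?_, s, e⟩
  rw [show f x = _ from e x]; group

theorem mor_of_W {g : G2 p} (hg : g ∈ Wf F) (s : Hs p) (P : Subgroup (Hs p)) :
    Mor F P fun x => s * act g x * s⁻¹ :=
  ((show Mor F ⊤ (act g) from hg).comp (mor_conj F le_rfl (a := s) trivial) fun _ _ => trivial).mono le_top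

/-- A map on a plane that preserves the centre extends. -/
theorem ext_plane (hp : p ≠ 2) (hF : F.IsSaturated p) {v : V2 p} (hv : v ≠ 0) {f : Hs p → Hs p} (h : Mor F (Vp v) f)
    (hz : (f (em v 0 1)).v = 0) : ∃ g ∈ Wf F, ∃ s, ∀ x ∈ Vp v, f x = s * act g x * s⁻¹ := by
  obtain ⟨l, hl⟩ : ∃ l, f (em v 0 1) = ⟨0, l⟩ := ⟨_, Hs.ext hz rfl⟩
  have h1 : ∀ c, f (em v 0 c) = ⟨0, c * l⟩ := fun c => by
    rw [homOn_em h.homOn, hl, z_pow, ZMod.val_zero, pow_zero, one_mul]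
  have l0 : l ≠ 0 := fun e => by
    have := h.injOn (em_mem v 0 1) (em_mem v 0 0) (by rw [h1, h1, e]; simp)
    exact one_ne_zero (em_inj hv this).2
  have hv' : (f (em v 1 0)).v ≠ 0 := fun e => by
    have := h.injOn (em_mem v 1 0) (em_mem v 0 ((f (em v 1 0)).c / l)) (by
      rw [h1, div_mul_cancel₀ _ l0]; exact Hs.ext e rfl)
    exact one_ne_zero (em_inj hv this).1
  have hQ : ∀ c, (⟨0, c⟩ : Hs p) ∈ img f (Vp v) := fun c => by
    have := mem_img_of_mem f (em_mem v 0 (c / l))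
    rwa [h1, div_mul_cancel₀ _ l0] at this
  obtain ⟨k, hk, e⟩ := h.extend (receptive_of_fullyNormalized isP hF
    (isFullyNormalized_of_normalizerIn_eq F le_top fun a _ => norm_of_z hQ a))
  have hV : ∀ c, (⟨0, c⟩ : Hs p) ∈ Vp v := fun c => om_zeror v
  obtain ⟨g, hg, s, hs⟩ := mor_top hp (hk.mono (R := ⊤) fun a _ => by
    obtain ⟨b, hb⟩ := exists_om_eq hv' (l * om a.v v)
    refine mem_extenderF.2 ⟨trivial, norm_of_z hV a, ⟨b, 0⟩, trivial, fun x hx => ?_⟩
    rw [Hs.conj_eq, ← mul_z, h.homOn.map_mul hx (hV _), ← em_zero v, h1, mul_z, Hs.conj_eq]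
    obtain ⟨t, c, rfl⟩ := exists_em hv hx
    refine Hs.ext rfl ?_
    have : (f (em v t c)).v = t • (f (em v 1 0)).v := by
      rw [homOn_em h.homOn, hl, z_pow, mul_z, Hs.pow_eq, ZMod.natCast_zmod_val]
    simp only [this, om_smulr, hb, show (em v t c).v = t • v from rfl]
    ring)
  exact ⟨g, hg, s, fun x hx => (e x hx).symm.trans (hs x)⟩

/-- The matrix with columns `(a, c)` and `(b, d)` is a map of the system on the plane. -/
def PM (F : FusionSystem (⊤ : Subgroup (Hs p))) (v : V2 p) (a b c d : ZMod p) : Prop :=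
  ∃ f, Mor F (Vp v) f ∧ ∀ t s, f (em v t s) = em v (a * t + b * s) (c * t + d * s)

theorem PM.comp {v : V2 p} (hv : v ≠ 0) {a b c d a' b' c' d' : ZMod p} (h : PM F v a b c d) (h' : PM F v a' b' c' d') :
    PM F v (a * a' + b * c') (a * b' + b * d') (c * a' + d * c') (c * b' + d * d') := by
  obtain ⟨f, hf, e⟩ := h
  obtain ⟨f', hf', e'⟩ := h'
  refine ⟨_, hf'.comp hf fun x hx => ?_, fun t s => ?_⟩
  · obtain ⟨t, s, rfl⟩ := exists_em hv hx
    rw [e']; exact em_mem _ _ _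
  · rw [e', e]; congr 1 <;> ring

theorem pm_L (hp : p ≠ 2) {v : V2 p} (hv : v ≠ 0) (k : ZMod p) : PM F v 1 0 k 1 := by
  obtain ⟨s, hs⟩ := exists_om_eq hv (k / 2)
  refine ⟨_, mor_conj F le_top (a := ⟨s, 0⟩) trivial, fun t c => ?_⟩
  rw [Hs.conj_eq]
  refine Hs.ext (by simp [em]) ?_
  have := two_ne hp
  simp only [em, om_smulr, hs]
  field_simp
  ring

theorem pm_U (hp : p ≠ 2) (hF : F.IsSaturated p) {v : V2 p} (hv : v ∈ Ef F) (k : ZMod p) : PM F v 1 k 0 1 := by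
  obtain ⟨v0, c, hc⟩ := hv
  obtain ⟨f, hf, e⟩ := isConjElt_iff.1 hc
  have hQ : img f (zpowers (⟨v, 0⟩ : Hs p)) = zpowers ⟨0, c⟩ := by rw [hf.homOn.img_zpowers (mem_zpowers _), e]
  obtain ⟨ψ, hψ, e'⟩ := hf.extend_centralizerIn (receptive_of_fullyNormalized isP hF
    (isFullyNormalized_of_normalizerIn_eq F le_top fun a _ => by
      rw [hQ]
      refine centralizer_le_normalizer _ (mem_centralizer_of_conj_eq ?_)
      rintro _ ⟨n, rfl⟩
      simp only
      rw [← conj_zpow, Hs.conj_eq, om_zeror, mul_zero, add_zero]))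
  have hV : Mor F (Vp v) ψ := hψ.mono fun x hx => mem_sup_right (mem_centralizerIn'.2 ⟨trivial, by
    rintro _ ⟨n, rfl⟩
    exact (Commute.zpow_left ((Hs.comm_iff hp).2 hx : Commute (⟨v, 0⟩ : Hs p) x) n)⟩)
  have h0 : ψ (em v 1 0) = ⟨0, c⟩ := by rw [em_one, e' _ (mem_zpowers _), e]
  have h1 : ∀ t, ψ (em v t 0) = ⟨0, t * c⟩ := fun t => by
    rw [homOn_em hV.homOn, h0, z_pow, ZMod.val_zero, pow_zero, mul_one]
  have c0 : c ≠ 0 := fun e => by
    have := hV.injOn (em_mem v 1 0) (em_mem v 0 0) (by rw [h1, h1, e]; simp)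
    exact one_ne_zero (em_inj v0 this).1
  have hv' : (ψ (em v 0 1)).v ≠ 0 := fun e => by
    have := hV.injOn (em_mem v 0 1) (em_mem v ((ψ (em v 0 1)).c / c) 0) (by
      rw [h1, div_mul_cancel₀ _ c0]; exact Hs.ext e rfl)
    exact one_ne_zero (em_inj v0 this).2
  obtain ⟨s, hs⟩ := exists_om_eq hv' (k * c / 2)
  obtain ⟨χ, hχ, i1, -, -⟩ := hV.exists_inv
  have key : ∀ t d, (⟨s, 0⟩ : Hs p) * ψ (em v t d) * (⟨s, 0⟩ : Hs p)⁻¹ = ψ (em v (t + k * d) d) := fun t d => by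
    have h2 : (ψ (em v t d)).v = d • (ψ (em v 0 1)).v := by
      rw [homOn_em hV.homOn, h0, z_pow, Hs.mul_v, Hs.pow_eq, ZMod.natCast_zmod_val, zero_add]
    rw [show em v (t + k * d) d = em v t d * em v (k * d) 0 by rw [em_mul, add_zero],
      hV.homOn.map_mul (em_mem _ _ _) (em_mem _ _ _), h1, mul_z, Hs.conj_eq]
    refine Hs.ext rfl ?_
    have := two_ne hp
    simp only [h2, om_smulr, hs]
    field_simp
  refine ⟨_, (hV.comp (mor_conj F le_rfl (a := ⟨s, 0⟩) trivial) fun _ _ => trivial).comp hχ fun x hx => ?_,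
    fun t d => ?_⟩
  · obtain ⟨t, d, rfl⟩ := exists_em v0 hx
    rw [key]
    exact mem_img_of_mem _ (em_mem _ _ _)
  · rw [key, i1 _ (em_mem _ _ _)]
    congr 1 <;> ring

theorem PM.of_eq {v : V2 p} {a b c d a' b' c' d' : ZMod p} (h : PM F v a b c d) (h1 : a = a') (h2 : b = b')
    (h3 : c = c') (h4 : d = d') : PM F v a' b' c' d' := by subst h1 h2 h3 h4; exact h

theorem data (hp : p ≠ 2) (hF : F.IsSaturated p) : Data (Wf F) (Ef F) where
  nop g hg e := by
    have hm : Mor F ⊤ (act g) := hg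
    obtain ⟨α, hα, eα⟩ := hm.exists_aut' le_rfl fun _ _ => trivial
    have hn : ∀ (n : ℕ) x, autFun (α ^ n) x = act (g ^ n) x := fun n => by
      induction n with
      | zero => exact fun x => by rw [pow_zero, pow_zero, autFun_one (mem_top _), act_one]
      | succ n ih => exact fun x => by rw [pow_succ, pow_succ, autFun_mul _ _ (mem_top _), eα _ trivial, ih, mul_act]
    have h1 : α ^ p ^ 1 = 1 := aut_ext fun x _ => by rw [pow_one, hn, e, act_one, autFun_one (mem_top _)]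
    obtain ⟨y, -, hy⟩ := (sylIn_Inn_top isP hF).exists_conj_le (isPGroup_zpowers_of_pow_eq_one h1)
      (zpowers_le.2 hα)
    obtain ⟨a, -, ha⟩ := mem_Inn_iff.1 (hy α (mem_zpowers α))
    refine g_ext fun v => ?_
    have h2 := ha (autFun y ⟨v, 0⟩) trivial
    rw [autFun_mul _ _ (mem_top _), autFun_mul _ _ (mem_top _), autFun_inv_apply _ (mem_top _), eα _ trivial,
      ← autFun_apply_inv y (x := a) (mem_top _), ← autFun_conj_conj (autFun_mem _ (mem_top _)) (mem_top _)] at h2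
    have h3 := congrArg Hs.v (autFun_injOn y trivial trivial h2)
    rw [Hs.conj_eq] at h3
    rw [ap_one]
    exact h3
  ne v hv := hv.1
  inv g hg v hv := ⟨ap_ne_zero g hv.1, hv.2.of (isConjElt_symm (by
    have := (show Mor F ⊤ (act g) from hg).isConjElt (x := ⟨v, 0⟩) trivial
    rwa [act, mul_zero] at this))⟩
  tor v hv a b e := by
    have L := pm_L (F := F) hp hv.1
    have U := pm_U hp hF hv
    obtain ⟨f, hf, ef⟩ : PM F v a 0 0 b := (((U a).comp hv.1 ((L (-b)).comp hv.1 (U a))).comp hv.1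
      ((U (-1)).comp hv.1 ((L 1).comp hv.1 (U (-1))))).of_eq (by linear_combination (-a) * e)
      (by linear_combination e) (by linear_combination (-1) * e) (by ring)
    obtain ⟨g, hg, s, hs⟩ := ext_plane hp hF hv.1 hf (by rw [ef]; simp [em])
    refine ⟨g, hg, ?_, ?_⟩
    · have := congrArg Hs.v (hs _ (em_mem v 1 0))
      rw [ef, Hs.conj_eq] at this
      simpa [em, act] using this.symm
    · have := congrArg Hs.c (hs _ (em_mem v 0 1))
      rw [ef, Hs.conj_eq] at this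
      simpa [em, act, ap_zero, om_zeror] using this.symm

end CL.RV
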