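/-
Realisability over extraspecial groups of order `p ^ 3`, the two sporadic cases: definitions.
-/
import Cfsg.Agent.Base
import Mathlib.GroupTheory.Sylow
import Mathlib.GroupTheory.Subgroup.Centralizer

set_option autoImplicit false

namespace CL.RVS

open Subgroup

/-- A finite group whose Sylow `p`-subgroup has order `p ^ 3` and exponent `p`, with three pairwise non-commuting
elements conjugate into the centre. -/
def Sp3 (p : ℕ) : Prop :=
  ∃ (G : Type) (_ : Group G) (_ : Finite G) (P : Subgroup G) (c y₁ y₂ y₃ : G),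
    IsPGroup p P ∧ ¬ p ∣ P.index ∧ Nat.card P = p ^ 3 ∧ (∀ g ∈ P, g ^ p = 1) ∧ c ∈ P ∧ c ≠ 1 ∧
    (∀ g ∈ P, Commute g c) ∧ y₁ ∈ P ∧ y₂ ∈ P ∧ y₃ ∈ P ∧
    (∃ k : ℕ, IsConj y₁ (c ^ k)) ∧ (∃ k : ℕ, IsConj y₂ (c ^ k)) ∧ (∃ k : ℕ, IsConj y₃ (c ^ k)) ∧
    ¬ Commute y₁ y₂ ∧ ¬ Commute y₁ y₃ ∧ ¬ Commute y₂ y₃

variable {G : Type*} [Group G]

/-- The global part of the hypotheses. -/
structure GH (p : ℕ) (z : G) : Prop where
  oz : orderOf z = 2
  d3 : p ^ 3 ∣ Nat.card G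
  n4 : ¬ p ^ 4 ∣ Nat.card G
  n2 : ¬ p ^ 2 ∣ Nat.card (centralizer ({z} : Set G))
  cj : ∀ t y : G, orderOf t = 2 → orderOf y = p → t * y * t⁻¹ = y⁻¹ → IsConj z t

/-- The data in the quotient `K` of the centraliser of `z` by the 2-group `Q`. -/
structure QH (p : ℕ) (z : G) (Q : Subgroup G) {K : Type*} [Group K] (π : centralizer ({z} : Set G) →* K)
    (β α γ δ : K) : Prop where
  gh : GH p z
  two : IsPGroup 2 Q
  le : Q ≤ centralizer ({z} : Set G)
  surj : Function.Surjective π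
  ker : ∀ c, π c = 1 ↔ (c : G) ∈ Q
  ob : orderOf β = p
  aa : α * α = 1
  cc : γ * γ = 1
  dd : δ * δ = 1
  a1 : α ≠ 1
  c1 : γ ≠ 1
  ne : α ≠ γ
  ac : Commute α γ
  ab : Commute α β
  cb : Commute γ β
  da : Commute δ α
  dc : Commute δ γ
  db : δ * β * δ⁻¹ = β⁻¹
  fpf : ∀ b : centralizer ({z} : Set G), π b = β → b ^ p = 1 → ∀ q ∈ Q, Commute q (b : G) → q ∈ zpowers z
  no : ∀ t : centralizer ({z} : Set G), t * t = 1 → Commute (π t) β → π t = 1

/-- Some finite group has the data. -/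
def QD (p : ℕ) : Prop :=
  ∃ (G : Type) (_ : Group G) (_ : Finite G) (z : G) (Q : Subgroup G) (K : Type) (_ : Group K)
    (π : centralizer ({z} : Set G) →* K) (β α γ δ : K), QH p z Q π β α γ δ

/-- The lifted data. -/
structure UH (p : ℕ) (z x a c h : G) : Prop where
  gh : GH p z
  ox : orderOf x = p
  aa : a * a = z
  cc : c * c = z
  ca : c * a * c⁻¹ = a⁻¹
  hh : h * h = 1 ∨ h * h = z
  ha : Commute h a
  hc : Commute h c
  ax : Commute a x
  cx : Commute c x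
  hx : h * x * h⁻¹ = x⁻¹
  un : ∀ t, orderOf t = 2 → Commute t x → Commute t z → t = z

end CL.RVS
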