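/-
Fusion systems over `p^{1+2}_+` (helper73): the pair `(W, E)` determines the system; assembly of the steps.
-/
import Cfsg.Agent.Fus.RV1
import Cfsg.Agent.Fus.RVS0
import Cfsg.Agent.S0098

set_option autoImplicit false

namespace CL.RV

open Cfsg Cfsg.FusionSystem CL.Fus Subgroup

variable {p : ℕ} [Fact p.Prime] {F F' : FusionSystem (⊤ : Subgroup (Hs p))}

theorem eq_plane (hp : p ≠ 2) {A : Subgroup (Hs p)} (hc : centralizerIn ⊤ A ≤ A) (hA : A < ⊤) :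
    ∃ v, v ≠ 0 ∧ A = Vp v := by
  obtain ⟨x, hx, x0⟩ : ∃ x ∈ A, x.v ≠ 0 := by
    by_contra h
    push Not at h
    exact hA.ne (eq_top_iff.2 fun w _ => hc (mem_centralizerIn'.2 ⟨trivial, fun y hy =>
      (Hs.comm_iff hp).2 (by rw [h y hy, om_zerol])⟩))
  have h1 : A ≤ Vp x.v := fun y hy => by
    by_contra h
    exact hA.ne (eq_top_iff.2 fun w _ => top_of_nc hp hx hy h w)
  refine ⟨x.v, x0, le_antisymm h1 fun w hw => hc (mem_centralizerIn'.2 ⟨trivial, fun y hy => ?_⟩)⟩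
  obtain ⟨t, c, rfl⟩ := exists_em x0 hw
  obtain ⟨t', c', rfl⟩ := exists_em x0 (h1 hy)
  rw [em_mul, em_mul, add_comm t, add_comm c]

theorem sub_of (hp : p ≠ 2) (hF : F.IsSaturated p) (hF' : F'.IsSaturated p) (hW : Wf F ≤ Wf F')
    (hE : Ef F ⊆ Ef F') : F.IsSubsystemOf F' := by
  refine alperin_subsystem isP hF fun A a hA ha hi => ?_
  rcases hA with rfl | hA
  · obtain ⟨g, hg, s, e⟩ := mor_top hp ha
    exact (mor_of_W (hW hg) s ⊤).congr fun x _ => (e x).symm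
  obtain ⟨v, hv, rfl⟩ := eq_plane hp (centralizerIn_le_of_centric hA.1) (IsEssential.lt hA
    (fullyAutomized_of_fullyNormalized isP hF (isFullyNormalized_top F)))
  have key : ∀ f, Mor F (Vp v) f → (f (em v 0 1)).v = 0 → Mor F' (Vp v) f := fun f hf hz => by
    obtain ⟨g, hg, s, e⟩ := ext_plane hp hF hv hf hz
    exact (mor_of_W (hW hg) s _).congr fun x hx => (e x hx).symm
  have hm : ∀ x ∈ Vp v, a x ∈ Vp v := fun x hx => hi ▸ mem_img_of_mem a hx
  obtain ⟨t, c, e⟩ := exists_em hv (hm _ (em_mem v 0 1))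
  by_cases t0 : t = 0
  · exact key a ha (by rw [e, t0, em_zero])
  have hE1 : v ∈ Ef F := by
    have h1 : (a (em v 0 1)).v ∈ Ef F := (mem_Ef hp (by rw [e]; exact smul_ne_zero t0 hv)).2
      ((fz_z (x := em v 0 1) (zero_smul _ _)).of (isConjElt_symm (ha.isConjElt (em_mem v 0 1))))
    have := (data hp hF).smul h1 (inv_ne_zero t0)
    rwa [e, em, inv_smul_smul₀ t0] at this
  obtain ⟨σ, hσ, eσ⟩ := (pm_U hp hF hE1 (-t)).comp hv (pm_L hp hv ((1 - c) / t))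
  obtain ⟨τ, hτ, eτ⟩ := (pm_L hp hv (-((1 - c) / t))).comp hv (pm_U hp hF' (hE hE1) t)
  have h2 := key _ (ha.comp hσ hm) (by
    rw [e, eσ, em]
    convert zero_smul (ZMod p) v
    field_simp
    ring)
  refine (h2.comp hτ fun x hx => ?_).congr fun x hx => ?_
  · obtain ⟨t', c', e'⟩ := exists_em hv (hm x hx)
    rw [e', eσ]
    exact em_mem _ _ _
  · obtain ⟨t', c', e'⟩ := exists_em hv (hm x hx)
    rw [e', eσ, eτ]
    congr 1 <;> ring

theorem uniq (hp : p ≠ 2) (hF : F.IsSaturated p) (hF' : F'.IsSaturated p) (hW : Wf F = Wf F') (hE : Ef F = Ef F') :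
    F = F' := fusionSystem_le_antisymm (sub_of hp hF hF' hW.le hE.le) (sub_of hp hF' hF hW.ge hE.ge)

theorem heisLike (hp : p ≠ 2) : HeisLike (Hs p) where
  comm x y z := (Hs.comm_iff hp).2 (by simp [Hs.mul_v, Hs.inv_v, om_zeror])
  full x z := by
    rintro ⟨y, hy⟩ hz
    have x0 : x.v ≠ 0 := fun e => hy ((Hs.comm_iff hp).2 (by rw [e, om_zeror]))
    have z0 : z.v = 0 := by
      by_contra h
      obtain ⟨s, hs⟩ := exists_om_eq h 1
      exact one_ne_zero (hs.symm.trans ((Hs.comm_iff hp).1 (hz ⟨s, 0⟩)))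
    obtain ⟨s, hs⟩ := exists_om_eq x0 (z.c / 2)
    refine ⟨⟨s, 0⟩, ?_⟩
    rw [Hs.conj_eq, hs, show z = ⟨0, z.c⟩ from Hs.ext z0 rfl, mul_z, mul_div_cancel₀ _ (two_ne hp)]
  cent x a b := by
    rintro ⟨y, hy⟩ ha hb
    have x0 : x.v ≠ 0 := fun e => hy ((Hs.comm_iff hp).2 (by rw [e, om_zeror]))
    obtain ⟨t, c, rfl⟩ := exists_em x0 (x := a) ((Hs.comm_iff hp).1 ha.symm)
    obtain ⟨t', c', rfl⟩ := exists_em x0 (x := b) ((Hs.comm_iff hp).1 hb.symm)
    rw [em_mul, em_mul, add_comm t, add_comm c]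

theorem real_of_closed (hp : p ≠ 2) (hF : F.IsSaturated p) {Q : Subgroup (Hs p)} (hz : (⟨0, 1⟩ : Hs p) ∈ Q)
    (hc : ∀ x ∈ Q, ∀ y ∈ Q, x * y = y * x) (h : ∀ x, x ∈ Q ↔ Fz F x) : F.IsRealizable p := by
  have hn : F.IsNormal Q := isNormal_of_stronglyClosed_comm isP hF ⟨le_top, fun R hR φ hφ x =>
    (h _).2 (((h _).1 (hR x.2)).of (isConjElt_symm (ext_coe φ x ▸ (mor_ext hφ).isConjElt x.2)))⟩ hc
  refine IsConstrained.isRealizable isP (((heisLike hp).of_equiv topEquiv).isConstrained isP hF fun e => ?_)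
  have : (⟨0, 1⟩ : Hs p) ∈ F.core := (le_sSup (s := {Q | F.IsNormal Q}) hn : Q ≤ _) hz
  rw [e, mem_bot] at this
  exact one_ne_zero (congrArg Hs.c this)

/-- At most one line. -/
theorem one (hp : p ≠ 2) (hF : F.IsSaturated p) (h : ∀ u ∈ Ef F, ∀ v ∈ Ef F, om u v = 0) : F.IsRealizable p := by
  by_cases hE : ∃ v, v ∈ Ef F
  · obtain ⟨v, hv⟩ := hE
    refine real_of_closed hp hF (Q := Vp v) (om_zeror v) (fun x hx y hy => ?_) fun x => ?_
    · obtain ⟨t, c, rfl⟩ := exists_em hv.1 hx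
      obtain ⟨t', c', rfl⟩ := exists_em hv.1 hy
      rw [em_mul, em_mul, add_comm t, add_comm c]
    · by_cases x0 : x.v = 0
      · exact iff_of_true (show om v x.v = 0 by rw [x0, om_zeror]) (fz_z x0)
      · rw [← mem_Ef hp x0]
        refine ⟨fun hx => ?_, fun hx => h v hv _ hx⟩
        obtain ⟨t, e⟩ := exists_smul_of_om hv.1 hx
        rw [e] at x0 ⊢
        exact (data hp hF).smul hv (left_ne_zero_of_smul x0)
  · refine real_of_closed hp hF (Q := Subgroup.center _) (Subgroup.mem_center_iff.2 fun g => (Hs.comm_iff hp).2 (om_zeror _))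
      (fun x _ y hy => Subgroup.mem_center_iff.1 hy x) fun x => ?_
    by_cases x0 : x.v = 0
    · exact iff_of_true (Subgroup.mem_center_iff.2 fun g => (Hs.comm_iff hp).2 (by rw [x0, om_zeror])) (fz_z x0)
    · refine iff_of_false (fun hx => ?_) fun hx => hE ⟨_, (mem_Ef hp x0).2 hx⟩
      obtain ⟨s, hs⟩ := exists_om_eq x0 1
      exact one_ne_zero (hs.symm.trans ((Hs.comm_iff hp).1 (Subgroup.mem_center_iff.1 hx ⟨s, 0⟩)))

section Grp
variable {G : Type*} [Group G] {ι : Hs p →* G}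

theorem Emb.exists_fs [Finite G] (h : Emb ι) : ∃ F : FusionSystem (⊤ : Subgroup (Hs p)),
    F.IsSaturated p ∧ F.IsRealizable p ∧ Wf F = Wg ι ∧ Ef F = Eg ι := by
  have hi : Function.Injective (ι.comp (⊤ : Subgroup (Hs p)).subtype) := h.inj.comp Subtype.val_injective
  obtain ⟨η, hη⟩ := exists_gIso_of_injective _ hi
  have hR := isRealizedBy_of_fIso (hη.symm.fIso_transport (groupFusionSystem _)).symm
  have hr : (ι.comp (⊤ : Subgroup (Hs p)).subtype).range = ι.range := by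
    rw [MonoidHom.range_comp, range_subtype, MonoidHom.range_eq_map]
  have hs : SylIn p (ι.comp (⊤ : Subgroup (Hs p)).subtype).range ⊤ := sylIn_of_not_dvd le_top
    (isP.of_surjective _ (MonoidHom.rangeRestrict_surjective _)) (by rw [relIndex_top_right, hr]; exact h.idx)
  have he : ∀ x, Fus.ext (ι.comp (⊤ : Subgroup (Hs p)).subtype) x = ι x := fun x => ext_apply _ (mem_top x)
  refine ⟨_, IsRealizedBy.isSaturated hR hs, isRealizable_of_realizedBy hR hs, Subgroup.ext fun g => ?_,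
    Set.ext fun v => and_congr_right fun _ => ?_⟩
  · refine (IsRealizedBy.mor_iff hR).trans ?_
    simp only [he]
    exact ⟨fun ⟨_, _, n, hn⟩ => ⟨n, fun x => hn x trivial⟩, fun ⟨n, hn⟩ => ⟨le_rfl, fun _ _ => trivial, n,
      fun x _ => hn x⟩⟩
  · constructor
    · rintro ⟨c, hc⟩
      obtain ⟨f, hf, e⟩ := isConjElt_iff.1 hc
      obtain ⟨-, -, n, hn⟩ := (IsRealizedBy.mor_iff hR).1 hf
      exact ⟨n, c, by rw [← e, ← he, ← he, hn _ (mem_zpowers _)]⟩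
    · rintro ⟨n, c, e⟩
      refine ⟨c, isConjElt_iff.2 ⟨fun x => Function.invFun ι (n * ι x * n⁻¹), (IsRealizedBy.mor_iff hR).2
        ⟨le_top, fun _ _ => trivial, n, ?_⟩, by simp only [e, Function.leftInverse_invFun h.inj _]⟩⟩
      rintro _ ⟨k, rfl⟩
      simp only [he]
      rw [map_zpow, ← conj_zpow, e, ← map_zpow, Function.leftInverse_invFun h.inj]

theorem Emb.data [Finite G] (hp : p ≠ 2) (h : Emb ι) : Data (Wg ι) (Eg ι) := by
  obtain ⟨F, hF, -, e, e'⟩ := h.exists_fs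
  exact e ▸ e' ▸ RV.data hp hF

theorem act_surj (h : G2 p) : Function.Surjective (actH h) := fun x => ⟨_, act_act_inv h x⟩

theorem Emb.comp (h : Emb ι) (k : G2 p) : Emb (ι.comp (actH k)) :=
  ⟨h.inj.comp (Function.LeftInverse.injective (act_inv_act k)), by
    rw [MonoidHom.range_comp, MonoidHom.range_eq_top.2 (act_surj k), ← MonoidHom.range_eq_map]; exact h.idx⟩

theorem cj_comp (ι : Hs p →* G) (k : G2 p) : Cj k (Wg (ι.comp (actH k))) (Eg (ι.comp (actH k))) (Wg ι) (Eg ι) := by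
  refine ⟨fun g => exists_congr fun n => ⟨fun hn x => ?_, fun hn x => ?_⟩, fun v => and_congr
    ⟨ap_ne_zero k, fun h e => h (by rw [e, ap_zero])⟩ (exists_congr fun n => ?_)⟩
  · have := hn (act k⁻¹ x)
    rwa [MonoidHom.comp_apply, MonoidHom.comp_apply, show actH k (act k⁻¹ x) = x from act_act_inv k x,
      show actH k (act g (act k⁻¹ x)) = act (k * g * k⁻¹) x by rw [mul_act, mul_act]; rfl] at this
  · have := hn (act k x)
    rwa [mul_act, act_inv_act, mul_act] at this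
  · have e1 : (ι.comp (actH k)) ⟨v, 0⟩ = ι ⟨ap k v, 0⟩ := congrArg ι (Hs.ext rfl (mul_zero _))
    have e2 : ∀ c, (ι.comp (actH k)) ⟨0, c⟩ = ι ⟨0, dt k * c⟩ := fun c => congrArg ι (Hs.ext (ap_zero _) rfl)
    simp only [e1, e2]
    exact ⟨fun ⟨c, e⟩ => ⟨_, e⟩, fun ⟨c, e⟩ => ⟨c / dt k, by rw [mul_div_cancel₀ _ (dt_ne k), e]⟩⟩

theorem exp_eq {E : Type*} [Group E] (h1 : ¬ IsMulCommutative E) (h2 : ∀ g : E, g ^ p = 1) : Monoid.exponent E = p :=
  ((Nat.dvd_prime Fact.out).1 (Monoid.exponent_dvd_of_forall_pow_eq_one h2)).resolve_left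
    fun e => h1 ⟨⟨fun _ _ => (Monoid.exp_eq_one_iff.1 e).elim _ _⟩⟩

theorem exists_emb [Finite G] (hp : p ≠ 2) {P : Subgroup G} (hi : ¬ p ∣ P.index) (hc : Nat.card P = p ^ 3)
    (he : ∀ g ∈ P, g ^ p = 1) {x y : G} (hx : x ∈ P) (hy : y ∈ P) (hxy : x * y ≠ y * x) :
    ∃ ι : Hs p →* G, Emb ι ∧ ι.range = P := by
  have n1 : ¬ IsMulCommutative (Hs p) := fun h => one_ne_zero (om_e.symm.trans
    ((Hs.comm_iff hp).1 (h.is_comm.comm (e0 p) (e1 p))))
  have n2 : ¬ IsMulCommutative P := fun h => hxy (congrArg Subtype.val (h.is_comm.comm ⟨x, hx⟩ ⟨y, hy⟩))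
  obtain ⟨φ⟩ := Cfsg.Agent.S0098.result hp (isExtraspecial_of_card_eq_cube Hs.card n1)
    (isExtraspecial_of_card_eq_cube hc n2) (exp_eq n1 Hs.pow_p) (exp_eq n2 fun g => Subtype.ext (he g g.2))
    (Hs.card.trans hc.symm)
  have hr : (P.subtype.comp φ.toMonoidHom).range = P := by
    rw [MonoidHom.range_comp, MonoidHom.range_eq_top.2 φ.surjective, ← MonoidHom.range_eq_map, range_subtype]
  exact ⟨_, ⟨Subtype.val_injective.comp φ.injective, by rw [hr]; exact hi⟩, hr⟩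

theorem mem_Eg (hp : p ≠ 2) (hi : Function.Injective ι) {x z : Hs p} (hx : x.v ≠ 0) (hz : ∀ g, ι g * ι z = ι z * ι g)
    (h : IsConj (ι x) (ι z)) : x.v ∈ Eg ι := by
  have z0 : z.v = 0 := by
    by_contra h
    obtain ⟨s, hs⟩ := exists_om_eq h 1
    exact one_ne_zero (hs.symm.trans ((Hs.comm_iff hp (x := ⟨s, 0⟩) (y := z)).1
      (hi (by rw [map_mul, map_mul, hz ⟨s, 0⟩]))))
  obtain ⟨n, hn⟩ := isConj_iff.1 h
  obtain ⟨s, hs⟩ := exists_om_eq hx (x.c / 2)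
  have e : x = (⟨s, 0⟩ : Hs p) * ⟨x.v, 0⟩ * (⟨s, 0⟩ : Hs p)⁻¹ := by
    rw [Hs.conj_eq, hs, zero_add, mul_div_cancel₀ _ (two_ne hp)]
  refine ⟨hx, n * ι ⟨s, 0⟩, z.c, ?_⟩
  rw [show (⟨0, z.c⟩ : Hs p) = z from Hs.ext z0.symm rfl, ← hn, congrArg ι e, map_mul, map_mul, map_inv]
  group

theorem three_of (hp : p ≠ 2) (hi : Function.Injective ι) {y₁ y₂ y₃ c₁ c₂ c₃ : G} (h1 : y₁ ∈ ι.range)
    (h2 : y₂ ∈ ι.range) (h3 : y₃ ∈ ι.range) (d1 : c₁ ∈ ι.range) (d2 : c₂ ∈ ι.range) (d3 : c₃ ∈ ι.range)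
    (z1 : ∀ g ∈ ι.range, g * c₁ = c₁ * g) (z2 : ∀ g ∈ ι.range, g * c₂ = c₂ * g) (z3 : ∀ g ∈ ι.range, g * c₃ = c₃ * g)
    (k1 : IsConj y₁ c₁) (k2 : IsConj y₂ c₂) (k3 : IsConj y₃ c₃) (n1 : y₁ * y₂ ≠ y₂ * y₁) (n2 : y₁ * y₃ ≠ y₃ * y₁)
    (n3 : y₂ * y₃ ≠ y₃ * y₂) : Three (Eg ι) := by
  obtain ⟨x₁, rfl⟩ := h1
  obtain ⟨x₂, rfl⟩ := h2
  obtain ⟨x₃, rfl⟩ := h3
  obtain ⟨w₁, rfl⟩ := d1
  obtain ⟨w₂, rfl⟩ := d2
  obtain ⟨w₃, rfl⟩ := d3
  have nc : ∀ {x y : Hs p}, ι x * ι y ≠ ι y * ι x → om x.v y.v ≠ 0 := fun h e =>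
    h (by rw [← map_mul, (Hs.comm_iff hp).2 e, map_mul])
  exact ⟨_, mem_Eg hp hi (fun e => nc n1 (by rw [e, om_zerol])) (fun g => z1 _ ⟨g, rfl⟩) k1,
    _, mem_Eg hp hi (fun e => nc n1 (by rw [e, om_zeror])) (fun g => z2 _ ⟨g, rfl⟩) k2,
    _, mem_Eg hp hi (fun e => nc n2 (by rw [e, om_zeror])) (fun g => z3 _ ⟨g, rfl⟩) k3, nc n1, nc n2, nc n3⟩

theorem exists_mat (hp : p ≠ 2) (hi : Function.Injective ι) {n : G} (hn : n ∈ normalizer (ι.range : Set G)) :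
    ∃ (g : G2 p) (s : Hs p), ∀ x, n * ι x * n⁻¹ = ι (s * act g x * s⁻¹) := by
  choose f hf using fun x => show ∃ y, ι y = n * ι x * n⁻¹ from conj_mem_of_mem_normalizer hn ⟨x, rfl⟩
  obtain ⟨g, s, e⟩ := exists_act hp (MonoidHom.mk' f fun x y => hi (by rw [map_mul, hf, hf, hf, map_mul]; group))
    fun x y (e : f x = f y) => hi (by simpa using (hf x).symm.trans ((congrArg ι e).trans (hf y)))
  exact ⟨g, s, fun x => by rw [← hf, show f x = _ from e x]⟩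

theorem card_W (hp : p ≠ 2) (hi : Function.Injective ι) (hc : centralizer (ι.range : Set G) ≤ ι.range) :
    Nat.card (normalizer (ι.range : Set G)) = p ^ 3 * Nat.card (Wg ι) := by
  choose g s e using fun n : normalizer (ι.range : Set G) => exists_mat hp hi n.2
  have un : ∀ n k, (∀ x, ∃ y, (n : normalizer (ι.range : Set G)) * ι x * (n : G)⁻¹ = ι y ∧ y.v = ap k x.v) → g n = k :=
    fun n k h => g_ext fun v => by
      obtain ⟨y, h1, h2⟩ := h ⟨v, 0⟩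
      rw [← h2, ← hi ((e n _).symm.trans h1), Hs.conj_eq]
      rfl
  let ρ : normalizer (ι.range : Set G) →* G2 p := MonoidHom.mk' g fun n m => un _ _ fun x =>
    ⟨s n * act (g n) (s m * act (g m) x * (s m)⁻¹) * (s n)⁻¹, by rw [← e n, ← e m, coe_mul]; group,
      by rw [Hs.conj_eq, Hs.conj_eq, ap_mul]; rfl⟩
  have h1 : ρ.range = Wg ι := Subgroup.ext fun k => by
    constructor
    · rintro ⟨n, rfl⟩
      refine ⟨(ι (s n))⁻¹ * n, fun x => ?_⟩
      have := e n x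
      rw [map_mul, map_mul, map_inv] at this
      calc ι (act (g n) x) = (ι (s n))⁻¹ * (ι (s n) * ι (act (g n) x) * (ι (s n))⁻¹) * ι (s n) := by group
        _ = _ := by rw [← this]; group
    · rintro ⟨n, hn⟩
      have hN : n ∈ normalizer (ι.range : Set G) := mem_normalizer_iff.2 fun y => ⟨by
        rintro ⟨x, rfl⟩
        exact ⟨_, hn x⟩, by
        rintro ⟨x, hx⟩
        refine ⟨act k⁻¹ x, ?_⟩
        have := hn (act k⁻¹ x)
        rw [act_act_inv, hx] at this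
        simpa using this.symm⟩
      exact ⟨⟨n, hN⟩, un _ _ fun x => ⟨_, (hn x).symm, rfl⟩⟩
  have h2 : ρ.ker = ι.range.subgroupOf _ := Subgroup.ext fun n => by
    constructor
    · intro (h : g n = 1)
      have : (ι (s n))⁻¹ * n ∈ ι.range := hc (mem_centralizer_of_conj_eq (by
        rintro _ ⟨x, rfl⟩
        have := e n x
        rw [h, act_one, map_mul, map_mul, map_inv] at this
        calc _ = (ι (s n))⁻¹ * (n * ι x * (n : G)⁻¹) * ι (s n) := by group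
          _ = _ := by rw [this]; group))
      have := mul_mem (⟨s n, rfl⟩ : ι (s n) ∈ ι.range) this
      rwa [mul_inv_cancel_left] at this
    · rintro ⟨y, hy⟩
      refine un _ _ fun x => ⟨y * x * y⁻¹, ?_, by rw [Hs.conj_eq, ap_one]⟩
      rw [map_mul, map_mul, map_inv, hy]
      rfl
  rw [← ρ.ker.card_mul_index, index_ker, h1, h2, Nat.card_congr (subgroupOfEquivOfLe le_normalizer).toEquiv,
    ← Nat.card_congr (MonoidHom.ofInjective hi).toEquiv, Hs.card]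

end Grp

theorem Real.data (hp : p ≠ 2) {W : Subgroup (G2 p)} {E : Set (V2 p)} (h : Real W E) : Data W E := by
  obtain ⟨G, _, _, ι, h, rfl, rfl⟩ := h
  exact h.data hp

theorem real_of (hp : p ≠ 2) (hF : F.IsSaturated p) {h : G2 p} {W : Subgroup (G2 p)} {E : Set (V2 p)}
    (c : Cj h (Wf F) (Ef F) W E) (r : Real W E) : F.IsRealizable p := by
  obtain ⟨G, _, _, ι, hι, rfl, rfl⟩ := r
  obtain ⟨F', hF', hr, e, e'⟩ := (hι.comp h).exists_fs
  have d := cj_comp ι h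
  rwa [uniq hp hF hF' (Subgroup.ext fun g => by rw [e, c.1, d.1]) (Set.ext fun v => by rw [e', c.2, d.2])]

theorem real_sp3 (hp : p ≠ 2) (h : RVS.Sp3 p) : ∃ (W : Subgroup (G2 p)) (E : Set (V2 p)), Real W E ∧ Three E := by
  obtain ⟨G, _, _, P, c, y₁, y₂, y₃, -, hi, hc, he, c1, -, c2, h1, h2, h3, ⟨k1, e1⟩, ⟨k2, e2⟩, ⟨k3, e3⟩, n1, n2, n3⟩ := h
  obtain ⟨ι, hι, rfl⟩ := exists_emb hp hi hc he h1 h2 n1
  exact ⟨_, _, ⟨G, _, ‹_›, ι, hι, rfl, rfl⟩, three_of hp hι.inj h1 h2 h3 (pow_mem c1 _) (pow_mem c1 _) (pow_mem c1 _)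
    (fun g hg => (c2 g hg).pow_right _) (fun g hg => (c2 g hg).pow_right _) (fun g hg => (c2 g hg).pow_right _)
    e1 e2 e3 n1 n2 n3⟩

theorem real_sp3k {k : ℕ} (h : Sp3k k) :
    ∃ (W : Subgroup (G2 3)) (E : Set (V2 3)), Real W E ∧ Three E ∧ Nat.card W = k := by
  obtain ⟨G, _, _, P, c, y₁, y₂, y₃, hi, hc, he, c1, c2, h1, h2, h3, e1, e2, e3, n1, n2, n3, hC, hN⟩ := h
  obtain ⟨ι, hι, rfl⟩ := exists_emb (p := 3) (by decide) hi hc he h1 h2 n1
  refine ⟨_, _, ⟨G, _, ‹_›, ι, hι, rfl, rfl⟩, three_of (by decide) hι.inj h1 h2 h3 c1 c1 c1 c2 c2 c2 e1 e2 e3 n1 n2 n3,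
    ?_⟩
  have := card_W (by decide) hι.inj hC
  omega

/-- Exactly two lines. -/
theorem cj_two {W : Subgroup (G2 p)} {E : Set (V2 p)} (d : Data W E) {u v : V2 p} (hu : u ∈ E) (hv : v ∈ E)
    (h : om u v ≠ 0) (t : ¬ Three E) : ∃ k W', Cj k W E W' (Ax p) := by
  obtain ⟨W', E', c⟩ := exists_cj (cols u v h)⁻¹ W E
  refine ⟨_, W', (Set.ext fun w => ?_ : E' = Ax p) ▸ c⟩
  have e := c.symm.2 w
  rw [inv_inv, ap_cols] at e
  rw [e]
  constructor
  · intro hw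
    refine ⟨fun w0 => d.ne _ hw (by simp [w0]), ?_⟩
    by_contra h0
    refine t ⟨u, hu, v, hv, _, hw, h, ?_, ?_⟩
    · rw [om_addr, om_smulr, om_smulr, om_self, mul_zero, zero_add]
      exact mul_ne_zero (right_ne_zero_of_mul h0) h
    · rw [om_addr, om_smulr, om_smulr, om_self, mul_zero, add_zero, om_swap]
      exact mul_ne_zero (left_ne_zero_of_mul h0) (neg_ne_zero.2 h)
  · rintro ⟨w0, hw⟩
    rcases mul_eq_zero.1 hw with e | e
    · rw [e, zero_smul, zero_add]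
      exact d.smul hv fun e' => w0 (v_ext e e')
    · rw [e, zero_smul, add_zero]
      exact d.smul hu fun e' => w0 (v_ext e' e)

/-- All the steps. -/
structure Steps : Prop where
  two : TwoThm
  la0 : LA0
  la5 : LA1 5
  la13 : LA1 13
  la3 : LA3
  k8 : Sp3k 8
  k16 : Sp3k 16
  s5 : RVS.Sp3 5
  s13 : RVS.Sp3 13

theorem Steps.top (h : Steps) (hp : p ≠ 2) (h7 : p ≠ 7) (hF : F.IsSaturated p) : F.IsRealizable p := by
  have d := data hp hF
  by_cases t : Three (Ef F)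
  · rcases h.la0 p hp _ _ d t with rfl | rfl | rfl | rfl
    · obtain ⟨W, E, r, t', e⟩ : ∃ (W : Subgroup (G2 3)) (E : Set (V2 3)), Real W E ∧ Three E ∧
          Nat.card W = Nat.card (Wf F) := by
        rcases h.la3.1 _ _ d t with e | e <;> rw [e]
        exacts [real_sp3k h.k8, real_sp3k h.k16]
      obtain ⟨k, c⟩ := h.la3.2 _ _ _ _ d t (r.data hp) t' e.symm
      exact real_of hp hF c r
    · obtain ⟨W, E, r, t'⟩ := real_sp3 hp h.s5
      obtain ⟨k, c⟩ := h.la5 _ _ _ _ d t (r.data hp) t'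
      exact real_of hp hF c r
    · exact absurd rfl h7
    · obtain ⟨W, E, r, t'⟩ := real_sp3 hp h.s13
      obtain ⟨k, c⟩ := h.la13 _ _ _ _ d t (r.data hp) t'
      exact real_of hp hF c r
  by_cases h1 : ∀ u ∈ Ef F, ∀ v ∈ Ef F, om u v = 0
  · exact one hp hF h1
  push Not at h1
  obtain ⟨u, hu, v, hv, e⟩ := h1
  obtain ⟨k, W, c⟩ := cj_two d hu hv e t
  exact real_of hp hF c (h.two p hp W (c.data d))

theorem Steps.main (h : Steps) {Ω : Type*} [Group Ω] {S : Subgroup Ω} [Finite S] (F : FusionSystem S)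
    (hF : F.IsSaturated p) (hp : p ≠ 2) (h7 : p ≠ 7) (hE : IsExtraspecial p S) (hc : Nat.card S = p ^ 3)
    (he : Monoid.exponent S = p) : F.IsRealizable p := by
  have n1 : ¬ IsMulCommutative (Hs p) := fun h => one_ne_zero (om_e.symm.trans
    ((Hs.comm_iff hp).1 (h.is_comm.comm (e0 p) (e1 p))))
  obtain ⟨φ⟩ := Cfsg.Agent.S0098.result hp hE (isExtraspecial_of_card_eq_cube Hs.card n1) he (exp_eq n1 Hs.pow_p)
    (hc.trans Hs.card.symm)
  have i := (gIso_of_mulEquiv (φ.trans topEquiv.symm)).fIso_transport F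
  exact i.symm.isRealizable (h.top hp h7 (i.isSaturated hF))

end CL.RV
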