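/-
Fusion systems over `p^{1+2}_+`: the normal form of a pair `(W, E)` with three lines.
-/
import Cfsg.Agent.Fus.RV0

set_option autoImplicit false

namespace CL.RV

open Matrix

variable {p : ℕ} {a m b : ZMod p} {W W' : Subgroup (G2 p)} {E E' : Set (V2 p)} {g g' h A B : G2 p} {u u' v : V2 p}

/-- the parameters -/
structure Par (a m b : ZMod p) : Prop where
  ab : a * b = 1
  bm : b = a * m
  ne : a ≠ m

/-- `g` has eigenvalue `a` at `v` and determinant `b` -/
def Hm (a b : ZMod p) (W : Subgroup (G2 p)) (v : V2 p) (g : G2 p) : Prop := g ∈ W ∧ ap g v = a • v ∧ dt g = b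

theorem ap_sub (g : G2 p) (u v : V2 p) : ap g (u - v) = ap g u - ap g v := mulVec_sub _ _ _

theorem dt_conj (h g : G2 p) : dt (h * g * h⁻¹) = dt g := by
  rw [dt_mul, dt_mul]
  linear_combination dt g * dt_inv_mul h

theorem Hm.cj (k : Hm a b W v g) (c : Cj h W E W' E') : Hm a b W' (ap h v) (h * g * h⁻¹) :=
  ⟨(c.1 g).1 k.1, by rw [ap_mul, ap_mul, ap_inv_ap, k.2.1, ap_smul], (dt_conj h g).trans k.2.2⟩

theorem Hm.conj (k : Hm a b W v g) (hh : h ∈ W) : Hm a b W (ap h v) (h * g * h⁻¹) :=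
  ⟨mul_mem (mul_mem hh k.1) (inv_mem hh), by rw [ap_mul, ap_mul, ap_inv_ap, k.2.1, ap_smul], (dt_conj h g).trans k.2.2⟩

theorem Hm.smul (k : Hm a b W v g) (c : ZMod p) : Hm a b W (c • v) g :=
  ⟨k.1, by rw [ap_smul, k.2.1, smul_comm], k.2.2⟩

theorem Data.hm (d : Data W E) (P : Par a m b) (hv : v ∈ E) : ∃ g, Hm a b W v g := d.tor v hv a b P.ab

theorem mat_eq {x y z w : ZMod p} (h0 : ap g ![1, 0] = ![x, z]) (h1 : ap g ![0, 1] = ![y, w]) : g.1 = !![x, y; z, w] := by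
  have a0 := congrFun h0 0
  have a1 := congrFun h0 1
  have b0 := congrFun h1 0
  have b1 := congrFun h1 1
  simp only [ap_0, ap_1, cons_val_zero, cons_val_one, mul_one, mul_zero, add_zero, zero_add] at a0 a1 b0 b1
  refine Matrix.ext fun i j => ?_
  fin_cases i <;> fin_cases j
  exacts [a0, b0, a1, b1]

theorem ap_mat {x y z w : ZMod p} (h : g.1 = !![x, y; z, w]) (v : V2 p) :
    ap g v = ![x * v 0 + y * v 1, z * v 0 + w * v 1] :=
  v_ext (by simp [ap_0, h]) (by simp [ap_1, h])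

/-- (B4) -/
def XP (a m b : ZMod p) : Prop := ∀ W : Subgroup (G2 p), (∀ g ∈ W, g ^ p = 1 → g = 1) → ∀ A ∈ W, ∀ B ∈ W,
  A.1 = !![a, 0; 0, m] → ap B ![1, 1] = a • ![1, 1] → dt B = b → ap B ![1, -1] = m • ![1, -1]

/-- the normal form -/
structure NF (a m b : ZMod p) (W : Subgroup (G2 p)) (E : Set (V2 p)) (A B : G2 p) : Prop where
  e0 : ![1, 0] ∈ E
  e1 : ![1, 1] ∈ E
  hA : Hm a b W ![1, 0] A
  hB : Hm a b W ![1, 1] B
  mA : A.1 = !![a, 0; 0, m]
  mB' : ap B ![1, -1] = m • ![1, -1]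

/-! ### words on quadruples -/

abbrev T4 (p : ℕ) : Type := ZMod p × ZMod p × ZMod p × ZMod p

def tup (g : G2 p) : T4 p := (g.1 0 0, g.1 0 1, g.1 1 0, g.1 1 1)

def tm (x y : T4 p) : T4 p := (x.1 * y.1 + x.2.1 * y.2.2.1, x.1 * y.2.1 + x.2.1 * y.2.2.2,
  x.2.2.1 * y.1 + x.2.2.2 * y.2.2.1, x.2.2.1 * y.2.1 + x.2.2.2 * y.2.2.2)

def tp (x : T4 p) : ℕ → T4 p
  | 0 => (1, 0, 0, 1)
  | n + 1 => tm (tp x n) x

def tw (x y : T4 p) : List Bool → T4 p
  | [] => (1, 0, 0, 1)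
  | c :: w => tm (cond c x y) (tw x y w)

theorem tup_one : tup (1 : G2 p) = (1, 0, 0, 1) := by simp [tup]

theorem tup_mul (g h : G2 p) : tup (g * h) = tm (tup g) (tup h) := by
  simp [tup, tm, Matrix.mul_apply, Fin.sum_univ_two]

theorem tup_pow (g : G2 p) : ∀ n, tup (g ^ n) = tp (tup g) n
  | 0 => by rw [pow_zero, tup_one, tp]
  | n + 1 => by rw [pow_succ, tup_mul, tup_pow g n, tp]

theorem tup_inj (e : tup g = tup h) : g = h := by
  simp only [tup, Prod.mk.injEq] at e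
  refine Units.ext (Matrix.ext fun i j => ?_)
  fin_cases i <;> fin_cases j
  exacts [e.1, e.2.1, e.2.2.1, e.2.2.2]

theorem exists_tw (hA : A ∈ W) (hB : B ∈ W) : ∀ w, ∃ g ∈ W, tup g = tw (tup A) (tup B) w
  | [] => ⟨1, one_mem _, tup_one⟩
  | c :: w => let ⟨g, hg, e⟩ := exists_tw hA hB w
    ⟨cond c A B * g, mul_mem (by cases c; exacts [hB, hA]) hg, by rw [tup_mul, e, tw]; cases c <;> rfl⟩

variable [Fact p.Prime]

theorem Par.a_ne (P : Par a m b) : a ≠ 0 := left_ne_zero_of_mul_eq_one P.ab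
theorem Par.b_ne (P : Par a m b) : b ≠ 0 := right_ne_zero_of_mul_eq_one P.ab
theorem Par.m_ne (P : Par a m b) : m ≠ 0 := right_ne_zero_of_mul (P.bm ▸ P.b_ne)

theorem xp_of (P : Par a m b) (ws : List (List Bool)) (H : ∀ x : ZMod p, 2 * x = a + m ∨ ∃ w ∈ ws,
    tp (tw (a, 0, 0, m) (x, a - x, x - m, a - x + m) w) (p - 1) ≠ (1, 0, 0, 1) ∧
      tp (tp (tw (a, 0, 0, m) (x, a - x, x - m, a - x + m) w) (p - 1)) p = (1, 0, 0, 1)) : XP a m b := by
  intro W hW A hA B hB mA e1 e2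
  have a0 := congrFun e1 0
  have a1 := congrFun e1 1
  simp only [ap_0, ap_1, cons_val_zero, cons_val_one, mul_one, Pi.smul_apply, smul_eq_mul] at a0 a1
  have a2 : B.1 1 1 = a - B.1 0 0 + m := mul_left_cancel₀ P.a_ne (by
    rw [dt_eq, P.bm] at e2
    linear_combination e2 + (B.1 1 0) * a0 + (a - B.1 0 0) * a1)
  rcases H (B.1 0 0) with k | ⟨w, -, k1, k2⟩
  · refine v_ext ?_ ?_ <;> simp only [ap_0, ap_1, cons_val_zero, cons_val_one, Pi.smul_apply, smul_eq_mul]
    · linear_combination k - a0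
    · linear_combination a1 - 2 * a2 + k
  · obtain ⟨g, hg, e⟩ := exists_tw hA hB w
    rw [show tup A = (a, 0, 0, m) by simp [tup, mA], show tup B = (B.1 0 0, a - B.1 0 0, B.1 0 0 - m, a - B.1 0 0 + m) from
      Prod.ext rfl (Prod.ext (by simp only [tup]; linear_combination a0)
        (Prod.ext (by simp only [tup]; linear_combination a1 - a2) a2))] at e
    rw [← e, ← tup_pow] at k1 k2
    rw [← tup_pow, ← tup_one] at k2
    exact absurd (by rw [hW _ (pow_mem hg _) (tup_inj k2), tup_one]) k1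

/-- (B1) -/
theorem unip (hv : v ≠ 0) (h1 : ap g v = v) (h2 : dt g = 1) : g ^ p = 1 := g_ext fun w => by
  obtain ⟨t, ht⟩ := exists_smul_of_om hv (v := ap g w + -w) (by
    rw [om_addr, om_negr]
    nth_rewrite 1 [← h1]
    rw [om_ap, h2]; ring)
  have : ∀ n : ℕ, ap (g ^ n) w = w + ((n : ZMod p) * t) • v := fun n => by
    induction n with
    | zero => simp [ap_one]
    | succ n ih =>
      rw [pow_succ', ap_mul, ih, ap_add, ap_smul, h1, eq_add_of_add_neg_eq ht]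
      push_cast
      module
  rw [this, ap_one]
  simp

/-- (B2) -/
theorem Hm.uniq (d : Data W E) (hv : v ≠ 0) (k : Hm a b W v g) (k' : Hm a b W v g') : g = g' :=
  inv_mul_eq_one.1 (d.nop _ (mul_mem (inv_mem k.1) k'.1) (unip hv (by rw [ap_mul, k'.2.1, ← k.2.1, ap_inv_ap])
    (by rw [dt_mul, k'.2.2, ← k.2.2, dt_inv_mul])))

theorem Hm.comm (d : Data W E) (hv : v ≠ 0) (k : Hm a b W v g) (hh : h ∈ W) {c : ZMod p} (e : ap h v = c • v) :
    h * g * h⁻¹ = g :=
  (k.conj hh).uniq d (ap_ne_zero h hv) (e ▸ k.smul c)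

/-- (B3) -/
theorem Hm.partner (P : Par a m b) (hv : v ≠ 0) (k : Hm a b W v g) : ∃ v', om v v' ≠ 0 ∧ ap g v' = m • v' := by
  obtain ⟨w, hw⟩ := exists_om_eq hv (-1)
  rw [om_swap, neg_inj] at hw
  obtain ⟨t, ht⟩ := exists_smul_of_om hv (v := ap g w + -(m • w)) (mul_left_cancel₀ P.a_ne (by
    have := om_ap g v w
    rw [k.2.1, om_smull, k.2.2, P.bm] at this
    rw [om_addr, om_negr, om_smulr]
    linear_combination this))
  have ne := sub_ne_zero.2 P.ne.symm
  refine ⟨w + (t / (m - a)) • v, by rw [om_addr, om_smulr, om_self, hw]; simp, ?_⟩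
  rw [ap_add, ap_smul, k.2.1, eq_add_of_add_neg_eq ht, smul_add, smul_smul, smul_smul,
    show m * (t / (m - a)) = t + t / (m - a) * a by field_simp; ring]
  module

/-- the change of coordinates -/
theorem exists_coord (X : XP a m b) (d : Data W E) (k : Hm a b W u g) (k1 : ap g u' = m • u') (h0 : om u u' ≠ 0)
    {α β : ZMod p} (hα : α ≠ 0) (hβ : β ≠ 0) (k' : Hm a b W (α • u + β • u') g') :
    ∃ h W' E', Cj h W E W' E' ∧ ap h (α • u) = ![1, 0] ∧ ap h (α • u + β • u') = ![1, 1] ∧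
      ap h (α • u - β • u') = ![1, -1] ∧ (h * g * h⁻¹).1 = !![a, 0; 0, m] ∧
        ap (h * g' * h⁻¹) ![1, -1] = m • ![1, -1] := by
  have h1 : om (α • u) (β • u') ≠ 0 := by rw [om_smull, om_smulr]; exact mul_ne_zero hα (mul_ne_zero hβ h0)
  obtain ⟨W', E', c⟩ := exists_cj (cols _ _ h1)⁻¹ W E
  have e : ∀ w x, w 0 • α • u + w 1 • β • u' = x → ap (cols _ _ h1)⁻¹ x = w := fun w x e => by
    rw [← e, ← ap_cols h1, ap_inv_ap]
  have e0 := e ![1, 0] (α • u) (by simp)
  have e1 := e ![0, 1] (β • u') (by simp)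
  have e2 := e ![1, 1] (α • u + β • u') (by simp)
  generalize (cols _ _ h1)⁻¹ = h at c e0 e1 e2
  have mA : (h * g * h⁻¹).1 = !![a, 0; 0, m] := mat_eq
    (by rw [← e0, ((k.smul α).cj c).2.1, e0]; simp)
    (by rw [← e1, ap_mul, ap_mul, ap_inv_ap, ap_smul, k1, smul_comm, ap_smul, e1]; simp)
  have kB := k'.cj c
  rw [e2] at kB
  exact ⟨h, W', E', c, e0, e2, by rw [ap_sub, e0, e1]; simp, mA,
    X W' (c.data d).nop _ (k.cj c).1 _ kB.1 mA kB.2.1 kB.2.2⟩

/-- (XP') -/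
theorem XP.partner (X : XP a m b) (d : Data W E) (k : Hm a b W u g) (k1 : ap g u' = m • u') (h0 : om u u' ≠ 0)
    {α β : ZMod p} (hα : α ≠ 0) (hβ : β ≠ 0) (k' : Hm a b W (α • u + β • u') g') :
    ap g' (α • u - β • u') = m • (α • u - β • u') := by
  obtain ⟨h, -, -, -, -, -, e, -, e'⟩ := exists_coord X d k k1 h0 hα hβ k'
  rw [← e, ap_mul, ap_mul, ap_inv_ap, ← ap_smul] at e'
  exact ap_inj h e'

/-- (B5) -/
theorem exists_nf (P : Par a m b) (X : XP a m b) (d : Data W E) (t : Three E) :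
    ∃ h W' E' A B, Cj h W E W' E' ∧ NF a m b W' E' A B := by
  obtain ⟨u, hu, v, hv, w, hw, h1, h2, h3⟩ := t
  obtain ⟨g, k⟩ := d.hm P hu
  obtain ⟨u', h0, k1⟩ := k.partner P (d.ne u hu)
  obtain ⟨x, hx, x1, x2⟩ : ∃ x ∈ E, om u x ≠ 0 ∧ om x u' ≠ 0 := by
    by_contra! c
    apply mul_ne_zero h0 h3
    have c1 := c v hv h1
    have c2 := c w hw h2
    simp only [om] at c1 c2 ⊢
    linear_combination (u 0 * w 1 - u 1 * w 0) * c1 - (u 0 * v 1 - u 1 * v 0) * c2
  obtain ⟨g', k'⟩ := d.hm P hx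
  have e : x = (om x u' / om u u') • u + (om u x / om u u') • u' := by
    refine v_ext ?_ ?_ <;> simp only [Pi.add_apply, Pi.smul_apply, smul_eq_mul] <;> field_simp <;> simp only [om] <;> ring
  have hα := div_ne_zero x2 h0
  obtain ⟨h, W', E', c, e0, e1, -, mA, mB⟩ := exists_coord X d k k1 h0 hα (div_ne_zero x1 h0) (e ▸ k')
  rw [← e] at e1
  exact ⟨h, W', E', _, _, c, e0 ▸ (c.2 _).1 (d.smul hu hα), e1 ▸ (c.2 _).1 hx, e0 ▸ (k.smul _).cj c, e1 ▸ k'.cj c, mA, mB⟩

theorem NF.mB (n : NF a m b W E A B) (hp : p ≠ 2) :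
    B.1 = !![(a + m) / 2, (a - m) / 2; (a - m) / 2, (a + m) / 2] := by
  have h2 := two_ne hp
  have e : ∀ s t : ZMod p, ap B (s • ![1, 1] + t • ![1, -1]) = ![s * a + t * m, s * a - t * m] := fun s t => by
    rw [ap_add, ap_smul, ap_smul, n.hB.2.1, n.mB']
    exact v_ext (by simp) (by simp [sub_eq_add_neg])
  refine mat_eq ?_ ?_
  · convert e (1 / 2) (1 / 2) using 2
    · exact v_ext (by simp; field_simp; ring) (by simp)
    · ring
    · congr 1; ring
  · convert e (1 / 2) (-1 / 2) using 2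
    · exact v_ext (by simp; ring) (by simp; field_simp; ring)
    · ring
    · congr 1; ring

instance : Fact (Nat.Prime 5) := ⟨Nat.prime_five⟩
instance : Fact (Nat.Prime 13) := ⟨by decide⟩

theorem par3 : Par (p := 3) 2 1 2 := ⟨by decide, by decide, by decide⟩
theorem par5 : Par (p := 5) 2 4 3 := ⟨by decide, by decide, by decide⟩
theorem par13 : Par (p := 13) 2 10 7 := ⟨by decide, by decide, by decide⟩

theorem xp3 : XP (p := 3) 2 1 2 := xp_of par3 [[true, false]] (by decide +kernel)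

theorem xp5 : XP (p := 5) 2 4 3 := xp_of par5 [[true, false], [true, true, true, false]] (by decide +kernel)

theorem xp13 : XP (p := 13) 2 10 7 :=
  xp_of par13 [[true, false], [true, true, true, false], [true, true, true, false, true, false],
    [true, true, true, false, true, false, false, false], [true, true, true, false, true, false, true, true, false, false],
    [true, true, true, false, true, true, false, false, true, false]] (by decide +kernel)

end CL.RV
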