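/-
Fusion systems over `p^{1+2}_+`: three lines bound the prime.
-/
import Cfsg.Agent.Fus.RV0
import Cfsg.Agent.Loc.XP3

set_option autoImplicit false

namespace CL.RV

open Cfsg CL.SL2 CL.Odd Matrix
open scoped MatrixGroups

variable {p : ℕ} [hp : Fact p.Prime]

theorem la0_not_dvd {W : Subgroup (G2 p)} {E : Set (V2 p)} (d : Data W E) :
    ¬ p ∣ Nat.card (W.map (ProjGenLinGroup.mk : G2 p →* PGL(2, ZMod p))) := fun e => by
  obtain ⟨g, hg⟩ := exists_prime_orderOf_dvd_card' p (e.trans (Subgroup.card_map_dvd W _))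
  have h1 : (g : G2 p) = 1 := d.nop g g.2 (congrArg Subtype.val (hg ▸ pow_orderOf_eq_one g))
  rw [show g = 1 from Subtype.ext h1, orderOf_one] at hg
  exact hp.out.one_lt.ne hg

theorem la0_pow {g : G2 p} {v : V2 p} {a b : ZMod p} (h1 : ap g v = a • v) (h2 : dt g = b) (k : ℕ) :
    ap (g ^ k) v = a ^ k • v ∧ dt (g ^ k) = b ^ k := by
  induction k with
  | zero => simp [ap_one, dt_one]
  | succ k ih => rw [pow_succ, ap_mul, dt_mul, h1, h2, ap_smul, ih.1, ih.2, smul_smul, pow_succ', pow_succ]; exact ⟨rfl, rfl⟩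

theorem la0_elt {W : Subgroup (G2 p)} {E : Set (V2 p)} (d : Data W E) {v : V2 p} (hv : v ∈ E) (h0 : v ≠ 0)
    (l : (ZMod p)ˣ) : ∃ t : W.map (ProjGenLinGroup.mk : G2 p →* PGL(2, ZMod p)), orderOf (l ^ 3) ∣ orderOf t ∧
      (t : PGL(2, ZMod p)) • Projectivization.mk (ZMod p) v h0 = Projectivization.mk (ZMod p) v h0 := by
  obtain ⟨g, hg, h1, h2⟩ := d.tor v hv l (l⁻¹ : (ZMod p)ˣ) l.mul_inv
  refine ⟨⟨_, g, hg, rfl⟩, orderOf_dvd_of_pow_eq_one ?_, ?_⟩
  · generalize hk : orderOf (⟨_, g, hg, rfl⟩ : W.map (ProjGenLinGroup.mk : G2 p →* PGL(2, ZMod p))) = k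
    have e3 : (ProjGenLinGroup.mk : G2 p →* PGL(2, ZMod p)) (g ^ k) = 1 := by
      rw [map_pow]
      exact congrArg Subtype.val (hk ▸ pow_orderOf_eq_one
        (⟨_, g, hg, rfl⟩ : W.map (ProjGenLinGroup.mk : G2 p →* PGL(2, ZMod p))))
    obtain ⟨c, hc⟩ := GeneralLinearGroup.mem_center_iff_val_mem_range_scalar.1 (ProjGenLinGroup.mk_eq_one.1 e3)
    obtain ⟨e5, e6⟩ := la0_pow h1 h2 k
    have e4 : ap (g ^ k) v = c • v := by
      rw [ap, ← hc]
      simp only [scalar_apply, ← smul_one_eq_diagonal, smul_mulVec, one_mulVec]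
    have e7 : c = (l : ZMod p) ^ k := smul_left_injective _ h0 (e4.symm.trans e5)
    have e8 : dt (g ^ k) = c ^ 2 := by
      rw [dt, ← hc]; simp
    have e9 : (l ^ k) ^ 2 = l⁻¹ ^ k := Units.ext (by
      rw [Units.val_pow_eq_pow_val, Units.val_pow_eq_pow_val, Units.val_pow_eq_pow_val, ← e7, ← e8, e6])
    rw [inv_pow] at e9
    rw [← pow_mul, pow_mul']
    generalize l ^ k = u at e9
    rw [pow_succ, e9, inv_mul_cancel]
  · exact (Projectivization.PGL.mk_smul_mk _ _).trans ((Projectivization.mk_eq_mk_iff _ _ _ _ _).2 ⟨l, h1.symm⟩)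

theorem la0_ne {u v : V2 p} (hu : u ≠ 0) (hv : v ≠ 0) (h : om u v ≠ 0) :
    Projectivization.mk (ZMod p) u hu ≠ Projectivization.mk (ZMod p) v hv := fun e => by
  obtain ⟨a, ha⟩ := (Projectivization.mk_eq_mk_iff _ _ _ _ _).1 e
  apply h
  rw [← ha, Units.smul_def, om_smull, om_self, mul_zero]

theorem la0 : LA0 := by
  intro p hp h2 W E d ⟨u, hu, v, hv, w, hw, h1, h3, h4⟩
  classical
  obtain ⟨l, hl⟩ := IsCyclic.exists_ofOrder_eq_natCard (α := (ZMod p)ˣ)
  rw [Nat.card_eq_fintype_card, ZMod.card_units] at hl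
  have e2 : orderOf (l ^ 3) * Nat.gcd (p - 1) 3 = p - 1 := by
    rw [orderOf_pow, hl, Nat.div_mul_cancel (Nat.gcd_dvd_left _ _)]
  have e4 := (Nat.dvd_prime Nat.prime_three).1 (Nat.gcd_dvd_right (p - 1) 3)
  have hP := hp.out
  have h2' := hP.two_le
  by_cases hn : 4 ≤ orderOf (l ^ 3) ∧ orderOf (l ^ 3) ≠ 5
  · have hX : ({Projectivization.mk (ZMod p) u (d.ne u hu), Projectivization.mk (ZMod p) v (d.ne v hv),
        Projectivization.mk (ZMod p) w (d.ne w hw)} : Finset (P1 (ZMod p))).card = 3 :=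
      Finset.card_eq_three.2 ⟨_, _, _, la0_ne _ _ h1, la0_ne _ _ h3, la0_ne _ _ h4, rfl⟩
    rcases CL.XP3.card_le p _ (la0_not_dvd d) hn.1 hn.2 (X := {Projectivization.mk (ZMod p) u (d.ne u hu),
        Projectivization.mk (ZMod p) v (d.ne v hv), Projectivization.mk (ZMod p) w (d.ne w hw)}) (fun x hx => by
      simp only [Finset.mem_insert, Finset.mem_singleton] at hx
      rcases hx with rfl | rfl | rfl
      exacts [la0_elt d hu _ l, la0_elt d hv _ l, la0_elt d hw _ l]) with e | ⟨e, -⟩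
    · omega
    · rcases e4 with e' | e' <;> rw [e', e] at e2 <;> omega
  · have h16 : p ≤ 16 := by rcases e4 with e' | e' <;> rw [e'] at e2 <;> omega
    have h11 : p ≠ 11 := by
      rintro rfl
      rcases e4 with e' | e' <;> rw [e'] at e2 <;> omega
    clear e2 e4 hl hn h1 h3 h4 hu hv hw d l u v w W E hp
    interval_cases p <;> simp_all <;> norm_num at hP

end CL.RV
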