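/-
Fusion systems over `p^{1+2}_+`: uniqueness of the pair `(W, E)` for `p = 5` and `p = 13`.
-/
import Cfsg.Agent.Fus.RVL0

set_option autoImplicit false

namespace CL.RV

open Matrix

namespace LA1

variable {p : ℕ} {a m b : ZMod p} {W W' : Subgroup (G2 p)} {E E' : Set (V2 p)} {g h A B : G2 p} {v : V2 p}

/-- diagonal matrices -/
def Dg (g : G2 p) (x y : ZMod p) : Prop := ∀ v, ap g v = ![x * v 0, y * v 1]

theorem Dg.mul {x y x' y' : ZMod p} (h1 : Dg g x y) (h2 : Dg h x' y') : Dg (g * h) (x * x') (y * y') := fun v => by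
  rw [ap_mul, h2, h1]; simp [mul_assoc]

theorem Dg.pow {x y : ZMod p} (h1 : Dg g x y) : ∀ n : ℕ, Dg (g ^ n) (x ^ n) (y ^ n)
  | 0 => fun v => by rw [pow_zero, ap_one]; exact v_ext (by simp) (by simp)
  | n + 1 => by rw [pow_succ, pow_succ, pow_succ]; exact (h1.pow n).mul h1

theorem Dg.eq {x y : ZMod p} (h1 : Dg g x y) (h2 : Dg h x y) : g = h := g_ext fun v => (h1 v).trans (h2 v).symm

/-- `v` is moved to the first axis -/
def T (A B : G2 p) (v : V2 p) : Prop := ∃ k ∈ Subgroup.closure {A, B}, ∃ c : ZMod p, ap k v = c • ![1, 0]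

theorem mA : A ∈ Subgroup.closure {A, B} := Subgroup.subset_closure (by simp)
theorem mB : B ∈ Subgroup.closure {A, B} := Subgroup.subset_closure (by simp)

theorem T.smul (t : T A B v) (c : ZMod p) : T A B (c • v) :=
  let ⟨k, hk, d, e⟩ := t
  ⟨k, hk, c * d, by rw [ap_smul, e, smul_smul]⟩

variable [Fact p.Prime] (hp : p ≠ 2) (P : Par a m b) (hi : m * m = -(a * a)) (n : NF a m b W E A B)
include n

theorem dA : Dg A a m := fun v => by rw [ap_mat n.mA]; simp

include hp hi

theorem BB (v : V2 p) : ap (B * B) v = ![a * a * v 1, a * a * v 0] := by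
  have h2 := two_ne hp
  rw [ap_mul, ap_mat (n.mB hp), ap_mat (n.mB hp)]
  refine v_ext ?_ ?_ <;> simp only [cons_val_zero, cons_val_one] <;> field_simp
  · linear_combination 2 * (v 0 - v 1) * hi
  · linear_combination 2 * (v 1 - v 0) * hi

include P

theorem scalar : Dg (A * (B * B * A * (B * B)⁻¹)) b b := fun v => by
  obtain ⟨w, rfl⟩ : ∃ w, v = ap (B * B) w := ⟨_, (ap_ap_inv _ v).symm⟩
  rw [ap_mul, ap_mul, ap_mul, ap_inv_ap, dA n w, BB hp hi n, BB hp hi n, dA n, P.bm]
  exact v_ext (by simp; ring) (by simp; ring)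

omit hp n in
theorem ii : m * b * (m * b) = -1 := by linear_combination b * b * hi - (a * b + 1) * P.ab

theorem T_pow (j : ℕ) : T A B ![1, (m * b) ^ j] := by
  have h2 := two_ne hp
  have e : m ^ (3 * j + 1) * (m * b) ^ j = a ^ (3 * j + 1) * (m * b) := by
    have h4 : (m * b) ^ 4 = 1 := by rw [show 4 = 2 * 2 from rfl, pow_mul, pow_two (m * b), ii P hi]; ring
    calc _ = (a * b) ^ (3 * j + 1) * m ^ (3 * j + 1) * (m * b) ^ j := by rw [P.ab]; ring
      _ = a ^ (3 * j + 1) * (m * b) * ((m * b) ^ 4) ^ j := by ring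
      _ = _ := by rw [h4]; ring
  refine ⟨B * A ^ (3 * j + 1), mul_mem mB (pow_mem mA _), a ^ (3 * j + 1) * (a + m), ?_⟩
  rw [ap_mul, (dA n).pow, ap_mat (n.mB hp)]
  refine v_ext ?_ ?_ <;> simp only [cons_val_zero, cons_val_one, e, Pi.smul_apply, smul_eq_mul] <;> field_simp
  · linear_combination a ^ (3 * j + 1) * ((m + a) * P.ab - b * hi)
  · linear_combination a ^ (3 * j + 1) * ((m - a) * P.ab + b * hi)

variable (X : XP a m b) (d : Data W E)
include X d

theorem lines {s : ZMod p} (hs : ![1, s] ∈ E) (s0 : s ≠ 0) : ∃ j : ℕ, s = (m * b) ^ j := by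
  have h2 := two_ne hp
  have i2 := ii P hi
  by_cases s1 : s = 1
  · exact ⟨0, by rw [s1, pow_zero]⟩
  by_cases s2 : s = -1
  · exact ⟨2, by rw [s2, pow_two, i2]⟩
  obtain ⟨g, k⟩ := d.hm P hs
  have e1 := X.partner d n.hA (u' := ![0, 1]) (by rw [dA n]; simp) (by simp [om]) one_ne_zero s0 (g' := g)
    (by convert k using 1; simp)
  have e2 := X.partner d n.hB n.mB' (by simp only [om, cons_val_zero, cons_val_one]; intro e; apply h2; linear_combination -e)
    (α := (1 + s) / 2) (β := (1 - s) / 2) (div_ne_zero (fun e => s2 (by linear_combination e)) h2)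
    (div_ne_zero (fun e => s1 (by linear_combination -e)) h2) (g' := g)
    (by convert k using 1; exact v_ext (by simp; field_simp; ring) (by simp; field_simp; ring))
  have e3 := om_ap g ((1 : ZMod p) • ![1, 0] - s • ![0, 1]) (((1 + s) / 2) • ![1, 1] - ((1 - s) / 2) • ![1, -1])
  rw [e1, e2, om_smull, om_smulr, k.2.2, P.bm, show om ((1 : ZMod p) • ![1, 0] - s • ![0, 1])
    (((1 + s) / 2) • ![1, 1] - ((1 - s) / 2) • ![1, -1]) = 1 + s * s by simp [om]; field_simp; ring] at e3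
  have e4 : (s - m * b) * (s + m * b) = 0 := mul_left_cancel₀ (mul_ne_zero P.m_ne (sub_ne_zero.2 P.ne)) (by
    linear_combination -e3 - m * (a - m) * i2)
  rcases mul_eq_zero.1 e4 with e | e
  · exact ⟨1, by linear_combination e⟩
  · exact ⟨3, by linear_combination e - m * b * i2⟩

theorem norm1 (hv : v ∈ E) (h0 : v 0 ≠ 0) (h1 : v 1 ≠ 0) : ∃ j : ℕ, v = v 0 • ![1, (m * b) ^ j] := by
  obtain ⟨j, e⟩ := lines hp P hi n X d (s := v 1 / v 0) (by
    convert d.smul hv (inv_ne_zero h0) using 1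
    exact v_ext (by simp [h0]) (by simp [div_eq_inv_mul])) (div_ne_zero h1 h0)
  exact ⟨j, v_ext (by simp) (by simp [← e]; field_simp)⟩

theorem T_of (hv : v ∈ E) : T A B v := by
  by_cases h0 : v 0 = 0
  · exact ⟨B * B, mul_mem mB mB, a * a * v 1, by rw [BB hp hi n, h0]; simp⟩
  by_cases h1 : v 1 = 0
  · exact ⟨1, one_mem _, v 0, by rw [ap_one]; exact v_ext (by simp) (by simp [h1])⟩
  obtain ⟨j, e⟩ := norm1 hp P hi n X d hv h0 h1
  exact e ▸ (T_pow hp P hi n j).smul _

omit [Fact p.Prime] hp hi P X d in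
theorem cl_le : Subgroup.closure {A, B} ≤ W := (Subgroup.closure_le _).2 (by
  rintro _ (rfl | rfl)
  exacts [n.hA.1, n.hB.1])

theorem E_eq : E = {v | v ≠ 0 ∧ T A B v} := Set.ext fun v => ⟨fun hv => ⟨d.ne v hv, T_of hp P hi n X d hv⟩,
  fun ⟨h0, k, hk, c, e⟩ => by
    rw [← ap_inv_ap k v, e]
    exact d.inv _ (inv_mem (cl_le n hk)) _ (d.smul n.e0 fun c0 => ap_ne_zero k h0 (by rw [e, c0, zero_smul]))⟩

theorem W_eq (hb : ∀ c : ZMod p, c ≠ 0 → ∃ j < p, b ^ j = c) : W = Subgroup.closure {A, B} := by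
  refine le_antisymm (fun g hg => ?_) (cl_le n)
  obtain ⟨k, hk, c, e⟩ := T_of hp P hi n X d (d.inv g hg _ n.e0)
  rw [← ap_mul] at e
  refine (mul_mem_cancel_left hk).1 ?_
  have hh := mul_mem (cl_le n hk) hg
  generalize k * g = h at e hh
  have cm := n.hA.comm d (d.ne _ n.e0) hh e
  have e1 : ap h ![0, 1] 0 = 0 := mul_left_cancel₀ (sub_ne_zero.2 P.ne) (by
    have := congrFun (congrArg (fun x => ap x (ap h ![0, 1])) cm) 0
    simp only [ap_mul, ap_inv_ap, dA n ![0, 1], dA n (ap h ![0, 1])] at this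
    simp only [ap_0, cons_val_zero, cons_val_one] at this ⊢
    linear_combination -this)
  have dh : Dg h c (h.1 1 1) := fun v => by
    have a0 := congrFun e 0
    have a1 := congrFun e 1
    simp only [ap_0, ap_1, cons_val_zero, cons_val_one, Pi.smul_apply, smul_eq_mul] at a0 a1 e1
    exact v_ext (by simp only [ap_0, cons_val_zero]; linear_combination v 0 * a0 + v 1 * e1)
      (by simp only [ap_1, cons_val_one, cons_val_zero]; linear_combination v 0 * a1)
  generalize h.1 1 1 = y at dh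
  have c0 : c ≠ 0 := fun k => ap_ne_zero h (d.ne _ n.e0) (by rw [e, k, zero_smul])
  have y0 : y ≠ 0 := fun k => ap_ne_zero h (v := ![0, 1]) (by simp) (by rw [dh, k]; simp)
  have hv := d.inv h hh _ n.e1
  rw [dh] at hv
  obtain ⟨j, ej⟩ := norm1 hp P hi n X d hv (by simpa using c0) (by simpa using y0)
  obtain ⟨l, -, el⟩ := hb (c * b ^ j) (mul_ne_zero c0 (pow_ne_zero _ P.b_ne))
  have := ((scalar hp P hi n).pow l).mul ((dA n).pow j)
  rw [el, show c * b ^ j * a ^ j = c by rw [mul_assoc, ← mul_pow, mul_comm b, P.ab]; simp,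
    show c * b ^ j * m ^ j = y by have := congrFun ej 1; simp at this; rw [this]; ring] at this
  rw [dh.eq this]
  exact mul_mem (pow_mem (mul_mem mA (mul_mem (mul_mem (mul_mem mB mB) mA) (inv_mem (mul_mem mB mB)))) _) (pow_mem mA _)

end LA1

open LA1

theorem la1_of {p : ℕ} [Fact p.Prime] {a m b : ZMod p} (hp : p ≠ 2) (P : Par a m b) (hi : m * m = -(a * a))
    (X : XP a m b) (hb : ∀ c : ZMod p, c ≠ 0 → ∃ j < p, b ^ j = c) : LA1 p := fun W W' E E' d t d' t' => by
  obtain ⟨h, W₁, E₁, A, B, c, n⟩ := exists_nf P X d t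
  obtain ⟨h', W₂, E₂, A', B', c', n'⟩ := exists_nf P X d' t'
  obtain rfl : A = A' := Units.ext (n.mA.trans n'.mA.symm)
  obtain rfl : B = B' := Units.ext ((n.mB hp).trans (n'.mB hp).symm)
  obtain rfl : W₁ = W₂ := (W_eq hp P hi n X (c.data d) hb).trans (W_eq hp P hi n' X (c'.data d') hb).symm
  obtain rfl : E₁ = E₂ := (E_eq hp P hi n X (c.data d)).trans (E_eq hp P hi n' X (c'.data d')).symm
  exact ⟨_, c.trans c'.symm⟩

theorem la1_5 : LA1 5 := la1_of (by decide) par5 (by decide) xp5 (by decide)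

theorem la1_13 : LA1 13 := la1_of (by decide) par13 (by decide) xp13 (by decide +kernel)

end CL.RV
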