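/-
Fusion systems over `3^{1+2}_+`: the pairs `(W, E)` with three lines.
-/
import Cfsg.Agent.Fus.RV0

set_option autoImplicit false
set_option synthInstance.maxSize 4096

namespace CL.RV

open Matrix Subgroup

namespace L3

/-- matrices as tuples -/
abbrev T : Type := ZMod 3 × ZMod 3 × ZMod 3 × ZMod 3
/-- the product -/
def tm (s t : T) : T := (s.1 * t.1 + s.2.1 * t.2.2.1, s.1 * t.2.1 + s.2.1 * t.2.2.2,
  s.2.2.1 * t.1 + s.2.2.2 * t.2.2.1, s.2.2.1 * t.2.1 + s.2.2.2 * t.2.2.2)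
/-- the determinant -/
def td (s : T) : ZMod 3 := s.1 * s.2.2.2 - s.2.1 * s.2.2.1
/-- the action -/
def ta (s : T) (v : ZMod 3 × ZMod 3) : ZMod 3 × ZMod 3 := (s.1 * v.1 + s.2.1 * v.2, s.2.2.1 * v.1 + s.2.2.2 * v.2)
/-- the form -/
def tq (u v : ZMod 3 × ZMod 3) : ZMod 3 := u.1 * v.2 - u.2 * v.1
/-- the entries -/
def tp (g : G2 3) : T := (g.1 0 0, g.1 0 1, g.1 1 0, g.1 1 1)
/-- the coordinates -/
def tv (v : V2 3) : ZMod 3 × ZMod 3 := (v 0, v 1)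
/-- the dihedral group -/
def DL : List T := [(1, 0, 0, 1), (1, 0, 0, 2), (2, 0, 0, 1), (2, 0, 0, 2), (0, 1, 1, 0), (0, 1, 2, 0), (0, 2, 1, 0),
  (0, 2, 2, 0)]
/-- the semidihedral group -/
def SL : List T := DL ++ DL.map (tm (1, 1, 2, 1))

theorem tp_mul (g h : G2 3) : tp (g * h) = tm (tp g) (tp h) := by
  simp [tp, tm, Matrix.mul_apply, Fin.sum_univ_two]
theorem tp_one : tp 1 = (1, 0, 0, 1) := by simp [tp]
theorem td_tp (g : G2 3) : td (tp g) = dt g := (dt_eq g).symm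
theorem tv_ap (g : G2 3) (v : V2 3) : tv (ap g v) = ta (tp g) (tv v) := Prod.ext (ap_0 g v) (ap_1 g v)
theorem tv_inj {u v : V2 3} (h : tv u = tv v) : u = v := v_ext (congrArg (·.1) h) (congrArg (·.2) h)
theorem tp_inj {g h : G2 3} (e : tp g = tp h) : g = h := g_ext fun v => tv_inj (by rw [tv_ap, tv_ap, e])
theorem tp_surj {s : T} (h : td s ≠ 0) : ∃ g, tp g = s :=
  ⟨GeneralLinearGroup.mkOfDetNeZero !![s.1, s.2.1; s.2.2.1, s.2.2.2] (by rwa [det_fin_two_of]), rfl⟩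

/-- the subgroup given by a list -/
def sub (L : List T) (h1 : (1, 0, 0, 1) ∈ L) (hm : ∀ s ∈ L, ∀ t ∈ L, tm s t ∈ L)
    (hi : ∀ s ∈ L, ∃ t ∈ L, td t ≠ 0 ∧ tm s t = (1, 0, 0, 1)) : Subgroup (G2 3) where
  carrier := {g | tp g ∈ L}
  one_mem' := show tp 1 ∈ L from tp_one ▸ h1
  mul_mem' := fun {a b} ha hb => show tp (a * b) ∈ L from tp_mul a b ▸ hm _ ha _ hb
  inv_mem' := fun {a} ha => by
    obtain ⟨t, h2, h3, h4⟩ := hi _ ha
    obtain ⟨b, rfl⟩ := tp_surj h3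
    rwa [inv_eq_of_mul_eq_one_right (tp_inj ((tp_mul a b).trans (h4.trans tp_one.symm)))]

theorem card_of {H : Subgroup (G2 3)} {P : T → Prop} [DecidablePred P] (h : ∀ g, g ∈ H ↔ P (tp g)) :
    Nat.card H = (Finset.univ.filter fun t => td t ≠ 0 ∧ P t).card := by
  rw [← Fintype.card_subtype, ← Nat.card_eq_fintype_card]
  refine Nat.card_eq_of_bijective (fun g => ⟨tp g.1, td_tp g.1 ▸ dt_ne g.1, (h _).1 g.2⟩)
    ⟨fun a b e => Subtype.ext (tp_inj (congrArg Subtype.val e)), fun t => ?_⟩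
  obtain ⟨g, e⟩ := tp_surj t.2.1
  exact ⟨⟨g, (h g).2 (e ▸ t.2.2)⟩, Subtype.ext e⟩

/-- the dihedral group -/
def D : Subgroup (G2 3) := sub DL (by decide +kernel) (by decide +kernel) (by decide +kernel)
/-- the semidihedral group -/
def S : Subgroup (G2 3) := sub SL (by decide +kernel) (by decide +kernel) (by decide +kernel)

theorem cD : Nat.card D = 8 := (card_of (P := (· ∈ DL)) fun _ => Iff.rfl).trans (by decide +kernel)
theorem cS : Nat.card S = 16 := (card_of (P := (· ∈ SL)) fun _ => Iff.rfl).trans (by decide +kernel)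
theorem cG : Nat.card (G2 3) = 48 :=
  card_top.symm.trans ((card_of (H := ⊤) (P := fun _ => True) fun _ => Iff.rfl).trans (by decide +kernel))

theorem f1 : ∀ a ∈ SL, td a = -1 → ∀ u, ta a u = -u → ∀ v, tq u v ≠ 0 → ∀ b ∈ SL, td b = -1 → ta b v = -v →
    ∀ w, tq u w ≠ 0 → tq v w ≠ 0 → ∀ c ∈ SL, td c = -1 → ta c w = -w → ∀ d ∈ DL,
    d ∈ [(1, 0, 0, 1), a, b, c, tm a b, tm b a, tm a c, tm c a, tm b c, tm c b, tm (tm a b) c, tm (tm a c) b] := by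
  decide +kernel

theorem f2 : ∀ u v, tq u v ≠ 0 → ∀ w, tq u w ≠ 0 → tq v w ≠ 0 → ∀ x, x ≠ 0 →
    ∃ d ∈ DL, td d ≠ 0 ∧ (ta d u = x ∨ ta d v = x ∨ ta d w = x) := by decide +kernel

theorem nf {W : Subgroup (G2 3)} {E : Set (V2 3)} (d : Data W E) (t : Three E) :
    ∃ h W', Cj h W E W' {v | v ≠ 0} ∧ D ≤ W' ∧ W' ≤ S := by
  obtain ⟨P, hP⟩ := (show IsPGroup 2 W from fun g => ⟨4, Subtype.ext (d.nop _ (pow_mem g.2 _) (by
    rw [coe_pow, ← pow_mul]; exact (congrArg (g.1 ^ ·) cG).symm.trans pow_card_eq_one'))⟩).exists_le_sylow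
  obtain ⟨h, e⟩ := MulAction.exists_smul_eq (G2 3) P (Sylow.ofCard S (by rw [cS, cG]; decide +kernel))
  obtain ⟨W', E', c⟩ := exists_cj h W E
  have hS : W' ≤ S := fun g hg => by
    have h1 := smul_mem_pointwise_smul _ (MulAut.conj h) _ (hP ((c.symm.1 g).1 hg))
    rw [← Sylow.coe_subgroup_smul, e] at h1
    simpa [mul_assoc] using h1
  have d' := c.data d
  obtain ⟨u, hu, v, hv, w, hw, h1, h2, h3⟩ := c.three t
  have k : ∀ v ∈ E', ∃ g ∈ W', td (tp g) = -1 ∧ ta (tp g) (tv v) = -tv v := fun v hv => by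
    obtain ⟨g, hg, e1, e2⟩ := d'.tor v hv (-1) (-1) (by decide)
    exact ⟨g, hg, (td_tp g).trans e2, by rw [← tv_ap, e1, neg_one_smul]; rfl⟩
  obtain ⟨a, ha, a1, a2⟩ := k u hu
  obtain ⟨b, hb, b1, b2⟩ := k v hv
  obtain ⟨c', hc, c1, c2⟩ := k w hw
  have hD : D ≤ W' := fun g hg => by
    have h4 := f1 _ (hS ha) a1 _ a2 (tv v) h1 _ (hS hb) b1 b2 (tv w) h2 h3 _ (hS hc) c1 c2 _ hg
    simp only [← tp_mul, ← tp_one, List.mem_cons, List.not_mem_nil, or_false] at h4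
    rcases h4 with e | e | e | e | e | e | e | e | e | e | e | e <;> rw [tp_inj e] <;>
      repeat first | assumption | exact one_mem _ | apply mul_mem
  obtain rfl : E' = {v | v ≠ 0} := Set.ext fun x => ⟨d'.ne x, fun hx => by
    obtain ⟨s, h4, h5, h6⟩ := f2 (tv u) (tv v) h1 (tv w) h2 h3 (tv x) fun e => hx (tv_inj e)
    obtain ⟨g, rfl⟩ := tp_surj h5
    simp only [← tv_ap] at h6
    rcases h6 with e | e | e <;> exact tv_inj e ▸ d'.inv g (hD h4) _ ‹_›⟩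
  exact ⟨h, W', c, hD, hS⟩

theorem cases {W : Subgroup (G2 3)} (h1 : D ≤ W) (h2 : W ≤ S) :
    Nat.card W = 8 ∧ W = D ∨ Nat.card W = 16 ∧ W = S := by
  obtain ⟨k, e⟩ := cD ▸ card_dvd_of_le h1
  have h3 := cS ▸ card_dvd_of_le h2
  have h4 : k ∣ 2 := Nat.dvd_of_mul_dvd_mul_left (by norm_num : 0 < 8) (e ▸ h3)
  rcases (Nat.dvd_prime Nat.prime_two).1 h4 with rfl | rfl
  · exact Or.inl ⟨e, (eq_of_le_of_card_ge h1 (by rw [e, cD])).symm⟩
  · exact Or.inr ⟨e, eq_of_le_of_card_ge h2 (by rw [e, cS])⟩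

end L3

theorem la3 : LA3 := by
  refine ⟨fun W E d t => ?_, fun W W' E E' d t d' t' e => ?_⟩
  · obtain ⟨h, W', c, h1, h2⟩ := L3.nf d t
    exact c.card ▸ (L3.cases h1 h2).imp And.left And.left
  · obtain ⟨h, X, c, h1, h2⟩ := L3.nf d t
    obtain ⟨h', X', c', h3, h4⟩ := L3.nf d' t'
    rw [c.card, c'.card] at e
    obtain rfl : X = X' := by
      rcases L3.cases h1 h2 with ⟨a, b⟩ | ⟨a, b⟩ <;> rcases L3.cases h3 h4 with ⟨a', b'⟩ | ⟨a', b'⟩ <;>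
        first | exact b.trans b'.symm | omega
    exact ⟨_, c.trans c'.symm⟩

end CL.RV
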