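/-
Fusion systems over `3^{1+2}_+` realised by the Tits group and by its automorphism group.
-/
import Cfsg.Agent.Fus.RV0
import Cfsg.Agent.Spor.Rv3T
import Cfsg.Agent.Spor.Rv3R

set_option autoImplicit false

namespace CL.RV

open Subgroup CL.PG

namespace P3

variable {G : Type} [Group G] {a b c : G}

theorem nf (a3 : a ^ 3 = 1) (b3 : b ^ 3 = 1) (c3 : c ^ 3 = 1) (ac : Commute a c) (bc : Commute b c)
    (ab : a * b = c * (b * a)) {g : G} (hg : g ∈ closure ({a, b, c} : Set G)) : g ^ 3 = 1 := by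
  have ba : b * a = a * b * c ^ 2 := by
    rw [ab, mul_assoc, ((bc.mul_left ac).pow_right 2).eq, ← mul_assoc, ← pow_succ', c3, one_mul]
  have b1 : ∀ j : ℕ, b ^ j * a = a * b ^ j * c ^ (2 * j) := fun j => by
    induction j with
    | zero => simp
    | succ j ih =>
      rw [pow_succ', mul_assoc, ih, ← mul_assoc, ← mul_assoc, ba, mul_assoc _ (c ^ 2),
        ((bc.pow_pow j 2).symm).eq, mul_add, mul_one, add_comm (2 * j), pow_add]
      simp only [mul_assoc]
  have b2 : ∀ i j : ℕ, b ^ j * a ^ i = a ^ i * b ^ j * c ^ (2 * j * i) := fun i j => by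
    induction i with
    | zero => simp
    | succ i ih =>
      rw [pow_succ a, ← mul_assoc, ih, mul_assoc, ((ac.pow_right _).symm).eq, ← mul_assoc, mul_assoc _ _ a, b1,
        mul_add, mul_one, add_comm (2 * j * i), pow_add]
      simp only [mul_assoc]
  have step : ∀ x ∈ ({a, b, c} : Set G), ∀ g, (∃ i j k : ℕ, g = a ^ i * b ^ j * c ^ k) →
      ∃ i j k : ℕ, g * x = a ^ i * b ^ j * c ^ k := by
    rintro x (rfl | rfl | rfl) _ ⟨i, j, k, rfl⟩
    · exact ⟨i + 1, j, 2 * j + k, by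
        rw [mul_assoc, ((ac.pow_right _).symm).eq, ← mul_assoc, mul_assoc _ _ x, b1, pow_succ, pow_add]
        simp only [mul_assoc]⟩
    · exact ⟨i, j + 1, k, by rw [mul_assoc, ((bc.pow_right _).symm).eq, pow_succ]; simp only [mul_assoc]⟩
    · exact ⟨i, j, k + 1, by rw [pow_succ, mul_assoc]⟩
  have h3 : ∀ x ∈ ({a, b, c} : Set G), x⁻¹ = x * x := by
    rintro x (rfl | rfl | rfl) <;> exact inv_eq_of_mul_eq_one_right (by rwa [← pow_three])
  obtain ⟨i, j, k, rfl⟩ : ∃ i j k : ℕ, g = a ^ i * b ^ j * c ^ k := by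
    induction hg using closure_induction_right with
    | one => exact ⟨0, 0, 0, by simp⟩
    | mul_right x _ y hy ih => exact step y hy x ih
    | mul_inv_cancel x _ y hy ih => rw [h3 y hy, ← mul_assoc]; exact step y hy _ (step y hy x ih)
  have p3 : ∀ (x : G) (n : ℕ), x ^ 3 = 1 → (x ^ n) ^ 3 = 1 := fun x n h => by
    rw [← pow_mul, mul_comm, pow_mul, h, one_pow]
  rw [((ac.pow_pow i k).mul_left (bc.pow_pow j k)).mul_pow, p3 c k c3, mul_one]
  have e := b2 i j
  have xw := ac.pow_pow i (2 * j * i)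
  have yw := bc.pow_pow j (2 * j * i)
  have x3 := p3 a i a3
  have y3 := p3 b j b3
  have w3 := p3 c (2 * j * i) c3
  generalize a ^ i = x at *
  generalize b ^ j = y at *
  generalize c ^ (2 * j * i) = w at *
  have e1 : ∀ t, y * (x * t) = x * (y * (w * t)) := fun t => by rw [← mul_assoc, e]; simp only [mul_assoc]
  have e2 : ∀ t, w * (x * t) = x * (w * t) := fun t => by rw [← mul_assoc, ← xw.eq, mul_assoc]
  have e3 : ∀ t, w * (y * t) = y * (w * t) := fun t => by rw [← mul_assoc, ← yw.eq, mul_assoc]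
  calc (x * y) ^ 3 = x * (y * (x * (y * (x * (y * 1))))) := by simp only [pow_three, mul_assoc, mul_one]
    _ = x ^ 3 * y ^ 3 * w ^ 3 := by
      simp only [e1, e2, e3]
      simp only [pow_three, mul_assoc, mul_one]
    _ = 1 := by rw [x3, y3, w3, mul_one, mul_one]

theorem sp3k_of [Finite G] {gs : List G} {a b c g₁ g₂ g₃ k m : ℕ} (hG : Nat.card G = 27 * m) (hm : ¬ 3 ∣ m)
    (hP : Nat.card (subW gs [[a], [b], [c]]) = 27) (hZ : Nat.card (subW gs [[c]]) = 3) {N : Subgroup G}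
    (hN : Nat.card N = 27 * k) (nrm : normalizer (subW gs [[a], [b], [c]] : Set G) = N)
    (cen : centralizer (subW gs [[a], [b], [c]] : Set G) = subW gs [[c]])
    (e1 : wordG gs [g₁, a] = wordG gs [c, g₁]) (e2 : wordG gs [g₂, b] = wordG gs [c, g₂])
    (e3 : wordG gs [g₃, a, b] = wordG gs [c, g₃]) (a3 : wordG gs [a, a, a] = wordG gs [])
    (b3 : wordG gs [b, b, b] = wordG gs []) (c3 : wordG gs [c, c, c] = wordG gs [])
    (ac : wordG gs [a, c] = wordG gs [c, a]) (bc : wordG gs [b, c] = wordG gs [c, b])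
    (ab : wordG gs [a, b] = wordG gs [c, b, a]) : Sp3k k := by
  have eP : subW gs [[a], [b], [c]] = closure {letG gs a, letG gs b, letG gs c} := by
    unfold subW
    congr 1
    ext x
    simp [eq_comm]
  have eZ : subW gs [[c]] = zpowers (letG gs c) := by
    rw [zpowers_eq_closure]
    unfold subW
    congr 1
    ext x
    simp [eq_comm]
  simp only [wordG_cons, wordG_nil, mul_one] at e1 e2 e3 a3 b3 c3 ac bc ab
  rw [eP] at hP nrm cen
  rw [eZ] at hZ cen
  generalize letG gs a = x at *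
  generalize letG gs b = y at *
  generalize letG gs c = z at *
  have mx : x ∈ closure ({x, y, z} : Set G) := subset_closure (by simp)
  have my : y ∈ closure ({x, y, z} : Set G) := subset_closure (by simp)
  have mz : z ∈ closure ({x, y, z} : Set G) := subset_closure (by simp)
  have nc : x * y ≠ y * x := fun h => by
    rw [h, right_eq_mul] at ab
    rw [ab, zpowers_one_eq_bot, card_bot] at hZ
    exact absurd hZ (by norm_num)
  have hi := (closure ({x, y, z} : Set G)).card_mul_index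
  rw [hP, hG] at hi
  refine ⟨G, inferInstance, inferInstance, closure {x, y, z}, z, x, y, x * y,
    by rwa [Nat.eq_of_mul_eq_mul_left (by norm_num) hi], hP,
    fun g hg => nf (by rwa [pow_three]) (by rwa [pow_three]) (by rwa [pow_three]) ac bc ab hg, mz,
    fun g hg => (cen ▸ mem_zpowers z : z ∈ centralizer _) g hg, mx, my, mul_mem mx my,
    isConj_iff.2 ⟨_, mul_inv_eq_iff_eq_mul.2 e1⟩, isConj_iff.2 ⟨_, mul_inv_eq_iff_eq_mul.2 e2⟩,
    isConj_iff.2 ⟨_, mul_inv_eq_iff_eq_mul.2 e3⟩, nc, fun h => nc ?_, fun h => nc ?_,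
    cen ▸ zpowers_le.2 mz, nrm ▸ hN⟩
  · rw [mul_assoc] at h
    exact mul_left_cancel h
  · rw [← mul_assoc] at h
    exact (mul_right_cancel h).symm

end P3

theorem sp3k_8 : Sp3k 8 := by
  obtain ⟨_, cs, t⟩ := CL.Rv3T.xtop ⟨MulEquiv.refl _⟩
  have := t.finite
  open CL.Rv3T in
  exact P3.sp3k_of (m := 665600) t.card (by norm_num) (xP_card t.c) (xZ_card t.c) (xN_card t.c)
    (t.top_inf (xnrm t.c (t.ub _))) (t.top_inf (xcen t.c (t.ub _))) (xe0 t.c) (xe1 t.c) (xe2 t.c) (xa3 t.c) (xb3 t.c)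
    (xc3 t.c) (xac t.c) (xbc t.c) (xab t.c)

theorem sp3k_16 : Sp3k 16 := by
  obtain ⟨_, cs, t⟩ := CL.Rv3R.xtop ⟨MulEquiv.refl _⟩
  have := t.finite
  open CL.Rv3R in
  exact P3.sp3k_of (m := 1331200) t.card (by norm_num) (xP_card t.c) (xZ_card t.c) (xN_card t.c)
    (t.top_inf (xnrm t.c (t.ub _))) (t.top_inf (xcen t.c (t.ub _))) (xe0 t.c) (xe1 t.c) (xe2 t.c) (xa3 t.c) (xb3 t.c)
    (xc3 t.c) (xac t.c) (xbc t.c) (xab t.c)

end CL.RV
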