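/-
Realisability over extraspecial groups of order `p ^ 3`, the two sporadic cases: the Sylow subgroup.
-/
import Cfsg.Agent.Fus.RVS0
import Cfsg.Agent.Inv.ZStar
import Cfsg.Agent.Grp.Coprime
import Cfsg.Agent.Grp.CoresPi
import Cfsg.Agent.Loc.ElemAb

set_option autoImplicit false
set_option linter.unusedSectionVars false

namespace CL.RVS

open Cfsg Subgroup CL.Grp CL.Loc

variable {G : Type*} [Group G] [Finite G] {p : ℕ} [hp : Fact p.Prime] {z x a c h t y : G} {A P : Subgroup G}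

theorem mem_zp (hA : Nat.card A ∣ p) {w : G} (hw : w ∈ A) (w1 : w ≠ 1) (hy : y ∈ A) : y ∈ zpowers w := by
  have h1 := (card_dvd_of_le (zpowers_le.2 hw)).trans hA
  rcases (Nat.dvd_prime hp.out).1 h1 with e | e
  · exact absurd (zpowers_eq_bot.1 (card_eq_one.1 e)) w1
  · rwa [eq_of_le_of_card_ge (zpowers_le.2 hw) (e ▸ Nat.le_of_dvd hp.out.pos hA)]

theorem GH.card_dvd (g : GH p z) (ht : IsConj z t) (hA : IsPGroup p A) (hc : A ≤ centralizer {t}) :
    Nat.card A ∣ p := by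
  obtain ⟨n, hn⟩ := IsPGroup.iff_card.1 hA
  obtain ⟨k, rfl⟩ := isConj_iff.1 ht
  have h1 : Nat.card A ∣ Nat.card (centralizer ({z} : Set G)) := by
    rw [← card_conj_smul k⁻¹ A]
    refine card_dvd_of_le ((conj_smul_le_iff _ _ _).2 fun u hu => mem_centralizer_singleton_iff.2 ?_)
    have := mem_centralizer_singleton_iff.1 (hc hu)
    calc _ = k⁻¹ * (u * (k * z * k⁻¹)) * k := by group
      _ = _ := by rw [this]; group
  rw [hn] at h1 ⊢
  exact (pow_dvd_pow p (by_contra fun e => g.n2 ((pow_dvd_pow p (by omega)).trans h1) : n ≤ 1)).trans (by simp)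

theorem exists_odd (hp2 : p ≠ 2) (hA : IsPGroup p A) (hy : y ∈ A) : ∃ m, y ^ (2 * m + 1) = 1 := by
  obtain ⟨k, hk⟩ := hA ⟨y, hy⟩
  obtain ⟨m, hm⟩ := (hp.out.odd_of_ne_two hp2).pow (n := k)
  exact ⟨m, hm ▸ congrArg Subtype.val hk⟩

theorem one_of_sq (hp2 : p ≠ 2) (hA : IsPGroup p A) (hy : y ∈ A) (e : y * y = 1) : y = 1 := by
  obtain ⟨m, hm⟩ := exists_odd hp2 hA hy
  rwa [pow_succ, pow_mul, sq, e, one_pow, one_mul] at hm

theorem one_of_inv (hp2 : p ≠ 2) (hA : IsPGroup p A) (hy : y ∈ A) (h1 : t * y * t⁻¹ = y⁻¹) (h2 : Commute t y) :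
    y = 1 := one_of_sq hp2 hA hy (by rw [h2.eq, mul_inv_cancel_right] at h1; exact mul_eq_one_iff_eq_inv.2 h1)

theorem decomp (hp2 : p ≠ 2) (hA : IsPGroup p A) (tt : t * t = 1) (tN : t ∈ normalizer (A : Set G)) (hy : y ∈ A) :
    ∃ v ∈ A, t * v * t⁻¹ = v⁻¹ ∧ Commute t (y * v) := by
  have ti : t⁻¹ = t := inv_eq_of_mul_eq_one_right tt
  have h1 : y⁻¹ * (t * y * t⁻¹) ∈ A := mul_mem (inv_mem hy) (conj_mem_of_mem_normalizer tN hy)
  have h2 : t * (y⁻¹ * (t * y * t⁻¹)) * t⁻¹ = (y⁻¹ * (t * y * t⁻¹))⁻¹ := by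
    simp only [mul_inv_rev, ti, inv_inv, mul_assoc, tt, mul_one]
  obtain ⟨m, hm⟩ := exists_odd hp2 hA h1
  have h3 : t * y * t⁻¹ = y * (y⁻¹ * (t * y * t⁻¹)) := by group
  generalize y⁻¹ * (t * y * t⁻¹) = w at h1 h2 hm h3
  have h4 : t * w ^ (m + 1) * t⁻¹ = (w ^ (m + 1))⁻¹ := by rw [← conj_pow, h2, inv_pow]
  refine ⟨_, pow_mem h1 (m + 1), h4, mul_inv_eq_iff_eq_mul.1 ?_⟩
  rw [← conj_mul, h3, h4, mul_assoc, mul_right_inj, mul_inv_eq_iff_eq_mul, ← pow_add,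
    show m + 1 + (m + 1) = 2 * m + 1 + 1 by ring, pow_succ _ (2 * m + 1), hm, one_mul]

theorem conj_zp {g w : G} (hg : g * w * g⁻¹ ∈ zpowers w) : g ∈ normalizer (zpowers w : Set G) :=
  mem_normalizer_fintype (by
    rintro _ ⟨k, rfl⟩
    rw [← conj_zpow]
    exact zpow_mem hg k)

namespace UH

variable (u : UH p z x a c h)
include u

theorem zz : z * z = 1 := by rw [← sq, ← u.gh.oz, pow_orderOf_eq_one]
theorem z1 : z ≠ 1 := fun e => by have := u.gh.oz; rw [e, orderOf_one] at this; cases this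
theorem x1 : x ≠ 1 := fun e => hp.out.ne_one (by rw [← u.ox, e, orderOf_one])
theorem za : Commute z a := u.aa ▸ (Commute.refl a).mul_left (Commute.refl a)
theorem zc : Commute z c := u.cc ▸ (Commute.refl c).mul_left (Commute.refl c)
theorem zh : Commute z h := u.aa ▸ u.ha.symm.mul_left u.ha.symm
theorem zx : Commute z x := u.aa ▸ u.ax.mul_left u.ax
theorem ai : a⁻¹ = a * z := inv_eq_of_mul_eq_one_right (by rw [← mul_assoc, u.aa, u.zz])
theorem px : IsPGroup p (zpowers x) := IsPGroup.of_card (n := 1) (by rw [Nat.card_zpowers, u.ox, pow_one])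

theorem swap : UH p z x c a h := by
  refine ⟨u.gh, u.ox, u.cc, u.aa, ?_, u.hh, u.hc, u.ha, u.cx, u.ax, u.hx, u.un⟩
  calc a * c * a⁻¹ = a * (c * a * c⁻¹) * c * (a * a)⁻¹ := by group
    _ = c⁻¹ := by rw [u.ca, u.aa, ← u.cc]; group

theorem q8 {w : G} (h1 : a * w * a⁻¹ ∈ zpowers w) (h2 : c * w * c⁻¹ ∈ zpowers w) : Commute z w := by
  obtain ⟨i, hi⟩ := h1
  obtain ⟨j, hj⟩ := h2
  simp only at hi hj
  have e : a * (c * w * c⁻¹) * a⁻¹ = c * (a * w * a⁻¹) * c⁻¹ := by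
    rw [← hi, ← hj, ← conj_zpow, ← conj_zpow, ← hi, ← hj, ← zpow_mul, ← zpow_mul, mul_comm]
  have e2 : c * a = a * c * z := by
    rw [mul_assoc, ← u.zc.eq, ← mul_assoc, ← u.ai, ← u.ca, inv_mul_cancel_right]
  have e3 : a * c * w * (a * c)⁻¹ = a * c * (z * w * z⁻¹) * (a * c)⁻¹ := by
    calc _ = a * (c * w * c⁻¹) * a⁻¹ := by group
      _ = c * a * w * (c * a)⁻¹ := by rw [e]; group
      _ = _ := by rw [e2]; group
  exact mul_inv_eq_iff_eq_mul.1 (mul_left_cancel (mul_right_cancel e3)).symm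

theorem fix (hA : IsPGroup p A) (hx : x ∈ A) (hy : y ∈ A) (hz : Commute z y) : y ∈ zpowers x :=
  mem_zp (u.gh.card_dvd (IsConj.refl z) (hA.to_inf_left (K := centralizer {z})) inf_le_right)
    ⟨hx, mem_centralizer_singleton_iff.2 u.zx.symm⟩ u.x1 ⟨hy, mem_centralizer_singleton_iff.2 hz.symm⟩

theorem exists_syl (hp2 : p ≠ 2) : ∃ P : Subgroup G, IsPGroup p P ∧ x ∈ P ∧ P ≤ centralizer {x} ∧
    a ∈ normalizer (P : Set G) ∧ c ∈ normalizer (P : Set G) ∧ h ∈ normalizer (P : Set G) ∧ p ^ 2 ∣ Nat.card P := by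
  have : Fact (Nat.Prime 2) := ⟨Nat.prime_two⟩
  have mc : ∀ {g}, Commute g x → g ∈ centralizer ({x} : Set G) := mem_centralizer_singleton_iff.2
  have p2 : ∀ {g : G}, g * g = 1 ∨ g * g = z → IsPGroup 2 (zpowers g) := fun {g} e => by
    rintro ⟨_, k, rfl⟩
    refine ⟨2, Subtype.ext ?_⟩
    have : g ^ 2 ^ 2 = 1 := by
      rw [show 2 ^ 2 = 2 * 2 from rfl, pow_mul, sq g, sq]
      rcases e with e | e <;> rw [e]
      exacts [one_mul 1, u.zz]
    rw [coe_pow, ← zpow_natCast, ← zpow_mul, mul_comm, zpow_mul, zpow_natCast, this, one_zpow, coe_one]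
  have k1 : IsPGroup 2 (zpowers a ⊔ zpowers c : Subgroup G) := (p2 (.inr u.aa)).to_sup_of_normal_left' (p2 (.inr u.cc))
    (zpowers_le.2 (conj_zp (u.ca ▸ inv_mem (mem_zpowers a))))
  have k2 : IsPGroup 2 (zpowers a ⊔ zpowers c ⊔ zpowers h : Subgroup G) := k1.to_sup_of_normal_left' (p2 u.hh)
    (le_normalizer_sup' (zpowers_le.2 (conj_zp (by rw [u.ha.eq, mul_inv_cancel_right]; exact mem_zpowers a)))
      (zpowers_le.2 (conj_zp (by rw [u.hc.eq, mul_inv_cancel_right]; exact mem_zpowers c))))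
  have k3 : zpowers a ⊔ zpowers c ⊔ zpowers h ≤ normalizer (centralizer ({x} : Set G) : Set G) := by
    refine sup_le (sup_le (zpowers_le.2 (le_normalizer (mc u.ax))) (zpowers_le.2 (le_normalizer (mc u.cx))))
      (zpowers_le.2 (mem_normalizer_fintype fun g hg => mc ?_))
    have e : Commute (h * g * h⁻¹) (h * x * h⁻¹) :=
      (show Commute g x from mem_centralizer_singleton_iff.1 hg).map (MulAut.conj h)
    rw [u.hx] at e
    exact Commute.inv_right_iff.1 e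
  obtain ⟨n, hn⟩ := IsPGroup.iff_card.1 k2
  obtain ⟨P, hP, hN⟩ := exists_isSylowIn_le_normalizer p (k3.trans (normalizer_le_normalizer_pPrimeCoreOf 2 _))
    (hn ▸ (pPrimeCoreOf_coprime 2 _).symm.pow_left n) (Or.inl (by have := k2.isNilpotent; infer_instance))
  have xN : centralizer ({x} : Set G) ≤ normalizer (zpowers x : Set G) := fun g hg =>
    conj_zp (by rw [mem_centralizer_singleton_iff.1 hg, mul_inv_cancel_right]; exact mem_zpowers x)
  have xO : zpowers x ≤ pPrimeCoreOf 2 (centralizer ({x} : Set G)) :=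
    le_pPrimeCoreOf (zpowers_le.2 (mc (Commute.refl x))) xN
      (by rw [Nat.card_zpowers, u.ox]; exact (Nat.coprime_primes hp.out Nat.prime_two).2 hp2)
  have PX := hP.le.trans (pPrimeCoreOf_le 2 _)
  refine ⟨P, hP.isPGroup, hP.le_of_normalized u.px xO ((pPrimeCoreOf_le 2 _).trans xN) (mem_zpowers x), PX,
    hN (mem_sup_left (mem_sup_left (mem_zpowers a))), hN (mem_sup_left (mem_sup_right (mem_zpowers c))),
    hN (mem_sup_right (mem_zpowers h)), ?_⟩
  -- the Sylow subgroup of the core is a Sylow subgroup of the centraliser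
  let z' : centralizer ({x} : Set G) := ⟨z, mc u.zx⟩
  have iso : IsIsolatedInvolution z' := ⟨by rw [← orderOf_coe]; exact u.gh.oz, fun g hg => Subtype.ext
    (u.un _ (((MulAut.conj (g : G)).orderOf_eq z).trans u.gh.oz)
      (mem_centralizer_singleton_iff.1 (g * z' * g⁻¹).2) (congrArg Subtype.val hg.eq).symm)⟩
  have i1 : ¬ p ∣ (pPrimeCoreOf 2 (centralizer ({x} : Set G))).relIndex (centralizer {x}) := by
    rw [relIndex, pPrimeCoreOf_subgroupOf, ← relIndex_top_right, ← Inv.zstar_oddCore_sup_centralizer iso,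
      relIndex_sup_left]
    intro d
    refine u.gh.n2 (dvd_trans ?_ (card_dvd_of_le (H := (centralizer {z'}).map (Subgroup.subtype _)) ?_))
    · rw [card_subtype, ← card_mul_index ((oddCore _).subgroupOf (centralizer {z'})), sq]
      refine mul_dvd_mul ?_ d
      have := orderOf_dvd_natCard (G := (oddCore (centralizer ({x} : Set G))).subgroupOf (centralizer {z'}))
        ⟨⟨⟨x, mc (Commute.refl x)⟩, mem_centralizer_singleton_iff.2 (Subtype.ext u.zx.symm)⟩,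
          (pPrimeCoreOf_subgroupOf 2 (centralizer ({x} : Set G))).le (xO (mem_zpowers x))⟩
      exact ((orderOf_coe _).symm.trans ((orderOf_coe _).symm.trans ((orderOf_coe _).symm.trans u.ox))).symm.dvd.trans
        this
    · rintro _ ⟨g, hg, rfl⟩
      exact mem_centralizer_singleton_iff.2 (congrArg Subtype.val (mem_centralizer_singleton_iff.1 hg))
  have hS : IsSylowIn p P (centralizer {x}) := ⟨PX, hP.isPGroup, fun d => by
    rw [← relIndex_mul_relIndex P _ _ hP.le (pPrimeCoreOf_le 2 _)] at d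
    exact (hp.out.dvd_mul.1 d).elim hP.not_dvd i1⟩
  obtain ⟨T, hT⟩ := u.px.exists_le_sylow
  have T3 : p ^ 3 ∣ Nat.card T := T.pow_dvd_card_of_pow_dvd_card u.gh.d3
  have : Nontrivial T := Finite.one_lt_card_iff_nontrivial.1
    ((Nat.one_lt_pow (by norm_num) hp.out.one_lt).trans_le (Nat.le_of_dvd Nat.card_pos T3))
  have := T.isPGroup'.center_nontrivial
  obtain ⟨w, w1⟩ := exists_ne (1 : center T)
  have wc : ∀ g ∈ (T : Subgroup G), Commute g (w : T) := fun g hg =>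
    congrArg Subtype.val (Subgroup.mem_center_iff.1 w.2 ⟨g, hg⟩)
  refine dvd_trans ?_ (hS.card_dvd (T.isPGroup'.to_inf_left (K := centralizer {x})) inf_le_right)
  obtain ⟨m, hm⟩ := IsPGroup.iff_card.1 (T.isPGroup'.to_inf_left (K := centralizer {x}))
  refine hm ▸ pow_dvd_pow p (by_contra fun e => ?_)
  have d : Nat.card ((T : Subgroup G) ⊓ centralizer {x} : Subgroup G) ∣ p :=
    hm ▸ (pow_dvd_pow p (by omega : m ≤ 1)).trans (by simp)
  obtain ⟨k, hk⟩ := mem_zp d ⟨(w : T).2, mc (wc x (hT (mem_zpowers x))).symm⟩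
    (fun e => w1 (Subtype.ext (Subtype.ext e))) ⟨hT (mem_zpowers x), mc (Commute.refl x)⟩
  rw [inf_eq_left.2 fun g hg => mc (hk ▸ (wc g hg).zpow_right k)] at d
  have := (Nat.pow_dvd_pow_iff_le_right hp.out.one_lt).1 (T3.trans (d.trans (pow_one p).symm.dvd))
  omega

end UH

/-- The lifted data with an invariant Sylow subgroup. -/
structure SH (p : ℕ) (P : Subgroup G) (z x a c h : G) : Prop extends UH p z x a c h where
  odd : p ≠ 2
  pg : IsPGroup p P
  xP : x ∈ P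
  cen : P ≤ centralizer {x}
  aN : a ∈ normalizer (P : Set G)
  cN : c ∈ normalizer (P : Set G)
  hN : h ∈ normalizer (P : Set G)
  d2 : p ^ 2 ∣ Nat.card P

theorem UH.sh (u : UH p z x a c h) (hp2 : p ≠ 2) : ∃ P, SH p P z x a c h :=
  let ⟨P, h1, h2, h3, h4, h5, h6, h7⟩ := u.exists_syl hp2
  ⟨P, u, hp2, h1, h2, h3, h4, h5, h6, h7⟩

namespace SH

variable (s : SH p P z x a c h)
include s

theorem swap : SH p P z x c a h := ⟨s.toUH.swap, s.odd, s.pg, s.xP, s.cen, s.cN, s.aN, s.hN, s.d2⟩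
theorem zN : z ∈ normalizer (P : Set G) := s.aa ▸ mul_mem s.aN s.aN
theorem cm (hy : y ∈ P) : Commute y x := mem_centralizer_singleton_iff.1 (s.cen hy)
theorem nz (hy : y ∈ P) : zpowers y ≤ normalizer (zpowers x : Set G) :=
  zpowers_le.2 (conj_zp (by rw [(s.cm hy).eq, mul_inv_cancel_right]; exact mem_zpowers x))

theorem conj {n : G} (hn : n ∈ normalizer (P : Set G)) :
    SH p P (n * z * n⁻¹) (n * x * n⁻¹) (n * a * n⁻¹) (n * c * n⁻¹) (n * h * n⁻¹) := by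
  have cj : ∀ {g k : G}, Commute g k → Commute (n * g * n⁻¹) (n * k * n⁻¹) := fun e => e.map (MulAut.conj n)
  have cN : ∀ {g : G}, g ∈ normalizer (P : Set G) → n * g * n⁻¹ ∈ normalizer (P : Set G) := fun e =>
    mul_mem (mul_mem hn e) (inv_mem hn)
  have ci : ∀ {g k : G}, g * k * g⁻¹ = k⁻¹ → n * g * n⁻¹ * (n * k * n⁻¹) * (n * g * n⁻¹)⁻¹ = (n * k * n⁻¹)⁻¹ :=
    fun {g k} e => by rw [conj_inv, conj_inv, ← e]; group
  have cb : ∀ {g k : G}, Commute g (n * k * n⁻¹) → Commute (n⁻¹ * g * n) k := fun e => by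
    simpa [mul_assoc] using e.map (MulAut.conj n⁻¹)
  refine ⟨⟨⟨((MulAut.conj n).orderOf_eq z).trans s.gh.oz, s.gh.d3, s.gh.n4, fun d => s.gh.n2 (d.trans ?_),
      fun t y h1 h2 h3 => (isConj_iff.2 ⟨n, rfl⟩).symm.trans (s.gh.cj t y h1 h2 h3)⟩,
    ((MulAut.conj n).orderOf_eq x).trans s.ox, by rw [conj_mul, s.aa], by rw [conj_mul, s.cc], ci s.ca,
    s.hh.imp (fun e => by rw [conj_mul, e, mul_one, mul_inv_cancel]) fun e => by rw [conj_mul, e],
    cj s.ha, cj s.hc, cj s.ax, cj s.cx, ci s.hx, fun t h1 h2 h3 => ?_⟩, s.odd, s.pg,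
    conj_mem_of_mem_normalizer hn s.xP, fun g hg => mem_centralizer_singleton_iff.2 ?_, cN s.aN, cN s.cN, cN s.hN,
    s.d2⟩
  · rw [← card_conj_smul n⁻¹]
    exact card_dvd_of_le ((conj_smul_le_iff _ _ _).2 fun g hg => mem_centralizer_singleton_iff.2 (by
      simpa using (cb (mem_centralizer_singleton_iff.1 hg)).eq))
  · rw [← s.un (n⁻¹ * t * n) (by simpa using ((MulAut.conj n⁻¹).orderOf_eq t).trans h1) (cb h2) (cb h3)]; group
  · simpa [mul_assoc] using (cj (s.cm (inv_conj_mem_of_mem_normalizer hn hg))).eq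

theorem of_sup {w : G} (hy : y ∈ P) (h1 : z * y * z⁻¹ = y⁻¹) (h2 : z * w * z⁻¹ = w⁻¹)
    (hw : w ∈ zpowers x ⊔ zpowers y) : w ∈ zpowers y := by
  obtain ⟨_, ⟨i, rfl⟩, _, ⟨j, rfl⟩, rfl⟩ := (mem_sup_of_ge_normalizer (s.nz hy)).1 hw
  simp only at h2 ⊢
  rw [← conj_mul, (s.toUH.zx.zpow_right i).eq, mul_inv_cancel_right, ← conj_zpow, h1, mul_inv_rev, inv_zpow,
    ((s.cm hy).zpow_zpow j i).inv_inv.eq, mul_left_inj] at h2
  rw [one_of_sq s.odd s.pg (zpow_mem s.xP i) (mul_eq_one_iff_eq_inv.2 h2), one_mul]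
  exact zpow_mem (mem_zpowers y) j

theorem card_sup (hy : y ∈ P) (h1 : z * y * z⁻¹ = y⁻¹) :
    Nat.card (zpowers x ⊔ zpowers y : Subgroup G) = p * orderOf y := by
  have := card_sup_mul_card_inf (s.nz hy)
  rw [show zpowers y ⊓ zpowers x = ⊥ from eq_bot_iff.2 (by
      rintro _ ⟨⟨j, rfl⟩, i, e⟩
      exact one_of_inv s.odd s.pg (zpow_mem hy j) (by rw [← conj_zpow, h1, inv_zpow])
        ((show x ^ i = y ^ j from e) ▸ s.toUH.zx.zpow_right i)), card_bot, mul_one, Nat.card_zpowers, Nat.card_zpowers, s.ox] at this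
  rw [sup_comm, this, mul_comm]

theorem big (hy : y ∈ P) (h1 : z * y * z⁻¹ = y⁻¹) (hc : Nat.card P ≤ p * orderOf y) : y = 1 := by
  have e : zpowers x ⊔ zpowers y = P :=
    eq_of_le_of_card_ge (sup_le (zpowers_le.2 s.xP) (zpowers_le.2 hy)) (s.card_sup hy h1 ▸ hc)
  have k : ∀ {g}, g ∈ normalizer (P : Set G) → Commute z g → g * y * g⁻¹ ∈ zpowers y := fun {g} hg hz =>
    s.of_sup hy h1 (by
      rw [conj_inv, ← h1]
      calc _ = z * g * y * (z * g)⁻¹ := by group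
        _ = _ := by rw [hz.eq]; group) (e ▸ conj_mem_of_mem_normalizer hg hy)
  exact one_of_inv s.odd s.pg hy h1 (s.toUH.q8 (k s.aN s.toUH.za) (k s.cN s.toUH.zc))

theorem exists_inv : ∃ y ∈ P, z * y * z⁻¹ = y⁻¹ ∧ y ≠ 1 := by
  by_contra! k
  have : P ≤ zpowers x := fun y hy => by
    obtain ⟨v, h1, h2, h3⟩ := decomp s.odd s.pg s.toUH.zz s.zN hy
    rw [k v h1 h2, mul_one] at h3
    exact s.toUH.fix s.pg s.xP hy h3
  have := (Nat.pow_dvd_pow_iff_le_right hp.out.one_lt).1 ((s.d2.trans (card_dvd_of_le this)).trans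
    (by rw [Nat.card_zpowers, s.ox, pow_one] : Nat.card (zpowers x) ∣ p ^ 1))
  omega

theorem pow_le (hy : y ∈ P) {k : ℕ} (h1 : y ^ p ^ k ≠ 1) : p ^ (k + 1) ≤ orderOf y := by
  obtain ⟨m, hm⟩ := IsPGroup.iff_orderOf.1 s.pg ⟨y, hy⟩
  rw [orderOf_mk] at hm
  refine hm ▸ Nat.pow_le_pow_right hp.out.pos (by_contra fun e => h1 (orderOf_dvd_iff_pow_eq_one.1 ?_))
  exact hm ▸ pow_dvd_pow p (by omega)

theorem card : Nat.card P = p ^ 3 := by
  obtain ⟨n, hn⟩ := IsPGroup.iff_card.1 s.pg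
  have h1 := (Nat.pow_dvd_pow_iff_le_right hp.out.one_lt).1 (hn ▸ s.d2)
  have h2 : n ≤ 3 := by_contra fun e =>
    s.gh.n4 ((pow_dvd_pow p (by omega)).trans (hn ▸ card_subgroup_dvd_card P))
  obtain ⟨y, hy, h3, h4⟩ := s.exists_inv
  refine hn.trans (congrArg _ (by_contra fun e => h4 (s.big hy h3 ?_)))
  rw [hn, show n = 0 + 1 + 1 by omega, pow_succ']
  exact Nat.mul_le_mul_left p (s.pow_le hy (by rwa [pow_zero, pow_one]))

theorem exp (hy : y ∈ P) : y ^ p = 1 := by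
  obtain ⟨v, h1, h2, h3⟩ := decomp s.odd s.pg s.toUH.zz s.zN hy
  obtain ⟨i, hi⟩ := s.toUH.fix s.pg s.xP (mul_mem hy h1) h3
  have h4 : v ^ p = 1 := by_contra fun e => e (by
    rw [s.big h1 h2 (by
      rw [s.card, pow_succ']; exact Nat.mul_le_mul_left p (s.pow_le h1 (k := 1) (by rwa [pow_one]))), one_pow])
  rw [eq_mul_inv_of_mul_eq hi.symm, ((s.cm h1).symm.zpow_left i).inv_right.mul_pow, inv_pow, h4, inv_one, mul_one,
    ← zpow_natCast, ← zpow_mul, mul_comm, zpow_mul, zpow_natCast, ← s.ox, pow_orderOf_eq_one, one_zpow]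

theorem idx : ¬ p ∣ P.index := fun d => s.gh.n4 (by
  rw [← P.card_mul_index, s.card, pow_succ]; exact mul_dvd_mul_left _ d)

theorem ord (hy : y ∈ P) (h1 : y ≠ 1) : orderOf y = p := orderOf_eq_prime (s.exp hy) h1

/-- An involution inverting `x` is conjugate to `z`. -/
theorem cjz (tt : t * t = 1) (tx : t * x * t⁻¹ = x⁻¹) : IsConj z t :=
  s.gh.cj t x (orderOf_eq_prime (by rwa [sq]) fun e => s.toUH.x1
    (one_of_inv s.odd s.pg s.xP tx (e ▸ Commute.one_left x))) s.ox tx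

theorem not_two {r : G} (tt : t * t = 1) (tN : t ∈ normalizer (P : Set G)) (rN : r ∈ normalizer (P : Set G))
    (hr : r * t * r⁻¹ = t * z) : ∃ y ∈ P, y ≠ 1 ∧ Commute t y := by
  by_contra! k
  have k1 : ∀ y ∈ P, t * y * t⁻¹ = y⁻¹ := fun y hy => by
    obtain ⟨v, h1, h2, h3⟩ := decomp s.odd s.pg tt tN hy
    rw [eq_inv_of_mul_eq_one_left (by_contra fun e => k _ (mul_mem hy h1) e h3), ← conj_inv, h2]
  obtain ⟨y, hy, h1, h2⟩ := s.exists_inv
  refine h2 (one_of_inv s.odd s.pg hy (t := t * z) ?_ (mul_inv_eq_iff_eq_mul.1 ?_))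
  · have := congrArg (fun g => r * g * r⁻¹) (k1 _ (inv_conj_mem_of_mem_normalizer rN hy))
    rw [← hr]
    simpa [mul_assoc] using this
  · calc _ = t * (z * y * z⁻¹) * t⁻¹ := by group
      _ = _ := by rw [h1, ← conj_inv, k1 y hy, inv_inv]

theorem hz : h * h = z := by
  refine s.hh.resolve_left fun e => ?_
  have k : ∀ {t}, t * t = 1 → t ∈ normalizer (P : Set G) → t * x * t⁻¹ = x⁻¹ → Commute t a → Commute t c →
      ∀ y ∈ P, t * y * t⁻¹ = y⁻¹ := fun {t} tt tN tx ta tc y hy => by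
    obtain ⟨v, h1, h2, h3⟩ := decomp s.odd s.pg tt tN hy
    rw [eq_inv_of_mul_eq_one_left (by_contra fun e => e ?_ : y * v = 1), ← conj_inv, h2]
    have d := s.gh.card_dvd (s.cjz tt tx) (s.pg.to_inf_left (K := centralizer {t})) inf_le_right
    have m : ∀ {g}, g ∈ normalizer (P : Set G) → Commute t g → g * (y * v) * g⁻¹ ∈ zpowers (y * v) := fun hg ht =>
      mem_zp d ⟨mul_mem hy h1, mem_centralizer_singleton_iff.2 h3.symm⟩ e
        ⟨conj_mem_of_mem_normalizer hg (mul_mem hy h1),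
          mem_centralizer_singleton_iff.2 ((ht.mul_right h3).mul_right ht.inv_right).symm⟩
    obtain ⟨i, hi⟩ := s.toUH.fix s.pg s.xP (mul_mem hy h1) (s.toUH.q8 (m s.aN ta) (m s.cN tc))
    exact one_of_inv s.odd s.pg (mul_mem hy h1) (by rw [← hi, ← conj_zpow, tx, inv_zpow]) h3
  obtain ⟨y, hy, h1, h2⟩ := s.exists_inv
  refine h2 (one_of_inv s.odd s.pg hy (k (t := h * z) ?_ (mul_mem s.hN s.zN) ?_ (s.ha.mul_left s.toUH.za)
    (s.hc.mul_left s.toUH.zc) y hy) (mul_inv_eq_iff_eq_mul.1 ?_))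
  · rw [s.toUH.zh.mul_mul_mul_comm, e, s.toUH.zz, one_mul]
  · rw [mul_assoc h, s.toUH.zx.eq, ← s.hx]; group
  · calc _ = h * (z * y * z⁻¹) * h⁻¹ := by group
      _ = _ := by rw [h1, ← conj_inv, k e s.hN s.hx s.ha s.hc y hy, inv_inv]

theorem tt : h * a * (h * a) = 1 := by rw [s.ha.symm.mul_mul_mul_comm, s.hz, s.aa, s.toUH.zz]
theorem tx : h * a * x * (h * a)⁻¹ = x⁻¹ := by rw [mul_assoc h, s.ax.eq, ← s.hx]; group
theorem ct : c * (h * a) * c⁻¹ = h * a * z := by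
  rw [← mul_assoc, ← s.hc.eq, mul_assoc h a, ← s.toUH.ai, ← s.ca]; group
theorem zt : Commute z (h * a) := s.toUH.zh.mul_right s.toUH.za

/-- The fixed vector of the involution `h * a`. -/
theorem exists_y : ∃ y ∈ P, y ≠ 1 ∧ Commute (h * a) y ∧ z * y * z⁻¹ = y⁻¹ ∧
    ∃ (g : G) (k : ℤ), g * z * g⁻¹ = h * a ∧ g * x * g⁻¹ = y ^ k := by
  obtain ⟨y, hy, y1, h1⟩ := s.not_two s.tt (mul_mem s.hN s.aN) s.cN s.ct
  have cz := s.cjz s.tt s.tx
  have mc : ∀ {g}, Commute (h * a) g → g ∈ centralizer ({h * a} : Set G) := fun e =>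
    mem_centralizer_singleton_iff.2 e.symm
  have h2 : Commute (h * a) (z * y * z⁻¹) := (s.zt.symm.mul_right h1).mul_right s.zt.symm.inv_right
  have h3 : z * y * z⁻¹ ∈ P := conj_mem_of_mem_normalizer s.zN hy
  obtain ⟨j, hj⟩ := mem_zp (s.gh.card_dvd cz (s.pg.to_inf_left (K := centralizer {h * a})) inf_le_right)
    ⟨hy, mc h1⟩ y1 ⟨h3, mc h2⟩
  have h4 : Commute y (z * y * z⁻¹) := hj ▸ (Commute.refl y).zpow_right j
  obtain ⟨i, hi⟩ := s.toUH.fix s.pg s.xP (mul_mem hy h3) (mul_inv_eq_iff_eq_mul.1 (by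
    rw [← conj_mul, h4.eq, mul_right_inj, show z * (z * y * z⁻¹) * z⁻¹ = z * z * y * (z * z)⁻¹ by group, s.toUH.zz]
    simp))
  refine ⟨y, hy, y1, h1, eq_inv_of_mul_eq_one_right (one_of_inv s.odd s.pg (mul_mem hy h3)
    (by rw [← hi, ← conj_zpow, s.tx, inv_zpow]) (h1.mul_right h2)), ?_⟩
  obtain ⟨g, hg⟩ := isConj_iff.1 cz
  obtain ⟨S, hS, h5⟩ := exists_isSylowIn_ge (s.pg.to_le (zpowers_le.2 hy)) (zpowers_le.2 (mc h1))
  obtain ⟨d, hd, h6⟩ := hS.exists_conj_le (U := zpowers (g * x * g⁻¹))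
    (IsPGroup.of_card (n := 1) (by rw [Nat.card_zpowers, pow_one]; exact ((MulAut.conj g).orderOf_eq x).trans s.ox))
    (zpowers_le.2 (mc (hg ▸ s.toUH.zx.map (MulAut.conj g))))
  obtain ⟨k, hk⟩ := mem_zp (s.gh.card_dvd cz hS.isPGroup hS.le) (h5 (mem_zpowers y)) y1
    (h6 (conj_mem_conj_smul d (mem_zpowers _)))
  refine ⟨d * g, k, ?_, Eq.trans (by group) (show d * (g * x * g⁻¹) * d⁻¹ = y ^ k from hk.symm)⟩
  rw [show d * g * z * (d * g)⁻¹ = d * (g * z * g⁻¹) * d⁻¹ by group, hg, mem_centralizer_singleton_iff.1 hd,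
    mul_inv_cancel_right]

end SH

end CL.RVS
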