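/-
Realisability over extraspecial groups of order `p ^ 3`, the two sporadic cases: homologies of order four.
-/
import Cfsg.Agent.Base
import Mathlib.Algebra.Field.ZMod
import Mathlib.LinearAlgebra.FiniteDimensional.Lemmas

set_option autoImplicit false
set_option linter.unusedSectionVars false

namespace CL.RVS

open Module

/-- the product of two `2 × 2` matrices -/
def mul4 {K : Type*} [Ring K] (X Y : K × K × K × K) : K × K × K × K :=
  (X.1 * Y.1 + X.2.1 * Y.2.2.1, X.1 * Y.2.1 + X.2.1 * Y.2.2.2, X.2.2.1 * Y.1 + X.2.2.2 * Y.2.2.1,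
    X.2.2.1 * Y.2.1 + X.2.2.2 * Y.2.2.2)

/-- a word in two homologies -/
def ev4 {K : Type*} [Ring K] (i c : K) : List Bool → K × K × K × K
  | [] => (1, 0, 0, 1)
  | true :: w => mul4 (-1, -1 - i, 0, i) (ev4 i c w)
  | false :: w => mul4 (i, 0, (-1 - i) * c, -1) (ev4 i c w)

/-- a single eigenvalue, not scalar -/
def Uni {K : Type*} [Ring K] (l : K) (X : K × K × K × K) : Prop :=
  mul4 (X.1 - l, X.2.1, X.2.2.1, X.2.2.2 - l) (X.1 - l, X.2.1, X.2.2.1, X.2.2.2 - l) = (0, 0, 0, 0) ∧ X ≠ (l, 0, 0, l)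

instance {K : Type*} [Ring K] [DecidableEq K] (l : K) (X : K × K × K × K) : Decidable (Uni l X) :=
  inferInstanceAs (Decidable (_ ∧ _))

/-- Two homologies in general position generate an element of order `p`. -/
def XP {K : Type*} [Ring K] (i : K) : Prop := i * i = -1 ∧ ∀ c : K, 2 * c ≠ 1 → ∃ w l, Uni l (ev4 i c w)

def wds : List (List Bool) := [[true, false], [true, true, true, false], [true, true, true, false, true, false],
  [true, true, true, false, true, false, false, false], [true, true, true, false, true, false, true, true, false, false],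
  [true, true, true, false, true, true, false, false, true, false]]

theorem xp5 : XP (2 : ZMod 5) := ⟨by decide, fun c hc =>
  let ⟨w, _, h⟩ := (by decide +kernel : ∀ c : ZMod 5, 2 * c ≠ 1 → ∃ w ∈ wds, ∃ l, Uni l (ev4 2 c w)) c hc
  ⟨w, h⟩⟩

theorem xp13 : XP (5 : ZMod 13) := ⟨by decide, fun c hc =>
  let ⟨w, _, h⟩ := (by decide +kernel : ∀ c : ZMod 13, 2 * c ≠ 1 → ∃ w ∈ wds, ∃ l, Uni l (ev4 5 c w)) c hc
  ⟨w, h⟩⟩

variable {K V H : Type*} [Field K] [AddCommGroup V] [Module K V] [Group H] {ρ : H →* (V ≃ₗ[K] V)}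

theorem mu (g k : H) (v : V) : ρ (g * k) v = ρ g (ρ k v) := by rw [map_mul]; rfl
theorem on (v : V) : ρ 1 v = v := by rw [map_one]; rfl

/-- Every element acts with order prime to the characteristic. -/
def PP (ρ : H →* (V ≃ₗ[K] V)) : Prop := ∀ g, ∃ m : ℕ, (m : K) ≠ 0 ∧ ∀ v, ρ (g ^ m) v = v

theorem PP.jordan (hm : PP ρ) {g : H} {l : K} {v w : V} (h1 : ρ g v = l • v + w) (h2 : ρ g w = l • w) : w = 0 := by
  have k1 : ∀ n : ℕ, ρ (g ^ n) w = l ^ n • w := fun n => by
    induction n with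
    | zero => rw [pow_zero, on, pow_zero, one_smul]
    | succ n ih => rw [pow_succ', mu, ih, map_smul, h2, smul_smul, pow_succ]
  have k2 : ∀ n : ℕ, l • ρ (g ^ n) v = l ^ (n + 1) • v + (n * l ^ n) • w := fun n => by
    induction n with
    | zero => simp
    | succ n ih =>
      rw [pow_succ', mu, ← map_smul, ih, map_add, map_smul, map_smul, h1, h2]
      push_cast
      module
  obtain ⟨m, m0, hm⟩ := hm g
  by_contra w0
  have e : l ^ m = 1 := smul_left_injective K w0 ((k1 m).symm.trans ((hm w).trans (one_smul K w).symm))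
  have := k2 m
  rw [hm, pow_succ, e, one_mul, mul_one, left_eq_add] at this
  exact w0 ((smul_eq_zero.1 this).resolve_left m0)

/-- The involution `s` is the square of a homology of order four. -/
def Hm (ρ : H →* (V ≃ₗ[K] V)) (i : K) (s : H) : Prop := ∃ k, ∀ v, ρ k v = i • v - ((1 + i) / 2) • (v + ρ s v)

theorem PP.x (hm : PP ρ) (h2 : (2 : K) ≠ 0) {i : K} (hX : XP i) {s t : H} (hs : Hm ρ i s) (ht : Hm ρ i t) {u w : V}
    {A B : K} (su : ρ s u = u) (tw : ρ t w = w) (sw : w + ρ s w = A • u) (tu : u + ρ t u = B • w)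
    (ind : ∀ a b : K, a • u + b • w = 0 → a = 0 ∧ b = 0) (A0 : A ≠ 0) : A * B = 2 := by
  by_contra hc
  obtain ⟨L, l, h3, h4⟩ := hX.2 (A * B / 4) fun e => hc (by
    have : (4 : K) ≠ 0 := by rw [show (4 : K) = 2 * 2 by norm_num]; exact mul_ne_zero h2 h2
    field_simp at e
    exact mul_left_cancel₀ h2 (by linear_combination e))
  obtain ⟨k, hk⟩ := hs
  obtain ⟨n, hn⟩ := ht
  have h4' : (4 : K) ≠ 0 := by rw [show (4 : K) = 2 * 2 by norm_num]; exact mul_ne_zero h2 h2
  obtain ⟨q, hq⟩ : ∃ q, q = (2 / A) • w := ⟨_, rfl⟩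
  have a1 : ρ k u = (-1 : K) • u + (0 : K) • q := by
    rw [hk, su]; match_scalars <;> field_simp; ring
  have a2 : ρ k q = (-1 - i) • u + i • q := by
    rw [hk, hq, map_smul, ← smul_add, sw]; match_scalars <;> field_simp; ring
  have a3 : ρ n u = i • u + ((-1 - i) * (A * B / 4)) • q := by
    rw [hn, hq, tu]; match_scalars <;> field_simp; ring
  have a4 : ρ n q = (0 : K) • u + (-1 : K) • q := by
    rw [hn, hq, map_smul, tw]; match_scalars <;> field_simp; ring
  have key : ∀ L, ∃ g, ρ g u = (ev4 i (A * B / 4) L).1 • u + (ev4 i (A * B / 4) L).2.2.1 • q ∧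
      ρ g q = (ev4 i (A * B / 4) L).2.1 • u + (ev4 i (A * B / 4) L).2.2.2 • q := fun L => by
    induction L with
    | nil => exact ⟨1, by simp [ev4], by simp [ev4]⟩
    | cons b L ih =>
      obtain ⟨g, g1, g2⟩ := ih
      cases b
      · refine ⟨n * g, ?_, ?_⟩ <;> simp only [mu, g1, g2, map_add, map_smul, a3, a4, ev4, mul4] <;> module
      · refine ⟨k * g, ?_, ?_⟩ <;> simp only [mu, g1, g2, map_add, map_smul, a1, a2, ev4, mul4] <;> module
  obtain ⟨g, g1, g2⟩ := key L
  generalize ev4 i (A * B / 4) L = X at h3 h4 g1 g2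
  obtain ⟨a, b, c, d⟩ := X
  simp only [mul4, Prod.mk.injEq] at h3 g1 g2
  obtain ⟨e1, e2, e3, e4⟩ := h3
  have ind' : ∀ a b : K, a • u + b • q = 0 → a = 0 ∧ b = 0 := fun a b e => by
    rw [hq, smul_smul] at e
    exact (ind _ _ e).imp id fun e => (mul_eq_zero.1 e).resolve_right (div_ne_zero h2 A0)
  obtain ⟨b1, b2⟩ := ind' (a - l) c (hm.jordan (g := g) (l := l) (v := u) (by rw [g1]; module) (by
    rw [map_add, map_smul, map_smul, g1, g2]
    match_scalars
    exacts [by linear_combination e1, by linear_combination e3]))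
  obtain ⟨b3, b4⟩ := ind' b (d - l) (hm.jordan (g := g) (l := l) (v := q) (by rw [g2]; module) (by
    rw [map_add, map_smul, map_smul, g1, g2]
    match_scalars
    exacts [by linear_combination e2, by linear_combination e4]))
  exact h4 (by rw [sub_eq_zero.1 b1, b2, b3, sub_eq_zero.1 b4])

/-- A family of configurations. -/
structure Fam (ρ : H →* (V ≃ₗ[K] V)) (Cf : V → H → H → H → H → Prop) : Prop where
  e0 : ∀ {e z a c h}, Cf e z a c h → e ≠ 0
  ae : ∀ {e z a c h}, Cf e z a c h → ρ a e = e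
  he : ∀ {e z a c h}, Cf e z a c h → ρ h e = -e
  aa : ∀ {e z a c h}, Cf e z a c h → a * a = z
  hh : ∀ {e z a c h}, Cf e z a c h → h * h = z
  zz : ∀ {e z a c h}, Cf e z a c h → z * z = 1
  ct : ∀ {e z a c h}, Cf e z a c h → h * a * c = c * (h * a * z)
  ha : ∀ {e z a c h}, Cf e z a c h → Commute h a
  line : ∀ {e z a c h}, Cf e z a c h → ∀ v, ρ z v = v → ∃ k : K, v = k • e
  swap : ∀ {e z a c h}, Cf e z a c h → Cf e z c a h
  inv : ∀ {e z a c h}, Cf e z a c h → Cf e z (a * z) c h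
  next : ∀ {e z a c h}, Cf e z a c h → ∃ e' a' c' h', Cf e' (h * a) a' c' h'

namespace Fam

variable {Cf : V → H → H → H → H → Prop} (F : Fam ρ Cf) (h2 : (2 : K) ≠ 0) (hr : finrank K V = 3)
  {e : V} {z a c h : H} (f : Cf e z a c h)
include F f

theorem ze : ρ z e = e := by rw [← F.aa f, mu, F.ae f, F.ae f]
theorem te : ρ (h * a) e = -e := by rw [mu, F.ae f, F.he f]

theorem line' {q : V} (q0 : q ≠ 0) (hq : ρ z q = q) {v : V} (hv : ρ z v = v) : ∃ k : K, v = k • q := by
  obtain ⟨k, rfl⟩ := F.line f q hq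
  obtain ⟨m, rfl⟩ := F.line f v hv
  exact ⟨m / k, by rw [smul_smul, div_mul_cancel₀ _ (left_ne_zero_of_smul q0)]⟩

include h2 hr

theorem step : ∃ (y : V) (l : K), (∃ a' c' h', Cf y (h * a) a' c' h') ∧ l * l = -1 ∧ ρ z y = -y ∧ ρ h y = l • y ∧
    ρ z (ρ c y) = -ρ c y ∧ ρ (h * a) (ρ c y) = -ρ c y ∧ ρ h (ρ c y) = l • ρ c y ∧ ρ c (ρ c y) = -y ∧
    (∀ α β γ : K, α • e + β • y + γ • ρ c y = 0 → α = 0 ∧ β = 0 ∧ γ = 0) ∧
    ∀ v, ∃ α β γ : K, v = α • e + β • y + γ • ρ c y := by
  obtain ⟨y, a', c', h', f'⟩ := F.next f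
  have y0 := F.e0 f'
  have ty := F.ze f'
  have two : ∀ {v : V}, v = -v → v = 0 := fun {v} e =>
    (smul_eq_zero.1 (by rw [two_smul]; exact add_eq_zero_iff_eq_neg.2 e)).resolve_left h2
  have za : Commute z a := F.aa f ▸ (Commute.refl a).mul_left (Commute.refl a)
  have zh : Commute z h := F.hh f ▸ (Commute.refl h).mul_left (Commute.refl h)
  have zc : Commute z c := F.aa (F.swap f) ▸ (Commute.refl c).mul_left (Commute.refl c)
  have k1 : ∀ {g}, Commute (h * a) g → ∃ l : K, ρ g y = l • y := fun e =>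
    F.line f' _ (by rw [← mu, e.eq, mu, ty])
  have zy : ρ z y = -y := by
    obtain ⟨k, hk⟩ := F.line f (y + ρ z y) (by rw [map_add, ← mu, F.zz f, on, add_comm])
    refine eq_neg_of_add_eq_zero_right (two ?_)
    nth_rw 2 [hk]
    rw [← smul_neg, ← F.te f, ← map_smul, ← hk, map_add, ty, ← mu, ← (zh.mul_right za).eq, mu, ty]
  obtain ⟨l, hl⟩ := k1 ((Commute.refl h).mul_left (F.ha f).symm)
  have ll : l * l = -1 := smul_left_injective K y0 (by
    simp only
    rw [← smul_smul, ← hl, ← map_smul, ← hl, ← mu, F.hh f, zy, neg_one_smul])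
  have b1 : ρ z (ρ c y) = -ρ c y := by rw [← mu, zc.eq, mu, zy, map_neg]
  have b2 : ρ (h * a) (ρ c y) = -ρ c y := by rw [← mu, F.ct f, mu, mu, zy, map_neg, ty, map_neg]
  have ind : ∀ α β γ : K, α • e + β • y + γ • ρ c y = 0 → α = 0 ∧ β = 0 ∧ γ = 0 := fun α β γ e0 => by
    have e1 := congrArg (ρ z) e0
    have e2 := congrArg (ρ (h * a)) e0
    simp only [map_add, map_smul, map_zero, F.ze f, F.te f, zy, b1, ty, b2] at e1 e2
    have e3 : (2 * α) • e = 0 := by linear_combination (norm := module) e0 + e1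
    have e4 : (2 * β) • y = 0 := by linear_combination (norm := module) e0 + e2
    have e5 : (2 * γ) • ρ c y = 0 := by linear_combination (norm := module) -e1 - e2
    exact ⟨(mul_eq_zero.1 ((smul_eq_zero.1 e3).resolve_right (F.e0 f))).resolve_left h2,
      (mul_eq_zero.1 ((smul_eq_zero.1 e4).resolve_right y0)).resolve_left h2,
      (mul_eq_zero.1 ((smul_eq_zero.1 e5).resolve_right ((ρ c).map_ne_zero_iff.2 y0))).resolve_left h2⟩
  refine ⟨y, l, ⟨_, _, _, f'⟩, ll, zy, hl, b1, b2, by rw [← mu, (F.ha (F.swap f)).eq, mu, hl, map_smul],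
    by rw [← mu, F.aa (F.swap f), zy], ind, fun v => ?_⟩
  have li : LinearIndependent K ![e, y, ρ c y] := Fintype.linearIndependent_iff.2 fun g hg i => by
    obtain ⟨c0, c1, c2⟩ := ind (g 0) (g 1) (g 2) (by simpa [Fin.sum_univ_three] using hg)
    fin_cases i
    exacts [c0, c1, c2]
  obtain ⟨g, hg⟩ := (Submodule.mem_span_range_iff_exists_fun K).1
    ((li.span_eq_top_of_card_eq_finrank (by simp [hr])).ge (Submodule.mem_top (x := v)))
  exact ⟨g 0, g 1, g 2, by simpa [Fin.sum_univ_three] using hg.symm⟩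

theorem hm {i : K} (hi : i * i = -1) : Hm ρ i z := by
  obtain ⟨y, l, -, ll, a1, a2, a3, -, a4, -, -, sp⟩ := F.step h2 hr f
  rcases mul_self_eq_mul_self_iff.1 (ll.trans hi.symm) with rfl | rfl
  · refine ⟨h, fun v => ?_⟩
    obtain ⟨α, β, γ, rfl⟩ := sp v
    simp only [map_add, map_smul, F.ze f, F.he f, a1, a2, a3, a4]
    match_scalars <;> field_simp <;> ring
  · refine ⟨h * z, fun v => ?_⟩
    obtain ⟨α, β, γ, rfl⟩ := sp v
    simp only [mu, map_add, map_smul, map_neg, F.ze f, F.he f, a1, a2, a3, a4]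
    match_scalars <;> field_simp <;> ring

theorem false (pp : PP ρ) {i : K} (hX : XP i) : False := by
  obtain ⟨y, l, ⟨a1, c1, h1, f1⟩, ll, zy, hy, zw, tw, hw, cw, ind, sp⟩ := F.step h2 hr f
  obtain ⟨_, _, _, _, f2⟩ := F.next (F.swap f)
  have l0 : l ≠ 0 := fun e => by simp [e] at ll
  have ty := F.ze f1
  have fin : ∀ {a' c' q} {α β : K}, Cf y (h * a) a' c' h1 → ρ (h1 * a') q = q →
      q = α • e + β • ρ c y → α ≠ 0 → β ≠ 0 → False := fun {a' c' q α β} f3 hq eq α0 β0 => by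
    obtain ⟨_, _, _, _, f4⟩ := F.next f3
    have q0 : q ≠ 0 := fun e0 => α0 (ind α 0 β (by rw [← e0, eq]; module)).1
    obtain ⟨k, hk⟩ := F.line' f4 q0 hq (v := e + ρ (h1 * a') e) (by rw [map_add, ← mu, F.zz f4, on, add_comm])
    have x1 := pp.x h2 hX (F.hm h2 hr f hX.1) (F.hm h2 hr f4 hX.1) (A := 2 * α) (F.ze f) hq
      (by rw [eq, map_add, map_smul, map_smul, F.ze f, zw]; module) hk (fun r s e0 => by
        obtain ⟨e1, -, e2⟩ := ind (r + s * α) 0 (s * β) (by rw [← e0, eq]; module)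
        obtain rfl := (mul_eq_zero.1 e2).resolve_right β0
        exact ⟨by simpa using e1, rfl⟩) (mul_ne_zero h2 α0)
    have x2 : α * k = 1 := mul_left_cancel₀ h2 (by linear_combination x1)
    have x3 : β • (ρ c y + ρ (h1 * a') (ρ c y)) = q := by
      have e1 := hq
      nth_rw 1 [eq] at e1
      rw [map_add, map_smul, map_smul] at e1
      linear_combination (norm := module) e1 - α • hk - eq - x2 • q
    have x4 := pp.x h2 hX (F.hm h2 hr f2 hX.1) (F.hm h2 hr f4 hX.1) (u := y + l • ρ c y) (A := -β * l) (B := l / β)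
      (by rw [mu, map_add, map_smul, cw, map_add, map_smul, map_neg, hw, hy]
          linear_combination (norm := module) -ll • y) hq
      (by rw [eq, map_add, map_smul, map_smul, F.te (F.swap f), mu, cw, map_neg, hy]
          linear_combination (norm := module) (β * ll) • ρ c y)
      (by rw [map_add, map_smul, F.te f3, ← x3, smul_smul, div_mul_cancel₀ _ β0]; module) (fun r s e0 => by
        obtain ⟨e1, e2, -⟩ := ind (s * α) r (r * l + s * β) (by rw [← e0, eq]; module)
        exact ⟨e2, (mul_eq_zero.1 e1).resolve_right α0⟩) (mul_ne_zero (neg_ne_zero.2 β0) l0)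
    field_simp at x4
    exact one_ne_zero (α := K) (by linear_combination -x4 - ll)
  have pl : ∀ {q}, ρ (h * a) q = -q → ∃ α β : K, q = α • e + β • ρ c y := fun {q} hq => by
    obtain ⟨α, β, γ, rfl⟩ := sp q
    rw [map_add, map_add, map_smul, map_smul, map_smul, F.te f, ty, tw] at hq
    obtain ⟨-, e1, -⟩ := ind 0 (2 * β) 0 (by linear_combination (norm := module) hq)
    exact ⟨α, γ, by rw [(mul_eq_zero.1 e1).resolve_left h2]; module⟩
  obtain ⟨w, m, ⟨_, _, _, f5⟩, mm, zy', hy', zw', tw', hw', cw', ind', -⟩ := F.step h2 hr f1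
  have m0 : m ≠ 0 := fun e => by simp [e] at mm
  obtain ⟨α, β, e1⟩ := pl zy'
  obtain ⟨γ, δ, e2⟩ := pl zw'
  have n1 := fin f1 (F.ze f5) e1
  have n2 := fin (F.inv f1) (by rw [← mul_assoc, mu, zw', map_neg, tw', neg_neg]) e2
  have n3 := fin (F.swap f1) (q := w + m • ρ c1 w) (α := α + m * γ) (β := β + m * δ) (by
    rw [mu, map_add, map_smul, cw', map_add, map_smul, map_neg, hw', hy']
    linear_combination (norm := module) -mm • w) (by linear_combination (norm := module) e1 + m • e2)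
  have n4 : ∀ r s : K, r * α + s * γ = 0 → r * β + s * δ = 0 → r = 0 ∧ s = 0 := fun r s e3 e4 =>
    (ind' 0 r s (by linear_combination (norm := module) r • e1 + s • e2 + e3 • e + e4 • ρ c y)).2
  by_cases α0 : α = 0
  · have γ0 : γ ≠ 0 := fun γ0 => by
      obtain ⟨e3, e4⟩ := n4 δ (-β) (by simp [α0, γ0]) (by ring)
      exact one_ne_zero (n4 1 0 (by simp [α0]) (by simpa using e4)).1
    have δ0 : δ = 0 := by_contra (n2 γ0)
    refine n3 (by simp [α0, γ0, m0]) fun e3 => one_ne_zero (n4 1 0 (by simp [α0]) (by simpa [δ0] using e3)).1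
  · have β0 : β = 0 := by_contra (n1 α0)
    have δ0 : δ ≠ 0 := fun δ0 => α0 (neg_eq_zero.1 (n4 γ (-α) (by ring) (by simp [β0, δ0])).2)
    have γ0 : γ = 0 := by_contra fun e3 => n2 e3 δ0
    exact n3 (by simp [α0, γ0]) (by simp [β0, δ0, m0])

end Fam

end CL.RVS
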