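/-
Realisability over extraspecial groups of order `p ^ 3`, the two sporadic cases: coprime lifting.
-/
import Cfsg.Agent.Fus.RVS0
import Cfsg.Agent.Spor.MonC

set_option autoImplicit false

namespace CL.RVS

open Subgroup

theorem pow_pred_eq_inv {M : Type*} [Group M] {x : M} {p : ℕ} (hp : 1 ≤ p) (hx : x ^ p = 1) : x ^ (p - 1) = x⁻¹ :=
  eq_inv_of_mul_eq_one_left (by rw [← pow_succ, Nat.sub_add_cancel hp, hx])

/-- correcting `g` by an element of the quaternion group -/
theorem sign_fix {M : Type*} [Group M] {w g x y : M} (wc : ∀ g, Commute w g) (ww : w * w = 1)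
    (e1 : x * y = w * (y * x)) (e2 : g * y = w * (y * g)) : Commute (g * x) y :=
  calc g * x * y = g * w * y * x := by rw [mul_assoc, e1]; simp only [mul_assoc]
    _ = w * (g * y) * x := by rw [← (wc g).eq]; simp only [mul_assoc]
    _ = w * w * (y * (g * x)) := by rw [e2]; simp only [mul_assoc]
    _ = _ := by rw [ww, one_mul]

namespace QH

variable {G K : Type*} [Group G] [Finite G] [Group K] {p : ℕ} {z : G} {Q : Subgroup G}
  {π : centralizer ({z} : Set G) →* K} {β α γ δ : K} (h : QH p z Q π β α γ δ)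
include h

omit [Finite G] in
theorem ker_two : IsPGroup 2 π.ker := fun k => by
  obtain ⟨n, hn⟩ := h.two ⟨_, (h.ker k).1 k.2⟩
  exact ⟨n, Subtype.ext (Subtype.ext (by simpa using congrArg Subtype.val hn))⟩

theorem lift_pow {b : centralizer ({z} : Set G)} (ho : Odd p) (hb : b ^ p = 1) {m : ℕ} {k : K}
    (hk : k * π b * k⁻¹ = π b ^ m) : ∃ c, π c = k ∧ c * b * c⁻¹ = b ^ m := by
  obtain ⟨c, rfl⟩ := h.surj k
  obtain ⟨q, hq, e⟩ := CL.Spor.Mon.conj_of_coset h.ker_two ho (a := b ^ m) (y := c * b * c⁻¹)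
    (normalizer_eq_top π.ker ▸ mem_top _) (by rw [← pow_mul, mul_comm, pow_mul, hb, one_pow])
    (by rw [conj_pow, hb]; simp) (by rw [MonoidHom.mem_ker]; simp [hk])
  exact ⟨q * c, by rw [map_mul, hq, one_mul], by rw [← e]; group⟩

theorem lift [Fact p.Prime] (hp : p ≠ 2) : ∃ x a c k : G, UH p z x a c k := by
  classical
  have pp : p.Prime := Fact.out
  have ho : Odd p := pp.odd_of_ne_two hp
  have βp : β ^ p = 1 := h.ob ▸ pow_orderOf_eq_one β
  obtain ⟨b, hb, bp⟩ : ∃ b, π b = β ∧ b ^ p = 1 := by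
    obtain ⟨b, hb⟩ := h.surj β
    obtain ⟨n, hn⟩ := h.ker_two ⟨b ^ p, by rw [MonoidHom.mem_ker, map_pow, hb, βp]⟩
    obtain ⟨m, -, hm⟩ := Nat.exists_mul_mod_eq_one_of_coprime ((Nat.coprime_two_left.2 ho).pow_left n) pp.one_lt
    refine ⟨b ^ (2 ^ n * m), by rw [map_pow, hb, ← pow_mod_orderOf, h.ob, hm, pow_one], ?_⟩
    rw [← pow_mul, show 2 ^ n * m * p = p * 2 ^ n * m by ring, pow_mul, pow_mul,
      show (b ^ p) ^ 2 ^ n = 1 from congrArg Subtype.val hn, one_pow]
  have b1 : b ≠ 1 := fun e => pp.ne_one (by rw [← h.ob, ← hb, e, map_one, orderOf_one])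
  obtain ⟨w, hw⟩ : ∃ w : centralizer ({z} : Set G), (w : G) = z := ⟨⟨z, mem_centralizer_singleton_iff.2 rfl⟩, rfl⟩
  have wc : ∀ g, Commute w g := fun g => Subtype.ext (by
    simpa [hw] using (mem_centralizer_singleton_iff.1 g.2).symm)
  have ww : w * w = 1 := Subtype.ext (by simpa [hw, h.gh.oz, pow_two] using pow_orderOf_eq_one z)
  have key : ∀ k, π k = 1 → Commute k b → k = 1 ∨ k = w := fun k h1 h2 => by
    have := h.fpf b hb bp k ((h.ker k).1 h1) (h2.map (centralizer ({z} : Set G)).subtype)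
    rw [mem_zpowers_iff_mem_range_orderOf, h.gh.oz] at this
    obtain ⟨i, hi, e⟩ := Finset.mem_image.1 this
    rw [Finset.mem_range] at hi
    interval_cases i
    · exact Or.inl (Subtype.ext (by simpa using e.symm))
    · exact Or.inr (Subtype.ext (by simpa [hw] using e.symm))
  have lc : ∀ k, Commute k β → ∃ c, π c = k ∧ Commute c b := fun k hk => by
    obtain ⟨c, h1, h2⟩ := h.lift_pow ho bp (m := 1) (k := k) (by rw [hb, hk.eq, pow_one, mul_inv_cancel_right])
    exact ⟨c, h1, by rwa [pow_one, mul_inv_eq_iff_eq_mul] at h2⟩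
  have sq : ∀ a, Commute a b → π a * π a = 1 → π a ≠ 1 → a * a = w := fun a h1 h2 h3 =>
    (key _ (by rw [map_mul, h2]) (h1.mul_left h1)).resolve_left fun e => h3 (h.no a e (hb ▸ h1.map π))
  obtain ⟨a, ha, ab⟩ := lc α h.ab
  obtain ⟨c, hc, cb⟩ := lc γ h.cb
  obtain ⟨g, hg, gb⟩ := h.lift_pow ho bp (m := p - 1) (k := δ) (by rw [hb, pow_pred_eq_inv pp.one_le βp, h.db])
  rw [pow_pred_eq_inv pp.one_le bp] at gb
  have aa := sq a ab (ha ▸ h.aa) (ha ▸ h.a1)
  have cc := sq c cb (hc ▸ h.cc) (hc ▸ h.c1)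
  have acac := sq (a * c) (ab.mul_left cb) (by
    rw [map_mul, ha, hc, mul_assoc, ← mul_assoc γ, ← h.ac.eq, mul_assoc, h.cc, mul_one, h.aa]) (by
    rw [map_mul, ha, hc]; exact fun e => h.ne (by rw [eq_inv_of_mul_eq_one_left e, inv_eq_of_mul_eq_one_right h.cc]))
  have aca : a * c * a = c := mul_right_cancel (b := c) (by rw [cc, ← acac]; simp only [mul_assoc])
  have ca : c * a = w * (a * c) := by rw [(wc _).eq, ← aa, ← mul_assoc, aca]
  have ac : a * c = w * (c * a) := by rw [ca, ← mul_assoc, ww, one_mul]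
  have fin : ∀ k, π k * π k = 1 → k * b * k⁻¹ = b⁻¹ → Commute k a → Commute k c → ∃ x a c k : G, UH p z x a c k :=
    fun k k2 kb ka kc => by
    have m := fun {x y} (e : Commute x y) => e.map (centralizer ({z} : Set G)).subtype
    refine ⟨b, a, c, k, h.gh, ?_, (congrArg Subtype.val aa).trans hw, (congrArg Subtype.val cc).trans hw, ?_, ?_, m ka, m kc, m ab,
      m cb, congrArg Subtype.val kb, fun t t2 tb tz => ?_⟩
    · rw [orderOf_coe]; exact orderOf_eq_prime bp b1
    · exact congrArg Subtype.val (show c * a * c⁻¹ = a⁻¹ from eq_inv_of_mul_eq_one_right (by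
        rw [← mul_assoc, ← mul_assoc, aca, mul_inv_cancel]))
    · refine (key (k * k) (by rw [map_mul, k2]) (mul_inv_eq_iff_eq_mul.1 ?_)).imp (congrArg Subtype.val)
        fun e => (congrArg Subtype.val e).trans hw
      calc _ = k * (k * b * k⁻¹) * k⁻¹ := by group
        _ = (k * b * k⁻¹)⁻¹ := by nth_rewrite 1 [kb]; group
        _ = b := by rw [kb, inv_inv]
    · have tb' : Commute (⟨t, mem_centralizer_singleton_iff.2 tz⟩ : centralizer ({z} : Set G)) b := Subtype.ext tb
      refine hw ▸ congrArg Subtype.val ((key _ (h.no _ (Subtype.ext ?_) (hb ▸ tb'.map π)) tb').resolve_left fun e => ?_)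
      · simpa [t2, pow_two] using pow_orderOf_eq_one t
      · rw [show t = 1 from congrArg Subtype.val e, orderOf_one] at t2; omega
  have alt : ∀ x, Commute x b → Commute δ (π x) → g * x = x * g ∨ g * x = w * (x * g) := fun x xb xd => by
    have e : Commute (g * x * g⁻¹) b := by
      have := (xb.map (MulAut.conj g).toMonoidHom).inv_right
      simpa only [MulEquiv.coe_toMonoidHom, MulAut.conj_apply, gb, inv_inv] using this
    refine (key (g * x * g⁻¹ * x⁻¹) (by simp [hg, xd.eq]) (e.mul_left xb.inv_left)).imp (fun e => ?_) fun e => ?_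
    · rwa [mul_inv_eq_one, mul_inv_eq_iff_eq_mul] at e
    · rw [← e]; group
  have fin' : ∀ e, Commute e b → π e * π e = 1 → Commute δ (π e) → Commute (g * e) a → Commute (g * e) c →
      ∃ x a c k : G, UH p z x a c k := fun e e1 e2 e3 => fin _
    (by rw [map_mul, hg, ← pow_two, e3.mul_pow, pow_two, pow_two, h.dd, e2, one_mul])
    (by rw [← gb, mul_assoc g, e1.eq]; group)
  have da : Commute δ (π a) := ha ▸ h.da
  have dc : Commute δ (π c) := hc ▸ h.dc
  rcases alt a ab da with ga | ga <;> rcases alt c cb dc with gc | gc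
  · exact fin' 1 (Commute.one_left _) (by simp) (by simp) (by rwa [mul_one]) (by rwa [mul_one])
  · exact fin' a ab (ha ▸ h.aa) da (Commute.mul_left ga (Commute.refl _)) (sign_fix wc ww ac gc)
  · exact fin' c cb (hc ▸ h.cc) dc (sign_fix wc ww ca ga) (Commute.mul_left gc (Commute.refl _))
  · refine fin' (a * c) (ab.mul_left cb) (by rw [← map_mul, acac, ← aa, map_mul, ha, h.aa])
      (map_mul π a c ▸ da.mul_right dc) (sign_fix wc ww ?_ ga) (sign_fix wc ww ?_ gc)
    · rw [mul_assoc, ca, ← mul_assoc, ← (wc a).eq, mul_assoc]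
    · rw [ac]; simp only [mul_assoc]; rw [ac, ← mul_assoc c w, ← (wc c).eq]

end QH

end CL.RVS
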