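/-
Fusion systems over `p^{1+2}_+`: the case of two fused lines is realised inside `GL₃(p)` extended by the graph
automorphism.
-/
import Cfsg.Agent.Fus.RV0

set_option autoImplicit false

namespace CL.RV

open Cfsg Cfsg.FusionSystem CL.Fus Matrix SemidirectProduct

namespace Two

/-- the matrices -/
abbrev M3 (p : ℕ) : Type := Matrix (Fin 3) (Fin 3) (ZMod p)
/-- the group `GL₃(p)` -/
abbrev G3 (p : ℕ) : Type := GL (Fin 3) (ZMod p)

variable {p : ℕ}

/-- unitriangular matrices -/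
def u (a b c : ZMod p) : M3 p := !![1, a, c; 0, 1, b; 0, 0, 1]

theorem u_mul (a b c a' b' c' : ZMod p) : u a b c * u a' b' c' = u (a + a') (b + b') (c + c' + a * b') := by
  ext i j
  fin_cases i <;> fin_cases j <;> simp [u, mul_apply, Fin.sum_univ_three] <;> ring

theorem u_zero : u (0 : ZMod p) 0 0 = 1 := by rw [u, one_fin_three]

/-- the same, as units -/
def U (a b c : ZMod p) : G3 p :=
  ⟨u a b c, u (-a) (-b) (a * b - c), by rw [u_mul, ← u_zero]; congr 1 <;> ring, by rw [u_mul, ← u_zero]; congr 1 <;> ring⟩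

/-- the transpose in the other diagonal -/
def fl (A : M3 p) : M3 p := Aᵀ.submatrix Fin.revPerm Fin.revPerm

theorem fl_mul (A B : M3 p) : fl (A * B) = fl B * fl A := by rw [fl, fl, fl, transpose_mul, submatrix_mul_equiv]

theorem fl_one : fl (1 : M3 p) = 1 := by rw [fl, transpose_one, submatrix_one_equiv]

theorem fl_fl (A : M3 p) : fl (fl A) = A := by ext i j; simp [fl]

theorem fl_u (a b c : ZMod p) : fl (u a b c) = u b a c := by
  ext i j; fin_cases i <;> fin_cases j <;> rfl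

/-- the graph automorphism -/
def tauF (g : G3 p) : G3 p :=
  ⟨fl g.inv, fl g.val, by rw [← fl_mul, g.val_inv, fl_one], by rw [← fl_mul, g.inv_val, fl_one]⟩

theorem tauF_tauF (g : G3 p) : tauF (tauF g) = g := Units.ext (fl_fl _)

/-- the same, as an automorphism -/
def tau : MulAut (G3 p) :=
  ⟨⟨tauF, tauF, tauF_tauF, tauF_tauF⟩, fun g h => Units.ext (fl_mul h.inv g.inv)⟩

theorem tau_sq : (tau * tau : MulAut (G3 p)) = 1 := MulEquiv.ext tauF_tauF

theorem zp (σ : Subgroup.zpowers (tau : MulAut (G3 p))) : (σ : MulAut (G3 p)) = 1 ∨ (σ : MulAut (G3 p)) = tau := by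
  obtain ⟨_, k, rfl⟩ := σ
  have h : (tau : MulAut (G3 p)) ^ (2 : ℤ) = 1 := by rw [zpow_two, tau_sq]
  rcases Int.even_or_odd' k with ⟨m, rfl | rfl⟩
  · exact .inl (by simp only [_root_.zpow_mul, h, _root_.one_zpow])
  · exact .inr (by simp only [_root_.zpow_add_one, _root_.zpow_mul, h, _root_.one_zpow, one_mul])

theorem det_tau {g : G3 p} (h : g.val.det = 1) : (tau g).val.det = 1 := by
  change (fl g.inv).det = 1
  have := congrArg det g.val_inv
  rwa [fl, det_submatrix_equiv_self, det_transpose, ← one_mul g.inv.det, ← h, ← det_mul, g.val_inv, det_one, eq_comm]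

/-- the extension by the graph automorphism -/
abbrev HH (p : ℕ) : Type := G3 p ⋊[(Subgroup.zpowers (tau : MulAut (G3 p))).subtype] Subgroup.zpowers (tau : MulAut (G3 p))

theorem conj_inl (h : HH p) (y : G3 p) :
    h * inl y * h⁻¹ = inl (h.left * (h.right : MulAut (G3 p)) y * h.left⁻¹) := by
  conv_lhs => rw [← inl_left_mul_inr_right h]
  rw [map_mul, map_mul, map_inv, show (inl ((h.right : MulAut (G3 p)) y) : HH p) = _ from inl_aut h.right y, map_inv]
  group

/-- the special linear group -/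
def LL (p : ℕ) : Subgroup (HH p) := (GeneralLinearGroup.det : G3 p →* (ZMod p)ˣ).ker.map inl

theorem mem_LL {h : HH p} : h ∈ LL p ↔ ∃ k : G3 p, k.val.det = 1 ∧ inl k = h :=
  exists_congr fun _ => and_congr_left' Units.ext_iff

instance : (LL p).Normal := ⟨fun _ hn h => by
  obtain ⟨k, hk, rfl⟩ := mem_LL.1 hn
  refine conj_inl h k ▸ mem_LL.2 ⟨_, ?_, rfl⟩
  rw [Units.val_mul, Units.val_mul, det_units_conj]
  rcases zp h.right with e | e <;> rw [e]
  exacts [hk, det_tau hk]⟩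

/-- the swap of the two axes -/
def sw : G2 p := ⟨!![0, -1; -1, 0], !![0, -1; -1, 0], by simp [one_fin_two], by simp [one_fin_two]⟩

variable [Fact p.Prime] (hp : p ≠ 2)

/-- the embedding onto the unitriangular group -/
def j : Hs p →* G3 p := MonoidHom.mk' (fun x => U (x.v 0) (x.v 1) ((x.c + x.v 0 * x.v 1) / 2)) fun x y =>
  Units.ext (by
    have := two_ne hp
    simp only [U, Units.val_mul, u_mul, Hs.mul_v, Hs.mul_c, om, Pi.add_apply]
    congr 1
    field_simp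
    ring)

theorem j_val (x : Hs p) : (j hp x).val = u (x.v 0) (x.v 1) ((x.c + x.v 0 * x.v 1) / 2) := rfl

theorem j_inj : Function.Injective (j hp) := (injective_iff_map_eq_one _).2 fun x h => by
  have h1 : ∀ a b, (j hp x).val a b = (1 : M3 p) a b := fun a b => by rw [h]; rfl
  have a : x.v 0 = 0 := h1 0 1
  have b : x.v 1 = 0 := h1 1 2
  have c : (x.c + x.v 0 * x.v 1) / 2 = 0 := h1 0 2
  rw [a, zero_mul, add_zero, div_eq_zero_iff] at c
  exact Hs.ext (v_ext a b) (c.resolve_right (two_ne hp))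

theorem det_j (x : Hs p) : (j hp x).val.det = 1 := by simp [j_val, u, det_fin_three]

theorem tau_j (x : Hs p) : tau (j hp x) = j hp (act sw x) := Units.ext (by
  have := two_ne hp
  change fl (u _ _ _) = _
  rw [fl_u, j_val]
  simp only [act, ap_0, ap_1, dt_eq, sw, of_apply, cons_val', cons_val_zero, cons_val_one, cons_val_fin_one]
  congr 1
  · ring
  · ring
  · field_simp
    ring)

/-- the embedding into the extension -/
def i0 : Hs p →* HH p := inl.comp (j hp)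

theorem diag_mem {g : G2 p} (h1 : g.1 0 1 = 0) (h2 : g.1 1 0 = 0) : g ∈ Wg (i0 hp) := by
  have h := dt_ne g
  rw [dt_eq, h1, zero_mul, sub_zero] at h
  refine ⟨inl (GeneralLinearGroup.mkOfDetNeZero !![g.1 0 0 * g.1 1 1, 0, 0; 0, g.1 1 1, 0; 0, 0, 1] (by
    simpa [det_fin_three] using h)), fun x => ?_⟩
  rw [i0, MonoidHom.comp_apply, MonoidHom.comp_apply, ← map_inv, ← map_mul, ← map_mul]
  refine congrArg _ (eq_mul_inv_iff_mul_eq.2 (Units.ext (Matrix.ext fun a b => ?_)))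
  fin_cases a <;> fin_cases b <;>
    simp [j_val, act, ap_0, ap_1, dt_eq, h1, h2, u, mul_apply, Fin.sum_univ_three] <;> ring

theorem sw_mem : sw ∈ Wg (i0 hp) :=
  ⟨inr ⟨tau, Subgroup.mem_zpowers _⟩, fun x => by
    rw [i0, MonoidHom.comp_apply, MonoidHom.comp_apply, conj_inl, ← tau_j]; simp⟩

omit hp in
theorem e_mem : ![1, 0] ∈ Ax p ∧ ![0, 1] ∈ Ax p :=
  ⟨⟨fun e => one_ne_zero (congrFun e 0), by simp⟩, fun e => one_ne_zero (congrFun e 1), by simp⟩

omit hp in
theorem mono {W : Subgroup (G2 p)} (d : Data W (Ax p)) {g : G2 p} (hg : g ∈ W) :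
    (g.1 0 1 = 0 ∧ g.1 1 0 = 0) ∨ (g.1 0 0 = 0 ∧ g.1 1 1 = 0) := by
  have h1 := (d.inv g hg _ e_mem.1).2
  have h2 := (d.inv g hg _ e_mem.2).2
  have h3 := dt_ne g
  simp only [ap_0, ap_1, cons_val_zero, cons_val_one, mul_one, mul_zero, add_zero, zero_add, mul_eq_zero] at h1 h2
  rw [dt_eq] at h3
  rcases h1 with h1 | h1 <;> rcases h2 with h2 | h2 <;> simp_all

theorem le_Wg {W : Subgroup (G2 p)} (d : Data W (Ax p)) : W ≤ Wg (i0 hp) := fun g hg => by
  rcases mono d hg with h | h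
  · exact diag_mem hp h.1 h.2
  · refine (Subgroup.mul_mem_cancel_right _ (sw_mem hp)).1 (diag_mem hp ?_ ?_) <;>
      simp [sw, mul_apply, Fin.sum_univ_two, h.1, h.2]

omit hp in
theorem tor {W : Subgroup (G2 p)} (d : Data W (Ax p)) {g : G2 p} {a b c : ZMod p} (e : a * b * c = 1)
    (h0 : ∀ v, ap g v 0 * b = a * v 0) (h1 : ∀ v, ap g v 1 * c = b * v 1) : g ∈ W := by
  have a0 : a ≠ 0 := by rintro rfl; simp at e
  have b0 : b ≠ 0 := by rintro rfl; simp at e
  have c0 : c ≠ 0 := by rintro rfl; simp at e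
  obtain ⟨x, hx, x1, x2⟩ := d.tor _ e_mem.1 c (a * b) (by linear_combination e)
  obtain ⟨y, hy, y1, y2⟩ := d.tor _ e_mem.2 (b * c) a (by linear_combination e)
  have x3 := congrFun x1 0
  have x4 := congrFun x1 1
  have y3 := congrFun y1 0
  have y4 := congrFun y1 1
  simp only [ap_0, ap_1, cons_val_zero, cons_val_one, mul_one, mul_zero, add_zero, zero_add, Pi.smul_apply,
    smul_eq_mul] at x3 x4 y3 y4
  have x5 := ((mono d hx).resolve_right fun k => c0 (x3 ▸ k.1)).1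
  have y5 := ((mono d hy).resolve_right fun k => mul_ne_zero b0 c0 (y4 ▸ k.2)).2
  rw [dt_eq, x3, x4] at x2
  rw [dt_eq, y3, y4] at y2
  refine (g_ext fun v => v_ext (mul_right_cancel₀ b0 ?_) (mul_right_cancel₀ c0 ?_) : x * y = g) ▸ mul_mem hx hy
  · rw [h0, ap_mul, ap_0, ap_0, x3, x5, y3]
    linear_combination v 0 * y2
  · rw [h1, ap_mul, ap_1 x, ap_1, x4, y5, y4]
    linear_combination b * c * v 1 * x2 + b * v 1 * e

theorem of_sl {W : Subgroup (G2 p)} (d : Data W (Ax p)) {g : G2 p} {k : G3 p} (hk : k.val.det = 1)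
    (h : ∀ x, j hp (act g x) = k * j hp x * k⁻¹) : g ∈ W := by
  have h1 : ∀ x a b, ((j hp (act g x)).val * k.val) a b = (k.val * (j hp x).val) a b := fun x a b => by
    rw [← Units.val_mul, h, inv_mul_cancel_right, Units.val_mul]
  have two := two_ne hp
  have a1 := h1 ⟨0, 2⟩ 1 2
  have a2 := h1 ⟨0, 2⟩ 2 2
  have a3 := h1 ⟨0, 2⟩ 0 1
  simp [j_val, act, ap_zero, u, mul_apply, Fin.sum_univ_three, two, dt_ne g] at a1 a2 a3
  refine tor d (a := k.val 0 0) (b := k.val 1 1) (c := k.val 2 2) (by simpa [det_fin_three, a1, a2, a3] using hk)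
    (fun v => ?_) fun v => ?_
  · have := h1 ⟨v, 0⟩ 0 1
    simp [j_val, act, u, mul_apply, Fin.sum_univ_three, a3] at this
    linear_combination this
  · have := h1 ⟨v, 0⟩ 1 2
    simp [j_val, act, u, mul_apply, Fin.sum_univ_three, a1] at this
    linear_combination this

/-- the elements inducing a matrix of `W` -/
def NN (W : Subgroup (G2 p)) : Subgroup (HH p) where
  carrier := {n | ∃ g ∈ W, ∀ x, i0 hp (act g x) = n * i0 hp x * n⁻¹}
  one_mem' := ⟨1, one_mem _, fun x => by rw [act_one]; group⟩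
  mul_mem' := by
    rintro n m ⟨g, hg, hn⟩ ⟨h, hh, hm⟩
    exact ⟨g * h, mul_mem hg hh, fun x => by rw [mul_act, hn, hm]; group⟩
  inv_mem' := by
    rintro n ⟨g, hg, hn⟩
    refine ⟨g⁻¹, inv_mem hg, fun x => ?_⟩
    have := hn (act g⁻¹ x)
    rw [act_act_inv] at this
    rw [this]; group

theorem fuse {v : V2 p} (hv : v 0 * v 1 = 0) :
    ∃ k : G3 p, k.val.det = 1 ∧ ∃ c, k * j hp ⟨v, 0⟩ * k⁻¹ = j hp ⟨0, c⟩ := by
  have two := two_ne hp
  rcases mul_eq_zero.1 hv with h | h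
  · refine ⟨GeneralLinearGroup.mkOfDetNeZero !![0, 1, 0; -1, 0, 0; 0, 0, 1] (by simp [det_fin_three]),
      by simp [det_fin_three], 2 * v 1, mul_inv_eq_iff_eq_mul.2 (Units.ext ?_)⟩
    simp [j_val, u, h, two]
  · refine ⟨GeneralLinearGroup.mkOfDetNeZero !![1, 0, 0; 0, 0, -1; 0, 1, 0] (by simp [det_fin_three]),
      by simp [det_fin_three], 2 * v 0, mul_inv_eq_iff_eq_mul.2 (Units.ext ?_)⟩
    simp [j_val, u, h, two]

theorem not_fuse {v : V2 p} {c : ZMod p} {k : G3 p} (h : j hp ⟨v, 0⟩ = k * j hp ⟨0, c⟩ * k⁻¹) : v 0 * v 1 = 0 := by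
  have h1 : ((j hp ⟨0, c⟩).val - 1) * ((j hp ⟨0, c⟩).val - 1) = 0 := by
    ext a b
    fin_cases a <;> fin_cases b <;> simp [j_val, u, mul_apply, Fin.sum_univ_three]
  have h2 : (j hp ⟨v, 0⟩).val - 1 = k.val * ((j hp ⟨0, c⟩).val - 1) * k⁻¹.val := by
    rw [h, mul_sub, sub_mul, mul_one, Units.mul_inv, Units.val_mul, Units.val_mul]
  have h3 : ((j hp ⟨v, 0⟩).val - 1) * ((j hp ⟨v, 0⟩).val - 1) = 0 := by
    rw [h2, mul_assoc, ← mul_assoc k⁻¹.val, ← mul_assoc k⁻¹.val, Units.inv_mul, one_mul, mul_assoc, ← mul_assoc (_ - _),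
      h1, zero_mul, mul_zero]
  simpa [j_val, u, mul_apply, Fin.sum_univ_three] using congrFun (congrFun h3 0) 2

omit hp in
instance : Finite (HH p) := Finite.of_equiv _ equivProd.symm

include hp in
theorem not_dvd : ¬ p ^ 3 * p ∣ Nat.card (HH p) := fun h => by
  have hq : p.Prime := Fact.out
  have h1 : Nat.card (Subgroup.zpowers (tau : MulAut (G3 p))) ∣ 2 := by
    rw [Nat.card_zpowers]
    exact orderOf_dvd_of_pow_eq_one (by rw [sq, tau_sq])
  have h2 : Nat.card (G3 p) = p ^ 3 * ((p ^ 3 - 1) * (p ^ 2 - 1) * (p ^ 1 - 1)) := by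
    rw [card_GL_field, Fin.prod_univ_three, ZMod.card, show p ^ 3 - p ^ ((1 : Fin 3) : ℕ) = p * (p ^ 2 - 1) by
      rw [Nat.mul_sub_one, ← pow_succ']; simp, show p ^ 3 - p ^ ((2 : Fin 3) : ℕ) = p ^ 2 * (p ^ 1 - 1) by
      rw [Nat.mul_sub_one, ← pow_add]; simp]
    simp only [Fin.val_zero, pow_zero]
    ring
  have k : ∀ n, ¬ p ∣ p ^ (n + 1) - 1 := fun n e => hq.one_lt.ne' (Nat.dvd_one.1
    ((Nat.dvd_sub_iff_right (Nat.one_le_pow _ _ hq.pos) (dvd_pow_self p n.succ_ne_zero)).1 e))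
  rw [SemidirectProduct.card, h2, mul_assoc] at h
  replace h := (Nat.dvd_of_mul_dvd_mul_left (pow_pos hq.pos 3) h).trans (mul_dvd_mul_left _ h1)
  simp only [hq.dvd_mul, k 0, k 1, k 2, false_or] at h
  exact hp ((Nat.prime_dvd_prime_iff_eq hq Nat.prime_two).1 h)

end Two

open Two

theorem twoThm : TwoThm := by
  intro p _ hp W d
  let ι : Hs p →* (LL p ⊔ NN hp W : Subgroup (HH p)) :=
    (i0 hp).codRestrict _ fun x => Subgroup.mem_sup_left (mem_LL.2 ⟨_, det_j hp x, rfl⟩)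
  have inj : Function.Injective ι := fun x y e => j_inj hp (inl_injective (congrArg Subtype.val e))
  refine ⟨_, inferInstance, inferInstance, ι, ⟨inj, fun h => not_dvd hp ?_⟩, le_antisymm ?_ fun g hg => ?_,
    Set.ext fun v => and_congr_right fun _ => ⟨?_, fun hv => ?_⟩⟩
  · refine Dvd.dvd.trans ?_ (Subgroup.card_subgroup_dvd_card (LL p ⊔ NN hp W))
    rw [← ι.range.card_mul_index, ← Nat.card_congr (MonoidHom.ofInjective inj).toEquiv, Hs.card]
    exact mul_dvd_mul_left _ h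
  · rintro g ⟨⟨n, hn⟩, h⟩
    obtain ⟨_, hk, m, ⟨g', hg', hm⟩, rfl⟩ := Subgroup.mem_sup_of_normal_left.1 hn
    obtain ⟨k, hk', rfl⟩ := mem_LL.1 hk
    refine (Subgroup.mul_mem_cancel_right _ (inv_mem hg')).1 (of_sl hp d hk' fun x =>
      inl_injective (φ := (Subgroup.zpowers (tau : MulAut (G3 p))).subtype) ?_)
    have h1 : i0 hp (act g (act g'⁻¹ x)) = inl k * m * i0 hp (act g'⁻¹ x) * (inl k * m)⁻¹ :=
      congrArg Subtype.val (h (act g'⁻¹ x))
    have h2 := hm (act g'⁻¹ x)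
    rw [act_act_inv] at h2
    rw [mul_act, map_mul, map_mul, map_inv]
    refine h1.trans (Eq.trans ?_ (congrArg (inl k * · * (inl k)⁻¹) h2.symm))
    group
  · obtain ⟨n, hn⟩ := le_Wg hp d hg
    exact ⟨⟨n, Subgroup.mem_sup_right ⟨g, hg, hn⟩⟩, fun x => Subtype.ext (hn x)⟩
  · rintro ⟨n, c, h⟩
    have h1 : i0 hp ⟨v, 0⟩ = (n : HH p)⁻¹ * i0 hp ⟨0, c⟩ * (n : HH p)⁻¹⁻¹ := by
      rw [← show (n : HH p) * i0 hp ⟨v, 0⟩ * (n : HH p)⁻¹ = i0 hp ⟨0, c⟩ from congrArg Subtype.val h]; group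
    replace h1 := inl_injective (h1.trans (conj_inl _ _))
    rcases zp (n : HH p)⁻¹.right with e | e <;> rw [e] at h1
    · exact not_fuse hp h1
    · rw [tau_j, act, ap_zero] at h1
      exact not_fuse hp h1
  · obtain ⟨k, hk, c, e⟩ := fuse hp hv
    refine ⟨⟨inl k, Subgroup.mem_sup_left (mem_LL.2 ⟨k, hk, rfl⟩)⟩, c, Subtype.ext ?_⟩
    change inl k * inl (j hp _) * (inl k)⁻¹ = (inl (j hp _) : HH p)
    rw [← e, map_mul, map_mul, map_inv]

end CL.RV
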