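import Cfsg.Agent.Fus.FormGeo

/-! The fusion system of a symplectic or special unitary group of Witt index at least two in the defining
characteristic is simple. -/

set_option autoImplicit false
open Cfsg Module
open Cfsg.FusionSystem (normalizerIn)

namespace CL.Fus.Form

variable {F V : Type*} [Field F] [AddCommGroup V] [Module F V] {σ : F →+* F}
variable {ε : F} {B : V →ₛₗ[σ] V →ₗ[F] F} {G : Subgroup (V ≃ₗ[F] V)}

theorem exists_orth [FiniteDimensional F V] (B : V →ₛₗ[σ] V →ₗ[F] F) {n : ℕ} (a : Fin n → V) (hn : n < finrank F V) :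
    ∃ y, y ≠ 0 ∧ ∀ i, B (a i) y = 0 := by
  have : LinearMap.ker (LinearMap.pi fun i => B (a i)) ≠ ⊥ :=
    LinearMap.ker_ne_bot_of_finrank_lt (by simpa using hn)
  obtain ⟨y, hy, hy0⟩ := (Submodule.ne_bot_iff _).1 this
  exact ⟨y, hy0, fun i => congrFun (LinearMap.mem_ker.1 hy) i⟩

namespace Geo

variable (h : Geo ε B G) (p : ℕ) [Fact p.Prime] [CharP F p] [FiniteDimensional F V] [Finite G]
include h

omit [FiniteDimensional F V] in
theorem exists_fixed_iso {X : Set V} {R : Subgroup (V ≃ₗ[F] V)} (hR : R ≤ Fix G X) (hp : IsPGroup p R) (h1 : R ≠ ⊥) :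
    ∃ r ∈ perp B X, r ≠ 0 ∧ B r r = 0 ∧ ∀ g ∈ R, g r = r := by
  have : Finite R := finite_of_le (hR.trans (Fix_le X))
  let W : Submodule F V := Submodule.span F {y | ∃ g ∈ R, ∃ x, y = g x - x}
  obtain ⟨r, hr, hr0, hfix⟩ := CL.Perm.exists_ne_zero_fixed_of_isPGroup hp
    (LinearEquiv.automorphismGroup.toLinearMapMonoidHom.comp R.subtype) W (fun k v hv => by
      refine (Submodule.span_le (p := W.comap (k.1 : V →ₗ[F] V))).2 ?_ hv
      rintro _ ⟨g, hg, x, rfl⟩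
      refine Submodule.subset_span ⟨k.1 * g * k.1⁻¹, mul_mem (mul_mem k.2 hg) (inv_mem k.2), k.1 x, ?_⟩
      rw [LinearEquiv.mul_apply, LinearEquiv.mul_apply, inv_app]
      exact map_sub k.1 _ _) (by
      obtain ⟨g, hg, hg1⟩ := (Subgroup.bot_or_exists_ne_one R).resolve_left h1
      intro hW
      exact hg1 (LinearEquiv.ext fun x => sub_eq_zero.1
        ((Submodule.mem_bot F).1 (hW ▸ Submodule.subset_span ⟨g, hg, x, rfl⟩))))
  have hfix' : ∀ g ∈ R, g r = r := fun g hg => hfix ⟨g, hg⟩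
  have key : ∀ Y : Set V, R ≤ Fix G Y → r ∈ perp B Y := fun Y hY => by
    refine (Submodule.span_le (p := perp B Y)).2 ?_ hr
    rintro _ ⟨g, hg, x, rfl⟩
    exact h.sub_mem_perp (hY hg) x
  exact ⟨r, key X hR, hr0, key {r} (fun g hg => ⟨(hR hg).1, fun x hx => hx ▸ hfix' g hg⟩) r rfl, hfix'⟩

omit [FiniteDimensional F V] [Finite G] in
theorem sylIn_ne_bot {X : Set V} {R : Subgroup (V ≃ₗ[F] V)} (hR : SylIn p R (Fix G X)) {r : V} (hr : r ∈ perp B X)
    (hr0 : r ≠ 0) (hrr : B r r = 0) : R ≠ ⊥ := by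
  rintro rfl
  obtain ⟨c, hc, hc'⟩ := h.tv0
  obtain ⟨t, ht, ht'⟩ := h.eich r 0 c hrr (map_zero _) (by simpa using hc')
  have h1 := hR.2.2 (QE h (F ∙ r) ⊓ Fix G X) ((h.isPGroup_QE p _).to_inf_left) bot_le inf_le_right
    ⟨h.mem_QE_of_ei (span_singleton_ti hrr) ht ht' (Submodule.mem_span_singleton_self r) (zero_mem _),
      h.EiSet_subset X ⟨ht, r, hr, 0, zero_mem _, c, hrr, map_zero _, by simpa using hc', ht'⟩⟩
  obtain ⟨x, hx⟩ := h.exists_ne hr0
  have := ht' x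
  rw [Subgroup.mem_bot.1 h1] at this
  simp [hc, hx, hr0, eq_sub_iff_add_eq] at this

omit [Finite G] in
theorem QE_inf_le {X : Set V} {R : Subgroup (V ≃ₗ[F] V)} (hR : SylIn p R (Fix G X)) {E : Submodule F V}
    (hE : ∀ g ∈ R, ∀ e ∈ E, g e ∈ E) : QE h E ⊓ Fix G X ≤ R := by
  refine hR.le_of_normalizes (h.isPGroup_QE p _).to_inf_left inf_le_right fun g hg => ?_
  exact Subgroup.inf_normalizer_le_normalizer_inf
    ⟨h.mem_normalizer_QE (hR.le hg).1 (hE g hg), Subgroup.le_normalizer (hR.le hg)⟩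

omit h [Fact p.Prime] [CharP F p] [FiniteDimensional F V] [Finite G] in
theorem app_mem_span_singleton {g : V ≃ₗ[F] V} {r : V} {a : F} (hg : g r = a • r) :
    ∀ e ∈ (F ∙ r : Submodule F V), g e ∈ (F ∙ r : Submodule F V) := by
  intro e he
  obtain ⟨s, rfl⟩ := Submodule.mem_span_singleton.1 he
  rw [map_smul, hg]
  exact Submodule.smul_mem _ _ (Submodule.smul_mem _ _ (Submodule.mem_span_singleton_self r))

omit [CharP F p] [FiniteDimensional F V] [Finite G] [Fact p.Prime] in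
theorem exists_split {X : Set V} {r f : V} (hr : r ∈ perp B X) (hf : f ∈ perp B X) (hrr : B r r = 0) (hff : B f f = 0)
    (hrf : B r f = 1) {g : V ≃ₗ[F] V} (hg : g ∈ Fix G X) (hgr : g r = r) :
    ∃ u ∈ EiSet ε B G X, u ∈ QE h (F ∙ r) ∧ u * g ∈ Fix G (insert r (insert f X)) := by
  have e : B r (g f) = B r f := by
    have := h.isom g hg.1 r f
    rwa [hgr] at this
  obtain ⟨u, hu, hu', e'⟩ := h.move hr (h.app_mem_perp hg hf) hf hrr (by rw [h.isom g hg.1, hff]) hff e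
    (by rw [e, hrf]; exact one_ne_zero)
  exact ⟨u, hu, hu', mem_Fix_insert.2 ⟨by rw [LinearEquiv.mul_apply, hgr,
    hu'.1.2 r (Submodule.mem_span_singleton_self r)], mem_Fix_insert.2 ⟨e', mul_mem (h.EiSet_subset X hu) hg⟩⟩⟩

omit [Finite G] in
theorem sylIn_step {X : Set V} {R : Subgroup (V ≃ₗ[F] V)} (hR : SylIn p R (Fix G X)) {r f : V} (hr : r ∈ perp B X)
    (hf : f ∈ perp B X) (hrr : B r r = 0) (hff : B f f = 0) (hrf : B r f = 1) (hfix : ∀ g ∈ R, g r = r) :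
    SylIn p (R ⊓ Fix G (insert r (insert f X))) (Fix G (insert r (insert f X))) := by
  have hle : Fix G (insert r (insert f X)) ≤ Fix G X := fun g hg => (mem_Fix_insert.1 (mem_Fix_insert.1 hg).2).2
  refine ⟨inf_le_right, hR.isPGroup.to_inf_left, fun Z hZ h1 h2 => le_inf ?_ h2⟩
  have hn : Z ≤ Subgroup.normalizer ((QE h (F ∙ r) ⊓ Fix G X : Subgroup (V ≃ₗ[F] V)) : Set (V ≃ₗ[F] V)) := fun g hg =>
    Subgroup.inf_normalizer_le_normalizer_inf ⟨h.mem_normalizer_QE (h2 hg).1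
      (app_mem_span_singleton (a := 1) (by rw [one_smul, (mem_Fix_insert.1 (h2 hg)).1])),
      Subgroup.le_normalizer (hle (h2 hg))⟩
  refine le_sup_left.trans (hR.2.2 (Z ⊔ (QE h (F ∙ r) ⊓ Fix G X))
    (IsPGroup.to_sup_of_normal_right' hZ (h.isPGroup_QE p _).to_inf_left hn) (fun g hg => ?_)
    (sup_le (h2.trans hle) inf_le_right))
  obtain ⟨u, hu, hu', hug⟩ := h.exists_split hr hf hrr hff hrf (hR.le hg) (hfix g hg)
  have huQ : u ∈ QE h (F ∙ r) ⊓ Fix G X := ⟨hu', h.EiSet_subset X hu⟩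
  have huR : u ∈ R := h.QE_inf_le p hR
    (fun g hg => app_mem_span_singleton (a := 1) (by rw [one_smul, hfix g hg])) huQ
  exact (Subgroup.mul_mem_cancel_left _ (Subgroup.mem_sup_right huQ)).1
    (Subgroup.mem_sup_left (h1 ⟨mul_mem huR hg, hug⟩))

/-- A Sylow subgroup is generated by the Eichler maps it contains. -/
theorem sylIn_le {T : Subgroup (V ≃ₗ[F] V)} {X : Set V} (hX : ND B X) {R : Subgroup (V ≃ₗ[F] V)}
    (hR : SylIn p R (Fix G X)) (hT : ∀ g ∈ EiSet ε B G ∅, g ∈ R → g ∈ T) : R ≤ T := by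
  induction hn : finrank F (perp B X) using Nat.strong_induction_on generalizing X R with
  | _ n ih =>
  by_cases h1 : R = ⊥
  · rw [h1]; exact bot_le
  obtain ⟨r, hr, hr0, hrr, hfix⟩ := h.exists_fixed_iso p hR.le hR.isPGroup h1
  obtain ⟨z, hz, hrz⟩ := hX r hr hr0
  obtain ⟨f, hf, hff, hrf⟩ := h.exists_partner hr hz hrr hrz
  have := ih _ (hn ▸ h.finrank_insert_lt hr hrf) (h.nd_insert hX hr hf hrr hff hrf)
    (h.sylIn_step p hR hr hf hrr hff hrf hfix) (fun g hg hg' => hT g hg hg'.1) rfl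
  intro g hg
  obtain ⟨u, hu, hu', hug⟩ := h.exists_split hr hf hrr hff hrf (hR.le hg) (hfix g hg)
  have huR : u ∈ R := h.QE_inf_le p hR
    (fun g hg => app_mem_span_singleton (a := 1) (by rw [one_smul, hfix g hg])) ⟨hu', h.EiSet_subset X hu⟩
  exact (Subgroup.mul_mem_cancel_left _ (hT u (EiSet_mono (Set.empty_subset X) hu) huR)).1
    (this ⟨mul_mem huR hg, hug⟩)

omit [Fact p.Prime] [CharP F p] [FiniteDimensional F V] [Finite G] in
theorem eq_smul_of_orth {v f y : V} (_ : B v v = 0) (hvf : B v f = 1) (hy : ∀ w, B v w = 0 → B w y = 0) :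
    y = (ε * B f y) • v := by
  refine sub_eq_zero.1 (h.nondeg _ fun x => h.flip ?_)
  have e : x = (x - B v x • f) + B v x • f := by abel
  have h1 : B v (x - B v x • f) = 0 := by rw [map_sub, map_smul, hvf, smul_eq_mul, mul_one, sub_self]
  rw [e, B_add_left, B_smul_left, map_sub, map_sub (B f), map_smul, map_smul, hy _ h1, h.flip h1, h.flip_one hvf,
    smul_eq_mul, smul_eq_mul]
  linear_combination (-σ (B v x) * B f y) * h.eps_sq

omit [Fact p.Prime] [CharP F p] [FiniteDimensional F V] [Finite G] in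
theorem exists_ei_of_mem_QE {v f : V} (_ : B v v = 0) (hff : B f f = 0) (hvf : B v f = 1) {g : V ≃ₗ[F] V}
    (hg : g ∈ QE h (F ∙ v)) : ∃ w c, B v w = 0 ∧ ε * c + σ c = B w w ∧ Ei ε B v w c g := by
  have hgv : g v = v := hg.1.2 v (Submodule.mem_span_singleton_self v)
  have e : B v (g f) = 1 := by
    have := h.isom g hg.1.1 v f
    rwa [hgv, hvf] at this
  have hw : B v (g f - f) = 0 := by rw [map_sub, e, hvf, sub_self]
  have h1 : B (g f) (g f) = 0 := by rw [h.isom g hg.1.1, hff]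
  refine ⟨g f - f, -(ε * B (g f) f), hw, ?_, fun x => ?_⟩
  · rw [B_sub_left, map_sub, map_sub, h1, hff, h.symm (g f) f, map_neg, map_mul, h.sigma_eps]
    linear_combination (-B (g f) f) * h.eps_sq
  · have h2 : B v (x - B v x • f) = 0 := by rw [map_sub, map_smul, hvf, smul_eq_mul, mul_one, sub_self]
    obtain ⟨s, hs⟩ := Submodule.mem_span_singleton.1 (hg.2 _ (mem_perp_span_singleton.2 h2))
    have h3 : g x = x + B v x • (g f - f) + s • v := by
      rw [map_sub, map_smul] at hs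
      linear_combination (norm := module) -hs
    have h4 := h.isom g hg.1.1 f x
    rw [h3, map_add, map_add, map_smul, map_smul, map_sub, h1, h.flip_one e, smul_eq_mul, smul_eq_mul] at h4
    rw [h3, B_sub_left]
    have h5 : s = -(ε * (B (g f) x - B f x) + -(ε * B (g f) f) * B v x) := by
      linear_combination ε * h4 - s * h.eps_sq
    rw [h5, neg_smul, sub_eq_add_neg (x + _)]

omit [Fact p.Prime] [CharP F p] [FiniteDimensional F V] [Finite G] in
theorem ei_tv_add {v u : V} {c : F} {t₁ t₂ : V ≃ₗ[F] V} (hvu : B v u = 0) (huu : B u u = 0) (hc : ε * c + σ c = 0)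
    (e₁ : Ei ε B (v + u) 0 c t₁) (e₂ : Ei ε B u 0 (-c) t₂) : Ei ε B v ((-c) • u) c (t₁ * t₂) := by
  intro x
  have hσ : ε * (σ (-c) * B u x) = c * B u x := by
    rw [map_neg]; linear_combination (-ε * B u x) * hc + c * B u x * h.eps_sq
  rw [LinearEquiv.mul_apply, e₁, e₂, B_smul_left, hσ, B_add_left]
  simp only [map_add, map_sub, map_smul, map_zero, LinearMap.zero_apply, smul_eq_mul, hvu, huu]
  module

end Geo

/-- The data used to show that a fusion-closed subgroup is everything. -/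
structure Flag (h : Geo ε B G) (S : Subgroup (V ≃ₗ[F] V)) (v f v₂ f₂ : V) : Prop where
  vv : B v v = 0
  ff : B f f = 0
  vf : B v f = 1
  vv₂ : B v v₂ = 0
  fv₂ : B f v₂ = 0
  vf₂ : B v f₂ = 0
  v₂v₂ : B v₂ v₂ = 0
  f₂f₂ : B f₂ f₂ = 0
  v₂f₂ : B v₂ f₂ = 1
  fix : ∀ g ∈ S, g v = v
  stab : ∀ g ∈ S, ∀ e ∈ Submodule.span F {v, v₂}, g e ∈ Submodule.span F {v, v₂}
  le₁ : QE h (F ∙ v) ≤ S
  le₂ : QE h (Submodule.span F {v, v₂}) ≤ S

theorem Geo.exists_flag (h : Geo ε B G) (p : ℕ) [Fact p.Prime] [CharP F p] [FiniteDimensional F V] [Finite G]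
    (hn : 4 ≤ finrank F V) {S : Subgroup (V ≃ₗ[F] V)} (hS : SylIn p S G) : ∃ v f v₂ f₂, Flag h S v f v₂ f₂ := by
  have hiso : ∀ a b : V, ∃ r ∈ perp B {a, b}, r ≠ 0 ∧ B r r = 0 := fun a b => by
    obtain ⟨u, hu0, hu⟩ := exists_orth B ![a, b] (by omega)
    obtain ⟨y, hy0, hy⟩ := exists_orth B ![a, b, u] (by omega)
    exact h.exists_iso_of_orth (mem_perp_insert.2 ⟨hu 0, fun x hx => hx ▸ hu 1⟩)
      (mem_perp_insert.2 ⟨hy 0, fun x hx => hx ▸ hy 1⟩) hu0 hy0 (hy 2)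
  have hS' : SylIn p S (Fix G ∅) := by rwa [Fix_empty]
  have he : ∀ y, y ∈ perp B ∅ := fun _ _ h => h.elim
  obtain ⟨r, -, hr0, hrr⟩ := hiso 0 0
  obtain ⟨v, -, hv0, hvv, hfix⟩ := h.exists_fixed_iso p hS'.le hS.isPGroup (h.sylIn_ne_bot p hS' (he r) hr0 hrr)
  obtain ⟨z, hz⟩ := h.exists_ne hv0
  obtain ⟨f, -, hff, hvf⟩ := h.exists_partner (he v) (he z) hvv hz
  have hR := h.sylIn_step p hS' (he v) (he f) hvv hff hvf hfix
  obtain ⟨r', hr', hr0', hrr'⟩ := hiso v f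
  obtain ⟨v₂, hv₂, hv₂0, hv₂v₂, hfix₂⟩ := h.exists_fixed_iso p hR.le hR.isPGroup
    (h.sylIn_ne_bot p hR (r := r') (by simpa using hr') hr0' hrr')
  obtain ⟨z₂, hz₂, hz₂'⟩ := h.nd_insert h.nd_empty (he v) (he f) hvv hff hvf v₂ hv₂ hv₂0
  obtain ⟨f₂, hf₂, hf₂f₂, hv₂f₂⟩ := h.exists_partner hv₂ hz₂ hv₂v₂ hz₂'
  rw [mem_perp_insert, mem_perp_insert] at hv₂ hf₂
  have h1 : QE h (F ∙ v) ≤ S := fun g hg => h.QE_inf_le p hS'
    (fun g hg => Geo.app_mem_span_singleton (a := 1) (by rw [one_smul, hfix g hg])) ⟨hg, hg.1.1, fun _ h => h.elim⟩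
  have h2 : ∀ g ∈ S, ∀ e ∈ Submodule.span F {v, v₂}, g e ∈ Submodule.span F {v, v₂} := by
    intro g hg e hE
    obtain ⟨a, b, rfl⟩ := Submodule.mem_span_pair.1 hE
    obtain ⟨u, -, hu', hug⟩ := h.exists_split (he v) (he f) hvv hff hvf (hS'.le hg) (hfix g hg)
    have h3 : g v₂ = u⁻¹ v₂ := (inv_app_eq (g := u) (hfix₂ (u * g) ⟨mul_mem (h1 hu') hg, hug⟩)).symm
    obtain ⟨s, hs⟩ := Submodule.mem_span_singleton.1 ((inv_mem hu').2 v₂ (Geo.mem_perp_span_singleton.2 hv₂.1))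
    refine Submodule.mem_span_pair.2 ⟨a + b * s, b, ?_⟩
    rw [map_add, map_smul, map_smul, hfix g hg, h3]
    linear_combination (norm := module) b • hs
  exact ⟨v, f, v₂, f₂, hvv, hff, hvf, hv₂.1, hv₂.2.1, hf₂.1, hv₂v₂, hf₂f₂, hv₂f₂, hfix, h2, h1,
    fun g hg => h.QE_inf_le p hS' h2 ⟨hg, hg.1.1, fun _ h => h.elim⟩⟩

namespace Flag

variable {h : Geo ε B G} {S R : Subgroup (V ≃ₗ[F] V)} {v f v₂ f₂ : V} (Φ : Flag h S v f v₂ f₂)
include Φ

theorem v_ne : v ≠ 0 := fun e => by simpa [e] using Φ.vf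

theorem ti : ∀ e ∈ Submodule.span F {v, v₂}, e ∈ perp B (Submodule.span F {v, v₂} : Submodule F V) := by
  intro e he
  obtain ⟨a, b, rfl⟩ := Submodule.mem_span_pair.1 he
  rw [Geo.mem_perp_span, mem_perp_insert]
  exact ⟨by simp [Φ.vv, Φ.vv₂], fun x hx => by rw [hx]; simp [Φ.v₂v₂, h.flip Φ.vv₂]⟩

theorem ei_mem {w : V} {c : F} {g : V ≃ₗ[F] V} (hg : g ∈ G) (he : Ei ε B v w c g) (hw : B v w = 0) : g ∈ S :=
  Φ.le₁ (h.mem_QE_of_ei (Geo.span_singleton_ti Φ.vv) hg he (Submodule.mem_span_singleton_self v)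
    (Geo.mem_perp_span_singleton.2 hw))

/-- Every nonzero scalar multiple of `v` is an image of `v` under `p`-elements stabilizing the plane. -/
theorem exists_smul (p : ℕ) [Fact p.Prime] [CharP F p] [FiniteDimensional F V] {a : F} (ha : a ≠ 0) :
    ∃ k ∈ pCl p (normalizerIn G (QE h (Submodule.span F {v, v₂}))), k v = a • v := by
  have key : ∀ r w x y : V, B r r = 0 → B r w = 0 → B w w = 0 → B r x = 0 → B w x = ε → B w r = 0 →
      Submodule.span F {r, x} = Submodule.span F {v, v₂} → ∀ s : F,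
      ∃ k ∈ pCl p (normalizerIn G (QE h (Submodule.span F {v, v₂}))), k r = r ∧ k x = x + s • r := by
    intro r w x _ h1 h2 h3 h4 h5 h6 hE s
    have h7 : B r (σ (-s) • w) = 0 := by rw [map_smul, h2, smul_zero]
    have h8 : ε * 0 + σ 0 = B (σ (-s) • w) (σ (-s) • w) := by simp [h3]
    obtain ⟨k, hk, hk'⟩ := h.eich r _ 0 h1 h7 h8
    have e1 : k r = r := hk'.fix h1 (by rw [B_smul_left, h6, mul_zero])
    have e2 : k x = x + s • r := by
      rw [hk', h4, B_smul_left, h5, h.invol, mul_comm (-s), ← mul_assoc, h.eps_sq]; simp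
    obtain ⟨m, hm⟩ := h.pow_eq_one_of_mem_EiSet p (X := ∅)
      ⟨hk, r, fun _ h => h.elim, _, fun _ h => h.elim, 0, h1, h7, h8, hk'⟩
    refine ⟨k, mem_pCl (mem_normalizerIn.2 ⟨hk, h.mem_normalizer_QE hk fun e he => ?_⟩) hm, e1, e2⟩
    rw [← hE] at he ⊢
    obtain ⟨a, b, rfl⟩ := Submodule.mem_span_pair.1 he
    refine Submodule.mem_span_pair.2 ⟨a + b * s, b, ?_⟩
    rw [map_add, map_smul, map_smul, e1, e2]; module
  have k1 := key v f₂ v₂ 0 Φ.vv Φ.vf₂ Φ.f₂f₂ Φ.vv₂ (h.flip_one Φ.v₂f₂) (h.flip Φ.vf₂) rfl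
  have k2 := key v₂ f v 0 Φ.v₂v₂ (h.flip Φ.fv₂) Φ.ff (h.flip Φ.vv₂) (h.flip_one Φ.vf) Φ.fv₂ (by rw [Set.pair_comm])
  obtain ⟨a₁, h₁, e₁, e₁'⟩ := k2 1
  obtain ⟨a₂, h₂, e₂, e₂'⟩ := k1 (a - 1)
  obtain ⟨a₃, h₃, e₃, e₃'⟩ := k2 (-a⁻¹)
  refine ⟨a₃ * (a₂ * a₁), mul_mem h₃ (mul_mem h₂ h₁), ?_⟩
  simp only [LinearEquiv.mul_apply, e₁', map_add, map_smul, e₂, e₂', e₃, e₃']
  match_scalars
  · ring
  · field_simp; ring

theorem normalizer_le (p : ℕ) [Fact p.Prime] [CharP F p] [FiniteDimensional F V] [Finite G] (hS : SylIn p S G)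
    {g : V ≃ₗ[F] V} (hg : g ∈ G) (hgS : g ∈ Subgroup.normalizer (S : Set (V ≃ₗ[F] V))) : g ∈ goodN p hS.le := by
  have he : ∀ y, y ∈ perp B ∅ := fun _ _ h => h.elim
  have hy : ∀ s ∈ S, s (g v) = g v := fun s hs => by
    have := Φ.fix _ (inv_conj_mem_of_mem_normalizer hgS hs)
    rw [LinearEquiv.mul_apply, LinearEquiv.mul_apply] at this
    conv_rhs => rw [← this, app_inv]
  have hei : ∀ w, B v w = 0 → ∃ c, B v (g v) • w = (ε * B w (g v) + c * B v (g v)) • v := fun w hw => by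
    obtain ⟨c, hc⟩ := h.trace w
    obtain ⟨u, hu, hu'⟩ := h.eich v w c Φ.vv hw hc
    have := hu' (g v)
    rw [hy u (Φ.ei_mem hu hu' hw)] at this
    exact ⟨c, by linear_combination (norm := module) -this⟩
  have h1 : B v (g v) = 0 := by
    obtain ⟨c, hc⟩ := hei v₂ Φ.vv₂
    have := congrArg (B f₂) hc
    rw [map_smul, map_smul, h.flip Φ.vf₂, h.flip_one Φ.v₂f₂, smul_zero, smul_eq_mul] at this
    exact (mul_eq_zero.1 this).resolve_right h.eps_ne
  have h2 := h.eq_smul_of_orth (y := g v) Φ.vv Φ.vf fun w hw => by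
    obtain ⟨c, hc⟩ := hei w hw
    rw [h1, zero_smul, mul_zero, add_zero, eq_comm, smul_eq_zero] at hc
    exact (mul_eq_zero.1 (hc.resolve_right Φ.v_ne)).resolve_left h.eps_ne
  have ha : ε * B f (g v) ≠ 0 := fun e => Φ.v_ne (g.injective (by rw [h2, e, zero_smul, map_zero]))
  obtain ⟨k, hk, hkv⟩ := Φ.exists_smul p ha
  set K := pCl p (normalizerIn G (QE h (Submodule.span F {v, v₂})))
  have hKG : K ≤ G := (pCl_le _ _).trans (normalizerIn_le _ _)
  have hSK : S ≤ K ⊓ Fix G {v} := le_inf (le_pCl hS.isPGroup fun s hs =>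
    mem_normalizerIn.2 ⟨hS.le hs, h.mem_normalizer_QE (hS.le hs) (Φ.stab s hs)⟩)
    fun s hs => ⟨hS.le hs, fun x hx => hx ▸ Φ.fix s hs⟩
  have : Finite (K ⊓ Fix G {v} : Subgroup (V ≃ₗ[F] V)) := finite_of_le (inf_le_left.trans hKG)
  obtain ⟨n, hn, hnk⟩ := (hS.mono hSK (inf_le_left.trans hKG)).frattini (g := k) (by
    refine mem_normalizer_of_finite fun x hx => ⟨K.mul_mem (K.mul_mem hk hx.1) (K.inv_mem hk),
      mul_mem (mul_mem (hKG hk) hx.2.1) (inv_mem (hKG hk)), fun y hy => ?_⟩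
    have e : k⁻¹ v = (ε * B f (g v))⁻¹ • v := inv_app_eq (by rw [map_smul, hkv, smul_smul, inv_mul_cancel₀ ha, one_smul])
    rw [hy, LinearEquiv.mul_apply, LinearEquiv.mul_apply, e, map_smul, hx.2.2 v rfl, ← e, app_inv])
  have hgood : n * k ∈ goodN p hS.le := mem_goodN_of_pCl hS Φ.le₂
    (h.pCen_QE p Φ.ti (Submodule.subset_span (Set.mem_insert _ _)) Φ.v_ne) (mul_mem hn.1 hk) hnk
  refine (Subgroup.mul_mem_cancel_left _ (inv_mem hgood)).1 (mem_goodN_of_pCl hS Φ.le₁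
    (h.pCen_QE p (Geo.span_singleton_ti Φ.vv) (Submodule.mem_span_singleton_self v) Φ.v_ne) ?_
    (mul_mem (inv_mem hnk) hgS))
  have hgG : (n * k)⁻¹ * g ∈ G := mul_mem (inv_mem (hKG (mul_mem hn.1 hk))) hg
  have hgv : ((n * k)⁻¹ * g) v = v := by
    rw [LinearEquiv.mul_apply]
    refine inv_app_eq ?_
    rw [LinearEquiv.mul_apply, hkv, map_smul, hn.2.2 v rfl, ← h2]
  obtain ⟨u, -, hu', hug⟩ := h.exists_split (he v) (he f) Φ.vv Φ.ff Φ.vf ⟨hgG, fun _ h => h.elim⟩ hgv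
  refine (Subgroup.mul_mem_cancel_left _
    (le_pCl (h.isPGroup_QE p _) (le_normalizerIn (h.QE_le _)) hu')).1 ?_
  refine (Subgroup.closure_le _).2 (fun t ht => ?_)
    (h.Fix_le_closure (h.nd_insert h.nd_empty (he v) (he f) Φ.vv Φ.ff Φ.vf) hug)
  obtain ⟨m, hm⟩ := h.pow_eq_one_of_mem_EiSet p ht
  exact mem_pCl (mem_normalizerIn.2 ⟨ht.1, h.mem_normalizer_QE ht.1 (Geo.app_mem_span_singleton (a := 1)
    (by rw [one_smul, (mem_Fix_insert.1 (h.EiSet_subset _ ht)).1]))⟩) hm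

/-- All Eichler maps with data `v, w, c` lie in `R`. -/
def Has (ε : F) (B : V →ₛₗ[σ] V →ₗ[F] F) (R : Subgroup (V ≃ₗ[F] V)) (v w : V) (c : F) : Prop :=
  ∃ g ∈ R, Ei ε B v w c g

theorem Has.mul {w w' : V} {c c' : F} (h₁ : Has ε B R v w c) (h₂ : Has ε B R v w' c') (hw : B v w = 0)
    (hw' : B v w' = 0) : Has ε B R v (w + w') (c + c' + ε * B w w') :=
  let ⟨g, hg, e⟩ := h₁; let ⟨g', hg', e'⟩ := h₂
  ⟨g * g', mul_mem hg hg', e.mul e' Φ.vv (h.flip hw) hw'⟩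

theorem Has.conj (hR : SC G S R) {r w w' : V} {c : F} (h₁ : Has ε B R r w c) {k : V ≃ₗ[F] V} (hk : k ∈ G) {a : F}
    (hkr : k r = a • v) (hw : σ a • k w = w') (hw' : B v w' = 0) (hRG : R ≤ G) : Has ε B R v w' (a * σ a * c) := by
  obtain ⟨g, hg, e⟩ := h₁
  have e' := e.conj (h.isom k hk)
  rw [hkr, h.ei_smul, hw] at e'
  exact ⟨_, hR.2 g hg k hk (Φ.ei_mem (mul_mem (mul_mem hk (hRG hg)) (inv_mem hk)) e' hw'), e'⟩

theorem exists_tv (p : ℕ) [Fact p.Prime] [CharP F p] [FiniteDimensional F V] [Finite G] (hS : SylIn p S G)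
    (hexc : (∃ b, ε * b ≠ σ b) ∨ (∃ c : F, c ≠ 0 ∧ c ≠ 1) ∨ 5 ≤ finrank F V) (hR : SC G S R) (hR1 : R ≠ ⊥) :
    ∃ c, c ≠ 0 ∧ ε * c + σ c = 0 ∧ Has ε B R v 0 c := by
  have := hS.finite
  have hRG : R ≤ G := hR.1.trans hS.le
  obtain ⟨z, hz, hz1, hzc⟩ := hR.exists_central hS.le hS.isPGroup hR1
  obtain ⟨k, hk⟩ := hS.isPGroup ⟨z, hR.1 hz⟩
  obtain ⟨a, c, hva, hc, he⟩ := h.exists_ei_of_mem_QE Φ.vv Φ.ff Φ.vf
    (h.pCen_QE p (Geo.span_singleton_ti Φ.vv) (Submodule.mem_span_singleton_self v) Φ.v_ne z (hRG hz)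
      ⟨k, congrArg Subtype.val hk⟩ fun x hx => (hzc x (Φ.le₁ hx)).symm)
  by_cases ha : ∀ w, B v w = 0 → B w a = 0
  · have e := h.eq_smul_of_orth Φ.vv Φ.vf ha
    have haa : B a a = 0 := ha a hva
    generalize ε * B f a = s at e
    rw [e, ← zero_add (s • v), Geo.ei_add_smul] at he
    refine ⟨_, fun h0 => hz1 ?_, ?_, z, hz, he⟩
    · rw [h0] at he; exact he.unique (ei_one v)
    · rw [map_sub, map_add, map_mul, h.sigma_eps, h.invol]
      linear_combination hc + haa + σ s * h.eps_sq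
  push Not at ha
  obtain ⟨e, hve, hea⟩ := ha
  have hb : ∀ b, ε * b = σ b := fun b => by
    have hw : B v ((b / B a e) • e) = 0 := by rw [map_smul, hve, smul_zero]
    obtain ⟨d, hd⟩ := h.trace ((b / B a e) • e)
    obtain ⟨u, hu, hu'⟩ := h.eich v _ d Φ.vv hw hd
    have e1 := he.mul hu' Φ.vv (h.flip hva) hw f
    have e2 := hu'.mul he Φ.vv (h.flip hw) hva f
    rw [hzc u (Φ.ei_mem hu hu' hw), e1, add_comm _ a, sub_right_inj, Φ.vf] at e2
    have e3 := smul_left_injective F Φ.v_ne e2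
    rw [h.symm a, map_smul, smul_eq_mul, div_mul_cancel₀ _ (h.flip_ne hea)] at e3
    linear_combination e3 + σ b * h.eps_sq
  have hε : ε = 1 := by simpa using hb 1
  subst hε
  have hσ : ∀ b, σ b = b := fun b => by rw [← hb, one_mul]
  obtain ⟨c0, hc0, hc0'⟩ := h.tv0
  have h2 : (2 : F) = 0 := by
    rw [hσ, one_mul, ← two_mul] at hc0'
    exact (mul_eq_zero.1 hc0').resolve_right hc0
  have hpar : ∀ c : F, 1 * c + σ c = 0 := fun c => by rw [hσ]; linear_combination c * h2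
  have halt : ∀ u, B u u = 0 := fun u => by obtain ⟨d, hd⟩ := h.trace u; rw [← hd, hpar]
  have hsymm : ∀ x y, B x y = B y x := fun x y => by rw [h.symm y x, hσ, one_mul]
  have hself : ∀ x : V, x + x = 0 := fun x => by rw [← two_smul F x, h2, zero_smul]
  have dia : ∀ a c e, Has 1 B R v a c → B v a = 0 → B v e = 0 → B e a ≠ 0 → Has 1 B R v e (B e a) := by
    intro a c e ha hva hve hea
    obtain ⟨t, ht, ht'⟩ := h.eich e 0 (B e a)⁻¹ (halt e) (map_zero _) (by rw [hpar, halt])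
    have e1 : t a = a + e := by
      rw [ht']
      simp only [smul_zero, add_zero, map_zero, LinearMap.zero_apply, mul_zero, zero_add, inv_mul_cancel₀ hea, one_smul]
      rw [sub_eq_iff_eq_add, add_assoc, hself, add_zero]
    have hw : B v (a + e) = 0 := by rw [map_add, hva, hve, add_zero]
    have := Has.mul Φ (Has.conj Φ hR ha ht (a := 1) (by rw [one_smul, ht'.fix (h.flip hve) (by simp)])
      (by rw [map_one, one_smul, e1]) hw hRG) ha hw hva
    rw [add_right_comm, hself, zero_add, B_add_left, halt, map_one] at this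
    convert this using 1
    linear_combination -c * h2
  have fin : ∀ w c c', c + c' ≠ 0 → B v w = 0 → Has 1 B R v w c → Has 1 B R v w c' →
      ∃ c, c ≠ 0 ∧ 1 * c + σ c = 0 ∧ Has 1 B R v 0 c := fun w c c' hc hw h₁ h₂ => by
    have := Has.mul Φ h₁ h₂ hw hw
    rw [hself, halt, mul_zero, add_zero] at this
    exact ⟨_, hc, hpar _, this⟩
  have hz' : Has 1 B R v a c := ⟨z, hz, he⟩
  have hbk : ∀ a c e, Has 1 B R v a c → B v a = 0 → B v e = 0 → B e a ≠ 0 → Has 1 B R v a (B e a) :=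
    fun a c e ha hva hve hea => hsymm a e ▸ dia e _ a (dia a c e ha hva hve hea) hve hva (h.flip_ne hea)
  rcases hexc with ⟨b, hb'⟩ | ⟨l, hl0, hl1⟩ | h5
  · exact absurd (hb b) hb'
  · refine fin a _ _ ?_ hva (hbk a c e hz' hva hve hea)
      (hbk a c (l • e) hz' hva (by rw [map_smul, hve, smul_zero])
        (by rw [B_smul_left, hσ]; exact mul_ne_zero hl0 hea))
    rw [B_smul_left, hσ, ← one_add_mul]
    exact mul_ne_zero (fun h' => hl1 (by linear_combination h' - h2)) hea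
  · obtain ⟨b, hb0, hb⟩ := exists_orth B ![v, f, a, e] h5
    have hvb : B v b = 0 := hb 0
    have h3 : B (e + b) a = B e a := by rw [B_add_left, h.flip (show B a b = 0 from hb 2), add_zero]
    have hw : B v (e + b) = 0 := by rw [map_add, hve, hvb, add_zero]
    have h4 := Has.mul Φ (dia a c e hz' hva hve hea) (dia a c (e + b) hz' hva hw (h3 ▸ hea)) hve hw
    rw [← add_assoc, hself, zero_add, h3, map_add, halt, show B e b = 0 from hb 3, ← two_mul, h2] at h4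
    obtain ⟨b', hb1, hb2⟩ : ∃ b', B v b' = 0 ∧ B b' b ≠ 0 := by
      by_contra hh
      push Not at hh
      exact hb0 (by rw [h.eq_smul_of_orth Φ.vv Φ.vf hh, show B f b = 0 from hb 1, mul_zero, zero_smul])
    exact fin b _ _ (by simpa using hb2) hvb h4 (hbk b _ b' h4 hvb hb1 hb2)

theorem le_of_sc (p : ℕ) [Fact p.Prime] [CharP F p] [FiniteDimensional F V] [Finite G] (hS : SylIn p S G)
    (hexc : (∃ b, ε * b ≠ σ b) ∨ (∃ c : F, c ≠ 0 ∧ c ≠ 1) ∨ 5 ≤ finrank F V) (hR : SC G S R) (hR1 : R ≠ ⊥) :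
    S ≤ R := by
  have hRG : R ≤ G := hR.1.trans hS.le
  have he : ∀ y, y ∈ perp B ∅ := fun _ _ h => h.elim
  obtain ⟨c₁, hc₁, hc₁', h₁⟩ := Φ.exists_tv p hS hexc hR hR1
  -- transvections with centre `v`
  have tv : ∀ d, ε * d + σ d = 0 → Has ε B R v 0 d := by
    let A : AddSubgroup F :=
      { carrier := {d | Has ε B R v 0 d}
        zero_mem' := ⟨1, one_mem _, ei_one v⟩
        add_mem' := fun ha hb => by simpa using Has.mul Φ ha hb (map_zero _) (map_zero _)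
        neg_mem' := by
          rintro d ⟨g, hg, e⟩
          refine ⟨g⁻¹, inv_mem hg, fun x => inv_app_eq ?_⟩
          rw [e]
          simp [Φ.vv] }
    refine h.irr A c₁ hc₁ hc₁' fun a ha => ?_
    obtain ⟨k, hk, hkv⟩ := Φ.exists_smul p ha
    exact Has.conj Φ hR h₁ (normalizerIn_le _ _ (pCl_le _ _ hk)) hkv (by simp) (map_zero _) hRG
  have full : ∀ w c, B v w = 0 → ε * c + σ c = B w w → Has ε B R v w c → ∀ d, ε * d + σ d = B w w → Has ε B R v w d :=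
    fun w c hw hc hh d hd => by
      have := Has.mul Φ hh (tv (d - c) (by rw [map_sub]; linear_combination hd - hc)) hw (map_zero _)
      simpa using this
  -- Eichler maps of `S` are conjugate to Eichler maps with centre `v`
  have red : ∀ r w c g, r ≠ 0 → B r r = 0 → B r w = 0 → ε * c + σ c = B w w → Ei ε B r w c g → g ∈ S →
      (∀ (k : V ≃ₗ[F] V) (a : F) d, B v (a • k w) = 0 → ε * d + σ d = B (a • k w) (a • k w) →
        Has ε B R v (a • k w) d) → g ∈ R := by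
    intro r w c g hr0 hrr hrw hc hg hgS H
    obtain ⟨u, hu⟩ := h.exists_ne hr0
    obtain ⟨k, hk, μ, hμ, e⟩ := h.transitive (he r) (he v) (he u) (he f) hrr Φ.vv hu (by rw [Φ.vf]; exact one_ne_zero)
    have e' := hg.conj (h.isom k hk.1)
    rw [e, h.ei_smul] at e'
    obtain ⟨g', hg', e''⟩ := H k (σ μ) (μ * σ μ * c) (by
      have := h.isom k hk.1 r w
      rw [e, B_smul_left, hrw] at this
      rw [map_smul, smul_eq_mul, this]) (by
      rw [B_smul_left, map_smul, h.isom k hk.1, ← hc, map_mul, map_mul, h.invol, smul_eq_mul]; ring)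
    exact hR.of_conj hk.1 hgS (e'.unique e'' ▸ hg')
  have tv' : ∀ r c g, B r r = 0 → ε * c + σ c = 0 → Ei ε B r 0 c g → g ∈ S → g ∈ R := by
    intro r c g hrr hc hg hgS
    by_cases hr0 : r = 0
    · rw [show g = 1 from LinearEquiv.ext fun x => by rw [hg, hr0]; simp]; exact one_mem _
    exact red r 0 c g hr0 hrr (map_zero _) (by simpa using hc) hg hgS fun k a d _ hd => by
      simpa using tv d (by simpa using hd)
  have hv₂ : ∀ (γ : F) d, ε * d + σ d = 0 → Has ε B R v (γ • v₂) d := by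
    intro γ
    have hm : ∀ a b : F, a • v + b • v₂ ∈ Submodule.span F {v, v₂} := fun a b => Submodule.mem_span_pair.2 ⟨a, b, rfl⟩
    have key : ∀ a b c : F, ε * c + σ c = 0 → Has ε B R (a • v + b • v₂) 0 c := fun a b c hc => by
      have h0 := Φ.ti _ (hm a b) _ (hm a b)
      obtain ⟨t, ht, ht'⟩ := h.eich _ 0 c h0 (map_zero _) (by simpa using hc)
      exact ⟨t, tv' _ c t h0 hc ht' (Φ.le₂ (h.mem_QE_of_ei Φ.ti ht ht' (hm a b) (zero_mem _))), ht'⟩
    obtain ⟨t₁, ht₁, e₁⟩ := key 1 (-(γ / c₁)) c₁ hc₁'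
    obtain ⟨t₂, ht₂, e₂⟩ := key 0 (-(γ / c₁)) (-c₁) (by rw [map_neg]; linear_combination -hc₁')
    have h0 : B (γ • v₂) (γ • v₂) = 0 := by simp [Φ.v₂v₂]
    intro d hd
    refine full _ c₁ (by simp [Φ.vv₂]) (by rw [h0, hc₁']) ⟨t₁ * t₂, mul_mem ht₁ ht₂, fun x => ?_⟩ d (by rw [h0, hd])
    rw [one_smul] at e₁
    rw [zero_smul, zero_add] at e₂
    have := h.ei_tv_add (by simp [Φ.vv₂]) (by simp [Φ.v₂v₂]) hc₁' e₁ e₂
    rw [smul_smul, neg_mul_neg, mul_div_cancel₀ _ hc₁] at this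
    exact this x
  have hvs : ∀ y, y ∈ perp B {v} ↔ B v y = 0 := fun y => by simp [mem_perp]
  have iso : ∀ b u, B v b = 0 → B v u = 0 → B b b = 0 → B b u ≠ 0 → ∀ d, ε * d + σ d = B b b → Has ε B R v b d := by
    intro b u hb hu hbb hbu d hd
    obtain ⟨k, hk, μ, hμ, e⟩ := h.transitive ((hvs v₂).2 Φ.vv₂) ((hvs b).2 hb) ((hvs f₂).2 Φ.vf₂) ((hvs u).2 hu)
      Φ.v₂v₂ hbb (by rw [Φ.v₂f₂]; exact one_ne_zero) hbu
    have := Has.conj Φ hR (hv₂ μ⁻¹ d (hbb ▸ hd)) hk.1 (a := 1) (w' := b)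
      (by rw [one_smul, (h.EiSet_subset _ hk).2 v rfl]) (by
        rw [map_one, one_smul, map_smul, e, smul_smul, inv_mul_cancel₀ hμ, one_smul]) hb hRG
    simpa using this
  have add : ∀ w w', B v w = 0 → B v w' = 0 → (∀ d, ε * d + σ d = B w w → Has ε B R v w d) →
      (∀ d, ε * d + σ d = B w' w' → Has ε B R v w' d) →
      ∀ d, ε * d + σ d = B (w + w') (w + w') → Has ε B R v (w + w') d := by
    intro w w' hw hw' H H'
    obtain ⟨c, hc⟩ := h.trace w
    obtain ⟨c', hc'⟩ := h.trace w'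
    refine full _ _ (by rw [map_add, hw, hw', add_zero]) ?_ (Has.mul Φ (H c hc) (H' c' hc') hw hw')
    rw [B_add_left, map_add (B w), map_add (B w'), h.symm w w', map_add, map_add, map_mul, h.sigma_eps]
    linear_combination hc + hc' + B w w' * h.eps_sq
  have case1 : ∀ w, B v w = 0 → B v₂ w ≠ 0 → ∀ d, ε * d + σ d = B w w → Has ε B R v w d := by
    intro w hw h2
    obtain ⟨s, hs⟩ := h.exists_iso_add Φ.v₂v₂ h2
    have h3 : B v (w + s • v₂) = 0 := by simp [hw, Φ.vv₂]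
    have := add _ ((-s) • v₂) h3 (by simp [Φ.vv₂]) (iso _ v₂ h3 Φ.vv₂ hs (h.flip_ne (by simpa [Φ.v₂v₂] using h2)))
      fun d hd => hv₂ _ d (by simpa [Φ.v₂v₂] using hd)
    rwa [neg_smul, add_neg_cancel_right] at this
  have all : ∀ w, B v w = 0 → ∀ d, ε * d + σ d = B w w → Has ε B R v w d := by
    intro w hw
    by_cases h2 : B v₂ w = 0
    · have h3 : B v (w + f₂) = 0 := by rw [map_add, hw, Φ.vf₂, add_zero]
      have := add _ (-f₂) h3 (by simp [Φ.vf₂]) (case1 _ h3 (by simp [h2, Φ.v₂f₂]))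
        (case1 _ (by simp [Φ.vf₂]) (by simp [Φ.v₂f₂]))
      rwa [add_neg_cancel_right] at this
    · exact case1 w hw h2
  refine h.sylIn_le p h.nd_empty (by rwa [Fix_empty]) ?_
  rintro g ⟨-, r, -, w, -, c, hrr, hrw, hc, hg⟩ hgS
  by_cases hr0 : r = 0
  · rw [show g = 1 from LinearEquiv.ext fun x => by rw [hg, hr0]; simp]; exact one_mem _
  exact red r w c g hr0 hrr hrw hc hg hgS fun k a d h1 hd => all _ h1 d hd

end Flag

theorem Geo.isSimple (h : Geo ε B G) (p : ℕ) [Fact p.Prime] [CharP F p] [FiniteDimensional F V] [Finite G]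
    (hn : 4 ≤ finrank F V) (hexc : (∃ b, ε * b ≠ σ b) ∨ (∃ c : F, c ≠ 0 ∧ c ≠ 1) ∨ 5 ≤ finrank F V)
    {G' : Type*} [Group G'] [Finite G'] (κ : G →* G') (hκ : Function.Surjective κ)
    (hk : ∀ x : G, κ x = 1 → ∃ a : F, ∀ v, x.1 v = a • v) (S : Sylow p G') :
    (groupFusionSystem (S : Subgroup G')).IsSimple p := by
  obtain ⟨T, hT⟩ := exists_sylIn p G
  obtain ⟨v, f, v₂, f₂, Φ⟩ := h.exists_flag p hn hT
  refine isSimple_of_surjective hT (isSimple_ofSubgroup hT ?_ (fun R hR hR1 => Φ.le_of_sc p hT hexc hR hR1)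
    fun g hg hg' => Φ.normalizer_le p hT hg hg') κ hκ (fun x hx hx1 => ?_) S
  · exact h.sylIn_ne_bot p (X := ∅) (by rwa [Fix_empty]) (fun _ h => h.elim) Φ.v_ne Φ.vv
  · obtain ⟨a, ha⟩ := hk x hx1
    have : a = 1 := smul_left_injective F Φ.v_ne (by simpa using (ha v).symm.trans (Φ.fix _ hx))
    exact Subtype.ext (LinearEquiv.ext fun y => by rw [ha, this, one_smul]; rfl)

end CL.Fus.Form
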