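import Cfsg.Agent.Fus.SimpleCrit
import Cfsg.Agent.Known.GLTv
import Cfsg.Agent.S2579

/-! The `p`-fusion system of `PSL_n(K)`, `n ≥ 3`, in the defining characteristic is simple. -/

set_option autoImplicit false
open Cfsg Cfsg.FusionSystem Matrix CL.GLn

namespace CL.Fus

theorem eq_one_of_pow_char_pow {K : Type*} [Field K] (p : ℕ) [Fact p.Prime] [CharP K p] {a : K} {k : ℕ}
    (h : a ^ p ^ k = 1) : a = 1 := by
  have := sub_pow_char_pow a 1 (n := k) (p := p)
  rw [h, one_pow, sub_self] at this
  exact sub_eq_zero.1 (pow_eq_zero_iff (pow_ne_zero _ (Fact.out : p.Prime).ne_zero) |>.1 this)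

namespace SL

variable {K : Type*} [Field K] {ι : Type*} [Fintype ι] [DecidableEq ι]

local notation "𝔾" => SpecialLinearGroup ι K
local notation "𝕄" => Matrix ι ι K

/-- The transvections with centre `e_a`. -/
def rowSub (K : Type*) [Field K] (a : ι) : Subgroup (SpecialLinearGroup ι K) where
  carrier := {g | ∀ i j, i ≠ a ∨ j = a → (g : Matrix ι ι K) i j = (1 : Matrix ι ι K) i j}
  one_mem' := fun _ _ _ => rfl
  mul_mem' := by
    intro g h hg hh i j hij
    rw [Matrix.SpecialLinearGroup.coe_mul, mul_apply]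
    by_cases hi : i = a
    · obtain rfl : j = a := hij.resolve_left (not_not.2 hi)
      rw [Finset.sum_congr rfl fun k _ => by rw [hh k j (Or.inr rfl)], ← mul_apply, mul_one, hg i j (Or.inr rfl)]
    · rw [Finset.sum_congr rfl fun k _ => by rw [hg i k (Or.inl hi)], ← mul_apply, one_mul, hh i j (Or.inl hi)]
  inv_mem' := by
    intro g hg i j hij
    by_cases hi : i = a
    · obtain rfl : j = a := hij.resolve_left (not_not.2 hi)
      have := congrFun (congrFun (congrArg Subtype.val (inv_mul_cancel g)) i) j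
      rw [Matrix.SpecialLinearGroup.coe_mul, mul_apply, Finset.sum_congr rfl fun k _ => by rw [hg k j (Or.inr rfl)],
        ← mul_apply, mul_one] at this
      exact this
    · have := congrFun (congrFun (congrArg Subtype.val (mul_inv_cancel g)) i) j
      rw [Matrix.SpecialLinearGroup.coe_mul, mul_apply, Finset.sum_congr rfl fun k _ => by rw [hg i k (Or.inl hi)],
        ← mul_apply, one_mul] at this
      exact this

theorem mem_rowSub {a : ι} {g : 𝔾} : g ∈ rowSub K a ↔ ∀ i j, i ≠ a ∨ j = a → (g : 𝕄) i j = (1 : 𝕄) i j := Iff.rfl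

theorem transvection_mem_rowSub {a j : ι} (h : a ≠ j) (c : K) : SpecialLinearGroup.transvection h c ∈ rowSub K a := by
  intro k l hkl
  rw [SpecialLinearGroup.transvection_coe, Matrix.add_apply, single_apply, if_neg, add_zero]
  rintro ⟨rfl, rfl⟩
  exact hkl.elim (fun h' => h' rfl) fun h' => h h'.symm

theorem pow_apply_self {g : 𝔾} {a : ι} (h : ∀ k, k ≠ a → (g : 𝕄) k a = 0) (m : ℕ) :
    ((g ^ m : 𝔾) : 𝕄) a a = (g : 𝕄) a a ^ m := by
  induction m with
  | zero => simp
  | succ m ih =>
    rw [pow_succ, Matrix.SpecialLinearGroup.coe_mul, mul_apply, Finset.sum_eq_single a (fun k _ hk => by rw [h k hk, mul_zero])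
      (by simp), ih, pow_succ]

theorem pCen_rowSub (p : ℕ) [Fact p.Prime] [CharP K p] {a b : ι} (hab : a ≠ b) : PCen p ⊤ (rowSub K a) := by
  rintro c - ⟨k, hk⟩ hc
  have key : ∀ j, a ≠ j → ∀ k l, ((c : 𝕄) * single a j (1 : K) : 𝕄) k l = (single a j (1 : K) * (c : 𝕄) : 𝕄) k l := by
    intro j hj k l
    have := congrArg Subtype.val (hc _ (transvection_mem_rowSub hj 1))
    rw [Matrix.SpecialLinearGroup.coe_mul, Matrix.SpecialLinearGroup.coe_mul, SpecialLinearGroup.transvection_coe, add_mul, mul_add,
      one_mul, mul_one, add_right_inj] at this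
    rw [this]
  have h1 : ∀ k, k ≠ a → (c : 𝕄) k a = 0 := fun k hk => by
    have := key b hab k b
    rwa [mul_single_apply_same, single_mul_apply_of_ne _ _ _ _ _ hk, mul_one] at this
  have h2 : (c : 𝕄) a a = 1 := by
    refine eq_one_of_pow_char_pow p (k := k) ?_
    rw [← pow_apply_self h1, hk]; simp
  intro i j hij
  by_cases hi : i = a
  · obtain rfl : j = a := hij.resolve_left (not_not.2 hi)
    rw [hi, h2, one_apply_eq]
  · have := key i (Ne.symm hi) a j
    rw [single_mul_apply_same, one_mul] at this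
    by_cases hj : j = i
    · subst hj
      rw [mul_single_apply_same, mul_one] at this
      rw [← this, h2, one_apply_eq]
    · rw [mul_single_apply_of_ne _ _ _ _ _ hj] at this
      rw [← this, one_apply_ne (Ne.symm hj)]

theorem transvection_mem_normalizer_rowSub [Finite K] {a i j : ι} (h : i ≠ j) (hi : i ≠ a) (hj : j ≠ a) (c : K) :
    SpecialLinearGroup.transvection h c ∈ Subgroup.normalizer (rowSub K a : Set 𝔾) := by
  refine mem_normalizer_of_finite fun g hg k l hkl => ?_
  have e : (SpecialLinearGroup.transvection h c : 𝔾)⁻¹ = SpecialLinearGroup.transvection h (-c) := by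
    rw [inv_eq_iff_mul_eq_one]
    apply Subtype.ext
    simp [SpecialLinearGroup.transvection_coe, mul_add, add_mul, single_mul_single_of_ne, h.symm, ← single_neg]
  have e1 : single i j c * (g : 𝕄) = single i j c := by
    ext x y
    by_cases hx : x = i
    · subst hx
      rw [single_mul_apply_same, hg j y (Or.inl hj), one_apply, single_apply]
      simp
    · rw [single_mul_apply_of_ne _ _ _ _ _ hx, single_apply, if_neg fun h' => hx h'.1.symm]
  rw [e, Matrix.SpecialLinearGroup.coe_mul, Matrix.SpecialLinearGroup.coe_mul, SpecialLinearGroup.transvection_coe,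
    SpecialLinearGroup.transvection_coe, add_mul, one_mul, e1, mul_add, mul_one, add_mul,
    single_mul_single_of_ne _ _ _ _ h.symm, add_zero, Matrix.add_apply, Matrix.add_apply, hg k l hkl, add_assoc,
    add_eq_left]
  by_cases hl : l = j
  · subst hl
    rw [mul_single_apply_same, hg k i (hkl.imp_right fun h' => absurd h' hj), one_apply, single_apply]
    by_cases hk : k = i
    · simp [hk]
    · simp [hk, Ne.symm hk]
  · rw [mul_single_apply_of_ne _ _ _ _ _ hl, single_apply, if_neg fun h' => hl h'.2.symm, add_zero]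

theorem transvection_pow_char (p : ℕ) [CharP K p] {i j : ι} (h : i ≠ j) (c : K) :
    (SpecialLinearGroup.transvection h c : 𝔾) ^ p ^ 1 = 1 := by
  have : ∀ m : ℕ, (SpecialLinearGroup.transvection h c : 𝔾) ^ m = SpecialLinearGroup.transvection h (m * c) := by
    intro m
    induction m with
    | zero => apply Subtype.ext; simp [SpecialLinearGroup.transvection_coe]
    | succ m ih =>
      rw [pow_succ, ih]
      apply Subtype.ext
      simp [SpecialLinearGroup.transvection_coe, mul_add, add_mul, single_mul_single_of_ne, h.symm, single_add]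
      abel
  rw [pow_one, this]
  apply Subtype.ext
  simp [SpecialLinearGroup.transvection_coe]

theorem diag2n_mem_pCl (p : ℕ) [CharP K p] {X : Subgroup 𝔾} {i j : ι} (h : i ≠ j)
    (h1 : ∀ c, SpecialLinearGroup.transvection h c ∈ X) (h2 : ∀ c, SpecialLinearGroup.transvection h.symm c ∈ X)
    {c : K} (hc : c ≠ 0) : SpecialLinearGroup.diag2n h c hc ∈ pCl p X := by
  rw [CL.SLn.diag2n_decompose]
  have e1 := fun c => mem_pCl (h1 c) (transvection_pow_char p h c)
  have e2 := fun c => mem_pCl (h2 c) (transvection_pow_char p h.symm c)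
  exact mul_mem (mul_mem (mul_mem (mul_mem (mul_mem (e1 _) (e2 _)) (e1 _)) (e1 _)) (e2 _)) (e1 _)

/-- The transvections with axis `x_b = 0`. -/
def colSub (K : Type*) [Field K] (b : ι) : Subgroup (SpecialLinearGroup ι K) :=
  (rowSub K b).comap (slGraph ι K).toMonoidHom

theorem pCen_colSub (p : ℕ) [Fact p.Prime] [CharP K p] {a b : ι} (hab : a ≠ b) : PCen p ⊤ (colSub K a) := by
  rintro c - ⟨k, hk⟩ hc
  refine pCen_rowSub p hab (slGraph ι K c) trivial ⟨k, by rw [← map_pow, hk, map_one]⟩ fun x hx => ?_
  obtain ⟨x, rfl⟩ := (slGraph ι K).surjective x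
  rw [← map_mul, ← map_mul, hc x hx]

theorem transvection_mem_normalizer_colSub [Finite K] {a i j : ι} (h : i ≠ j) (hi : i ≠ a) (hj : j ≠ a) (c : K) :
    SpecialLinearGroup.transvection h c ∈ Subgroup.normalizer (colSub K a : Set 𝔾) := by
  refine mem_normalizer_of_finite fun g hg => ?_
  show slGraph ι K _ ∈ rowSub K a
  rw [map_mul, map_mul, map_inv, slGraph_transvection]
  exact conj_mem_of_mem_normalizer (transvection_mem_normalizer_rowSub h.symm hj hi _) hg

variable [LinearOrder ι]

theorem rowSub_le {a : ι} (ha : ∀ k, a ≤ k) : rowSub K a ≤ utSL ι K := fun g hg => mem_utSL.2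
  ⟨fun i j hij => by rw [hg i j (Or.inl (lt_of_le_of_lt (ha j) hij).ne'), one_apply_ne hij.ne'], fun i => by
    rw [hg i i (by tauto), one_apply_eq]⟩

theorem colSub_le {b : ι} (hb : ∀ k, k ≤ b) : colSub K b ≤ utSL ι K := fun g hg => by
  have h1 : ∀ i j, j ≠ b ∨ i = b → ((g⁻¹ : 𝔾) : 𝕄) i j = (1 : 𝕄) i j := fun i j h => by
    have : ((g⁻¹ : 𝔾) : 𝕄) i j = (1 : 𝕄) j i := hg j i h
    rw [this, ← transpose_apply (1 : 𝕄), transpose_one]
  refine (Subgroup.inv_mem_iff _).1 (mem_utSL.2 ⟨fun i j hij => ?_, fun i => ?_⟩)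
  · rw [h1 i j (Or.inl (lt_of_lt_of_le hij (hb i)).ne), one_apply_ne hij.ne']
  · rw [h1 i i (by tauto), one_apply_eq]

/-- The unitriangular group is generated by its elementary transvections. -/
theorem utSL_le {R : Subgroup 𝔾} (h : ∀ i j (hij : i < j) c, SpecialLinearGroup.transvection hij.ne c ∈ R) :
    utSL ι K ≤ R := by
  classical
  have key : ∀ (m : ℕ) (u : 𝔾), u ∈ utSL ι K →
      (Finset.univ.filter fun x : ι × ι => x.1 < x.2 ∧ (u : 𝕄) x.1 x.2 ≠ 0).card = m → u ∈ R := by
    intro m
    induction m using Nat.strong_induction_on with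
    | _ m ih =>
      intro u hu hm
      obtain ⟨h0, h1⟩ := mem_utSL.1 hu
      by_cases he : ∃ j, ∃ i, i < j ∧ (u : 𝕄) i j ≠ 0
      · obtain ⟨j, ⟨i, hij, hne⟩, hmin⟩ := (Finite.to_wellFoundedLT (α := ι)).wf.has_min
          {j | ∃ i, i < j ∧ (u : 𝕄) i j ≠ 0} he
        have hcol : ∀ k, (u : 𝕄) k i = (1 : 𝕄) k i := fun k => by
          rcases lt_trichotomy k i with hk | rfl | hk
          · rw [one_apply_ne hk.ne]
            by_contra hh
            exact hmin i ⟨k, hk, hh⟩ hij
          · rw [h1, one_apply_eq]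
          · rw [h0 _ _ hk, one_apply_ne hk.ne']
        have hent : ∀ k l, ((u * SpecialLinearGroup.transvection hij.ne (-(u : 𝕄) i j) : 𝔾) : 𝕄) k l =
            if k = i ∧ l = j then 0 else (u : 𝕄) k l := fun k l => by
          rw [Matrix.SpecialLinearGroup.coe_mul, SpecialLinearGroup.transvection_coe, mul_add, mul_one, Matrix.add_apply]
          by_cases hl : l = j
          · subst hl
            rw [mul_single_apply_same, hcol, one_apply]
            by_cases hk : k = i <;> simp [hk]
          · rw [mul_single_apply_of_ne _ _ _ _ _ hl]; simp [hl]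
        have := ih _ ?_ _ (mul_mem hu (transvection_mem_utSL hij (-(u : 𝕄) i j))) rfl
        · exact (Subgroup.mul_mem_cancel_right R (h i j hij _)).1 this
        · rw [← hm]
          refine Finset.card_lt_card ⟨fun x hx => ?_, fun hh => ?_⟩
          · rw [Finset.mem_filter, hent] at hx
            refine Finset.mem_filter.2 ⟨hx.1, hx.2.1, fun h' => hx.2.2 ?_⟩
            rw [h', ite_self]
          · have := (Finset.mem_filter.1 (hh (Finset.mem_filter.2 ⟨Finset.mem_univ (i, j), hij, hne⟩))).2.2
            rw [hent] at this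
            exact this (if_pos ⟨rfl, rfl⟩)
      · push Not at he
        have : u = 1 := Subtype.ext (Matrix.ext fun i j => by
          rcases lt_trichotomy i j with hk | rfl | hk
          · rw [he _ _ hk]; exact (one_apply_ne hk.ne).symm
          · rw [h1]; exact (one_apply_eq i).symm
          · rw [h0 _ _ hk]; exact (one_apply_ne hk.ne').symm)
        exact this ▸ R.one_mem
  exact fun u hu => key _ u hu rfl

theorem upper_of_mem_normalizer {g : 𝔾} (hg : g ∈ Subgroup.normalizer (utSL ι K : Set 𝔾)) (j : ι) :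
    ∀ b, j < b → (g : 𝕄) b j = 0 := by
  induction j using (Finite.to_wellFoundedLT (α := ι)).wf.induction with
  | _ j ih =>
    intro b hb
    obtain ⟨h0, h1⟩ := mem_utSL.1 (inv_conj_mem_of_mem_normalizer hg (transvection_mem_utSL hb (1 : K)))
    have e : g * (g⁻¹ * SpecialLinearGroup.transvection hb.ne (1 : K) * g) =
        SpecialLinearGroup.transvection hb.ne (1 : K) * g := by group
    have e' := congrFun (congrFun (congrArg Subtype.val e) j) j
    rw [Matrix.SpecialLinearGroup.coe_mul, mul_apply, Finset.sum_eq_single j (fun k _ hk => by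
      rcases lt_or_gt_of_ne hk with hk | hk
      · rw [ih k hk j hk, zero_mul]
      · rw [h0 _ _ hk, mul_zero]) (by simp), h1, mul_one, Matrix.SpecialLinearGroup.coe_mul,
      SpecialLinearGroup.transvection_coe, add_mul, one_mul, Matrix.add_apply, single_mul_apply_same, one_mul,
      left_eq_add] at e'
    exact e'

omit [LinearOrder ι] in
/-- A diagonal matrix of determinant one. -/
def dg (D : ι → K) (hD : det (diagonal D) = 1) : Matrix.SpecialLinearGroup ι K := ⟨diagonal D, hD⟩

omit [LinearOrder ι] in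
theorem coe_dg (D : ι → K) (hD : det (diagonal D) = 1) : (dg D hD : 𝕄) = diagonal D := rfl

theorem diagonal_mem_normalizer [Finite K] (D : ι → K) (hD : det (diagonal D) = 1) :
    dg D hD ∈ Subgroup.normalizer (utSL ι K : Set 𝔾) := by
  refine mem_normalizer_of_finite fun u hu => ?_
  obtain ⟨h0, h1⟩ := mem_utSL.1 hu
  have hD0 := SpecialLinearGroup.diagonal_neZero D hD
  have key : ∀ i j, (((dg D hD) * u * (dg D hD)⁻¹ : 𝔾) : 𝕄) i j * D j =
      D i * (u : 𝕄) i j := fun i j => by
    have := congrFun (congrFun (congrArg Subtype.val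
      (inv_mul_cancel_right ((dg D hD) * u) (dg D hD))) i) j
    rwa [Matrix.SpecialLinearGroup.coe_mul, Matrix.SpecialLinearGroup.coe_mul (dg D hD) u, coe_dg, mul_diagonal,
      diagonal_mul] at this
  refine mem_utSL.2 ⟨fun i j hij => ?_, fun i => ?_⟩
  · have := key i j
    rw [h0 _ _ hij, mul_zero] at this
    exact (mul_eq_zero.1 this).resolve_right (hD0 j)
  · have := key i i
    rw [h1, mul_one] at this
    exact (mul_eq_right₀ (hD0 i)).1 this

end SL

open SL in
theorem isSimple_PSL {K : Type*} [Field K] [Finite K] (p : ℕ) [Fact p.Prime] [CharP K p] {n : ℕ} (hn : 3 ≤ n)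
    (S : Sylow p (ProjectiveSpecialLinearGroup (Fin n) K)) :
    (groupFusionSystem (S : Subgroup (ProjectiveSpecialLinearGroup (Fin n) K))).IsSimple p := by
  let a : Fin n := ⟨0, by omega⟩
  let m : Fin n := ⟨1, by omega⟩
  let b : Fin n := ⟨n - 1, by omega⟩
  have ha : ∀ k, a ≤ k := fun k => Nat.zero_le _
  have hb : ∀ k, k ≤ b := fun k => by show k.1 ≤ n - 1; omega
  have hab : a < b := by show 0 < n - 1; omega
  have hma : m ≠ a := by simp [m, a]
  have hmb : m ≠ b := by simp only [m, b, Ne, Fin.mk.injEq]; omega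
  have hT : SylIn p (utSL (Fin n) K) ⊤ :=
    sylIn_of_not_dvd le_top (isPGroup_utSL p) (by rw [Subgroup.relIndex_top_right]; exact not_dvd_index_utSL p)
  have htv : ∀ (i j : Fin n) (h : i ≠ j) (c : K), c ≠ 0 →
      IsTransvection ((SpecialLinearGroup.transvection h c : SpecialLinearGroup (Fin n) K) :
        Matrix (Fin n) (Fin n) K) := fun i j h c hc =>
    isTransvection_iff.2 ⟨Pi.single i 1, Pi.single j c, by simp, by simpa using hc, single_dot_single h _ _, by
      rw [vecMulVec_single_single, one_mul, SpecialLinearGroup.transvection_coe]⟩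
  have h0 : ∀ (i j : Fin n) (h : i ≠ j), (SpecialLinearGroup.transvection h (0 : K)) = 1 := fun i j h =>
    Subtype.ext (by simp [SpecialLinearGroup.transvection_coe])
  refine isSimple_of_surjective hT (isSimple_ofSubgroup hT ?_ (fun R hR hR1 => ?_) fun g _ hg => ?_)
    ((QuotientGroup.mk' _).comp (Subgroup.subtype ⊤)) (fun y => ?_) (fun x hx hx1 => ?_) S
  · intro h
    have h1 := transvection_mem_utSL hab (1 : K)
    rw [h, Subgroup.mem_bot] at h1
    have := congrFun (congrFun (congrArg Subtype.val h1) a) b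
    simp [SpecialLinearGroup.transvection_coe, hab.ne] at this
  · obtain ⟨z, hz, hz1, hzc⟩ := hR.exists_central le_top hT.isPGroup hR1
    have e := eq_transvection_of_central hab.ne ha hb (hR.1 hz) hzc
    have hc : (z : Matrix (Fin n) (Fin n) K) a b ≠ 0 := fun h => hz1 (by rw [e, h, h0])
    refine utSL_le fun i j hij c => ?_
    by_cases hc0 : c = 0
    · rw [hc0, h0]; exact R.one_mem
    obtain ⟨g, hg⟩ := _root_.isConj_iff.1 (Cfsg.Agent.S2579.result hn _ _ (htv _ _ hab.ne _ hc) (htv _ _ hij.ne _ hc0))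
    rw [← e] at hg
    exact hg ▸ hR.2 z hz g trivial (hg ▸ transvection_mem_utSL hij c)
  · have hup := upper_of_mem_normalizer hg
    have hD : det (diagonal fun i => (g : Matrix (Fin n) (Fin n) K) i i) = 1 := by
      rw [det_diagonal, ← det_of_isUpperTriangular (fun i j h => hup j i h), g.2]
    have hD0 := SpecialLinearGroup.diagonal_neZero _ hD
    have hd : (dg _ hD) ∈ goodN p hT.le := by
      rw [dg, SpecialLinearGroup.diag_eq_diag2n_prod m]
      refine Subgroup.noncommProd_mem _ _ fun i hi => ?_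
      have him : i ≠ m := (Finset.mem_filter.1 hi).2
      rw [dif_pos him]
      by_cases hia : i = a
      · have hib : i ≠ b := hia ▸ hab.ne
        exact mem_goodN_of_pCl hT (colSub_le hb) (pCen_colSub p hab.ne') (diag2n_mem_pCl p him
          (fun c => mem_normalizerIn.2 ⟨Subgroup.mem_top _, transvection_mem_normalizer_colSub _ hib hmb c⟩)
          (fun c => mem_normalizerIn.2 ⟨Subgroup.mem_top _, transvection_mem_normalizer_colSub _ hmb hib c⟩) _) (diagonal_mem_normalizer _ _)
      · exact mem_goodN_of_pCl hT (rowSub_le ha) (pCen_rowSub p hab.ne) (diag2n_mem_pCl p him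
          (fun c => mem_normalizerIn.2 ⟨Subgroup.mem_top _, transvection_mem_normalizer_rowSub _ hia hma c⟩)
          (fun c => mem_normalizerIn.2 ⟨Subgroup.mem_top _, transvection_mem_normalizer_rowSub _ hma hia c⟩) _) (diagonal_mem_normalizer _ _)
    refine (Subgroup.mul_mem_cancel_left _ (inv_mem hd)).1 (le_goodN ?_)
    have key : ∀ i j, (g : Matrix (Fin n) (Fin n) K) i i *
        (((dg _ hD)⁻¹ * g : SpecialLinearGroup (Fin n) K) :
          Matrix (Fin n) (Fin n) K) i j = (g : Matrix (Fin n) (Fin n) K) i j := fun i j => by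
      have := congrFun (congrFun (congrArg Subtype.val
        (mul_inv_cancel_left (dg _ hD) g)) i) j
      rwa [Matrix.SpecialLinearGroup.coe_mul, coe_dg, diagonal_mul] at this
    refine mem_utSL.2 ⟨fun i j hij => ?_, fun i => ?_⟩
    · have := key i j
      rw [hup _ _ hij] at this
      exact (mul_eq_zero.1 this).resolve_left (hD0 i)
    · exact (mul_eq_left₀ (hD0 i)).1 (key i i)
  · obtain ⟨y, rfl⟩ := QuotientGroup.mk_surjective y
    exact ⟨⟨y, trivial⟩, rfl⟩
  · obtain ⟨r, -, hr⟩ := Matrix.SpecialLinearGroup.mem_center_iff.1 ((QuotientGroup.eq_one_iff _).1 hx1)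
    have h1 := (mem_utSL.1 hx).2 a
    have hr' : (scalar (Fin n)) r = (x : SpecialLinearGroup (Fin n) K) := hr
    rw [← hr', scalar_apply, diagonal_apply_eq] at h1
    refine Subtype.ext (Subtype.ext ?_)
    rw [← hr', h1, map_one]; rfl

end CL.Fus
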