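import Cfsg.Agent.Fus.Sp4Blk
import Cfsg.Agent.Fus.SimpleTwo
import Cfsg.Agent.Grp.PGroupDQS
import Cfsg.Agent.S0261

/-! The 2-fusion system of `PSp₄(q)`, `q` odd, is simple. -/

set_option autoImplicit false
open Cfsg CL.SL2
open Matrix (symplecticGroup)
open Cfsg.FusionSystem (normalizerIn)
open scoped MatrixGroups

namespace CL.Fus.Sp4

variable {K : Type*} [Field K] {Q : Subgroup SL(2, K)} {x y a b w h : SL(2, K)} {g : symplecticGroup (Fin 2) K}

/-- The wreath product `Q ≀ C₂`. -/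
def W (Q : Subgroup SL(2, K)) : Subgroup (symplecticGroup (Fin 2) K) where
  carrier := {g | ∃ x ∈ Q, ∃ y ∈ Q, g = dd (x, y) ∨ g = dd (x, y) * tau}
  one_mem' := ⟨1, Q.one_mem, 1, Q.one_mem, Or.inl dd_one.symm⟩
  mul_mem' := by
    rintro _ _ ⟨x, hx, y, hy, rfl | rfl⟩ ⟨x', hx', y', hy', rfl | rfl⟩
    · exact ⟨_, Q.mul_mem hx hx', _, Q.mul_mem hy hy', Or.inl dd_mul⟩
    · exact ⟨_, Q.mul_mem hx hx', _, Q.mul_mem hy hy', Or.inr dd_mul'⟩
    · exact ⟨_, Q.mul_mem hx hy', _, Q.mul_mem hy hx', Or.inr (by rw [mul_assoc, tau_mul_dd, dd_mul'])⟩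
    · exact ⟨_, Q.mul_mem hx hy', _, Q.mul_mem hy hx', Or.inl (by
        rw [mul_assoc, tau_mul_dd', tau_mul_tau, mul_one, dd_mul])⟩
  inv_mem' := by
    rintro _ ⟨x, hx, y, hy, rfl | rfl⟩
    · exact ⟨_, Q.inv_mem hx, _, Q.inv_mem hy, Or.inl dd_inv⟩
    · exact ⟨_, Q.inv_mem hy, _, Q.inv_mem hx, Or.inr (by rw [mul_inv_rev, tau_inv, dd_inv, tau_mul_dd])⟩

theorem dd_mem_W : dd (x, y) ∈ W Q ↔ x ∈ Q ∧ y ∈ Q := by
  refine ⟨?_, fun h => ⟨x, h.1, y, h.2, Or.inl rfl⟩⟩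
  rintro ⟨x', hx, y', hy, e | e⟩
  · obtain ⟨rfl, rfl⟩ := dd_inj.1 e
    exact ⟨hx, hy⟩
  · exact absurd e dd_ne_mul_tau

theorem tau_mem_W : tau ∈ W Q := ⟨1, Q.one_mem, 1, Q.one_mem, Or.inr (by rw [dd_one, one_mul])⟩

theorem card_W : Nat.card (W Q) = 2 * (Nat.card Q * Nat.card Q) := by
  have key : ∀ g, g ∈ (Q.prod Q).map dd ↔ ∃ x ∈ Q, ∃ y ∈ Q, g = dd (x, y) := fun g =>
    ⟨fun ⟨x, hx, e⟩ => ⟨x.1, hx.1, x.2, hx.2, e.symm⟩, fun ⟨x, hx, y, hy, e⟩ => ⟨(x, y), ⟨hx, hy⟩, e.symm⟩⟩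
  rw [CL.Inv.card_eq_two_mul_of_mem_iff (A := (Q.prod Q).map dd) (w := tau),
    Subgroup.card_map_of_injective dd_injective, Nat.card_congr (Subgroup.prodEquiv Q Q).toEquiv, Nat.card_prod]
  · rw [key]
    rintro ⟨x, -, y, -, e⟩
    exact dd_ne_mul_tau (x := x) (y := y) (x' := 1) (y' := 1) (by rw [dd_one, one_mul, e])
  · intro g
    simp only [key, ← exists_or, ← and_or_left]
    exact exists_congr fun x => and_congr_right fun _ => exists_congr fun y => by rw [mul_inv_eq_iff_eq_mul]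

theorem sylIn_W [Fintype K] (hK : Odd (Fintype.card K)) (hQ : SylIn 2 Q ⊤) : SylIn 2 (W Q) ⊤ := by
  obtain ⟨k, hk⟩ := IsPGroup.iff_card.1 hQ.isPGroup
  refine sylIn_of_not_dvd le_top (IsPGroup.of_card (n := k + k + 1) (by rw [card_W, hk]; ring)) ?_
  have h1 := hQ.not_dvd_relIndex
  rw [Subgroup.relIndex_top_right] at h1 ⊢
  have h2 := (W Q).index_mul_card
  obtain ⟨m, hm⟩ := hK
  rw [card_W, card_sp4, ← Q.index_mul_card] at h2
  have h3 : (W Q).index = Fintype.card K ^ 2 * (2 * (m ^ 2 + m) + 1) * (Q.index * Q.index) :=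
    Nat.eq_of_mul_eq_mul_right (m := 2 * (Nat.card Q * Nat.card Q)) (by rw [hk]; positivity) (by rw [h2, hm]; ring)
  rw [h3, ← even_iff_two_dvd, Nat.not_even_iff_odd]
  rw [← even_iff_two_dvd, Nat.not_even_iff_odd] at h1
  exact ((Odd.pow ⟨m, hm⟩).mul ⟨_, rfl⟩).mul (h1.mul h1)

/-- Generators of a generalized quaternion subgroup. -/
structure QD (Q : Subgroup SL(2, K)) (a b w : SL(2, K)) : Prop where
  sq_b : b * b = -1
  sq_w : w * w = -1
  w_mem : w ∈ Subgroup.zpowers a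
  conj : b * a * b⁻¹ = a⁻¹
  mem : ∀ x, x ∈ Q ↔ ∃ m : ℤ, x = a ^ m ∨ x = a ^ m * b

theorem exists_QD [Fintype K] (hK : Odd (Fintype.card K)) (P : Sylow 2 SL(2, K)) : ∃ a b w, QD P.1 a b w := by
  obtain ⟨k, hk, ⟨e⟩⟩ := Cfsg.Agent.S0261.result hK P
  obtain ⟨a, b, D, h1, h2⟩ := CL.Grp.exists_dqsGen_of_quaternion (n := k + 1) (by omega) e
  have h3 : a.1 ^ 2 ^ k = -1 := by
    have h4 : orderOf (a.1 ^ 2 ^ k) = 2 := (Subgroup.orderOf_coe _).trans D.orderOf_z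
    refine (sl_eq_of_mul_self (CL.GL2.two_ne_zero_of_odd hK) ?_).resolve_left fun h => ?_
    · rw [← pow_two]; exact orderOf_dvd_iff_pow_eq_one.1 h4.dvd
    · rw [h, orderOf_one] at h4; omega
  obtain ⟨k, rfl⟩ := Nat.exists_eq_add_of_le' hk
  refine ⟨a, b, a ^ 2 ^ k, ?_, ?_, Subgroup.npow_mem_zpowers _ _, congrArg Subtype.val h2, fun x => ⟨fun hx => ?_, ?_⟩⟩
  · rw [← pow_two, ← h3]; exact congrArg Subtype.val h1
  · rw [← pow_two, ← pow_mul, ← pow_succ, h3]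
  · exact (D.elt ⟨x, hx⟩).imp fun _ h => h.imp (congrArg Subtype.val) (congrArg Subtype.val)
  · rintro ⟨m, rfl | rfl⟩
    · exact P.1.zpow_mem a.2 m
    · exact P.1.mul_mem (P.1.zpow_mem a.2 m) b.2

namespace QD

variable (D : QD Q a b w)
include D

theorem a_mem : a ∈ Q := (D.mem a).2 ⟨1, Or.inl (zpow_one a).symm⟩

theorem b_mem : b ∈ Q := (D.mem b).2 ⟨0, Or.inr (by simp)⟩

theorem w_mem' : w ∈ Q := Subgroup.zpowers_le.2 D.a_mem D.w_mem

theorem neg_one_mem : -1 ∈ Q := D.sq_b ▸ Q.mul_mem D.b_mem D.b_mem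

theorem neg_mem (hx : x ∈ Q) : -x ∈ Q := neg_one_mul x ▸ Q.mul_mem D.neg_one_mem hx

theorem conj_zpow (m : ℤ) : b * a ^ m = a ^ (-m) * b := by
  rw [← mul_inv_eq_iff_eq_mul, ← _root_.conj_zpow, D.conj, inv_zpow']

theorem sq_mul (hx : x ∈ Subgroup.zpowers a) : x * b * (x * b) = -1 := by
  obtain ⟨m, rfl⟩ := hx
  rw [mul_assoc, ← mul_assoc b, D.conj_zpow, mul_assoc, D.sq_b, ← mul_assoc, ← zpow_add, add_neg_cancel, zpow_zero,
    one_mul]

/-- Every element is a product of two elements of order four. -/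
theorem exists_mul (hx : x ∈ Q) : ∃ c ∈ Q, ∃ d ∈ Q, c * c = -1 ∧ d * d = -1 ∧ x = c * d := by
  obtain ⟨m, rfl | rfl⟩ := (D.mem x).1 hx
  · exact ⟨a ^ m * b, Q.mul_mem hx D.b_mem, -b, D.neg_mem D.b_mem, D.sq_mul ⟨m, rfl⟩, by rw [neg_mul_neg, D.sq_b], by
      rw [mul_assoc, mul_neg, D.sq_b, neg_neg, mul_one]⟩
  · refine ⟨-w, D.neg_mem D.w_mem', w * a ^ m * b, ?_, by rw [neg_mul_neg, D.sq_w],
      D.sq_mul (Subgroup.mul_mem _ D.w_mem ⟨m, rfl⟩), by
        rw [mul_assoc w, ← mul_assoc, neg_mul, D.sq_w, neg_neg, one_mul]⟩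
    rw [mul_assoc]; exact Q.mul_mem D.w_mem' hx

theorem W_le [Fintype K] (h2 : (2 : K) ≠ 0) {R : Subgroup (symplecticGroup (Fin 2) K)} (hR : SC ⊤ (W Q) R)
    (hν : dd (-1, -1) ∈ R) (hg : g ∈ R) (hg1 : g ∉ Subgroup.center _) (hg2 : g * g ∈ Subgroup.center _) :
    W Q ≤ R := by
  have hP : ∀ x y, x * x = -1 → y * y = -1 → dd (x, y) ∈ R →
      ∀ c ∈ Q, ∀ d ∈ Q, c * c = -1 → d * d = -1 → dd (c, d) ∈ R := fun x y hx hy h c hc d hd hc2 hd2 => by
    obtain ⟨s, hs⟩ := _root_.isConj_iff.1 (isConj_of_mul_self_eq_neg_one h2 hc2 hx)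
    obtain ⟨t, ht⟩ := _root_.isConj_iff.1 (isConj_of_mul_self_eq_neg_one h2 hd2 hy)
    exact hR.of_conj (g := dd (s, t)) trivial (dd_mem_W.2 ⟨hc, hd⟩) (by rwa [dd_inv, dd_mul, dd_mul, hs, ht])
  have h1 : ∀ x y, dd (x, y) * tau ∈ R → ∃ x y, x * x = -1 ∧ y * y = -1 ∧ dd (x, y) ∈ R := fun x y h => by
    have := R.mul_mem (hR.conj_mem le_top (g := dd (b, 1)) (dd_mem_W.2 ⟨D.b_mem, Q.one_mem⟩) h) (R.inv_mem h)
    rw [mul_inv_rev, tau_inv, dd_inv, dd_inv] at this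
    simp only [mul_assoc, tau_mul_dd', dd_mul', tau_mul_tau', dd_mul] at this
    refine ⟨_, _, ?_, ?_, this⟩
    · simpa using D.sq_b
    · have : b⁻¹ = -b := inv_eq_of_mul_eq_one_right (by rw [mul_neg, D.sq_b, neg_neg])
      simp [this, mul_assoc, ← mul_assoc b, D.sq_b]
  have h3 : dd (1, -1) ∈ R → tau ∈ R := fun h => by
    have hu : 2 * (!![2⁻¹, 0; 0, 1] : Matrix (Fin 2) (Fin 2) K).det = 1 := by simp [h2]
    exact hR.of_conj (g := had _ hu) trivial tau_mem_W (by rwa [had_mul_tau, mul_inv_cancel_right])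
  have h4 : ∃ x y, x * x = -1 ∧ y * y = -1 ∧ dd (x, y) ∈ R := by
    obtain ⟨x, -, y, -, rfl | rfl⟩ := hR.1 hg
    · rw [dd_mul, mem_center_iff, ← dd_one, dd_inj, dd_inj] at hg2
      rcases hg2 with h | h
      · refine h1 1 1 (by
          rw [dd_one, one_mul]
          rw [mem_center_iff, ← dd_one] at hg1
          rcases sl_eq_of_mul_self h2 h.1 with rfl | rfl <;> rcases sl_eq_of_mul_self h2 h.2 with rfl | rfl
          · exact absurd (Or.inl rfl) hg1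
          · exact h3 hg
          · exact h3 (by simpa [dd_mul] using R.mul_mem hν hg)
          · exact absurd (Or.inr rfl) hg1)
      · exact ⟨x, y, h.1, h.2, hg⟩
    · exact h1 x y hg
  obtain ⟨x, y, hx, hy, h4⟩ := h4
  have h5 : ∀ x ∈ Q, dd (x, 1) ∈ R := fun x' hx' => by
    obtain ⟨c, hc, d, hd, hc2, hd2, rfl⟩ := D.exists_mul hx'
    have := R.mul_mem (hP x y hx hy h4 c hc b D.b_mem hc2 D.sq_b)
      (hP x y hx hy h4 d hd (-b) (D.neg_mem D.b_mem) hd2 (by rw [neg_mul_neg, D.sq_b]))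
    rwa [dd_mul, mul_neg, D.sq_b, neg_neg] at this
  have h6 : tau ∈ R := h3 (by simpa [dd_mul] using R.mul_mem hν (h5 _ D.neg_one_mem))
  have h7 : ∀ x ∈ Q, ∀ y ∈ Q, dd (x, y) ∈ R := fun x hx y hy => by
    have := R.mul_mem (h5 x hx) (R.mul_mem h6 (R.mul_mem (h5 y hy) h6))
    rwa [tau_mul_dd', tau_mul_tau, mul_one, dd_mul, mul_one, one_mul] at this
  rintro _ ⟨x, hx, y, hy, rfl | rfl⟩
  · exact h7 x hx y hy
  · exact R.mul_mem (h7 x hx y hy) h6

theorem exists_of_mem_normalizer [Finite K] (h2 : (2 : K) ≠ 0) (hg : g ∈ Subgroup.normalizer (W Q : Set _)) :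
    ∃ s ∈ W Q, ∃ h ∈ Subgroup.normalizer (Q : Set SL(2, K)), g = s * dd (h, h) := by
  have key : ∀ x y, dd (x, y) ∈ Subgroup.normalizer (W Q : Set (symplecticGroup (Fin 2) K)) →
      ∃ s ∈ W Q, ∃ h ∈ Subgroup.normalizer (Q : Set SL(2, K)), dd (x, y) = s * dd (h, h) := fun x y hg => by
    have h3 := conj_mem_of_mem_normalizer hg tau_mem_W
    rw [dd_inv, mul_assoc, tau_mul_dd, dd_mul', (W Q).mul_mem_cancel_right tau_mem_W] at h3
    refine ⟨dd (x * y⁻¹, 1), dd_mem_W.2 ⟨(dd_mem_W.1 h3).1, Q.one_mem⟩, y, Subgroup.mem_normalizer_fintype fun c hc => ?_,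
      by simp [dd_mul]⟩
    have h4 := conj_mem_of_mem_normalizer hg (dd_mem_W.2 ⟨Q.one_mem, hc⟩)
    rw [dd_inv, dd_mul, dd_mul] at h4
    exact (dd_mem_W.1 h4).2
  have hν := Subgroup.mem_center_iff.1 (neg_mem_center (K := K))
  have h3 := conj_mem_of_mem_normalizer hg (dd_mem_W.2 ⟨Q.one_mem, D.neg_one_mem⟩)
  have h4 : g * dd (1, -1) * g⁻¹ = dd (1, -1) ∨ g * dd (1, -1) * g⁻¹ = dd (-1, 1) := by
    have h5 : g * dd (1, -1) * g⁻¹ ∉ Subgroup.center _ := fun h => by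
      have := (Subgroup.normal_of_characteristic _).conj_mem _ h g⁻¹
      simp only [mul_assoc, inv_mul_cancel_left, inv_inv, inv_mul_cancel, mul_one] at this
      rw [mem_center_iff, ← dd_one, dd_inj, dd_inj] at this
      exact this.elim (fun h => neg_one_ne_one_sl h2 h.2) fun h => neg_one_ne_one_sl h2 h.1.symm
    have h6 : g * dd (1, -1) * g⁻¹ * (g * dd (1, -1) * g⁻¹) = 1 := by
      rw [conj_mul, dd_mul]; simp [dd_one]
    obtain ⟨x, hx, y, hy, e | e⟩ := h3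
    · rw [e] at h5 h6 ⊢
      rw [dd_mul, ← dd_one, dd_inj] at h6
      rw [mem_center_iff, ← dd_one] at h5
      rcases sl_eq_of_mul_self h2 h6.1 with rfl | rfl <;> rcases sl_eq_of_mul_self h2 h6.2 with rfl | rfl
      · exact absurd (Or.inl rfl) h5
      · exact Or.inl rfl
      · exact Or.inr rfl
      · exact absurd (Or.inr rfl) h5
    · exfalso
      have h7 : ∀ s ∈ W Q, s * dd (1, -1) * s⁻¹ * (dd (1, -1))⁻¹ ∈ Subgroup.center _ := by
        rintro _ ⟨c, -, d, -, rfl | rfl⟩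
        · simp [dd_inv, dd_mul, dd_one]
        · rw [mul_inv_rev, tau_inv, dd_inv, dd_inv]
          simp only [mul_assoc, tau_mul_dd', tau_mul_tau', dd_mul]
          simpa using neg_mem_center
      have h8 := (Subgroup.normal_of_characteristic _).conj_mem _ (h7 _ (conj_mem_of_mem_normalizer
        (Subgroup.inv_mem _ hg) (dd_mem_W.2 ⟨D.b_mem, Q.one_mem⟩))) g
      rw [show g * (g⁻¹ * dd (b, 1) * g⁻¹⁻¹ * dd (1, -1) * (g⁻¹ * dd (b, 1) * g⁻¹⁻¹)⁻¹ * (dd (1, -1))⁻¹) * g⁻¹ =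
        dd (b, 1) * (g * dd (1, -1) * g⁻¹) * (dd (b, 1))⁻¹ * (g * dd (1, -1) * g⁻¹)⁻¹ by group, e, mul_inv_rev, tau_inv,
        dd_inv, dd_inv] at h8
      simp only [mul_assoc, tau_mul_dd', dd_mul', tau_mul_tau', dd_mul] at h8
      rw [mem_center_iff, ← dd_one, dd_inj, dd_inj] at h8
      have h9 := D.sq_b
      rcases h8 with h | h <;> rw [show b = _ by simpa using h.1] at h9 <;> exact neg_one_ne_one_sl h2 (by simpa using h9.symm)
  rcases h4 with h4 | h4 <;> rw [mul_inv_eq_iff_eq_mul] at h4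
  · obtain ⟨x, y, rfl⟩ := exists_dd_of_comm h2 h4
    exact key x y hg
  · obtain ⟨x, y, rfl⟩ := exists_dd_of_anticomm h2 h4
    obtain ⟨s, hs, h, hh, e⟩ := key x y ((Subgroup.mul_mem_cancel_right _ (Subgroup.le_normalizer tau_mem_W)).1 hg)
    exact ⟨s * tau, (W Q).mul_mem hs tau_mem_W, h, hh, by rw [e, mul_assoc, mul_assoc, tau_mul_dd]⟩

theorem exists_pow_comm [Finite K] (hQ : IsPGroup 2 Q) (hh : h ∈ Subgroup.normalizer (Q : Set SL(2, K)))
    (ha : h * a * h⁻¹ ∈ Subgroup.zpowers a) : ∃ k, ∀ x ∈ Q, h ^ 2 ^ k * x = x * h ^ 2 ^ k := by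
  obtain ⟨k, hk⟩ := CL.Grp.exists_pow_orderOf_coprime Nat.prime_two h
  have h1 : h ∈ Subgroup.normalizer (Subgroup.zpowers a : Set SL(2, K)) := Subgroup.mem_normalizer_fintype (by
    rintro _ ⟨m, rfl⟩
    rw [← _root_.conj_zpow]
    exact Subgroup.zpow_mem _ ha m)
  obtain ⟨α, hα, e, h2⟩ := CL.Inv.exists_odd_aut_of_mem_normalizer (Subgroup.pow_mem _ hh (2 ^ k)) hk
  have h3 : α ⟨a, D.a_mem⟩ = ⟨a, D.a_mem⟩ := by
    obtain ⟨m, hm⟩ := conj_mem_of_mem_normalizer (Subgroup.pow_mem _ h1 (2 ^ k)) (Subgroup.mem_zpowers a)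
    exact CL.Inv.aut_fix_of_mem_zpowers hQ hα ⟨m, Subtype.ext (by rw [e]; exact hm)⟩
  refine ⟨k, fun x hx => (h2 (CL.Inv.aut_eq_one_of_fix_index_le_two hQ hα ((Subgroup.zpowers a).subgroupOf Q)
    (fun x y hx hy => ?_) fun x hx => ?_) x hx).symm⟩
  · rw [Subgroup.mem_subgroupOf] at hx hy ⊢
    obtain ⟨m, e1 | e1⟩ := (D.mem x).1 x.2
    · exact absurd ⟨m, e1.symm⟩ hx
    obtain ⟨m', e2 | e2⟩ := (D.mem y).1 y.2
    · exact absurd ⟨m', e2.symm⟩ hy
    refine ⟨m - m', ?_⟩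
    rw [Subgroup.coe_mul, Subgroup.coe_inv, e1, e2, eq_inv_mul_iff_mul_eq, mul_assoc, D.conj_zpow, ← mul_assoc,
      ← zpow_add]
    simp
  · obtain ⟨m, hm⟩ := Subgroup.mem_subgroupOf.1 hx
    rw [show x = ⟨a, D.a_mem⟩ ^ m from Subtype.ext hm.symm, map_zpow, h3]

end QD

theorem dd_mem_normalizer [Finite K] (hh : h ∈ Subgroup.normalizer (Q : Set SL(2, K))) :
    dd (h, h) ∈ Subgroup.normalizer (W Q : Set (symplecticGroup (Fin 2) K)) := by
  refine Subgroup.mem_normalizer_fintype ?_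
  rintro _ ⟨x, hx, y, hy, rfl | rfl⟩
  · rw [dd_inv, dd_mul, dd_mul]
    exact dd_mem_W.2 ⟨conj_mem_of_mem_normalizer hh hx, conj_mem_of_mem_normalizer hh hy⟩
  · rw [dd_inv, mul_assoc, mul_assoc, tau_mul_dd, dd_mul', dd_mul']
    exact (W Q).mul_mem (dd_mem_W.2 ⟨conj_mem_of_mem_normalizer hh hx, conj_mem_of_mem_normalizer hh hy⟩) tau_mem_W

theorem dd_comm (hh : ∀ x ∈ Q, h * x = x * h) (hg : g ∈ W Q) : dd (h, h) * g = g * dd (h, h) := by
  obtain ⟨x, hx, y, hy, rfl | rfl⟩ := hg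
  · rw [dd_mul, dd_mul, hh x hx, hh y hy]
  · rw [mul_assoc, tau_mul_dd, dd_mul', dd_mul', hh x hx, hh y hy]

section Extraspecial

variable {i j k : SL(2, K)}

/-- `(i - j) / 2`. -/
def uu (i j : SL(2, K)) : Matrix (Fin 2) (Fin 2) K := (2⁻¹ : K) • (i.1 - j.1)

theorem uu_mul_left (h : QPair i j) : uu i j * i.1 = (-j).1 * uu i j := by
  have h1 : i.1 * i.1 = -1 := congrArg Subtype.val h.sq_left
  have h2 : j.1 * j.1 = -1 := congrArg Subtype.val h.sq_right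
  simp only [uu, smul_mul_assoc, mul_smul_comm, sub_mul, mul_sub, h1, h2, Matrix.SpecialLinearGroup.coe_neg, neg_mul]
  module

theorem uu_mul_right (h : QPair i j) : uu i j * j.1 = (-i).1 * uu i j := by
  have h1 : i.1 * i.1 = -1 := congrArg Subtype.val h.sq_left
  have h2 : j.1 * j.1 = -1 := congrArg Subtype.val h.sq_right
  simp [uu, sub_mul, mul_sub, h1, h2, add_comm]

theorem uu_mul_anti (hi : i * k = -(k * i)) (hj : j * k = -(k * j)) : uu i j * k.1 = (-k).1 * uu i j := by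
  have h1 : i.1 * k.1 = -(k.1 * i.1) := congrArg Subtype.val hi
  have h2 : j.1 * k.1 = -(k.1 * j.1) := congrArg Subtype.val hj
  simp [uu, sub_mul, mul_sub, h1, h2, neg_add_eq_sub]

theorem uu_mul_self (h2 : (2 : K) ≠ 0) (h : QPair i j) : uu i j * uu i j = (2⁻¹ : K) • -1 := by
  have h1 : i.1 * i.1 = -1 := congrArg Subtype.val h.sq_left
  have h3 : j.1 * j.1 = -1 := congrArg Subtype.val h.sq_right
  have h4 : j.1 * i.1 = -(i.1 * j.1) := congrArg Subtype.val h.anti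
  simp only [uu, smul_mul_assoc, mul_smul_comm, sub_mul, mul_sub, h1, h3, h4]
  match_scalars <;> field_simp <;> ring

theorem det_uu (h2 : (2 : K) ≠ 0) (h : QPair i j) : 2 * (uu i j).det = 1 := by
  have h1 := CL.GL2.mul_self_eq (uu i j)
  rw [uu_mul_self h2 h, show (uu i j).trace = 0 by
    simp [uu, mul_self_eq_neg_one_iff.1 h.sq_left, mul_self_eq_neg_one_iff.1 h.sq_right]] at h1
  have : (2⁻¹ : K) = (uu i j).det := by simpa using congrFun (congrFun h1 0) 0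
  rw [← this, mul_inv_cancel₀ h2]

theorem had_pow_four (h2 : (2 : K) ≠ 0) (h : QPair i j) : had _ (det_uu h2 h) ^ 2 ^ 2 = 1 := by
  have h1 : had _ (det_uu h2 h) * had _ (det_uu h2 h) = dd (-1, -1) := had_mul_had _ _ (by
    rw [uu_mul_self h2 h, ← add_smul, ← two_mul, mul_inv_cancel₀ h2, one_smul]; rfl)
  rw [pow_two 2, pow_mul, pow_two, pow_two, h1, dd_mul, neg_mul_neg, one_mul, dd_one]

/-- The extraspecial group `Q₈ ∘ D₈`. -/
def EE (i j : SL(2, K)) : Subgroup (symplecticGroup (Fin 2) K) :=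
  Subgroup.closure {dd (i, i), dd (j, j), dd (1, -1), tau}

theorem dd_mem_EE (hx : x ∈ Subgroup.closure {i, j}) : dd (x, x) ∈ EE i j :=
  (Subgroup.closure_le ((EE i j).comap (dd.comp ((MonoidHom.id _).prod (MonoidHom.id _))))).2
    (by rintro _ (rfl | rfl) <;> exact Subgroup.subset_closure (by simp)) hx

theorem z_mem_EE : dd (1, -1) ∈ EE i j := Subgroup.subset_closure (by simp)

theorem tau_mem_EE : tau ∈ EE i j := Subgroup.subset_closure (by simp)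

theorem had_mem_normalizer [Finite K] {u : Matrix (Fin 2) (Fin 2) K} (hu : 2 * u.det = 1)
    (hx : x ∈ Subgroup.closure {i, j}) (hy : y ∈ Subgroup.closure {i, j}) (hi : u * i.1 = x.1 * u)
    (hj : u * j.1 = y.1 * u) : had u hu ∈ Subgroup.normalizer (EE i j : Set (symplecticGroup (Fin 2) K)) := by
  refine Subgroup.mem_normalizer_fintype fun g hg =>
    (Subgroup.closure_le ((EE i j).comap (MulAut.conj (had u hu)).toMonoidHom)).2 ?_ hg
  rintro _ (rfl | rfl | rfl | rfl) <;> change _ * _ * _ ∈ EE i j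
  · rw [had_mul_dd hu hi, mul_inv_cancel_right]; exact dd_mem_EE hx
  · rw [had_mul_dd hu hj, mul_inv_cancel_right]; exact dd_mem_EE hy
  · rw [had_mul_z, mul_inv_cancel_right]; exact tau_mem_EE
  · rw [had_mul_tau, mul_inv_cancel_right]; exact z_mem_EE

theorem mem_of_comm_or (h2 : (2 : K) ≠ 0) (h : QPair i j) (hi : i ∈ Q) (hj : j ∈ Q) (h1 : x * i = i * x ∨ x * i = -(i * x))
    (h3 : x * j = j * x ∨ x * j = -(j * x)) : x ∈ Q := by
  have key : ∀ y : SL(2, K), y * i = i * y → y * j = j * y → y ∈ Q := fun y e1 e2 => by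
    rcases CL.GL2.isScal_SL_iff.1 (h.isScal_of_commute h2 (congrArg Subtype.val e1) (congrArg Subtype.val e2)) with
      rfl | rfl
    · exact Q.one_mem
    · exact h.sq_left ▸ Q.mul_mem hi hi
  have a1 := h.anti
  have a2 : ∀ y, j * (i * y) = -(i * (j * y)) := fun y => by rw [← mul_assoc, a1, neg_mul, mul_assoc]
  rcases h1 with h1 | h1 <;> rcases h3 with h3 | h3
  · exact key x h1 h3
  · exact (Q.mul_mem_cancel_left hi).1 (key _ (by rw [mul_assoc, h1]) (by rw [mul_assoc, h3, a2, mul_neg]))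
  · exact (Q.mul_mem_cancel_left hj).1 (key _ (by rw [mul_assoc, h1, mul_neg, a2, neg_neg]) (by rw [mul_assoc, h3]))
  · refine (Q.mul_mem_cancel_left hj).1 ((Q.mul_mem_cancel_left hi).1 (key _ ?_ ?_))
    · rw [mul_assoc, mul_assoc, h1, mul_neg, a2, neg_neg]
    · rw [mul_assoc, mul_assoc, h3, a2, mul_neg, mul_neg]

theorem comm_or {g' : symplecticGroup (Fin 2) K} (h : (QuotientGroup.mk g : PSp 2 K) = QuotientGroup.mk g') :
    g = g' ∨ g = dd (-1, -1) * g' := by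
  rcases mem_center_iff.1 (QuotientGroup.eq.1 h.symm) with e | e
  · exact Or.inl (inv_mul_eq_one.1 e).symm
  · exact Or.inr (by rw [← Subgroup.mem_center_iff.1 neg_mem_center, ← e, mul_inv_cancel_left])

theorem pCen_EE (h2 : (2 : K) ≠ 0) (h : QPair i j) : PCen 2 ⊤ ((EE i j).map (QuotientGroup.mk' (Subgroup.center _))) := by
  intro c _ _ hc
  obtain ⟨c, rfl⟩ := QuotientGroup.mk_surjective c
  refine ⟨c, ?_, rfl⟩
  have hi : i ∈ Subgroup.closure {i, j} := Subgroup.subset_closure (by simp)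
  have hj : j ∈ Subgroup.closure {i, j} := Subgroup.subset_closure (by simp)
  have key : ∀ e ∈ EE i j, c * e = e * c ∨ c * e = dd (-1, -1) * (e * c) := fun e he => comm_or (hc _ ⟨e, he, rfl⟩)
  obtain ⟨x, y, s, hs, h1, h3, rfl⟩ : ∃ x y, ∃ s ∈ EE i j, s * tau = tau * s ∧
      (∀ a : SL(2, K), s * dd (a, a) = dd (a, a) * s) ∧ c = dd (x, y) * s := by
    rcases key _ z_mem_EE with e | e
    · obtain ⟨x, y, e⟩ := exists_dd_of_comm h2 e
      exact ⟨x, y, 1, Subgroup.one_mem _, by simp, by simp, by simpa using e⟩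
    · obtain ⟨x, y, e⟩ := exists_dd_of_anticomm h2 (by simpa [dd_mul'] using e)
      exact ⟨x, y, tau, tau_mem_EE, rfl, fun a => tau_mul_dd, e⟩
  refine Subgroup.mul_mem _ ?_ hs
  have h4 : ∀ a ∈ Subgroup.closure {i, j}, x * a = a * x ∨ x * a = -(a * x) := fun a ha => by
    have := key _ (dd_mem_EE ha)
    simp only [mul_assoc, h3, dd_mul', mul_left_inj, dd_inj, neg_mul, one_mul] at this
    exact this.imp And.left And.left
  have h5 := dd_mem_EE (mem_of_comm_or h2 h hi hj (h4 i hi) (h4 j hj))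
  have h6 := key _ tau_mem_EE
  simp only [mul_assoc, h1, tau_mul_dd', dd_mul', mul_left_inj, dd_inj, neg_mul, one_mul] at h6
  rcases h6 with e | e
  · exact e.1 ▸ h5
  · simpa [dd_mul, e.2] using Subgroup.mul_mem _ h5 z_mem_EE

/-- An element of `O^{2'}(N(Q₈ ∘ D₈))` that permutes `i`, `j`, `j i` cyclically. -/
theorem exists_three [Finite K] (h2 : (2 : K) ≠ 0) (h : QPair i j) : ∃ c : SL(2, K), c * i * c⁻¹ = j ∧
    c * j * c⁻¹ = j * i ∧ c * (j * i) * c⁻¹ = i ∧ (QuotientGroup.mk (dd (c, c)) : PSp 2 K) ∈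
      pCl 2 (normalizerIn ⊤ ((EE i j).map (QuotientGroup.mk' (Subgroup.center _)))) := by
  have h' := h.symm.mul_right
  have hi : i ∈ Subgroup.closure {i, j} := Subgroup.subset_closure (by simp)
  have hj : j ∈ Subgroup.closure {i, j} := Subgroup.subset_closure (by simp)
  have hn : ∀ x ∈ Subgroup.closure {i, j}, -x ∈ Subgroup.closure {i, j} := fun x hx => by
    rw [← neg_one_mul, ← h.sq_left]; exact Subgroup.mul_mem _ (Subgroup.mul_mem _ hi hi) hx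
  have a1 : j * i * i = -(i * (j * i)) := by rw [h.anti, mul_neg, neg_neg, neg_mul, mul_assoc, h.anti, mul_neg, neg_neg]
  have u1 := uu_mul_left h
  have u2 := uu_mul_right h
  have u3 := uu_mul_anti (k := j * i) (neg_eq_iff_eq_neg.1 a1.symm) h'.symm.anti
  have v1 := uu_mul_anti h.anti a1
  have v2 := uu_mul_left h'
  have v3 := uu_mul_right h'
  let c : SL(2, K) := ⟨(2 : K) • (uu i j * uu j (j * i)), by
    rw [Matrix.det_smul, Matrix.det_mul, Fintype.card_fin]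
    linear_combination (2 * (uu j (j * i)).det) * det_uu h2 h + det_uu h2 h'⟩
  have key : ∀ x y z : SL(2, K), uu j (j * i) * x.1 = (-y).1 * uu j (j * i) → uu i j * y.1 = (-z).1 * uu i j →
      c * x * c⁻¹ = z := fun x y z e1 e2 => by
    rw [mul_inv_eq_iff_eq_mul]
    refine Subtype.ext ?_
    change (2 : K) • (uu i j * uu j (j * i)) * x.1 = z.1 * (2 : K) • (uu i j * uu j (j * i))
    rw [Matrix.SpecialLinearGroup.coe_neg] at e1 e2
    rw [smul_mul_assoc, mul_assoc, e1, neg_mul, mul_neg, ← mul_assoc, e2, mul_smul_comm, neg_mul, neg_mul, neg_neg,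
      mul_assoc]
  refine ⟨c, key _ _ _ v1 u1, key _ _ _ v2 u3, key _ _ _ v3 u2, ?_⟩
  rw [← had_mul_had (det_uu h2 h) (det_uu h2 h') (two_smul K _).symm, QuotientGroup.mk_mul]
  refine Subgroup.mul_mem _ (mem_pCl (k := 2) (mem_normalizerIn.2 ⟨trivial, Subgroup.le_normalizer_map _
    ⟨_, had_mem_normalizer _ (hn _ hj) (hn _ hi) u1 u2, rfl⟩⟩) ?_) (mem_pCl (k := 2) (mem_normalizerIn.2 ⟨trivial,
      Subgroup.le_normalizer_map _ ⟨_, had_mem_normalizer _ (hn _ hi) (hn _ (Subgroup.mul_mem _ hj hi)) v1 v2, rfl⟩⟩) ?_)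
  · rw [← QuotientGroup.mk_pow, had_pow_four h2 h, QuotientGroup.mk_one]
  · rw [← QuotientGroup.mk_pow, had_pow_four h2 h', QuotientGroup.mk_one]

end Extraspecial

theorem isSimple_PSp4 [Fintype K] (hK : Odd (Fintype.card K)) (S : Sylow 2 (PSp 2 K)) :
    (groupFusionSystem (S : Subgroup (PSp 2 K))).IsSimple 2 := by
  have h2 := CL.GL2.two_ne_zero_of_odd hK
  obtain ⟨P⟩ : Nonempty (Sylow 2 SL(2, K)) := inferInstance
  obtain ⟨a, b, w, D⟩ := exists_QD hK P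
  let κ : symplecticGroup (Fin 2) K →* PSp 2 K := QuotientGroup.mk' _
  have hT : SylIn 2 ((W P.1).map κ) ⊤ := by
    have := (sylIn_W hK (sylIn_top P)).map κ
    rwa [← MonoidHom.range_eq_map, QuotientGroup.range_mk'] at this
  have hZ : ∀ g ∈ Subgroup.center (symplecticGroup (Fin 2) K), g ∈ W P.1 := fun g hg => by
    rcases mem_center_iff.1 hg with rfl | rfl
    · exact Subgroup.one_mem _
    · exact dd_mem_W.2 ⟨D.neg_one_mem, D.neg_one_mem⟩
  have hmem : ∀ g, κ g ∈ (W P.1).map κ ↔ g ∈ W P.1 := fun g => by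
    rw [← Subgroup.mem_comap, Subgroup.comap_map_eq, QuotientGroup.ker_mk', sup_eq_left.2 hZ]
  refine isSimple_group_of_sylIn hT (sylIn_top S) ?_
  rw [GS.groupFusionSystem_eq]
  refine isSimple_ofSubgroup hT (fun h => ?_) (fun R hR h0 => ?_) fun g _ hg => ?_
  · have h1 := (hmem _).2 tau_mem_W
    rw [h, Subgroup.mem_bot] at h1
    have h3 := Subgroup.mem_center_iff.1 ((QuotientGroup.eq_one_iff _).1 h1) (dd (1, -1))
    rw [tau_mul_dd, mul_left_inj, dd_inj] at h3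
    exact neg_one_ne_one_sl h2 h3.2
  · obtain ⟨z, hz, hz2, -⟩ := hR.exists_central_prime hT h0
    obtain ⟨z, rfl⟩ := QuotientGroup.mk_surjective z
    refine Subgroup.map_le_iff_le_comap.2 (D.W_le h2 (R := R.comap κ) (g := z) ⟨fun x hx => (hmem x).1 (hR.1 hx),
      fun x hx g _ h => hR.2 _ hx (κ g) trivial ((hmem _).2 h)⟩ ?_ hz (fun h => ?_) ?_)
    · rw [Subgroup.mem_comap, show κ _ = 1 from (QuotientGroup.eq_one_iff _).2 neg_mem_center]
      exact R.one_mem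
    · rw [(QuotientGroup.eq_one_iff _).2 h, orderOf_one] at hz2
      omega
    · rw [← QuotientGroup.eq_one_iff, ← pow_two, QuotientGroup.mk_pow]
      exact orderOf_dvd_iff_pow_eq_one.1 hz2.dvd
  obtain ⟨g, rfl⟩ := QuotientGroup.mk_surjective g
  obtain ⟨s, hs, h, hh, rfl⟩ := D.exists_of_mem_normalizer h2 (g := g) (Subgroup.mem_normalizer_fintype fun x hx =>
    (hmem _).1 (conj_mem_of_mem_normalizer hg ((hmem x).2 hx)))
  change κ _ ∈ _
  rw [map_mul]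
  refine Subgroup.mul_mem _ (le_goodN ((hmem s).2 hs)) ?_
  have hN : ∀ h ∈ Subgroup.normalizer (P.1 : Set SL(2, K)),
      κ (dd (h, h)) ∈ Subgroup.normalizer ((W P.1).map κ : Set (PSp 2 K)) :=
    fun h hh => Subgroup.le_normalizer_map κ ⟨_, dd_mem_normalizer hh, rfl⟩
  have hA : ∀ h ∈ Subgroup.normalizer (P.1 : Set SL(2, K)), h * a * h⁻¹ ∈ Subgroup.zpowers a →
      κ (dd (h, h)) ∈ goodN 2 hT.le := fun h hh ha => by
    obtain ⟨k, hk⟩ := D.exists_pow_comm P.isPGroup' hh ha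
    refine mem_goodN_of_pow hT trivial (hN h hh) (k := k) ?_
    rintro _ ⟨x, hx, rfl⟩
    rw [← map_pow, ← map_pow, ← map_mul, ← map_mul]
    exact congrArg κ (dd_comm hk hx)
  obtain ⟨m, e | e⟩ := (D.mem _).1 (conj_mem_of_mem_normalizer hh D.a_mem)
  · exact hA h hh ⟨m, e.symm⟩
  have ha : a * a = -1 := by
    have := D.sq_mul ⟨m, rfl⟩
    rwa [← e, conj_mul, mul_inv_eq_iff_eq_mul, neg_one_mul, ← mul_neg_one, mul_right_inj] at this
  have hab : QPair a b := ⟨ha, D.sq_b, by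
    rw [← neg_mul, ← inv_eq_of_mul_eq_one_right (show a * -a = 1 by rw [mul_neg, ha, neg_neg]), ← D.conj,
      inv_mul_cancel_right]⟩
  obtain ⟨c, c1, c2, c3, hc⟩ := exists_three h2 hab
  have hcN : c ∈ Subgroup.normalizer (P.1 : Set SL(2, K)) := Subgroup.mem_normalizer_fintype fun x hx => by
    obtain ⟨m, rfl | rfl⟩ := (D.mem x).1 hx
    · rw [← _root_.conj_zpow, c1]; exact P.1.zpow_mem D.b_mem m
    · rw [← conj_mul, ← _root_.conj_zpow, c1, c2]
      exact P.1.mul_mem (P.1.zpow_mem D.b_mem m) (P.1.mul_mem D.b_mem D.a_mem)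
  have hc' : κ (dd (c, c)) ∈ goodN 2 hT.le := mem_goodN_of_pCl hT (Subgroup.map_mono ((Subgroup.closure_le _).2 (by
    rintro _ (rfl | rfl | rfl | rfl)
    · exact dd_mem_W.2 ⟨D.a_mem, D.a_mem⟩
    · exact dd_mem_W.2 ⟨D.b_mem, D.b_mem⟩
    · exact dd_mem_W.2 ⟨P.1.one_mem, D.neg_one_mem⟩
    · exact tau_mem_W))) (pCen_EE h2 hab) hc (hN c hcN)
  have he : ∀ (r : ℤ) (c x : SL(2, K)), c * (a ^ (2 * r) * x) * c⁻¹ = a ^ (2 * r) * (c * x * c⁻¹) := fun r c x => by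
    rw [zpow_mul, zpow_two, ha]
    rcases Int.even_or_odd r with h | h
    · simp [h.neg_one_zpow]
    · simp [h.neg_one_zpow]
  obtain ⟨r, rfl | rfl⟩ := Int.even_or_odd' m
  · refine (Subgroup.mul_mem_cancel_left _ (Subgroup.inv_mem _ hc')).1 ?_
    rw [← map_inv, dd_inv]
    refine (congrArg κ dd_mul ▸ hA _ (Subgroup.mul_mem _ (Subgroup.inv_mem _ hcN) hh) ?_ :)
    rw [mul_inv_rev, mul_assoc, mul_assoc, ← mul_assoc a, ← mul_assoc h, ← mul_assoc h, e, ← mul_assoc, he, ← c1]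
    exact ⟨2 * r + 1, by simp [zpow_add_one, mul_assoc]⟩
  · refine (Subgroup.mul_mem_cancel_left _ hc').1 ?_
    refine (congrArg κ dd_mul ▸ hA _ (Subgroup.mul_mem _ hcN hh) ?_ :)
    rw [mul_inv_rev, mul_assoc, mul_assoc, ← mul_assoc a, ← mul_assoc h, ← mul_assoc h, e, ← mul_assoc, zpow_add_one,
      mul_assoc _ a, he, ← neg_neg (a * b), ← hab.anti, mul_neg, neg_mul, c3]
    exact ⟨2 * r + 3, by simp [show 2 * r + 3 = 2 * r + 1 + 1 + 1 by ring, zpow_add_one, mul_assoc, ha]⟩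

end CL.Fus.Sp4
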