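import Cfsg.Agent.Fus.SimpleForm
import Cfsg.Agent.Cls.SpSimple
import Cfsg.Agent.Cls.SpRoot
import Cfsg.Agent.Cls.SpMatrix
import Cfsg.Agent.Cls.UniSimple

/-! The fusion systems of `PSp_{2m}(q)` and `PSU_n(q)` in the defining characteristic. -/

set_option autoImplicit false
open Cfsg Module

universe u v

namespace CL.Fus.Form

theorem geo_sp {F V : Type*} [Field F] [Finite F] [AddCommGroup V] [Module F V] [FiniteDimensional F V]
    {B : LinearMap.BilinForm F V} (hB : B.IsAlt) (hN : B.Nondegenerate) :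
    Geo (σ := RingHom.id F) (-1) B (CL.Sp.Isom B) where
  invol _ := rfl
  eps := Or.inr rfl
  symm x y := by rw [CL.Sp.alt_neg hB y x]; simp
  nondeg := hN.1
  isom _ hg := hg
  eich r w c _ hw _ := by
    refine ⟨CL.Sp.sr hB r (-w) * CL.Sp.tv hB r c, mul_mem (CL.Sp.sr_mem_isom hB _ _) (CL.Sp.tv_mem_isom hB _ _),
      fun x => ?_⟩
    rw [LinearEquiv.mul_apply, CL.Sp.sr_apply hB (by simp [hw]), CL.Sp.tv_apply]
    simp only [map_add, map_smul, map_neg, LinearMap.add_apply, LinearMap.smul_apply, hw, CL.Sp.alt_self hB r,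
      CL.Sp.alt_neg hB x r, CL.Sp.alt_neg hB x w, smul_eq_mul]
    module
  trace u := ⟨0, by simp [CL.Sp.alt_self hB]⟩
  norm u hu := absurd (CL.Sp.alt_self hB u) hu
  tv0 := ⟨1, one_ne_zero, by simp⟩
  irr A c hc _ h d _ := CL.Sp.mem_of_sq_mul_mem A hc (fun a => by
    by_cases ha : a = 0
    · simp [ha]
    · simpa [sq] using h a ha) d
  det1 _ _ u hu := absurd (CL.Sp.alt_self hB u) hu
  det2 _ _ _ _ _ _ _ _ _ _ _ := rfl

theorem geo_su {F : Type u} [Field F] {q : ℕ} {σ : F →+* F} {V : Type v} [AddCommGroup V] [Module F V]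
    [FiniteDimensional F V] {B : V →ₛₗ[σ] V →ₗ[F] F} (h : CL.Uni.IsHerm B q) : Geo 1 B (CL.Uni.SUG B) where
  invol := h.bar_bar
  eps := Or.inl rfl
  symm x y := by rw [one_mul, h.symm]
  nondeg := h.nondeg
  isom _ hg := (CL.Uni.mem_SUG.1 hg).1
  eich r w c hr hw hc := by
    obtain ⟨g, hg, e⟩ := h.exists_eich hr hw (c := c) (by rwa [one_mul] at hc)
    exact ⟨g, hg, fun x => by rw [e, one_mul]⟩
  trace u := by simpa using h.bar.exists_trace_eq (h.self_fixed u)
  norm u hu c := by simpa using h.exists_smul_self_eq hu (h.bar.trace_fixed c)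
  tv0 := by
    obtain ⟨c, hc, hc'⟩ := h.bar.exists_trace_zero
    exact ⟨c, hc, by rw [hc']; ring⟩
  irr A c hc hc' H d hd := by
    by_cases hd0 : d = 0
    · rw [hd0]; exact A.zero_mem
    have e1 : σ c = -c := by linear_combination hc'
    have e2 : σ d = -d := by linear_combination hd
    obtain ⟨a, ha⟩ := h.bar.exists_norm_eq (a := d / c) (by rw [map_div₀, e1, e2, neg_div_neg_eq])
    have := H a (by rintro rfl; exact div_ne_zero hd0 hc (by simpa using ha.symm))
    rwa [ha, div_mul_cancel₀ _ hc] at this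
  det1 g hg u hu hfix := by
    obtain ⟨hg1, hg2⟩ := CL.Uni.mem_SUG.1 hg
    obtain ⟨a, ha⟩ := Submodule.mem_span_singleton.1 (h.apply_mem_of_fix_perp (U := F ∙ u) hg1
      (fun x hx => hfix x (CL.Uni.mem_perp_singleton.1 hx)) (Submodule.mem_span_singleton_self u))
    rw [← ha, ← h.dt_eq_of_fix_perp hu ha.symm hfix, hg2, one_smul]
  det2 g hg e f μ he hf hef h1 h2 h3 := by
    have hμ : μ ≠ 0 := by
      rintro rfl
      rw [zero_smul, map_eq_zero_iff g g.injective] at h1
      simp [h1] at hef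
    obtain ⟨k, -, k1, k2, k3, k4⟩ := h.exists_diag he hf hef hμ
    have : g = k := LinearEquiv.toLinearMap_injective (h.ext_hyperbolic he hf hef (h1.trans k1.symm) (h2.trans k2.symm)
      fun x hx hx' => (h3 x hx hx').trans (k3 x hx hx').symm)
    rw [← this, (CL.Uni.mem_SUG.1 hg).2, eq_comm, mul_inv_eq_one₀ ((map_ne_zero σ).2 hμ)] at k4
    exact k4.symm

end CL.Fus.Form

namespace CL.Fus

theorem isSimple_PSp {K : Type*} [Field K] [Fintype K] (p : ℕ) [Fact p.Prime] [CharP K p] {m : ℕ} (hm : 2 ≤ m)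
    (hex : m = 2 → 3 ≤ Fintype.card K) (S : Sylow p (PSp m K)) :
    (groupFusionSystem (S : Subgroup (PSp m K))).IsSimple p := by
  have hB := CL.Sp.stdForm_isAlt (Fin m) K
  have hN := CL.Sp.stdForm_nondegenerate (Fin m) K
  have : Finite (CL.Sp.Isom (CL.Sp.stdForm (Fin m) K)) := Finite.of_equiv _ (CL.Sp.spEquiv (Fin m) K).toEquiv
  have hr : finrank K (Fin m ⊕ Fin m → K) = m + m := by simp
  refine (Form.geo_sp hB hN).isSimple p (by omega) ?_
    ((QuotientGroup.mk' _).comp (CL.Sp.spEquiv (Fin m) K).symm.toMonoidHom)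
    ((QuotientGroup.mk'_surjective _).comp (CL.Sp.spEquiv (Fin m) K).symm.surjective) (fun x hx => ?_) S
  · by_cases h2 : m = 2
    · refine Or.inr (Or.inl ?_)
      obtain ⟨a, b, c, hab, hac, hbc⟩ := Fintype.two_lt_card_iff.1 (hex h2)
      by_contra hh
      push Not at hh
      have key : ∀ x : K, x = 0 ∨ x = 1 := fun x => or_iff_not_imp_left.2 (hh x)
      rcases key a with rfl | rfl <;> rcases key b with rfl | rfl <;> rcases key c with rfl | rfl <;> simp_all
    · exact Or.inr (Or.inr (by omega))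
  · have h1 := (CL.Uni.apply_mem_center_iff (CL.Sp.spEquiv (Fin m) K).symm).1 ((QuotientGroup.eq_one_iff _).1 hx)
    rcases (CL.Sp.mem_center_isom_iff hB hN x).1 h1 with h | h
    · exact ⟨1, fun v => by rw [h]; simp⟩
    · exact ⟨-1, fun v => by rw [h]; simp⟩

theorem isSimple_PSU {K : Type*} [Field K] [Fintype K] (p q : ℕ) [Fact p.Prime] [CharP K p]
    (hK : Fintype.card K = q ^ 2) {n : ℕ} (hn : 4 ≤ n) (S : Sylow p (PSU n K q)) :
    (groupFusionSystem (S : Subgroup (PSU n K q))).IsSimple p := by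
  have hσ := CL.Uni.isBar_bar hK
  have h := CL.Uni.isHerm_stdB hσ (Fin n)
  have : Finite (CL.Uni.SUG (CL.Uni.stdB (CL.Uni.bar hK) (Fin n))) := Finite.of_equiv _ (CL.Uni.suEquiv hσ n).toEquiv
  have hr : finrank K (Fin n → K) = n := by simp
  refine (Form.geo_su h).isSimple p (by omega) (Or.inl ?_)
    ((QuotientGroup.mk' _).comp (CL.Uni.suEquiv hσ n).symm.toMonoidHom)
    ((QuotientGroup.mk'_surjective _).comp (CL.Uni.suEquiv hσ n).symm.surjective) (fun x hx => ?_) S
  · obtain ⟨b, hb⟩ := hσ.exists_ne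
    exact ⟨b, by rw [one_mul]; exact hb.symm⟩
  · exact (h.mem_center_SUG (by omega) x).1
      ((CL.Uni.apply_mem_center_iff (CL.Uni.suEquiv hσ n).symm).1 ((QuotientGroup.eq_one_iff _).1 hx))

end CL.Fus
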