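/-
Saturated fusion systems on the group `CL.T3.G`: the elements fused into the centre, basic tools.
-/
import Cfsg.Agent.Fus.T3C
import Cfsg.Agent.Fus.StrongInv
import Cfsg.Agent.Fus.NormalCrit

set_option autoImplicit false
set_option Elab.async false

namespace CL.T3

open Subgroup Cfsg Cfsg.FusionSystem CL.Fus

attribute [local irreducible] mul inv

/-! ### Group theory -/

theorem e_mem_L {k n : ℕ} (h : n < 3 ^ k) : e n ∈ L k := (Nat.mod_le _ _).trans_lt h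

theorem L1_comm {x : G} (hx : x ∈ L 1) (g : G) : g * x = x * g := by
  have := comm_L (k := 0) (by norm_num) hx g
  rwa [L_zero, mem_bot, mul_inv_eq_one, mul_inv_eq_iff_eq_mul] at this

theorem L1_conj {x : G} (hx : x ∈ L 1) (g : G) : g * x * g⁻¹ = x := by rw [L1_comm hx, mul_inv_cancel_right]

theorem L1_cases : ∀ x ∈ L 1, x = 1 ∨ x = e 1 ∨ x = (e 1)⁻¹ := all_L (by decide +kernel)

theorem A_cube : ∀ x ∈ L 5, x ^ 3 = 1 := all_L (by decide +kernel)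

theorem q_split {k : ℕ} (hk : k < 10) {x : G} (hx : x ∈ L (k + 1)) :
    ∃ d < 3, QuotientGroup.mk' (L k) x = QuotientGroup.mk' (L k) (e (3 ^ k)) ^ d := by
  obtain ⟨d, hd, r, hr, rfl⟩ := split hk hx
  exact ⟨d, hd, by rw [map_mul, map_pow, show QuotientGroup.mk' (L k) r = 1 from (QuotientGroup.eq_one_iff r).2 hr,
    mul_one]⟩

theorem q_pow {k n : ℕ} (hk : k < 10) (h : n % 3 = 0) : QuotientGroup.mk' (L k) (e (3 ^ k)) ^ n = 1 := by
  obtain ⟨m, rfl⟩ := Nat.dvd_of_mod_eq_zero h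
  rw [pow_mul, ← map_pow, show QuotientGroup.mk' (L k) (e (3 ^ k) ^ 3) = 1 from
    (QuotientGroup.eq_one_iff _).2 (gen_cube k hk), one_pow]

theorem cyc_step {k : ℕ} (hk : k < 10) {a b : G} (ha : a ∈ L (k + 1)) (ha' : a ∉ L k) (hb : b ∈ L (k + 1)) :
    ∃ i < 3, b * a ^ i ∈ L k := by
  obtain ⟨d, hd, h⟩ := q_split hk ha
  obtain ⟨d', hd', h'⟩ := q_split hk hb
  have h0 : d ≠ 0 := by
    rintro rfl
    exact ha' ((QuotientGroup.eq_one_iff a).1 (h.trans (pow_zero _)))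
  obtain ⟨i, hi, h1⟩ := (by decide : ∀ d < 3, ∀ d' < 3, d ≠ 0 → ∃ i < 3, (d' + d * i) % 3 = 0) d hd d' hd' h0
  refine ⟨i, hi, (QuotientGroup.eq_one_iff _).1 ?_⟩
  rw [← QuotientGroup.mk'_apply, map_mul, map_pow, h, h', ← pow_mul, ← pow_add, q_pow hk h1]

theorem L_succ_le {k : ℕ} (hk : k < 10) {H : Subgroup G} (hH : L k ≤ H) {a : G} (haH : a ∈ H) (ha : a ∈ L (k + 1))
    (ha' : a ∉ L k) : L (k + 1) ≤ H := fun b hb => by
  obtain ⟨i, -, h⟩ := cyc_step hk ha ha' hb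
  exact (mul_mem_cancel_right (pow_mem haH i)).1 (hH h)

theorem card_L {k : ℕ} (hk : k ≤ 10) : Nat.card (L k) = 3 ^ k := by
  rw [(ech_L hk).card]; congr 1; revert k; decide

theorem Ech.inf_L {P : Subgroup G} {E : List ℕ} (h : Ech P E) (k : ℕ) : Ech (P ⊓ L k) (E.take k) := fun j hj => by
  by_cases hjk : j < k
  · rw [show (E.take k).getD j 0 = E.getD j 0 by simp [List.getD_eq_getElem?_getD, hjk]]
    rcases h j hj with ⟨h1, h2⟩ | ⟨h1, h2, h3⟩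
    · exact Or.inl ⟨h1, fun x hx => h2 x hx.1⟩
    · have h5 : 3 ^ (j + 1) ≤ 3 ^ k := Nat.pow_le_pow_right (by norm_num) hjk
      rw [pow_succ] at h5
      exact Or.inr ⟨⟨h1, e_mem_L (by omega)⟩, h2, h3⟩
  · exact Or.inl ⟨by simp [List.getD_eq_getElem?_getD, hjk],
      fun x hx _ => L_mono (by omega) hx.2⟩

theorem Ech.miss {P : Subgroup G} {E : List ℕ} (h : Ech P E) {k : ℕ} (hk : k < 10) (h0 : E.getD k 0 = 0) :
    Miss P k := by
  rcases h k hk with ⟨-, h2⟩ | ⟨-, h2, -⟩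
  · exact h2
  · have : 0 < 3 ^ k := by positivity
    omega

theorem L2_rep : ∀ u ∈ L 2, u ∉ L 1 → ∃ i < 3, e 19683 ^ i * u * (e 19683 ^ i)⁻¹ = e 3 ∨
    e 19683 ^ i * u⁻¹ * (e 19683 ^ i)⁻¹ = e 3 := all_L (by decide +kernel)

theorem C_L2 {u : G} (hu : u ∈ L 2) (hu' : u ∉ L 1) : C u = L 9 := by
  ext x
  obtain ⟨i, -, h | h⟩ := L2_rep u hu hu'
  · rw [← mem_C_conj (c := e 19683 ^ i), h, C3, conj_L_iff]
  · rw [← C_inv, ← mem_C_conj (c := e 19683 ^ i), h, C3, conj_L_iff]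

theorem L9_comm {x u : G} (hx : x ∈ L 9) (hu : u ∈ L 2) : x * u = u * x := by
  by_cases h : u ∈ L 1
  · exact L1_comm h x
  · exact mem_C.1 (by rwa [C_L2 hu h])

/-- centralisers modulo `L k` -/
noncomputable def CM (k : ℕ) (g : G) : Subgroup G :=
  (centralizer {QuotientGroup.mk' (L k) g}).comap (QuotientGroup.mk' (L k))

theorem mem_CM {k : ℕ} {g x : G} : x ∈ CM k g ↔ x * g * x⁻¹ * g⁻¹ ∈ L k := by
  rw [CM, mem_comap, mem_centralizer_singleton_iff, ← QuotientGroup.eq_one_iff, ← QuotientGroup.mk'_apply, map_mul,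
    map_mul, map_mul, map_inv, map_inv, mul_inv_eq_one, mul_inv_eq_iff_eq_mul]

noncomputable instance (k : ℕ) (g x : G) : Decidable (x ∈ CM k g) := decidable_of_iff _ mem_CM.symm

theorem CM_symm {k : ℕ} {g x : G} (h : x ∈ CM k g) : g ∈ CM k x := by
  rw [CM, mem_comap, mem_centralizer_singleton_iff] at h ⊢
  exact h.symm

theorem L_le_CM {k : ℕ} (hk : k < 10) (g : G) : L (k + 1) ≤ CM k g := fun _ hx => CM_symm (mem_CM.2 (comm_L hk hx g))

/-- commutators of two subgroups given by generators -/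
theorem comm_of_gens {P Q : Subgroup G} {E E' : List ℕ} (h : Ech P E) (h' : Ech Q E') {k : ℕ}
    (hc : ∀ i < 10, ∀ j < 10, e (E.getD i 0) ∈ CM k (e (E'.getD j 0))) {a b : G} (ha : a ∈ P) (hb : b ∈ Q) :
    a * b * a⁻¹ * b⁻¹ ∈ L k :=
  mem_CM.1 (CM_symm (h'.le (fun j hj => CM_symm (h.le (fun i hi => hc i hi j hj) ha)) hb))

/-- the normaliser of `⟨z, g₇⟩` -/
noncomputable abbrev E1 : Subgroup G := CM 1 (e 9)

theorem L8_le_E1 : L 8 ≤ E1 := L_le (by norm_num) (by decide +kernel)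

theorem ech_E1 : Ech E1 [1, 3, 9, 27, 81, 243, 729, 2187, 0, 19683] := fun k hk => by
  by_cases h : k = 8
  · subst h
    exact Or.inl ⟨rfl, miss_hi ((L_mono (by norm_num)).trans L8_le_E1) (k := 3) (by norm_num) (by decide +kernel)⟩
  · exact Or.inr (by revert k; decide +kernel)

theorem E1_of {m u : G} (hu : u ∈ L 3) (hu' : u ∉ L 2) (h : m ∈ CM 1 u) : m ∈ E1 :=
  CM_symm (L_succ_le (k := 2) (by norm_num) (L_le_CM (by norm_num) m) (CM_symm h) hu hu' (by decide))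

/-- the elementary abelian subgroup `P₀` of order `3 ^ 5` -/
noncomputable abbrev P0 : Subgroup G := C (e 2187)

theorem ech_P0 : Ech P0 E0 := ech_rep (r := 2187) (by decide)

theorem orbA0 : ∀ u ∈ P0, u ∉ L 5 → ∀ l < 9, ∃ i < 9, e (9 * i) * u * (e (9 * i))⁻¹ * u⁻¹ = e l :=
  ech_P0.all (by decide +kernel)

theorem orbA {u l : G} (hu : u ∈ P0) (hu' : u ∉ L 5) (hl : l ∈ L 2) : ∃ a ∈ L 5, a * u * a⁻¹ * u⁻¹ = l := by
  obtain ⟨i, hi, h⟩ := orbA0 u hu hu' l.v hl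
  exact ⟨e (9 * i), e_mem_L (by omega), by rw [h, e_self]⟩

theorem P0_le : P0 ≤ L 9 := ech_P0.le (by decide)

theorem P0_comm {a b : G} (ha : a ∈ P0) (hb : b ∈ P0) : a * b = b * a := by
  have := comm_of_gens ech_P0 ech_P0 (k := 0) (by decide +kernel) ha hb
  rwa [L_zero, mem_bot, mul_inv_eq_one, mul_inv_eq_iff_eq_mul] at this

theorem L2_le_P0 : L 2 ≤ P0 := fun _ hx => mem_C.2 (L9_comm (by decide) hx).symm

/-! ### Maps -/

variable {T : Subgroup G} {F : FusionSystem T} {P Q R : Subgroup G} {f : G → G}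

theorem maps_gens (hf : Mor F P f) {E : List ℕ} (hQ : Ech Q E) (hQP : Q ≤ P) (h : ∀ k < 10, f (e (E.getD k 0)) ∈ R) :
    ∀ x ∈ Q, f x ∈ R := fun x hx => by
  obtain ⟨y, hy, e1⟩ := hQ.le (H := (R.comap hf.homOn.toHom).map P.subtype)
    (fun k hk => ⟨⟨_, hQP (hQ.mem hk)⟩, h k hk, rfl⟩) hx
  exact e1 ▸ hy

theorem maps_L (hf : Mor F P f) {k : ℕ} (hk : k ≤ 10) (hQP : L k ≤ P) (h : ∀ j < k, f (e (3 ^ j)) ∈ R) :
    ∀ x ∈ L k, f x ∈ R := fun x hx => by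
  obtain ⟨y, hy, e1⟩ := L_le (H := (R.comap hf.homOn.toHom).map P.subtype) hk (fun j hj =>
    ⟨⟨_, hQP (e_mem_L (Nat.pow_lt_pow_right (by norm_num) hj))⟩, h j hj, rfl⟩) hx
  exact e1 ▸ hy

theorem back (hf : Mor F P f) (hR : R ≤ P) (h : ∀ x ∈ R, f x ∈ R) {r : G} (hr : r ∈ P) (hfr : f r ∈ R) : r ∈ R :=
  hf.mem_of_mem_img hR hr (by rwa [hf.img_eq_self hR h])

theorem map_ne_one (hf : Mor F P f) {x : G} (hx : x ∈ P) (h : x ≠ 1) : f x ≠ 1 := fun e1 =>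
  h (hf.injOn hx (one_mem _) (e1.trans hf.homOn.map_one.symm))

theorem map_comm (hf : Mor F P f) {x y : G} (hx : x ∈ P) (hy : y ∈ P) : f x * f y = f y * f x ↔ x * y = y * x := by
  rw [← hf.homOn.map_mul hx hy, ← hf.homOn.map_mul hy hx]
  exact ⟨fun h => hf.injOn (mul_mem hx hy) (mul_mem hy hx) h, fun h => by rw [h]⟩

theorem map_lk (hf : Mor F P f) {x y : G} (hx : x ∈ P) (hy : y ∈ P) :
    f (x * y * x⁻¹ * y⁻¹) = f x * f y * (f x)⁻¹ * (f y)⁻¹ := hf.homOn.map_commutator hx hy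

theorem map_cube (hf : Mor F P f) {x : G} (hx : x ∈ P) (h : x ^ 3 = 1) : f x ^ 3 = 1 := by
  rw [← hf.homOn.map_pow hx, h, hf.homOn.map_one]

theorem card_le_cz (hf : Mor F P f) (hQ : Q ≤ P) {u : G} (hu : u ∈ P) (h : Q ≤ C u) : Nat.card Q ≤ cz (f u) :=
  (hf.mono hQ).card_le (Q := C (f u)) fun _ hx => mem_C.2 ((map_comm hf (hQ hx) hu).2 (mem_C.1 (h hx)))

theorem not_L1 (hf : Mor F P f) (hP : L 1 ≤ P) {r : G} (hr : r ∈ P) (hr' : r ∉ L 1) (h : f r ∈ L 1) :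
    f (e 1) ∉ L 1 := fun h1 =>
  hr' (back hf hP (maps_L hf (by norm_num) hP fun j hj => by rwa [show j = 0 by omega]) hr h)

/-- elements of `L 2` go to `L 2` under maps defined on `L 9` -/
theorem maps_L2 (hf : Mor F (L 9) f) {x : G} (hx : x ∈ L 2) : f x ∈ L 2 := by
  have h9 : x ∈ L 9 := L_mono (by norm_num) hx
  refine (cz_L (map_cube hf h9 (A_cube x (L_mono (by norm_num) hx)))).2.1.2 ?_
  rw [← card_L (by norm_num)]
  exact card_le_cz hf le_rfl h9 fun y hy => mem_C.2 (L9_comm hy hx)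

theorem maps_L9 (hf : Mor F (L 9) f) (h : f (e 1) ∉ L 1) {x : G} (hx : x ∈ L 9) : f x ∈ L 9 := by
  rw [← C_L2 (maps_L2 hf (x := e 1) (by decide)) h, mem_C, map_comm hf hx (by decide)]
  exact L1_comm (by decide) x

/-! ### Elements fused into the centre -/

/-- `u ≠ 1` is fused into the centre -/
def X (F : FusionSystem (⊤ : Subgroup G)) (u : G) : Prop := u ≠ 1 ∧ ∃ P f, Mor F P f ∧ u ∈ P ∧ f u ∈ L 1

variable {F : FusionSystem (⊤ : Subgroup G)} {x u : G}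

theorem X.of_map (hf : Mor F P f) (hx : x ∈ P) (h : X F (f x)) : X F x := by
  obtain ⟨h1, Q, g, hg, h2, h3⟩ := h
  refine ⟨fun e1 => h1 (by rw [e1, hf.homOn.map_one]), zpowers x, fun y => g (f y),
    (hf.mono (zpowers_le_of_mem hx)).comp hg ?_, mem_zpowers x, h3⟩
  rintro _ ⟨n, rfl⟩
  show f (x ^ n) ∈ Q
  rw [hf.homOn.map_zpow hx]
  exact zpow_mem h2 n

theorem X.map (hf : Mor F P f) (hx : x ∈ P) (h : X F x) : X F (f x) := by
  obtain ⟨g, hg, h1, -, -⟩ := hf.exists_inv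
  exact X.of_map hg (mem_img_of_mem f hx) (by rwa [h1 x hx])

theorem X.inv (h : X F x) : X F x⁻¹ := by
  obtain ⟨h1, Q, g, hg, h2, h3⟩ := h
  exact ⟨inv_ne_one.2 h1, Q, g, hg, inv_mem h2, by rw [hg.homOn.map_inv h2]; exact inv_mem h3⟩

theorem X.conj (h : X F x) (c : G) : X F (c * x * c⁻¹) :=
  X.map (f := fun y => c * y * c⁻¹) (mor_conj F le_rfl (mem_top c)) (mem_top x) h

theorem X.of_conj {c : G} (h : X F (c * x * c⁻¹)) : X F x := X.of_map (mor_conj F le_rfl (mem_top c)) (mem_top x) h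

theorem X_L1 (hx : x ∈ L 1) (h : x ≠ 1) : X F x := ⟨h, ⊤, _, mor_id F le_rfl, mem_top x, hx⟩

theorem X.cube (h : X F x) : x ^ 3 = 1 := by
  obtain ⟨-, Q, g, hg, h2, h3⟩ := h
  refine hg.injOn (pow_mem h2 3) (one_mem _) ?_
  rw [hg.homOn.map_pow h2, hg.homOn.map_one, A_cube _ (L_mono (by norm_num) h3)]

theorem X.rep (h : X F x) : ∃ r ∈ RP, X F (e r) ∧ ∀ k, x ∈ L k ↔ e r ∈ L k := by
  obtain ⟨c, r, hr, h1 | h1⟩ := cls h.cube
  · exact ⟨r, hr, h1 ▸ h.conj c, fun k => by rw [← h1, conj_L_iff]⟩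
  · exact ⟨r, hr, h1 ▸ h.inv.conj c, fun k => by rw [← h1, conj_L_iff, inv_mem_iff]⟩

theorem fn_normal (F : FusionSystem (⊤ : Subgroup G)) (P : Subgroup G) [P.Normal] : F.IsFullyNormalized P :=
  isFullyNormalized_of_normalizerIn_eq F le_top (by rw [normalizer_eq_top])

theorem X.ext (hF : F.IsSaturated 3) (h : X F u) : ∃ φ, Mor F (C u) φ ∧ φ u ∈ L 1 := by
  have := Fact.mk Nat.prime_three
  obtain ⟨-, Q, g, hg, h2, h3⟩ := h
  have h4 := hg.mono (zpowers_le_of_mem h2)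
  have h5 : (img g (zpowers u)).Normal := ⟨fun y hy c => by
    rw [hg.homOn.img_zpowers h2] at hy ⊢
    rwa [L1_conj (zpowers_le_of_mem h3 hy)]⟩
  obtain ⟨k, hk, e1⟩ := h4.extend_centralizerIn (receptive_of_fullyNormalized pT hF (fn_normal F _))
  refine ⟨k, hk.mono fun y hy => mem_sup_right ⟨mem_top y, ?_⟩, by rwa [e1 u (mem_zpowers u)]⟩
  rintro _ ⟨n, rfl⟩
  exact ((Commute.zpow_right (mem_C.1 hy) n).eq).symm

theorem self_C (u : G) : u ∈ C u := mem_C.2 rfl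

theorem L1_le_C (u : G) : L 1 ≤ C u := fun _ hx => mem_C.2 (L1_comm hx u).symm

/-- the image of a central element may be assumed to be a representative -/
theorem norm_target (hf : Mor F P f) {l : G} (hl : l ∈ P) (hc : P ≤ C l) (hX : X F l) :
    ∃ g, ∃ r ∈ RP, Mor F P g ∧ (∀ x ∈ P, g x ∈ C (e r)) ∧ (∀ x k, g x ∈ L k ↔ f x ∈ L k) ∧ X F (e r) ∧
      (g l = e r ∨ (g l)⁻¹ = e r) ∧ (∀ k, e r ∈ L k ↔ f l ∈ L k) ∧ Nat.card P ≤ 3 ^ kk r ∧
      ∃ c : G, ∀ x, g x = c * f x * c⁻¹ := by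
  have h0 := hX.map hf hl
  obtain ⟨c, r, hr, h1⟩ := cls h0.cube
  have hg := hf.comp (mor_conj F le_rfl (mem_top c)) fun _ _ => mem_top _
  have h2 : ∀ x ∈ P, c * f x * c⁻¹ ∈ C (e r) := fun x hx => by
    have h3 : f x ∈ C (f l) := mem_C.2 ((map_comm hf hx hl).2 (mem_C.1 (hc hx)))
    rcases h1 with h1 | h1
    · rwa [← h1, mem_C_conj]
    · rwa [← h1, mem_C_conj, C_inv]
  refine ⟨_, r, hr, hg, h2, fun x k => conj_L_iff, ?_, ?_, fun k => ?_, ?_, c, fun _ => rfl⟩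
  · rcases h1 with h1 | h1
    · exact h1 ▸ h0.conj c
    · exact h1 ▸ h0.inv.conj c
  · exact h1.imp_right fun h1 => by rw [← h1]; group
  · rcases h1 with h1 | h1
    · rw [← h1, conj_L_iff]
    · rw [← h1, conj_L_iff, inv_mem_iff]
  · rw [← cz_rep hr]
    exact hg.card_le h2

/-- the hypothesis `X ∩ L d ⊆ L n` -/
def XL (F : FusionSystem (⊤ : Subgroup G)) (d n : ℕ) : Prop := ∀ x ∈ L d, X F x → x ∈ L n

theorem ylem {d n : ℕ} (h1 : 1 ≤ n) (hnd : n ≤ d) (hN : ∀ x ∈ L n, x ≠ 1 → X F x) (hD : XL F d n) (hf : Mor F P f)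
    {r y : G} (hr : r ∈ P) (hfr : f r ∈ L 1) (hy : y ∈ P) (hyd : y ∈ L d) (hyn : y ∉ L n) (hX : X F (r * y))
    (hfy : f y ∈ L d) : False := by
  have h2 := hX.map hf (mul_mem hr hy)
  rw [hf.homOn.map_mul hr hy] at h2
  have h3 := (mul_mem_cancel_left (L_mono h1 hfr)).1 (hD _ (mul_mem (L_mono (h1.trans hnd) hfr) hfy) h2)
  exact hyn (hD y hyd (X.of_map hf hy (hN _ h3 (map_ne_one hf hy fun e1 => hyn (e1 ▸ one_mem _)))))

theorem toP0 {n : ℕ} (h1 : 1 ≤ n) (hnd : n ≤ 7) (hN : ∀ x ∈ L n, x ≠ 1 → X F x) (hD : XL F 7 n) (hf : Mor F P f)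
    (hP : ∀ x ∈ P, f x ∈ P0) {r y : G} (hr : r ∈ P) (hfr : f r ∈ L 1) (hy : y ∈ P) (hyd : y ∈ L 7) (hyn : y ∉ L n)
    (hX : X F (r * y)) : False := by
  by_cases h : f y ∈ L 5
  · exact ylem h1 hnd hN hD hf hr hfr hy hyd hyn hX (L_mono (by norm_num) h)
  · obtain ⟨a, -, h2⟩ := orbA (hP y hy) h (L_mono (by norm_num) hfr)
    have h3 := hX.map hf (mul_mem hr hy)
    rw [hf.homOn.map_mul hr hy, ← h2, inv_mul_cancel_right] at h3
    exact hyn (hD y hyd (X.of_map hf hy h3.of_conj))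

theorem exists_out {n : ℕ} (h1 : 1 ≤ n) (hf : Mor F P f) (hP : L n ≤ P) {r : G} (hr : r ∈ P) (hr' : r ∉ L n)
    (hfr : f r ∈ L 1) : ∃ l ∈ L n, l ≠ 1 ∧ f l ∉ L n := by
  by_contra! h
  refine hr' (back hf hP (fun x hx => ?_) hr (L_mono h1 hfr))
  by_cases h0 : x = 1
  · rw [h0, hf.homOn.map_one]; exact one_mem _
  · exact h x hx h0

theorem not_XL10 (hF : F.IsSaturated 3) (hc : F.core = ⊥) {n : ℕ} (h1 : 1 ≤ n) (h5 : n ≤ 5)
    (hN : ∀ x ∈ L n, x ≠ 1 → X F x) : ¬ XL F 10 n := fun h => by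
  have := Fact.mk Nat.prime_three
  have h2 : F.StronglyClosed (L n) := stronglyClosed_iff.2 ⟨le_top, fun P f hf x hx hn => by
    by_cases h0 : x = 1
    · rw [h0, hf.homOn.map_one]; exact one_mem _
    · exact h _ (f x).lt ((hN x hn h0).map hf hx)⟩
  have h3 := IsNormal.le_core (isNormal_of_stronglyClosed_comm pT hF h2 fun x hx y hy =>
    A_comm (L_mono h5 hx) (L_mono h5 hy))
  rw [hc] at h3
  exact absurd (mem_bot.1 (h3 (L_mono h1 (show e 1 ∈ L 1 by decide)))) (by decide)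

end CL.T3
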