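/-
Saturated fusion systems on the group `CL.T3.G`: which classes can be fused into the centre.
-/
import Cfsg.Agent.Fus.T3X

set_option autoImplicit false
set_option Elab.async false

namespace CL.T3

open Subgroup Cfsg Cfsg.FusionSystem CL.Fus

attribute [local irreducible] mul inv

variable {F : FusionSystem (⊤ : Subgroup G)} {n : ℕ}

theorem le_C_z (P : Subgroup G) : P ≤ C (e 1) := fun x _ => mem_C.2 (L1_comm (by decide) x)

theorem kk_le {r r' : ℕ} (hr : r ∈ RP) (h : Nat.card (C (e r)) ≤ 3 ^ kk r') : kk r ≤ kk r' := by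
  rw [← cz, cz_rep hr] at h
  exact (Nat.pow_le_pow_iff_right (by norm_num)).1 h

/-! ### Outside `L 9` -/

theorem f10 : ∀ r ∈ RP, e r ∉ L 9 → e 9 ∈ C (e r) ∧
    ∀ i < 3, ∃ c ∈ [60, 54, 57], e c * e r * (e c)⁻¹ = e r * (e 9 * e 1 ^ i) := by decide +kernel

theorem step10 (hF : F.IsSaturated 3) (h1 : 1 ≤ n) (h2 : n ≤ 2) (hN : ∀ x ∈ L n, x ≠ 1 → X F x) (hD : XL F 9 n) :
    XL F 10 n := fun x _ hx => by
  by_contra hxn
  obtain ⟨r, hr, hX, hL⟩ := hx.rep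
  have h9 : e r ∉ L 9 := fun h => hxn ((hL n).2 (hD _ h hX))
  obtain ⟨h3, h4⟩ := f10 r hr h9
  obtain ⟨φ, hφ, hφr⟩ := hX.ext hF
  have hz : e 1 ∈ C (e r) := L1_le_C _ (by decide)
  have h5 := not_L1 hφ (L1_le_C _) (self_C _) (fun h => h9 (L_mono (by norm_num) h)) hφr
  obtain ⟨i, hi, h⟩ : ∃ i < 3, φ (e 9) * φ (e 1) ^ i ∈ L 9 := by
    by_cases h : φ (e 1) ∈ L 9
    · refine ⟨0, by norm_num, ?_⟩
      rw [pow_zero, mul_one, ← C_L2 (L_mono h2 (hD _ h ((X_L1 (by decide) (by decide)).map hφ hz))) h5, mem_C,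
        map_comm hφ h3 hz]
      exact L1_comm (by decide) _
    · exact cyc_step (k := 9) (by norm_num) (G.lt _) h (G.lt _)
  obtain ⟨c, -, h6⟩ := h4 i hi
  obtain ⟨h7, h8⟩ := (by decide +kernel : ∀ i < 3, e 9 * e 1 ^ i ∈ L 9 ∧ e 9 * e 1 ^ i ∉ L 2) i hi
  refine ylem h1 (by omega) hN hD hφ (self_C _) hφr (mul_mem h3 (pow_mem hz i)) h7 (fun h => h8 (L_mono h2 h))
    (h6 ▸ hX.conj _) ?_
  rwa [hφ.homOn.map_mul h3 (pow_mem hz i), hφ.homOn.map_pow hz]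

/-! ### Between `L 5` and `L 7` -/

theorem f7 : ∀ r ∈ RP, e r ∈ L 7 → e r ∉ L 5 → kk r = 6 ∧ e 27 ∈ C (e r) ∧ e 648 * e r * (e 648)⁻¹ = e r * e 14 ∧
    ∃ h ∈ [22113, 22194, 22275], e h ∈ C (e r) ∧ e h * e 27 * (e h)⁻¹ * (e 27)⁻¹ = e 14 := by decide +kernel

theorem f7' : ∀ r ∈ RP, 6 ≤ kk r → e r ∉ L 1 → (e r ∈ L 5 → e r ∈ L 2) →
    ∀ i < 10, ∀ j < 10, e ((EE r).getD i 0) ∈ CM 5 (e ((EE r).getD j 0)) := by decide +kernel

theorem step7 (hF : F.IsSaturated 3) (h1 : 1 ≤ n) (h2 : n ≤ 2) (hN : ∀ x ∈ L n, x ≠ 1 → X F x) (hD : XL F 5 n) :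
    XL F 7 n := fun x hx7 hx => by
  by_contra hxn
  obtain ⟨r, hr, hX, hL⟩ := hx.rep
  have h5 : e r ∉ L 5 := fun h => hxn ((hL n).2 (hD _ h hX))
  obtain ⟨h3, h4, h6, h, -, h7, h8⟩ := f7 r hr ((hL 7).1 hx7) h5
  obtain ⟨φ, hφ, hφr⟩ := hX.ext hF
  have h9 := not_L1 hφ (L1_le_C _) (self_C _) (fun h => h5 (L_mono (by norm_num) h)) hφr
  obtain ⟨g, r', hr', hg, a1, a2, a3, -, a4, a5, -⟩ := norm_target hφ (L1_le_C _ (by decide)) (le_C_z _)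
    (X_L1 (by decide) (by decide))
  have h10 := comm_of_gens (ech_rep hr') (ech_rep hr') (f7' r' hr' (h3 ▸ kk_le hr a5) (by rwa [a4])
    fun h => L_mono h2 (hD _ h a3)) (a1 _ h7) (a1 _ h4)
  rw [← map_lk hg h7 h4, h8] at h10
  exact ylem h1 (by omega) hN hD hg (self_C _) ((a2 _ _).2 hφr)
    (h8 ▸ mul_mem (mul_mem (mul_mem h7 h4) (inv_mem h7)) (inv_mem h4)) (by decide)
    (fun h => absurd (L_mono h2 h) (by decide)) (h6 ▸ hX.conj _) h10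

/-! ### Between `L 7` and `L 9` -/

theorem f9 : ∀ r ∈ RP, 5 ≤ kk r → e r ∉ L 7 → e r ∈ L 9 ∧ (EE r = E0 ∨ EE r = Ef ∧ r ∈ [6561, 6562, 6563]) := by
  decide +kernel

theorem f9' : ∀ r ∈ RP, e r ∈ L 9 → e r ∉ L 7 → kk r = 5 ∧ ∀ k < 10, e ((EE r).getD k 0) ∈ L 9 := by decide +kernel

theorem tgt5 (hD : XL F 7 n) {P : Subgroup G} (hP : Nat.card P = 3 ^ 5) {φ : G → G} (hφ : Mor F P φ) {l : G}
    (hl : l ∈ P) (hc : P ≤ C l) (hX : X F l) (h : φ l ∉ L n) :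
    ∃ g, ∃ r ∈ RP, Mor F P g ∧ (∀ x ∈ P, g x ∈ C (e r)) ∧ (∀ x k, g x ∈ L k ↔ φ x ∈ L k) ∧ X F (e r) ∧
      (EE r = E0 ∨ EE r = Ef ∧ r ∈ [6561, 6562, 6563]) ∧ ∃ c : G, ∀ x, g x = c * φ x * c⁻¹ := by
  obtain ⟨g, r, hr, hg, a1, a2, a3, -, a4, a5, a6⟩ := norm_target hφ hl hc hX
  rw [hP, Nat.pow_le_pow_iff_right (by norm_num)] at a5
  exact ⟨g, r, hr, hg, a1, a2, a3, (f9 r hr a5 fun h7 => h ((a4 _).1 (hD _ h7 a3))).2, a6⟩

theorem tgt5' (hF : F.IsSaturated 3) (h1 : 1 ≤ n) (h2 : n ≤ 2) (hN : ∀ x ∈ L n, x ≠ 1 → X F x) (hD : XL F 7 n)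
    {r : ℕ} (hr : r ∈ RP) (h9 : e r ∈ L 9) (h7 : e r ∉ L 7) (hX : X F (e r)) :
    ∃ g, ∃ r' ∈ RP, Mor F (C (e r)) g ∧ (∀ x ∈ C (e r), g x ∈ C (e r')) ∧ g (e r) ∈ L 1 ∧ X F (e r') ∧
      (EE r' = E0 ∨ EE r' = Ef ∧ r' ∈ [6561, 6562, 6563]) := by
  obtain ⟨φ, hφ, hφr⟩ := hX.ext hF
  obtain ⟨h3, h4⟩ := f9' r hr h9 h7
  have h5 : L n ≤ C (e r) := fun x hx => mem_C.2 (L9_comm h9 (L_mono h2 hx)).symm
  obtain ⟨l, hl, h6, h8⟩ := exists_out h1 hφ h5 (self_C _) (fun h => h7 (L_mono (by omega) h)) hφr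
  obtain ⟨g, r', hr', hg, a1, a2, a3, a4, -⟩ := tgt5 hD (by rw [← h3]; exact cz_rep hr) hφ (h5 hl)
    (fun x hx => mem_C.2 (L9_comm ((ech_rep hr).le h4 hx) (L_mono h2 hl))) (hN l hl h6) h8
  exact ⟨g, r', hr', hg, a1, (a2 _ _).2 hφr, a3, a4⟩

theorem C_E0 {r : ℕ} (hr : r ∈ RP) (h : EE r = E0) : C (e r) = P0 := (h ▸ ech_rep hr).eq ech_P0

/-- conjugates of the elements of type `f` -/
def YL : List (ℕ × ℕ × ℕ × ℕ × ℕ) := [(0, 1, 0, 1, 243), (0, 1, 1, 1, 252), (0, 1, 2, 1, 261), (0, 2, 0, 1, 486),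
  (1, 0, 0, 1, 5346), (1, 1, 0, 0, 5598), (2, 1, 0, 1, 3654)]

/-- the element with given coordinates -/
noncomputable def yy (t : ℕ × ℕ × ℕ × ℕ × ℕ) : G := e 81 ^ t.1 * e 45 ^ t.2.1 * e 4 ^ t.2.2.1 * e 1 ^ t.2.2.2.1

theorem ff : ∀ r ∈ [6561, 6562, 6563], r ∈ RP ∧ e r ∈ L 9 ∧ e r ∉ L 7 ∧ (∀ a ∈ [81, 45, 4, 1], e a ∈ C (e r)) ∧
    ∀ t ∈ YL, yy t ∈ L 7 ∧ yy t ∉ L 2 ∧ e t.2.2.2.2 * e r * (e t.2.2.2.2)⁻¹ = e r * yy t := by decide +kernel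

theorem ff' : ∀ a < 3, ∀ b < 3, ∀ c < 3, ∀ d < 3, ∃ t ∈ YL,
    (a * t.1 + b * t.2.1 + c * t.2.2.1 + d * t.2.2.2.1) % 3 = 0 := by decide

theorem no_f (hF : F.IsSaturated 3) (h1 : 1 ≤ n) (h2 : n ≤ 2) (hN : ∀ x ∈ L n, x ≠ 1 → X F x) (hD : XL F 7 n)
    {r : ℕ} (hr : r ∈ [6561, 6562, 6563]) : ¬ X F (e r) := fun hX => by
  obtain ⟨b1, b2, b3, b4, b5⟩ := ff r hr
  obtain ⟨g, r', hr', hg, a1, a2, -, a3⟩ := tgt5' hF h1 h2 hN hD b1 b2 b3 hX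
  have c1 := b4 81 (by decide)
  have c2 := b4 45 (by decide)
  have c3 := b4 4 (by decide)
  have c4 := b4 1 (by decide)
  have hy : ∀ t, yy t ∈ C (e r) := fun t =>
    mul_mem (mul_mem (mul_mem (pow_mem c1 _) (pow_mem c2 _)) (pow_mem c3 _)) (pow_mem c4 _)
  rcases a3 with a3 | ⟨a3, a4⟩
  · obtain ⟨b6, b7, b8⟩ := b5 (0, 1, 0, 1, 243) (by decide)
    exact toP0 h1 (by omega) hN hD hg (C_E0 hr' a3 ▸ a1) (self_C _) a2 (hy _) b6 (fun h => b7 (L_mono h2 h))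
      (b8 ▸ hX.conj _)
  · have a5 := a3 ▸ ech_rep hr'
    have a6 : ∀ x ∈ C (e r), g x ∈ L 9 := fun x hx => a5.le (by decide) (a1 x hx)
    obtain ⟨d1, e1, k1⟩ := q_split (k := 8) (by norm_num) (a6 _ c1)
    obtain ⟨d2, e2, k2⟩ := q_split (k := 8) (by norm_num) (a6 _ c2)
    obtain ⟨d3, e3, k3⟩ := q_split (k := 8) (by norm_num) (a6 _ c3)
    obtain ⟨d4, e4, k4⟩ := q_split (k := 8) (by norm_num) (a6 _ c4)
    obtain ⟨t, ht, h⟩ := ff' d1 e1 d2 e2 d3 e3 d4 e4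
    obtain ⟨b6, b7, b8⟩ := b5 t ht
    refine ylem h1 (by omega) hN hD hg (self_C _) a2 (hy t) b6 (fun h => b7 (L_mono h2 h)) (b8 ▸ hX.conj _)
      (a5.miss (k := 7) (by norm_num) rfl _ (a1 _ (hy t)) ((QuotientGroup.eq_one_iff _).1 ?_))
    have m := hg.homOn
    rw [yy, m.map_mul (mul_mem (mul_mem (pow_mem c1 _) (pow_mem c2 _)) (pow_mem c3 _)) (pow_mem c4 _),
      m.map_mul (mul_mem (pow_mem c1 _) (pow_mem c2 _)) (pow_mem c3 _), m.map_mul (pow_mem c1 _) (pow_mem c2 _),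
      m.map_pow c1, m.map_pow c2, m.map_pow c3, m.map_pow c4, ← QuotientGroup.mk'_apply]
    simp only [map_mul, map_pow, k1, k2, k3, k4, ← pow_mul, ← pow_add]
    exact q_pow (by norm_num) h

/-- the second configuration -/
def Case2 (F : FusionSystem (⊤ : Subgroup G)) : Prop :=
  ∃ α, Mor F P0 α ∧ (∀ x ∈ P0, α x ∈ P0) ∧ ∃ r ∈ P0, r ∉ L 5 ∧ α r ∈ L 1 ∧ X F r

theorem step9 (hF : F.IsSaturated 3) (h1 : 1 ≤ n) (h2 : n ≤ 2) (hN : ∀ x ∈ L n, x ≠ 1 → X F x) (hD : XL F 7 n) :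
    XL F 9 n ∨ Case2 F := by
  by_contra! hc
  refine hc.1 fun x hx9 hx => ?_
  by_contra hxn
  obtain ⟨r, hr, hX, hL⟩ := hx.rep
  have h7 : e r ∉ L 7 := fun h => hxn ((hL n).2 (hD _ h hX))
  have h9 := (hL 9).1 hx9
  obtain ⟨g, r', hr', hg, a1, a2, a3, a4 | a4⟩ := tgt5' hF h1 h2 hN hD hr h9 h7 hX
  · rcases (f9 r hr (f9' r hr h9 h7).1.ge h7).2 with a5 | a5
    · have a6 := self_C (e r)
      rw [C_E0 hr a5] at hg a1 a6
      rw [C_E0 hr' a4] at a1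
      exact hc.2 ⟨g, hg, a1, e r, a6, fun h => h7 (L_mono (by norm_num) h), a2, hX⟩
    · exact no_f hF h1 h2 hN hD a5.2 hX
  · exact no_f hF h1 h2 hN hD a4.2 a3

theorem not_case2 (hD : XL F 7 1) : ¬ Case2 F := by
  rintro ⟨α, h1, h2, r, h3, h4, h5, h6⟩
  obtain ⟨a, -, h7⟩ := orbA h3 h4 (l := e 3) (by decide)
  refine toP0 le_rfl (by norm_num) (fun x => X_L1) hD h1 h2 h3 h5 (L2_le_P0 (show e 3 ∈ L 2 by decide)) (by decide)
    (by decide) ?_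
  rw [L9_comm (P0_le h3) (by decide), ← h7, inv_mul_cancel_right]
  exact h6.conj a

/-! ### Between `L 3` and `L 5` -/

theorem f5 : ∀ r ∈ RP, 7 ≤ kk r → e r ∉ L 3 → r ∈ [27, 81, 90, 99] := by decide +kernel

theorem f5' : ∀ r ∈ RP, e r ∈ L 5 → e r ∉ L 3 → r ∈ [27, 81, 90, 99] := by decide +kernel

theorem f5a : ∀ r ∈ [27, 81, 90, 99], r ∈ RP ∧ kk r = 7 ∧ e r ∈ L 5 ∧ e r ∉ L 3 ∧
    (∀ k < 10, e ((EE r).getD k 0) ∈ L 9) ∧
    (r = 99 ∨ ∃ x ∈ [9234, 2916, 5103], e x ∈ C (e r) ∧ e x ^ 3 ∉ L 1) := by decide +kernel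

theorem f5b : ∀ r ∈ [27, 81, 90, 99], T3.go (EE r) (fun n => decide (e n ^ 3 ∈ L 2)) 10 0 = true := by decide +kernel

theorem cube90 : ∀ x ∈ C (e 90), x ^ 3 = 1 ∨ x ^ 3 = e 3 ∨ x ^ 3 = (e 3)⁻¹ :=
  (ech_rep (by decide)).all (by decide +kernel)

theorem cube99 : ∀ x ∈ C (e 99), x ^ 3 = 1 := (ech_rep (by decide)).all (by decide +kernel)

theorem f5c : ∀ r ∈ [27, 81], ∀ j < 2, ∃ a ∈ [0, 10692, 9234], ∃ b ∈ [9234, 18468, 9477, 2916],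
    e a ∈ C (e r) ∧ e b ∈ C (e r) ∧ e (3 ^ j) = e a ^ 3 * e b ^ 3 := by decide +kernel

theorem onto5 {r r' : ℕ} (hr : r ∈ [27, 81, 90, 99]) (hr' : r' ∈ [27, 81, 90, 99]) {g : G → G}
    (hg : Mor F (C (e r)) g) (h : ∀ x ∈ C (e r), g x ∈ C (e r')) {y : G} (hy : y ∈ C (e r')) :
    ∃ x ∈ C (e r), g x = y := by
  obtain ⟨a1, a2, -⟩ := f5a r hr
  obtain ⟨a3, a4, -⟩ := f5a r' hr'
  rwa [← hg.img_eq_of_card_le h (by rw [← cz, ← cz, cz_rep a1, cz_rep a3, a2, a4]), hg.mem_img] at hy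

theorem no90 (hF : F.IsSaturated 3) (hN : ∀ x ∈ L 2, x ≠ 1 → X F x) (hD : XL F 3 2) : ¬ X F (e 90) := fun hX => by
  obtain ⟨θ, hθ, h1⟩ := (hN (e 3) (by decide) (by decide)).ext hF
  rw [C3] at hθ
  have h2 : C (e 90) ≤ L 9 := (ech_rep (by decide)).le (by decide)
  have h3 : θ (e 90) ∉ L 2 := fun h =>
    absurd (back hθ (L_mono (by norm_num)) (fun x => maps_L2 hθ) (by decide) h) (by decide)
  obtain ⟨g, r, hr, hg, a1, a2, a3, -, a4, a5, -⟩ := norm_target (hθ.mono h2) (self_C _) le_rfl hX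
  have a6 := f5 r hr (kk_le (by decide) a5) fun h => h3 ((a4 _).1 (hD _ h a3))
  have a7 : e 3 ∈ C (e 90) := by decide +kernel
  have a8 : g (e 3) ∈ L 1 := (a2 _ _).2 h1
  obtain ⟨-, -, -, -, -, rfl | ⟨y, -, b1, b2⟩⟩ := f5a r a6
  · have b1 : e 5103 ∈ C (e 90) := by decide +kernel
    refine map_ne_one hg a7 (by decide) ?_
    rw [← show e 5103 ^ 3 = e 3 by decide +kernel, hg.homOn.map_pow b1, cube99 _ (a1 _ b1)]
  · obtain ⟨x, hx, e1⟩ := onto5 (by decide) a6 hg a1 b1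
    refine b2 ?_
    rw [← e1, ← hg.homOn.map_pow hx]
    rcases cube90 x hx with h | h | h <;> rw [h]
    · rw [hg.homOn.map_one]; exact one_mem _
    · exact a8
    · rw [hg.homOn.map_inv a7]; exact inv_mem a8

theorem step5 (hF : F.IsSaturated 3) (h1 : 1 ≤ n) (h2 : n ≤ 2) (hN : ∀ x ∈ L n, x ≠ 1 → X F x) (hD : XL F 3 n) :
    XL F 5 n := fun x hx5 hx => by
  by_contra hxn
  obtain ⟨r, hr, hX, hL⟩ := hx.rep
  have hr4 := f5' r hr ((hL 5).1 hx5) fun h => hxn ((hL n).2 (hD _ h hX))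
  obtain ⟨-, b1, b2, b3, b4, -⟩ := f5a r hr4
  obtain ⟨φ, hφ, hφr⟩ := hX.ext hF
  have h5 : L 2 ≤ C (e r) := fun x hx => mem_C.2 (A_comm (L_mono (by norm_num) hx) b2)
  obtain ⟨l, hl, h6, h8⟩ := exists_out h1 hφ ((L_mono h2).trans h5) (self_C _) (fun h => b3 (L_mono (by omega) h)) hφr
  obtain ⟨g, r', hr', hg, a1, a2, a3, -, a4, a5, -⟩ := norm_target hφ (h5 (L_mono h2 hl))
    (fun x hx => mem_C.2 (L9_comm ((ech_rep hr).le b4 hx) (L_mono h2 hl))) (hN l hl h6)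
  have a6 := f5 r' hr' (b1 ▸ kk_le hr a5) fun h => h8 ((a4 _).1 (hD _ h a3))
  have a7 : ∀ x ∈ C (e r), g (x ^ 3) ∈ L 2 := fun x hx => by
    rw [hg.homOn.map_pow hx]
    exact (ech_rep hr').all (p := fun x => x ^ 3 ∈ L 2) (f5b r' a6) _ (a1 x hx)
  have a8 := (a2 _ _).2 hφr
  have a9 : ¬ ∀ j < 2, g (e (3 ^ j)) ∈ L 2 := fun h =>
    b3 (L_mono (by norm_num) (back hg h5 (maps_L hg (by norm_num) h5 h) (self_C _) (L_mono (by norm_num) a8)))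
  by_cases c1 : r ∈ [27, 81]
  · refine a9 fun j hj => ?_
    obtain ⟨a, -, b, -, d1, d2, d3⟩ := f5c r c1 j hj
    rw [d3, hg.homOn.map_mul (pow_mem d1 3) (pow_mem d2 3)]
    exact mul_mem (a7 _ d1) (a7 _ d2)
  obtain rfl | rfl : r = 90 ∨ r = 99 := by simp at hr4 c1; omega
  · obtain rfl | rfl : n = 1 ∨ n = 2 := by omega
    · refine ylem h1 (by omega) hN hD hg (self_C _) a8 (h5 (show e 3 ∈ L 2 by decide)) (by decide) (by decide)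
        ((show e 486 * e 90 * (e 486)⁻¹ = e 90 * e 3 by decide +kernel) ▸ hX.conj _) (L_mono (j := 2) (by norm_num) ?_)
      rw [← show e 5103 ^ 3 = e 3 by decide +kernel]
      exact a7 _ (by decide +kernel)
    · exact no90 hF hN hD hX
  · obtain ⟨-, -, -, -, -, rfl | ⟨y, -, d1, d2⟩⟩ := f5a r' a6
    · refine a9 fun j hj => ?_
      obtain ⟨a, -, d1, d2⟩ := (by decide +kernel : ∀ j < 2, ∃ a ∈ [18, 54], e a ∈ C (e 99) ∧
        e (3 ^ j) = e a * e 2187 * (e a)⁻¹ * (e 2187)⁻¹) j hj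
      have d3 : e 2187 ∈ C (e 99) := by decide +kernel
      rw [d2, map_lk hg d1 d3]
      exact comm_of_gens (ech_rep hr) (ech_rep hr) (by decide +kernel) (a1 _ d1) (a1 _ d3)
    · obtain ⟨x, hx, e1⟩ := onto5 hr4 a6 hg a1 d1
      rw [← e1, map_cube hg hx (cube99 x hx)] at d2
      exact d2 (one_mem _)

/-! ### Between `L 1` and `L 3` -/

theorem f3 : ∀ r ∈ RP, 8 ≤ kk r → e r ∉ L 2 → r = 9 := by decide +kernel

theorem f3' : ∀ r ∈ RP, e r ∈ L 3 → e r ∉ L 2 → r = 9 := by decide +kernel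

theorem f3a : ∀ u ∈ L 5, (∀ a ∈ [243, 729, 19683], e a * u * (e a)⁻¹ * u⁻¹ ∈ [1, e 9, (e 9)⁻¹]) →
    ∀ k < 10, e ((EE 9).getD k 0) ∈ C u := all_L (by decide +kernel)

theorem t8a {φ : G → G} (hφ : Mor F (C (e 9)) φ) : φ (e 1) ∈ L 2 := by
  by_contra h
  have hE := ech_rep (r := 9) (by decide)
  have hz : e 1 ∈ C (e 9) := L1_le_C _ (by decide)
  obtain ⟨g, r, hr, hg, a1, -, -, a2, a4, a5, -⟩ := norm_target hφ hz (le_C_z _) (X_L1 (by decide) (by decide))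
  obtain rfl := f3 r hr (kk_le (by decide) a5) (by rwa [a4])
  have h7 : L 7 ≤ C (e 9) := L_le (by norm_num) (by decide +kernel)
  have hy : e 3 ∈ C (e 9) := h7 (by decide)
  have h0 : e 19683 ∈ C (e 9) := by decide +kernel
  have h5 : g (e 3) ∈ L 5 := by
    refine (cz_L (map_cube hg hy (by decide +kernel))).2.2.2.1.2 ?_
    rw [← card_L (by norm_num)]
    exact card_le_cz hg h7 hy (C3 ▸ L_mono (by norm_num))
  have h6 : C (e 9) ≤ C (g (e 3)) := hE.le (f3a _ h5 fun a ha => by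
    obtain ⟨x, hx, e1⟩ := hg.mem_img.1 (show e a ∈ _ by
      rw [hg.img_eq_self le_rfl a1]; revert a; decide +kernel)
    rw [← e1, ← map_lk hg hx hy]
    rcases L1_cases _ (comm_L (k := 1) (by norm_num) (show e 3 ∈ L 2 by decide) x) with h | h | h <;> rw [h]
    · rw [hg.homOn.map_one]; simp
    · rcases a2 with a2 | a2 <;> simp [← a2]
    · rw [hg.homOn.map_inv hz]
      rcases a2 with a2 | a2 <;> simp [← a2])
  exact absurd ((map_comm hg h0 hy).1 (mem_C.1 (h6 (a1 _ h0)))) (by decide +kernel)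

/-- the first configuration -/
def Case1 (F : FusionSystem (⊤ : Subgroup G)) : Prop :=
  ∃ ψ, Mor F E1 ψ ∧ (∀ x ∈ E1, ψ x ∈ E1) ∧ ψ (e 3) ∉ L 2 ∧ ψ (e 3) ∈ L 3 ∧ ψ (e 1) ∈ L 1

theorem step3 (hF : F.IsSaturated 3) (hD : XL F 2 n) : XL F 3 n ∨ (2 ≤ n ∧ Case1 F) := by
  have := Fact.mk Nat.prime_three
  by_contra! hc
  refine hc.1 fun x hx3 hx => ?_
  by_contra hxn
  obtain ⟨r, hr, hX, hL⟩ := hx.rep
  obtain rfl := f3' r hr ((hL 3).1 hx3) fun h => hxn ((hL n).2 (hD _ h hX))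
  obtain ⟨φ, hφ, hφr⟩ := hX.ext hF
  have h1 := t8a hφ
  have h2 := not_L1 hφ (L1_le_C _) (self_C _) (by decide) hφr
  refine hc.2 (by
    by_contra h
    exact h2 (L_mono (by omega) (hD _ h1 ((X_L1 (by decide) (by decide)).map hφ (L1_le_C _ (by decide)))))) ?_
  have hU : Ech (C (e 19683) ⊓ L 3) [1, 0, 9] := (ech_rep (r := 19683) (by decide)).inf_L 3
  generalize hU' : C (e 19683) ⊓ L 3 = U at hU
  have hU1 : ∀ u, u ∈ U ↔ u ∈ C (e 19683) ∧ u ∈ L 3 := fun u => hU' ▸ Iff.rfl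
  have h3 : U ≤ C (e 9) := hU.le (by decide +kernel)
  have h4 : img φ U = L 2 := (hφ.mono h3).img_eq_of_card_le (maps_gens hφ hU h3 fun k hk => by
    interval_cases k
    · exact h1
    · exact hφ.homOn.map_one ▸ one_mem _
    · exact L_mono (by norm_num) hφr
    all_goals exact hφ.homOn.map_one ▸ one_mem _) (by rw [hU.card, card_L (by norm_num)]; decide)
  obtain ⟨ψ, hψ, h5⟩ := exists_mor_normalizerIn pT hF (fn_normal F (L 2)) (h4 ▸ hφ.isConj' h3)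
  have h6 : E1 ≤ normalizerIn ⊤ U := ech_E1.le fun k hk => ⟨mem_top _, mem_normalizer_fintype fun u hu =>
    (hU1 _).2 ⟨all_L (k := 3) (p := fun u => u ∈ C (e 19683) → ∀ k < 10,
      e ([1, 3, 9, 27, 81, 243, 729, 2187, 0, 19683].getD k 0) * u *
        (e ([1, 3, 9, 27, 81, 243, 729, 2187, 0, 19683].getD k 0))⁻¹ ∈ C (e 19683)) (by decide +kernel) u
        ((hU1 u).1 hu).2 ((hU1 u).1 hu).1 k hk, conj_L ((hU1 u).1 hu).2 _⟩⟩
  replace hψ := hψ.mono h6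
  have h7 : U ≤ E1 := fun u hu => L8_le_E1 (L_mono (by norm_num) ((hU1 u).1 hu).2)
  have h8 : ∀ u ∈ U, ψ u ∈ L 2 := fun u hu => h5 ▸ mem_img_of_mem ψ hu
  have hy : e 3 ∈ E1 := L8_le_E1 (by decide)
  have hz : e 1 ∈ E1 := L8_le_E1 (by decide)
  have b1 : ψ (e 3) ∉ L 2 := fun h => absurd ((hU1 _).1 (hψ.mem_of_mem_img h7 hy (h5 ▸ h))).1 (by decide +kernel)
  have b2 : ψ (e 3) ∈ L 3 := by
    refine (cz_L (map_cube hψ hy (by decide +kernel))).2.2.1.2 ?_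
    rw [← card_L (by norm_num)]
    exact card_le_cz hψ L8_le_E1 hy (C3 ▸ L_mono (by norm_num))
  have b3 : ψ (e 1) ∈ L 1 := by
    by_contra h
    have b4 : e 2187 ∈ E1 := L8_le_E1 (by decide)
    have b5 : ψ (e 2187) ∈ L 9 := by
      rw [← C_L2 (h8 _ ((hU1 _).2 (by decide +kernel))) h, mem_C, map_comm hψ b4 hz]
      exact L1_comm (by decide) _
    exact absurd ((map_comm hψ b4 (L8_le_E1 (by decide))).1 (L9_comm b5 (h8 (e 9) ((hU1 _).2 (by decide +kernel)))))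
      (by decide +kernel)
  refine ⟨ψ, hψ, fun x hx => E1_of b2 b1 (mem_CM.2 ?_), b1, b2, b3⟩
  rw [← map_lk hψ hx hy]
  exact maps_L hψ (k := 1) (by norm_num) ((L_mono (by norm_num)).trans L8_le_E1)
    (fun j hj => by rwa [show j = 0 by omega]) _ (comm_L (k := 1) (by norm_num) (by decide) x)

theorem step2 (hF : F.IsSaturated 3) (hc : F.core = ⊥) : ∀ x ∈ L 2, x ≠ 1 → X F x := by
  have h : ¬ XL F 2 1 := fun h2 => by
    have hN : ∀ x ∈ L 1, x ≠ 1 → X F x := fun x => X_L1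
    have h3 := (step3 hF h2).resolve_right fun h => absurd h.1 (by norm_num)
    have h7 := step7 hF le_rfl (by norm_num) hN (step5 hF le_rfl (by norm_num) hN h3)
    exact not_XL10 hF hc le_rfl (by norm_num) hN (step10 hF le_rfl (by norm_num) hN
      ((step9 hF le_rfl (by norm_num) hN h7).resolve_right (not_case2 h7)))
  have h3 : X F (e 3) := by
    simp only [XL, not_forall] at h
    obtain ⟨u, h1, h2, h3⟩ := h
    obtain ⟨i, -, h | h⟩ := L2_rep u h1 h3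
    · exact h ▸ h2.conj _
    · exact h ▸ h2.inv.conj _
  intro x hx h0
  by_cases h1 : x ∈ L 1
  · exact X_L1 h1 h0
  · obtain ⟨i, -, h | h⟩ := L2_rep x hx h1
    · exact X.of_conj (h ▸ h3)
    · exact inv_inv x ▸ (X.of_conj (h ▸ h3)).inv

theorem exists_theta (hF : F.IsSaturated 3) (hc : F.core = ⊥) :
    ∃ θ, Mor F (L 9) θ ∧ θ (e 1) ∉ L 1 ∧ θ (e 3) ∈ L 1 := by
  obtain ⟨θ, hθ, h1⟩ := (step2 hF hc (e 3) (by decide) (by decide)).ext hF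
  rw [C3] at hθ
  exact ⟨θ, hθ, not_L1 hθ (L_mono (by norm_num)) (by decide) (by decide) h1, h1⟩

theorem cases12 (hF : F.IsSaturated 3) (hc : F.core = ⊥) : Case1 F ∨ (XL F 7 2 ∧ Case2 F) := by
  have hN := step2 hF hc
  rcases step3 hF (n := 2) (fun x hx _ => hx) with h3 | h3
  · have h7 := step7 hF (by norm_num) le_rfl hN (step5 hF (by norm_num) le_rfl hN h3)
    exact Or.inr ⟨h7, (step9 hF (by norm_num) le_rfl hN h7).resolve_left fun h =>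
      not_XL10 hF hc (by norm_num) (by norm_num) hN (step10 hF (by norm_num) le_rfl hN h)⟩
  · exact Or.inl h3.2

end CL.T3
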