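/-
The tables of `T3T` describe the multiplication in any group with elements satisfying the polycyclic relations.
-/
import Cfsg.Agent.Fus.T3T

set_option autoImplicit false
set_option Elab.async false

namespace CL.T3

/-- `f k` for all `k < n`, in two loops -/
noncomputable def allW (n : ℕ) (f : ℕ → Bool) : Bool :=
  allB (Nat.succ (Nat.div n 243)) fun h => allB 243 fun a => frc (Nat.add (Nat.mul 243 h) a) fun x =>
    Bool.rec (f x) true (Nat.ble n x)

theorem allW_spec {n : ℕ} {f : ℕ → Bool} (h : allW n f = true) : ∀ k < n, f k = true := fun k hk => by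
  have e := allB_spec (allB_spec h (k / 243) (Nat.lt_succ_of_le (Nat.div_le_div_right hk.le))) (k % 243)
    (Nat.mod_lt _ (by norm_num))
  have e' : Nat.add (Nat.mul 243 (k / 243)) (k % 243) = k := Nat.div_add_mod k 243
  have e2 : Nat.ble n k = false := Bool.eq_false_iff.2 fun h => absurd (Nat.le_of_ble_eq_true h) (by omega)
  rwa [frc_eq, e', e2] at e

def pL : List ℕ := [0, 0, 0, 0, 0, 2, 0, 0, 0, 0]
def cL : List (List ℕ) := [[], [1], [1, 3], [1, 3, 9], [1, 3, 9, 27], [1, 3, 9, 28, 84], [1, 3, 9, 27, 82, 267],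
  [1, 3, 11, 33, 83, 268, 783], [1, 3, 13, 31, 81, 290, 842, 2266], [1, 4, 9, 47, 117, 266, 776, 2497, 12587]]

/-- the code of the cube of the `i`-th generator -/
def pp (i : ℕ) : ℕ := pL.getD i 0
/-- the code of the conjugate of the `j`-th generator by the `i`-th one -/
def cc (i j : ℕ) : ℕ := (cL.getD i []).getD j 0

section
variable {Ω : Type*} [Group Ω] (γ : ℕ → Ω)

/-- normal forms -/
def nf : ℕ → ℕ → ℕ → Ω
  | 0, _, _ => 1
  | n + 1, o, x => nf n (o + 1) (x / 3) * γ o ^ (x % 3)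

theorem nf_zero : ∀ n o, nf γ n o 0 = 1
  | 0, _ => rfl
  | n + 1, o => by rw [nf, Nat.zero_div, nf_zero n, Nat.zero_mod, pow_zero, one_mul]

theorem nf_split (m a : ℕ) : ∀ k o r, r < 3 ^ k → nf γ (m + k) o (a * 3 ^ k + r) = nf γ m (o + k) a * nf γ k o r
  | 0, o, r, h => by
    obtain rfl : r = 0 := by simpa using h
    simp [nf]
  | k + 1, o, r, h => by
    have h1 : (a * 3 ^ (k + 1) + r) / 3 = a * 3 ^ k + r / 3 := by rw [pow_succ, ← mul_assoc]; omega
    have h2 : (a * 3 ^ (k + 1) + r) % 3 = r % 3 := by rw [pow_succ, ← mul_assoc]; omega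
    rw [← add_assoc, nf, nf, h1, h2, nf_split m a k (o + 1) (r / 3) (by rw [pow_succ] at h; omega), mul_assoc,
      show o + 1 + k = o + (k + 1) by omega]

/-- the element with code `x` -/
def el (x : ℕ) : Ω := nf γ 10 0 x

theorem el_zero : el γ 0 = 1 := nf_zero γ _ _

theorem el_split {k : ℕ} (hk : k ≤ 10) (a : ℕ) {r : ℕ} (hr : r < 3 ^ k) :
    el γ (a * 3 ^ k + r) = el γ (a * 3 ^ k) * el γ r := by
  obtain ⟨m, hm⟩ := Nat.exists_eq_add_of_le' hk
  have h1 := nf_split γ m a k 0 r hr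
  have h2 := nf_split γ m a k 0 0 (by positivity)
  have h3 := nf_split γ m 0 k 0 r hr
  rw [← hm] at h1 h2 h3
  rw [zero_mul, zero_add, nf_zero, one_mul] at h3
  rw [add_zero, nf_zero, mul_one] at h2
  rw [el, el, el, h1, h2, h3]

theorem el_top {k : ℕ} (hk : k < 10) {d : ℕ} (hd : d < 3) : el γ (d * 3 ^ k) = γ k ^ d := by
  obtain ⟨m, hm⟩ := Nat.exists_eq_add_of_lt hk
  have h2 := nf_split γ (m + 1) d k 0 0 (by positivity)
  have h3 : nf γ (m + 1) (0 + k) d = γ k ^ d := by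
    rw [nf, Nat.div_eq_of_lt hd, nf_zero, one_mul, Nat.mod_eq_of_lt hd, zero_add]
  rw [show m + 1 + k = 10 by omega, add_zero, nf_zero, mul_one, h3] at h2
  exact h2

theorem el_add {k : ℕ} (hk : k < 10) {d : ℕ} (hd : d < 3) {r : ℕ} (hr : r < 3 ^ k) :
    el γ (d * 3 ^ k + r) = γ k ^ d * el γ r := by
  rw [el_split γ hk.le d hr, el_top γ hk hd]

/-- the polycyclic relations -/
structure Rel : Prop where
  pow : ∀ i < 10, γ i ^ 3 = el γ (pp i)
  cj : ∀ i < 10, ∀ j < i, γ j * γ i = γ i * el γ (cc i j)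

/-- the tables are right on the codes below `3 ^ k` -/
def Spec (k : ℕ) : Prop := ∀ x < 3 ^ k, ∀ y < 3 ^ k, mul x y < 3 ^ k ∧ el γ (mul x y) = el γ x * el γ y

end

/-- conjugation by the `i`-th generator (`m = 3 ^ i`) -/
noncomputable def sg (m r : ℕ) : ℕ := Nat.sub (mul r m) m

/-- `σ ^ e` -/
noncomputable def sgp (m e r : ℕ) : ℕ := Nat.rec (motive := fun _ => ℕ) r (fun _ ih => sg m ih) e

/-- `c ^ d` -/
noncomputable def cp (c d : ℕ) : ℕ := Nat.rec (motive := fun _ => ℕ) 0 (fun _ ih => mul ih c) d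

noncomputable def chkS (i : ℕ) : Bool :=
  frc (3 ^ i) fun m => Nat.beq (sg m 0) 0 && allB i fun j => frc (3 ^ j) fun n => frc (cc i j) fun c =>
    allB 3 fun d => frc (cp c d) fun e => allW n fun r => Nat.beq (sg m (Nat.add (Nat.mul d n) r)) (mul e (sg m r))

/-- the product computed from the level below -/
noncomputable def step (m p x y : ℕ) : ℕ :=
  frc (Nat.div x m) fun d => frc (Nat.div y m) fun e => frc (sgp m e (Nat.mod x m)) fun s =>
    Bool.rec (Nat.add (Nat.mul (Nat.sub (Nat.add d e) 3) m) (mul (mul p s) (Nat.mod y m)))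
      (Nat.add (Nat.mul (Nat.add d e) m) (mul s (Nat.mod y m))) (Nat.ble (Nat.add d e) 2)

noncomputable def chkA (i : ℕ) : Bool :=
  frc (3 ^ i) fun m => frc (pp i) fun p => allB (3 * m) fun x => allB (3 * m) fun y => Nat.beq (mul x y) (step m p x y)

noncomputable def chkH (i : ℕ) : Bool :=
  frc (3 ^ (i + 5)) fun m => frc (pp (i + 5)) fun p => allB (3 ^ (i + 1)) fun h => allB (3 ^ (i + 1)) fun k =>
    Nat.beq (t1 h k) (step m p (Nat.mul 243 h) (Nat.mul 243 k))

noncomputable def chkC (i : ℕ) : Bool :=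
  frc (3 ^ (i + 5)) fun m => frc (pp (i + 5)) fun p => allB 243 fun a => allB (3 ^ (i + 1)) fun k =>
    Nat.blt (t2 a k) 243 && Nat.beq (Nat.add (Nat.mul 243 k) (t2 a k)) (step m p a (Nat.mul 243 k))

theorem cS : ∀ i < 9, chkS i = true := allB_spec (by decide +kernel)
theorem cS9 : chkS 9 = true := by decide +kernel
theorem cA : ∀ i < 4, chkA i = true := allB_spec (by decide +kernel)
theorem cA4 : chkA 4 = true := by decide +kernel
theorem cH : ∀ i < 4, chkH i = true := allB_spec (by decide +kernel)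
theorem cH4 : chkH 4 = true := by decide +kernel
theorem cC : ∀ i < 4, chkC i = true := allB_spec (by decide +kernel)
theorem cC4 : chkC 4 = true := by decide +kernel
theorem cI : ∀ x < 59049, (Nat.blt (inv x) 59049 && Nat.beq (mul (inv x) x) 0) = true := allW_spec (by decide +kernel)
theorem c0 : ∀ a < 243, (Nat.beq (t2 a 0) a && Nat.beq (t3 0 a) a) = true := allB_spec (by decide +kernel)
theorem cP : ∀ i < 10, pp i < 3 ^ i ∧ ∀ j < i, cc i j < 3 ^ i := by decide
theorem c00 : t1 0 0 = 0 ∧ mul 0 0 = 0 := by decide +kernel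

section
variable {Ω : Type*} [Group Ω] {γ : ℕ → Ω}

theorem cp_spec {i c : ℕ} (hs : Spec γ i) (hc : c < 3 ^ i) : ∀ d, cp c d < 3 ^ i ∧ el γ (cp c d) = el γ c ^ d
  | 0 => ⟨by show 0 < _; positivity, by rw [pow_zero]; exact el_zero γ⟩
  | d + 1 => by
    obtain ⟨h1, h2⟩ := cp_spec hs hc d
    obtain ⟨h3, h4⟩ := hs _ h1 _ hc
    exact ⟨h3, by rw [pow_succ, ← h2]; exact h4⟩

theorem sg_spec (hr : Rel γ) {i : ℕ} (hi : i < 10) (hs : Spec γ i) (hc : chkS i = true) :
    ∀ r < 3 ^ i, sg (3 ^ i) r < 3 ^ i ∧ el γ r * γ i = γ i * el γ (sg (3 ^ i) r) := by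
  simp only [chkS, frc_eq, Bool.and_eq_true, Nat.beq_eq] at hc
  have key : ∀ j ≤ i, ∀ r < 3 ^ j, sg (3 ^ i) r < 3 ^ i ∧ el γ r * γ i = γ i * el γ (sg (3 ^ i) r) := by
    intro j
    induction j with
    | zero =>
      intro _ r h
      obtain rfl : r = 0 := by simpa using h
      rw [hc.1, el_zero, one_mul, mul_one]
      exact ⟨by positivity, rfl⟩
    | succ j ih =>
      intro hj r h
      have hn : 0 < 3 ^ j := by positivity
      have hd : r / 3 ^ j < 3 := by rw [Nat.div_lt_iff_lt_mul hn, mul_comm, ← pow_succ]; exact h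
      have h0 := Nat.mod_lt r hn
      have e := allW_spec (allB_spec (allB_spec hc.2 j hj) _ hd) _ h0
      rw [Nat.beq_eq] at e
      have e' : Nat.add (Nat.mul (r / 3 ^ j) (3 ^ j)) (r % 3 ^ j) = r := Nat.div_add_mod' r _
      rw [e'] at e
      obtain ⟨h1, h2⟩ := ih (by omega) _ h0
      obtain ⟨h3, h4⟩ := cp_spec hs ((cP i hi).2 j hj) (r / 3 ^ j)
      obtain ⟨h5, h6⟩ := hs _ h3 _ h1
      rw [e]
      refine ⟨h5, ?_⟩
      have h7 : ∀ d : ℕ, γ j ^ d * γ i = γ i * el γ (cc i j) ^ d := fun d => by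
        induction d with
        | zero => simp
        | succ d ih => rw [pow_succ, mul_assoc, hr.cj i hi j hj, ← mul_assoc, ih, pow_succ, mul_assoc]
      rw [h6, h4, ← mul_assoc, ← h7, mul_assoc, ← h2, ← mul_assoc, ← el_add γ (by omega) hd h0, Nat.div_add_mod']
  exact key i le_rfl

theorem step_spec (hr : Rel γ) {i : ℕ} (hi : i < 10) (hs : Spec γ i) (hc : chkS i = true) {x y : ℕ}
    (hx : x < 3 ^ (i + 1)) (hy : y < 3 ^ (i + 1)) :
    step (3 ^ i) (pp i) x y < 3 ^ (i + 1) ∧ el γ (step (3 ^ i) (pp i) x y) = el γ x * el γ y := by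
  have hn : 0 < 3 ^ i := by positivity
  have hd : x / 3 ^ i < 3 := by rw [Nat.div_lt_iff_lt_mul hn, mul_comm, ← pow_succ]; exact hx
  have he : y / 3 ^ i < 3 := by rw [Nat.div_lt_iff_lt_mul hn, mul_comm, ← pow_succ]; exact hy
  have hx0 := Nat.mod_lt x hn
  have hy0 := Nat.mod_lt y hn
  have h1 : ∀ e, sgp (3 ^ i) e (x % 3 ^ i) < 3 ^ i ∧
      el γ (x % 3 ^ i) * γ i ^ e = γ i ^ e * el γ (sgp (3 ^ i) e (x % 3 ^ i)) := fun e => by
    induction e with
    | zero => exact ⟨hx0, by rw [pow_zero, one_mul, mul_one]; rfl⟩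
    | succ e ih =>
      obtain ⟨a, b⟩ := sg_spec hr hi hs hc _ ih.1
      exact ⟨a, by rw [pow_succ, ← mul_assoc, ih.2, mul_assoc, b, ← mul_assoc]; rfl⟩
  obtain ⟨h2, h3⟩ := h1 (y / 3 ^ i)
  have ex : el γ x = γ i ^ (x / 3 ^ i) * el γ (x % 3 ^ i) := by rw [← el_add γ hi hd hx0, Nat.div_add_mod']
  have ey : el γ y = γ i ^ (y / 3 ^ i) * el γ (y % 3 ^ i) := by rw [← el_add γ hi he hy0, Nat.div_add_mod']
  have exy : el γ x * el γ y = γ i ^ (x / 3 ^ i + y / 3 ^ i) *
      (el γ (sgp (3 ^ i) (y / 3 ^ i) (x % 3 ^ i)) * el γ (y % 3 ^ i)) := by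
    rw [ex, ey, pow_add, mul_assoc, ← mul_assoc (el γ (x % 3 ^ i)), h3]; simp only [mul_assoc]
  have es : step (3 ^ i) (pp i) x y = Bool.rec
      ((x / 3 ^ i + y / 3 ^ i - 3) * 3 ^ i + mul (mul (pp i) (sgp (3 ^ i) (y / 3 ^ i) (x % 3 ^ i))) (y % 3 ^ i))
      ((x / 3 ^ i + y / 3 ^ i) * 3 ^ i + mul (sgp (3 ^ i) (y / 3 ^ i) (x % 3 ^ i)) (y % 3 ^ i))
      (Nat.ble (x / 3 ^ i + y / 3 ^ i) 2) := rfl
  rw [es, exy]
  have hs4 : x / 3 ^ i + y / 3 ^ i ≤ 4 := by omega
  generalize x / 3 ^ i + y / 3 ^ i = s at *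
  by_cases hb : s ≤ 2
  · rw [Nat.ble_eq_true_of_le hb]
    obtain ⟨h4, h5⟩ := hs _ h2 _ hy0
    refine ⟨?_, by rw [← h5]; exact el_add γ hi (by omega) h4⟩
    show s * 3 ^ i + _ < _
    have : s * 3 ^ i ≤ 2 * 3 ^ i := Nat.mul_le_mul_right _ hb
    rw [pow_succ]; omega
  · rw [show Nat.ble s 2 = false from Bool.eq_false_iff.2 fun h => hb (Nat.le_of_ble_eq_true h)]
    obtain ⟨h4, h5⟩ := hs _ (cP i hi).1 _ h2
    obtain ⟨h6, h7⟩ := hs _ h4 _ hy0
    refine ⟨?_, ?_⟩
    · show (s - 3) * 3 ^ i + _ < _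
      have : (s - 3) * 3 ^ i ≤ 2 * 3 ^ i := Nat.mul_le_mul_right _ (by omega)
      rw [pow_succ]; omega
    · refine (el_add γ hi (by omega) h6).trans ?_
      rw [h7, h5, ← hr.pow i hi, ← mul_assoc, ← mul_assoc, ← pow_add, Nat.sub_add_cancel (by omega), mul_assoc]

theorem chkS_all {i : ℕ} (hi : i < 10) : chkS i = true := by
  rcases Nat.lt_succ_iff_lt_or_eq.1 hi with h | rfl
  exacts [cS i h, cS9]

theorem spec_low (hr : Rel γ) : ∀ i ≤ 5, Spec γ i
  | 0, _ => fun x hx y hy => by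
    obtain rfl : x = 0 := by simpa using hx
    obtain rfl : y = 0 := by simpa using hy
    rw [c00.2, el_zero, one_mul]
    exact ⟨hx, rfl⟩
  | i + 1, hi => fun x hx y hy => by
    have hc : chkA i = true := by
      rcases Nat.lt_succ_iff_lt_or_eq.1 (show i < 5 from hi) with h | rfl
      exacts [cA i h, cA4]
    simp only [chkA, frc_eq] at hc
    have e := allB_spec (allB_spec hc x (by rwa [← pow_succ'])) y (by rwa [← pow_succ'])
    rw [Nat.beq_eq] at e
    rw [e]
    exact step_spec hr (by omega) (spec_low hr i (by omega)) (chkS_all (by omega)) hx hy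

theorem t3_spec (hr : Rel γ) {a b : ℕ} (ha : a < 243) (hb : b < 243) :
    t3 a b < 243 ∧ el γ (t3 a b) = el γ a * el γ b := by
  have h := spec_low hr 5 le_rfl a ha b hb
  have h1 := c0 a ha
  simp only [Bool.and_eq_true, Nat.beq_eq] at h1
  rwa [mul_eq, Nat.div_eq_of_lt ha, Nat.div_eq_of_lt hb, c00.1, Nat.mod_eq_of_lt ha, Nat.mod_eq_of_lt hb, h1.1,
    Nat.zero_mod, h1.2, Nat.sub_zero, zero_add] at h

theorem el_hi (h : ℕ) {a : ℕ} (ha : a < 243) : el γ (243 * h + a) = el γ (243 * h) * el γ a := by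
  rw [mul_comm]; exact el_split γ (k := 5) (by norm_num) h ha

theorem spec_high (hr : Rel γ) : ∀ i ≤ 5, Spec γ (i + 5)
  | 0, _ => spec_low hr 5 le_rfl
  | i + 1, hi => fun x hx y hy => by
    have hH : chkH i = true := by
      rcases Nat.lt_succ_iff_lt_or_eq.1 (show i < 5 from hi) with h | rfl
      exacts [cH i h, cH4]
    have hC : chkC i = true := by
      rcases Nat.lt_succ_iff_lt_or_eq.1 (show i < 5 from hi) with h | rfl
      exacts [cC i h, cC4]
    simp only [chkH, chkC, frc_eq] at hH hC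
    have ep : 3 ^ (i + 1 + 5) = 243 * 3 ^ (i + 1) := by rw [pow_add, mul_comm]; norm_num
    have ep' : i + 1 + 5 = i + 5 + 1 := by omega
    have hh : x / 243 < 3 ^ (i + 1) := by omega
    have hk : y / 243 < 3 ^ (i + 1) := by omega
    have ha : x % 243 < 243 := Nat.mod_lt _ (by norm_num)
    have hb : y % 243 < 243 := Nat.mod_lt _ (by norm_num)
    have e1 := allB_spec (allB_spec hH _ hh) _ hk
    have e2 := allB_spec (allB_spec hC _ ha) _ hk
    simp only [Bool.and_eq_true, Nat.beq_eq, Nat.blt_eq] at e1 e2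
    have S := fun {x y : ℕ} => step_spec (x := x) (y := y) hr (i := i + 5) (by omega) (spec_high hr i (by omega))
      (chkS_all (by omega))
    obtain ⟨h1, h2⟩ := S (x := 243 * (x / 243)) (y := 243 * (y / 243)) (by rw [← ep']; omega) (by rw [← ep']; omega)
    obtain ⟨-, h3⟩ := S (x := x % 243) (y := 243 * (y / 243)) (by rw [← ep']; omega) (by rw [← ep']; omega)
    have e1' : step (3 ^ (i + 5)) (pp (i + 5)) (243 * (x / 243)) (243 * (y / 243)) = t1 (x / 243) (y / 243) := e1.symm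
    have e2' : step (3 ^ (i + 5)) (pp (i + 5)) (x % 243) (243 * (y / 243)) =
      243 * (y / 243) + t2 (x % 243) (y / 243) := e2.2.symm
    rw [e1'] at h1 h2
    rw [e2', el_hi _ e2.1] at h3
    rw [mul_eq]
    generalize t1 (x / 243) (y / 243) = t at *
    have hc : t % 243 < 243 := Nat.mod_lt _ (by norm_num)
    obtain ⟨h4, h5⟩ := t3_spec hr hc e2.1
    obtain ⟨h6, h7⟩ := t3_spec hr h4 hb
    rw [show t - t % 243 = 243 * (t / 243) by omega]
    refine ⟨by rw [← ep'] at h1; omega, ?_⟩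
    rw [el_hi _ h6, h7, h5, ← mul_assoc, ← mul_assoc, ← el_hi _ hc, Nat.div_add_mod, h2]
    conv_rhs => rw [← Nat.div_add_mod x 243, ← Nat.div_add_mod y 243, el_hi _ ha, el_hi _ hb]
    rw [mul_assoc (el γ (243 * (x / 243))), h3]
    simp only [mul_assoc]

theorem spec_all (hr : Rel γ) {k : ℕ} (hk : k ≤ 10) : Spec γ k := by
  by_cases h : k ≤ 5
  · exact spec_low hr k h
  · obtain ⟨i, rfl⟩ := Nat.exists_eq_add_of_le' (show 5 ≤ k by omega)
    exact spec_high hr i (by omega)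

end

end CL.T3
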