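/-
The polycyclic generators of a Sylow 3-subgroup of the Thompson group.
-/
import Cfsg.Agent.Fus.T3M
import Cfsg.Agent.Spor.ThMain

set_option autoImplicit false
set_option Elab.async false

namespace CL.T3

open CL.PG CL.ThRep CL.Mx3 Cfsg.Spor

def ws : List (List ℕ) := [[6, 8], [6, 14, 6, 15], [6, 15, 6, 14], [10, 8, 6, 13, 10, 8, 10], [14, 2, 0, 15, 2, 14], [25, 22, 24], [20, 20, 26, 20], [20, 26, 20, 20], [17], [22, 19], [28, 28, 28], [28, 28, 30, 26], [19, 27, 19, 26], [12, 27, 28, 39], [30, 43, 38], [27, 44, 35, 43], [31, 41, 18, 30], [13, 16, 37, 44]]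
def lts : List ℕ := [32, 50, 36, 44, 48, 34, 46, 42, 40, 38]
def chL : List ((ℕ × ℕ) × List (List ℕ) × ℕ) := [
  ((0x822e8c9fd38848241938c0cc201180c05213a80a503d140080000000000000, 0x1880500020011612a6c5202105607006844405008d8289d910000000000000), [[38]], 3),
  ((0x182094a85400bc3191a69006300814040cb60254081603c00d18b1a310a100, 0x920205814a018c2c484301804168c2c0003c09b041540000e00a00460001), [[40]], 3),
  ((0xd18b1a310a100, 0xe00a00460001), [[42]], 3),
  ((0x60630108205a96c84b4418f1e000000303cc000000000000000000000000, 0x10062530025293080200100000800042020000000000000000000000080), [[46]], 3),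
  ((0x19000000000, 0x2400000004), [[34]], 3),
  ((0x10a000000700a00004090170780000000000000000000000, 0x15100001041000000800280040000000000000000000000), [[48]], 3),
  ((0x100025300422001d04314658c1005a0443ad28a880000004201031010c4, 0x48002004846a2b08009000c30a0029800474254000079cdac046e021), [[44]], 3),
  ((0x2000000000a410861615f4c204c9180000000000000000100, 0x50c45048800834280644c000000000000000000), [[36]], 3),
  ((0x80, 0x0), [[50]], 3),
  ((0x1, 0x0), [[32]], 3)]
def RL : List (List ℕ × List ℕ) := [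
  ([32, 32, 32], []),
  ([50, 50, 50], []),
  ([32, 50], [50, 32]),
  ([36, 36, 36], []),
  ([32, 36], [36, 32]),
  ([50, 36], [36, 50]),
  ([44, 44, 44], []),
  ([32, 44], [44, 32]),
  ([50, 44], [44, 50]),
  ([36, 44], [44, 36]),
  ([48, 48, 48], []),
  ([32, 48], [48, 32]),
  ([50, 48], [48, 50]),
  ([36, 48], [48, 36]),
  ([44, 48], [48, 44]),
  ([34, 34, 34], [32, 32]),
  ([32, 34], [34, 32]),
  ([50, 34], [34, 50]),
  ([36, 34], [34, 36]),
  ([44, 34], [34, 44, 32]),
  ([48, 34], [34, 48, 50]),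
  ([46, 46, 46], []),
  ([32, 46], [46, 32]),
  ([50, 46], [46, 50]),
  ([36, 46], [46, 36]),
  ([44, 46], [46, 44]),
  ([48, 46], [46, 48, 32]),
  ([34, 46], [46, 34, 36, 36, 50, 50]),
  ([42, 42, 42], []),
  ([32, 42], [42, 32]),
  ([50, 42], [42, 50]),
  ([36, 42], [42, 36, 32, 32]),
  ([44, 42], [42, 44, 50, 50]),
  ([48, 42], [42, 48, 32, 32]),
  ([34, 42], [42, 34, 36, 36, 50, 50, 32]),
  ([46, 42], [42, 46, 44, 44]),
  ([40, 40, 40], []),
  ([32, 40], [40, 32]),
  ([50, 40], [40, 50]),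
  ([36, 40], [40, 36, 50, 32]),
  ([44, 40], [40, 44, 50, 32]),
  ([48, 40], [40, 48]),
  ([34, 40], [40, 34, 44, 36, 36, 32, 32]),
  ([46, 40], [40, 46, 48, 44, 50, 32, 32]),
  ([42, 40], [40, 42, 44, 44, 36, 36, 50, 50, 32]),
  ([38, 38, 38], []),
  ([32, 38], [38, 32]),
  ([50, 38], [38, 50, 32]),
  ([36, 38], [38, 36]),
  ([44, 38], [38, 44, 36, 36, 32, 32]),
  ([48, 38], [38, 48, 44, 36]),
  ([34, 38], [38, 34, 36, 36, 50, 32, 32]),
  ([46, 38], [38, 46, 44, 36, 36, 32, 32]),
  ([42, 38], [38, 42, 34, 44, 44, 36, 50, 32]),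
  ([40, 38], [38, 40, 42, 42, 46, 46, 48, 48, 44, 50, 32, 32])]

/-- the letters -/
noncomputable def gT : List Th := ext gs ws
/-- the polycyclic generators -/
noncomputable def γT (i : ℕ) : Th := letG gT (lts.getD i 0)

/-- normal words -/
def wd : ℕ → ℕ → ℕ → List ℕ
  | 0, _, _ => []
  | n + 1, o, x => wd n (o + 1) (x / 3) ++ List.replicate (x % 3) (lts.getD o 0)

theorem wordG_rep (c : ℕ) : ∀ d, wordG gT (List.replicate d c) = letG gT c ^ d
  | 0 => by simp
  | d + 1 => by rw [List.replicate_succ, wordG_cons, wordG_rep c d, pow_succ']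

theorem wordG_wd : ∀ n o x, wordG gT (wd n o x) = nf γT n o x
  | 0, _, _ => rfl
  | n + 1, o, x => by rw [wd, nf, wordG_append, wordG_wd n, wordG_rep]; rfl

theorem rl1 : Rels gT (takeL 28 RL) := rels_of ThM.rho_inj (by decide +kernel)
theorem rl2 : Rels gT (dropL 28 RL) := rels_of ThM.rho_inj (by decide +kernel)

theorem memR : ∀ i < 10, (List.replicate 3 (lts.getD i 0), wd 10 0 (pp i)) ∈ RL ∧
    ∀ j < i, ([lts.getD j 0, lts.getD i 0], lts.getD i 0 :: wd 10 0 (cc i j)) ∈ RL := by decide +kernel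

theorem relT3 : Rel γT := by
  have h := Rels.join 28 rl1 rl2
  refine ⟨fun i hi => ?_, fun i hi j hj => ?_⟩
  · have := h _ (memR i hi).1
    rwa [wordG_rep, wordG_wd] at this
  · have := h _ ((memR i hi).2 j hj)
    rwa [wordG_cons, wordG_cons, wordG_cons, wordG_nil, mul_one, wordG_wd] at this

theorem chain3 : 59049 ∣ Nat.card (subW (ext gm ws) (lvS chL)) :=
  (repX ws).chain (l := chL) (by decide +kernel)

theorem el_inj : Function.Injective fun x : Fin 59049 => el γT x := by
  have := ThM.finite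
  let K : Subgroup Th :=
    { carrier := Set.range fun x : Fin 59049 => el γT x
      one_mem' := ⟨0, el_zero γT⟩
      mul_mem' := by
        rintro _ _ ⟨x, rfl⟩ ⟨y, rfl⟩
        obtain ⟨h1, h2⟩ := spec_all relT3 le_rfl x x.2 y y.2
        exact ⟨⟨_, h1⟩, h2⟩
      inv_mem' := by
        rintro _ ⟨x, rfl⟩
        have h := cI x x.2
        simp only [Bool.and_eq_true, Nat.beq_eq, Nat.blt_eq] at h
        have h2 := (spec_all relT3 le_rfl _ h.1 x x.2).2
        rw [h.2, el_zero] at h2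
        exact ⟨⟨_, h.1⟩, eq_inv_of_mul_eq_one_left h2.symm⟩ }
  have h1 : subW (ext gm ws) (lvS chL) ≤ K.map rho := subW_le.2 fun w hw => by
    have : ∃ i < 10, w = [lts.getD i 0] := by revert w; decide
    obtain ⟨i, hi, rfl⟩ := this
    refine ⟨γT i, ⟨⟨1 * 3 ^ i, ?_⟩, (el_top γT hi (by norm_num)).trans (pow_one _)⟩, ?_⟩
    · have : 3 ^ i < 3 ^ 10 := Nat.pow_lt_pow_right (by norm_num) hi
      omega
    · rw [← rho_wordG, wordG_single]; rfl
  have h2 : 59049 ≤ Nat.card K := by
    rw [← Subgroup.card_map_of_injective (K := K) ThM.rho_inj]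
    exact Nat.le_of_dvd Nat.card_pos (chain3.trans (Subgroup.card_dvd_of_le h1))
  have h3 : Function.Surjective (Set.rangeFactorization fun x : Fin 59049 => el γT x) :=
    Set.rangeFactorization_surjective
  have h4 := (Nat.bijective_iff_surjective_and_card _).2 ⟨h3, le_antisymm
    (by rw [Nat.card_eq_fintype_card, Fintype.card_fin]; exact h2) (Nat.card_le_card_of_surjective _ h3)⟩
  intro x y e
  exact h4.1 (Subtype.ext e)

end CL.T3
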