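/-
The group `G` of order `3 ^ 10` on codes, its chief series `L k`, and echelon generators of subgroups.
-/
import Cfsg.Agent.Fus.T3R

set_option autoImplicit false
set_option Elab.async false

namespace CL.T3

open Cfsg.Spor Subgroup

/-- the group on the codes below `3 ^ 10` -/
structure G where
  v : ℕ
  lt : v < 59049

theorem G.ext' {x y : G} (h : x.v = y.v) : x = y := by cases x; cases y; cases h; rfl

instance : DecidableEq G := fun x y => decidable_of_iff (x.v = y.v) ⟨G.ext', congrArg G.v⟩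

theorem inv_ok {x : ℕ} (h : x < 59049) : inv x < 59049 ∧ mul (inv x) x = 0 := by
  simpa only [Bool.and_eq_true, Nat.beq_eq, Nat.blt_eq] using cI x h

theorem mul_ok (x y : G) : mul x.v y.v < 59049 ∧ el γT (mul x.v y.v) = el γT x.v * el γT y.v :=
  spec_all relT3 le_rfl _ x.lt _ y.lt

theorem el_ext {x y : G} (h : el γT x.v = el γT y.v) : x = y :=
  G.ext' (congrArg Fin.val (@el_inj ⟨x.v, x.lt⟩ ⟨y.v, y.lt⟩ h))

noncomputable instance : Mul G := ⟨fun x y => ⟨mul x.v y.v, (mul_ok x y).1⟩⟩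
instance : One G := ⟨⟨0, by norm_num⟩⟩
noncomputable instance : Inv G := ⟨fun x => ⟨inv x.v, (inv_ok x.lt).1⟩⟩

theorem el_mul (x y : G) : el γT (x * y).v = el γT x.v * el γT y.v := (mul_ok x y).2

noncomputable instance : Group G :=
  Group.ofLeftAxioms (fun a b c => el_ext (by simp only [el_mul, mul_assoc]))
    (fun a => el_ext (by rw [el_mul]; exact (congrArg (· * _) (el_zero γT)).trans (one_mul _)))
    (fun a => G.ext' (inv_ok a.lt).2)

theorem mul_v (x y : G) : (x * y).v = mul x.v y.v := rfl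
theorem inv_v (x : G) : x⁻¹.v = inv x.v := rfl
theorem one_v : (1 : G).v = 0 := rfl

/-- the embedding in the Thompson group -/
noncomputable def toTh : G →* Th := MonoidHom.mk' (fun x => el γT x.v) el_mul

theorem toTh_inj : Function.Injective toTh := fun _ _ => el_ext

/-- the bijection with `Fin 59049` -/
def eqv : G ≃ Fin 59049 := ⟨fun x => ⟨x.v, x.lt⟩, fun x => ⟨x.1, x.2⟩, fun _ => rfl, fun _ => rfl⟩

instance : Finite G := Finite.of_equiv _ eqv.symm

theorem card_G : Nat.card G = 3 ^ 10 := by rw [Nat.card_congr eqv, Nat.card_eq_fintype_card, Fintype.card_fin]; rfl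

theorem pG : IsPGroup 3 G := IsPGroup.of_card card_G

theorem pT : IsPGroup 3 (⊤ : Subgroup G) := pG.to_subgroup _

theorem sylow_iso [Fact (Nat.Prime 3)] (T : Sylow 3 Th) : Nonempty ((T : Subgroup Th) ≃* (⊤ : Subgroup G)) := by
  have := ThM.finite
  have hc : Nat.card toTh.range = 3 ^ (Nat.card Th).factorization 3 := by
    rw [← Nat.card_congr (MonoidHom.ofInjective toTh_inj).toEquiv, card_G, ThM.card,
      show 90745943887872000 = 3 ^ 10 * 1536790528000 by norm_num,
      Nat.factorization_mul (by norm_num) (by norm_num), Finsupp.add_apply, Nat.factorization_pow_self (by norm_num),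
      Nat.factorization_eq_zero_of_not_dvd (by norm_num)]
  exact ⟨((Sylow.equiv T (Sylow.ofCard _ hc)).trans (MonoidHom.ofInjective toTh_inj).symm).trans topEquiv.symm⟩

/-- the element with code `n` -/
def e (n : ℕ) : G := ⟨Nat.mod n 59049, Nat.mod_lt _ (by norm_num)⟩

theorem e_v {n : ℕ} (h : n < 59049) : (e n).v = n := Nat.mod_eq_of_lt h
theorem e_self (x : G) : e x.v = x := G.ext' (e_v x.lt)
theorem e_zero : e 0 = 1 := rfl

theorem pow_le {k : ℕ} (hk : k ≤ 10) : 3 ^ k ≤ 59049 := Nat.pow_le_pow_right (n := 3) (by norm_num) hk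

/-- the chief series -/
def L (k : ℕ) : Subgroup G :=
  let M : Submonoid G :=
    { carrier := {x | x.v < 3 ^ k}
      one_mem' := by show 0 < _; positivity
      mul_mem' := fun {x y} hx hy => by
        by_cases hk : k ≤ 10
        · exact (spec_all relT3 hk _ hx _ hy).1
        · exact (x * y).lt.trans_le (Nat.pow_le_pow_right (n := 3) (i := 10) (by norm_num) (by omega)) }
  { M with
    inv_mem' := fun {x} hx => (Submonoid.powers_le (P := M)).2 hx
      ((isOfFinOrder_of_finite x).mem_powers_iff_mem_zpowers.2 (inv_mem (mem_zpowers x))) }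

theorem mem_L {k : ℕ} {x : G} : x ∈ L k ↔ x.v < 3 ^ k := Iff.rfl

instance (k : ℕ) (x : G) : Decidable (x ∈ L k) := Nat.decLt x.v (3 ^ k)

theorem L_mono {j k : ℕ} (h : j ≤ k) : L j ≤ L k := fun _ hx => hx.trans_le (Nat.pow_le_pow_right (by norm_num) h)

theorem L_zero : L 0 = ⊥ := eq_bot_iff.2 fun x hx => G.ext' (by have : x.v < 1 := hx; show x.v = 0; omega)

theorem L_ten : L 10 = ⊤ := eq_top_iff.2 fun x _ => x.lt

theorem e_split {k : ℕ} (hk : k ≤ 10) {a : ℕ} {r : G} (hr : r ∈ L k) (h : a * 3 ^ k + r.v < 59049) :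
    e (a * 3 ^ k + r.v) = e (a * 3 ^ k) * r :=
  el_ext (by rw [el_mul, e_v h, e_v (by omega), el_split γT hk a hr])

theorem lt_of_digit {k d : ℕ} (hd : d < 3) {r : ℕ} (hr : r < 3 ^ k) : d * 3 ^ k + r < 3 ^ (k + 1) := by
  have : d * 3 ^ k ≤ 2 * 3 ^ k := Nat.mul_le_mul_right _ (by omega)
  rw [pow_succ]; omega

theorem e_top {k : ℕ} (hk : k < 10) {d : ℕ} (hd : d < 3) : e (d * 3 ^ k) = e (3 ^ k) ^ d := by
  have h1 := (lt_of_digit hd (k := k) (r := 0) (by positivity)).trans_le (pow_le hk)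
  have h2 := (lt_of_digit (d := 1) (by norm_num) (k := k) (r := 0) (by positivity)).trans_le (pow_le hk)
  rw [one_mul, add_zero] at h2
  rw [add_zero] at h1
  apply toTh_inj
  rw [map_pow]
  show el γT _ = el γT _ ^ d
  rw [e_v h1, e_v h2, el_top γT hk hd, ← one_mul (3 ^ k), el_top γT hk (by norm_num), pow_one]

theorem pow_mul_v {k : ℕ} (hk : k < 10) {d : ℕ} (hd : d < 3) {r : G} (hr : r ∈ L k) :
    (e (3 ^ k) ^ d * r).v = d * 3 ^ k + r.v := by
  have h1 := (lt_of_digit hd hr).trans_le (pow_le hk)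
  rw [← e_top hk hd, ← e_split hk.le hr h1, e_v h1]

theorem split {k : ℕ} (hk : k < 10) {x : G} (hx : x ∈ L (k + 1)) : ∃ d < 3, ∃ r ∈ L k, x = e (3 ^ k) ^ d * r := by
  have hn : 0 < 3 ^ k := by positivity
  have hd : x.v / 3 ^ k < 3 := by rw [Nat.div_lt_iff_lt_mul hn, mul_comm, ← pow_succ]; exact hx
  have h0 : (e (x.v % 3 ^ k)).v = x.v % 3 ^ k := e_v ((Nat.mod_le _ _).trans_lt x.lt)
  have hr : e (x.v % 3 ^ k) ∈ L k := by rw [mem_L, h0]; exact Nat.mod_lt _ hn
  exact ⟨_, hd, _, hr, G.ext' (by rw [pow_mul_v hk hd hr, h0, Nat.div_add_mod'])⟩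

theorem L_le {H : Subgroup G} : ∀ {k : ℕ}, k ≤ 10 → (∀ j < k, e (3 ^ j) ∈ H) → L k ≤ H
  | 0, _, _ => L_zero ▸ bot_le
  | k + 1, hk, h => fun x hx => by
    obtain ⟨d, -, r, hr, rfl⟩ := split hk hx
    exact mul_mem (pow_mem (h k (by omega)) d) (L_le (by omega) (fun j hj => h j (by omega)) hr)

theorem eq_top_of {H : Subgroup G} (h : ∀ j < 10, e (3 ^ j) ∈ H) : H = ⊤ := eq_top_iff.2 (L_ten ▸ L_le le_rfl h)

theorem gen_comm : ∀ k < 10, ∀ j < 10, e (3 ^ j) * e (3 ^ k) * (e (3 ^ j))⁻¹ * (e (3 ^ k))⁻¹ ∈ L k := by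
  decide +kernel

theorem comm_of_normal {k : ℕ} (hk : k < 10) [hN : (L k).Normal] {x : G} (hx : x ∈ L (k + 1)) (g : G) :
    g * x * g⁻¹ * x⁻¹ ∈ L k := by
  have key : ∀ a b : G, a * b * a⁻¹ * b⁻¹ ∈ L k ↔
      QuotientGroup.mk' (L k) b * QuotientGroup.mk' (L k) a = QuotientGroup.mk' (L k) a * QuotientGroup.mk' (L k) b :=
    fun a b => by
      rw [← QuotientGroup.eq_one_iff, ← QuotientGroup.mk'_apply, map_mul, map_mul, map_mul, map_inv, map_inv,
        mul_inv_eq_one, mul_inv_eq_iff_eq_mul, eq_comm]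
  have h1 : (centralizer {QuotientGroup.mk' (L k) (e (3 ^ k))}).comap (QuotientGroup.mk' (L k)) = ⊤ :=
    eq_top_of fun j hj => mem_centralizer_singleton_iff.2 ((key _ _).1 (gen_comm k hk j hj)).symm
  obtain ⟨d, -, r, hr, rfl⟩ := split hk hx
  have h2 : QuotientGroup.mk' (L k) r = 1 := (QuotientGroup.eq_one_iff r).2 hr
  have h3 : Commute (QuotientGroup.mk' (L k) g) (QuotientGroup.mk' (L k) (e (3 ^ k))) :=
    mem_centralizer_singleton_iff.1 (show g ∈ _ from h1 ▸ mem_top g)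
  rw [key, map_mul, h2, mul_one, map_pow]
  exact (h3.pow_right d).eq.symm

instance L_normal : ∀ k, (L k).Normal
  | 0 => L_zero ▸ inferInstance
  | k + 1 => by
    by_cases hk : k < 10
    · have := L_normal k
      exact ⟨fun x hx g => by
        simpa using mul_mem (L_mono (Nat.le_succ k) (comm_of_normal hk hx g)) hx⟩
    · rw [show L (k + 1) = ⊤ from eq_top_iff.2 (L_ten ▸ L_mono (by omega))]; infer_instance

theorem conj_L {k : ℕ} {x : G} (hx : x ∈ L k) (g : G) : g * x * g⁻¹ ∈ L k := (L_normal k).conj_mem x hx g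

theorem conj_L_iff {k : ℕ} {x g : G} : g * x * g⁻¹ ∈ L k ↔ x ∈ L k :=
  ⟨fun h => by simpa [mul_assoc] using conj_L h g⁻¹, fun h => conj_L h g⟩

/-- `[G, L (k + 1)] ≤ L k` -/
theorem comm_L {k : ℕ} (hk : k < 10) {x : G} (hx : x ∈ L (k + 1)) (g : G) : g * x * g⁻¹ * x⁻¹ ∈ L k :=
  comm_of_normal hk hx g

/-- loops over the codes -/
theorem all_L {k : ℕ} {p : G → Prop} [DecidablePred p] (h : allW (3 ^ k) (fun n => decide (p (e n))) = true) :
    ∀ x ∈ L k, p x := fun x hx => e_self x ▸ of_decide_eq_true (allW_spec h x.v hx)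

/-- the representative of `x` modulo `L 5` -/
def hi (x : G) : G := e (243 * (x.v / 243))

theorem hi_split (x : G) : ∃ a ∈ L 5, x = hi x * a := by
  have h0 : (e (x.v % 243)).v = x.v % 243 := e_v ((Nat.mod_le _ _).trans_lt x.lt)
  have hr : e (x.v % 243) ∈ L 5 := by rw [mem_L, h0]; exact Nat.mod_lt _ (by norm_num)
  have h1 : x.v / 243 * 3 ^ 5 + (e (x.v % 243)).v = x.v := by rw [h0]; exact Nat.div_add_mod' _ _
  refine ⟨_, hr, ?_⟩
  have h2 := e_split (k := 5) (by norm_num) hr (h1.symm ▸ x.lt)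
  rw [h1, e_self, mul_comm (x.v / 243)] at h2
  exact h2

theorem hi_mul (x : G) {a : G} (ha : a ∈ L 5) : (x * a).v / 243 = x.v / 243 := by
  obtain ⟨b, hb, h⟩ := hi_split x
  have h1 : (b * a).v < 243 := mul_mem hb ha
  have h2 := x.lt
  have h3 : x.v / 243 * 3 ^ 5 + (b * a).v < 59049 := by omega
  have h4 := e_split (k := 5) (by norm_num) (mul_mem hb ha) h3
  have h5 : x * a = e (x.v / 243 * 3 ^ 5 + (b * a).v) := by rw [h4, ← mul_assoc, mul_comm _ (3 ^ 5)]; exact congrArg (· * a) h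
  rw [h5, e_v h3]; omega

/-- loops over the representatives modulo `L 5` -/
theorem all_hi {p : G → Prop} [DecidablePred p] (h : allB 243 (fun n => decide (p (e (243 * n)))) = true) (x : G) :
    p (hi x) := of_decide_eq_true (allB_spec h _ (by have := x.lt; omega))

theorem hi_mem_L {k : ℕ} (hk : 5 ≤ k) {x : G} : hi x ∈ L k ↔ x ∈ L k := by
  obtain ⟨a, ha, h⟩ := hi_split x
  conv_rhs => rw [h]
  exact (mul_mem_cancel_right (L_mono hk ha)).symm

theorem hi_mem {H : Subgroup G} (hH : L 5 ≤ H) {x : G} : hi x ∈ H ↔ x ∈ H := by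
  obtain ⟨a, ha, h⟩ := hi_split x
  conv_rhs => rw [h]
  exact (mul_mem_cancel_right (hH ha)).symm

end CL.T3
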