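/-
Saturated fusion systems on the group `CL.T3.G`: automorphisms of the elementary abelian subgroup `P0`.
-/
import Cfsg.Agent.Fus.T3A

set_option autoImplicit false
set_option Elab.async false

namespace CL.T3

open Subgroup Cfsg Cfsg.FusionSystem CL.Fus

attribute [local irreducible] mul inv

section
variable {T : Subgroup G} {E : FusionSystem T}

theorem lemJ {Q U : Subgroup G} (hS : SylIn 3 (autInducedBy T Q) (E.autGroup Q)) (hUQ : U ≤ Q)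
    (hN : ∀ a ∈ normalizerIn T Q, ∀ u ∈ U, a * u * a⁻¹ = u) {f : G → G} (hf : Mor E Q f) (hQ : ∀ x ∈ Q, f x ∈ Q)
    (hU : ∀ u ∈ U, f u ∈ U) (h3 : ∀ x ∈ Q, f (f (f x)) = x) : ∀ u ∈ U, f u = u := fun u hu => by
  have := Fact.mk Nat.prime_three
  obtain ⟨β, hβ, e1⟩ := hf.exists_aut' le_rfl hQ
  have h1 : β ^ 3 ^ 1 = 1 := aut_ext fun x hx => by
    rw [pow_one, pow_three, autFun_mul _ _ hx, autFun_mul _ _ hx, e1 x hx, e1 _ (hQ x hx), e1 _ (hQ _ (hQ x hx)),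
      h3 x hx, autFun_one hx]
  have h2 : SylIn 3 (autInducedBy T Q) (E.autGroup Q ⊓ stabAut Q U) :=
    hS.mono (le_inf hS.le fun γ hγ => mem_stabAut_of_finite hUQ fun x hx => by
      obtain ⟨a, ha, e2⟩ := mem_autInducedBy'.1 hγ
      rwa [e2 x (hUQ hx), hN a ha x hx]) inf_le_left
  obtain ⟨y, hy, h4⟩ := h2.exists_conj_le (isPGroup_zpowers_of_pow_eq_one h1)
    (zpowers_le_of_mem ⟨hβ, mem_stabAut_of_finite hUQ fun x hx => by rw [e1 x (hUQ hx)]; exact hU x hx⟩)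
  obtain ⟨a, ha, e2⟩ := mem_autInducedBy'.1 (h4 β (mem_zpowers β))
  have h5 : autFun y u ∈ U := (mem_stabAut.1 hy.2 u (hUQ hu)).2 hu
  have h6 := e2 _ (hUQ h5)
  rw [hN a ha _ h5, autFun_mul _ _ (hUQ h5), autFun_inv_apply _ (hUQ hu), autFun_mul _ _ (hUQ hu)] at h6
  rw [← e1 u (hUQ hu)]
  exact autFun_injOn y (autFun_mem _ (hUQ hu)) (hUQ hu) h6

/-- the map `z ↦ e u`, `g₈ ↦ e v` on `L 2` lies in `E` -/
def Mx (E : FusionSystem T) (u v : G) : Prop := ∃ f, Mor E (L 2) f ∧ f (e 1) = u ∧ f (e 3) = v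

theorem L2_val {f : G → G} (hf : Mor E (L 2) f) {x : G} (hx : x ∈ L 2) :
    f x = f (e 3) ^ (x.v / 3) * f (e 1) ^ (x.v % 3) := by
  have h1 : e 1 ∈ L 2 := by decide
  have h3 : e 3 ∈ L 2 := by decide
  rw [← hf.homOn.map_pow h1, ← hf.homOn.map_pow h3, ← hf.homOn.map_mul (pow_mem h3 _) (pow_mem h1 _),
    ← all_L (k := 2) (p := fun x => x = e 3 ^ (x.v / 3) * e 1 ^ (x.v % 3)) (by decide +kernel) x hx]

theorem maps2 {f : G → G} (hf : Mor E (L 2) f) (h1 : f (e 1) ∈ L 2) (h3 : f (e 3) ∈ L 2) : ∀ x ∈ L 2, f x ∈ L 2 :=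
  fun _ hx => by rw [L2_val hf hx]; exact mul_mem (pow_mem h3 _) (pow_mem h1 _)

theorem Mx.comp {u v u' v' a b : G} (h : Mx E u v) (h' : Mx E u' v') (hc : u' ∈ L 2 ∧ v' ∈ L 2 ∧
    v ^ (u'.v / 3) * u ^ (u'.v % 3) = a ∧ v ^ (v'.v / 3) * u ^ (v'.v % 3) = b) : Mx E a b := by
  obtain ⟨f, hf, rfl, rfl⟩ := h
  obtain ⟨g, hg, rfl, rfl⟩ := h'
  obtain ⟨h1, h2, rfl, rfl⟩ := hc
  exact ⟨_, hg.comp hf (maps2 hg h1 h2), L2_val hf h1, L2_val hf h2⟩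

theorem Mx.conj {F : FusionSystem (⊤ : Subgroup G)} (hI : StrongInv E F) {u v a b : G} (h : Mx E u v)
    (hc : u ∈ L 2 ∧ v ∈ L 2 ∧ e 19683 * u * (e 19683)⁻¹ = a ∧ e 19683 * (v * u) * (e 19683)⁻¹ = b) : Mx E a b := by
  obtain ⟨f, hf, rfl, rfl⟩ := h
  obtain ⟨h1, h2, rfl, rfl⟩ := hc
  have hg := mor_conj F (P := L 2) le_top (mem_top (e 19683))
  have := hI.mor le_rfl hf.le hf (maps2 hf h1 h2) hg
    (k := fun x => e 19683 * f ((e 19683)⁻¹ * x * e 19683) * (e 19683)⁻¹) fun x _ => by congr 3; group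
  rw [hg.img_eq_self le_rfl fun x hx => conj_L hx _] at this
  refine ⟨_, this, ?_, ?_⟩
  · rw [show (e 19683)⁻¹ * e 1 * e 19683 = e 1 by decide +kernel]
  · rw [show (e 19683)⁻¹ * e 3 * e 19683 = e 3 * e 1 by decide +kernel, hf.homOn.map_mul (by decide) (by decide)]

end

variable {F : FusionSystem (⊤ : Subgroup G)}

theorem A_L9 {a x : G} (ha : a ∈ L 5) (hx : x ∈ L 9) : a * x * a⁻¹ * x⁻¹ ∈ L 2 :=
  comm_of_gens (ech_L (by norm_num)) (ech_L (by norm_num)) (by decide +kernel) ha hx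

theorem A_P0 {a x : G} (ha : a ∈ L 5) (hx : x ∈ P0) : a * x * a⁻¹ ∈ P0 :=
  (mul_mem_cancel_right (inv_mem hx)).1 (L2_le_P0 (A_L9 ha (P0_le hx)))

theorem norm_P0 {x : G} (hx : x ∈ normalizerIn ⊤ P0) : x ∈ L 9 := by
  obtain ⟨a, ha, e1⟩ := hi_split x
  have h1 := (mem_normalizer_iff.1 hx.2 (e 99)).1 (by decide +kernel)
  rw [e1, mul_assoc (hi x), A_comm ha (by decide), show hi x * (e 99 * a) * (hi x * a)⁻¹ = hi x * e 99 * (hi x)⁻¹ by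
    group] at h1
  exact (hi_mem_L (by norm_num)).1 (all_hi (p := fun y => y * e 99 * y⁻¹ ∈ P0 → y ∈ L 9) (by decide +kernel) x h1)

theorem P0_fn (hF : F.IsSaturated 3) (hN : ∀ x ∈ L 2, x ≠ 1 → X F x) (hD : XL F 7 2) (h : Case2 F) :
    F.IsFullyNormalized P0 := by
  obtain ⟨-, -, -, r, h1, h2, -, h3⟩ := h
  obtain ⟨Q, hQ, hQ'⟩ := exists_isConj_fullyNormalized F (P := P0) le_top
  obtain ⟨f, hf, rfl⟩ := isConj_iff.1 hQ
  obtain ⟨v, b1, b2, b3⟩ : ∃ v ∈ P0, X F v ∧ f v ∉ L 2 := by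
    by_contra! h
    refine h2 (L_mono (by norm_num) (back hf L2_le_P0 (fun x hx => ?_) h1 (h r h1 h3)))
    by_cases h0 : x = 1
    · rw [h0, hf.homOn.map_one]; exact one_mem _
    · exact h x (L2_le_P0 hx) (hN x hx h0)
  obtain ⟨g, r', hr', hg, a1, -, a2, a3 | a3, c, a4⟩ := tgt5 hD (ech_P0.card.trans (by decide)) hf b1
    (fun x hx => mem_C.2 (P0_comm hx b1)) b2 b3
  · have := ((mor_conj F le_rfl (mem_top c)).mono le_top).fullyNormalized_img hQ'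
    rwa [← hf.img_comp, ← img_congr (f := g) fun x _ => a4 x, hg.img_eq_self le_rfl (C_E0 hr' a3 ▸ a1)] at this
  · exact absurd a2 (no_f hF (by norm_num) le_rfl hN hD a3.2)

theorem spread (hS : SylIn 3 (autInducedBy ⊤ P0) (F.autGroup P0)) (hN : ∀ x ∈ L 2, x ≠ 1 → X F x) (hD : XL F 7 2)
    {f : G → G} (hf : Mor F P0 f) (hP : ∀ x ∈ P0, f x ∈ P0) {y : G} (hy : y ∈ L 2) (h0 : y ≠ 1) (hfy : f y ∈ L 2) :
    ∀ l ∈ L 2, f l ∈ L 2 := fun l₁ hl₁ => by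
  obtain ⟨g, hg, a1, a2, a3⟩ := hf.exists_inv' (hf.img_eq_self le_rfl hP)
  have a4 : ∀ x ∈ P0, g x ∈ P0 := img_le_iff.1 a3.le
  by_contra hc
  obtain ⟨l, hl, h1⟩ : ∃ l ∈ L 2, g l ∉ L 5 := by
    by_contra! h
    refine hc (back hg L2_le_P0 (fun x hx => ?_) (hP _ (L2_le_P0 hl₁)) (by rwa [a1 _ (L2_le_P0 hl₁)]))
    by_cases h0 : x = 1
    · rw [h0, hg.homOn.map_one]; exact one_mem _
    · exact hD _ (L_mono (by norm_num) (h x hx)) ((hN x hx h0).map hg (L2_le_P0 hx))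
  have h2 := a4 l (L2_le_P0 hl)
  obtain ⟨a, ha, h3⟩ := orbA h2 h1 hy
  have h4 : ∀ x ∈ P0, a * g x * a⁻¹ ∈ P0 := fun x hx => A_P0 ha (a4 x hx)
  have hβ := (hg.comp (mor_conj F le_rfl (mem_top a)) fun _ _ => mem_top _).comp hf h4
  have h5 : f (a * g l * a⁻¹) = f y * l := by
    rw [← inv_mul_cancel_right (a * g l * a⁻¹) (g l), h3, hf.homOn.map_mul (L2_le_P0 hy) h2, a2 l (L2_le_P0 hl)]
  have h6 : f (a * g (f y) * a⁻¹) = f y := by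
    rw [a1 y (L2_le_P0 hy), A_comm ha (L_mono (by norm_num) hy), mul_inv_cancel_right]
  have h7 : zpowers (f y) ⊔ zpowers l ≤ L 2 := sup_le (zpowers_le_of_mem hfy) (zpowers_le_of_mem hl)
  have h8 := lemJ hS (h7.trans L2_le_P0) (fun b hb u hu => by rw [L9_comm (norm_P0 hb) (h7 hu), mul_inv_cancel_right])
    hβ (fun x hx => hP _ (h4 x hx)) (img_le_iff.1 (by
      rw [(hβ.homOn.mono (h7.trans L2_le_P0)).img_sup, hβ.homOn.img_zpowers (L2_le_P0 hfy),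
        hβ.homOn.img_zpowers (L2_le_P0 hl), h5, h6]
      exact sup_le le_sup_left (zpowers_le_of_mem (mul_mem (mem_sup_left (mem_zpowers _))
        (mem_sup_right (mem_zpowers _)))))) (fun x hx => by
      rw [a1 _ (h4 x hx), a1 _ (A_P0 ha (h4 x hx)), show a * (a * (a * g x * a⁻¹) * a⁻¹) * a⁻¹ =
        a ^ 3 * g x * (a ^ 3)⁻¹ by rw [pow_three]; group, A_cube a ha, one_mul, inv_one, mul_one, a2 x hx]) l
    (mem_sup_right (mem_zpowers _))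
  rw [h5, mul_eq_right] at h8
  exact map_ne_one hf (L2_le_P0 hy) h0 h8

theorem reg_ab : ∀ a ∈ [9, 36], ∀ u ∈ P0, e a * u * (e a)⁻¹ * u⁻¹ = 1 → u ∈ L 5 := fun a ha =>
  ech_P0.all (by revert a; decide +kernel)

theorem same_comm {a : ℕ} (ha : a ∈ [9, 36]) {u v : G} (hu : u ∈ P0) (hv : v ∈ P0)
    (h : e a * v * (e a)⁻¹ * v⁻¹ = e a * u * (e a)⁻¹ * u⁻¹) : u⁻¹ * v ∈ L 5 :=
  reg_ab a ha _ (mul_mem (inv_mem hu) hv) (by
    rw [show e a * (u⁻¹ * v) * (e a)⁻¹ * (u⁻¹ * v)⁻¹ = e a * u⁻¹ * (e a)⁻¹ * (e a * v * (e a)⁻¹ * v⁻¹) * u by group, h]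
    group)

theorem g45 : ∀ k ∈ P0, (e 9 * k * (e 9)⁻¹ * k⁻¹ = (e 1)⁻¹ → (e 36 * k * (e 36)⁻¹ * k⁻¹)⁻¹ = e 4) ∧
    (e 9 * k * (e 9)⁻¹ * k⁻¹ = (e 3)⁻¹ → (e 36 * k * (e 36)⁻¹ * k⁻¹)⁻¹ = e 5) := ech_P0.all (by decide +kernel)

section
variable (hS : SylIn 3 (autInducedBy ⊤ P0) (F.autGroup P0)) (hN : ∀ x ∈ L 2, x ≠ 1 → X F x) (hD : XL F 7 2)
  {α : G → G} (hα : Mor F P0 α) (hP : ∀ x ∈ P0, α x ∈ P0) {r : G} (hr : r ∈ P0) (hr' : r ∉ L 5) (hαr : α r ∈ L 1)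
include hS hN hD hα hP hr hr' hαr

theorem K_inf {m : G} (hm : m ∈ P0) (h5 : m ∈ L 5) (h : α m ∈ L 2) : m = 1 := by
  by_contra h0
  exact hr' (L_mono (by norm_num) (back hα L2_le_P0 (spread hS hN hD hα hP (hD _ (L_mono (by norm_num) h5)
    (X.of_map hα hm (hN _ h (map_ne_one hα hm h0)))) h0 h) hr (L_mono (by norm_num) hαr)))

theorem exists_nu {T : Subgroup G} {E : FusionSystem T} (hT : L 9 ≤ T) (hE : E.IsSubsystemOf F) (hI : StrongInv E F)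
    {a : ℕ} (ha : a ∈ [9, 36]) : ∃ ν, Mor E P0 ν ∧ (∀ x ∈ P0, ν x ∈ P0) ∧
      ∀ l ∈ L 2, α (ν l) ∈ L 2 ∧ e a * ν l * (e a)⁻¹ * (ν l)⁻¹ = l⁻¹ := by
  have hK := @K_inf F hS hN hD α hα hP r hr hr' hαr
  have h59 : L 5 ≤ T := (L_mono (by norm_num)).trans hT
  have ha5 : e a ∈ L 5 := by revert a; decide
  obtain ⟨g, hg, a1, a2, a3⟩ := hα.exists_inv' (hα.img_eq_self le_rfl hP)
  have a4 : ∀ x ∈ P0, g x ∈ P0 := img_le_iff.1 a3.le
  have h1 := inv_mem (A_L9 ha5 (P0_le hr))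
  have h2 : (e a * r * (e a)⁻¹ * r⁻¹)⁻¹ ≠ 1 := fun h => hr' (reg_ab a ha r hr (inv_eq_one.1 h))
  generalize hl : (e a * r * (e a)⁻¹ * r⁻¹)⁻¹ = l₀ at h1 h2
  have h3 : α l₀ ∉ L 5 := fun h => h2 (hK (L2_le_P0 h1) (L_mono (by norm_num) h1)
    (hD _ (L_mono (by norm_num) h) ((hN _ h1 h2).map hα (L2_le_P0 h1))))
  obtain ⟨b, hb, h4⟩ := orbA (hP _ (L2_le_P0 h1)) h3 (L_mono (by norm_num) hαr)
  have h5 : ∀ x ∈ P0, b * α x * b⁻¹ ∈ P0 := fun x hx => A_P0 hb (hP x hx)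
  have hτ := hI.mor le_rfl (P0_le.trans hT) (mor_conj E (P0_le.trans hT) (h59 hb)) (fun x => A_P0 hb) hg
    (k := fun x => g (b * α x * b⁻¹)) fun x hx => by rw [a2 x hx]
  rw [a3] at hτ
  have hν := hτ.comp (mor_conj E (P0_le.trans hT) (h59 ha5)) fun x hx => a4 _ (h5 x hx)
  have h6 : ∀ x ∈ P0, e a * g (b * α x * b⁻¹) * (e a)⁻¹ ∈ P0 := fun x hx => A_P0 ha5 (a4 _ (h5 x hx))
  have h7 : ∀ l ∈ L 2, e a * g (b * α l * b⁻¹) * (e a)⁻¹ = e a * g (b * α l * b⁻¹ * (α l)⁻¹) * (e a)⁻¹ * l :=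
    fun l hl => by
      have h8 := hP _ (L2_le_P0 hl)
      rw [← inv_mul_cancel_right (b * α l * b⁻¹) (α l), hg.homOn.map_mul (L2_le_P0 (A_L9 hb (P0_le h8))) h8,
        a1 l (L2_le_P0 hl), inv_mul_cancel_right, mul_assoc _ _ l, A_comm (inv_mem ha5) (L_mono (by norm_num) hl)]
      simp only [mul_assoc]
  have h8 := spread hS hN hD ((hν.of_subsystem hE).comp hα h6) (fun x hx => hP _ (h6 x hx)) h1 h2 (by
    rw [h7 _ h1, h4, a1 r hr, ← inv_mul_cancel_right (e a * r * (e a)⁻¹) r, mul_assoc _ r,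
      L9_comm (P0_le hr) h1, ← mul_assoc, ← hl, mul_inv_cancel, one_mul]
    exact L_mono (by norm_num) hαr)
  refine ⟨_, hν, h6, fun l hl => ⟨h8 l hl, ?_⟩⟩
  have h9 := h8 l hl
  have b1 := A_L9 hb (P0_le (hP _ (L2_le_P0 hl)))
  rw [h7 l hl] at h9 ⊢
  have b2 := a4 _ (L2_le_P0 b1)
  have b3 := a2 _ (L2_le_P0 b1)
  generalize g (b * α l * b⁻¹ * (α l)⁻¹) = k at h9 b2 b3 ⊢
  have b4 := mul_mem (A_L9 ha5 (P0_le b2)) hl
  have b5 : e a * k * (e a)⁻¹ * l = e a * k * (e a)⁻¹ * k⁻¹ * l * k := by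
    rw [mul_assoc _ l, ← L9_comm (P0_le b2) hl]; group
  rw [b5, hα.homOn.map_mul (L2_le_P0 b4) b2, mul_mem_cancel_right (b3 ▸ b1)] at h9
  have b6 := hK (L2_le_P0 b4) (L_mono (by norm_num) b4) h9
  rw [b5, b6, one_mul]
  exact eq_inv_of_mul_eq_one_left b6

theorem K_cover {u : G} (hu : u ∈ P0) (hu' : u ∉ L 5) : ∃ k, X F k ∧ u⁻¹ * k ∈ L 5 := by
  obtain ⟨ν, h1, h2, h3⟩ := exists_nu hS hN hD hα hP hr hr' hαr le_top (fun _ => le_rfl) (strongInv_self F)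
    (a := 9) (by decide)
  have h4 := inv_mem (A_L9 (a := e 9) (by decide) (P0_le hu))
  obtain ⟨h5, h6⟩ := h3 _ h4
  have h7 := h2 _ (L2_le_P0 h4)
  have h8 := same_comm (by decide) hu h7 (h6.trans (inv_inv _))
  refine ⟨_, X.of_map hα h7 (hN _ h5 (map_ne_one hα h7 fun h => hu' ?_)), h8⟩
  rwa [h, mul_one, inv_mem_iff] at h8

theorem mx45 {T : Subgroup G} {E : FusionSystem T} (hT : L 9 ≤ T) (hE : E.IsSubsystemOf F) (hI : StrongInv E F) :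
    Mx E (e 4) (e 5) := by
  obtain ⟨ν, h1, h2, h3⟩ := exists_nu hS hN hD hα hP hr hr' hαr hT hE hI (a := 9) (by decide)
  obtain ⟨μ, b1, b2, b3⟩ := exists_nu hS hN hD hα hP hr hr' hαr hT hE hI (a := 36) (by decide)
  have : Finite T := inferInstance
  obtain ⟨g, hg, a1, -, -⟩ := b1.exists_inv' (b1.img_eq_self le_rfl b2)
  have key : ∀ l ∈ L 2, g (ν l) = (e 36 * ν l * (e 36)⁻¹ * (ν l)⁻¹)⁻¹ := fun l hl => by
    have c1 := h2 l (L2_le_P0 hl)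
    have c2 := inv_mem (A_L9 (a := e 36) (by decide) (P0_le c1))
    obtain ⟨c3, c4⟩ := b3 _ c2
    have c5 := b2 _ (L2_le_P0 c2)
    have c6 := K_inf hS hN hD hα hP hr hr' hαr (mul_mem (inv_mem c1) c5)
      (same_comm (by decide) c1 c5 (c4.trans (inv_inv _))) (by
        rw [hα.homOn.map_mul (inv_mem c1) c5, hα.homOn.map_inv c1]
        exact mul_mem (inv_mem (h3 l hl).1) c3)
    rw [← a1 _ (L2_le_P0 c2), ← inv_mul_eq_one.1 c6]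
  have c1 : e 1 ∈ L 2 := by decide
  have c3 : e 3 ∈ L 2 := by decide
  exact ⟨_, (h1.comp hg h2).mono L2_le_P0, (key _ c1).trans ((g45 _ (h2 _ (L2_le_P0 c1))).1 (h3 _ c1).2),
    (key _ c3).trans ((g45 _ (h2 _ (L2_le_P0 c3))).2 (h3 _ c3).2)⟩

end

theorem case2_out (hF : F.IsSaturated 3) (hN : ∀ x ∈ L 2, x ≠ 1 → X F x) (hD : XL F 7 2) (h : Case2 F) :
    (∀ u ∈ P0, u ∉ L 5 → ∃ k, X F k ∧ u⁻¹ * k ∈ L 5) ∧ ∀ (T : Subgroup G) (E : FusionSystem T), L 9 ≤ T →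
      E.IsSubsystemOf F → StrongInv E F → Mx E (e 1) (e 4) ∧ Mx E (e 1) (e 6) := by
  have := Fact.mk Nat.prime_three
  have hS := sylIn_of_fullyNormalized pT hF (P0_fn hF hN hD h)
  obtain ⟨α, h1, h2, r, h3, h4, h5, -⟩ := h
  refine ⟨fun u => K_cover hS hN hD h1 h2 h3 h4 h5, fun T E hT hE hI => ?_⟩
  have g := mx45 hS hN hD h1 h2 h3 h4 h5 hT hE hI
  have h := g.conj hI (a := e 3) (b := e 7) (by decide +kernel)
  have k := h.conj hI (a := e 5) (b := e 1) (by decide +kernel)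
  exact ⟨h.comp g (by decide +kernel),
    k.comp (k.comp g (a := e 3) (b := e 8) (by decide +kernel)) (by decide +kernel)⟩

end CL.T3
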