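/-
Saturated fusion systems on the group `CL.T3.G`: strongly closed subgroups.
-/
import Cfsg.Agent.Fus.T3P

set_option autoImplicit false
set_option Elab.async false

namespace CL.T3

open Subgroup Cfsg Cfsg.FusionSystem CL.Fus

attribute [local irreducible] mul inv

/-- `N` has an element of level `k + 1` -/
def Has (N : Subgroup G) (k : ℕ) : Prop := ∃ x ∈ N, x ∈ L (k + 1) ∧ x ∉ L k

theorem Has.le {N : Subgroup G} {k : ℕ} (h : Has N k) (hk : k < 10) (hN : L k ≤ N) : L (k + 1) ≤ N := by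
  obtain ⟨x, h1, h2, h3⟩ := h
  exact L_succ_le hk hN h1 h2 h3

theorem lk_mem {N : Subgroup G} [hN : N.Normal] {x : G} (hx : x ∈ N) (g : G) : g * x * g⁻¹ * x⁻¹ ∈ N :=
  mul_mem (hN.conj_mem x hx g) (inv_mem hx)

theorem Has.lower {N : Subgroup G} [N.Normal] {k j : ℕ} (h : Has N k) (g : G)
    (hc : ∀ x ∈ L (k + 1), x ∉ L k → g * x * g⁻¹ * x⁻¹ ∈ L (j + 1) ∧ g * x * g⁻¹ * x⁻¹ ∉ L j) : Has N j := by
  obtain ⟨x, h1, h2, h3⟩ := h
  exact ⟨_, lk_mem h1 g, hc x h2 h3⟩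

theorem lk_mul (g x : G) {b : G} (hb : b ∈ L 5) :
    ∃ a ∈ L 4, g * (x * b) * g⁻¹ * (x * b)⁻¹ = g * x * g⁻¹ * x⁻¹ * a :=
  ⟨_, conj_L (comm_L (by norm_num) hb g) x, by group⟩

theorem low_hi {k j : ℕ} (hk : 5 ≤ k) (hj : 4 ≤ j) {g : G} (hc : ∀ x, hi x ∈ L (k + 1) → hi x ∉ L k →
    g * hi x * g⁻¹ * (hi x)⁻¹ ∈ L (j + 1) ∧ g * hi x * g⁻¹ * (hi x)⁻¹ ∉ L j) :
    ∀ x ∈ L (k + 1), x ∉ L k → g * x * g⁻¹ * x⁻¹ ∈ L (j + 1) ∧ g * x * g⁻¹ * x⁻¹ ∉ L j := fun x h1 h2 => by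
  obtain ⟨b, hb, e1⟩ := hi_split x
  obtain ⟨a, ha, e2⟩ := lk_mul g (hi x) hb
  rw [← e1] at e2
  rw [e2, mul_mem_cancel_right (L_mono hj ha), mul_mem_cancel_right (L_mono (by omega) ha)]
  exact hc x ((hi_mem_L (by omega)).2 h1) (by rwa [hi_mem_L hk])

variable {N : Subgroup G} [N.Normal]

theorem low3 (h : Has N 3) : Has N 2 := h.lower (e 19683) (all_L (by decide +kernel))
theorem low4 (h : Has N 4) : Has N 3 := h.lower (e 19683) (all_L (by decide +kernel))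
theorem low6 (h : Has N 6) : Has N 4 := h.lower (e 6561) (low_hi (by norm_num) (by norm_num) (all_hi (p := fun y =>
  y ∈ L 7 → y ∉ L 6 → e 6561 * y * (e 6561)⁻¹ * y⁻¹ ∈ L 5 ∧ e 6561 * y * (e 6561)⁻¹ * y⁻¹ ∉ L 4) (by decide +kernel)))
theorem low7 (h : Has N 7) : Has N 5 := h.lower (e 19683) (low_hi (by norm_num) (by norm_num) (all_hi (p := fun y =>
  y ∈ L 8 → y ∉ L 7 → e 19683 * y * (e 19683)⁻¹ * y⁻¹ ∈ L 6 ∧ e 19683 * y * (e 19683)⁻¹ * y⁻¹ ∉ L 5)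
  (by decide +kernel)))
theorem low8 (h : Has N 8) : Has N 7 := h.lower (e 19683) (low_hi (by norm_num) (by norm_num) (all_hi (p := fun y =>
  y ∈ L 9 → y ∉ L 8 → e 19683 * y * (e 19683)⁻¹ * y⁻¹ ∈ L 8 ∧ e 19683 * y * (e 19683)⁻¹ * y⁻¹ ∉ L 7)
  (by decide +kernel)))

theorem Has.of_coset {N : Subgroup G} {k : ℕ} (hk : 5 ≤ k) {t x : G} (hx : x ∈ N) (h : t⁻¹ * x ∈ L 5)
    (ht : t ∈ L (k + 1) ∧ t ∉ L k) : Has N k := by
  refine ⟨x, hx, ?_⟩
  rwa [← mul_inv_cancel_left t x, mul_mem_cancel_right (L_mono hk h), mul_mem_cancel_right (L_mono (by omega) h)]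

theorem climb2 (h2 : L 2 ≤ N) {a b : G} (ha : a ∈ N) (hb : b ∈ N) (ha' : (e 2187)⁻¹ * a ∈ L 5)
    (hb' : (e 7533)⁻¹ * b ∈ L 5) : L 9 ≤ N := by
  have h7 : Has N 7 := Has.of_coset (by norm_num) ha ha' (by decide)
  have h8 : Has N 8 := Has.of_coset (by norm_num) hb hb' (by decide)
  obtain ⟨c, hc, e1⟩ := lk_mul (e 19683) (e 7533) hb'
  rw [mul_inv_cancel_left] at e1
  have h6 : Has N 6 := Has.of_coset (t := e 19683 * e 7533 * (e 19683)⁻¹ * (e 7533)⁻¹ * (e 2187)⁻¹) (by norm_num)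
    (mul_mem (lk_mem hb (e 19683)) (inv_mem ha)) (by
      have := conj_L (mul_mem (L_mono (by norm_num) hc) (inv_mem ha')) (e 2187)
      rw [e1]; convert this using 1; group) (by decide +kernel)
  have h4 := low6 h6
  have h3 := low4 h4
  exact h8.le (by norm_num) (h7.le (by norm_num) (h6.le (by norm_num) ((low7 h7).le (by norm_num) (h4.le (by norm_num)
    (h3.le (by norm_num) ((low3 h3).le (by norm_num) h2))))))

variable {F : FusionSystem (⊤ : Subgroup G)} {T P R : Subgroup G} {f θ ψ : G → G}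

theorem sc_normal (hT : F.StronglyClosed T) : T.Normal :=
  ⟨fun x hx g => (mor_conj F le_rfl (mem_top g)).mem_of_stronglyClosed hT (mem_top x) hx⟩

/-- preimages -/
noncomputable def pre (hf : Mor F P f) (R : Subgroup G) : Subgroup G := (R.comap hf.homOn.toHom).map P.subtype

theorem mem_pre (hf : Mor F P f) {x : G} : x ∈ pre hf R ↔ x ∈ P ∧ f x ∈ R :=
  ⟨by rintro ⟨y, hy, rfl⟩; exact ⟨y.2, hy⟩, fun h => ⟨⟨x, h.1⟩, h.2, rfl⟩⟩

theorem onto (hf : Mor F P f) (hR : R ≤ P) (h : ∀ x ∈ R, f x ∈ R) {y : G} (hy : y ∈ R) : ∃ x ∈ R, f x = y := by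
  rwa [← hf.img_eq_self hR h, hf.mem_img' hR] at hy

theorem L7_comm {x u : G} (hx : x ∈ L 7) (hu : u ∈ L 3) : x * u = u * x := by
  have := comm_of_gens (ech_L (by norm_num)) (ech_L (by norm_num)) (k := 0) (by decide +kernel) hx hu
  rwa [L_zero, mem_bot, mul_inv_eq_one, mul_inv_eq_iff_eq_mul] at this

theorem mem_L7 {x : G} (h3 : x ∈ C (e 3)) (h9 : x ∈ C (e 9)) : x ∈ L 7 :=
  ((ech_rep (r := 9) (by decide)).inf_L 9).le (by decide) ⟨h9, C3 ▸ h3⟩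

theorem maps_L7 (hf : Mor F P f) (hP : L 7 ≤ P) (h : ∀ x ∈ L 3, f x ∈ L 3) {x : G} (hx : x ∈ L 7) : f x ∈ L 7 := by
  have h3 : L 3 ≤ P := (L_mono (by norm_num)).trans hP
  have key : ∀ u ∈ L 3, f x ∈ C u := fun u hu => by
    obtain ⟨v, hv, rfl⟩ := onto hf h3 h hu
    exact mem_C.2 ((map_comm hf (hP hx) (h3 hv)).2 (L7_comm hx hv))
  exact mem_L7 (key _ (by decide)) (key _ (by decide))

theorem cube_L7 : ∀ x ∈ L 7, x ^ 3 ∈ L 1 := all_L (by decide +kernel)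

theorem noV (hθ : Mor F (L 9) θ) (hz : θ (e 1) ∉ L 1) {V : Subgroup G} (h3 : L 3 ≤ V) (h4 : V ≤ L 4)
    (hV : ∀ x ∈ V, θ x ∈ V) : False := by
  by_cases h : V ≤ L 3
  · have h1 := cube_L7 _ (maps_L7 hθ (L_mono (by norm_num)) (fun x hx => h (hV x (h3 hx))) (x := e 243) (by decide))
    rw [← hθ.homOn.map_pow (by decide), show e 243 ^ 3 = (e 1)⁻¹ by decide +kernel, hθ.homOn.map_inv (by decide),
      inv_mem_iff] at h1
    exact hz h1
  · obtain ⟨a, h1, h2⟩ := SetLike.not_le_iff_exists.1 h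
    have h5 : ∀ x ∈ L 4, θ x ∈ L 4 := fun x hx => h4 (hV x (L_succ_le (by norm_num) h3 h1 (h4 h1) h2 hx))
    have key : ∀ x ∈ L 9, L 4 ≤ C x → θ x ∈ C (e 27) ⊓ L 7 := fun x hx hc => by
      have key : ∀ u ∈ L 4, θ x ∈ C u := fun u hu => by
        obtain ⟨v, hv, rfl⟩ := onto hθ (L_mono (by norm_num)) h5 hu
        exact mem_C.2 ((map_comm hθ hx (L_mono (by norm_num) hv)).2 (mem_C.1 (hc hv)).symm)
      exact ⟨key _ (by decide), mem_L7 (key _ (by decide)) (key _ (by decide))⟩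
    have hE := (ech_rep (r := 27) (by decide)).inf_L 7
    have h6 := comm_of_gens hE hE (k := 1) (by decide +kernel)
      (key (e 81) (by decide) (L_le (by norm_num) (by decide +kernel)))
      (key (e 729) (by decide) (L_le (by norm_num) (by decide +kernel)))
    rw [← map_lk hθ (by decide) (by decide), show e 81 * e 729 * (e 81)⁻¹ * (e 729)⁻¹ = e 1 by decide +kernel] at h6
    exact hz h6

theorem maps_A (hθ : Mor F (L 9) θ) (hz : θ (e 1) ∉ L 1) {a : G} (ha : a ∈ L 5) : θ a ∈ L 5 := by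
  have h9 : a ∈ L 9 := L_mono (by norm_num) ha
  have key : ∀ g ∈ L 9, hi (θ a) ∈ CM 2 g := fun g hg => by
    obtain ⟨x, hx, rfl⟩ := onto hθ le_rfl (fun x => maps_L9 hθ hz) hg
    rw [hi_mem fun b hb => mem_CM.2 (A_L9 hb hg), mem_CM, ← map_lk hθ h9 hx]
    exact maps_L2 hθ (A_L9 ha hx)
  exact (hi_mem_L le_rfl).1 (all_hi (p := fun y => y ∈ L 9 → y ∈ CM 2 (e 6561) → y ∈ CM 2 (e 729) → y ∈ L 5)
    (by decide +kernel) _ ((hi_mem_L (by norm_num)).2 (maps_L9 hθ hz h9)) (key _ (by decide)) (key _ (by decide)))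

theorem maps_L3 (hψ : Mor F E1 ψ) (h1 : ψ (e 1) ∈ L 1) (h3 : ψ (e 3) ∈ L 3) : ∀ x ∈ L 3, ψ x ∈ L 3 :=
  maps_L hψ (by norm_num) ((L_mono (by norm_num)).trans L8_le_E1) fun j hj => by
    interval_cases j
    · exact L_mono (by norm_num) h1
    · exact h3
    · have h9 : e 9 ∈ E1 := L8_le_E1 (by decide)
      refine (cz_L (map_cube hψ h9 (by decide +kernel))).2.2.1.2 ?_
      rw [← show 3 ^ kk 9 = 3 ^ 8 by decide, ← cz_rep (by decide)]
      exact card_le_cz hψ ((ech_rep (by decide)).le (by decide +kernel)) h9 le_rfl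

theorem om6 : ∀ x ∈ L 6, x ^ 3 = 1 → x ∈ L 5 := all_L (by decide +kernel)

theorem CA7 {x a : G} (h7 : x ∈ L 7) (h6 : x ∉ L 6) (ha : a ∈ L 5) (h : x ∈ C a) : a ∈ L 4 := by
  have h1 := all_hi (p := fun y => y ∈ L 7 → y ∉ L 6 → ∀ n < 243, y ∈ C (e n) → n < 81) (by decide +kernel) x
    ((hi_mem_L (by norm_num)).2 h7) (by rwa [hi_mem_L (by norm_num)]) a.v ha
  rw [e_self, hi_mem fun b hb => mem_C.2 (A_comm hb ha)] at h1
  exact h1 h

theorem climb1 (hT : F.StronglyClosed T) (h2 : L 2 ≤ T) (hθ : Mor F (L 9) θ) (hz : θ (e 1) ∉ L 1) (h : Case1 F) :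
    T = ⊤ := by
  obtain ⟨ψ, hψ, a1, a2, a3, a4⟩ := h
  have := sc_normal hT
  have hy : e 3 ∈ E1 := L8_le_E1 (by decide)
  have h7E : L 7 ≤ E1 := (L_mono (by norm_num)).trans L8_le_E1
  have h3 : L 3 ≤ T := L_succ_le (by norm_num) h2 (hψ.mem_of_stronglyClosed hT hy (h2 (by decide))) a3 a2
  have b4 : Has T 4 := by
    by_contra h
    exact noV hθ hz (V := T ⊓ L 5) (le_inf h3 (L_mono (by norm_num)))
      (fun x hx => by by_contra h'; exact h ⟨x, hx.1, hx.2, h'⟩)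
      fun x hx => ⟨hθ.mem_of_stronglyClosed hT (L_mono (by norm_num) hx.2) hx.1, maps_A hθ hz hx.2⟩
  have h5 : L 5 ≤ T := b4.le (by norm_num) ((low4 b4).le (by norm_num) h3)
  have a5 := maps_L3 hψ a4 a3
  have b6 : Has T 6 := by
    by_contra h
    have c1 : e 81 ∈ E1 := h7E (by decide)
    have c2 : ψ (e 81) ∈ L 5 := om6 _ (by
      by_contra h'
      exact h ⟨_, hψ.mem_of_stronglyClosed hT c1 (h5 (by decide)), maps_L7 hψ h7E a5 (by decide), h'⟩)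
      (map_cube hψ c1 (by decide +kernel))
    have c3 := A_L9 c2 (L_mono (by norm_num) (maps_L7 hψ h7E a5 (x := e 243) (by decide)))
    rw [← map_lk hψ c1 (h7E (by decide)), show e 81 * e 243 * (e 81)⁻¹ * (e 243)⁻¹ = e 3 by decide +kernel] at c3
    exact a2 c3
  have c9 : ∀ x ∈ T ⊓ L 9, θ x ∈ T ⊓ L 9 := fun x hx =>
    ⟨hθ.mem_of_stronglyClosed hT hx.2 hx.1, maps_L9 hθ hz hx.2⟩
  have b7 : Has T 7 := by
    by_contra h
    have c1 : T ⊓ L 9 ≤ L 7 := fun x hx => by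
      by_contra h7
      by_cases h8 : x ∈ L 8
      · exact h ⟨x, hx.1, h8, h7⟩
      · exact h (low8 ⟨x, hx.1, hx.2, h8⟩)
    obtain ⟨x, d1, d2, d3⟩ := b6
    refine noV hθ hz (V := L 5 ⊓ centralizer (T ⊓ L 9 : Subgroup G))
      (fun u hu => ⟨L_mono (by norm_num) hu, fun t ht => L7_comm (c1 ht) hu⟩)
      (fun a ha => CA7 d2 d3 ha.1 (mem_C.2 (ha.2 x ⟨d1, L_mono (by norm_num) d2⟩)))
      fun a ha => ⟨maps_A hθ hz ha.1, fun t ht => ?_⟩
    obtain ⟨s, hs, rfl⟩ := onto hθ inf_le_right c9 ht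
    exact (map_comm hθ hs.2 (L_mono (by norm_num) ha.1)).2 (ha.2 s hs)
  have h8 : L 8 ≤ T := b7.le (by norm_num) (b6.le (by norm_num) ((low7 b7).le (by norm_num) h5))
  have b9 : Has T 9 := by
    by_contra h
    have c1 : ∀ x ∈ L 8, ψ x ∈ L 8 := fun x hx => ech_E1.miss (k := 8) (by norm_num) rfl _ (a1 x (L8_le_E1 hx)) (by
      by_contra h'
      exact h ⟨_, hψ.mem_of_stronglyClosed hT (L8_le_E1 hx) (h8 hx), G.lt _, h'⟩)
    obtain ⟨x, hx, e1⟩ := onto hψ L8_le_E1 c1 (y := e 2187) (by decide)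
    refine a2 (all_L (k := 3) (p := fun u => e 2187 ∈ C u → u ∈ L 2) (by decide +kernel) _ a3 ?_)
    rw [← e1, mem_C, map_comm hψ (L8_le_E1 hx) hy]
    exact L9_comm (L_mono (by norm_num) hx) (by decide)
  have b8 : Has T 8 := by
    by_contra h
    have c1 : ∀ x ∈ L 8, θ x ∈ L 8 := fun x hx => by
      by_contra h'
      have := c9 x ⟨h8 hx, L_mono (by norm_num) hx⟩
      exact h ⟨_, this.1, this.2, h'⟩
    have c2 : ∀ x ∈ L 8, ∀ y ∈ L 8, x * y * x⁻¹ * y⁻¹ ∈ L 4 := fun x hx y hy =>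
      comm_of_gens (ech_L (by norm_num)) (ech_L (by norm_num)) (by decide +kernel) hx hy
    have c3 : ∀ x ∈ L 8, ∀ y ∈ L 8, x * y * x⁻¹ * y⁻¹ ∈ pre hθ (L 4) := fun x hx y hy =>
      (mem_pre hθ).2 ⟨L_mono (by norm_num) (c2 x hx y hy), by
        rw [map_lk hθ (L_mono (by norm_num) hx) (L_mono (by norm_num) hy)]; exact c2 _ (c1 x hx) _ (c1 y hy)⟩
    have c4 : L 4 ≤ pre hθ (L 4) := L_succ_le (by norm_num) (L_succ_le (by norm_num)
      (fun x hx => (mem_pre hθ).2 ⟨L_mono (by norm_num) hx, L_mono (by norm_num) (maps_L2 hθ hx)⟩)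
      (c3 (e 2187) (by decide) (e 243) (by decide)) (by decide +kernel) (by decide +kernel))
      (c3 (e 2187) (by decide) (e 729) (by decide)) (by decide +kernel) (by decide +kernel)
    exact noV hθ hz (L_mono (by norm_num)) le_rfl fun x hx => ((mem_pre hθ).1 (c4 hx)).2
  exact eq_top_iff.2 (L_ten ▸ b9.le (by norm_num) (b8.le (by norm_num) h8))

end CL.T3
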