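/-
Saturated fusion systems on the group `CL.T3.G` with trivial core are simple.
-/
import Cfsg.Agent.Fus.T3K
import Cfsg.Agent.Fus.Chain

set_option autoImplicit false
set_option Elab.async false

namespace CL.T3

open Subgroup Cfsg Cfsg.FusionSystem CL.Fus

attribute [local irreducible] mul inv

variable {F E : FusionSystem (⊤ : Subgroup G)} {f : G → G}

theorem CA {x : G} (h : L 5 ≤ C x) : x ∈ L 5 := by
  have key : ∀ a ∈ L 5, hi x ∈ C a := fun a ha =>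
    (hi_mem fun b hb => mem_C.2 (A_comm hb ha)).2 (mem_C.2 (mem_C.1 (h ha)).symm)
  exact (hi_mem_L le_rfl).1 (all_hi (p := fun y => y ∈ C (e 3) → y ∈ C (e 27) → y ∈ C (e 81) → y ∈ L 5)
    (by decide +kernel) x (key _ (by decide)) (key _ (by decide)) (key _ (by decide)))

theorem top_L (hf : Mor F ⊤ f) {x : G} (h5 : x ∈ L 5) : (x ∈ L 1 → f x ∈ L 1) ∧ (x ∈ L 2 → f x ∈ L 2) ∧
    (x ∈ L 3 → f x ∈ L 3) ∧ f x ∈ L 5 := by
  have h1 := cz_L (A_cube x h5)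
  have h2 := cz_L (map_cube hf (mem_top x) (A_cube x h5))
  have h3 : cz x ≤ cz (f x) := card_le_cz hf le_top (mem_top x) le_rfl
  exact ⟨fun h => h2.1.2 ((h1.1.1 h).trans h3), fun h => h2.2.1.2 ((h1.2.1.1 h).trans h3),
    fun h => h2.2.2.1.2 ((h1.2.2.1.1 h).trans h3), h2.2.2.2.1.2 ((h1.2.2.2.1.1 h5).trans h3)⟩

theorem triv_of_gen (hf : Mor F ⊤ f) {k : ℕ} (hk : k < 10) (hL : ∀ x ∈ L k, f x ∈ L k) {g : G}
    (hg : g ∈ L (k + 1) ∧ g ∉ L k) (h : g⁻¹ * f g ∈ L k) : ∀ x ∈ L (k + 1), x⁻¹ * f x ∈ L k := fun _ hx =>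
  QuotientGroup.eq.1 (L_succ_le hk (H := (QuotientGroup.mk' (L k)).eqLocus ((QuotientGroup.mk' (L k)).comp
    (MonoidHom.mk' f fun a b => hf.homOn a (mem_top a) b (mem_top b))))
    (fun y hy => QuotientGroup.eq.2 (mul_mem (inv_mem hy) (hL y hy))) (QuotientGroup.eq.2 h) hg.1 hg.2 hx)

theorem cube_lk : ∀ x ∈ L 7, x ^ 3 = (e 1)⁻¹ → x * e 27 * x⁻¹ * (e 27)⁻¹ = (e 1)⁻¹ := all_L (by decide +kernel)

theorem triv_A (hf : Mor F ⊤ f) (h1 : f (e 1) = e 1) (h2 : (e 3)⁻¹ * f (e 3) ∈ L 1) :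
    ∀ k < 5, ∀ x ∈ L (k + 1), x⁻¹ * f x ∈ L k := by
  have m := fun x y => map_lk hf (mem_top x) (mem_top y)
  have i1 : ∀ x ∈ L 1, f x ∈ L 1 := fun x hx => (top_L hf (L_mono (by norm_num) hx)).1 hx
  have i2 : ∀ x ∈ L 2, f x ∈ L 2 := fun x hx => (top_L hf (L_mono (by norm_num) hx)).2.1 hx
  have i3 : ∀ x ∈ L 3, f x ∈ L 3 := fun x hx => (top_L hf (L_mono (by norm_num) hx)).2.2.1 hx
  have i5 : ∀ x ∈ L 5, f x ∈ L 5 := fun x hx => (top_L hf hx).2.2.2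
  have i4 : ∀ x ∈ L 4, f x ∈ L 4 := fun x hx => ((mem_pre hf).1 (L_succ_le (H := pre hf (L 4)) (by norm_num)
    (fun y hy => (mem_pre hf).2 ⟨mem_top _, L_mono (by norm_num) (i3 y hy)⟩)
    ((mem_pre hf).2 ⟨mem_top _, by rw [m (e 19683) (e 81)]; exact comm_L (by norm_num) (i5 _ (by decide)) _⟩)
    (by decide +kernel) (by decide +kernel) hx)).2
  have hz : f (e 1)⁻¹ = (e 1)⁻¹ := by rw [hf.homOn.map_inv (mem_top _), h1]
  have a1 : (e 19683)⁻¹ * f (e 19683) ∈ L 9 := by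
    have e0 : e 19683 * e 3 * (e 19683)⁻¹ * (e 3)⁻¹ = (e 1)⁻¹ := by decide +kernel
    have e1 := m (e 19683) (e 3)
    rw [e0, hz, ← e0, ← mul_inv_cancel_left (e 3) (f (e 3))] at e1
    generalize (e 3)⁻¹ * f (e 3) = c at h2 e1
    rw [← mul_assoc, mul_assoc _ c, ← L1_comm h2] at e1
    rw [← C3, mem_C]
    calc _ = (e 19683)⁻¹ * (f (e 19683) * e 3 * ((f (e 19683))⁻¹ * c) * (e 3 * c)⁻¹) * e 3 * f (e 19683) := by group
      _ = _ := by rw [← e1]; group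
  have a2 : ∀ u ∈ L 5, ∃ c ∈ L 2, f (e 19683) * u * (f (e 19683))⁻¹ * u⁻¹ = e 19683 * u * (e 19683)⁻¹ * u⁻¹ * c :=
    fun u hu => ⟨_, conj_L (A_L9 (inv_mem hu) a1) (u * e 19683), by group⟩
  have a3 : (e 27)⁻¹ * f (e 27) ∈ L 3 := by
    have b1 := maps_L7 hf le_top i3 (x := e 243) (by decide)
    have b2 := cube_lk _ b1 (by rw [← hf.homOn.map_pow (mem_top _), ← hz]; congr 1; decide +kernel)
    have b3 := m (e 243) (e 27)
    rw [show e 243 * e 27 * (e 243)⁻¹ * (e 27)⁻¹ = (e 1)⁻¹ by decide +kernel, hz] at b3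
    by_contra h
    have b4 := L_succ_le (H := C (f (e 243))) (by norm_num) (fun u hu => mem_C.2 (L7_comm b1 hu).symm) (mem_C.2 (.symm (by
      calc _ = (f (e 243) * e 27 * (f (e 243))⁻¹ * (e 27)⁻¹ * e 27)⁻¹ * (f (e 243) * f (e 27) * (f (e 243))⁻¹ *
          (f (e 27))⁻¹ * f (e 27)) * f (e 243) := by group
        _ = _ := by rw [b2, ← b3]; group)))
      (mul_mem (inv_mem (show e 27 ∈ L 4 by decide)) (i4 _ (by decide))) h (show e 27 ∈ L 4 by decide)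
    rw [← mem_C.1 b4, mul_inv_cancel_right, mul_inv_cancel] at b2
    exact absurd b2 (by decide +kernel)
  have t3 := triv_of_gen hf (by norm_num) i3 (by decide) a3
  intro k hk
  interval_cases k
  · exact triv_of_gen hf (by norm_num) (fun x hx => by
      rw [L_zero, mem_bot] at hx; rw [hx, hf.homOn.map_one]; exact one_mem _) (g := e 1) (by decide)
      (by rw [h1, inv_mul_cancel]; exact one_mem _)
  · exact triv_of_gen hf (by norm_num) i1 (by decide) h2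
  · refine triv_of_gen hf (by norm_num) i2 (g := e 19683 * e 27 * (e 19683)⁻¹ * (e 27)⁻¹) (by decide +kernel) ?_
    obtain ⟨c, hc, e1⟩ := a2 _ (i5 (e 27) (by decide))
    rw [m, e1, ← mul_assoc]
    exact mul_mem (all_L (k := 4) (p := fun u => (e 27)⁻¹ * u ∈ L 3 → (e 19683 * e 27 * (e 19683)⁻¹ * (e 27)⁻¹)⁻¹ *
      (e 19683 * u * (e 19683)⁻¹ * u⁻¹) ∈ L 2) (by decide +kernel) _ (i4 _ (by decide)) a3) hc
  · exact t3
  · refine triv_of_gen hf (by norm_num) i4 (g := e 81) (by decide) ?_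
    obtain ⟨c, hc, e1⟩ := a2 _ (i5 (e 81) (by decide))
    have b1 := t3 (e 19683 * e 81 * (e 19683)⁻¹ * (e 81)⁻¹) (by decide +kernel)
    rw [m, e1, ← mul_assoc, mul_mem_cancel_right (L_mono (by norm_num) hc)] at b1
    exact all_L (k := 5) (p := fun u => (e 19683 * e 81 * (e 19683)⁻¹ * (e 81)⁻¹)⁻¹ *
      (e 19683 * u * (e 19683)⁻¹ * u⁻¹) ∈ L 3 → (e 81)⁻¹ * u ∈ L 4) (by decide +kernel) _ (i5 _ (by decide)) b1

theorem pElt {α : MulAut (⊤ : Subgroup G)} (hα : Mor F ⊤ (autFun α)) (h1 : autFun α (e 1) = e 1)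
    (h2 : (e 3)⁻¹ * autFun α (e 3) ∈ L 1) : ∃ k, α ^ 3 ^ k = 1 := by
  have := Fact.mk Nat.prime_three
  have h3 := triv_A hα h1 h2
  let β : stabAut (⊤ : Subgroup G) (L 5) := ⟨α, mem_stabAut_of_finite le_top fun x hx => (top_L hα hx).2.2.2⟩
  have hβ : ∀ m, ∀ x ∈ L 5, autFun (α ^ m) x = autFun (resAut le_top β ^ m) x :=
    autFun_pow_eq le_top fun x hx => (autFun_resAut le_top β hx).symm
  obtain ⟨k, hk⟩ := exists_pow_eq_one_of_chain (pG.to_subgroup (L 5)) (resAut le_top β) 5 L le_rfl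
    (fun i hi x hx hx' m => by
      rw [← hβ m x hx]
      induction m with
      | zero => rw [pow_zero, autFun_one (mem_top x), inv_mul_cancel]; exact one_mem _
      | succ m ih =>
        have := mul_mem ih (h3 i hi _ ((mul_mem_cancel_left (inv_mem hx')).1 (L_mono (Nat.le_succ i) ih)))
        rwa [mul_assoc, mul_inv_cancel_left, ← autFun_mul _ _ (mem_top x), ← pow_succ'] at this)
    ⟨0, fun x _ hx => by rw [L_zero, mem_bot] at hx; rw [hx, (homOn_autFun _).map_one]⟩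
  have h4 : ∀ m, ∀ x ∈ L 5, autFun ((α ^ 3 ^ k) ^ m) x = x := fun m x hx => by
    rw [← pow_mul, hβ _ x hx, pow_mul, hk, one_pow, autFun_one hx]
  obtain ⟨j, hj⟩ := exists_pow_eq_one_of_chain pT (α ^ 3 ^ k) 1 (fun i => L (5 + 5 * i)) L_ten.ge
    (fun i hi x _ _ m => by
      obtain rfl : i = 0 := by omega
      refine CA fun a ha => mem_C.2 ?_
      have := (homOn_autFun ((α ^ 3 ^ k) ^ m)).map_conj (mem_top x) (mem_top a)
      rw [h4 m _ (conj_L ha x), h4 m a ha] at this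
      generalize autFun ((α ^ 3 ^ k) ^ m) x = y at this
      calc _ = x⁻¹ * (x * a * x⁻¹) * y := by group
        _ = _ := by rw [this]; group)
    ⟨0, fun x _ hx => h4 _ x hx⟩
  exact ⟨k + j, by rw [pow_add, pow_mul, hj]⟩

theorem L2_shift : ∀ u ∈ L 2, u ∉ L 1 → ∀ n < 3, ∃ i < 3, e 19683 ^ i * u * (e 19683 ^ i)⁻¹ = e n * u :=
  all_L (by decide +kernel)

theorem ext2 (hE : E.IsSaturated 3) (hf : Mor E (L 2) f) (h1 : f (e 1) ∈ L 1) (h2 : ∀ x ∈ L 2, f x ∈ L 2) :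
    ∃ g, Mor E ⊤ g ∧ ∀ x ∈ L 2, g x = f x := by
  have := Fact.mk Nat.prime_three
  have h12 : L 1 ≤ L 2 := L_mono (by norm_num)
  have h3 : e 3 ∈ L 2 := by decide
  have i1 := maps_L hf (k := 1) (by norm_num) h12 fun j hj => by rwa [show j = 0 by omega]
  obtain ⟨g, hg, e1⟩ := hf.extend (by
    rw [hf.img_eq_self le_rfl h2]; exact receptive_of_fullyNormalized pT hE (fn_normal E _))
  refine ⟨g, hg.mono fun a _ => ⟨mem_top _, by rw [normalizer_eq_top]; exact mem_top _, ?_⟩, e1⟩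
  have h4 := comm_L (k := 1) (by norm_num) h3 a
  obtain ⟨i, -, h5⟩ := L2_shift _ (h2 _ h3) (fun h => absurd (back hf h12 i1 h3 h) (by decide)) _ (i1 _ h4)
  refine ⟨e 19683 ^ i, mem_top _, fun x hx => ?_⟩
  obtain ⟨d, -, r, hr, rfl⟩ := split (k := 1) (by norm_num) hx
  rw [e_self, ← hf.homOn.map_mul (h12 h4) h3, inv_mul_cancel_right] at h5
  rw [pow_one, ← conj_mul, ← conj_pow, L1_conj hr, hf.homOn.map_mul (pow_mem (conj_L h3 a) d) (h12 hr),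
    hf.homOn.map_mul (pow_mem h3 d) (h12 hr), ← conj_mul, L1_conj (i1 r hr), hf.homOn.map_pow h3,
    hf.homOn.map_pow (conj_L h3 a), ← conj_pow, h5]

theorem conj_mor (hI : StrongInv E F) {k : ℕ} {g : G → G} (hg : Mor F (L k) g) (h : ∀ x ∈ L k, g x ∈ L k) (a : G) :
    ∃ t, Mor E (L k) t ∧ (∀ x ∈ L k, t x ∈ L k) ∧ ∀ x ∈ L k, t (g x) = g (a * x * a⁻¹) := by
  obtain ⟨t, ht, e1⟩ := hI _ _ _ _ le_rfl le_top (mor_conj E le_top (mem_top a)) (fun x hx => conj_L hx a) hg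
  rw [hg.img_eq_self le_rfl h] at ht
  refine ⟨t, ht, fun y hy => ?_, e1⟩
  obtain ⟨x, hx, rfl⟩ := onto hg le_rfl h hy
  rw [e1 x hx]
  exact h _ (conj_L hx a)

theorem flip {k : ℕ} (hk : k ≤ 5) {t : G → G} (ht : Mor E (L k) t) (h : ∀ x ∈ L k, t x ∈ L k) {x w c a : G}
    (hx : x ∈ L k) (hw : w ∈ L k) (hc : c ∈ L k) (h1 : t x = w * x) (h2 : t w = w) (h3 : t c = c)
    (h4 : a * x * a⁻¹ = x) (h5 : a * w * a⁻¹ = c * x * w) :
    ∃ β, Mor E (L k) β ∧ (∀ y ∈ L k, β y ∈ L k) ∧ β x = c * x⁻¹ ∧ ∀ y ∈ L 1, t y = y → β y = y := by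
  refine ⟨_, (ht.comp (mor_conj E le_rfl (mem_top a)) fun _ _ => mem_top _).comp ht fun y hy => conj_L (h y hy) a,
    fun y hy => h _ (conj_L (h y hy) a), ?_, fun y hy e1 => by rw [e1, L1_conj hy, e1]⟩
  have h6 : x * w * x = x⁻¹ * w := by
    rw [mul_assoc, A_comm (L_mono hk hw) (L_mono hk hx), ← mul_assoc, eq_inv_of_mul_eq_one_left
      ((pow_three' x).symm.trans (A_cube x (L_mono hk hx)))]
  rw [h1, ← conj_mul, h4, h5, mul_assoc c, mul_assoc c, h6, ht.homOn.map_mul hc (mul_mem (inv_mem hx) hw),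
    ht.homOn.map_mul (inv_mem hx) hw, ht.homOn.map_inv hx, h1, h2, h3]
  group

theorem exists_b2 (hE : E.IsSaturated 3) (hI : StrongInv E F) {θ : G → G} (hθ : Mor F (L 9) θ) (h1 : θ (e 1) ∉ L 1)
    (h3 : θ (e 3) ∈ L 1) : ∃ β, Mor E ⊤ β ∧ β (e 1)⁻¹ = e 1 := by
  have hg := hθ.mono (L_mono (show 2 ≤ 9 by norm_num))
  have a1 : e 1 ∈ L 2 := by decide
  have a3 : e 3 ∈ L 2 := by decide
  obtain ⟨t, ht, b1, b2⟩ := conj_mor hI hg (fun x => maps_L2 hθ) (e 19683)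
  obtain ⟨i, -, b3⟩ := L2_shift _ (inv_mem (maps_L2 hθ a1)) (by rwa [inv_mem_iff]) _ h3
  obtain ⟨β, c1, c2, c3, -⟩ := flip (by norm_num) ht b1 (maps_L2 hθ a3) (inv_mem (maps_L2 hθ a1)) (one_mem _)
    (by rw [b2 _ a3, ← hg.homOn.map_inv a1, ← hg.homOn.map_mul (inv_mem a1) a3]; congr 1; decide +kernel)
    (by rw [ht.homOn.map_inv (maps_L2 hθ a1), b2 _ a1, L1_conj (by decide)]) ht.homOn.map_one (L1_conj h3 _)
    (by rw [b3, e_self, one_mul])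
  have c4 : β (e 1) = (e 1)⁻¹ := by
    rw [one_mul] at c3
    rcases L1_cases _ h3 with h | h | h
    · exact absurd h (map_ne_one hg a3 (by decide))
    · rwa [h] at c3
    · rwa [h, c1.homOn.map_inv a1, inv_inj] at c3
  obtain ⟨g, d1, d2⟩ := ext2 hE c1 (by rw [c4]; exact inv_mem (by decide)) c2
  exact ⟨g, d1, by rw [d1.homOn.map_inv (mem_top _), d2 _ a1, c4, inv_inv]⟩

theorem b1_of (hE : E.IsSaturated 3) (hf : Mor E (L 2) f) (h1 : f (e 1) = e 1) (h3 : f (e 3) * e 3 ∈ L 1) :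
    ∃ β, Mor E ⊤ β ∧ β (e 1) = e 1 ∧ β (e 3) * e 3 ∈ L 1 := by
  obtain ⟨g, d1, d2⟩ := ext2 hE hf (by rw [h1]; decide) (maps2 hf (by rw [h1]; decide)
    ((mul_mem_cancel_right (by decide)).1 (L_mono (by norm_num) h3)))
  exact ⟨g, d1, by rwa [d2 _ (by decide)], by rwa [d2 _ (by decide)]⟩

theorem f31 : ∀ w ∈ L 3, w ∉ L 2 → (e 6561 * w * (e 6561)⁻¹ * w⁻¹ ∈ L 2 ∧ e 6561 * w * (e 6561)⁻¹ * w⁻¹ ∉ L 1) ∧
    ∃ i < 3, e 6561 ^ i * w * (e 6561 ^ i)⁻¹ * w⁻¹ * (e 3)⁻¹ ∈ L 1 := all_L (by decide +kernel)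

theorem exists_b1 (hE : E.IsSaturated 3) (hI : StrongInv E F) (h : Case1 F) :
    ∃ β, Mor E ⊤ β ∧ β (e 1) = e 1 ∧ β (e 3) * e 3 ∈ L 1 := by
  obtain ⟨ψ, hψ, -, a2, a3, a4⟩ := h
  have a5 := maps_L3 hψ a4 a3
  have hg := hψ.mono ((L_mono (show 3 ≤ 8 by norm_num)).trans L8_le_E1)
  have h13 : L 1 ≤ L 3 := L_mono (by norm_num)
  have h23 : L 2 ≤ L 3 := L_mono (by norm_num)
  have i1 := maps_L hg (k := 1) (by norm_num) h13 fun j hj => by rwa [show j = 0 by omega]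
  have key : ∀ x ∈ L 2, ψ x ∈ L 2 → x ∈ L 1 := fun x hx h => by
    by_contra h'
    exact a2 ((mem_pre hg).1 (L_succ_le (H := pre hg (L 2)) (k := 1) (by norm_num)
      (fun y hy => (mem_pre hg).2 ⟨h13 hy, L_mono (by norm_num) (i1 y hy)⟩) ((mem_pre hg).2 ⟨h23 hx, h⟩) hx h'
      (by decide))).2
  obtain ⟨t, ht, b1, b2⟩ := conj_mor hI hg a5 (e 6561)
  obtain ⟨x, hx, e1⟩ := onto hg le_rfl a5 (y := e 3) (by decide)
  obtain ⟨⟨c1, c2⟩, -⟩ := f31 x hx fun h => absurd (e1 ▸ i1 x (key x h (by rw [e1]; decide))) (by decide)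
  obtain ⟨-, i, -, c3⟩ := f31 _ (a5 _ (h23 c1)) fun h => c2 (key _ c1 h)
  have c4 : ∀ y ∈ L 1, t y = y := fun y hy => by
    obtain ⟨u, hu, rfl⟩ := onto hg h13 i1 hy
    rw [b2 u (h13 hu), L1_conj hu]
  obtain ⟨β, d1, -, d2, d3⟩ := flip (a := e 6561 ^ i) (by norm_num) ht b1 (x := e 3) (by decide) (a5 _ (h23 c1)) (h13 c3)
    (by rw [← e1, b2 x hx, ← hg.homOn.map_mul (h23 c1) hx, inv_mul_cancel_right])
    (by rw [b2 _ (h23 c1), L9_comm (by decide) c1, mul_inv_cancel_right]) (c4 _ c3)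
    (by rw [L9_comm (pow_mem (by decide) i) (by decide), mul_inv_cancel_right]) (by group)
  exact b1_of hE (d1.mono h23) (d3 _ (by decide) (c4 _ (by decide))) (by rwa [d2, inv_mul_cancel_right])

theorem mor_cancel {β : G → G} (hβ : Mor E ⊤ β) (h : Mor E ⊤ fun x => β (f x)) : Mor E ⊤ f := by
  obtain ⟨g, hg, h1, -, -⟩ := hβ.exists_inv
  exact (h.comp hg fun x _ => mem_img_of_mem β (mem_top _)).congr fun x _ => h1 _ (mem_top _)

theorem top_mor (hF : F.IsSaturated 3) (hsub : E.IsSubsystemOf F) (hI : StrongInv E F)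
    (b1 : ∃ β, Mor E ⊤ β ∧ β (e 1) = e 1 ∧ β (e 3) * e 3 ∈ L 1) (b2 : ∃ β, Mor E ⊤ β ∧ β (e 1)⁻¹ = e 1)
    (hf : Mor F ⊤ f) : Mor E ⊤ f := by
  have := Fact.mk Nat.prime_three
  have k1 : ∀ f, Mor F ⊤ f → f (e 1) = e 1 → (e 3)⁻¹ * f (e 3) ∈ L 1 → Mor E ⊤ f := fun f hf h1 h2 => by
    obtain ⟨α, hα, e1⟩ := hf.exists_aut' le_rfl fun _ _ => mem_top _
    obtain ⟨k, hk⟩ := pElt (mor_autFun le_rfl hα) (by rwa [e1 _ (mem_top _)]) (by rwa [e1 _ (mem_top _)])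
    exact (mor_autFun le_rfl (hI.mem_autGroup_of_pElement pT hF le_rfl hα hk)).congr e1
  have k2 : ∀ f, Mor F ⊤ f → f (e 1) = e 1 → Mor E ⊤ f := fun f hf h1 => by
    rcases all_L (k := 2) (p := fun u => u ∉ L 1 → (e 3)⁻¹ * u ∈ L 1 ∨ e 3 * u ∈ L 1) (by decide +kernel) _
      ((top_L hf (x := e 3) (by decide)).2.1 (by decide)) (fun h => absurd (back hf le_top
        (fun x hx => (top_L hf (L_mono (by norm_num) hx)).1 hx) (mem_top _) h) (by decide)) with h | h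
    · exact k1 f hf h1 h
    · obtain ⟨β, c1, c2, c3⟩ := b1
      refine mor_cancel c1 (k1 _ (hf.comp (c1.of_subsystem hsub) fun _ _ => mem_top _) (by rw [h1, c2]) ?_)
      have c4 := (top_L c1 (L_mono (by norm_num) h)).1 h
      rw [c1.homOn.map_mul (mem_top _) (mem_top _)] at c4
      convert mul_mem (inv_mem c3) c4 using 1
      group
  rcases L1_cases _ ((top_L hf (x := e 1) (by decide)).1 (by decide)) with h | h | h
  · exact absurd h (map_ne_one hf (mem_top _) (by decide))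
  · exact k2 f hf h
  · obtain ⟨β, c1, c2⟩ := b2
    exact mor_cancel c1 (k2 _ (hf.comp (c1.of_subsystem hsub) fun _ _ => mem_top _) (by rw [h, c2]))

theorem L1_le {N : Subgroup G} [N.Normal] (h : N ≠ ⊥) : L 1 ≤ N := by
  have key : ∀ k < 10, ∀ x ∈ N, x ∈ L (k + 1) → x ≠ 1 → Has N 0 := fun k => by
    induction k with
    | zero => exact fun _ x h1 h2 h3 => ⟨x, h1, h2, by rwa [L_zero, mem_bot]⟩
    | succ k ih =>
      intro hk x h1 h2 h3
      by_cases h4 : ∀ g, g ∈ C x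
      · exact ⟨x, h1, all_L (k := 5) (p := fun u => e 19683 ∈ C u → e 6561 ∈ C u → u ∈ L 1) (by decide +kernel) x
          (CA fun g _ => h4 g) (h4 _) (h4 _), by rwa [L_zero, mem_bot]⟩
      · obtain ⟨g, hg⟩ := not_forall.1 h4
        exact ih (by omega) _ (lk_mem h1 g) (comm_L hk h2 g) fun h => hg (by
          rwa [mul_inv_eq_one, mul_inv_eq_iff_eq_mul, ← mem_C] at h)
  obtain ⟨⟨x, hx⟩, h1⟩ := ne_bot_iff_exists_ne_one.1 h
  exact (key 9 (by norm_num) x hx x.lt fun h => h1 (Subtype.ext h)).le (by norm_num) (L_zero ▸ bot_le)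

theorem simple_of_core (hF : F.IsSaturated 3) (hc : F.core = ⊥) : F.IsSimple 3 := by
  have := Fact.mk Nat.prime_three
  refine ⟨hF, fun h => absurd (mem_bot.1 (h ▸ mem_top (e 1))) (by decide), fun T E hE => ?_⟩
  refine or_iff_not_imp_left.2 fun h0 => ?_
  have hT := hE.1.2.2.2.1
  have hsub := hE.1.2.2.1
  have hI := IsInvariantIn.strongInv hE.1.2.2
  have := sc_normal hT
  have hX : ∀ u, X F u → u ∈ T := fun u ⟨_, P, f, hf, h1, h2⟩ => by
    obtain ⟨g, hg, h3, -, -⟩ := hf.exists_inv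
    rw [← h3 u h1]
    exact hg.mem_of_stronglyClosed hT (mem_img_of_mem f h1) (L1_le h0 h2)
  have hN := step2 hF hc
  have h2 : L 2 ≤ T := fun x hx => by
    by_cases h : x = 1
    · rw [h]; exact one_mem _
    · exact hX x (hN x hx h)
  obtain ⟨θ, hθ, h3, h4⟩ := exists_theta hF hc
  have fin : ∀ E : FusionSystem (⊤ : Subgroup G), E.IsNormalIn F 3 →
      (∃ β, Mor E ⊤ β ∧ β (e 1) = e 1 ∧ β (e 3) * e 3 ∈ L 1) → ∀ P, E.Hom P = F.Hom P := fun E hE b1 P =>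
    Set.Subset.antisymm (hE.1.2.2.1 P) (hom_subset_iff.2 fun f hf => (IsInvariantIn.fratCond hE.1.2.2).mor
      (fun a ha _ => top_mor hF hE.1.2.2.1 (IsInvariantIn.strongInv hE.1.2.2) b1
        (exists_b2 hE.1.1 (IsInvariantIn.strongInv hE.1.2.2) hθ h3 h4) ha) hf.le hf)
  rcases cases12 hF hc with h | ⟨hD, h⟩
  · obtain rfl := climb1 hT h2 hθ h3 h
    exact ⟨rfl, fin E hE (exists_b1 hE.1.1 hI h)⟩
  · obtain ⟨a1, a2⟩ := case2_out hF hN hD h
    obtain ⟨k1, b1, b2⟩ := a1 (e 2187) (self_C _) (by decide)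
    obtain ⟨k2, b3, b4⟩ := a1 (e 7533) (by decide +kernel) (by decide)
    have h9 := climb2 h2 (hX _ b1) (hX _ b3) b2 b4
    obtain ⟨⟨f, c1, c2, c3⟩, g, d1, d2, d3⟩ := a2 T E h9 hsub hI
    have h10 : Has T 9 := by
      by_contra h
      have c4 := maps2 c1 (by rw [c2]; decide) (by rw [c3]; decide)
      have c5 := lemJ (sylIn_of_fullyNormalized (pG.to_subgroup T) hE.1.1 (isFullyNormalized_of_normalizerIn_eq E h2
        (by rw [normalizer_eq_top]; exact le_top))) le_rfl (fun a ha u hu => by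
          rw [L9_comm (by by_contra h'; exact h ⟨a, ha.1, a.lt, h'⟩) hu, mul_inv_cancel_right]) c1 c4 c4
        (fun x hx => by
          rw [L2_val c1 (c4 _ (c4 x hx)), L2_val c1 (c4 x hx), L2_val c1 hx, c2, c3]
          exact all_L (k := 2) (p := fun x => e 4 ^ ((e 4 ^ ((e 4 ^ (x.v / 3) * e 1 ^ (x.v % 3)).v / 3) *
            e 1 ^ ((e 4 ^ (x.v / 3) * e 1 ^ (x.v % 3)).v % 3)).v / 3) * e 1 ^ ((e 4 ^ ((e 4 ^ (x.v / 3) *
            e 1 ^ (x.v % 3)).v / 3) * e 1 ^ ((e 4 ^ (x.v / 3) * e 1 ^ (x.v % 3)).v % 3)).v % 3) = x)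
            (by decide +kernel) x hx) (e 3) (by decide)
      exact absurd (c3.symm.trans c5) (by decide)
    obtain rfl : T = ⊤ := eq_top_iff.2 (L_ten ▸ h10.le (by norm_num) h9)
    exact ⟨rfl, fin E hE (b1_of hE.1.1 d1 d2 (by rw [d3]; decide +kernel))⟩

end CL.T3
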