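/-
Every fusion system is realized by a group acting on a tree: a subgroup of `F(E) ⋊ Sym(S)`, where `E` is the set of edges
of a graph with the vertices `Sym(S) / S`.
-/
import Cfsg.Agent.Fus.Realized

set_option autoImplicit false

namespace CL.Fus.VF

open Cfsg FreeGroup SemidirectProduct
open scoped Pointwise

universe u

section Tree

variable {H V E : Type u} [Group H] [MulAction H V] [MulAction H E]

variable (H E) in
/-- The action on the free group by permuting the generators. -/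
def act : H →* MulAut (FreeGroup E) :=
  MonoidHom.mk' (fun h => freeGroupCongr (MulAction.toPerm h)) fun a b => MulEquiv.toMonoidHom_injective
    (FreeGroup.ext_hom _ _ fun x => by simp [mul_smul])

/-- The action on words. -/
def mv (h : H) (l : List (E × Bool)) : List (E × Bool) := l.map fun a => (h • a.1, a.2)

theorem act_mk (h : H) (l : List (E × Bool)) : act H E h (mk l) = mk (mv h l) := rfl

/-- Paths in the graph in which the letter `a` leads from `st a` to `st a⁻¹`. -/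
def Path (st : E × Bool → V) : V → List (E × Bool) → V → Prop
  | v, [], v' => v = v'
  | v, a :: l, v' => v = st a ∧ Path st (st (a.1, !a.2)) l v'

variable {st : E × Bool → V}

omit [Group H] [MulAction H V] [MulAction H E] in
theorem path_append {l l' : List (E × Bool)} {v v'' : V} :
    Path st v (l ++ l') v'' ↔ ∃ v', Path st v l v' ∧ Path st v' l' v'' := by
  induction l generalizing v with
  | nil => simp [Path]
  | cons a l ih => simp [Path, ih, and_assoc]

omit [Group H] [MulAction H V] [MulAction H E] in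
theorem Path.red {l l' : List (E × Bool)} {v v' : V} (h : Path st v l v') (r : Red l l') : Path st v l' v' := by
  induction r with
  | refl => exact h
  | tail _ s ih =>
    cases s
    obtain ⟨w, h1, rfl, -, h2⟩ := path_append.1 ih
    exact path_append.2 ⟨_, h1, by simpa using h2⟩

omit [Group H] [MulAction H V] [MulAction H E] in
theorem Path.invRev {l : List (E × Bool)} {v v' : V} (h : Path st v l v') : Path st v' (invRev l) v := by
  induction l generalizing v with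
  | nil => exact h.symm
  | cons a l ih => exact invRev_cons ▸ path_append.2 ⟨_, ih h.2, rfl, by simp [h.1, Path]⟩

theorem Path.mv (hst : ∀ (h : H) a, st (h • a.1, a.2) = h • st a) (g : H) {l : List (E × Bool)} {v v' : V}
    (h : Path st v l v') : Path st (g • v) (mv g l) (g • v') := by
  induction l generalizing v with
  | nil => exact congrArg _ h
  | cons a l ih => exact ⟨by rw [hst, h.1], (hst g (a.1, !a.2)).symm ▸ ih h.2⟩

variable [DecidableEq E]

theorem toWord_act (h : H) (w : FreeGroup E) : (act H E h w).toWord = mv h w.toWord := by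
  conv_lhs => rw [← mk_toWord (x := w), act_mk, toWord_mk]
  exact IsReduced.reduce_eq ((List.isChain_map _).2
    (isReduced_toWord.imp fun a b e e' => e (MulAction.injective h e')))

theorem norm_act (h : H) (w : FreeGroup E) : norm (act H E h w) = norm w := by
  simp [FreeGroup.norm, toWord_act, mv]

omit [Group H] [MulAction H V] [MulAction H E] in
theorem norm_lt {w : FreeGroup E} {a b : E × Bool} {l : List (E × Bool)} (hw : w.toWord = a :: b :: l) (x : FreeGroup E) :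
    norm ((mk [a])⁻¹ * x) < max (norm x) (norm (w⁻¹ * x)) := by
  by_cases h : ∃ l', x.toWord = a :: l'
  · obtain ⟨l', e⟩ := h
    have : (mk [a])⁻¹ * x = mk l' := by rw [inv_mul_eq_iff_eq_mul, mul_mk, ← mk_toWord (x := x), e]; rfl
    refine lt_max_of_lt_left (this ▸ norm_mk_le.trans_lt ?_)
    simp [FreeGroup.norm, e]
  · have h1 : IsReduced (w⁻¹.toWord ++ x.toWord) := List.isChain_append.2 ⟨isReduced_toWord, isReduced_toWord, by
      rintro c hc d hd e
      obtain ⟨l', e'⟩ := List.head?_eq_some_iff.1 hd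
      obtain rfl : (a.1, !a.2) = c := by simpa [toWord_inv, hw, FreeGroup.invRev] using hc
      exact (Bool.eq_not_of_ne fun e2 => h ⟨l', e'.trans (by rw [show d = a from Prod.ext e.symm e2])⟩).symm⟩
    have h2 : norm (w⁻¹ * x) = norm w + norm x := by
      rw [← norm_inv_eq (x := w), FreeGroup.norm, toWord_mul, h1.reduce_eq, List.length_append]; rfl
    have h3 := norm_mul_le (mk [a])⁻¹ x
    have h4 : norm (mk [a]) ≤ 1 := norm_mk_le
    have h5 : 2 ≤ norm w := by simp [FreeGroup.norm, hw]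
    rw [norm_inv_eq] at h3
    exact lt_max_of_lt_right (by omega)

theorem norm_inv_mul (a x : FreeGroup E ⋊[act H E] H) : norm (a⁻¹ * x).left = norm (a.left⁻¹ * x.left) := by
  rw [mul_left, inv_left, inv_right, ← _root_.map_mul, norm_act]

/-- The lifts of the elements of `H` to the tree of reduced paths starting at `v₀`. -/
def Lift (hst : ∀ (h : H) a, st (h • a.1, a.2) = h • st a) (v₀ : V) : Subgroup (FreeGroup E ⋊[act H E] H) where
  carrier := {g | Path st v₀ g.left.toWord (g.right • v₀)}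
  one_mem' := (one_smul _ _).symm
  mul_mem' {a b} ha hb := by
    rw [Set.mem_setOf_eq, mul_left, toWord_mul, toWord_act, mul_right, mul_smul]
    exact (path_append.2 ⟨_, ha, Path.mv hst _ hb⟩).red reduce.red
  inv_mem' {a} ha := by
    have := Path.mv hst a.right⁻¹ (Path.invRev ha)
    rwa [inv_smul_smul, ← toWord_inv, ← toWord_act] at this

variable {hst : ∀ (h : H) a, st (h • a.1, a.2) = h • st a} {v₀ : V}

theorem exists_fix (hV : ∀ a, ∃ h : H, st a = h • v₀) (K : Subgroup (Lift hst v₀)) [Finite K] :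
    ∃ g : Lift hst v₀, ∀ k ∈ K, (g⁻¹ * k * g).1.left = 1 := by
  classical
  have h0 : ∃ n, ∃ g : Lift hst v₀, ∀ k ∈ K, norm (g⁻¹ * k).1.left ≤ n :=
    (Finite.exists_le fun k : K => norm ((1 : Lift hst v₀)⁻¹ * k).1.left).imp fun n h => ⟨1, fun k hk => h ⟨k, hk⟩⟩
  obtain ⟨g, hg⟩ := Nat.find_spec h0
  have h1 : ∀ k ∈ K, norm (g⁻¹ * k * g).1.left ≤ 1 := fun k hk => by
    by_contra hn
    obtain ⟨a, b, l, e⟩ : ∃ a b l, (g⁻¹ * k * g).1.left.toWord = a :: b :: l := by
      rcases e : (g⁻¹ * k * g).1.left.toWord with _ | ⟨a, _ | ⟨b, l⟩⟩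
      iterate 2 exact absurd (by simp only [FreeGroup.norm, e]; simp) hn
      exact ⟨a, b, l, rfl⟩
    obtain ⟨h, hh⟩ := hV (a.1, !a.2)
    have ha : Path st v₀ _ _ := (g⁻¹ * k * g).2
    replace ha := (e ▸ ha).1
    let y : Lift hst v₀ := ⟨⟨mk [a], h⟩, show Path st v₀ [a] _ from ⟨ha, hh⟩⟩
    have h2 : ∀ k' ∈ K, norm ((g * y)⁻¹ * k').1.left < Nat.find h0 := fun k' hk' => by
      have h3 := norm_lt e (g⁻¹ * k').1.left
      have h4 := hg _ (mul_mem (inv_mem hk) hk')
      rw [show g⁻¹ * (k⁻¹ * k') = (g⁻¹ * k * g)⁻¹ * (g⁻¹ * k') by group] at h4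
      rw [mul_inv_rev, mul_assoc]
      exact (norm_inv_mul y.1 _).trans_lt (h3.trans_le (max_le (hg k' hk') ((norm_inv_mul _ _).ge.trans h4)))
    have := h2 1 (one_mem K)
    exact Nat.find_min h0 (show Nat.find h0 - 1 < _ by omega) ⟨g * y, fun k' hk' => Nat.le_sub_one_of_lt (h2 k' hk')⟩
  refine ⟨g, fun k hk => ?_⟩
  have h2 := h1 _ (mul_mem hk hk)
  have h3 := h1 k hk
  rw [show g⁻¹ * (k * k) * g = g⁻¹ * k * g * (g⁻¹ * k * g) by group] at h2
  rcases e : (g⁻¹ * k * g).1.left.toWord with _ | ⟨a, _ | ⟨b, l⟩⟩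
  · exact toWord_eq_nil_iff.1 e
  · rw [Subgroup.coe_mul, mul_left, FreeGroup.norm, toWord_mul, toWord_act, e,
      IsReduced.reduce_eq (by simp [mv, FreeGroup.IsReduced])] at h2
    simp [mv] at h2
  · simp only [FreeGroup.norm, e] at h3
    simp at h3

end Tree

section Fus

variable {Ω : Type u} [Group Ω] {S : Subgroup Ω} (F : FusionSystem S) {H : Type u} [Group H] (ρ : S →* H)

/-- Passing from `v` to `v'` is, on the stabiliser of `C`, a map of the system. -/
def Good (C : Set H) (v v' : H ⧸ ρ.range) : Prop :=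
  ∃ (h k : H) (Q : Subgroup Ω) (ψ : Ω → Ω), v = h ∧ v' = k ∧ Mor F Q ψ ∧
    (∀ y ∈ S, (h * ext ρ y * h⁻¹) • C = C → y ∈ Q) ∧ ∀ y ∈ Q, ext ρ (ψ y) = k⁻¹ * (h * ext ρ y * h⁻¹) * k

theorem Good.smul {C : Set H} {v v' : H ⧸ ρ.range} (h : Good F ρ C v v') (g : H) : Good F ρ (g • C) (g • v) (g • v') := by
  obtain ⟨h, k, Q, ψ, rfl, rfl, h1, h2, h3⟩ := h
  refine ⟨g * h, g * k, Q, ψ, rfl, rfl, h1, fun y hy e => h2 y hy (MulAction.injective g ?_), fun y hy => by
    rw [h3 y hy]; group⟩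
  refine Eq.trans ?_ e
  simp only [smul_smul]
  congr 1
  group

/-- The edges. -/
def Edge : SubMulAction H (Set H × (H ⧸ ρ.range) × (H ⧸ ρ.range)) where
  carrier := {e | Good F ρ e.1 e.2.1 e.2.2 ∧ Good F ρ e.1 e.2.2 e.2.1}
  smul_mem' g _ h := ⟨h.1.smul F ρ g, h.2.smul F ρ g⟩

/-- The initial vertex of a letter. -/
def sv (a : Edge F ρ × Bool) : H ⧸ ρ.range := bif a.2 then a.1.1.2.1 else a.1.1.2.2

theorem sv_smul (h : H) (a : Edge F ρ × Bool) : sv F ρ (h • a.1, a.2) = h • sv F ρ a := by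
  obtain ⟨e, _ | _⟩ := a <;> rfl

theorem good_sv (a : Edge F ρ × Bool) : Good F ρ a.1.1.1 (sv F ρ a) (sv F ρ (a.1, !a.2)) := by
  obtain ⟨e, _ | _⟩ := a
  exacts [e.2.2, e.2.1]

variable {F ρ}

theorem mor_of_path (n : ℕ) : ∀ l : List (Edge F ρ × Bool), l.length = n → ∀ (h : H) (P : Subgroup Ω), P ≤ S →
    Path (sv F ρ) (1 : H) l (h : H ⧸ ρ.range) → (∀ x ∈ P, ∀ a ∈ l, ext ρ x • a.1 = a.1) →
    ∃ f, Mor F P f ∧ ∀ x ∈ P, ext ρ (f x) = h⁻¹ * ext ρ x * h := by
  have key : ∀ (h : H) (P : Subgroup Ω), P ≤ S → ((1 : H) : H ⧸ ρ.range) = h →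
      ∃ f, Mor F P f ∧ ∀ x ∈ P, ext ρ (f x) = h⁻¹ * ext ρ x * h := fun h P hP e => by
    obtain ⟨s, hs⟩ := QuotientGroup.eq.1 e
    refine ⟨_, mor_conj F hP (s⁻¹).2, fun x hx => ?_⟩
    rw [(homOn_ext ρ).map_conj (s⁻¹).2 (hP hx), ext_coe, _root_.map_inv, hs]
    simp
  induction n with
  | zero => intro l hl h P hP hp _; rw [List.length_eq_zero_iff.1 hl] at hp; exact key h P hP hp
  | succ n ih =>
    rintro (_ | ⟨a, l⟩) hl h P hP hp hfix
    · exact key h P hP hp
    obtain ⟨h', k, Q, ψ, e1, e2, m, h1, h2⟩ := good_sv F ρ a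
    obtain ⟨f, m1, h3⟩ := key h' P hP (hp.1.trans e1)
    have h4 : ∀ x ∈ P, h' * ext ρ (f x) * h'⁻¹ = ext ρ x := fun x hx => by rw [h3 x hx]; group
    have h5 : ∀ x ∈ P, f x ∈ Q := fun x hx => h1 _ (m1.mem hx) (by
      rw [h4 x hx]; exact congrArg (fun e : Edge F ρ => e.1.1) (hfix x hx a (by simp)))
    have m2 := m1.comp m h5
    have h6 := Path.mv (sv_smul F ρ) k⁻¹ hp.2
    rw [e2, MulAction.Quotient.smul_coe, MulAction.Quotient.smul_coe, smul_eq_mul, inv_mul_cancel] at h6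
    obtain ⟨g, m3, h7⟩ := ih _ (by simpa [mv] using hl) _ _ m2.img_le h6 fun y hy b hb => by
      obtain ⟨x, hx, rfl⟩ := m2.mem_img.1 hy
      obtain ⟨c, hc, rfl⟩ := List.mem_map.1 hb
      rw [h2 _ (h5 x hx), h4 x hx, mul_smul, smul_inv_smul, mul_smul, hfix x hx c (by simp [hc])]
    refine ⟨_, m2.comp m3 fun x hx => mem_img_of_mem _ hx, fun x hx => ?_⟩
    rw [h7 _ (mem_img_of_mem _ hx), h2 _ (h5 x hx), h4 x hx, smul_eq_mul]
    group

theorem exists_edge (hρ : Function.Injective ρ) {P : Subgroup Ω} {f : Ω → Ω} (m : Mor F P f) {k : H}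
    (h : ∀ x ∈ P, ext ρ (f x) = k⁻¹ * ext ρ x * k) :
    ∃ e : Edge F ρ, e.1.2 = (((1 : H) : H ⧸ ρ.range), (k : H ⧸ ρ.range)) ∧ ∀ x ∈ P, ext ρ x • e = e := by
  obtain ⟨g, m', h1, -, -⟩ := m.exists_inv
  have h2 : ∀ z : H, z • (ext ρ '' (P : Set Ω)) = ext ρ '' P → ∃ x ∈ P, ext ρ x = z := fun z e =>
    e.le ⟨_, ⟨1, one_mem P, rfl⟩, by simp [(homOn_ext ρ).map_one]⟩
  refine ⟨⟨(ext ρ '' P, ((1 : H) : H ⧸ ρ.range), (k : H ⧸ ρ.range)),
    ⟨1, k, P, f, rfl, rfl, m, fun y hy e => ?_, fun y hy => by simpa using h y hy⟩,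
    ⟨k, 1, _, g, rfl, rfl, m', fun y hy e => ?_, fun y hy => ?_⟩⟩, rfl, fun x hx =>
      Subtype.ext (Prod.ext ?_ (Prod.ext (QuotientGroup.eq.2 ?_) (QuotientGroup.eq.2 ?_)))⟩
  · obtain ⟨x, hx, e⟩ := h2 _ e
    exact ext_injOn hρ (m.le hx) hy (by simpa using e) ▸ hx
  · obtain ⟨x, hx, e⟩ := h2 _ e
    exact ext_injOn hρ (m.mem hx) hy (by rw [h x hx, e]; group) ▸ mem_img_of_mem f hx
  · obtain ⟨x, hx, rfl⟩ := m.mem_img.1 hy
    rw [h1 x hx, h x hx]; group
  · have k1 : ∀ x ∈ P, ext ρ x • (ext ρ '' (P : Set Ω)) ⊆ ext ρ '' P := by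
      rintro x hx _ ⟨_, ⟨y, hy, rfl⟩, rfl⟩
      exact ⟨x * y, mul_mem hx hy, (homOn_ext ρ).map_mul (m.le hx) (m.le hy)⟩
    refine (k1 x hx).antisymm (Set.subset_smul_set_iff.2 ?_)
    exact (homOn_ext ρ).map_inv (m.le hx) ▸ k1 _ (inv_mem hx)
  · simpa using ext_mem_range ρ (m.le hx)
  · have := inv_mem (h x hx ▸ ext_mem_range ρ (m.mem hx))
    simpa [mul_assoc] using this

theorem exists_perm {T : Type u} [Group T] [Finite T] {P Q : Subgroup T} (e : P ≃* Q) :
    ∃ π : Equiv.Perm T, ∀ (t : T) (x : P), π (t * x) = π t * e x := by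
  have h : ∀ P : Subgroup T, Function.Bijective fun z : (T ⧸ P) × P => z.1.out * z.2 := fun P =>
    Function.Surjective.bijective_of_nat_card_le (fun t => by
      obtain ⟨x, hx⟩ := QuotientGroup.mk_out_eq_mul P t
      exact ⟨(t, x⁻¹), by simp [hx]⟩) (by rw [Nat.card_prod, ← P.card_eq_card_quotient_mul_card_subgroup])
  have hc : Nat.card (T ⧸ P) = Nat.card (T ⧸ Q) := Nat.eq_of_mul_eq_mul_right (Nat.card_pos (α := Q)) (by
    rw [← Q.card_eq_card_quotient_mul_card_subgroup, ← Nat.card_congr e.toEquiv,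
      ← P.card_eq_card_quotient_mul_card_subgroup])
  obtain ⟨β⟩ := Finite.card_eq.1 hc
  refine ⟨(Equiv.ofBijective _ (h P)).symm.trans ((β.prodCongr e.toEquiv).trans (Equiv.ofBijective _ (h Q))),
    fun t x => ?_⟩
  obtain ⟨⟨q, y⟩, rfl⟩ := (Equiv.ofBijective _ (h P)).surjective t
  rw [show Equiv.ofBijective _ (h P) (q, y) * x = Equiv.ofBijective _ (h P) (q, y * x) from mul_assoc _ _ _]
  simp only [Equiv.trans_apply, Equiv.symm_apply_apply]
  simp [mul_assoc]

theorem realize (hρ : Function.Injective ρ)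
    (hF : ∀ P f, Mor F P f → ∃ k : H, ∀ x ∈ P, ext ρ (f x) = k⁻¹ * ext ρ x * k) :
    ∃ (G : Type u) (_ : Group G) (ι : S →* G), F.IsRealizedBy ι ∧
      (∀ K : Subgroup G, Finite K → ∃ g : G, ∀ k ∈ K, g * k * g⁻¹ ∈ ι.range) ∧
      ∃ N : Subgroup G, N.Normal ∧ IsFreeGroup N ∧ N.index ∣ Nat.card H := by
  classical
  let G := Lift (sv_smul F ρ) ((1 : H) : H ⧸ ρ.range)
  have hG : ∀ g, g ∈ G ↔ Path (sv F ρ) (1 : H) g.left.toWord (g.right : H ⧸ ρ.range) := fun g => by
    rw [← mul_one g.right]; rfl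
  let ι : S →* G := (inr.comp ρ).codRestrict G fun s => (hG _).2 (QuotientGroup.eq.2 (by simp))
  have hι : ∀ x ∈ S, (ext ι x).1 = inr (ext ρ x) := fun x hx => by rw [ext_apply _ hx, ext_apply _ hx]; rfl
  refine ⟨G, inferInstance, ι, isRealizedBy_of_mor' (fun a b e => hρ (inr_injective (congrArg Subtype.val e)))
    (fun P f m => ?_) fun P f g hP hf hg => ?_, fun K _ => ?_, (rightHom.comp G.subtype).ker, inferInstance, ?_, ?_⟩
  · obtain ⟨k, h⟩ := hF P f m
    obtain ⟨e, h1, h2⟩ := exists_edge hρ m h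
    refine ⟨(⟨⟨of e, k⟩, (hG _).2 ⟨(congrArg Prod.fst h1).symm, congrArg Prod.snd h1⟩⟩ : G)⁻¹, fun x hx => ?_⟩
    rw [inv_inv, mul_assoc, eq_inv_mul_iff_mul_eq]
    refine Subtype.ext ?_
    rw [Subgroup.coe_mul, Subgroup.coe_mul, hι _ (m.mem hx), hι _ (m.le hx)]
    refine SemidirectProduct.ext ?_ (by simp [h x hx, mul_assoc])
    rw [mul_left, mul_left, left_inr, left_inr, right_inr]
    simp [act, h2 x hx]
  · have h1 : ∀ x ∈ P, (g⁻¹).1 * inr (ext ρ (f x)) = inr (ext ρ x) * (g⁻¹).1 := fun x hx => by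
      rw [← hι _ (hf x hx), ← hι _ (hP hx), hg x hx]; simp [mul_assoc]
    obtain ⟨f', m, h2⟩ := mor_of_path _ _ rfl _ P hP ((hG _).1 (g⁻¹).2) fun x hx a ha => by
      have := congrArg (fun z => toWord z.left) (h1 x hx)
      simp only [mul_left, left_inr, _root_.map_one, mul_one, one_mul, right_inr, toWord_act] at this
      exact congrArg Prod.fst (List.map_inj_left.1 (this.symm.trans (List.map_id _).symm) a ha)
    refine m.congr fun x hx => ext_injOn hρ (m.mem hx) (hf x hx) ?_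
    rw [h2 x hx, mul_assoc, inv_mul_eq_iff_eq_mul]
    exact (congrArg right (h1 x hx)).symm
  · obtain ⟨g, hg⟩ := exists_fix (fun a => ⟨(sv F ρ a).out, by simp⟩) K
    refine ⟨g⁻¹, fun k hk => ?_⟩
    have h1 := (hG _).1 (g⁻¹ * k * g).2
    rw [hg k hk] at h1
    obtain ⟨s, hs⟩ := QuotientGroup.eq.1 h1
    exact ⟨s, Subtype.ext (SemidirectProduct.ext (by rw [inv_inv, hg k hk]; rfl) (hs.trans (by simp)))⟩
  · let j : G.comap inl →* G := (inl.comp (Subgroup.subtype _)).codRestrict G fun x => x.2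
    refine IsFreeGroup.ofMulEquiv ((MonoidHom.ofInjective (f := j) fun a b e =>
      Subtype.ext (inl_injective (congrArg Subtype.val e))).trans (MulEquiv.subgroupCongr (Subgroup.ext fun g => ?_)))
    refine ⟨by rintro ⟨x, rfl⟩; rfl, fun h => ?_⟩
    have e : inl g.1.left = g.1 := SemidirectProduct.ext rfl (Eq.symm h)
    exact ⟨⟨g.1.left, show inl _ ∈ G from e.symm ▸ g.2⟩, Subtype.ext e⟩
  · rw [Subgroup.index_ker]
    exact Subgroup.card_subgroup_dvd_card _

theorem main [Finite S] (F : FusionSystem S) : ∃ (G : Type u) (_ : Group G) (ι : S →* G), F.IsRealizedBy ι ∧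
    (∀ K : Subgroup G, Finite K → ∃ g : G, ∀ k ∈ K, g * k * g⁻¹ ∈ ι.range) ∧
    ∃ N : Subgroup G, N.Normal ∧ IsFreeGroup N ∧ N.index ∣ (Nat.card S).factorial := by
  let ρ : S →* Equiv.Perm S := MonoidHom.mk' (fun x => Equiv.mulRight x⁻¹) fun a b => Equiv.ext fun c => by
    simp [mul_assoc]
  rw [← Nat.card_perm]
  refine realize (ρ := ρ) (fun a b e => by simpa [ρ] using congrArg (fun π : Equiv.Perm S => π 1) e) fun P f m => ?_
  obtain ⟨π, hπ⟩ := exists_perm ((Subgroup.subgroupOfEquivOfLe m.le).trans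
    ((m.equiv rfl).trans (Subgroup.subgroupOfEquivOfLe m.img_le).symm))
  refine ⟨π⁻¹, fun x hx => ?_⟩
  rw [inv_inv, eq_mul_inv_iff_mul_eq, ext_apply _ (m.le hx), ext_apply _ (m.mem hx)]
  exact Equiv.ext fun t => ((hπ t (⟨⟨x, m.le hx⟩, hx⟩⁻¹)).trans (congrArg (fun z => π t * Subtype.val z)
    (_root_.map_inv _ _))).symm

end Fus

end CL.Fus.VF
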